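import Mathlib

/-! Finite checks in the alternating group of degree six for Sylow 2-subgroups. -/

set_option autoImplicit false

namespace Cfsg.Agent.Lib.A6Sylow

open Equiv

/-- A generator of order four. -/
def aa : Perm (Fin 6) := swap 0 1 * swap 1 2 * swap 2 3 * swap 4 5
/-- A reflection. -/
def bb : Perm (Fin 6) := swap 0 2 * swap 4 5
/-- The central involution. -/
def zz : Perm (Fin 6) := aa * aa
/-- A three-cycle giving product of order three. -/
def y1 : Perm (Fin 6) := swap 3 4 * swap 4 5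
/-- A three-cycle giving product of order five. -/
def y2 : Perm (Fin 6) := swap 2 3 * swap 3 4
/-- The standard Sylow 2-subgroup of the alternating group of degree six. -/
def L0 : Finset (Perm (Fin 6)) := {1, aa, aa*aa, aa*aa*aa, bb, aa*bb, aa*aa*bb, aa*aa*aa*bb}

/-- The set of elements moving `L0` to a subgroup meeting it trivially. -/
def Gam : Finset (Perm (Fin 6)) :=
  Finset.univ.filter (fun y : Perm (Fin 6) => Equiv.Perm.sign y = 1 ∧ ∀ a ∈ L0, y * a * y⁻¹ ∈ L0 → a = 1)

set_option maxRecDepth 100000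

theorem card_L0 : L0.card = 8 := by decide +kernel
theorem L0_even : ∀ a ∈ L0, Equiv.Perm.sign a = 1 := by decide +kernel
theorem L0_one : (1 : Perm (Fin 6)) ∈ L0 := by decide +kernel
theorem L0_mul : ∀ a ∈ L0, ∀ b ∈ L0, a * b ∈ L0 := by decide +kernel
theorem L0_inv : ∀ a ∈ L0, a⁻¹ ∈ L0 := by decide +kernel
theorem zz_mem : zz ∈ L0 := by decide +kernel
theorem zz_ne : zz ≠ 1 := by decide +kernel
theorem zz_comm : ∀ a ∈ L0, zz * a = a * zz := by decide +kernel
theorem center_L0 : ∀ c ∈ L0, (∀ a ∈ L0, c * a = a * c) → c = 1 ∨ c = zz := by decide +kernel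
theorem y1_mem : y1 ∈ Gam := by decide +kernel
theorem y2_mem : y2 ∈ Gam := by decide +kernel
theorem y1_pow : (zz * (y1 * zz * y1⁻¹)) ^ 3 = 1 := by decide +kernel
theorem y2_pow : (zz * (y2 * zz * y2⁻¹)) ^ 3 ≠ 1 := by decide +kernel
theorem card_Gam : Gam.card ≤ 256 := by decide +kernel

end Cfsg.Agent.Lib.A6Sylow
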