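import Mathlib
import Cfsg.Agent.Lib.Wielandt
import Cfsg.Agent.Lib.FitCore

/-!
The affine semilinear group of degree nine over the field with three elements, given in coordinates.
-/

set_option autoImplicit false
set_option linter.all false

namespace Cfsg.Agent.Lib.AGamma

abbrev F9 := Fin 3 × Fin 3

def w (x : F9) : F9 := (x.1 - x.2, x.1 + x.2)
def wp (k : Fin 8) (x : F9) : F9 := w^[k.val] x
def phi (e : Fin 2) (x : F9) : F9 := if e = 0 then x else (x.1, -x.2)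
def u (e : Fin 2) (k : Fin 8) : Fin 8 := if e = 0 then k else 3 * k

abbrev T0 := Fin 8 × Fin 2 × F9

def mul0 (s t : T0) : T0 :=
  (s.1 + u s.2.1 t.1, s.2.1 + t.2.1, s.2.2 + wp s.1 (phi s.2.1 t.2.2))

def inv0 (s : T0) : T0 :=
  (-(u s.2.1 s.1), s.2.1, phi s.2.1 (wp (-s.1) (-s.2.2)))

theorem wp_add : ∀ (k : Fin 8) (x y : F9), wp k (x + y) = wp k x + wp k y := by decide +kernel
theorem phi_add : ∀ (e : Fin 2) (x y : F9), phi e (x + y) = phi e x + phi e y := by decide +kernel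
theorem wp_wp : ∀ (k l : Fin 8) (x : F9), wp k (wp l x) = wp (k + l) x := by decide +kernel
theorem phi_wp : ∀ (e : Fin 2) (k : Fin 8) (x : F9), phi e (wp k x) = wp (u e k) (phi e x) := by
  decide +kernel
theorem phi_phi : ∀ (e f : Fin 2) (x : F9), phi e (phi f x) = phi (e + f) x := by decide +kernel
theorem u_u : ∀ (e f : Fin 2) (k : Fin 8), u e (u f k) = u (e + f) k := by decide +kernel
theorem u_add : ∀ (e : Fin 2) (k l : Fin 8), u e (k + l) = u e k + u e l := by decide +kernel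

theorem mul0_assoc (s t r : T0) : mul0 (mul0 s t) r = mul0 s (mul0 t r) := by
  simp only [mul0]
  refine Prod.ext ?_ (Prod.ext ?_ ?_)
  · show s.1 + u s.2.1 t.1 + u (s.2.1 + t.2.1) r.1 = s.1 + u s.2.1 (t.1 + u t.2.1 r.1)
    rw [u_add, u_u, add_assoc]
  · show s.2.1 + t.2.1 + r.2.1 = s.2.1 + (t.2.1 + r.2.1)
    rw [add_assoc]
  · show s.2.2 + wp s.1 (phi s.2.1 t.2.2) + wp (s.1 + u s.2.1 t.1) (phi (s.2.1 + t.2.1) r.2.2) =
      s.2.2 + wp s.1 (phi s.2.1 (t.2.2 + wp t.1 (phi t.2.1 r.2.2)))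
    rw [phi_add, wp_add, phi_wp, wp_wp, phi_phi, add_assoc]

theorem mul0_one : ∀ t : T0, mul0 (0, 0, (0, 0)) t = t := by decide +kernel
theorem mul0_inv : ∀ t : T0, mul0 (inv0 t) t = (0, 0, (0, 0)) := by decide +kernel

/-- The group. -/
def T : Type := T0

instance : Fintype T := inferInstanceAs (Fintype T0)
instance : DecidableEq T := inferInstanceAs (DecidableEq T0)
instance : Mul T := ⟨mul0⟩
instance : One T := ⟨((0, 0, (0, 0)) : T0)⟩
instance : Inv T := ⟨inv0⟩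

instance instGroupT : Group T := Group.ofLeftAxioms (fun a b c => mul0_assoc a b c) mul0_one mul0_inv

theorem mul_def (s t : T) : s * t = mul0 s t := rfl
theorem one_def : (1 : T) = ((0, 0, (0, 0)) : T0) := rfl

/-- The Frobenius element. -/
def a : T := ((0, 1, (0, 0)) : T0)

/-- A translation of order three. -/
def t0 : T := ((0, 0, (0, 1)) : T0)

theorem good : ∀ c : T0, ∃ v : T0,
    (mul0 (mul0 (mul0 v c) (inv0 v)) ((0, 1, (0, 0)) : T0) = mul0 ((0, 1, (0, 0)) : T0) (mul0 (mul0 v c) (inv0 v))) ∨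
      (mul0 (mul0 v c) (inv0 v)).2.2 = (0, 0) := by
  decide +kernel

/-- Fourth iterated square. -/
def sq4 (x : T0) : T0 :=
  let y := mul0 x x
  let z := mul0 y y
  let r := mul0 z z
  mul0 r r

theorem pow16 (x : T) : (x ^ (2 ^ 4) : T) = (sq4 x : T) := by
  have e : (2 ^ 4 : ℕ) = 2 * 2 * 2 * 2 := by norm_num
  rw [e, pow_mul, pow_mul, pow_mul, sq, sq, sq, sq]
  rfl

theorem P_mul : ∀ s t : T0, s.2.2 = (0, 0) → t.2.2 = (0, 0) → (mul0 s t).2.2 = (0, 0) := by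
  decide +kernel
theorem P_inv : ∀ s : T0, s.2.2 = (0, 0) → (inv0 s).2.2 = (0, 0) := by decide +kernel
theorem P_pow : ∀ s : T0, s.2.2 = (0, 0) → sq4 s = (0, 0, (0, 0)) := by decide +kernel

/-- The stabilizer of the origin. -/
def P : Subgroup T where
  carrier := {t | (show T0 from t).2.2 = (0, 0)}
  mul_mem' := fun {s t} hs ht => P_mul s t hs ht
  one_mem' := rfl
  inv_mem' := fun {s} hs => P_inv s hs

theorem N_mul : ∀ s t : T0, (s.1 = 0 ∧ s.2.1 = 0) → (t.1 = 0 ∧ t.2.1 = 0) →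
    ((mul0 s t).1 = 0 ∧ (mul0 s t).2.1 = 0) := by decide +kernel
theorem N_inv : ∀ s : T0, (s.1 = 0 ∧ s.2.1 = 0) → ((inv0 s).1 = 0 ∧ (inv0 s).2.1 = 0) := by
  decide +kernel
theorem N_conj : ∀ g s : T0, (s.1 = 0 ∧ s.2.1 = 0) →
    ((mul0 (mul0 g s) (inv0 g)).1 = 0 ∧ (mul0 (mul0 g s) (inv0 g)).2.1 = 0) := by decide +kernel
theorem N_comm0 : ∀ b c : F9, mul0 ((0, 0, b) : T0) ((0, 0, c) : T0) = mul0 ((0, 0, c) : T0) ((0, 0, b) : T0) := by
  decide +kernel
theorem N_comm (s t : T0) (hs : s.1 = 0 ∧ s.2.1 = 0) (ht : t.1 = 0 ∧ t.2.1 = 0) :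
    mul0 s t = mul0 t s := by
  have e1 : s = (0, 0, s.2.2) := Prod.ext hs.1 (Prod.ext hs.2 rfl)
  have e2 : t = (0, 0, t.2.2) := Prod.ext ht.1 (Prod.ext ht.2 rfl)
  rw [e1, e2]
  exact N_comm0 _ _
theorem N_pow : ∀ s : T0, (sq4 s).1 = 0 ∧ (sq4 s).2.1 = 0 := by decide +kernel

/-- The translations. -/
def N : Subgroup T where
  carrier := {t | (show T0 from t).1 = 0 ∧ (show T0 from t).2.1 = 0}
  mul_mem' := fun {s t} hs ht => N_mul s t hs ht
  one_mem' := ⟨rfl, rfl⟩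
  inv_mem' := fun {s} hs => N_inv s hs

instance instNNormal : N.Normal := ⟨fun n hn g => N_conj g n hn⟩

theorem T_solvable : Group.IsSolvable T := by
  haveI hs : Group.IsSolvable N := isSolvable_of_comm (fun a b => Subtype.ext (N_comm a.1 b.1 a.2 b.2))
  haveI hf2 : Fact (Nat.Prime 2) := ⟨Nat.prime_two⟩
  have hP : IsPGroup 2 (T ⧸ N) := by
    intro x
    induction x using QuotientGroup.induction_on with
    | H x =>
      refine ⟨4, ?_⟩
      rw [← QuotientGroup.mk_pow, QuotientGroup.eq_one_iff, pow16]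
      exact N_pow x
  haveI := hP.isNilpotent
  exact (Group.isSolvable_iff_subgroup_quotient N).2 ⟨hs, inferInstance⟩

/-- A commutator of order three. -/
def x3 : T := ((0, 0, (0, 2)) : T0)

theorem a_sq : a ^ 2 = 1 := by
  rw [sq]
  show mul0 ((0, 1, (0, 0)) : T0) ((0, 1, (0, 0)) : T0) = (0, 0, (0, 0))
  decide +kernel

theorem a_ne : a ≠ 1 := by
  show ((0, 1, (0, 0)) : T0) ≠ (0, 0, (0, 0))
  decide +kernel

theorem order_a : orderOf a = 2 := by
  haveI hf2 : Fact (Nat.Prime 2) := ⟨Nat.prime_two⟩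
  exact orderOf_eq_prime a_sq a_ne

theorem a_not_core : a ∉ Cfsg.pCore 2 T := by
  intro h
  haveI hf2 : Fact (Nat.Prime 2) := ⟨Nat.prime_two⟩
  have hn := Cfsg.Agent.Lib.FitCore.pCore_normal (G := T) 2
  have hp := Cfsg.Agent.Lib.FitCore.pCore_isPGroup (G := T) 2
  have h1 : t0 * a * t0⁻¹ ∈ Cfsg.pCore 2 T := hn.conj_mem a h t0
  have h2 : t0 * a * t0⁻¹ * a⁻¹ ∈ Cfsg.pCore 2 T := (Cfsg.pCore 2 T).mul_mem h1 ((Cfsg.pCore 2 T).inv_mem h)
  have hxe : t0 * a * t0⁻¹ * a⁻¹ = x3 := by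
    show mul0 (mul0 (mul0 ((0, 0, (0, 1)) : T0) ((0, 1, (0, 0)) : T0)) (inv0 ((0, 0, (0, 1)) : T0))) (inv0 ((0, 1, (0, 0)) : T0)) = ((0, 0, (0, 2)) : T0)
    decide +kernel
  rw [hxe] at h2
  obtain ⟨k, hk⟩ := hp ⟨_, h2⟩
  have hk' : x3 ^ (2 ^ k) = 1 := congrArg Subtype.val hk
  have h3 : x3 ^ 3 = 1 := by
    rw [pow_succ, sq]
    show mul0 (mul0 ((0, 0, (0, 2)) : T0) ((0, 0, (0, 2)) : T0)) ((0, 0, (0, 2)) : T0) = ((0, 0, (0, 0)) : T0)
    decide +kernel
  have h4 : x3 ≠ 1 := by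
    show ((0, 0, (0, 2)) : T0) ≠ ((0, 0, (0, 0)) : T0)
    decide +kernel
  haveI hf3 : Fact (Nat.Prime 3) := ⟨Nat.prime_three⟩
  have h5 := orderOf_eq_prime h3 h4
  have h6 := orderOf_dvd_of_pow_eq_one hk'
  rw [h5] at h6
  have h7 := Nat.Prime.dvd_of_dvd_pow Nat.prime_three h6
  omega

theorem subnormal_of_comm (g : T) (hg : g * a = a * g) :
    ((Subgroup.zpowers a).subgroupOf (Subgroup.zpowers a ⊔ Subgroup.zpowers g)).IsSubnormal := by
  apply Subgroup.Normal.isSubnormal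
  rw [Subgroup.normal_subgroupOf_iff_le_normalizer le_sup_left]
  have hle : Subgroup.zpowers a ⊔ Subgroup.zpowers g ≤
      Subgroup.centralizer (Subgroup.zpowers a : Set T) := by
    apply sup_le
    · rw [Subgroup.zpowers_le]
      rintro _ ⟨i, rfl⟩
      exact (Commute.refl a).zpow_left i
    · rw [Subgroup.zpowers_le]
      rintro _ ⟨i, rfl⟩
      have hc : Commute a g := hg.symm
      exact hc.zpow_left i
  exact hle.trans (Subgroup.centralizer_le_normalizer _)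

theorem subnormal_of_P (g : T) (hg : g ∈ P) :
    ((Subgroup.zpowers a).subgroupOf (Subgroup.zpowers a ⊔ Subgroup.zpowers g)).IsSubnormal := by
  haveI hf2 : Fact (Nat.Prime 2) := ⟨Nat.prime_two⟩
  have haP : a ∈ P := rfl
  have hle : Subgroup.zpowers a ⊔ Subgroup.zpowers g ≤ P :=
    sup_le (Subgroup.zpowers_le.2 haP) (Subgroup.zpowers_le.2 hg)
  have hP : IsPGroup 2 (Subgroup.zpowers a ⊔ Subgroup.zpowers g : Subgroup T) := by
    intro x
    refine ⟨4, ?_⟩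
    apply Subtype.ext
    show (x : T) ^ (2 ^ 4) = 1
    rw [pow16]
    exact P_pow (show T0 from (x : T)) (hle x.2)
  haveI := hP.isNilpotent
  exact Cfsg.Agent.Lib.Wielandt.subnormal_of_nilpotent _

/-- The example. -/
theorem exists_example : ∃ (G : Type) (_ : Group G) (_ : Finite G) (A : Subgroup G),
    Group.IsSolvable G ∧ Nat.card A = 2 ∧
      (∀ c : G, ∃ g : G, IsConj c g ∧ (A.subgroupOf (A ⊔ Subgroup.zpowers g)).IsSubnormal) ∧
      ¬ A ≤ Cfsg.pCore 2 G := by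
  refine ⟨T, inferInstance, inferInstance, Subgroup.zpowers a, T_solvable, ?_, ?_, ?_⟩
  · rw [Nat.card_zpowers, order_a]
  · intro c
    obtain ⟨v, hv⟩ := good (show T0 from c)
    let v' : T := v
    refine ⟨v' * c * v'⁻¹, isConj_iff.2 ⟨v', rfl⟩, ?_⟩
    rcases hv with h | h
    · exact subnormal_of_comm _ h
    · exact subnormal_of_P _ h
  · intro h
    exact a_not_core (h (Subgroup.mem_zpowers a))

end Cfsg.Agent.Lib.AGamma
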