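import Mathlib

/-!
# Abelian subgroups of symmetric groups: orbit-product bound
-/

namespace Cfsg.Agent.Lib.AbPerm

open Equiv MulAction

section orbit

variable {X : Type*}

theorem fix_of_fix (A : Subgroup (Perm X)) [hc : IsMulCommutative A] {a : A} {x y : X}
    (hy : y ∈ orbit A x) (hx : a • x = x) : a • y = y := by
  obtain ⟨b, rfl⟩ := hy
  show a • b • x = b • x
  rw [smul_smul, hc.is_comm.comm a b, mul_smul, hx]

theorem card_le_prod (A : Subgroup (Perm X)) [hc : IsMulCommutative A]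
    [Fintype (orbitRel.Quotient A X)] [Finite X] :
    Nat.card A ≤ ∏ ω : orbitRel.Quotient A X, Nat.card ω.orbit := by
  classical
  rw [← Nat.card_pi]
  let f : A → ∀ ω : orbitRel.Quotient A X, ω.orbit := fun a ω =>
    ⟨a • ω.out, by
      rw [orbitRel.Quotient.mem_orbit]
      have : (Quotient.mk'' (a • ω.out) : orbitRel.Quotient A X) = Quotient.mk'' ω.out := by
        apply Quotient.sound'
        exact ⟨a, rfl⟩
      rw [this]
      exact Quotient.out_eq' ω⟩
  have hf : Function.Injective f := by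
    intro a b hab
    have h1 : ∀ ω : orbitRel.Quotient A X, a • ω.out = b • ω.out := fun ω =>
      congrArg Subtype.val (congrFun hab ω)
    have h2 : ∀ y : X, a • y = b • y := by
      intro y
      set ω : orbitRel.Quotient A X := Quotient.mk'' y with hω
      have hy : y ∈ orbit A ω.out := by
        have : (Quotient.mk'' ω.out : orbitRel.Quotient A X) = Quotient.mk'' y := by
          rw [hω]; exact Quotient.out_eq' _
        exact (Quotient.exact' this.symm)
      have h3 : (b⁻¹ * a) • ω.out = ω.out := by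
        rw [mul_smul, h1 ω, inv_smul_smul]
      have h4 := fix_of_fix A hy h3
      rw [mul_smul, inv_smul_eq_iff] at h4
      exact h4
    exact Subtype.ext (Equiv.ext h2)
  exact Nat.card_le_card_of_injective f hf

theorem sum_card_orbit (A : Subgroup (Perm X)) [Fintype (orbitRel.Quotient A X)] [Finite X] :
    ∑ ω : orbitRel.Quotient A X, Nat.card ω.orbit = Nat.card X := by
  classical
  rw [Nat.card_congr (selfEquivSigmaOrbits' A X), Nat.card_sigma]

end orbit

/-- the maximal product of a partition -/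
def g : ℕ → ℕ
  | 0 => 1
  | 1 => 1
  | 2 => 2
  | 3 => 3
  | 4 => 4
  | (n + 5) => 3 * g (n + 2)

theorem g_three (n : ℕ) : 3 * g n ≤ g (n + 3) := by
  match n with
  | 0 => simp [g]
  | 1 => simp [g]
  | n + 2 =>
    show 3 * g (n + 2) ≤ g (n + 5)
    rw [g]

theorem mul_g_le : ∀ N s m : ℕ, s + m ≤ N → s * g m ≤ g (s + m) := by
  intro N
  induction N using Nat.strong_induction_on with
  | _ N ih =>
    intro s m hN
    by_cases hs : 5 ≤ s
    · obtain ⟨t, rfl⟩ : ∃ t, s = t + 3 := ⟨s - 3, by omega⟩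
      have h1 := ih (t + m) (by omega) t m le_rfl
      have h2 := g_three (t + m)
      have h3 : t + 3 + m = t + m + 3 := by ring
      rw [h3]
      nlinarith [Nat.zero_le (g m)]
    by_cases hm : 5 ≤ m
    · obtain ⟨t, rfl⟩ : ∃ t, m = t + 5 := ⟨m - 5, by omega⟩
      have h1 := ih (s + (t + 2)) (by omega) s (t + 2) le_rfl
      have h2 := g_three (s + (t + 2))
      have h3 : s + (t + 5) = s + (t + 2) + 3 := by ring
      rw [h3]
      have h4 : g (t + 5) = 3 * g (t + 2) := by rw [g]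
      rw [h4]
      nlinarith
    · have hs' : s ≤ 4 := by omega
      have hm' : m ≤ 4 := by omega
      interval_cases s <;> interval_cases m <;> simp [g]

theorem g_3 (k : ℕ) (hk : 1 ≤ k) : g (3 * k) = 3 ^ k := by
  induction k, hk using Nat.le_induction with
  | base => rfl
  | succ k hk ih =>
    obtain ⟨j, rfl⟩ : ∃ j, k = j + 1 := ⟨k - 1, by omega⟩
    have : 3 * (j + 1 + 1) = (3 * j + 1) + 5 := by ring
    rw [this, g, show 3 * j + 1 + 2 = 3 * (j + 1) by ring, ih]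
    ring

theorem g_3_1 (k : ℕ) (hk : 1 ≤ k) : g (3 * k + 1) = 4 * 3 ^ (k - 1) := by
  induction k, hk using Nat.le_induction with
  | base => rfl
  | succ k hk ih =>
    obtain ⟨j, rfl⟩ : ∃ j, k = j + 1 := ⟨k - 1, by omega⟩
    have : 3 * (j + 1 + 1) + 1 = (3 * j + 2) + 5 := by ring
    rw [this, g, show 3 * j + 2 + 2 = 3 * (j + 1) + 1 by ring, ih]
    simp only [Nat.add_sub_cancel]
    ring

theorem g_3_2 (k : ℕ) : g (3 * k + 2) = 2 * 3 ^ k := by
  induction k with
  | zero => rfl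
  | succ k ih =>
    have : 3 * (k + 1) + 2 = (3 * k) + 5 := by ring
    rw [this, g, ih]
    ring

theorem prod_le_g {Ω : Type*} [Fintype Ω] (s : Ω → ℕ) : ∏ ω, s ω ≤ g (∑ ω, s ω) := by
  classical
  suffices h : ∀ T : Finset Ω, ∏ ω ∈ T, s ω ≤ g (∑ ω ∈ T, s ω) from h Finset.univ
  intro T
  induction T using Finset.induction_on with
  | empty => simp [g]
  | insert a T ha ih =>
    rw [Finset.prod_insert ha, Finset.sum_insert ha]
    exact (Nat.mul_le_mul_left _ ih).trans (mul_g_le _ _ _ le_rfl)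

/-- The bound for abelian subgroups of symmetric groups. -/
theorem card_le_g {X : Type*} [Finite X] (A : Subgroup (Perm X)) [IsMulCommutative A] :
    Nat.card A ≤ g (Nat.card X) := by
  classical
  haveI : Fintype (orbitRel.Quotient A X) := Fintype.ofFinite _
  calc Nat.card A ≤ ∏ ω : orbitRel.Quotient A X, Nat.card ω.orbit := card_le_prod A
    _ ≤ g (∑ ω : orbitRel.Quotient A X, Nat.card ω.orbit) := prod_le_g _
    _ = g (Nat.card X) := by rw [sum_card_orbit]

/-! ### Lower bounds -/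

section lower

/-- A commutative subgroup of order `c` in `S_n`. -/
def Ab (n c : ℕ) : Prop := ∃ A : Subgroup (Perm (Fin n)), IsMulCommutative A ∧ Nat.card A = c

/-- A commutative subgroup of order `c` in `A_n`. -/
def AbA (n c : ℕ) : Prop := ∃ A : Subgroup (Perm (Fin n)), IsMulCommutative A ∧
  A ≤ alternatingGroup (Fin n) ∧ Nat.card A = c

theorem sum_sub {n m : ℕ} (A : Subgroup (Perm (Fin n))) (B : Subgroup (Perm (Fin m)))
    [hA : IsMulCommutative A] [hB : IsMulCommutative B] :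
    ∃ T : Subgroup (Perm (Fin (n + m))), IsMulCommutative T ∧ Nat.card T = Nat.card A * Nat.card B ∧
      (A ≤ alternatingGroup (Fin n) → B ≤ alternatingGroup (Fin m) → T ≤ alternatingGroup (Fin (n + m))) := by
  let e : Perm (Fin n ⊕ Fin m) ≃* Perm (Fin (n + m)) := (finSumFinEquiv (m := n) (n := m)).permCongrHom
  let φ : Perm (Fin n) × Perm (Fin m) →* Perm (Fin (n + m)) :=
    e.toMonoidHom.comp (Perm.sumCongrHom _ _)
  have hφ : Function.Injective φ := e.injective.comp Perm.sumCongrHom_injective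
  refine ⟨(A.prod B).map φ, ⟨⟨?_⟩⟩, ?_, ?_⟩
  · rintro ⟨_, ⟨a, ha, rfl⟩⟩ ⟨_, ⟨b, hb, rfl⟩⟩
    apply Subtype.ext
    show φ a * φ b = φ b * φ a
    rw [← map_mul, ← map_mul]
    congr 1
    apply Prod.ext
    · exact congrArg Subtype.val (hA.is_comm.comm ⟨a.1, ha.1⟩ ⟨b.1, hb.1⟩)
    · exact congrArg Subtype.val (hB.is_comm.comm ⟨a.2, ha.2⟩ ⟨b.2, hb.2⟩)
  · rw [Subgroup.card_map_of_injective hφ, Nat.card_congr (Subgroup.prodEquiv A B).toEquiv, Nat.card_prod]
  · intro h1 h2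
    rintro _ ⟨a, ha, rfl⟩
    rw [Equiv.Perm.mem_alternatingGroup]
    show Perm.sign (finSumFinEquiv.permCongr (Perm.sumCongr a.1 a.2)) = 1
    rw [Perm.sign_permCongr, Perm.sign_sumCongr, (Equiv.Perm.mem_alternatingGroup).1 (h1 ha.1),
      (Equiv.Perm.mem_alternatingGroup).1 (h2 ha.2)]
    simp

theorem Ab.add {n m c d : ℕ} : Ab n c → Ab m d → Ab (n + m) (c * d) := by
  rintro ⟨A, hA, rfl⟩ ⟨B, hB, rfl⟩
  obtain ⟨T, h1, h2, -⟩ := sum_sub A B
  exact ⟨T, h1, h2⟩

theorem AbA.add {n m c d : ℕ} : AbA n c → AbA m d → AbA (n + m) (c * d) := by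
  rintro ⟨A, hA, hA', rfl⟩ ⟨B, hB, hB', rfl⟩
  obtain ⟨T, h1, h2, h3⟩ := sum_sub A B
  exact ⟨T, h1, h3 hA' hB', h2⟩

theorem AbA.ab {n c : ℕ} : AbA n c → Ab n c := by
  rintro ⟨A, hA, -, h⟩
  exact ⟨A, hA, h⟩

theorem AbA_zero : AbA 0 1 := by
  refine ⟨⊥, ⟨⟨?_⟩⟩, bot_le, by simp⟩
  rintro ⟨a, ha⟩ ⟨b, hb⟩
  simp only [Subgroup.mem_bot] at ha hb
  subst ha; subst hb; rfl

theorem AbA_three : AbA 3 3 := by
  refine ⟨alternatingGroup (Fin 3), ⟨⟨?_⟩⟩, le_rfl, ?_⟩
  · have : ∀ a b : Perm (Fin 3), Perm.sign a = 1 → Perm.sign b = 1 →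
        a * b = b * a := by decide +kernel
    rintro ⟨a, ha⟩ ⟨b, hb⟩
    exact Subtype.ext (this a b ha hb)
  · rw [Nat.card_eq_fintype_card]
    decide +kernel

/-- the finset of `V₄` -/
def V4s : Finset (Perm (Fin 4)) :=
  {1, swap 0 1 * swap 2 3, swap 0 2 * swap 1 3, swap 0 3 * swap 1 2}

/-- `V₄` in `A₄`. -/
def V4 : Subgroup (Perm (Fin 4)) where
  carrier := V4s
  mul_mem' := by
    have : ∀ a b : Perm (Fin 4), a ∈ V4s → b ∈ V4s → a * b ∈ V4s := by decide +kernel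
    intro a b ha hb
    exact this a b ha hb
  one_mem' := by
    show (1 : Perm (Fin 4)) ∈ V4s
    decide +kernel
  inv_mem' := by
    have : ∀ a : Perm (Fin 4), a ∈ V4s → a⁻¹ ∈ V4s := by decide +kernel
    intro a ha
    exact this a ha

theorem AbA_four : AbA 4 4 := by
  refine ⟨V4, ⟨⟨?_⟩⟩, ?_, ?_⟩
  · have : ∀ a b : Perm (Fin 4), a ∈ V4s → b ∈ V4s → a * b = b * a := by decide +kernel
    rintro ⟨a, ha⟩ ⟨b, hb⟩
    exact Subtype.ext (this a b ha hb)
  · have : ∀ a : Perm (Fin 4), a ∈ V4s → Perm.sign a = 1 := by decide +kernel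
    intro a ha
    exact this a ha
  · have h : ((V4 : Subgroup (Perm (Fin 4))) : Set (Perm (Fin 4))) = (V4s : Set (Perm (Fin 4))) := rfl
    have h2 : Nat.card (V4 : Subgroup (Perm (Fin 4))) = ((V4 : Subgroup (Perm (Fin 4))) : Set (Perm (Fin 4))).ncard :=
      Nat.card_coe_set_eq ((V4 : Subgroup (Perm (Fin 4))) : Set (Perm (Fin 4)))
    rw [h2, h, Set.ncard_coe_finset]
    decide +kernel

theorem Ab_two : Ab 2 2 := by
  refine ⟨⊤, ⟨⟨?_⟩⟩, ?_⟩
  · have : ∀ a b : Perm (Fin 2), a * b = b * a := by decide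
    rintro ⟨a, ha⟩ ⟨b, hb⟩
    exact Subtype.ext (this a b)
  · simp [Nat.card_eq_fintype_card, Fintype.card_perm]

theorem AbA_3k (k : ℕ) : AbA (3 * k) (3 ^ k) := by
  induction k with
  | zero => exact AbA_zero
  | succ k ih =>
    have := ih.add AbA_three
    simpa [Nat.mul_succ, pow_succ] using this

theorem AbA_3k1 (k : ℕ) (hk : 1 ≤ k) : AbA (3 * k + 1) (4 * 3 ^ (k - 1)) := by
  obtain ⟨j, rfl⟩ : ∃ j, k = j + 1 := ⟨k - 1, by omega⟩
  have := (AbA_3k j).add AbA_four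
  convert this using 1
  · ring
  · simp; ring

theorem AbA_3k2 (k : ℕ) (hk : 2 ≤ k) : AbA (3 * k + 2) (16 * 3 ^ (k - 2)) := by
  obtain ⟨j, rfl⟩ : ∃ j, k = j + 2 := ⟨k - 2, by omega⟩
  have := ((AbA_3k j).add AbA_four).add AbA_four
  convert this using 1
  · ring
  · simp; ring

theorem Ab_3k2 (k : ℕ) : Ab (3 * k + 2) (2 * 3 ^ k) := by
  have := (AbA_3k k).ab.add Ab_two
  convert this using 1
  ring

theorem of_alt {n c : ℕ} (h : AbA n c) : ∃ A : Subgroup (alternatingGroup (Fin n)),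
    IsMulCommutative A ∧ Nat.card A = c := by
  obtain ⟨A, hA, hle, rfl⟩ := h
  refine ⟨A.subgroupOf (alternatingGroup (Fin n)), ⟨⟨?_⟩⟩, ?_⟩
  · rintro ⟨a, ha⟩ ⟨b, hb⟩
    apply Subtype.ext
    apply Subtype.ext
    show (a : Perm (Fin n)) * (b : Perm (Fin n)) = (b : Perm (Fin n)) * (a : Perm (Fin n))
    exact congrArg Subtype.val (hA.is_comm.comm ⟨a.1, ha⟩ ⟨b.1, hb⟩)
  · exact Nat.card_congr (Subgroup.subgroupOfEquivOfLe hle).toEquiv

theorem to_perm {n : ℕ} (A : Subgroup (alternatingGroup (Fin n))) [hA : IsMulCommutative A] :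
    ∃ B : Subgroup (Perm (Fin n)), IsMulCommutative B ∧ B ≤ alternatingGroup (Fin n) ∧
      Nat.card B = Nat.card A := by
  refine ⟨A.map (alternatingGroup (Fin n)).subtype, ⟨⟨?_⟩⟩, ?_, ?_⟩
  · rintro ⟨_, ⟨a, ha, rfl⟩⟩ ⟨_, ⟨b, hb, rfl⟩⟩
    apply Subtype.ext
    exact congrArg (fun x : A => ((x : alternatingGroup (Fin n)) : Perm (Fin n)))
      (hA.is_comm.comm ⟨a, ha⟩ ⟨b, hb⟩)
  · rintro _ ⟨a, -, rfl⟩
    exact a.2
  · exact Subgroup.card_map_of_injective (Subgroup.subtype_injective _)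

end lower

end Cfsg.Agent.Lib.AbPerm
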