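import Cfsg.Agent.Lib.IsomChain
import Cfsg.Agent.Lib.QuadBase

/-! Orders of orthogonal groups through chains of stabilisers of hyperbolic pairs. -/

set_option autoImplicit false
set_option linter.unusedSectionVars false
set_option linter.unusedVariables false

namespace Cfsg.Agent.Lib.OrthChain

open Cfsg Cfsg.Geo Cfsg.Agent.Lib.IsomChain Cfsg.Agent.Lib.QuadBase
open scoped Matrix
open QuadraticMap (polar)

variable {ι : Type} [Fintype ι] [DecidableEq ι] {F : Type*} [Field F] {Q : (ι → F) → F}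

/-- The function whose isometries are those of `Q`. -/
def TQ {V F : Type*} [Add V] (Q : V → F) (x y : V) : F := Q (x + y)

/-- The hyperbolic plane. -/
def THq (F : Type*) [Field F] (a b : F × F) : F := (a.1 + b.1) * (a.2 + b.2)

/-- A quadratic function as a quadratic form. -/
noncomputable def toQF (hQ : IsNondegenerateQuadraticForm Q) : QuadraticForm F (ι → F) where
  toFun := Q
  toFun_smul c v := by
    rw [hQ.smul, smul_eq_mul, pow_two]
  exists_companion' := ⟨LinearMap.mk₂ F (polar Q) (pol_add_left hQ) (pol_smul_left hQ) (pol_add_right hQ)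
    (pol_smul_right hQ), fun x y ↦ by
      simp only [LinearMap.mk₂_apply, polar]
      ring⟩

theorem hasStep_quad [Finite F] (hQ : IsNondegenerateQuadraticForm Q) : Witt.HasStep (TQ Q) := by
  have h : (QuadraticMap.polarBilin (toQF hQ)).Nondegenerate := by
    constructor
    · intro x hx
      by_contra hne
      obtain ⟨y, hy⟩ := (hQ.nondegenerate x hne).2
      exact hy (hx y)
    · intro x hx
      by_contra hne
      obtain ⟨y, hy⟩ := (hQ.nondegenerate x hne).1
      exact hy (hx y)
  exact Witt.quad_step (toQF hQ) h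

theorem Isom_TQ_iff {g : (ι → F) ≃ₗ[F] (ι → F)} (h0 : Q 0 = Q 0) :
    g ∈ Isom (TQ Q) ↔ ∀ x, Q (g x) = Q x := by
  constructor
  · intro h x
    have := h x 0
    simpa [TQ] using this
  · intro h x y
    change Q (g x + g y) = Q (x + y)
    rw [← map_add, h]

theorem card_isometryGroup : Nat.card (isometryGroup F Q) = Nat.card (Isom (TQ Q)) :=
  Nat.card_congr (Equiv.subtypeEquiv glLE (fun g ↦ by
    rw [Isom_TQ_iff rfl]
    constructor
    · intro h x
      exact h x 0
    · intro h u v
      exact h u))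

/-- Hyperbolic pairs. -/
def Hyp (Q : (ι → F) → F) := {p : (ι → F) × (ι → F) // Q p.1 = 0 ∧ Q p.2 = 0 ∧ polar Q p.1 p.2 = 1}

/-- Embeddings of the hyperbolic plane. -/
noncomputable def emQ (hQ : IsNondegenerateQuadraticForm Q) : Em (TQ Q) (THq F) ≃ Hyp Q := by
  have hφ0 : ∀ (φ : Em (TQ Q) (THq F)) (a : F × F), Q (φ.1 a) = a.1 * a.2 := by
    intro φ a
    have := φ.2.2 a 0
    simpa [TQ, THq] using this
  refine
    { toFun := fun φ ↦ ⟨(φ.1 (1, 0), φ.1 (0, 1)), ?_, ?_, ?_⟩
      invFun := fun p ↦ ⟨(LinearMap.id.smulRight p.1.1).coprod (LinearMap.id.smulRight p.1.2), ?_, ?_⟩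
      left_inv := ?_
      right_inv := ?_ }
  · rw [hφ0]; simp
  · rw [hφ0]; simp
  · simp only [polar]
    rw [← map_add, hφ0, hφ0, hφ0]
    simp
  · obtain ⟨⟨u, v⟩, hu, hv, huv⟩ := p
    simp only at hu hv huv
    rw [← LinearMap.ker_eq_bot, LinearMap.ker_eq_bot']
    rintro ⟨x, y⟩ hab
    simp only [LinearMap.coprod_apply, LinearMap.smulRight_apply, LinearMap.id_apply] at hab
    have h1 := congrArg (fun z ↦ polar Q z v) hab
    have h2 := congrArg (fun z ↦ polar Q u z) hab
    simp only [pol_add_left hQ, pol_smul_left hQ, pol_add_right hQ, pol_smul_right hQ, pol_self hQ, huv, hu, hv,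
      pol_zero_left hQ, pol_zero_right hQ] at h1 h2
    have ha : x = 0 := by simpa using h1
    have hb : y = 0 := by simpa using h2
    rw [ha, hb]
    rfl
  · obtain ⟨⟨u, v⟩, hu, hv, huv⟩ := p
    simp only at hu hv huv
    have key : ∀ x y : F, Q (x • u + y • v) = x * y := by
      intro x y
      rw [Q_add (Q := Q), hQ.smul, hQ.smul, pol_smul_left hQ, pol_smul_right hQ, hu, hv, huv]
      ring
    rintro ⟨a, b⟩ ⟨c, d⟩
    change Q _ = _
    simp only [LinearMap.coprod_apply, LinearMap.smulRight_apply, LinearMap.id_apply, THq]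
    rw [show a • u + b • v + (c • u + d • v) = (a + c) • u + (b + d) • v by
      rw [add_smul, add_smul]; abel]
    exact key _ _
  · rintro ⟨φ, h1, h2⟩
    apply Subtype.ext
    ext <;> simp
  · rintro ⟨⟨u, v⟩, huv⟩
    apply Subtype.ext
    ext <;> simp

/-- Counting hyperbolic pairs. -/
theorem card_hyp [Fintype F] (hQ : IsNondegenerateQuadraticForm Q) :
    Fintype.card F ^ 2 * Nat.card (Hyp Q) =
      (Nat.card {v : ι → F // Q v = 0} - 1) * Nat.card (ι → F) := by
  classical
  set q := Fintype.card F with hq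
  let P : {u : ι → F // Q u = 0} → Type _ := fun u ↦ {v : ι → F // Q v = 0 ∧ polar Q u.1 v = 1}
  have h1 : Nat.card (Hyp Q) = Nat.card (Σ u, P u) := by
    refine Nat.card_congr ?_
    exact
      { toFun := fun p ↦ ⟨⟨p.1.1, p.2.1⟩, ⟨p.1.2, p.2.2⟩⟩
        invFun := fun s ↦ ⟨(s.1.1, s.2.1), s.1.2, s.2.2⟩
        left_inv := fun p ↦ rfl
        right_inv := fun s ↦ rfl }
  have h0 : Q 0 = 0 := Q_zero hQ
  have h2 : ∀ u : {u : ι → F // Q u = 0}, u.1 ≠ 0 → q ^ 2 * Nat.card (P u) = Nat.card (ι → F) := by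
    rintro ⟨u, hu⟩ hu0
    simp only at hu0
    obtain ⟨y, hy⟩ := exists_right_ne hQ hu0
    let w : ι → F := (polar Q u y)⁻¹ • y
    have hw : polar Q u w = 1 := by
      rw [pol_smul_right hQ]
      exact inv_mul_cancel₀ hy
    have h3 := FormCount.card_fiber (F := F) (V := ι → F) (fun v ↦ polar Q u v) (fun d v ↦ v + d • w)
      (by intro y; simp) (by intro d d' y; rw [add_assoc, ← add_smul, add_comm d']) (by
        intro y d
        rw [pol_add_right hQ, pol_smul_right hQ, hw, mul_one]) 1
    let Y := {v : ι → F // polar Q u v = 1}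
    have h4 := FormCount.card_fiber (F := F) (V := Y) (fun v ↦ Q v.1)
      (fun d v ↦ ⟨v.1 + d • u, by
        rw [pol_add_right hQ, pol_smul_right hQ, pol_self hQ, hu, v.2]
        ring⟩)
      (by intro y; apply Subtype.ext; simp)
      (by
        intro d d' y
        apply Subtype.ext
        simp only
        rw [add_assoc, ← add_smul, add_comm d'])
      (by
        intro y d
        simp only
        rw [Q_add (Q := Q), hQ.smul, hu, pol_smul_right hQ, QuadraticMap.polar_comm, y.2]
        ring) 0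
    have h5 : Nat.card {y : Y // Q y.1 = 0} = Nat.card (P ⟨u, hu⟩) := by
      refine Nat.card_congr ?_
      exact
        { toFun := fun y ↦ ⟨y.1.1, y.2, y.1.2⟩
          invFun := fun v ↦ ⟨⟨v.1, v.2.2⟩, v.2.1⟩
          left_inv := fun _ ↦ rfl
          right_inv := fun _ ↦ rfl }
    rw [h5] at h4
    rw [← h3, ← h4]
    ring
  have h3 : Nat.card (P ⟨0, h0⟩) = 0 := by
    have : IsEmpty (P ⟨0, h0⟩) := ⟨fun v ↦ by
      have := v.2.2
      rw [pol_zero_left hQ] at this
      exact zero_ne_one this⟩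
    exact Nat.card_of_isEmpty
  have hfin : Fintype {u : ι → F // Q u = 0} := Fintype.ofFinite _
  rw [h1, Nat.card_sigma, Finset.mul_sum,
    ← Finset.add_sum_erase _ _ (Finset.mem_univ (⟨0, h0⟩ : {u : ι → F // Q u = 0})), h3, mul_zero, zero_add,
    Finset.sum_congr rfl (g := fun _ ↦ Nat.card (ι → F)) (fun u hu ↦ h2 u (fun h ↦ Finset.ne_of_mem_erase hu (Subtype.ext h))),
    Finset.sum_const, Finset.card_erase_of_mem (Finset.mem_univ _), Finset.card_univ, smul_eq_mul,
    Nat.card_eq_fintype_card (α := {u : ι → F // Q u = 0})]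

/-- The chain step. -/
theorem card_chain_orth [Finite F] {ι' : Type} [Fintype ι'] [DecidableEq ι'] {Q' : (ι' → F) → F} (hQ' : IsNondegenerateQuadraticForm Q')
    (h0 : Q 0 = 0) (e : (ι' → F) ≃ₗ[F] (F × F) × (ι → F))
    (hsplit : ∀ x, Q' x = (e x).1.1 * (e x).1.2 + Q (e x).2) :
    Nat.card (Isom (TQ Q')) = Nat.card (Hyp Q') * Nat.card (Isom (TQ Q)) := by
  rw [← Nat.card_congr (emQ hQ')]
  refine card_chain (TQ Q') (THq F) (TQ Q) e ?_ (by simp [THq]) (by simp [TQ, h0]) ?_ (hasStep_quad hQ')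
  · intro x y
    simp only [TQ, THq]
    rw [hsplit, map_add]
    rfl
  · rintro ⟨c, d⟩ h
    have h2 := h (0, 1)
    have h3 := h (1, 0)
    simp [THq] at h2 h3
    have hc : c = 0 := by linear_combination h2
    have hd : d = 0 := by linear_combination h3
    rw [hc, hd]
    rfl

end Cfsg.Agent.Lib.OrthChain
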