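import Cfsg.Agent.Lib.Dihedral
import Cfsg.Agent.Lib.SLn
import Cfsg.Agent.Lib.OrthChain

/-! The isometry group of an anisotropic plane is dihedral. -/

set_option autoImplicit false
set_option linter.unusedSectionVars false
set_option linter.unusedVariables false

namespace Cfsg.Agent.Lib.Aniso

open Cfsg
open scoped Matrix

section Ext

variable {F K : Type*} [Field F] [Fintype F] [Field K] [Fintype K] [Algebra F K] {q : ℕ}

/-- The group of `F`-linear automorphisms of `K` preserving the norm `x ↦ x ^ (q + 1)`. -/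
def GK (F K : Type*) [Field F] [Field K] [Algebra F K] (q : ℕ) : Subgroup (K ≃ₗ[F] K) where
  carrier := {g | ∀ x, (g x) ^ (q + 1) = x ^ (q + 1)}
  mul_mem' {a b} ha hb x := by
    simp only [LinearEquiv.mul_apply]
    rw [ha, hb]
  one_mem' x := rfl
  inv_mem' {a} ha x := by
    have h := ha (a⁻¹ x)
    have h1 : a (a⁻¹ x) = x := by
      rw [← LinearEquiv.mul_apply, mul_inv_cancel]; rfl
    rw [h1] at h
    exact h.symm

theorem mem_GK {g : K ≃ₗ[F] K} : g ∈ GK F K q ↔ ∀ x, (g x) ^ (q + 1) = x ^ (q + 1) := Iff.rfl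

/-- Multiplication by a non-zero element. -/
noncomputable def mU (u : Kˣ) : K ≃ₗ[F] K :=
  LinearEquiv.ofLinearMap (LinearMap.mulLeft F (u : K)) (LinearMap.mulLeft F ((u⁻¹ : Kˣ) : K))
    (by
      apply LinearMap.ext
      intro x
      simp [← mul_assoc])
    (by
      apply LinearMap.ext
      intro x
      simp [← mul_assoc])

@[simp] theorem mU_apply (u : Kˣ) (x : K) : mU (F := F) u x = u * x := rfl

noncomputable def M (q : ℕ) : rootsOfUnity (q + 1) K →* GK F K q where
  toFun u := ⟨mU (u : Kˣ), fun x ↦ by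
    have h : ((u : Kˣ) : K) ^ (q + 1) = 1 := by
      have := u.2
      rw [mem_rootsOfUnity] at this
      have h2 := congrArg Units.val this
      simpa using h2
    rw [mU_apply, mul_pow, h, one_mul]⟩
  map_one' := by
    apply Subtype.ext
    ext x
    simp [LinearEquiv.mul_apply]
  map_mul' u v := by
    apply Subtype.ext
    ext x
    change (((u * v : rootsOfUnity (q + 1) K) : Kˣ) : K) * x = ((u : Kˣ) : K) * (((v : Kˣ) : K) * x)
    simp [mul_assoc]

theorem M_apply (u : rootsOfUnity (q + 1) K) (x : K) : (M (F := F) q u : K ≃ₗ[F] K) x = ((u : Kˣ) : K) * x := rfl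

theorem M_injective : Function.Injective (M (F := F) (K := K) q) := by
  intro u v h
  have h1 := congrArg (fun g : GK F K q ↦ (g : K ≃ₗ[F] K) 1) h
  simp only [M_apply, mul_one] at h1
  exact Subtype.ext (Units.ext h1)

variable (hK : Fintype.card K = q ^ 2) (hF : Fintype.card F = q)
include hK hF

theorem pow_q_algebraMap (c : F) : (algebraMap F K c) ^ q = algebraMap F K c := by
  rw [← map_pow, ← hF, FiniteField.pow_card]

/-- The involution. -/
noncomputable def sigmaL (hK : Fintype.card K = q ^ 2) (hF : Fintype.card F = q) : K ≃ₗ[F] K :=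
  LinearEquiv.ofLinearMap
    { toFun := fun x ↦ x ^ q
      map_add' := fun x y ↦ by
        obtain ⟨φ, hφ⟩ := FormCount.exists_frob hK
        rw [← hφ, ← hφ, ← hφ, map_add]
      map_smul' := fun c x ↦ by
        simp only [Algebra.smul_def, mul_pow, RingHom.id_apply]
        rw [pow_q_algebraMap hK hF] }
    { toFun := fun x ↦ x ^ q
      map_add' := fun x y ↦ by
        obtain ⟨φ, hφ⟩ := FormCount.exists_frob hK
        rw [← hφ, ← hφ, ← hφ, map_add]
      map_smul' := fun c x ↦ by
        simp only [Algebra.smul_def, mul_pow, RingHom.id_apply]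
        rw [pow_q_algebraMap hK hF] }
    (by
      apply LinearMap.ext
      intro x
      exact FormCount.pow_sq_self hK x)
    (by
      apply LinearMap.ext
      intro x
      exact FormCount.pow_sq_self hK x)

omit hK hF in
theorem sigmaL_apply (hK : Fintype.card K = q ^ 2) (hF : Fintype.card F = q) (x : K) : sigmaL (F := F) hK hF x = x ^ q := rfl

theorem sigma_mem : sigmaL (F := F) hK hF ∈ GK F K q := by
  intro x
  rw [sigmaL_apply, pow_right_comm]
  have h : (x ^ (q + 1)) ^ q = x ^ (q + 1) := by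
    rw [pow_succ x q, mul_pow, FormCount.pow_sq_self hK x, mul_comm]
  exact h

/-- The involution as an element of the group. -/
noncomputable def sG (hK : Fintype.card K = q ^ 2) (hF : Fintype.card F = q) : GK F K q := ⟨sigmaL hK hF, sigma_mem hK hF⟩

theorem sG_apply (x : K) : (sG (F := F) hK hF : K ≃ₗ[F] K) x = x ^ q := rfl

theorem sG_sq : (sG (F := F) hK hF) ^ 2 = 1 := by
  rw [pow_two]
  apply Subtype.ext
  ext x
  change (x ^ q) ^ q = x
  exact FormCount.pow_sq_self hK x

theorem sG_conj (u : rootsOfUnity (q + 1) K) : sG (F := F) hK hF * M q u * (sG hK hF)⁻¹ = (M q u)⁻¹ := by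
  have hs : (sG (F := F) hK hF)⁻¹ = sG hK hF := by
    rw [inv_eq_iff_mul_eq_one, ← pow_two, sG_sq]
  rw [hs, ← map_inv]
  apply Subtype.ext
  ext x
  change (((u : Kˣ) : K) * x ^ q) ^ q = ((u⁻¹ : rootsOfUnity (q + 1) K) : Kˣ) * x
  rw [mul_pow, FormCount.pow_sq_self hK x]
  congr 1
  have h : ((u : Kˣ) : K) ^ (q + 1) = 1 := by
    have := u.2
    rw [mem_rootsOfUnity] at this
    have h2 := congrArg Units.val this
    simpa using h2
  have h3 : ((u⁻¹ : rootsOfUnity (q + 1) K) : Kˣ) * (u : Kˣ) = 1 := by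
    rw [← Subgroup.coe_mul, inv_mul_cancel]; rfl
  have h4 := congrArg Units.val h3
  simp only [Units.val_mul, Units.val_one] at h4
  have hne : ((u : Kˣ) : K) ≠ 0 := Units.ne_zero _
  apply mul_right_cancel₀ hne
  rw [h4, ← pow_succ, h]

section Theta

variable {a b : F} {θ : K} (hθ : θ * θ = algebraMap F K a * θ - algebraMap F K b)
  (hψ : ∀ x : K, ∃ c d : F, x = algebraMap F K c + algebraMap F K d * θ) (hne : θ ^ q ≠ θ)
include hθ hne

theorem sigma_theta : θ ^ q = algebraMap F K a - θ := by
  obtain ⟨φ, hφ⟩ := FormCount.exists_frob hK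
  have h1 := congrArg φ hθ
  simp only [map_mul, map_sub] at h1
  simp only [hφ, pow_q_algebraMap hK hF] at h1
  have h2 : (θ ^ q - θ) * (θ ^ q - (algebraMap F K a - θ)) = 0 := by
    linear_combination h1 - hθ
  rcases mul_eq_zero.1 h2 with h3 | h3
  · exact absurd (sub_eq_zero.1 h3) hne
  · exact sub_eq_zero.1 h3

include hψ

theorem classify (g : GK F K q) :
    ∃ u : rootsOfUnity (q + 1) K, g = M q u ∨ g = M q u * sG hK hF := by
  have hσ := sigma_theta hK hF hθ hne
  obtain ⟨g, hg⟩ := g
  have hg1 : (g 1) ^ (q + 1) = 1 := by rw [hg 1, one_pow]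
  have hq := FormCount.two_le_q hK
  have hu0 : g 1 ≠ 0 := by
    intro h
    rw [h, zero_pow (by omega)] at hg1
    exact zero_ne_one hg1
  let u : Kˣ := Units.mk0 (g 1) hu0
  have hu : u ∈ rootsOfUnity (q + 1) K := by
    rw [mem_rootsOfUnity]
    apply Units.ext
    simpa [u] using hg1
  obtain ⟨φ, hφ⟩ := FormCount.exists_frob hK
  set w := (g 1)⁻¹ * g θ with hw
  have hgθ : g θ = g 1 * w := by
    rw [hw]; field_simp
  -- norm and trace of `w`
  have hN : w ^ (q + 1) = θ ^ (q + 1) := by
    rw [hw, mul_pow, hg θ, inv_pow, hg1]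
    simp
  have hN1 : (1 + w) ^ (q + 1) = (1 + θ) ^ (q + 1) := by
    have h1 : g 1 * (1 + w) = g (1 + θ) := by
      rw [map_add, hgθ]; ring
    have h2 := hg (1 + θ)
    rw [← h1, mul_pow, hg1, one_mul] at h2
    exact h2
  have hpow : ∀ x : K, x ^ (q + 1) = x * φ x := by
    intro x
    rw [hφ, pow_succ']
  rw [hpow, hpow] at hN hN1
  simp only [map_add, map_one] at hN1
  have hφθ : φ θ = algebraMap F K a - θ := by rw [hφ, hσ]
  have hT : w + φ w = algebraMap F K a := by
    rw [hφθ] at hN hN1
    linear_combination hN1 - hN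
  have hNw : w * φ w = algebraMap F K b := by
    rw [hN, hφθ]
    linear_combination -hθ
  have hroot : (w - θ) * (w - (algebraMap F K a - θ)) = 0 := by
    have : φ w = algebraMap F K a - w := by linear_combination hT
    rw [this] at hNw
    linear_combination (-1 : K) * hθ - hNw
  refine ⟨⟨u, hu⟩, ?_⟩
  rcases mul_eq_zero.1 hroot with h | h
  · left
    have hwθ : w = θ := sub_eq_zero.1 h
    apply Subtype.ext
    ext x
    obtain ⟨c, d, rfl⟩ := hψ x
    change g _ = g 1 * _
    have hx : algebraMap F K c + algebraMap F K d * θ = c • (1 : K) + d • θ := by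
      simp [Algebra.smul_def]
    rw [hx, map_add, map_smul, map_smul, hgθ, hwθ]
    simp only [Algebra.smul_def]
    ring
  · right
    have hwθ : w = algebraMap F K a - θ := sub_eq_zero.1 h
    apply Subtype.ext
    ext x
    obtain ⟨c, d, rfl⟩ := hψ x
    change g _ = g 1 * ((algebraMap F K c + algebraMap F K d * θ) ^ q)
    have h2 : (algebraMap F K c + algebraMap F K d * θ) ^ q = algebraMap F K c + algebraMap F K d * θ ^ q := by
      rw [← hφ, map_add, map_mul, hφ, hφ, hφ, pow_q_algebraMap hK hF, pow_q_algebraMap hK hF]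
    have hx : algebraMap F K c + algebraMap F K d * θ = c • (1 : K) + d • θ := by
      simp [Algebra.smul_def]
    rw [h2, hσ, hx, map_add, map_smul, map_smul, hgθ, hwθ]
    simp only [Algebra.smul_def]
    ring

theorem sG_ne : sG (F := F) hK hF ≠ 1 := by
  intro h
  have h1 := congrArg (fun g : GK F K q ↦ (g : K ≃ₗ[F] K) θ) h
  exact hne h1

theorem card_GK : Nat.card (GK F K q) = 2 * (q + 1) := by
  classical
  have hq := FormCount.two_le_q hK
  have hU : Nat.card (rootsOfUnity (q + 1) K) = q + 1 := by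
    rw [SLn.card_rootsOfUnity', hK]
    apply Nat.gcd_eq_right
    refine ⟨q - 1, ?_⟩
    obtain ⟨r, rfl⟩ : ∃ r, q = r + 1 := ⟨q - 1, by omega⟩
    simp only [Nat.add_sub_cancel]
    have : (r + 1) ^ 2 = r * (r + 1 + 1) + (r + 1) * 0 + 1 := by ring
    rw [this]
    simp
    ring
  let f : rootsOfUnity (q + 1) K ⊕ rootsOfUnity (q + 1) K → GK F K q :=
    Sum.elim (M q) (fun u ↦ M q u * sG hK hF)
  have hf : Function.Bijective f := by
    constructor
    · have heval : ∀ u, ((M (F := F) q u * sG hK hF : GK F K q) : K ≃ₗ[F] K) 1 = ((u : Kˣ) : K) := by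
        intro u
        change ((u : Kˣ) : K) * (1 : K) ^ q = _
        simp
      rintro (u | u) (v | v) h
      · exact congrArg _ (M_injective h)
      · exfalso
        have h1 : M (F := F) q u = M q v * sG hK hF := h
        have h2 := congrArg (fun g : GK F K q ↦ (g : K ≃ₗ[F] K) 1) h1
        simp only [heval, M_apply, mul_one] at h2
        have h3 : u = v := Subtype.ext (Units.ext h2)
        rw [h3] at h1
        apply sG_ne hK hF hθ hψ hne
        exact (mul_eq_left.1 h1.symm)
      · exfalso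
        have h1 : M (F := F) q u * sG hK hF = M q v := h
        have h2 := congrArg (fun g : GK F K q ↦ (g : K ≃ₗ[F] K) 1) h1
        simp only [heval, M_apply, mul_one] at h2
        have h3 : u = v := Subtype.ext (Units.ext h2)
        rw [h3] at h1
        apply sG_ne hK hF hθ hψ hne
        exact (mul_eq_left.1 h1)
      · have h1 : M (F := F) q u * sG hK hF = M q v * sG hK hF := h
        exact congrArg _ (M_injective (mul_right_cancel h1))
    · intro g
      obtain ⟨u, h | h⟩ := classify hK hF hθ hψ hne g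
      · exact ⟨.inl u, h.symm⟩
      · exact ⟨.inr u, h.symm⟩
  rw [← Nat.card_congr (Equiv.ofBijective f hf), Nat.card_sum, hU]
  ring

theorem nonempty_GK_dihedral : Nonempty (GK F K q ≃* DihedralGroup (q + 1)) := by
  classical
  have hq := FormCount.two_le_q hK
  have hU : Nat.card (rootsOfUnity (q + 1) K) = q + 1 := by
    rw [SLn.card_rootsOfUnity', hK]
    apply Nat.gcd_eq_right
    refine ⟨q - 1, ?_⟩
    obtain ⟨r, rfl⟩ : ∃ r, q = r + 1 := ⟨q - 1, by omega⟩
    simp only [Nat.add_sub_cancel]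
    have : (r + 1) ^ 2 = r * (r + 1 + 1) + (r + 1) * 0 + 1 := by ring
    rw [this]
    simp
    ring
  obtain ⟨γ, hγ⟩ := IsCyclic.exists_generator (α := rootsOfUnity (q + 1) K)
  have hordγ : orderOf γ = q + 1 := by
    exact (orderOf_eq_card_of_forall_mem_zpowers hγ).trans hU
  have hord : orderOf (M (F := F) q γ) = q + 1 := by
    rw [orderOf_injective _ M_injective, hordγ]
  have : Finite (GK F K q) := by
    have : Finite (K ≃ₗ[F] K) := Finite.of_injective (fun g : K ≃ₗ[F] K ↦ (g : K → K)) DFunLike.coe_injective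
    exact inferInstance
  have hsn : sG (F := F) hK hF ∉ Subgroup.zpowers (M (F := F) q γ) := by
    rintro ⟨k, hk⟩
    simp only at hk
    rw [← map_zpow] at hk
    have h1 := congrArg (fun g : GK F K q ↦ (g : K ≃ₗ[F] K) 1) hk
    simp only [M_apply, mul_one] at h1
    have h2 : ((γ ^ k : rootsOfUnity (q + 1) K) : Kˣ) = 1 := by
      apply Units.ext
      rw [h1]
      change (1 : K) ^ q = 1
      simp
    have h3 : γ ^ k = 1 := Subtype.ext h2
    rw [h3, map_one] at hk
    exact sG_ne hK hF hθ hψ hne hk.symm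
  exact Dihedral.nonempty_mulEquiv_dihedral (q + 1) (M (F := F) q γ) (sG hK hF) hord (sG_sq hK hF) (sG_conj hK hF γ) hsn
    (card_GK hK hF hθ hψ hne)

end Theta

end Ext

section Construct

universe u

variable {F : Type u} [Field F] [Fintype F] {q : ℕ}

open Polynomial in
theorem exists_quad_ext (hF : Fintype.card F = q) (a b : F)
    (hab : ∀ z₁ z₂ : F, z₁ ^ 2 + a * z₁ * z₂ + b * z₂ ^ 2 = 0 → z₁ = 0 ∧ z₂ = 0) :
    ∃ (K : Type u) (_ : Field K) (_ : Fintype K) (_ : Algebra F K) (θ : K),
      Fintype.card K = q ^ 2 ∧ θ * θ = algebraMap F K a * θ - algebraMap F K b ∧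
      (∀ x : K, ∃ c d : F, x = algebraMap F K c + algebraMap F K d * θ) ∧ θ ^ q ≠ θ ∧
      (∀ c d : F, algebraMap F K c + algebraMap F K d * θ = 0 → c = 0 ∧ d = 0) := by
  classical
  set p : F[X] := X ^ 2 - C a * X + C b with hp
  have hdeg : p.natDegree = 2 := by
    rw [hp]
    compute_degree!
  have hmonic : p.Monic := by
    rw [hp]
    monicity!
  have hroot : ∀ r : F, p.eval r ≠ 0 := by
    intro r h
    have h1 : r ^ 2 - a * r + b = 0 := by
      simpa [hp] using h
    have h2 := hab (-r) 1 (by linear_combination h1)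
    exact one_ne_zero h2.2
  have hirr : Irreducible p := by
    rw [Polynomial.Monic.irreducible_iff_roots_eq_zero_of_degree_le_three hmonic (by omega) (by omega)]
    apply Multiset.eq_zero_of_forall_notMem
    intro r hr
    exact hroot r (by simpa [IsRoot] using (Polynomial.mem_roots'.1 hr).2)
  haveI : Fact (Irreducible p) := ⟨hirr⟩
  let θ : AdjoinRoot p := AdjoinRoot.root p
  have hθ : θ * θ = algebraMap F (AdjoinRoot p) a * θ - algebraMap F (AdjoinRoot p) b := by
    have h := AdjoinRoot.eval₂_root p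
    rw [hp] at h
    simp only [eval₂_add, eval₂_sub, eval₂_pow, eval₂_X, eval₂_mul, eval₂_C] at h
    have h2 : AdjoinRoot.of p = algebraMap F (AdjoinRoot p) := rfl
    rw [h2] at h
    change (AdjoinRoot.root p) * (AdjoinRoot.root p) = algebraMap F (AdjoinRoot p) a * AdjoinRoot.root p - algebraMap F (AdjoinRoot p) b
    linear_combination h
  have hψ : ∀ x : AdjoinRoot p, ∃ c d : F, x = algebraMap F (AdjoinRoot p) c + algebraMap F (AdjoinRoot p) d * θ := by
    intro x
    obtain ⟨g, rfl⟩ := AdjoinRoot.mk_surjective x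
    set r := g %ₘ p with hr
    have h1 : AdjoinRoot.mk p g = AdjoinRoot.mk p r := by
      conv_lhs => rw [← Polynomial.modByMonic_add_div g p]
      rw [map_add, map_mul, AdjoinRoot.mk_self, zero_mul, add_zero]
    have h2 : r.degree ≤ 1 := by
      have h3 : r.natDegree < p.natDegree := Polynomial.natDegree_modByMonic_lt g hmonic (by
        intro h
        rw [h] at hdeg
        simp at hdeg)
      rw [hdeg] at h3
      have h5 : r.natDegree ≤ 1 := by omega
      exact_mod_cast Polynomial.degree_le_of_natDegree_le h5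
    have h4 := Polynomial.eq_X_add_C_of_degree_le_one h2
    refine ⟨r.coeff 0, r.coeff 1, ?_⟩
    rw [h1]
    conv_lhs => rw [h4]
    rw [map_add, map_mul, AdjoinRoot.mk_X, AdjoinRoot.mk_C, AdjoinRoot.mk_C]
    change algebraMap F (AdjoinRoot p) _ * θ + algebraMap F (AdjoinRoot p) _ = _
    ring
  have hind : ∀ c d : F, algebraMap F (AdjoinRoot p) c + algebraMap F (AdjoinRoot p) d * θ = 0 → c = 0 ∧ d = 0 := by
    intro c d h
    have hinj := (algebraMap F (AdjoinRoot p)).injective
    by_cases hd : d = 0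
    · subst hd
      simp only [map_zero, zero_mul, add_zero] at h
      exact ⟨hinj (by simpa using h), rfl⟩
    · exfalso
      have hd' : algebraMap F (AdjoinRoot p) d ≠ 0 := by
        rw [Ne, map_eq_zero]; exact hd
      let r : F := -c / d
      have hθr : θ = algebraMap F (AdjoinRoot p) r := by
        simp only [r, map_div₀, map_neg]
        field_simp
        linear_combination h
      apply hroot r
      have hev : p.eval r = r ^ 2 - a * r + b := by simp [hp]
      rw [hev]
      apply hinj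
      simp only [map_add, map_sub, map_pow, map_mul, map_zero]
      rw [← hθr]
      linear_combination hθ
  -- the cardinality
  let f : F × F → AdjoinRoot p := fun x ↦ algebraMap F (AdjoinRoot p) x.1 + algebraMap F (AdjoinRoot p) x.2 * θ
  have hf : Function.Bijective f := by
    constructor
    · rintro ⟨c, d⟩ ⟨c', d'⟩ h
      have h1 : algebraMap F (AdjoinRoot p) (c - c') + algebraMap F (AdjoinRoot p) (d - d') * θ = 0 := by
        have h2 : algebraMap F (AdjoinRoot p) c + algebraMap F (AdjoinRoot p) d * θ =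
            algebraMap F (AdjoinRoot p) c' + algebraMap F (AdjoinRoot p) d' * θ := h
        simp only [map_sub]
        linear_combination h2
      obtain ⟨h3, h4⟩ := hind _ _ h1
      rw [sub_eq_zero] at h3 h4
      rw [h3, h4]
    · intro x
      obtain ⟨c, d, h⟩ := hψ x
      exact ⟨(c, d), h.symm⟩
  haveI : Finite (AdjoinRoot p) := Finite.of_surjective f hf.2
  letI : Fintype (AdjoinRoot p) := Fintype.ofFinite _
  have hK : Fintype.card (AdjoinRoot p) = q ^ 2 := by
    rw [← Fintype.card_of_bijective hf, Fintype.card_prod, hF]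
    ring
  refine ⟨AdjoinRoot p, inferInstance, inferInstance, inferInstance, θ, hK, hθ, hψ, ?_, hind⟩
  intro hne
  obtain ⟨φ, hφ⟩ := FormCount.exists_frob hK
  have hall : ∀ x : AdjoinRoot p, x ^ q = x := by
    intro x
    obtain ⟨c, d, rfl⟩ := hψ x
    rw [← hφ, map_add, map_mul, hφ, hφ, hφ, hne, pow_q_algebraMap hK hF, pow_q_algebraMap hK hF]
  have hq := FormCount.two_le_q hK
  obtain ⟨γ, hγ⟩ := IsCyclic.exists_generator (α := (AdjoinRoot p)ˣ)
  have hord : orderOf γ = q ^ 2 - 1 := by
    rw [orderOf_eq_card_of_forall_mem_zpowers hγ, Nat.card_eq_fintype_card, Fintype.card_units, hK]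
  have h1 : γ ^ (q - 1) = 1 := by
    apply Units.ext
    have h2 : ((γ : AdjoinRoot p)) ^ (q - 1) * (γ : AdjoinRoot p) = (γ : AdjoinRoot p) := by
      rw [← pow_succ, Nat.sub_add_cancel (by omega), hall]
    have h3 : (γ : AdjoinRoot p) ≠ 0 := Units.ne_zero _
    simpa using mul_right_cancel₀ h3 (h2.trans (one_mul _).symm)
  have h2 := orderOf_dvd_of_pow_eq_one h1
  rw [hord] at h2
  have h3 := Nat.le_of_dvd (by omega) h2
  have h4 : q ^ 2 = q * q := by ring
  have h5 : 2 * q ≤ q * q := Nat.mul_le_mul_right _ hq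
  omega

variable {a b : F}

/-- The linear identification of the plane with the extension field. -/
theorem exists_model (hF : Fintype.card F = q) 
    (hab : ∀ z₁ z₂ : F, z₁ ^ 2 + a * z₁ * z₂ + b * z₂ ^ 2 = 0 → z₁ = 0 ∧ z₂ = 0) :
    ∃ (K : Type u) (_ : Field K) (_ : Fintype K) (_ : Algebra F K) (θ : K)
      (e : ((Fin 0 ⊕ Fin 0) ⊕ Fin 2 → F) ≃ₗ[F] K),
      Fintype.card K = q ^ 2 ∧ θ * θ = algebraMap F K a * θ - algebraMap F K b ∧
      (∀ x : K, ∃ c d : F, x = algebraMap F K c + algebraMap F K d * θ) ∧ θ ^ q ≠ θ ∧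
      (∀ v, (e v) ^ (q + 1) = algebraMap F K (quadFormMinus 0 F a b v)) := by
  classical
  obtain ⟨K, _, _, _, θ, hK, hθ, hψ, hne, hind⟩ := exists_quad_ext hF a b hab
  have hσ := sigma_theta hK hF hθ hne
  let L : ((Fin 0 ⊕ Fin 0) ⊕ Fin 2 → F) →ₗ[F] K :=
    { toFun := fun v ↦ algebraMap F K (v (.inr 0)) + algebraMap F K (v (.inr 1)) * θ
      map_add' := fun u v ↦ by
        simp only [Pi.add_apply, map_add]
        ring
      map_smul' := fun c v ↦ by
        simp only [Pi.smul_apply, RingHom.id_apply, smul_eq_mul, map_mul]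
        rw [Algebra.smul_def]
        ring }
  have hL : Function.Bijective L := by
    constructor
    · rw [injective_iff_map_eq_zero]
      intro v hv
      obtain ⟨h0, h1⟩ := hind _ _ hv
      funext j
      rcases j with (i | i) | i
      · exact i.elim0
      · exact i.elim0
      · fin_cases i
        · exact h0
        · exact h1
    · intro x
      obtain ⟨c, d, rfl⟩ := hψ x
      refine ⟨Sum.elim (fun _ ↦ 0) ![c, d], ?_⟩
      simp [L]
  refine ⟨K, inferInstance, inferInstance, inferInstance, θ, LinearEquiv.ofBijective L hL, hK, hθ, hψ, hne, ?_⟩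
  intro v
  obtain ⟨φ, hφ⟩ := FormCount.exists_frob hK
  simp only [LinearEquiv.ofBijective_apply]
  change (algebraMap F K (v (.inr 0)) + algebraMap F K (v (.inr 1)) * θ) ^ (q + 1) = _
  have h2 : (algebraMap F K (v (.inr 0)) + algebraMap F K (v (.inr 1)) * θ) ^ q
      = algebraMap F K (v (.inr 0)) + algebraMap F K (v (.inr 1)) * (algebraMap F K a - θ) := by
    rw [← hφ, map_add, map_mul, hφ, hφ, hφ, hσ, pow_q_algebraMap hK hF, pow_q_algebraMap hK hF]
  rw [pow_succ, h2]
  simp only [quadFormMinus, Finset.univ_eq_empty, Finset.sum_empty, zero_add, map_add, map_mul, map_pow]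
  linear_combination (-(algebraMap F K (v (.inr 1))) ^ 2) * hθ

/-- The isometry group of the anisotropic plane maps to the group `GK`. -/
noncomputable def toGKHom {K : Type*} [Field K] [Algebra F K] (e : ((Fin 0 ⊕ Fin 0) ⊕ Fin 2 → F) ≃ₗ[F] K)
    (hQ : ∀ v, (e v) ^ (q + 1) = algebraMap F K (quadFormMinus 0 F a b v)) :
    isometryGroup F (quadFormMinus 0 F a b) →* GK F K q where
  toFun g := ⟨e.symm.trans ((IsomChain.glLE g.1).trans e), fun x ↦ by
    have hg := g.2
    have h1 : ∀ v, quadFormMinus 0 F a b (g.1.1 *ᵥ v) = quadFormMinus 0 F a b v := fun v ↦ hg v 0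
    change (e (g.1.1 *ᵥ (e.symm x))) ^ (q + 1) = _
    rw [hQ, h1, ← hQ]
    simp⟩
  map_one' := by
    apply Subtype.ext
    ext x
    change e (((1 : isometryGroup F (quadFormMinus 0 F a b)) : Matrix.GeneralLinearGroup _ F).1 *ᵥ (e.symm x)) = x
    simp
  map_mul' g h := by
    apply Subtype.ext
    ext x
    change e (((g * h : isometryGroup F (quadFormMinus 0 F a b)) : Matrix.GeneralLinearGroup _ F).1 *ᵥ (e.symm x)) =
      e (g.1.1 *ᵥ (e.symm (e (h.1.1 *ᵥ (e.symm x)))))
    simp [Matrix.mulVec_mulVec]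

theorem toGKHom_bijective {K : Type*} [Field K] [Algebra F K] (e : ((Fin 0 ⊕ Fin 0) ⊕ Fin 2 → F) ≃ₗ[F] K)
    (hQ : ∀ v, (e v) ^ (q + 1) = algebraMap F K (quadFormMinus 0 F a b v)) :
    Function.Bijective (toGKHom e hQ) := by
  constructor
  · intro g h hgh
    apply Subtype.ext
    apply IsomChain.glLE.injective
    ext x : 1
    have h1 := congrArg (fun γ : GK F K q ↦ (γ : K ≃ₗ[F] K) (e x)) hgh
    change e (g.1.1 *ᵥ (e.symm (e x))) = e (h.1.1 *ᵥ (e.symm (e x))) at h1
    simp only [LinearEquiv.symm_apply_apply] at h1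
    exact e.injective h1
  · rintro ⟨γ, hγ⟩
    refine ⟨⟨IsomChain.glLE.symm (e.trans (γ.trans e.symm)), ?_⟩, ?_⟩
    · have h0 : ∀ v, (IsomChain.glLE.symm (e.trans (γ.trans e.symm))).1 *ᵥ v = e.symm (γ (e v)) := by
        intro v
        rw [← IsomChain.glLE_apply, Equiv.apply_symm_apply]
        rfl
      intro u v
      change quadFormMinus 0 F a b ((IsomChain.glLE.symm (e.trans (γ.trans e.symm))).1 *ᵥ u) = quadFormMinus 0 F a b u
      rw [h0]
      apply (algebraMap F K).injective
      rw [← hQ, ← hQ, LinearEquiv.apply_symm_apply, hγ]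
    · apply Subtype.ext
      ext x
      change e ((IsomChain.glLE.symm (e.trans (γ.trans e.symm))).1 *ᵥ (e.symm x)) = γ x
      rw [← IsomChain.glLE_apply, Equiv.apply_symm_apply]
      simp

/-- The isometry group of the anisotropic plane as the group `GK`. -/
noncomputable def toGK {K : Type*} [Field K] [Algebra F K] (e : ((Fin 0 ⊕ Fin 0) ⊕ Fin 2 → F) ≃ₗ[F] K)
    (hQ : ∀ v, (e v) ^ (q + 1) = algebraMap F K (quadFormMinus 0 F a b v)) :
    isometryGroup F (quadFormMinus 0 F a b) ≃* GK F K q :=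
  MulEquiv.ofBijective (toGKHom e hQ) (toGKHom_bijective e hQ)

theorem nonempty_dihedral (hF : Fintype.card F = q)
    (hab : ∀ z₁ z₂ : F, z₁ ^ 2 + a * z₁ * z₂ + b * z₂ ^ 2 = 0 → z₁ = 0 ∧ z₂ = 0) :
    Nonempty (isometryGroup F (quadFormMinus 0 F a b) ≃* DihedralGroup (q + 1)) := by
  obtain ⟨K, _, _, _, θ, e, hK, hθ, hψ, hne, hQ⟩ := exists_model hF hab
  obtain ⟨d⟩ := nonempty_GK_dihedral hK hF hθ hψ hne
  exact ⟨(toGK e hQ).trans d⟩

theorem card_isom_zero (hF : Fintype.card F = q)
    (hab : ∀ z₁ z₂ : F, z₁ ^ 2 + a * z₁ * z₂ + b * z₂ ^ 2 = 0 → z₁ = 0 ∧ z₂ = 0) :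
    Nat.card (isometryGroup F (quadFormMinus 0 F a b)) = 2 * (q + 1) := by
  obtain ⟨K, _, _, _, θ, e, hK, hθ, hψ, hne, hQ⟩ := exists_model hF hab
  rw [Nat.card_congr (toGK e hQ).toEquiv]
  exact card_GK hK hF hθ hψ hne

end Construct

end Cfsg.Agent.Lib.Aniso
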