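import Mathlib
import Cfsg.Prelude
import Cfsg.Agent.Lib.LieTrick
import Cfsg.Agent.Lib.H2Basic
import Cfsg.Agent.Lib.FitCore
import Cfsg.Agent.Lib.H7Basic
import Cfsg.Agent.Lib.PComps2

/-!
# Invariant subgroups of order prime to `p` in `p`-constrained groups, `p` odd
-/

set_option autoImplicit false
set_option linter.all false

namespace Cfsg.Agent.Lib.LieTrick2

open Subgroup Cfsg Cfsg.Agent.Lib.LieTrick Cfsg.Agent.Lib.H2Basic
open scoped commutatorElement

section

variable {G : Type*} [Group G] [Finite G] {p : ℕ} [Fact p.Prime]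

theorem norm_comm {H₁ H₂ : Subgroup G} {g : G} (h1 : g ∈ normalizer (H₁ : Set G)) (h2 : g ∈ normalizer (H₂ : Set G)) :
    g ∈ normalizer ((⁅H₁, H₂⁆ : Subgroup G) : Set G) := by
  apply mem_normalizer_of_map_conj_eq
  rw [Subgroup.map_commutator, map_conj_eq_of_mem_normalizer h1, map_conj_eq_of_mem_normalizer h2]

theorem twist_pow {q x w : G} (h1 : q * x * q⁻¹ = x * w) (h2 : q * w = w * q) (k : ℕ) :
    q ^ k * x = x * w ^ k * q ^ k := by
  have hq : q * x = x * w * q := by
    rw [← h1]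
    group
  induction k with
  | zero => simp
  | succ k ih =>
    have c : Commute q w := h2
    calc q ^ (k + 1) * x = q * (q ^ k * x) := by rw [pow_succ']; group
      _ = q * (x * w ^ k * q ^ k) := by rw [ih]
      _ = (q * x) * w ^ k * q ^ k := by group
      _ = x * w * q * w ^ k * q ^ k := by rw [hq]
      _ = x * w * (q * w ^ k) * q ^ k := by group
      _ = x * w * (w ^ k * q) * q ^ k := by rw [(c.pow_right k).eq]
      _ = x * (w * w ^ k) * (q * q ^ k) := by group
      _ = _ := by rw [pow_succ' w, pow_succ' q]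

theorem eq_one_of_twist {q x w : G} (h1 : q * x * q⁻¹ = x * w) (h2 : q * w = w * q)
    (hw : ∃ k, w ^ p ^ k = 1) (hq : ¬ p ∣ orderOf q) : w = 1 := by
  have hpp : p.Prime := Fact.out
  have h3 := twist_pow h1 h2 (orderOf q)
  rw [pow_orderOf_eq_one, one_mul, mul_one] at h3
  have h4 : w ^ orderOf q = 1 := by
    have : x * w ^ orderOf q = x * 1 := by rw [mul_one]; exact h3.symm
    exact mul_left_cancel this
  obtain ⟨k, hk⟩ := hw
  have h5 : orderOf w ∣ orderOf q := orderOf_dvd_of_pow_eq_one h4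
  have h6 : orderOf w ∣ p ^ k := orderOf_dvd_of_pow_eq_one hk
  have h7 : (p ^ k).Coprime (orderOf q) :=
    Nat.Coprime.pow_left _ ((Nat.Prime.coprime_iff_not_dvd hpp).2 hq)
  exact orderOf_eq_one_iff.1 (Nat.Coprime.eq_one_of_dvd (Nat.Coprime.coprime_dvd_left h6 h7) h5)

/-- the Frattini-type subgroup -/
def phiSub (p : ℕ) (R : Subgroup G) : Subgroup G := ⁅R, R⁆ ⊔ closure {y | ∃ x ∈ R, y = x ^ p}

theorem comm_le_self (R : Subgroup G) : ⁅R, R⁆ ≤ R := by
  rw [Subgroup.commutator_le]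
  intro x hx y hy
  rw [commutatorElement_def]
  exact R.mul_mem (R.mul_mem (R.mul_mem hx hy) (R.inv_mem hx)) (R.inv_mem hy)

theorem phiSub_le {R : Subgroup G} : phiSub p R ≤ R := by
  refine sup_le (comm_le_self R) ?_
  rw [Subgroup.closure_le]
  rintro _ ⟨x, hx, rfl⟩
  exact R.pow_mem hx p

theorem phiSub_ne (R : Subgroup G) (hR : IsPGroup p R) (hne : R ≠ ⊥) : phiSub p R ≠ R := by
  classical
  have hpp : p.Prime := Fact.out
  intro heq
  haveI hnt : Nontrivial ↥R := (Subgroup.nontrivial_iff_ne_bot R).2 hne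
  haveI : Group.IsNilpotent ↥R := hR.isNilpotent
  haveI : Group.IsSolvable ↥R := inferInstance
  have hlt : commutator ↥R < ⊤ := Group.IsSolvable.commutator_lt_top_of_nontrivial ↥R
  set B := Abelianization ↥R with hB
  have hBnt : Nontrivial B := by
    by_contra hcon
    rw [not_nontrivial_iff_subsingleton] at hcon
    apply hlt.ne
    rw [eq_top_iff]
    intro x _
    have h1 : (Abelianization.of x) = 1 := Subsingleton.elim _ _
    exact (QuotientGroup.eq_one_iff x).1 h1
  have hBp : IsPGroup p B := hR.of_surjective Abelianization.of (QuotientGroup.mk'_surjective _)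
  obtain ⟨n, hn⟩ := IsPGroup.iff_card.1 hBp
  have hn0 : n ≠ 0 := by
    rintro rfl
    rw [pow_zero] at hn
    have := Finite.one_lt_card (α := B)
    omega
  have hdvd : p ∣ Nat.card B := by
    rw [hn]
    exact dvd_pow_self p hn0
  obtain ⟨b, hb⟩ := exists_prime_orderOf_dvd_card' p hdvd
  have hb1 : b ≠ 1 := by
    rintro rfl
    rw [orderOf_one] at hb
    exact hpp.one_lt.ne hb
  have hnotsurj : ¬ Function.Surjective (powMonoidHom p : B →* B) := by
    intro hs
    have hi := Finite.injective_iff_surjective.2 hs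
    apply hb1
    apply hi
    show b ^ p = 1 ^ p
    rw [one_pow, ← hb]
    exact pow_orderOf_eq_one b
  rw [Function.Surjective] at hnotsurj
  push Not at hnotsurj
  obtain ⟨c, hc⟩ := hnotsurj
  obtain ⟨w, rfl⟩ := QuotientGroup.mk'_surjective _ c
  set V := (powMonoidHom p : B →* B).range with hV
  have hle : phiSub p R ≤ (V.comap (Abelianization.of : ↥R →* B)).map R.subtype := by
    refine sup_le ?_ ?_
    · rw [Subgroup.commutator_le]
      intro x hx y hy
      refine ⟨⁅(⟨x, hx⟩ : ↥R), (⟨y, hy⟩ : ↥R)⁆, ?_, rfl⟩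
      show Abelianization.of ⁅(⟨x, hx⟩ : ↥R), (⟨y, hy⟩ : ↥R)⁆ ∈ V
      rw [map_commutatorElement, commutatorElement_eq_one_iff_mul_comm.2 (mul_comm _ _)]
      exact V.one_mem
    · rw [Subgroup.closure_le]
      rintro _ ⟨x, hx, rfl⟩
      refine ⟨(⟨x, hx⟩ : ↥R) ^ p, ?_, rfl⟩
      show Abelianization.of ((⟨x, hx⟩ : ↥R) ^ p) ∈ V
      rw [map_pow]
      exact ⟨Abelianization.of ⟨x, hx⟩, rfl⟩
  have hw : (w : G) ∈ phiSub p R := by
    rw [heq]
    exact w.2
  obtain ⟨w', hw', hww⟩ := hle hw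
  have : w' = w := Subtype.ext hww
  rw [this] at hw'
  obtain ⟨d, hd⟩ := hw'
  exact hc d hd

theorem norm_phiSub {R : Subgroup G} {g : G} (hg : g ∈ normalizer (R : Set G)) :
    g ∈ normalizer ((phiSub p R : Subgroup G) : Set G) := by
  apply mem_normalizer_of_conj_le
  intro a ha
  have hle : phiSub p R ≤ (phiSub p R).comap (MulAut.conj g).toMonoidHom := by
    refine sup_le ?_ ?_
    · have h1 := norm_comm hg hg
      intro z hz
      have h2 := (Subgroup.mem_normalizer_iff.1 h1 z).1 hz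
      exact (le_sup_left : ⁅R, R⁆ ≤ phiSub p R) h2
    · rw [Subgroup.closure_le]
      rintro _ ⟨x, hx, rfl⟩
      show g * x ^ p * g⁻¹ ∈ phiSub p R
      rw [← conj_pow]
      exact (le_sup_right : _ ≤ phiSub p R)
        (Subgroup.subset_closure ⟨_, (Subgroup.mem_normalizer_iff.1 hg x).1 hx, rfl⟩)
  exact hle ha

/-- the main statement if `C(O_p) ≤ O_p` -/
theorem core_case (hp : Odd p) (hC : centralizer (pCore p G : Set G) ≤ pCore p G) (A : Subgroup G)
    (hAp : IsPGroup p A) (hΩ : ∀ x ∈ centralizer (A : Set G), orderOf x = p → x ∈ A)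
    (Q : Subgroup G) (hQ : ¬ p ∣ Nat.card Q) (hAQ : A ≤ normalizer (Q : Set G)) : Q = ⊥ := by
  classical
  have hpp : p.Prime := Fact.out
  by_contra hQne
  set P := pCore p G with hP
  have hPn : P.Normal := Cfsg.Agent.Lib.FitCore.pCore_normal p
  have hPp : IsPGroup p P := Cfsg.Agent.Lib.FitCore.pCore_isPGroup p
  have hNP : normalizer (P : Set G) = ⊤ := Subgroup.normalizer_eq_top_iff.2 hPn
  have hQo : ∀ q ∈ Q, ¬ p ∣ orderOf q := fun q hq h =>
    hQ (dvd_trans h (Subgroup.orderOf_dvd_natCard Q hq))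
  have hQP : ∀ x ∈ Q, x ∈ P → x = 1 := by
    intro x hx hxP
    obtain ⟨k, hk⟩ := hPp ⟨x, hxP⟩
    have h1 : x ^ p ^ k = 1 := congrArg Subtype.val hk
    have h6 : orderOf x ∣ p ^ k := orderOf_dvd_of_pow_eq_one h1
    have h7 : (p ^ k).Coprime (Nat.card Q) :=
      Nat.Coprime.pow_left _ ((Nat.Prime.coprime_iff_not_dvd hpp).2 hQ)
    exact orderOf_eq_one_iff.1 (Nat.Coprime.eq_one_of_dvd (Nat.Coprime.coprime_dvd_left h6 h7)
      (Subgroup.orderOf_dvd_natCard Q hx))
  let F : Set (Subgroup G) := {R | R ≤ P ∧ A ≤ normalizer (R : Set G) ∧ Q ≤ normalizer (R : Set G) ∧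
    ¬ Q ≤ centralizer (R : Set G)}
  have hPF : P ∈ F := by
    refine ⟨le_rfl, by rw [hNP]; exact le_top, by rw [hNP]; exact le_top, ?_⟩
    intro h
    apply hQne
    rw [eq_bot_iff]
    intro x hx
    exact hQP x hx (hC (h hx))
  obtain ⟨R, hRmin⟩ := (Set.toFinite F).exists_minimal ⟨P, hPF⟩
  obtain ⟨hRP, hRA, hRQ, hRnc⟩ := hRmin.prop
  have hmin : ∀ T : Subgroup G, T ≤ R → A ≤ normalizer (T : Set G) → Q ≤ normalizer (T : Set G) → T ≠ R →
      Q ≤ centralizer (T : Set G) := by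
    intro T hTR hTA hTQ hne
    by_contra hcon
    have h1 : T ∈ F := ⟨le_trans hTR hRP, hTA, hTQ, hcon⟩
    exact hne (le_antisymm hTR (hRmin.2 h1 hTR))
  have hRp : IsPGroup p R := hPp.to_le hRP
  have hRpow : ∀ x ∈ R, ∃ k, x ^ p ^ k = 1 := by
    intro x hx
    obtain ⟨k, hk⟩ := hRp ⟨x, hx⟩
    exact ⟨k, congrArg Subtype.val hk⟩
  have hRne : R ≠ ⊥ := by
    rintro rfl
    apply hRnc
    intro q _
    apply Subgroup.mem_centralizer_iff.2
    intro h hh
    have : h = 1 := hh
    rw [this]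
    simp
  -- the commutator with `Q`
  have hR₁ : ⁅R, Q⁆ = R := by
    have hle : ⁅R, Q⁆ ≤ R := by
      rw [Subgroup.commutator_le]
      intro x hx q hq
      rw [commutatorElement_def]
      have h1 : q * x⁻¹ * q⁻¹ ∈ R := (Subgroup.mem_normalizer_iff.1 (hRQ hq) _).1 (R.inv_mem hx)
      have h2 : x * q * x⁻¹ * q⁻¹ = x * (q * x⁻¹ * q⁻¹) := by group
      rw [h2]
      exact R.mul_mem hx h1
    by_contra hne
    apply hRnc
    have hQc := hmin _ hle (fun a ha => norm_comm (hRA ha) (hAQ ha)) (fun q hq => norm_comm (hRQ hq) (Subgroup.le_normalizer hq)) hne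
    intro q hq
    apply Subgroup.mem_centralizer_iff.2
    intro x hx
    set w := x⁻¹ * (q * x * q⁻¹) with hw
    have hwR : w ∈ ⁅R, Q⁆ := by
      have h3 : w = ⁅x⁻¹, q⁆ := by
        rw [commutatorElement_def, hw]
        group
      rw [h3]
      exact Subgroup.commutator_mem_commutator (R.inv_mem hx) hq
    have h4 : q * w = w * q := by
      exact (Subgroup.mem_centralizer_iff.1 (hQc hq) w hwR).symm
    have h5 : w = 1 := by
      refine eq_one_of_twist (q := q) (x := x) (p := p) ?_ h4 (hRpow w (hle hwR)) (hQo q hq)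
      rw [hw]
      group
    rw [hw, inv_mul_eq_one, eq_comm, mul_inv_eq_iff_eq_mul] at h5
    exact h5.symm
  have htwist : ∀ T : Subgroup G, T ≤ R → A ≤ normalizer (T : Set G) → Q ≤ normalizer (T : Set G) →
      R ≤ normalizer (T : Set G) → T ≠ R → Q ≤ centralizer (T : Set G) ∧ ⁅R, T⁆ = ⊥ := by
    intro T hTR hTA hTQ hTn hne
    have hQT := hmin T hTR hTA hTQ hne
    refine ⟨hQT, ?_⟩
    have h1 : ⁅⁅Q, T⁆, R⁆ = ⊥ := by
      rw [(Subgroup.commutator_eq_bot_iff_le_centralizer).2 hQT, Subgroup.commutator_bot_left]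
    have h2 : ⁅⁅T, R⁆, Q⁆ = ⊥ := by
      have hle : ⁅T, R⁆ ≤ T := by
        rw [Subgroup.commutator_le]
        intro t ht r hr
        rw [commutatorElement_def]
        have h3 : r * t⁻¹ * r⁻¹ ∈ T := (Subgroup.mem_normalizer_iff.1 (hTn hr) _).1 (T.inv_mem ht)
        have h4 : t * r * t⁻¹ * r⁻¹ = t * (r * t⁻¹ * r⁻¹) := by group
        rw [h4]
        exact T.mul_mem ht h3
      have h5 : ⁅T, Q⁆ = ⊥ := by
        rw [Subgroup.commutator_comm]
        exact (Subgroup.commutator_eq_bot_iff_le_centralizer).2 hQT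
      exact le_bot_iff.1 (h5 ▸ Subgroup.commutator_mono hle le_rfl)
    have h3 := Subgroup.commutator_commutator_eq_bot_of_rotate h1 h2
    rwa [hR₁] at h3
  -- the Frattini-type subgroup
  have hphi := htwist (phiSub p R) phiSub_le (fun a ha => norm_phiSub (hRA ha)) (fun q hq => norm_phiSub (hRQ hq))
    (fun r hr => norm_phiSub (Subgroup.le_normalizer hr)) (phiSub_ne R hRp hRne)
  obtain ⟨hphiQ, hphiR⟩ := hphi
  have hphicomm : ∀ r ∈ R, ∀ t ∈ phiSub p R, r * t = t * r := by
    intro r hr t ht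
    have h1 : R ≤ centralizer ((phiSub p R : Subgroup G) : Set G) :=
      (Subgroup.commutator_eq_bot_iff_le_centralizer).1 hphiR
    exact (Subgroup.mem_centralizer_iff.1 (h1 hr) t ht).symm
  have hmemcomm : ∀ x ∈ R, ∀ y ∈ R, ⁅x, y⁆ ∈ phiSub p R := fun x hx y hy =>
    (le_sup_left : ⁅R, R⁆ ≤ phiSub p R) (Subgroup.commutator_mem_commutator hx hy)
  have hmempow : ∀ x ∈ R, x ^ p ∈ phiSub p R := fun x hx =>
    (le_sup_right : _ ≤ phiSub p R) (Subgroup.subset_closure ⟨x, hx, rfl⟩)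
  have hc : Class2 ↥R := by
    intro x y z
    apply Subtype.ext
    exact (hphicomm z z.2 _ (hmemcomm x x.2 y y.2)).symm
  have hchoose : p ∣ p.choose 2 := by
    apply Nat.Prime.dvd_choose_self hpp (by norm_num)
    rcases Nat.lt_or_ge 2 p with h | h
    · exact h
    · have h1 := hpp.two_le
      have h2 : p = 2 := by omega
      rw [h2] at hp
      exact absurd hp (by decide)
  have hcommp : ∀ x y : ↥R, ⁅y, x⁆ ^ p = 1 := by
    intro x y
    rw [← comm_pow_left hc]
    apply comm_central_left hc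
    intro z
    apply Subtype.ext
    exact (hphicomm z z.2 _ (hmempow y y.2)).symm
  have hmulpow : ∀ x y : ↥R, (x * y) ^ p = x ^ p * y ^ p := by
    intro x y
    rw [mul_pow_class2 hc]
    obtain ⟨m, hm⟩ := hchoose
    rw [hm, pow_mul, hcommp, one_pow, mul_one]
  -- the elements of order dividing `p`
  let Ω : Subgroup G :=
    { carrier := {x | x ∈ R ∧ x ^ p = 1}
      mul_mem' := by
        rintro a b ⟨ha, ha1⟩ ⟨hb, hb1⟩
        refine ⟨R.mul_mem ha hb, ?_⟩
        have h1 := hmulpow ⟨a, ha⟩ ⟨b, hb⟩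
        have h2 := congrArg Subtype.val h1
        have h3 : (a * b) ^ p = a ^ p * b ^ p := h2
        rw [h3, ha1, hb1, one_mul]
      one_mem' := ⟨R.one_mem, one_pow p⟩
      inv_mem' := by
        rintro a ⟨ha, ha1⟩
        exact ⟨R.inv_mem ha, by rw [inv_pow, ha1, inv_one]⟩ }
  have hΩmem : ∀ {x : G}, x ∈ Ω ↔ x ∈ R ∧ x ^ p = 1 := Iff.rfl
  have hΩN : ∀ g : G, g ∈ normalizer (R : Set G) → g ∈ normalizer (Ω : Set G) := by
    intro g hg
    apply mem_normalizer_of_conj_le
    rintro a ⟨ha, ha1⟩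
    refine hΩmem.2 ⟨(Subgroup.mem_normalizer_iff.1 hg a).1 ha, ?_⟩
    rw [conj_pow, ha1]
    group
  have hexp : ∀ x : ↥R, x ^ p = 1 := by
    by_cases hΩR : Ω = R
    · intro x
      have h1 : (x : G) ∈ Ω := by rw [hΩR]; exact x.2
      exact Subtype.ext h1.2
    · exfalso
      have hQΩ := hmin Ω (fun x hx => hx.1) (fun a ha => hΩN a (hRA ha)) (fun q hq => hΩN q (hRQ hq)) hΩR
      apply hRnc
      intro q hq
      apply Subgroup.mem_centralizer_iff.2
      intro x hx
      set w := x⁻¹ * (q * x * q⁻¹) with hw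
      have hqx : q * x * q⁻¹ ∈ R := (Subgroup.mem_normalizer_iff.1 (hRQ hq) x).1 hx
      have hpowfix : q * x ^ p * q⁻¹ = x ^ p := by
        have h1 := (Subgroup.mem_centralizer_iff.1 (hphiQ hq) _ (hmempow x hx))
        rw [← h1]
        group
      have hwΩ : w ∈ Ω := by
        refine hΩmem.2 ⟨R.mul_mem (R.inv_mem hx) hqx, ?_⟩
        have h1 := congrArg Subtype.val (hmulpow ⟨x⁻¹, R.inv_mem hx⟩ ⟨q * x * q⁻¹, hqx⟩)
        have h2 : w ^ p = (x⁻¹) ^ p * (q * x * q⁻¹) ^ p := h1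
        rw [h2, conj_pow, hpowfix, inv_pow]
        group
      have h4 : q * w = w * q := (Subgroup.mem_centralizer_iff.1 (hQΩ hq) w hwΩ).symm
      have h5 : w = 1 := by
        refine eq_one_of_twist (q := q) (x := x) (p := p) ?_ h4 (hRpow w hwΩ.1) (hQo q hq)
        rw [hw]
        group
      rw [hw, inv_mul_eq_one, eq_comm, mul_inv_eq_iff_eq_mul] at h5
      exact h5.symm
  -- the main step
  set N := normalizer (R : Set G) with hN
  obtain ⟨q₀, hq₀, hq₀c⟩ : ∃ q₀ ∈ Q, ¬ q₀ ∈ centralizer (R : Set G) := by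
    by_contra hcon
    push Not at hcon
    exact hRnc hcon
  obtain ⟨x₀, hx₀, hx₀c⟩ : ∃ x₀ ∈ R, x₀ * q₀ ≠ q₀ * x₀ := by
    by_contra hcon
    push Not at hcon
    exact hq₀c (Subgroup.mem_centralizer_iff.2 hcon)
  have hρ : ∀ (g : ↥N) (x : ↥R), ((R.normalizerMonoidHom g x : ↥R) : G) = (g : G) * x * (g : G)⁻¹ := fun _ _ => rfl
  obtain ⟨v, hv1, hvA, q', hq', hvq⟩ := exists_fixed_not_fixed hp hc hexp R.normalizerMonoidHom
    (Q.subgroupOf N) (A.subgroupOf N)
    (by rw [Nat.card_congr (Subgroup.subgroupOfEquivOfLe hRQ).toEquiv]; exact hQ)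
    (by
      intro g
      obtain ⟨k, hk⟩ := hAp ⟨g.1.1, g.2⟩
      refine ⟨k, Subtype.ext (Subtype.ext ?_)⟩
      have h0 := congrArg Subtype.val hk
      simpa using h0)
    (by
      intro a ha q hq
      have h1 : (a : G) ∈ A := ha
      have h2 : (q : G) ∈ Q := hq
      exact (Subgroup.mem_normalizer_iff.1 (hAQ h1) q).1 h2)
    ⟨⟨q₀, hRQ hq₀⟩, hq₀, ⟨x₀, hx₀⟩, by
      intro h
      have h1 := congrArg Subtype.val h
      rw [hρ] at h1
      have h2 : q₀ * x₀ * q₀⁻¹ = x₀ := h1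
      rw [mul_inv_eq_iff_eq_mul] at h2
      exact hx₀c h2.symm⟩
  have hv1' : (v : G) ≠ 1 := fun h => hv1 (Subtype.ext h)
  have hvo : orderOf (v : G) = p := by
    apply orderOf_eq_prime
    · exact congrArg Subtype.val (hexp v)
    · exact hv1'
  have hvC : (v : G) ∈ centralizer (A : Set G) := by
    apply Subgroup.mem_centralizer_iff.2
    intro a ha
    have h1 := congrArg Subtype.val (hvA ⟨a, hRA ha⟩ ha)
    rw [hρ] at h1
    have h2 : a * (v : G) * a⁻¹ = v := h1
    rw [mul_inv_eq_iff_eq_mul] at h2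
    exact h2
  have hvAm := hΩ _ hvC hvo
  apply hvq
  apply Subtype.ext
  rw [hρ]
  have hq'Q : (q' : G) ∈ Q := hq'
  have h1 : (q' : G) * v * (q' : G)⁻¹ * (v : G)⁻¹ ∈ Q := by
    have h2 : (v : G) * (q' : G)⁻¹ * (v : G)⁻¹ ∈ Q :=
      (Subgroup.mem_normalizer_iff.1 (hAQ hvAm) _).1 (Q.inv_mem hq'Q)
    have h3 : (q' : G) * v * (q' : G)⁻¹ * (v : G)⁻¹ = (q' : G) * ((v : G) * (q' : G)⁻¹ * (v : G)⁻¹) := by group
    rw [h3]
    exact Q.mul_mem hq'Q h2
  have h2 : (q' : G) * v * (q' : G)⁻¹ * (v : G)⁻¹ ∈ P := by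
    have hvP : (v : G) ∈ P := hRP v.2
    exact P.mul_mem (hPn.conj_mem _ hvP _) (P.inv_mem hvP)
  have h3 := hQP _ h1 h2
  rw [mul_inv_eq_one] at h3
  exact h3

end

section quotient

variable {X : Type*} [Group X] [Finite X] {p : ℕ} [Fact p.Prime]

/-- S1302 -/
theorem main (hp : Odd p) (hX : IsPConstrained p X) (A : Subgroup X) (hAp : IsPGroup p A)
    (hΩ : ∀ x ∈ centralizer (A : Set X), orderOf x = p → x ∈ A) (Q : Subgroup X) (hQ : ¬ p ∣ Nat.card Q)
    (hAQ : A ≤ normalizer (Q : Set X)) : Q ≤ pPrimeCore p X := by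
  classical
  have hpp : p.Prime := Fact.out
  set O := pPrimeCore p X with hO
  haveI hOn : O.Normal := Cfsg.Agent.Lib.FitCore.pPrimeCore_normal p
  have hOc : ¬ p ∣ Nat.card O := Cfsg.Agent.Lib.FitCore.not_dvd_card_pPrimeCore p hpp
  let π := QuotientGroup.mk' O
  have hπs : Function.Surjective π := QuotientGroup.mk'_surjective O
  have hOb : pPrimeCore p (X ⧸ O) = ⊥ := Cfsg.Agent.Lib.PComps.pPrimeCore_quotient_eq_bot
  have hlay : pLayer p X = ⊥ := (Cfsg.Agent.Lib.PComps2.isPConstrained_iff).1 hX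
  have hlay2 : layer (X ⧸ O) = ⊥ := by
    have := Cfsg.Agent.Lib.PComps2.map_pLayer (p := p) (X := X)
    rw [hlay, Subgroup.map_bot] at this
    exact this.symm
  have hC : centralizer (pCore p (X ⧸ O) : Set (X ⧸ O)) ≤ pCore p (X ⧸ O) :=
    Cfsg.Agent.Lib.PComps2.char_of_layer_eq_bot hlay2 hOb
  have hQb : Q.map π = ⊥ := by
    apply core_case hp hC (A.map π) (hAp.map π)
    · intro xb hxb hxo
      obtain ⟨u, rfl⟩ := hπs xb
      -- lift to the centralizer
      obtain ⟨n, hn, hn2⟩ := Cfsg.Agent.Lib.CoprimeGen.exists_mul_mem_centralizer (x := u) hAp hOc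
        (fun b _ n hn => hOn.conj_mem n hn b) (by
          intro b hb
          apply (QuotientGroup.eq_one_iff _).1
          have h9 : π (u⁻¹ * (b * u * b⁻¹)) = 1 := by
            have h8 : π b * π u = π u * π b :=
              Subgroup.mem_centralizer_iff.1 hxb (π b) ⟨b, hb, rfl⟩
            simp only [map_mul, map_inv]
            rw [h8]
            group
          exact h9)
      set w := u * n with hw
      have hπw : π w = π u := by
        rw [hw, map_mul]
        have : π n = 1 := (QuotientGroup.eq_one_iff n).2 hn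
        rw [this, mul_one]
      have hwC : w ∈ centralizer (A : Set X) := by
        apply Subgroup.mem_centralizer_iff.2
        intro a ha
        have h1 := hn2 a ha
        rw [mul_inv_eq_iff_eq_mul] at h1
        exact h1
      set m := orderOf w with hm
      have hdvd : p ∣ m := by
        rw [← hxo, ← hπw]
        exact orderOf_map_dvd π w
      obtain ⟨k, hk⟩ := hdvd
      have hm0 : m ≠ 0 := (orderOf_pos w).ne'
      have hk0 : k ≠ 0 := by
        rintro rfl
        exact hm0 (by rw [hk, mul_zero])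
      have hwp : w ^ p ∈ O := by
        apply (QuotientGroup.eq_one_iff _).1
        have : π (w ^ p) = 1 := by
          rw [map_pow, hπw, ← hxo]
          exact pow_orderOf_eq_one _
        exact this
      have hok : orderOf (w ^ p) = k := by
        rw [orderOf_pow' w hpp.ne_zero]
        have h1 : Nat.gcd m p = p := Nat.gcd_eq_right ⟨k, hk⟩
        rw [← hm, h1, hk]
        exact Nat.mul_div_cancel_left k hpp.pos
      have hkc : ¬ p ∣ k := by
        intro h
        apply hOc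
        rw [← hok] at h
        exact dvd_trans h (Subgroup.orderOf_dvd_natCard O hwp)
      have hwk : orderOf (w ^ k) = p := by
        rw [orderOf_pow' w hk0]
        have h1 : Nat.gcd m k = k := Nat.gcd_eq_right ⟨p, by rw [hk, mul_comm]⟩
        rw [← hm, h1, hk]
        exact Nat.mul_div_cancel _ (Nat.pos_of_ne_zero hk0)
      have hwkA : w ^ k ∈ A := hΩ _ (Subgroup.pow_mem _ hwC k) hwk
      have hu : π (w ^ k) ∈ A.map π := ⟨_, hwkA, rfl⟩
      rw [map_pow, hπw] at hu
      apply Cfsg.Agent.Lib.H7Basic.mem_of_pow_mem_of_coprime _ (π u) k _ hu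
      rw [hxo]
      exact (Nat.Prime.coprime_iff_not_dvd hpp).2 hkc
    · intro h
      exact hQ (dvd_trans h (Subgroup.card_map_dvd _ _))
    · rintro _ ⟨a, ha, rfl⟩
      apply mem_normalizer_of_conj_le
      rintro _ ⟨q, hq, rfl⟩
      exact ⟨a * q * a⁻¹, (Subgroup.mem_normalizer_iff.1 (hAQ ha) q).1 hq, by simp⟩
  intro q hq
  have h1 : π q ∈ Q.map π := ⟨q, hq, rfl⟩
  rw [hQb] at h1
  exact (QuotientGroup.eq_one_iff q).1 h1

end quotient

end Cfsg.Agent.Lib.LieTrick2
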