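import Mathlib
import Cfsg.Prelude
import Cfsg.Agent.Lib.OddDihedral
import Cfsg.Agent.Lib.LieTrick2

/-!
# Two maximal subgroups containing each other's generalized Fitting subgroup
-/

set_option autoImplicit false
set_option linter.all false

namespace Cfsg.Agent.Lib.BenderMax

open Subgroup Cfsg Cfsg.Agent.Lib.Layer Cfsg.Agent.Lib.Comps Cfsg.Agent.Lib.H2Basic Cfsg.Agent.Lib.OddDihedral
open scoped commutatorElement

section H

variable {H : Type*} [Group H] [Finite H]

theorem fitting_le_iSup : fittingSubgroup H ≤ ⨆ p : {p : ℕ // p.Prime}, pCore (p : ℕ) H := by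
  classical
  rw [← Subgroup.relIndex_eq_one]
  by_contra hne
  obtain ⟨p, hp, hpd⟩ := Nat.exists_prime_and_dvd hne
  haveI : Fact p.Prime := ⟨hp⟩
  have h1 : pCore p H ≤ ⨆ p : {p : ℕ // p.Prime}, pCore (p : ℕ) H :=
    le_iSup (fun p : {p : ℕ // p.Prime} => pCore (p : ℕ) H) ⟨p, hp⟩
  exact Cfsg.Agent.Lib.FitCore.relIndex_pCore_not_dvd_fitting p
    (dvd_trans hpd (Subgroup.relIndex_dvd_of_le_left _ h1))

theorem mem_pCore_of_fitting {p : ℕ} [Fact p.Prime] {x : H} (hx : x ∈ fittingSubgroup H) {k : ℕ}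
    (hk : x ^ p ^ k = 1) : x ∈ pCore p H := by
  have hpp : p.Prime := Fact.out
  haveI := Cfsg.Agent.Lib.FitCore.fitting_isNilpotent (G := H)
  have h1 := Cfsg.Agent.Lib.FitCore.pow_index_mem_of_nilpotent (⟨x, hx⟩ : fittingSubgroup H)
    ((pCore p H).subgroupOf (fittingSubgroup H))
  have h2 : x ^ (pCore p H).relIndex (fittingSubgroup H) ∈ pCore p H := by
    have := Subgroup.mem_subgroupOf.mp h1
    simpa [Subgroup.relIndex] using this
  apply Cfsg.Agent.Lib.H7Basic.mem_of_pow_mem_of_coprime _ x _ _ h2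
  have h3 : orderOf x ∣ p ^ k := orderOf_dvd_of_pow_eq_one hk
  have h4 : (p ^ k).Coprime ((pCore p H).relIndex (fittingSubgroup H)) :=
    Nat.Coprime.pow_left _ ((Nat.Prime.coprime_iff_not_dvd hpp).2
      (Cfsg.Agent.Lib.FitCore.relIndex_pCore_not_dvd_fitting p))
  exact Nat.Coprime.coprime_dvd_left h3 h4

/-- components of a subgroup containing the generalized Fitting subgroup are components -/
theorem comp_of_genFitting_le (D₀ : Subgroup H) (hD : generalizedFittingSubgroup H ≤ D₀) {K : Subgroup ↥D₀}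
    (hK : IsComponent K) : IsComponent (K.map D₀.subtype) := by
  classical
  set K₁ := K.map D₀.subtype with hK₁
  have hq : IsQuasisimple K₁ :=
    isQuasisimple_congr (Subgroup.equivMapOfInjective K D₀.subtype D₀.subtype_injective) hK.2
  by_contra hcon
  have hL : ∀ L : Subgroup H, IsComponent L → ∀ a ∈ K₁, ∀ b ∈ L, a * b = b * a := by
    intro L hLc a ha b hb
    have hLD : L ≤ D₀ := fun x hx =>
      hD ((le_sup_left : layer H ≤ generalizedFittingSubgroup H)
        ((le_sSup (show L ∈ {K : Subgroup H | IsComponent K} from hLc) : L ≤ layer H) hx))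
    have hL' := isComponent_subgroupOf hLc hLD
    rcases comp_comm_comp hK hL' with h1 | h1
    · exfalso
      apply hcon
      rw [hK₁, h1, Subgroup.map_subgroupOf_eq_of_le hLD]
      exact hLc
    · obtain ⟨a', ha', rfl⟩ := ha
      have hb' : (⟨b, hLD hb⟩ : ↥D₀) ∈ L.subgroupOf D₀ := hb
      have h2 := Subgroup.commutator_mem_commutator ha' hb'
      rw [h1] at h2
      have h3 := (commutatorElement_eq_one_iff_mul_comm.1 ((Subgroup.mem_bot).1 h2))
      exact congrArg Subtype.val h3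
  have hF : ∀ a ∈ K₁, ∀ f ∈ fittingSubgroup H, a * f = f * a := by
    intro a ha f hf
    have hFD : fittingSubgroup H ≤ D₀ := fun x hx =>
      hD ((le_sup_right : fittingSubgroup H ≤ generalizedFittingSubgroup H) hx)
    have hFn : ((fittingSubgroup H).subgroupOf D₀).Normal :=
      Subgroup.Normal.subgroupOf Cfsg.Agent.Lib.FitCore.fitting_normal D₀
    have hFnil : Group.IsNilpotent ↥((fittingSubgroup H).subgroupOf D₀) := by
      haveI := Cfsg.Agent.Lib.FitCore.fitting_isNilpotent (G := H)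
      exact nilpotent_of_mulEquiv (Subgroup.subgroupOfEquivOfLe hFD).symm
    have h1 : (fittingSubgroup H).subgroupOf D₀ ≤ fittingSubgroup ↥D₀ :=
      Cfsg.Agent.Lib.FitCore.le_fitting _ hFn hFnil
    have h2 := comp_comm_fitting hK
    obtain ⟨a', ha', rfl⟩ := ha
    have hf' : (⟨f, hFD hf⟩ : ↥D₀) ∈ (fittingSubgroup H).subgroupOf D₀ := hf
    have h3 := Subgroup.commutator_mem_commutator ha' (h1 hf')
    rw [h2] at h3
    have h4 := (commutatorElement_eq_one_iff_mul_comm.1 ((Subgroup.mem_bot).1 h3))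
    exact congrArg Subtype.val h4
  have hC : K₁ ≤ centralizer (generalizedFittingSubgroup H : Set H) := by
    intro a ha
    have hle : generalizedFittingSubgroup H ≤ centralizer ({a} : Set H) := by
      refine sup_le ?_ ?_
      · refine sSup_le fun L hLc => ?_
        intro b hb
        exact Subgroup.mem_centralizer_singleton_iff.2 (hL L hLc a ha b hb).symm
      · intro f hf
        exact Subgroup.mem_centralizer_singleton_iff.2 (hF a ha f hf).symm
    apply Subgroup.mem_centralizer_iff.2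
    intro f hf
    exact Subgroup.mem_centralizer_singleton_iff.1 (hle hf)
  have hKF : K₁ ≤ generalizedFittingSubgroup H := le_trans hC bender
  apply not_isMulCommutative_of_quasisimple hq
  refine ⟨⟨fun a b => Subtype.ext ?_⟩⟩
  exact (Subgroup.mem_centralizer_iff.1 (hC b.2) a (hKF a.2))

end H

section G

variable {G : Type*} [Group G] [Finite G]

/-- a component of `M` inside `N` is a component of `N` -/
theorem comp_transfer {M N : Subgroup G} (hX : (generalizedFittingSubgroup ↥M).map M.subtype ≤ N)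
    (hY : (generalizedFittingSubgroup ↥N).map N.subtype ≤ M) {K : Subgroup ↥M} (hK : IsComponent K) :
    IsComponent ((K.map M.subtype).subgroupOf N) := by
  classical
  have hKle : K ≤ generalizedFittingSubgroup ↥M := fun x hx =>
    (le_sup_left : layer ↥M ≤ generalizedFittingSubgroup ↥M)
      ((le_sSup (show K ∈ {K : Subgroup ↥M | IsComponent K} from hK) : K ≤ layer ↥M) hx)
  have hKN : ∀ k ∈ K, (k : G) ∈ N := fun k hk => hX ⟨k, hKle hk, rfl⟩
  set D₀ : Subgroup ↥N := M.subgroupOf N with hD₀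
  have hD : generalizedFittingSubgroup ↥N ≤ D₀ := fun y hy => hY ⟨y, hy, rfl⟩
  let ι : ↥D₀ →* ↥M :=
    { toFun := fun d => ⟨d.1.1, d.2⟩
      map_one' := rfl
      map_mul' := fun _ _ => rfl }
  set K₂ : Subgroup ↥D₀ := K.comap ι with hK₂
  have hK₂c : IsComponent K₂ := by
    refine ⟨hK.1.comap ι, ?_⟩
    let f : ↥K₂ →* ↥K := ι.subgroupComap K
    have hbij : Function.Bijective f := by
      constructor
      · intro a b hab
        have h1 : ((f a : ↥K) : ↥M) = ((f b : ↥K) : ↥M) := congrArg Subtype.val hab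
        have h2 : ((a : ↥D₀) : ↥N).1 = ((b : ↥D₀) : ↥N).1 := congrArg (fun z : ↥M => (z : G)) h1
        exact Subtype.ext (Subtype.ext (Subtype.ext h2))
      · intro k
        refine ⟨⟨⟨⟨k.1.1, hKN k.1 k.2⟩, k.1.2⟩, ?_⟩, ?_⟩
        · exact k.2
        · exact Subtype.ext (Subtype.ext rfl)
    exact isQuasisimple_congr (MulEquiv.ofBijective f hbij).symm hK.2
  have h1 := comp_of_genFitting_le D₀ hD hK₂c
  have h2 : K₂.map D₀.subtype = (K.map M.subtype).subgroupOf N := by
    ext x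
    constructor
    · rintro ⟨d, hd, rfl⟩
      exact ⟨ι d, hd, rfl⟩
    · rintro ⟨k, hk, hkx⟩
      have hkx' : (k : G) = (x : G) := hkx
      refine ⟨⟨x, (hkx' ▸ k.2 : (x : G) ∈ M)⟩, ?_, rfl⟩
      have : ι ⟨x, (hkx' ▸ k.2 : (x : G) ∈ M)⟩ = k := Subtype.ext hkx'.symm
      show ι _ ∈ K
      rw [this]
      exact hk
  rwa [h2] at h1

theorem map_layer_le {M N : Subgroup G} (hX : (generalizedFittingSubgroup ↥M).map M.subtype ≤ N)
    (hY : (generalizedFittingSubgroup ↥N).map N.subtype ≤ M) :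
    (layer ↥M).map M.subtype ≤ (layer ↥N).map N.subtype := by
  rw [Subgroup.map_le_iff_le_comap]
  refine sSup_le fun K hK => ?_
  intro k hk
  have h1 := comp_transfer hX hY hK
  have hkN : (k : G) ∈ N := by
    have hKle : K ≤ generalizedFittingSubgroup ↥M := fun x hx =>
      (le_sup_left : layer ↥M ≤ generalizedFittingSubgroup ↥M)
        ((le_sSup (show K ∈ {K : Subgroup ↥M | IsComponent K} from hK) : K ≤ layer ↥M) hx)
    exact hX ⟨k, hKle hk, rfl⟩
  refine ⟨⟨k, hkN⟩, ?_, rfl⟩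
  apply (le_sSup (show _ ∈ {K : Subgroup ↥N | IsComponent K} from h1) : _ ≤ layer ↥N)
  exact ⟨k, hk, rfl⟩

theorem coatom_sup {M N : Subgroup G} (hM : IsCoatom M) (hN : IsCoatom N) (hMN : M ≠ N) : M ⊔ N = ⊤ := by
  by_contra hcon
  have h1 : M < M ⊔ N ∨ M = M ⊔ N := (lt_or_eq_of_le le_sup_left)
  rcases h1 with h1 | h1
  · exact hcon (hM.2 _ h1)
  · have h2 : N ≤ M := by
      rw [h1]
      exact le_sup_right
    rcases lt_or_eq_of_le h2 with h3 | h3
    · exact hM.1 (hN.2 _ h3)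
    · exact hMN h3.symm

/-- a subgroup normalized by two distinct maximal subgroups, in a simple group, contained in one of them, is trivial -/
theorem eq_bot_of_norm [IsSimpleGroup G] {M N U : Subgroup G} (hM : IsCoatom M) (hN : IsCoatom N) (hMN : M ≠ N)
    (hUM : U ≤ M) (h1 : M ≤ normalizer (U : Set G)) (h2 : N ≤ normalizer (U : Set G)) : U = ⊥ := by
  have h3 : normalizer (U : Set G) = ⊤ := by
    rw [eq_top_iff, ← coatom_sup hM hN hMN]
    exact sup_le h1 h2
  have h4 : U.Normal := Subgroup.normalizer_eq_top_iff.1 h3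
  rcases h4.eq_bot_or_eq_top with h5 | h5
  · exact h5
  · exfalso
    apply hM.1
    rw [eq_top_iff, ← h5]
    exact hUM

theorem layer_eq_bot [IsSimpleGroup G] {M N : Subgroup G} (hM : IsCoatom M) (hN : IsCoatom N) (hMN : M ≠ N)
    (hX : (generalizedFittingSubgroup ↥M).map M.subtype ≤ N)
    (hY : (generalizedFittingSubgroup ↥N).map N.subtype ≤ M) : layer ↥M = ⊥ := by
  have hE : (layer ↥M).map M.subtype = (layer ↥N).map N.subtype :=
    le_antisymm (map_layer_le hX hY) (map_layer_le hY hX)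
  have hnorm : ∀ {A : Subgroup G}, A ≤ normalizer (((layer ↥A).map A.subtype : Subgroup G) : Set G) := by
    intro A a ha
    apply mem_normalizer_of_conj_le
    rintro _ ⟨l, hl, rfl⟩
    have hn : (layer ↥A).Normal := layer_normal ↥A
    exact ⟨⟨a, ha⟩ * l * ⟨a, ha⟩⁻¹, hn.conj_mem l hl _, by simp⟩
  have h := eq_bot_of_norm (U := (layer ↥M).map M.subtype) hM hN hMN (Subgroup.map_subtype_le _) hnorm
    (hE ▸ hnorm)
  exact (Subgroup.map_eq_bot_iff_of_injective _ M.subtype_injective).1 h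

theorem comm_cores {M N : Subgroup G} {r s : ℕ} [Fact r.Prime] [Fact s.Prime] (hrs : r ≠ s)
    (hr : coreIn r M ≤ N) (hs : coreIn s N ≤ M) {x y : G} (hx : x ∈ coreIn r M) (hy : y ∈ coreIn s N) :
    x * y = y * x := by
  have h1 : x * y * x⁻¹ * y⁻¹ ∈ coreIn s N :=
    (coreIn s N).mul_mem (conj_mem_coreIn (Subgroup.le_normalizer (hr hx)) hy) ((coreIn s N).inv_mem hy)
  have h2 : x * y * x⁻¹ * y⁻¹ ∈ coreIn r M := by
    have h3 : x * y * x⁻¹ * y⁻¹ = x * (y * x⁻¹ * y⁻¹) := by group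
    rw [h3]
    exact (coreIn r M).mul_mem hx (conj_mem_coreIn (Subgroup.le_normalizer (hs hy)) ((coreIn r M).inv_mem hx))
  have hd := IsPGroup.disjoint_of_ne r s hrs _ _ (coreIn_isPGroup r M) (coreIn_isPGroup s N)
  have h4 := Subgroup.disjoint_def.1 hd h2 h1
  rw [mul_inv_eq_one, mul_inv_eq_iff_eq_mul] at h4
  exact h4

theorem core_le_of_gf {M N : Subgroup G} (hX : (generalizedFittingSubgroup ↥M).map M.subtype ≤ N)
    (r : ℕ) [Fact r.Prime] : coreIn r M ≤ N := by
  rintro _ ⟨u, hu, rfl⟩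
  exact hX ⟨u, (le_sup_right : fittingSubgroup ↥M ≤ generalizedFittingSubgroup ↥M)
    (Cfsg.Agent.Lib.FitCore.pCore_le_fitting r hu), rfl⟩

/-- an element commuting with all `p`-cores lies in the centralizer of the Fitting subgroup -/
theorem mem_fitting_of_comm {M : Subgroup G} (hL : layer ↥M = ⊥) {x : G} (hxM : x ∈ M)
    (h : ∀ r : ℕ, r.Prime → ∀ w ∈ coreIn r M, x * w = w * x) : (⟨x, hxM⟩ : ↥M) ∈ fittingSubgroup ↥M := by
  have hC : centralizer (fittingSubgroup ↥M : Set ↥M) ≤ fittingSubgroup ↥M :=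
    (centralizer_fitting_le_iff).2 hL
  apply hC
  have hle : fittingSubgroup ↥M ≤ centralizer ({(⟨x, hxM⟩ : ↥M)} : Set ↥M) := by
    refine le_trans fitting_le_iSup (iSup_le fun r => ?_)
    intro u hu
    apply Subgroup.mem_centralizer_singleton_iff.2
    apply Subtype.ext
    exact (h r r.2 u ⟨u, hu, rfl⟩).symm
  apply Subgroup.mem_centralizer_iff.2
  intro f hf
  exact Subgroup.mem_centralizer_singleton_iff.1 (hle hf)

/-- primes of the two Fitting subgroups agree -/
theorem core_eq_bot_of_core_eq_bot {M N : Subgroup G} (hLN : layer ↥N = ⊥)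
    (hX : (generalizedFittingSubgroup ↥M).map M.subtype ≤ N)
    (hY : (generalizedFittingSubgroup ↥N).map N.subtype ≤ M) {p : ℕ} [Fact p.Prime]
    (h : coreIn p N = ⊥) : coreIn p M = ⊥ := by
  rw [eq_bot_iff]
  intro x hx
  have hxN : x ∈ N := core_le_of_gf hX p hx
  have h1 := mem_fitting_of_comm hLN hxN (by
    intro r hr w hw
    by_cases hrp : r = p
    · subst hrp
      rw [h] at hw
      have : w = 1 := hw
      rw [this]
      simp
    · haveI : Fact r.Prime := ⟨hr⟩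
      exact comm_cores (Ne.symm hrp) (core_le_of_gf hX p) (core_le_of_gf hY r) hx hw)
  obtain ⟨k, hk⟩ := coreIn_isPGroup p M ⟨x, hx⟩
  have hk' : x ^ p ^ k = 1 := congrArg Subtype.val hk
  have h2 : (⟨x, hxN⟩ : ↥N) ∈ pCore p ↥N :=
    mem_pCore_of_fitting h1 (k := k) (Subtype.ext hk')
  have h3 : x ∈ coreIn p N := ⟨_, h2, rfl⟩
  rwa [h] at h3

/-- the key commutation -/
theorem key_comm {M N : Subgroup G} (hLM : layer ↥M = ⊥)
    (hX : (generalizedFittingSubgroup ↥M).map M.subtype ≤ N)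
    (hY : (generalizedFittingSubgroup ↥N).map N.subtype ≤ M) {p q : ℕ} [Fact p.Prime] [Fact q.Prime]
    (hpq : p ≠ q) {g y b : G} (hg : g ∈ M) (hy : y ∈ coreIn p N) (hb : b ∈ coreIn q N) :
    b * (g * y * g⁻¹) = (g * y * g⁻¹) * b := by
  classical
  have hcM : ∀ (r : ℕ) [Fact r.Prime], coreIn r M ≤ N := fun r _ => core_le_of_gf hX r
  have hcN : ∀ (r : ℕ) [Fact r.Prime], coreIn r N ≤ M := fun r _ => core_le_of_gf hY r
  have hgN := Subgroup.le_normalizer hg
  have hginvN := Subgroup.le_normalizer (M.inv_mem hg)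
  have hyM : y ∈ M := hcN p hy
  have hbM : b ∈ M := hcN q hb
  set y' := g * y * g⁻¹ with hy'
  have hy'M : y' ∈ M := M.mul_mem (M.mul_mem hg hyM) (M.inv_mem hg)
  have hbN := Subgroup.le_normalizer hbM
  have hbinvN := Subgroup.le_normalizer (M.inv_mem hbM)
  have hy'N := Subgroup.le_normalizer hy'M
  have hy'invN := Subgroup.le_normalizer (M.inv_mem hy'M)
  -- `b` centralizes the `p`-core of `M`
  have hb_p : ∀ x ∈ coreIn p M, b * x = x * b := fun x hx =>
    (comm_cores hpq (hcM p) (hcN q) hx hb).symm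
  -- `y'` centralizes the other cores
  have hy_r : ∀ (r : ℕ) [Fact r.Prime], r ≠ p → ∀ w ∈ coreIn r M, y' * w = w * y' := by
    intro r _ hrp w hw
    have hw₁ : g⁻¹ * w * g⁻¹⁻¹ ∈ coreIn r M := conj_mem_coreIn hginvN hw
    have h1 := comm_cores hrp (hcM r) (hcN p) hw₁ hy
    have h2 : g⁻¹ * w * g * y = y * (g⁻¹ * w * g) := by
      simpa using h1
    calc y' * w = g * (y * (g⁻¹ * w * g)) * g⁻¹ := by rw [hy']; group
      _ = g * (g⁻¹ * w * g * y) * g⁻¹ := by rw [h2]
      _ = w * y' := by rw [hy']; group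
  set z := b * y' * b⁻¹ * y'⁻¹ with hz
  have hzM : z ∈ M := M.mul_mem (M.mul_mem (M.mul_mem hbM hy'M) (M.inv_mem hbM)) (M.inv_mem hy'M)
  have hz_cent : ∀ r : ℕ, r.Prime → ∀ x ∈ coreIn r M, z * x = x * z := by
    intro r hr x hx
    haveI : Fact r.Prime := ⟨hr⟩
    by_cases hrp : r = p
    · subst hrp
      have hx₁ : y'⁻¹ * x * y'⁻¹⁻¹ ∈ coreIn r M := conj_mem_coreIn hy'invN hx
      have hx₁' : y'⁻¹ * x * y' ∈ coreIn r M := by simpa using hx₁
      have h1 := hb_p _ hx₁'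
      have h2 : b⁻¹ * (y'⁻¹ * x * y') = (y'⁻¹ * x * y') * b⁻¹ := (Commute.inv_left h1).eq
      have h3 := hb_p x hx
      calc z * x = b * y' * (b⁻¹ * (y'⁻¹ * x * y')) * y'⁻¹ := by rw [hz]; group
        _ = b * y' * ((y'⁻¹ * x * y') * b⁻¹) * y'⁻¹ := by rw [h2]
        _ = (b * x) * y' * b⁻¹ * y'⁻¹ := by group
        _ = (x * b) * y' * b⁻¹ * y'⁻¹ := by rw [h3]
        _ = x * z := by rw [hz]; group
    · have hx₁ : b⁻¹ * x * b⁻¹⁻¹ ∈ coreIn r M := conj_mem_coreIn hbinvN hx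
      have hx₁' : b⁻¹ * x * b ∈ coreIn r M := by simpa using hx₁
      have h1 := hy_r r hrp _ hx₁'
      have h2 := hy_r r hrp x hx
      have h3 : y'⁻¹ * x = x * y'⁻¹ := (Commute.inv_left h2).eq
      calc z * x = b * y' * b⁻¹ * (y'⁻¹ * x) := by rw [hz]; group
        _ = b * y' * b⁻¹ * (x * y'⁻¹) := by rw [h3]
        _ = b * (y' * (b⁻¹ * x * b)) * b⁻¹ * y'⁻¹ := by group
        _ = b * ((b⁻¹ * x * b) * y') * b⁻¹ * y'⁻¹ := by rw [h1]
        _ = x * z := by rw [hz]; group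
  have hzF : (⟨z, hzM⟩ : ↥M) ∈ fittingSubgroup ↥M := mem_fitting_of_comm hLM hzM hz_cent
  -- `π z` commutes with `π y'`
  set Pc := pCore p ↥M with hPc
  haveI hPcn : Pc.Normal := Cfsg.Agent.Lib.FitCore.pCore_normal p
  let π := QuotientGroup.mk' Pc
  let y₀ : ↥M := ⟨y', hy'M⟩
  let z₀ : ↥M := ⟨z, hzM⟩
  have hFC : fittingSubgroup ↥M ≤ (centralizer ({π y₀} : Set (↥M ⧸ Pc))).comap π := by
    refine le_trans fitting_le_iSup (iSup_le fun r => ?_)
    intro u hu
    apply Subgroup.mem_centralizer_singleton_iff.2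
    by_cases hrp : (r : ℕ) = p
    · have hu' : u ∈ Pc := by
        rw [hPc, ← hrp]
        exact hu
      have : π u = 1 := (QuotientGroup.eq_one_iff u).2 hu'
      rw [this]
      simp
    · haveI : Fact (r : ℕ).Prime := ⟨r.2⟩
      have h1 := hy_r r hrp u ⟨u, hu, rfl⟩
      have h2 : y₀ * u = u * y₀ := Subtype.ext h1
      rw [← map_mul, ← map_mul, h2]
  have hcomm : Commute (π z₀) (π y₀) := Subgroup.mem_centralizer_singleton_iff.1 (hFC hzF)
  obtain ⟨e, he⟩ := coreIn_isPGroup p N ⟨y, hy⟩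
  have he' : y ^ p ^ e = 1 := congrArg Subtype.val he
  have hy'e : y' ^ p ^ e = 1 := by
    rw [hy', conj_pow, he']
    group
  have hy₀e : y₀ ^ p ^ e = 1 := Subtype.ext hy'e
  have hzy : z₀ * y₀ = ⟨b, hbM⟩ * y₀ * ⟨b, hbM⟩⁻¹ := by
    apply Subtype.ext
    show z * y' = b * y' * b⁻¹
    rw [hz]
    group
  have hzye : (z₀ * y₀) ^ p ^ e = 1 := by
    rw [hzy, conj_pow, hy₀e]
    group
  have hπz : π z₀ ^ p ^ e = 1 := by
    have h1 : π ((z₀ * y₀) ^ p ^ e) = 1 := by rw [hzye, map_one]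
    rw [map_pow, map_mul, hcomm.mul_pow, ← map_pow π y₀, hy₀e, map_one, mul_one] at h1
    exact h1
  have hz₀Pc : z₀ ^ p ^ e ∈ Pc := by
    apply (QuotientGroup.eq_one_iff _).1
    show π (z₀ ^ p ^ e) = 1
    rw [map_pow]
    exact hπz
  obtain ⟨f, hf⟩ := Cfsg.Agent.Lib.FitCore.pCore_isPGroup (G := ↥M) p ⟨_, hz₀Pc⟩
  have hf' : z₀ ^ p ^ (e + f) = 1 := by
    rw [pow_add, pow_mul]
    exact congrArg Subtype.val hf
  have hz₀Pc' : z₀ ∈ Pc := mem_pCore_of_fitting hzF hf'
  have hzc : z ∈ coreIn p M := ⟨z₀, hz₀Pc', rfl⟩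
  set w := y'⁻¹ * z * y' with hw
  have hwc : w ∈ coreIn p M := by
    have := conj_mem_coreIn (p := p) hy'invN hzc
    simpa [hw] using this
  have h1 : b * y' * b⁻¹ = y' * w := by
    rw [hw, hz]
    group
  obtain ⟨k, hk⟩ := coreIn_isPGroup p M ⟨w, hwc⟩
  have hbo : ¬ p ∣ orderOf b := by
    intro hd
    obtain ⟨m, hm⟩ := coreIn_isPGroup q N ⟨b, hb⟩
    have hm' : b ^ q ^ m = 1 := congrArg Subtype.val hm
    have h2 : orderOf b ∣ q ^ m := orderOf_dvd_of_pow_eq_one hm'
    have h3 : p ∣ q ^ m := dvd_trans hd h2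
    have hpp : p.Prime := Fact.out
    have hqq : q.Prime := Fact.out
    exact hpq ((Nat.prime_dvd_prime_iff_eq hpp hqq).1 (hpp.dvd_of_dvd_pow h3))
  have hw1 : w = 1 := Cfsg.Agent.Lib.LieTrick2.eq_one_of_twist (p := p) h1 (hb_p w hwc)
    ⟨k, congrArg Subtype.val hk⟩ hbo
  rw [hw1, mul_one] at h1
  rw [mul_inv_eq_iff_eq_mul] at h1
  exact h1

/-- one inclusion between cores -/
theorem core_le [IsSimpleGroup G] {M N : Subgroup G} (hN : IsCoatom N) (hLM : layer ↥M = ⊥)
    (hX : (generalizedFittingSubgroup ↥M).map M.subtype ≤ N)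
    (hY : (generalizedFittingSubgroup ↥N).map N.subtype ≤ M) {p q : ℕ} [Fact p.Prime] [Fact q.Prime]
    (hpq : p ≠ q) (hq : coreIn q N ≠ ⊥) : coreIn p N ≤ coreIn p M := by
  classical
  have hcN : ∀ (r : ℕ) [Fact r.Prime], coreIn r N ≤ M := fun r _ => core_le_of_gf hY r
  set Yq := coreIn q N with hYq
  set Yp := coreIn p N with hYp
  have hNnq : N ≤ normalizer (Yq : Set G) := fun x hx =>
    mem_normalizer_of_conj_le fun a ha => conj_mem_coreIn (Subgroup.le_normalizer hx) ha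
  have hNq : normalizer (Yq : Set G) ≤ N := by
    by_contra hcon
    have hlt : N < normalizer (Yq : Set G) := lt_of_le_of_ne hNnq (fun h => hcon (h ▸ le_rfl))
    have htop := hN.2 _ hlt
    have hnormal : Yq.Normal := Subgroup.normalizer_eq_top_iff.1 htop
    rcases hnormal.eq_bot_or_eq_top with h5 | h5
    · exact hq h5
    · apply hN.1
      rw [eq_top_iff, ← h5]
      exact coreIn_le q N
  have hCq : centralizer (Yq : Set G) ≤ N := le_trans (Subgroup.centralizer_le_normalizer _) hNq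
  set T : Subgroup G := closure {u | ∃ g ∈ M, ∃ y ∈ Yp, u = g * y * g⁻¹} with hT
  have hTC : T ≤ centralizer (Yq : Set G) := by
    rw [hT, Subgroup.closure_le]
    rintro _ ⟨g, hg, y, hy, rfl⟩
    apply Subgroup.mem_centralizer_iff.2
    intro b hb
    exact key_comm hLM hX hY hpq hg hy hb
  have hTN : T ≤ N := le_trans hTC hCq
  have hYpM : Yp ≤ M := hcN p
  have hTM : T ≤ M := by
    rw [hT, Subgroup.closure_le]
    rintro _ ⟨g, hg, y, hy, rfl⟩
    exact M.mul_mem (M.mul_mem hg (hYpM hy)) (M.inv_mem hg)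
  have hYpT : Yp ≤ T := fun y hy => Subgroup.subset_closure ⟨1, M.one_mem, y, hy, by simp⟩
  have hMT : M ≤ normalizer (T : Set G) := by
    intro h hh
    apply mem_normalizer_of_conj_le
    intro a ha
    have hle : T ≤ T.comap (MulAut.conj h).toMonoidHom := by
      rw [hT, Subgroup.closure_le]
      rintro _ ⟨g, hg, y, hy, rfl⟩
      show h * (g * y * g⁻¹) * h⁻¹ ∈ Subgroup.closure _
      apply Subgroup.subset_closure
      exact ⟨h * g, M.mul_mem hh hg, y, hy, by group⟩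
    exact hle ha
  have hT'n : (T.subgroupOf M).Normal := (Subgroup.normal_subgroupOf_iff_le_normalizer hTM).2 hMT
  have hY'T' : Yp.subgroupOf M ≤ T.subgroupOf M := fun y hy => hYpT hy
  have hNY : N ≤ normalizer (Yp : Set G) := fun x hx =>
    mem_normalizer_of_conj_le fun a ha => conj_mem_coreIn (Subgroup.le_normalizer hx) ha
  have hn : ((Yp.subgroupOf M).subgroupOf (T.subgroupOf M)).Normal := by
    constructor
    intro n hn g
    have hn' : ((n : ↥M) : G) ∈ Yp := hn
    have hg' : ((g : ↥M) : G) ∈ T := g.2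
    exact (Subgroup.mem_normalizer_iff.1 (hNY (hTN hg')) _).1 hn'
  have hsub : (Yp.subgroupOf M).IsSubnormal :=
    Subgroup.IsSubnormal.step _ _ hY'T' hT'n.isSubnormal hn
  have hpg : IsPGroup p ↥(Yp.subgroupOf M) :=
    (coreIn_isPGroup p N).of_injective (Subgroup.subgroupOfEquivOfLe hYpM).toMonoidHom
      (Subgroup.subgroupOfEquivOfLe hYpM).injective
  have hnil : Group.IsNilpotent ↥(Yp.subgroupOf M) := hpg.isNilpotent
  have hle := subnormal_nilpotent_le_fitting hsub hnil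
  intro y hy
  obtain ⟨k, hk⟩ := coreIn_isPGroup p N ⟨y, hy⟩
  have h1 : (⟨y, hYpM hy⟩ : ↥M) ∈ fittingSubgroup ↥M := hle hy
  have hk' : y ^ p ^ k = 1 := congrArg Subtype.val hk
  have h2 : (⟨y, hYpM hy⟩ : ↥M) ∈ pCore p ↥M :=
    mem_pCore_of_fitting h1 (k := k) (Subtype.ext hk')
  exact ⟨_, h2, rfl⟩

theorem isPGroup_fitting {H : Type*} [Group H] [Finite H] {p : ℕ} [Fact p.Prime]
    (h : ∀ q : ℕ, q.Prime → q ≠ p → pCore q H = ⊥) : fittingSubgroup H ≤ pCore p H := by
  refine le_trans fitting_le_iSup (iSup_le fun r => ?_)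
  by_cases hr : (r : ℕ) = p
  · rw [hr]
  · rw [h r r.2 hr]
    exact bot_le

theorem coreIn_eq_bot_iff {M : Subgroup G} {r : ℕ} : coreIn r M = ⊥ ↔ pCore r ↥M = ⊥ :=
  Subgroup.map_eq_bot_iff_of_injective _ M.subtype_injective

/-- S1312 -/
theorem main [IsSimpleGroup G] (M N : Subgroup G) (hM : IsCoatom M) (hN : IsCoatom N) (hMN : M ≠ N)
    (h1 : (generalizedFittingSubgroup ↥M).map M.subtype ≤ N)
    (h2 : (generalizedFittingSubgroup ↥N).map N.subtype ≤ M) :
    ∃ p : ℕ, p.Prime ∧ IsPGroup p ↥(generalizedFittingSubgroup ↥M) ∧ IsPGroup p ↥(generalizedFittingSubgroup ↥N) := by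
  classical
  have hLM : layer ↥M = ⊥ := layer_eq_bot hM hN hMN h1 h2
  have hLN : layer ↥N = ⊥ := layer_eq_bot hN hM hMN.symm h2 h1
  have hFM : generalizedFittingSubgroup ↥M = fittingSubgroup ↥M := genFitting_eq_of_layer_eq_bot hLM
  have hFN : generalizedFittingSubgroup ↥N = fittingSubgroup ↥N := genFitting_eq_of_layer_eq_bot hLN
  -- at most one prime
  have huniq : ∀ p q : ℕ, p.Prime → q.Prime → p ≠ q → coreIn p M ≠ ⊥ → coreIn q M = ⊥ := by
    intro p q hp hq hpq hpM
    by_contra hqM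
    haveI : Fact p.Prime := ⟨hp⟩
    haveI : Fact q.Prime := ⟨hq⟩
    have hqN : coreIn q N ≠ ⊥ := fun h => hqM (core_eq_bot_of_core_eq_bot hLN h1 h2 h)
    have h3 := core_le hN hLM h1 h2 hpq hqN
    have h4 := core_le hM hLN h2 h1 hpq hqM
    have h5 : coreIn p M = coreIn p N := le_antisymm h4 h3
    apply hpM
    apply eq_bot_of_norm hM hN hMN (coreIn_le p M)
    · intro x hx
      exact mem_normalizer_of_conj_le fun a ha => conj_mem_coreIn (Subgroup.le_normalizer hx) ha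
    · rw [h5]
      intro x hx
      exact mem_normalizer_of_conj_le fun a ha => conj_mem_coreIn (Subgroup.le_normalizer hx) ha
  have hchoose : ∃ p : ℕ, p.Prime ∧ ∀ q : ℕ, q.Prime → q ≠ p → coreIn q M = ⊥ := by
    by_cases hex : ∃ p : ℕ, p.Prime ∧ coreIn p M ≠ ⊥
    · obtain ⟨p, hp, hpM⟩ := hex
      exact ⟨p, hp, fun q hq hqp => huniq p q hp hq (Ne.symm hqp) hpM⟩
    · push Not at hex
      exact ⟨2, Nat.prime_two, fun q hq _ => hex q hq⟩
  obtain ⟨p, hp, hall⟩ := hchoose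
  haveI : Fact p.Prime := ⟨hp⟩
  refine ⟨p, hp, ?_, ?_⟩
  · rw [hFM]
    apply (Cfsg.Agent.Lib.FitCore.pCore_isPGroup (G := ↥M) p).to_le
    apply isPGroup_fitting
    intro q hq hqp
    exact coreIn_eq_bot_iff.1 (hall q hq hqp)
  · rw [hFN]
    apply (Cfsg.Agent.Lib.FitCore.pCore_isPGroup (G := ↥N) p).to_le
    apply isPGroup_fitting
    intro q hq hqp
    haveI : Fact q.Prime := ⟨hq⟩
    exact coreIn_eq_bot_iff.1 (core_eq_bot_of_core_eq_bot hLM h2 h1 (hall q hq hqp))

end G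

end Cfsg.Agent.Lib.BenderMax
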