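import Mathlib
import Cfsg.Agent.Lib.BisetParity

/-! Every fusion system is realized in a finite group. -/

set_option autoImplicit false
set_option linter.all false

namespace Cfsg.Agent.Lib.BisetPark

open Cfsg Cfsg.FusionSystem MulAction Cfsg.Agent.Lib.BisetGSet Cfsg.Agent.Lib.FusionBasic
  Cfsg.Agent.Lib.BisetGraph Cfsg.Agent.Lib.BisetCong Cfsg.Agent.Lib.BisetExist Cfsg.Agent.Lib.BisetTransfer
  Cfsg.Agent.Lib.FusionSat Cfsg.Agent.Lib.BisetParity

universe u

section Scale

variable {G : Type u} [Group G]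

/-- Several copies of a set. -/
def ScaleX (w : ℕ) (X : Type u) : Type u := Fin w × X

instance (w : ℕ) (X : Type u) [MulAction G X] : MulAction G (ScaleX w X) where
  smul g z := (z.1, g • z.2)
  one_smul z := Prod.ext rfl (one_smul G z.2)
  mul_smul g h z := Prod.ext rfl (mul_smul g h z.2)

instance (w : ℕ) (X : Type u) [Finite X] : Finite (ScaleX w X) := by
  unfold ScaleX
  infer_instance

theorem mark_scale (w : ℕ) (X : Type u) [MulAction G X] [Finite X] (K : Subgroup G) :
    mark K (ScaleX w X) = w * mark K X := by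
  have h : fix K (ScaleX w X) = (Set.univ : Set (Fin w)) ×ˢ fix K X := by
    ext ⟨a, x⟩
    constructor
    · intro hz
      exact ⟨trivial, fun g hg => congrArg Prod.snd (hz g hg)⟩
    · rintro ⟨-, hx⟩ g hg
      exact Prod.ext rfl (hx g hg)
  have h2 : ((Set.univ : Set (Fin w)) ×ˢ fix K X).ncard = w * mark K X := by
    rw [Set.ncard_prod, Set.ncard_univ, Nat.card_eq_fintype_card, Fintype.card_fin]
    rfl
  unfold mark at h2 ⊢
  rw [h]
  exact h2

theorem stab_scale (w : ℕ) (X : Type u) [MulAction G X] (z : ScaleX w X) :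
    stabilizer G z = stabilizer G z.2 := by
  ext g
  simp only [mem_stabilizer_iff]
  exact ⟨fun h => congrArg Prod.snd h, fun h => Prod.ext rfl h⟩

end Scale

section Exist

variable {Ω : Type u} [Group Ω] {S : Subgroup Ω}

theorem step' [Finite S] {F : FusionSystem S} {k : ℕ} (X : Type u) [MulAction (↥S × ↥S) X] [Finite X]
    (hX : GoodAbove F X (k + 1))
    (hpos : ∀ D : Subgroup (↥S × ↥S), IsFG F D → k + 1 < Nat.card D → 0 < mark D X) :
    ∃ (X' : Type u) (_ : MulAction (↥S × ↥S) X') (_ : Finite X'), GoodAbove F X' k ∧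
      ∀ D : Subgroup (↥S × ↥S), IsFG F D → k < Nat.card D → 0 < mark D X' := by
  classical
  haveI : Finite (Subgroup (↥S × ↥S)) := Finite.of_injective (fun H => (H : Set (↥S × ↥S))) SetLike.coe_injective
  let 𝒞 : Set (Subgroup (↥S × ↥S)) := {D | IsFG F D ∧ Nat.card D = k + 1}
  let w : ℕ := (Nat.card (↥S × ↥S)).factorial
  have hwpos : 0 < w := Nat.factorial_pos _
  let M : Subgroup (↥S × ↥S) → ℕ := fun _ => w * (Nat.card X + 1)
  have hMpos : ∀ D, 0 < M D := fun D => Nat.mul_pos hwpos (Nat.succ_pos _)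
  have hgood : ∀ D ∈ 𝒞, mark D (ScaleX w X) ≤ M D ∧ nn D ∣ M D - mark D (ScaleX w X) := by
    intro D _
    rw [mark_scale]
    have hmX : mark D X ≤ Nat.card X := Set.ncard_le_card _
    have hw : nn D ∣ w := Nat.dvd_factorial (nn_pos _) (nn_le _)
    refine ⟨Nat.mul_le_mul_left _ (by omega), ?_⟩
    show nn D ∣ w * (Nat.card X + 1) - w * mark D X
    rw [← Nat.mul_sub]
    exact Dvd.dvd.mul_right hw _
  obtain ⟨X', i1, i2, h1, h2, h3, -⟩ := add_copies 𝒞 (Set.toFinite _) M 1 (k + 1)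
    (fun D hD g => by
      obtain ⟨h1, h2⟩ := isFG_cj hD.1 g
      exact ⟨⟨h1, by rw [card_cj]; exact hD.2⟩, rfl⟩)
    (fun D hD => hD.2) (fun _ _ => one_dvd _) _ (ScaleX w X) rfl hgood
  refine ⟨X', i1, i2, ⟨?_, ?_⟩, ?_⟩
  · intro x'
    rcases h3 x' with ⟨x, e⟩ | ⟨D, hD, g, e⟩
    · rw [e, stab_scale]
      exact hX.1 _
    · rw [e]
      exact (isFG_cj hD.1 g).1
  · intro D E hD hE hk' hrel
    have hcardeq : Nat.card D = Nat.card E := by
      rw [← card_dom_of_isFG hD, ← card_dom_of_isFG hE]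
      exact card_eq_of_isConj F hrel
    by_cases hd : Nat.card D = k + 1
    · rw [h1 D ⟨hD, hd⟩, h1 E ⟨hE, hcardeq ▸ hd⟩]
    · have h5 : k + 1 < Nat.card D := by omega
      rw [h2 D h5, h2 E (hcardeq ▸ h5), mark_scale, mark_scale, hX.2 D E hD hE h5 hrel]
  · intro D hD hk'
    by_cases hd : Nat.card D = k + 1
    · rw [h1 D ⟨hD, hd⟩]
      exact hMpos D
    · have h5 : k + 1 < Nat.card D := by omega
      rw [h2 D h5, mark_scale]
      exact Nat.mul_pos hwpos (hpos D hD h5)

/-- The stable set for an arbitrary system. -/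
theorem exists_stable [Finite S] (F : FusionSystem S) :
    ∃ (X : Type u) (_ : MulAction (↥S × ↥S) X) (_ : Finite X), GoodAbove F X 0 ∧
      ∀ D : Subgroup (↥S × ↥S), IsFG F D → 0 < mark D X := by
  have key : ∀ j : ℕ, j ≤ Nat.card S → ∃ (X : Type u) (_ : MulAction (↥S × ↥S) X) (_ : Finite X),
      GoodAbove F X (Nat.card S - j) ∧
        ∀ D : Subgroup (↥S × ↥S), IsFG F D → Nat.card S - j < Nat.card D → 0 < mark D X := by
    intro j
    induction j with
    | zero =>
      intro _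
      have hbig : ∀ D : Subgroup (↥S × ↥S), IsFG F D → Nat.card S - 0 < Nat.card D → False := by
        intro D hD hc
        have h1 := Subgroup.card_le_of_le (dom_le D)
        rw [card_dom_of_isFG hD] at h1
        omega
      refine ⟨ScaleX 0 (↥S × ↥S), inferInstance, inferInstance, ⟨fun x => x.1.elim0, ?_⟩, ?_⟩
      · intro D E hD _ hc _
        exact (hbig D hD hc).elim
      · intro D hD hc
        exact (hbig D hD hc).elim
    | succ j ih =>
      intro hj
      obtain ⟨X, i1, i2, h1, h2⟩ := ih (by omega)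
      have e : Nat.card S - j = (Nat.card S - (j + 1)) + 1 := by omega
      rw [e] at h1 h2
      exact step' X h1 h2
  obtain ⟨X, i1, i2, h1, h2⟩ := key (Nat.card S) le_rfl
  rw [Nat.sub_self] at h1 h2
  exact ⟨X, i1, i2, h1, fun D hD => h2 D hD Nat.card_pos⟩

/-- **Park**: every fusion system is realized in a finite group. -/
theorem realized [Finite S] (F : FusionSystem S) :
    ∃ (G : Type u) (_ : Group G) (_ : Finite G) (ι : ↥S →* G), F.IsRealizedBy ι := by
  classical
  obtain ⟨X, i1, i2, hX, hpos⟩ := exists_stable F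
  -- the right equivariant permutations
  let Γ : Subgroup (Equiv.Perm X) :=
    { carrier := {f | ∀ (s : ↥S) (ω : X), f (rr s ω) = rr s (f ω)}
      one_mem' := fun _ _ => rfl
      mul_mem' := by
        intro f g hf hg s ω
        show f (g (rr s ω)) = rr s (f (g ω))
        rw [hg, hf]
      inv_mem' := by
        intro f hf s ω
        apply f.injective
        rw [hf]
        show f (f⁻¹ _) = rr s (f (f⁻¹ ω))
        simp }
  let Lp : ↥S → Equiv.Perm X := fun x =>
    { toFun := L x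
      invFun := L x⁻¹
      left_inv := fun ω => by rw [← Cfsg.Agent.Lib.BisetTransfer.L_mul, inv_mul_cancel, L_one]
      right_inv := fun ω => by rw [← Cfsg.Agent.Lib.BisetTransfer.L_mul, mul_inv_cancel, L_one] }
  have hLp : ∀ x, Lp x ∈ Γ := fun x s ω => L_rr x s ω
  let ι : ↥S →* ↥Γ :=
    { toFun := fun x => ⟨Lp x, hLp x⟩
      map_one' := by
        apply Subtype.ext
        ext ω
        exact L_one ω
      map_mul' := by
        intro x y
        apply Subtype.ext
        ext ω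
        exact Cfsg.Agent.Lib.BisetTransfer.L_mul x y ω }
  have hιv : ∀ (x : ↥S) (ω : X), ((ι x : ↥Γ) : Equiv.Perm X) ω = L x ω := fun _ _ => rfl
  -- a point fixed by the diagonal
  have hdiag : IsFG F (graph S.subtype : Subgroup (↥S × ↥S)) := ⟨S, S.subtype, subtype_mem F le_rfl, rfl⟩
  obtain ⟨ω₀, hω₀⟩ := exists_of_mark_pos (hpos _ hdiag)
  have hω₀' : ∀ s : ↥S, L s ω₀ = rr s ω₀ := by
    intro s
    refine L_eq_rr_iff.1 (hω₀ ?_)
    exact ⟨s.2, rfl⟩
  refine ⟨↥Γ, inferInstance, inferInstance, ι, ?_, ?_⟩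
  · -- injective
    refine (injective_iff_map_eq_one ι).2 fun x hx => ?_
    have h1 : L x ω₀ = ω₀ := by
      rw [← hιv, hx]
      rfl
    have h2 : (x, (1 : ↥S)) ∈ stabilizer (↥S × ↥S) ω₀ := h1
    obtain ⟨Q, ψ, hψ, e⟩ := hX.1 ω₀
    rw [e] at h2
    obtain ⟨h3, h4⟩ := h2
    have h5 : ψ ⟨x, h3⟩ = 1 := h4
    have h6 : (⟨x, h3⟩ : Q) = 1 := F.injective_of_mem hψ (by rw [h5, map_one])
    have h7 : ((x : ↥S) : Ω) = 1 := congrArg (fun w : Q => (w : Ω)) h6
    exact Subtype.ext h7
  · intro P hP φ hφ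
    constructor
    · intro hmem
      haveI : Finite P := finite_of_le hP
      let u : ↥P × ↥S →* ↥S × ↥S := MonoidHom.prodMap (Subgroup.inclusion hP) (MonoidHom.id ↥S)
      let v : ↥P × ↥S →* ↥S × ↥S := MonoidHom.prodMap (φ.codRestrict S hφ) (MonoidHom.id ↥S)
      let m : MapPair F u v :=
        { U₁ := P
          U₂ := S
          f₁ := φ
          f₂ := S.subtype
          h₁ := hmem
          h₂ := subtype_mem F le_rfl
          hu₁ := fun h => h.1.2
          hu₂ := fun h => h.2.2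
          hv₁ := fun h => rfl
          hv₂ := fun h => rfl }
      have hmarks : ∀ K : Subgroup (↥P × ↥S), mark K (Tw u X) = mark K (Tw v X) := by
        intro K
        rw [mark_tw, mark_tw]
        exact mark_map_eq hX m K Nat.card_pos
      haveI : Finite (Tw u X) := i2
      haveI : Finite (Tw v X) := i2
      obtain ⟨f, hf⟩ := iso_of_marks hmarks
      let f' : Equiv.Perm X := f
      have hf' : ∀ (h : ↥P × ↥S) (ω : X), f' (u h • ω) = v h • f' ω := hf
      have hfΓ : f' ∈ Γ := by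
        intro s ω
        have e1 : u (1, s⁻¹) = ((1 : ↥S), s⁻¹) := Prod.ext (map_one (Subgroup.inclusion hP)) rfl
        have e2 : v (1, s⁻¹) = ((1 : ↥S), s⁻¹) := Prod.ext (map_one (φ.codRestrict S hφ)) rfl
        have h3 := hf' (1, s⁻¹) ω
        rw [e1, e2] at h3
        exact h3
      refine ⟨⟨f', hfΓ⟩, fun x => ?_⟩
      rw [eq_mul_inv_iff_mul_eq]
      apply Subtype.ext
      ext ω
      exact (hf' (x, 1) ω).symm
    · rintro ⟨⟨g, hgΓ⟩, hg⟩
      have hg' : ∀ (x : P) (ω : X), L (⟨φ x, hφ x⟩ : ↥S) (g ω) = g (L (⟨x, hP x.2⟩ : ↥S) ω) := by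
        intro x ω
        have h1 := hg x
        rw [eq_mul_inv_iff_mul_eq] at h1
        have h2 := congrArg (fun q : ↥Γ => ((q : Equiv.Perm X)) ω) h1
        exact h2
      set ω₁ := g ω₀ with hω₁
      have hst : ∀ x : P, ((⟨φ x, hφ x⟩ : ↥S), (⟨x, hP x.2⟩ : ↥S)) ∈ stabilizer (↥S × ↥S) ω₁ := by
        intro x
        refine L_eq_rr_iff.2 ?_
        rw [hω₁, hg', hω₀', hgΓ]
      obtain ⟨Q, ψ, hψ, e⟩ := hX.1 ω₁
      rw [e] at hst
      have hRQ : φ.range ≤ Q := by
        rintro _ ⟨x, rfl⟩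
        exact (hst x).1
      have hψ' := restrict_mem F hψ hRQ
      have hψv : ∀ x : P, (ψ.comp (Subgroup.inclusion hRQ)) ⟨φ x, ⟨x, rfl⟩⟩ = x := fun x => (hst x).2
      have hr : (ψ.comp (Subgroup.inclusion hRQ)).range = P := by
        ext y
        constructor
        · rintro ⟨⟨_, x, rfl⟩, rfl⟩
          rw [hψv]
          exact x.2
        · intro hy
          exact ⟨⟨φ ⟨y, hy⟩, ⟨_, rfl⟩⟩, hψv ⟨y, hy⟩⟩
      obtain ⟨ρ, hρ, hρ1, -⟩ := exists_inverse F hψ' hr
      refine hom_of_eq hρ fun x => ?_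
      have h1 : (ψ.comp (Subgroup.inclusion hRQ)) ⟨φ x, ⟨x, rfl⟩⟩ ∈ P := by
        rw [hψv]
        exact x.2
      have h2 := hρ1 ⟨φ x, ⟨x, rfl⟩⟩ h1
      have e : (⟨(ψ.comp (Subgroup.inclusion hRQ)) ⟨φ x, ⟨x, rfl⟩⟩, h1⟩ : P) = x := Subtype.ext (hψv x)
      rw [e] at h2
      exact h2.symm

end Exist

end Cfsg.Agent.Lib.BisetPark
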