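import Mathlib
import Cfsg.Agent.Lib.BisetGraph
import Cfsg.Agent.Lib.FusionSat
import Cfsg.Agent.Lib.FusionAut

/-! A fusion system with a stable finite `S`-`S`-set of right-orbit number prime to `p` is saturated. -/

set_option autoImplicit false
set_option linter.all false

namespace Cfsg.Agent.Lib.BisetSat

open Cfsg Cfsg.FusionSystem MulAction Cfsg.Agent.Lib.BisetGSet Cfsg.Agent.Lib.BisetGraph
  Cfsg.Agent.Lib.FusionBasic Cfsg.Agent.Lib.FusionAut Cfsg.Agent.Lib.FusionSat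

universe u v

/-- If all orbits in an invariant finite set have order divisible by `n`, so does the set. -/
theorem dvd_ncard_of_orbits {G X : Type*} [Group G] [MulAction G X] (n : ℕ) :
    ∀ (s : Set X), s.Finite → (∀ g : G, ∀ x ∈ s, g • x ∈ s) →
      (∀ x ∈ s, n ∣ (orbit G x).ncard) → n ∣ s.ncard := by
  intro s
  induction' h : s.ncard using Nat.strong_induction_on with m ih generalizing s
  intro hf hs ho
  rcases s.eq_empty_or_nonempty with rfl | ⟨x, hx⟩
  · rw [Set.ncard_empty] at h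
    rw [← h]
    exact dvd_zero n
  have hsub : orbit G x ⊆ s := by
    rintro _ ⟨g, rfl⟩
    exact hs g x hx
  have h1 := Set.ncard_diff_add_ncard_of_subset hsub hf
  have hpos : 0 < (orbit G x).ncard :=
    (Set.ncard_pos (hf.subset hsub)).2 ⟨x, mem_orbit_self x⟩
  rw [h] at h1
  rw [← h1]
  refine dvd_add ?_ (ho x hx)
  refine ih _ (by omega) _ rfl (hf.diff) ?_ ?_
  · rintro g z ⟨hz, hz'⟩
    refine ⟨hs g z hz, fun hm => hz' ?_⟩
    obtain ⟨k, hk⟩ := hm
    refine ⟨g⁻¹ * k, ?_⟩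
    show (g⁻¹ * k) • x = z
    rw [mul_smul]
    have : k • x = g • z := hk
    rw [this, inv_smul_smul]
  · intro z hz
    exact ho z hz.1

theorem ncard_orbit_mul {G X : Type*} [Group G] [MulAction G X] (x : X) :
    (orbit G x).ncard * Nat.card (stabilizer G x) = Nat.card G := by
  rw [← Nat.card_coe_set_eq, Nat.card_congr (orbitEquivQuotientStabilizer G x)]
  exact (Subgroup.card_eq_card_quotient_mul_card_subgroup _).symm

section Main

variable {Ω : Type u} [Group Ω] {S : Subgroup Ω} {E : FusionSystem S}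
  {Y : Type v} [MulAction (↥S × ↥S) Y]

theorem stab_right (hY : GoodAbove E Y 0) (y : Y) {a : ↥S} {b b' : ↥S}
    (h : (a, b) • y = y) (h' : (a, b') • y = y) : b = b' := by
  obtain ⟨P, φ, hφ, e⟩ := hY.1 y
  have h1 : (a, b) ∈ stabilizer (↥S × ↥S) y := h
  have h2 : (a, b') ∈ stabilizer (↥S × ↥S) y := h'
  rw [e] at h1 h2
  obtain ⟨h3, h4⟩ := h1
  obtain ⟨h5, h6⟩ := h2
  apply Subtype.ext
  rw [← h4, ← h6]

theorem stab_left (hY : GoodAbove E Y 0) (y : Y) {a a' : ↥S} {b : ↥S}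
    (h : (a, b) • y = y) (h' : (a', b) • y = y) : a = a' := by
  obtain ⟨P, φ, hφ, e⟩ := hY.1 y
  have h1 : (a, b) ∈ stabilizer (↥S × ↥S) y := h
  have h2 : (a', b) ∈ stabilizer (↥S × ↥S) y := h'
  rw [e] at h1 h2
  obtain ⟨h3, h4⟩ := h1
  obtain ⟨h5, h6⟩ := h2
  have := E.injective_of_mem hφ (h4.trans h6.symm)
  exact Subtype.ext (Subtype.mk.inj this)

/-- Points whose stabilizer has domain containing `P`. -/
def W (S P : Subgroup Ω) (Y : Type v) [MulAction (↥S × ↥S) Y] : Set Y :=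
  {y | ∀ x : ↥S, (x : Ω) ∈ P → ∃ b : ↥S, (x, b) • y = y}

/-- From a point of `W` to a map. -/
theorem exists_map_of_W (hY : GoodAbove E Y 0) {P : Subgroup Ω} (hP : P ≤ S) {y : Y} (hy : y ∈ W S P Y) :
    ∃ φ ∈ E.Hom P, (graph φ : Subgroup (↥S × ↥S)) ≤ stabilizer (↥S × ↥S) y := by
  obtain ⟨R, θ, hθ, e⟩ := hY.1 y
  have hPR : P ≤ R := by
    intro x hx
    obtain ⟨b, hb⟩ := hy ⟨x, hP hx⟩ hx
    have h1 : (⟨x, hP hx⟩, b) ∈ stabilizer (↥S × ↥S) y := hb
    rw [e] at h1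
    exact h1.1
  refine ⟨θ.comp (Subgroup.inclusion hPR), restrict_mem E hθ hPR, ?_⟩
  rw [e]
  rintro g ⟨h1, h2⟩
  exact ⟨hPR h1, h2⟩

theorem mem_W_of_fix {P : Subgroup Ω} {φ : P →* Ω} (hφ : φ ∈ E.Hom P) {y : Y} (hy : y ∈ fix (graph φ : Subgroup (↥S × ↥S)) Y) :
    y ∈ W S P Y := by
  intro x hx
  exact ⟨⟨φ ⟨x, hx⟩, map_mem_S E hφ _⟩, hy _ ⟨hx, rfl⟩⟩

theorem map_unique (hY : GoodAbove E Y 0) {P : Subgroup Ω} {φ ψ : P →* Ω} (hφ : φ ∈ E.Hom P)
    (hψ : ψ ∈ E.Hom P) {y : Y} (h1 : y ∈ fix (graph φ : Subgroup (↥S × ↥S)) Y) (h2 : y ∈ fix (graph ψ : Subgroup (↥S × ↥S)) Y) : φ = ψ := by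
  ext x
  have hx : ((x : Ω)) ∈ S := source_le E hφ x.2
  have e1 := h1 ((⟨x, hx⟩ : ↥S), (⟨φ x, map_mem_S E hφ x⟩ : ↥S)) ⟨x.2, rfl⟩
  have e2 := h2 ((⟨x, hx⟩ : ↥S), (⟨ψ x, map_mem_S E hψ x⟩ : ↥S)) ⟨x.2, rfl⟩
  exact congrArg Subtype.val (stab_right hY y e1 e2)

theorem finite_hom [Finite S] (P : Subgroup Ω) : Finite {φ : P →* Ω // φ ∈ E.Hom P} := by
  by_cases hP : P ≤ S
  · haveI : Finite P := finite_of_le hP
    let f : {φ : P →* Ω // φ ∈ E.Hom P} → (P → ↥S) := fun φ x => ⟨φ.1 x, map_mem_S E φ.2 x⟩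
    refine Finite.of_injective f ?_
    intro a b hab
    apply Subtype.ext
    ext x
    exact congrArg Subtype.val (congrFun hab x)
  · refine @Finite.of_subsingleton _ ⟨?_⟩
    intro a
    exact absurd (source_le E a.2) hP

/-- Counting `W`. -/
theorem ncard_W [Finite S] [Finite Y] (hY : GoodAbove E Y 0) {P : Subgroup Ω} (hP : P ≤ S) {c : ℕ}
    (hc : ∀ φ ∈ E.Hom P, mark (graph φ : Subgroup (↥S × ↥S)) Y = c) :
    (W S P Y).ncard = c * Nat.card {φ : P →* Ω // φ ∈ E.Hom P} := by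
  classical
  haveI := finite_hom (E := E) P
  haveI := Fintype.ofFinite {φ : P →* Ω // φ ∈ E.Hom P}
  let f : (Σ φ : {φ : P →* Ω // φ ∈ E.Hom P}, fix (graph φ.1 : Subgroup (↥S × ↥S)) Y) → W S P Y :=
    fun z => ⟨z.2.1, mem_W_of_fix z.1.2 z.2.2⟩
  have hf : Function.Bijective f := by
    constructor
    · rintro ⟨φ, y⟩ ⟨ψ, y'⟩ h
      have e1 : (y : Y) = y' := congrArg Subtype.val h
      obtain ⟨y, hy⟩ := y
      obtain ⟨y', hy'⟩ := y'
      simp only at e1
      subst e1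
      have e2 : φ = ψ := Subtype.ext (map_unique hY φ.2 ψ.2 hy hy')
      subst e2
      rfl
    · rintro ⟨y, hy⟩
      obtain ⟨φ, hφ, hle⟩ := exists_map_of_W hY hP hy
      exact ⟨⟨⟨φ, hφ⟩, ⟨y, fun g hg => hle hg⟩⟩, rfl⟩
  have h1 := Nat.card_congr (Equiv.ofBijective f hf)
  rw [Nat.card_coe_set_eq, Nat.card_sigma] at h1
  rw [← h1, Finset.sum_congr rfl (g := fun _ => c), Finset.sum_const, Finset.card_univ, smul_eq_mul, mul_comm,
    Nat.card_eq_fintype_card]
  rintro φ -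
  rw [Nat.card_coe_set_eq]
  exact hc φ.1 φ.2

/-- Invariance of the set `W`. -/
theorem W_smul {P : Subgroup Ω} {y : Y} (hy : y ∈ W S P Y) {g : ↥S × ↥S} (hg : ((g.1 : S) : Ω) ∈ P) :
    g • y ∈ W S P Y := by
  intro x hx
  have h1 : ((g.1⁻¹ * x * g.1 : ↥S) : Ω) ∈ P := by
    show (g.1 : Ω)⁻¹ * x * g.1 ∈ P
    exact P.mul_mem (P.mul_mem (P.inv_mem hg) hx) hg
  obtain ⟨b, hb⟩ := hy _ h1
  refine ⟨g.2 * b * g.2⁻¹, ?_⟩
  have e : (x, g.2 * b * g.2⁻¹) * g = g * (g.1⁻¹ * x * g.1, b) := by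
    apply Prod.ext
    · show x * g.1 = g.1 * (g.1⁻¹ * x * g.1)
      group
    · show g.2 * b * g.2⁻¹ * g.2 = g.2 * b
      group
  rw [← mul_smul, e, mul_smul, hb]

theorem dvd_compl_W [Finite S] [Finite Y] {p : ℕ} [hp : Fact p.Prime] (hS : IsPGroup p S)
    (hY : GoodAbove E Y 0) {P : Subgroup Ω} (hP : P ≤ S) :
    p * Nat.card S ∣ ((W S P Y)ᶜ).ncard := by
  let H : Subgroup (↥S × ↥S) := (P.subgroupOf S).prod ⊤
  have hHmem : ∀ g : H, (((g : ↥S × ↥S).1 : S) : Ω) ∈ P := fun g => Subgroup.mem_subgroupOf.1 g.2.1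
  refine dvd_ncard_of_orbits (G := H) _ _ (Set.toFinite _) ?_ ?_
  · intro g y hy hm
    apply hy
    have := W_smul (S := S) (P := P) (y := g • y) hm (g := (g⁻¹ : H)) (hHmem _)
    have e : ((g⁻¹ : H) : ↥S × ↥S) • g • y = y := inv_smul_smul g y
    rwa [e] at this
  · intro y hy
    obtain ⟨R, θ, hθ, e⟩ := hY.1 y
    let M : Subgroup Ω := R ⊓ P
    haveI hfinP : Finite P := finite_of_le hP
    have hMP : M ≤ P := inf_le_right
    have hMR : M ≤ R := inf_le_left
    have hRS : R ≤ S := source_le E hθ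
    -- the stabilizer has the order of `M`
    let f : M → stabilizer H y := fun x =>
      ⟨⟨((⟨x, hRS (hMR x.2)⟩ : ↥S), (⟨θ ⟨x, hMR x.2⟩, map_mem_S E hθ _⟩ : ↥S)),
        Subgroup.mem_subgroupOf.2 (hMP x.2), trivial⟩, by
          have h1 : ((⟨x, hRS (hMR x.2)⟩ : ↥S), (⟨θ ⟨x, hMR x.2⟩, map_mem_S E hθ _⟩ : ↥S)) ∈
              stabilizer (↥S × ↥S) y := by
            rw [e]
            exact ⟨hMR x.2, rfl⟩
          exact h1⟩
    have hf : Function.Bijective f := by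
      constructor
      · intro a b hab
        have h1 : (((f a : H) : ↥S × ↥S).1 : Ω) = (((f b : H) : ↥S × ↥S).1 : Ω) := by rw [hab]
        exact Subtype.ext h1
      · rintro ⟨⟨⟨a, b⟩, ha, -⟩, hs⟩
        have ha' : (a : Ω) ∈ P := Subgroup.mem_subgroupOf.1 ha
        have hs' : (a, b) ∈ stabilizer (↥S × ↥S) y := hs
        rw [e] at hs'
        obtain ⟨h1, h2⟩ := hs'
        refine ⟨⟨a, h1, ha'⟩, ?_⟩
        apply Subtype.ext
        apply Subtype.ext
        apply Prod.ext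
        · rfl
        · exact Subtype.ext h2
    have hU : Nat.card (stabilizer H y) = Nat.card M := (Nat.card_congr (Equiv.ofBijective f hf)).symm
    have h1 := ncard_orbit_mul (G := H) y
    have hH : Nat.card H = Nat.card P * Nat.card S := by
      have e1 : Nat.card H = Nat.card (P.subgroupOf S) * Nat.card (⊤ : Subgroup ↥S) :=
        (Nat.card_congr (Subgroup.prodEquiv _ _).toEquiv).trans (Nat.card_prod _ _)
      rw [e1, Subgroup.card_top]
      congr 1
      exact Nat.card_congr (Subgroup.subgroupOfEquivOfLe hP).toEquiv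
    have hPp : IsPGroup p P := hS.to_le hP
    have hk : Nat.card M * (M.subgroupOf P).index = Nat.card P := by
      have := Subgroup.card_mul_index (M.subgroupOf P)
      rwa [Nat.card_congr (Subgroup.subgroupOfEquivOfLe hMP).toEquiv] at this
    have hdvd : p ∣ (M.subgroupOf P).index := by
      obtain ⟨j, hj⟩ := hPp.index (M.subgroupOf P)
      rw [hj]
      refine dvd_pow_self p ?_
      rintro rfl
      rw [pow_zero, Subgroup.index_eq_one] at hj
      apply hy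
      intro x hx
      have hx' : (x : Ω) ∈ M := by
        have : (⟨x, hx⟩ : P) ∈ M.subgroupOf P := by
          rw [hj]
          trivial
        exact Subgroup.mem_subgroupOf.1 this
      refine ⟨⟨θ ⟨x, hMR hx'⟩, map_mem_S E hθ _⟩, ?_⟩
      have h2 : (x, (⟨θ ⟨x, hMR hx'⟩, map_mem_S E hθ _⟩ : ↥S)) ∈ stabilizer (↥S × ↥S) y := by
        rw [e]
        exact ⟨hMR hx', rfl⟩
      exact h2
    obtain ⟨k, hk'⟩ := hdvd
    rw [hU, hH, ← hk, hk'] at h1
    have hMpos : 0 < Nat.card M := by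
      haveI : Finite M := Finite.of_injective (Subgroup.inclusion hMP) (Subgroup.inclusion_injective hMP)
      exact Nat.card_pos
    have h3 : (orbit H y).ncard = p * k * Nat.card S := by
      apply Nat.eq_of_mul_eq_mul_right hMpos
      rw [h1]
      ring
    rw [h3]
    exact ⟨k, by ring⟩

theorem not_dvd_W [Finite S] [Finite Y] {p : ℕ} [hp : Fact p.Prime] (hS : IsPGroup p S)
    (hY : GoodAbove E Y 0) {P : Subgroup Ω} (hP : P ≤ S) {N : ℕ} (hcard : Nat.card Y = Nat.card S * N)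
    (hN : ¬ p ∣ N) : ¬ p * Nat.card S ∣ (W S P Y).ncard := by
  intro h
  have h1 := Set.ncard_add_ncard_compl (W S P Y)
  have h2 : p * Nat.card S ∣ Nat.card Y := by
    rw [← h1]
    exact dvd_add h (dvd_compl_W hS hY hP)
  rw [hcard, mul_comm] at h2
  exact hN (Nat.dvd_of_mul_dvd_mul_left Nat.card_pos h2)

/-- Counting maps. -/
theorem card_hom [Finite S] {P : Subgroup Ω} (hP : P ≤ S) :
    Nat.card {φ : P →* Ω // φ ∈ E.Hom P} = Nat.card (E.autGroup P) * {Q | E.IsConj P Q}.ncard := by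
  classical
  have hfin : {Q | E.IsConj P Q}.Finite := finite_setOf_le.subset (by
    rintro Q ⟨φ, hφ, rfl⟩
    exact range_le E hφ)
  haveI : Finite {Q | E.IsConj P Q} := hfin
  haveI := Fintype.ofFinite {Q | E.IsConj P Q}
  haveI := finite_hom (E := E) P
  let f : {φ : P →* Ω // φ ∈ E.Hom P} → {Q | E.IsConj P Q} := fun φ => ⟨φ.1.range, φ.1, φ.2, rfl⟩
  have hfib : ∀ Q : {Q | E.IsConj P Q}, Nat.card {φ // f φ = Q} = Nat.card (E.autGroup P) := by
    rintro ⟨Q, φ₀, hφ₀, rfl⟩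
    have hmem : ∀ α : E.autGroup P, φ₀.comp (α : MulAut P).toMonoidHom ∈ E.Hom P := by
      intro α
      have hα := (mem_autGroup_iff E hP).1 α.2
      obtain ⟨χ, hχ, eχ⟩ := exists_comp E hα hφ₀ (fun x => ((α : MulAut P) x).2)
      refine hom_of_eq hχ fun x => ?_
      rw [eχ]
      rfl
    have hrange : ∀ α : E.autGroup P, (φ₀.comp (α : MulAut P).toMonoidHom).range = φ₀.range := by
      intro α
      ext y
      constructor
      · rintro ⟨x, rfl⟩
        exact ⟨_, rfl⟩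
      · rintro ⟨x, rfl⟩
        refine ⟨(α : MulAut P).symm x, ?_⟩
        show φ₀ ((α : MulAut P) ((α : MulAut P).symm x)) = _
        rw [MulEquiv.apply_symm_apply]
    let g : E.autGroup P → {φ // f φ = ⟨φ₀.range, φ₀, hφ₀, rfl⟩} := fun α =>
      ⟨⟨φ₀.comp (α : MulAut P).toMonoidHom, hmem α⟩, Subtype.ext (hrange α)⟩
    have hg : Function.Bijective g := by
      constructor
      · intro a b hab
        have h1 : φ₀.comp (a : MulAut P).toMonoidHom = φ₀.comp (b : MulAut P).toMonoidHom :=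
          congrArg (fun z => ((z : {φ : P →* Ω // φ ∈ E.Hom P}) : P →* Ω)) (congrArg Subtype.val hab)
        apply Subtype.ext
        ext x
        have h2 : φ₀ ((a : MulAut P) x) = φ₀ ((b : MulAut P) x) := DFunLike.congr_fun h1 x
        have h3 := E.injective_of_mem hφ₀ h2
        exact congrArg Subtype.val h3
      · rintro ⟨⟨φ, hφ⟩, hf⟩
        have hr : φ.range = φ₀.range := congrArg Subtype.val hf
        let α : MulAut P := (isoOfRange hφ hr).trans (isoOfRange hφ₀ rfl).symm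
        have hα0 : ∀ x, φ₀ (α x) = φ x := by
          intro x
          have h1 := isoOfRange_apply hφ₀ (rfl : φ₀.range = φ₀.range) (α x)
          rw [← h1]
          show (((isoOfRange hφ₀ rfl) ((isoOfRange hφ₀ rfl).symm (isoOfRange hφ hr x)) : φ₀.range) : Ω) = _
          rw [MulEquiv.apply_symm_apply]
          rfl
        have hαmem : α ∈ E.autGroup P := by
          rw [mem_autGroup_iff E hP]
          obtain ⟨ψ, hψ, h1, h2, h3⟩ := exists_inverse E hφ₀ (Q := φ₀.range) rfl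
          have hv : ∀ x : P, φ x ∈ φ₀.range := fun x => by
            rw [← hr]
            exact ⟨x, rfl⟩
          obtain ⟨χ, hχ, eχ⟩ := exists_comp E hφ hψ hv
          refine hom_of_eq hχ fun x => ?_
          rw [eχ]
          have : (⟨φ x, hv x⟩ : φ₀.range) = ⟨φ₀ (α x), ⟨_, rfl⟩⟩ := Subtype.ext (hα0 x).symm
          rw [this]
          exact (h1 (α x) _).symm
        refine ⟨⟨α, hαmem⟩, ?_⟩
        apply Subtype.ext
        apply Subtype.ext
        ext x
        exact hα0 x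
    exact (Nat.card_congr (Equiv.ofBijective g hg)).symm
  have h1 := Nat.card_congr (Equiv.sigmaFiberEquiv f)
  rw [Nat.card_sigma, Finset.sum_congr rfl (fun Q _ => hfib Q), Finset.sum_const, Finset.card_univ, smul_eq_mul]
    at h1
  rw [← h1, mul_comm, ← Nat.card_eq_fintype_card, Nat.card_coe_set_eq]

/-- Conjugation of subgroups by elements of `S`. -/
abbrev conjAction (S : Subgroup Ω) : MulAction ↥S (Subgroup Ω) where
  smul s Q := Q.map (MulAut.conj (s : Ω)).toMonoidHom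
  one_smul Q := by
    show Q.map (MulAut.conj ((1 : ↥S) : Ω)).toMonoidHom = Q
    ext x
    simp
  mul_smul a b Q := by
    show Q.map (MulAut.conj ((a * b : ↥S) : Ω)).toMonoidHom =
      (Q.map (MulAut.conj (b : Ω)).toMonoidHom).map (MulAut.conj (a : Ω)).toMonoidHom
    ext x
    simp [Subgroup.mem_map, mul_assoc]

theorem conjAction_def (s : ↥S) (Q : Subgroup Ω) :
    (letI := conjAction S; s • Q) = Q.map (MulAut.conj (s : Ω)).toMonoidHom := rfl

theorem range_conjHom (Q : Subgroup Ω) (g : Ω) :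
    (conjHom Q g).range = Q.map (MulAut.conj g).toMonoidHom := by
  ext x
  constructor
  · rintro ⟨y, rfl⟩
    exact ⟨y, y.2, rfl⟩
  · rintro ⟨y, hy, rfl⟩
    exact ⟨⟨y, hy⟩, rfl⟩

theorem card_stabilizer_conj (Q : Subgroup Ω) :
    Nat.card (letI := conjAction S; stabilizer ↥S Q) = Nat.card (normalizerIn S Q) := by
  letI := conjAction S
  have key : ∀ s : ↥S, s • Q = Q ↔ (s : Ω) ∈ Subgroup.normalizer (Q : Set Ω) := by
    intro s
    rw [conjAction_def, Subgroup.mem_normalizer_iff]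
    constructor
    · intro h x
      constructor
      · intro hx
        have : (s : Ω) * x * (s : Ω)⁻¹ ∈ Q.map (MulAut.conj (s : Ω)).toMonoidHom := ⟨x, hx, rfl⟩
        rwa [h] at this
      · intro hx
        have h1 : (s : Ω) * x * (s : Ω)⁻¹ ∈ Q.map (MulAut.conj (s : Ω)).toMonoidHom := by
          rw [h]
          exact hx
        obtain ⟨y, hy, e⟩ := h1
        have e' : (s : Ω) * y * (s : Ω)⁻¹ = (s : Ω) * x * (s : Ω)⁻¹ := e
        have : y = x := by simpa using e'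
        rwa [← this]
    · intro h
      ext x
      constructor
      · rintro ⟨y, hy, rfl⟩
        exact (h y).1 hy
      · intro hx
        refine ⟨(s : Ω)⁻¹ * x * s, (h _).2 ?_, ?_⟩
        · have : (s : Ω) * ((s : Ω)⁻¹ * x * s) * (s : Ω)⁻¹ = x := by group
          rwa [this]
        · show (s : Ω) * ((s : Ω)⁻¹ * x * s) * (s : Ω)⁻¹ = x
          group
  let f : stabilizer ↥S Q → normalizerIn S Q := fun s =>
    ⟨((s : ↥S) : Ω), (s : ↥S).2, (key s).1 s.2⟩
  have hf : Function.Bijective f := by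
    constructor
    · intro a b hab
      exact Subtype.ext (Subtype.ext (by have h0 := congrArg Subtype.val hab; exact h0))
    · rintro ⟨x, hx1, hx2⟩
      exact ⟨⟨⟨x, hx1⟩, (key ⟨x, hx1⟩).2 hx2⟩, rfl⟩
  exact Nat.card_congr (Equiv.ofBijective f hf)

/-- The number of conjugates is divisible by the number of `S`-conjugates of a fully normalized one. -/
theorem dvd_conj [Finite S] {p : ℕ} [hp : Fact p.Prime] (hS : IsPGroup p S) {P : Subgroup Ω}
    (hP : E.IsFullyNormalized P) :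
    ∃ n, n * Nat.card (normalizerIn S P) = Nat.card S ∧ n ∣ {Q | E.IsConj P Q}.ncard := by
  letI := conjAction S
  have hNS : ∀ Q : Subgroup Ω, Nat.card (normalizerIn S Q) ∣ Nat.card S := fun Q => by
    have h1 : normalizerIn S Q ≤ S := inf_le_left
    exact Subgroup.card_dvd_of_le h1
  obtain ⟨n, hn⟩ := hNS P
  refine ⟨n, by rw [hn, mul_comm], ?_⟩
  have hfin : {Q | E.IsConj P Q}.Finite := finite_setOf_le.subset (by
    rintro Q ⟨φ, hφ, rfl⟩
    exact range_le E hφ)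
  refine dvd_ncard_of_orbits (G := ↥S) n _ hfin ?_ ?_
  · intro s Q hQ
    have hQS : Q ≤ S := by
      obtain ⟨φ, hφ, rfl⟩ := hQ
      exact range_le E hφ
    refine isConj_trans E hQ ⟨conjHom Q s, E.conj_mem hQS s.2, range_conjHom Q s⟩
  · intro Q hQ
    have h1 := ncard_orbit_mul (G := ↥S) Q
    rw [card_stabilizer_conj Q] at h1
    have h2 := hP.2 Q hQ
    have hP1 : IsPGroup p (normalizerIn S P) := hS.to_le inf_le_left
    have hP2 : IsPGroup p (normalizerIn S Q) := hS.to_le inf_le_left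
    haveI : Finite (normalizerIn S P) := finite_of_le inf_le_left
    haveI : Finite (normalizerIn S Q) := finite_of_le inf_le_left
    obtain ⟨a, ha⟩ := IsPGroup.iff_card.1 hP1
    obtain ⟨b, hb⟩ := IsPGroup.iff_card.1 hP2
    rw [ha, hb] at h2
    have hab : b ≤ a := (Nat.pow_le_pow_iff_right hp.out.one_lt).1 h2
    have h3 : (orbit ↥S Q).ncard * p ^ b = n * (p ^ (a - b) * p ^ b) := by
      rw [← pow_add, Nat.sub_add_cancel hab, ← ha, ← hb, h1, hn, mul_comm]
    rw [← mul_assoc] at h3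
    have h4 := Nat.eq_of_mul_eq_mul_right (pow_pos hp.out.pos b) h3
    rw [h4]
    exact dvd_mul_right _ _

/-- `|N_S(P)| = |Aut_S(P)| |C_S(P)|`. -/
theorem card_normalizerIn (S P : Subgroup Ω) [Finite S] :
    Nat.card (normalizerIn S P) = Nat.card (autInducedBy S P) * Nat.card (centralizerIn S P) := by
  have hle : normalizerIn S P ≤ Subgroup.normalizer (P : Set Ω) := inf_le_right
  let t : normalizerIn S P →* MulAut P := (conjAut P).comp (Subgroup.inclusion hle)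
  have hrange : t.range = autInducedBy S P := by
    ext α
    rw [mem_autInducedBy_iff]
    constructor
    · rintro ⟨g, rfl⟩
      exact ⟨g, g.2.1, fun x => conjAut_apply P _ x⟩
    · rintro ⟨g, hg, h⟩
      refine ⟨⟨g, hg, mem_normalizer_of_induces h⟩, ?_⟩
      ext x
      exact (h x).symm
  have hker : Nat.card t.ker = Nat.card (centralizerIn S P) := by
    let f : t.ker → centralizerIn S P := fun g => ⟨((g : normalizerIn S P) : Ω), (g : normalizerIn S P).2.1, by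
      show _ ∈ Subgroup.centralizer (P : Set Ω)
      rw [Subgroup.mem_centralizer_iff]
      intro x hx
      have h1 : t g = 1 := g.2
      have h2 : ((t g ⟨x, hx⟩ : P) : Ω) = x := by
        rw [h1]
        rfl
      have h3 : ((t g ⟨x, hx⟩ : P) : Ω) = ((g : normalizerIn S P) : Ω) * x * ((g : normalizerIn S P) : Ω)⁻¹ :=
        conjAut_apply P _ _
      rw [h3] at h2
      rw [mul_inv_eq_iff_eq_mul] at h2
      exact h2.symm⟩
    have hf : Function.Bijective f := by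
      constructor
      · intro a b hab
        exact Subtype.ext (Subtype.ext (by have h0 := congrArg Subtype.val hab; exact h0))
      · rintro ⟨x, hx1, hx2⟩
        have hxn : x ∈ normalizerIn S P := ⟨hx1, Subgroup.centralizer_le_normalizer _ hx2⟩
        refine ⟨⟨⟨x, hxn⟩, ?_⟩, rfl⟩
        show t ⟨x, hxn⟩ = 1
        ext y
        have h3 : ((t ⟨x, hxn⟩ y : P) : Ω) = x * y * x⁻¹ := conjAut_apply P _ _
        rw [h3]
        have := Subgroup.mem_centralizer_iff.1 hx2 y y.2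
        show x * y * x⁻¹ = y
        rw [← this]
        group
    exact Nat.card_congr (Equiv.ofBijective f hf)
  have h1 := Subgroup.card_eq_card_quotient_mul_card_subgroup t.ker
  rw [Nat.card_congr (QuotientGroup.quotientKerEquivRange t).toEquiv, hker] at h1
  rw [h1, hrange]

/-- Right multiplication by a subgroup of `S`. -/
def rightK (S C : Subgroup Ω) : Subgroup (↥S × ↥S) := (⊥ : Subgroup ↥S).prod (C.subgroupOf S)

theorem mem_rightK {C : Subgroup Ω} {g : ↥S × ↥S} : g ∈ rightK S C ↔ g.1 = 1 ∧ ((g.2 : S) : Ω) ∈ C := by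
  unfold rightK
  rw [Subgroup.mem_prod, Subgroup.mem_bot, Subgroup.mem_subgroupOf]

theorem card_rightK {C : Subgroup Ω} (hC : C ≤ S) : Nat.card (rightK S C) = Nat.card C := by
  have e1 : Nat.card (rightK S C) = Nat.card (⊥ : Subgroup ↥S) * Nat.card (C.subgroupOf S) :=
    (Nat.card_congr (Subgroup.prodEquiv _ _).toEquiv).trans (Nat.card_prod _ _)
  rw [e1, Subgroup.card_bot, one_mul]
  exact Nat.card_congr (Subgroup.subgroupOfEquivOfLe hC).toEquiv

theorem centralizer_dvd_mark [Finite S] [Finite Y] (hY : GoodAbove E Y 0) {R : Subgroup Ω} {φ : R →* Ω}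
    (hφ : φ ∈ E.Hom R) :
    Nat.card (centralizerIn S φ.range) ∣ mark (graph φ : Subgroup (↥S × ↥S)) Y := by
  have hCS : centralizerIn S φ.range ≤ S := inf_le_left
  refine dvd_ncard_of_orbits (G := rightK S (centralizerIn S φ.range)) _ _ (Set.toFinite _) ?_ ?_
  · rintro ⟨⟨g₁, g₂⟩, hg⟩ y hy d ⟨h1, h2⟩
    obtain ⟨hg1, hg2⟩ := mem_rightK.1 hg
    obtain ⟨d₁, d₂⟩ := d
    have hc : (g₂ : Ω) * d₂ = d₂ * g₂ := by
      have h3 : ((d₂ : ↥S) : Ω) ∈ φ.range := ⟨_, h2⟩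
      exact (Subgroup.mem_centralizer_iff.1 hg2.2 _ h3).symm
    have hcomm : (d₁, d₂) * (g₁, g₂) = (g₁, g₂) * (d₁, d₂) := by
      simp only at hg1
      subst hg1
      apply Prod.ext
      · show d₁ * 1 = 1 * d₁
        group
      · exact Subtype.ext hc.symm
    show (d₁, d₂) • (g₁, g₂) • y = (g₁, g₂) • y
    rw [← mul_smul, hcomm, mul_smul, hy _ ⟨h1, h2⟩]
  · intro y hy
    have h1 := ncard_orbit_mul (G := rightK S (centralizerIn S φ.range)) y
    have hb : stabilizer (rightK S (centralizerIn S φ.range)) y = ⊥ := by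
      rw [Subgroup.eq_bot_iff_forall]
      rintro ⟨⟨g₁, g₂⟩, hg⟩ hs
      obtain ⟨hg1, hg2⟩ := mem_rightK.1 hg
      simp only at hg1
      subst hg1
      have h2 : ((1 : ↥S), g₂) • y = y := hs
      have h3 : ((1 : ↥S), (1 : ↥S)) • y = y := one_smul _ y
      have h4 := stab_right hY y h2 h3
      subst h4
      rfl
    rw [hb, Subgroup.card_bot, mul_one, card_rightK hCS] at h1
    rw [h1]

/-- The fixed point argument for receptiveness. -/
theorem receptive_core [Finite S] [Finite Y] {p : ℕ} [hp : Fact p.Prime] (hS : IsPGroup p S)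
    (hY : GoodAbove E Y 0) {R : Subgroup Ω} {φ : R →* Ω} (hφ : φ ∈ E.Hom R)
    (hnd : ¬ p * Nat.card (centralizerIn S φ.range) ∣ mark (graph φ : Subgroup (↥S × ↥S)) Y) :
    ∃ ψ ∈ E.Hom (extender S R φ), ∀ (x : Ω) (hP : x ∈ R) (hN : x ∈ extender S R φ),
      ψ ⟨x, hN⟩ = φ ⟨x, hP⟩ := by
  classical
  let A : Subgroup (↥S × ↥S) := Subgroup.normalizer ((graph φ : Subgroup (↥S × ↥S)) : Set (↥S × ↥S))
  have hA : ∀ (g h : ↥S), (g : Ω) ∈ Subgroup.normalizer (R : Set Ω) →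
      (∀ (x : R) (hx : (g : Ω) * (x : Ω) * (g : Ω)⁻¹ ∈ R),
        φ ⟨(g : Ω) * x * (g : Ω)⁻¹, hx⟩ = (h : Ω) * φ x * (h : Ω)⁻¹) → (g, h) ∈ A := by
    intro g h hg he
    show (g, h) ∈ Subgroup.normalizer _
    rw [Subgroup.mem_normalizer_iff]
    rintro ⟨a, b⟩
    have hgn := Subgroup.mem_normalizer_iff.1 hg (a : Ω)
    constructor
    · rintro ⟨ha, hb⟩
      have h1 := hgn.1 ha
      refine ⟨h1, ?_⟩
      have h2 := he ⟨a, ha⟩ h1
      have hb' : φ ⟨a, ha⟩ = b := hb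
      rw [hb'] at h2
      exact h2
    · rintro ⟨ha, hb⟩
      have h1 := hgn.2 ha
      refine ⟨h1, ?_⟩
      have h2 := he ⟨a, h1⟩ ha
      have hb' : φ ⟨(g : Ω) * a * (g : Ω)⁻¹, ha⟩ = (h : Ω) * b * (h : Ω)⁻¹ := hb
      rw [hb'] at h2
      have h3 : (b : Ω) = φ ⟨a, h1⟩ := by simpa using h2
      exact h3.symm
  have hz : ∀ z : ↥S, (z : Ω) ∈ centralizerIn S φ.range → ((1 : ↥S), z) ∈ A := by
    intro z hzc
    refine hA 1 z (one_mem _) fun x hx => ?_
    have e : (⟨((1 : ↥S) : Ω) * (x : Ω) * ((1 : ↥S) : Ω)⁻¹, hx⟩ : R) = x := Subtype.ext (by simp)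
    rw [e]
    have h1 := Subgroup.mem_centralizer_iff.1 hzc.2 (φ x) ⟨x, rfl⟩
    rw [← h1]
    group
  have hinv : ∀ (a : A) (y : Y), y ∈ fix (graph φ : Subgroup (↥S × ↥S)) Y →
      a • y ∈ fix (graph φ : Subgroup (↥S × ↥S)) Y := by
    intro a y hy d hd
    have h1 : (a⁻¹ : A).1 * d * ((a⁻¹ : A).1)⁻¹ ∈ (graph φ : Subgroup (↥S × ↥S)) :=
      (Subgroup.mem_normalizer_iff.1 (a⁻¹ : A).2 d).1 hd
    have h2 := hy _ h1
    have e : d * a.1 = a.1 * ((a⁻¹ : A).1 * d * ((a⁻¹ : A).1)⁻¹) := by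
      have e1 : (a⁻¹ : A).1 = (a.1)⁻¹ := rfl
      rw [e1]
      group
    show d • (a.1 • y) = a.1 • y
    rw [← mul_smul, e, mul_smul, h2]
  obtain ⟨y₀, hy₀, hor⟩ : ∃ y₀ ∈ fix (graph φ : Subgroup (↥S × ↥S)) Y,
      ¬ p * Nat.card (centralizerIn S φ.range) ∣ (orbit A y₀).ncard := by
    by_contra hcon
    push Not at hcon
    exact hnd (dvd_ncard_of_orbits (G := A) _ _ (Set.toFinite _) hinv hcon)
  have hCS : centralizerIn S φ.range ≤ S := inf_le_left
  have hCp : IsPGroup p (centralizerIn S φ.range) := hS.to_le hCS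
  haveI : Finite (centralizerIn S φ.range) := finite_of_le hCS
  obtain ⟨m, hm⟩ := IsPGroup.iff_card.1 hCp
  obtain ⟨k, hk⟩ := IsPGroup.iff_card.1 hS
  have hAd : (orbit A y₀).ncard ∣ p ^ (k + k) := by
    have h1 := ncard_orbit_mul (G := A) y₀
    have h2 : Nat.card A ∣ Nat.card (↥S × ↥S) := Subgroup.card_subgroup_dvd_card A
    rw [Nat.card_prod, hk, ← pow_add] at h2
    exact (Dvd.intro _ h1).trans h2
  obtain ⟨j, -, hj⟩ := (Nat.dvd_prime_pow hp.out).1 hAd
  have hjm : j ≤ m := by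
    by_contra hcon
    apply hor
    rw [hm, hj, ← pow_succ']
    exact pow_dvd_pow p (by omega)
  have hle : (orbit A y₀).ncard ≤ Nat.card (centralizerIn S φ.range) := by
    rw [hm, hj]
    exact Nat.pow_le_pow_right hp.out.pos hjm
  -- the orbit of the centralizer
  let i : centralizerIn S φ.range → Y := fun z => ((1 : ↥S), (⟨z, hCS z.2⟩ : ↥S)) • y₀
  have hi : Function.Injective i := by
    intro a b hab
    have h1 : ((1 : ↥S), (⟨b, hCS b.2⟩ : ↥S))⁻¹ • ((1 : ↥S), (⟨a, hCS a.2⟩ : ↥S)) • y₀ = y₀ := by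
      have : ((1 : ↥S), (⟨a, hCS a.2⟩ : ↥S)) • y₀ = ((1 : ↥S), (⟨b, hCS b.2⟩ : ↥S)) • y₀ := hab
      rw [this, inv_smul_smul]
    rw [← mul_smul] at h1
    have h2 := stab_right hY y₀ (a := 1) (b := (⟨b, hCS b.2⟩ : ↥S)⁻¹ * ⟨a, hCS a.2⟩) (b' := 1)
      (by simpa using h1) (one_smul _ y₀)
    have h3 : (⟨a, hCS a.2⟩ : ↥S) = ⟨b, hCS b.2⟩ := by
      rw [inv_mul_eq_one] at h2
      exact h2.symm
    exact Subtype.ext (Subtype.mk.inj h3)
  have hsub : Set.range i ⊆ orbit A y₀ := by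
    rintro _ ⟨z, rfl⟩
    exact ⟨⟨_, hz ⟨z, hCS z.2⟩ z.2⟩, rfl⟩
  have hcard : (Set.range i).ncard = Nat.card (centralizerIn S φ.range) := by
    rw [← Nat.card_coe_set_eq]
    exact (Nat.card_congr (Equiv.ofInjective i hi)).symm
  have heq : Set.range i = orbit A y₀ :=
    Set.eq_of_subset_of_ncard_le hsub (by rw [hcard]; exact hle) (Set.toFinite _)
  obtain ⟨R₀, θ, hθ, eθ⟩ := hY.1 y₀
  have hsubR : extender S R φ ≤ R₀ := by
    intro g hg
    obtain ⟨hgS, hgN, h, hh, he⟩ := mem_extender_iff.1 hg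
    have hamem : (((⟨g, hgS⟩ : ↥S), (⟨h, hh⟩ : ↥S))) ∈ A := hA _ _ hgN he
    have h1 : ((⟨⟨g, hgS⟩, ⟨h, hh⟩⟩ : ↥S × ↥S)) • y₀ ∈ Set.range i := by
      rw [heq]
      exact ⟨⟨_, hamem⟩, rfl⟩
    obtain ⟨z, hzz⟩ := h1
    have hzz' : ((1 : ↥S), (⟨z, hCS z.2⟩ : ↥S)) • y₀ = ((⟨⟨g, hgS⟩, ⟨h, hh⟩⟩ : ↥S × ↥S)) • y₀ := hzz
    have h2 : (((1 : ↥S), (⟨z, hCS z.2⟩ : ↥S))⁻¹ * (⟨⟨g, hgS⟩, ⟨h, hh⟩⟩ : ↥S × ↥S)) • y₀ = y₀ := by
      rw [mul_smul, ← hzz', inv_smul_smul]
    have h3 : (((1 : ↥S), (⟨z, hCS z.2⟩ : ↥S))⁻¹ * (⟨⟨g, hgS⟩, ⟨h, hh⟩⟩ : ↥S × ↥S)) ∈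
        stabilizer (↥S × ↥S) y₀ := h2
    rw [eθ] at h3
    have h4 := h3.1
    have h5 : (((((1 : ↥S), (⟨z, hCS z.2⟩ : ↥S))⁻¹ * (⟨⟨g, hgS⟩, ⟨h, hh⟩⟩ : ↥S × ↥S)).1 : ↥S) : Ω) = g := by
      show (1 : Ω)⁻¹ * g = g
      simp
    rwa [h5] at h4
  refine ⟨θ.comp (Subgroup.inclusion hsubR), restrict_mem E hθ hsubR, fun x hP hN => ?_⟩
  have hxS : x ∈ S := source_le E hφ hP
  have h1 := hy₀ ((⟨x, hxS⟩ : ↥S), (⟨φ ⟨x, hP⟩, map_mem_S E hφ _⟩ : ↥S)) ⟨hP, rfl⟩
  have h2 : ((⟨x, hxS⟩ : ↥S), (⟨φ ⟨x, hP⟩, map_mem_S E hφ _⟩ : ↥S)) ∈ stabilizer (↥S × ↥S) y₀ := h1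
  rw [eθ] at h2
  obtain ⟨h3, h4⟩ := h2
  exact h4

/-- The main count at a fully normalized subgroup. -/
theorem core [Finite S] [Finite Y] {p : ℕ} [hp : Fact p.Prime] (hS : IsPGroup p S)
    (hY : GoodAbove E Y 0) {N : ℕ} (hN : ¬ p ∣ N) (hcard : Nat.card Y = Nat.card S * N)
    {Q : Subgroup Ω} (hQ : E.IsFullyNormalized Q) : E.IsFullyAutomized p Q ∧ E.IsReceptive Q := by
  have hQS : Q ≤ S := hQ.1
  have hsub : Q.subtype ∈ E.Hom Q := subtype_mem E hQS
  obtain ⟨c, hcdef⟩ : ∃ c, c = mark (graph Q.subtype : Subgroup (↥S × ↥S)) Y := ⟨_, rfl⟩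
  have hc : ∀ (R : Subgroup Ω) (φ : R →* Ω), φ ∈ E.Hom R → φ.range = Q →
      mark (graph φ : Subgroup (↥S × ↥S)) Y = c := by
    intro R φ hφ hr
    rw [hcdef]
    refine hY.2 _ _ ⟨R, φ, hφ, rfl⟩ ⟨Q, _, hsub, rfl⟩ Nat.card_pos ?_
    show E.IsConj (dom _) (dom _)
    rw [dom_graph hφ, dom_graph hsub]
    exact ⟨φ, hφ, hr⟩
  have hc' : ∀ φ ∈ E.Hom Q, mark (graph φ : Subgroup (↥S × ↥S)) Y = c := by
    intro φ hφ
    rw [hcdef]
    refine hY.2 _ _ ⟨Q, φ, hφ, rfl⟩ ⟨Q, _, hsub, rfl⟩ Nat.card_pos ?_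
    show E.IsConj (dom _) (dom _)
    rw [dom_graph hφ, dom_graph hsub]
    exact isConj_refl E hQS
  have h1 := ncard_W hY hQS hc'
  rw [card_hom hQS] at h1
  obtain ⟨n, hn, hnd⟩ := dvd_conj (E := E) hS hQ
  have hCz : Nat.card (centralizerIn S Q) ∣ c := by
    have := centralizer_dvd_mark hY hsub
    rw [Subgroup.range_subtype, ← hcdef] at this
    exact this
  have hle : autInducedBy S Q ≤ E.autGroup Q := autInducedBy_le_autGroup E hQS
  haveI : Finite Q := finite_of_le hQS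
  haveI : Finite (MulAut Q) := mulAut_finite
  have hAa : Nat.card (autInducedBy S Q) ∣ Nat.card (E.autGroup Q) := Subgroup.card_dvd_of_le hle
  have hNS := card_normalizerIn S Q
  obtain ⟨c', rfl⟩ := hCz
  obtain ⟨a', ha'⟩ := hAa
  obtain ⟨C', hC'⟩ := hnd
  have hnot := not_dvd_W hS hY hQS hcard hN
  have hprod : (W S Q Y).ncard = Nat.card S * (c' * a' * C') := by
    rw [h1, ha', hC', ← hn, hNS]
    ring
  have hp3 : ¬ p ∣ c' * a' * C' := by
    intro hd
    apply hnot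
    rw [hprod, mul_comm]
    exact mul_dvd_mul_left _ hd
  have hp1 : ¬ p ∣ c' := fun hd => hp3 ((hd.mul_right a').mul_right C')
  have hp2 : ¬ p ∣ a' := fun hd => hp3 ((hd.mul_left c').mul_right C')
  constructor
  · refine ⟨hQS, ?_⟩
    have hpg : IsPGroup p ((autInducedBy S Q).subgroupOf (E.autGroup Q)) :=
      (isPGroup_autInducedBy hS Q).comap_of_injective _ Subtype.val_injective
    have hidx : ((autInducedBy S Q).subgroupOf (E.autGroup Q)).index = a' := by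
      have h2 := Subgroup.card_mul_index ((autInducedBy S Q).subgroupOf (E.autGroup Q))
      rw [Nat.card_congr (Subgroup.subgroupOfEquivOfLe hle).toEquiv, ha'] at h2
      haveI : Finite (autInducedBy S Q) := inferInstance
      exact Nat.eq_of_mul_eq_mul_left Nat.card_pos h2
    have hi : ¬ p ∣ ((autInducedBy S Q).subgroupOf (E.autGroup Q)).index := by
      rw [hidx]
      exact hp2
    exact ⟨hpg.toSylow hi, IsPGroup.toSylow_coe hpg hi⟩
  · refine ⟨hQS, fun R φ hφ hr => ?_⟩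
    refine receptive_core hS hY hφ ?_
    rw [hc R φ hφ hr, hr]
    intro hd
    haveI : Finite (centralizerIn S Q) := finite_of_le inf_le_left
    have hpos : 0 < Nat.card (centralizerIn S Q) := Nat.card_pos
    rw [mul_comm] at hd
    exact hp1 (Nat.dvd_of_mul_dvd_mul_left hpos hd)

/-- A fusion system with a stable finite `S`-`S`-set, number of right orbits prime to `p`, is saturated. -/
theorem isSaturated_of_biset [Finite S] [Finite Y] {p : ℕ} [hp : Fact p.Prime] (hS : IsPGroup p S)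
    (hY : GoodAbove E Y 0) {N : ℕ} (hN : ¬ p ∣ N) (hcard : Nat.card Y = Nat.card S * N) :
    E.IsSaturated p := by
  intro P hP
  obtain ⟨Q, hPQ, hQ⟩ := exists_isConj_fullyNormalized E hP
  exact ⟨Q, hPQ, core hS hY hN hcard hQ⟩

end Main

end Cfsg.Agent.Lib.BisetSat
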