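import Mathlib
import Cfsg.Agent.Lib.BisetSat
import Cfsg.Agent.Lib.BisetExist
import Cfsg.Prelude.Def_FusionComponents

/-! Direct products of saturated fusion systems are saturated. -/

set_option autoImplicit false
set_option linter.all false

namespace Cfsg.Agent.Lib.BisetProd

open Cfsg Cfsg.FusionSystem MulAction Cfsg.Agent.Lib.BisetGSet Cfsg.Agent.Lib.BisetGraph
  Cfsg.Agent.Lib.FusionBasic Cfsg.Agent.Lib.FusionAut Cfsg.Agent.Lib.FusionSat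

universe u₁ u₂ v₁ v₂

variable {Ω₁ : Type u₁} {Ω₂ : Type u₂} [Group Ω₁] [Group Ω₂] {S₁ : Subgroup Ω₁} {S₂ : Subgroup Ω₂}

/-- First projection. -/
def pr₁ : ↥(S₁.prod S₂) →* ↥S₁ :=
  ((MonoidHom.fst Ω₁ Ω₂).comp (S₁.prod S₂).subtype).codRestrict S₁ (fun x => x.2.1)

/-- Second projection. -/
def pr₂ : ↥(S₁.prod S₂) →* ↥S₂ :=
  ((MonoidHom.snd Ω₁ Ω₂).comp (S₁.prod S₂).subtype).codRestrict S₂ (fun x => x.2.2)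

@[simp] theorem pr₁_coe (x : ↥(S₁.prod S₂)) : ((pr₁ x : ↥S₁) : Ω₁) = (x : Ω₁ × Ω₂).1 := rfl
@[simp] theorem pr₂_coe (x : ↥(S₁.prod S₂)) : ((pr₂ x : ↥S₂) : Ω₂) = (x : Ω₁ × Ω₂).2 := rfl

/-- First projection on pairs. -/
def pi₁ : ↥(S₁.prod S₂) × ↥(S₁.prod S₂) →* ↥S₁ × ↥S₁ := MonoidHom.prodMap pr₁ pr₁

/-- Second projection on pairs. -/
def pi₂ : ↥(S₁.prod S₂) × ↥(S₁.prod S₂) →* ↥S₂ × ↥S₂ := MonoidHom.prodMap pr₂ pr₂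

variable {X₁ : Type v₁} {X₂ : Type v₂} [MulAction (↥S₁ × ↥S₁) X₁] [MulAction (↥S₂ × ↥S₂) X₂]

/-- The product action. -/
abbrev prodAct (S₁ : Subgroup Ω₁) (S₂ : Subgroup Ω₂) (X₁ : Type v₁) (X₂ : Type v₂) [MulAction (↥S₁ × ↥S₁) X₁]
    [MulAction (↥S₂ × ↥S₂) X₂] : MulAction (↥(S₁.prod S₂) × ↥(S₁.prod S₂)) (X₁ × X₂) where
  smul g x := (pi₁ g • x.1, pi₂ g • x.2)
  one_smul x := by
    show (pi₁ 1 • x.1, pi₂ 1 • x.2) = x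
    rw [map_one, map_one, one_smul, one_smul]
  mul_smul a b x := by
    show (pi₁ (a * b) • x.1, pi₂ (a * b) • x.2) = (pi₁ a • pi₁ b • x.1, pi₂ a • pi₂ b • x.2)
    rw [map_mul, map_mul, mul_smul, mul_smul]

theorem fix_prod (D : Subgroup (↥(S₁.prod S₂) × ↥(S₁.prod S₂))) :
    (letI := prodAct S₁ S₂ X₁ X₂; fix D (X₁ × X₂)) = fix (D.map pi₁) X₁ ×ˢ fix (D.map pi₂) X₂ := by
  letI := prodAct S₁ S₂ X₁ X₂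
  ext ⟨x₁, x₂⟩
  constructor
  · intro h
    constructor
    · rintro _ ⟨g, hg, rfl⟩
      exact congrArg Prod.fst (h g hg)
    · rintro _ ⟨g, hg, rfl⟩
      exact congrArg Prod.snd (h g hg)
  · rintro ⟨h1, h2⟩ g hg
    exact Prod.ext (h1 _ ⟨g, hg, rfl⟩) (h2 _ ⟨g, hg, rfl⟩)

theorem mark_prod (D : Subgroup (↥(S₁.prod S₂) × ↥(S₁.prod S₂))) :
    (letI := prodAct S₁ S₂ X₁ X₂; mark D (X₁ × X₂)) = mark (D.map pi₁) X₁ * mark (D.map pi₂) X₂ := by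
  letI := prodAct S₁ S₂ X₁ X₂
  unfold mark
  rw [fix_prod, Set.ncard_prod]

variable {F₁ : FusionSystem S₁} {F₂ : FusionSystem S₂} {E : FusionSystem (S₁.prod S₂)}

/-- The product of two maps. -/
def pairMap {P₁ : Subgroup Ω₁} {P₂ : Subgroup Ω₂} (φ₁ : P₁ →* Ω₁) (φ₂ : P₂ →* Ω₂) :
    ↥(P₁.prod P₂) →* Ω₁ × Ω₂ :=
  MonoidHom.prod
    (φ₁.comp (((MonoidHom.fst Ω₁ Ω₂).comp (P₁.prod P₂).subtype).codRestrict P₁ (fun x => x.2.1)))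
    (φ₂.comp (((MonoidHom.snd Ω₁ Ω₂).comp (P₁.prod P₂).subtype).codRestrict P₂ (fun x => x.2.2)))

theorem pairMap_apply {P₁ : Subgroup Ω₁} {P₂ : Subgroup Ω₂} (φ₁ : P₁ →* Ω₁) (φ₂ : P₂ →* Ω₂)
    (x : ↥(P₁.prod P₂)) : pairMap φ₁ φ₂ x = (φ₁ ⟨(x : Ω₁ × Ω₂).1, x.2.1⟩, φ₂ ⟨(x : Ω₁ × Ω₂).2, x.2.2⟩) := rfl

theorem pairMap_mem (hE : IsProductSystem F₁ F₂ E) {P₁ : Subgroup Ω₁} {P₂ : Subgroup Ω₂} {φ₁ : P₁ →* Ω₁}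
    {φ₂ : P₂ →* Ω₂} (h₁ : φ₁ ∈ F₁.Hom P₁) (h₂ : φ₂ ∈ F₂.Hom P₂) : pairMap φ₁ φ₂ ∈ E.Hom (P₁.prod P₂) := by
  have hP₁ : (P₁.prod P₂).map (MonoidHom.fst Ω₁ Ω₂) ≤ P₁ := by
    rintro _ ⟨x, hx, rfl⟩
    exact hx.1
  have hP₂ : (P₁.prod P₂).map (MonoidHom.snd Ω₁ Ω₂) ≤ P₂ := by
    rintro _ ⟨x, hx, rfl⟩
    exact hx.2
  refine (hE _ _).2 ⟨?_, _, restrict_mem F₁ h₁ hP₁, _, restrict_mem F₂ h₂ hP₂, fun x h₃ h₄ => rfl⟩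
  intro x hx
  exact ⟨source_le F₁ h₁ hx.1, source_le F₂ h₂ hx.2⟩

/-- A map of the product splits. -/
theorem graph_map_pi₁ (hE : IsProductSystem F₁ F₂ E) {P : Subgroup (Ω₁ × Ω₂)} {φ : P →* Ω₁ × Ω₂}
    (hφ : φ ∈ E.Hom P) : ∃ φ₁ ∈ F₁.Hom (P.map (MonoidHom.fst Ω₁ Ω₂)),
      (∀ (x : P) (h : (x : Ω₁ × Ω₂).1 ∈ P.map (MonoidHom.fst Ω₁ Ω₂)), (φ x).1 = φ₁ ⟨_, h⟩) ∧
      (graph φ : Subgroup (↥(S₁.prod S₂) × ↥(S₁.prod S₂))).map pi₁ = graph φ₁ := by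
  obtain ⟨hle, φ₁, hφ₁, φ₂, hφ₂, he⟩ := (hE P φ).1 hφ
  have hm1 : ∀ x : P, (x : Ω₁ × Ω₂).1 ∈ P.map (MonoidHom.fst Ω₁ Ω₂) := fun x => ⟨x, x.2, rfl⟩
  have hm2 : ∀ x : P, (x : Ω₁ × Ω₂).2 ∈ P.map (MonoidHom.snd Ω₁ Ω₂) := fun x => ⟨x, x.2, rfl⟩
  have hval : ∀ (x : P) (h : (x : Ω₁ × Ω₂).1 ∈ P.map (MonoidHom.fst Ω₁ Ω₂)), (φ x).1 = φ₁ ⟨_, h⟩ := by
    intro x h
    rw [he x h (hm2 x)]
  refine ⟨φ₁, hφ₁, hval, ?_⟩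
  ext ⟨a, b⟩
  constructor
  · rintro ⟨⟨u, v⟩, ⟨hu, hv⟩, e⟩
    have e1 : pr₁ u = a := congrArg Prod.fst e
    have e2 : pr₁ v = b := congrArg Prod.snd e
    have hh : (a : Ω₁) ∈ P.map (MonoidHom.fst Ω₁ Ω₂) := ⟨u, hu, by rw [← e1]; rfl⟩
    refine ⟨hh, ?_⟩
    have h3 := hval ⟨u, hu⟩ (hm1 _)
    have h4 : φ ⟨u, hu⟩ = (v : Ω₁ × Ω₂) := hv
    rw [h4] at h3
    show φ₁ ⟨a, hh⟩ = b
    rw [← e2]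
    refine Eq.trans ?_ h3.symm
    congr 2
    rw [← e1]
    rfl
  · rintro ⟨⟨x, hx, hxa⟩, hb⟩
    have hb' : φ₁ ⟨a, ⟨x, hx, hxa⟩⟩ = b := hb
    refine ⟨((⟨x, hle hx⟩ : ↥(S₁.prod S₂)), (⟨φ ⟨x, hx⟩, (E.le_of_mem hφ).2 _⟩ : ↥(S₁.prod S₂))),
      ⟨hx, rfl⟩, ?_⟩
    apply Prod.ext
    · exact Subtype.ext hxa
    · apply Subtype.ext
      show (φ ⟨x, hx⟩).1 = b
      rw [← hb', hval ⟨x, hx⟩ (hm1 _)]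
      congr 2

theorem graph_map_pi₂ (hE : IsProductSystem F₁ F₂ E) {P : Subgroup (Ω₁ × Ω₂)} {φ : P →* Ω₁ × Ω₂}
    (hφ : φ ∈ E.Hom P) : ∃ φ₂ ∈ F₂.Hom (P.map (MonoidHom.snd Ω₁ Ω₂)),
      (∀ (x : P) (h : (x : Ω₁ × Ω₂).2 ∈ P.map (MonoidHom.snd Ω₁ Ω₂)), (φ x).2 = φ₂ ⟨_, h⟩) ∧
      (graph φ : Subgroup (↥(S₁.prod S₂) × ↥(S₁.prod S₂))).map pi₂ = graph φ₂ := by
  obtain ⟨hle, φ₁, hφ₁, φ₂, hφ₂, he⟩ := (hE P φ).1 hφ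
  have hm1 : ∀ x : P, (x : Ω₁ × Ω₂).1 ∈ P.map (MonoidHom.fst Ω₁ Ω₂) := fun x => ⟨x, x.2, rfl⟩
  have hm2 : ∀ x : P, (x : Ω₁ × Ω₂).2 ∈ P.map (MonoidHom.snd Ω₁ Ω₂) := fun x => ⟨x, x.2, rfl⟩
  have hval : ∀ (x : P) (h : (x : Ω₁ × Ω₂).2 ∈ P.map (MonoidHom.snd Ω₁ Ω₂)), (φ x).2 = φ₂ ⟨_, h⟩ := by
    intro x h
    rw [he x (hm1 x) h]
  refine ⟨φ₂, hφ₂, hval, ?_⟩
  ext ⟨a, b⟩
  constructor
  · rintro ⟨⟨u, v⟩, ⟨hu, hv⟩, e⟩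
    have e1 : pr₂ u = a := congrArg Prod.fst e
    have e2 : pr₂ v = b := congrArg Prod.snd e
    have hh : (a : Ω₂) ∈ P.map (MonoidHom.snd Ω₁ Ω₂) := ⟨u, hu, by rw [← e1]; rfl⟩
    refine ⟨hh, ?_⟩
    have h3 := hval ⟨u, hu⟩ (hm2 _)
    have h4 : φ ⟨u, hu⟩ = (v : Ω₁ × Ω₂) := hv
    rw [h4] at h3
    show φ₂ ⟨a, hh⟩ = b
    rw [← e2]
    refine Eq.trans ?_ h3.symm
    congr 2
    rw [← e1]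
    rfl
  · rintro ⟨⟨x, hx, hxa⟩, hb⟩
    have hb' : φ₂ ⟨a, ⟨x, hx, hxa⟩⟩ = b := hb
    refine ⟨((⟨x, hle hx⟩ : ↥(S₁.prod S₂)), (⟨φ ⟨x, hx⟩, (E.le_of_mem hφ).2 _⟩ : ↥(S₁.prod S₂))),
      ⟨hx, rfl⟩, ?_⟩
    apply Prod.ext
    · exact Subtype.ext hxa
    · apply Subtype.ext
      show (φ ⟨x, hx⟩).2 = b
      rw [← hb', hval ⟨x, hx⟩ (hm2 _)]
      congr 2

/-- Conjugation in the product projects. -/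
theorem isConj_fst (hE : IsProductSystem F₁ F₂ E) {P Q : Subgroup (Ω₁ × Ω₂)} (h : E.IsConj P Q) :
    F₁.IsConj (P.map (MonoidHom.fst Ω₁ Ω₂)) (Q.map (MonoidHom.fst Ω₁ Ω₂)) := by
  obtain ⟨φ, hφ, rfl⟩ := h
  obtain ⟨φ₁, hφ₁, hval, -⟩ := graph_map_pi₁ hE hφ
  refine ⟨φ₁, hφ₁, ?_⟩
  ext y
  constructor
  · rintro ⟨⟨_, x, hx, rfl⟩, rfl⟩
    refine ⟨φ ⟨x, hx⟩, ⟨_, rfl⟩, ?_⟩
    exact hval ⟨x, hx⟩ _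
  · rintro ⟨_, ⟨x, rfl⟩, rfl⟩
    exact ⟨⟨_, x, x.2, rfl⟩, (hval x _).symm⟩

theorem isConj_snd (hE : IsProductSystem F₁ F₂ E) {P Q : Subgroup (Ω₁ × Ω₂)} (h : E.IsConj P Q) :
    F₂.IsConj (P.map (MonoidHom.snd Ω₁ Ω₂)) (Q.map (MonoidHom.snd Ω₁ Ω₂)) := by
  obtain ⟨φ, hφ, rfl⟩ := h
  obtain ⟨φ₁, hφ₁, hval, -⟩ := graph_map_pi₂ hE hφ
  refine ⟨φ₁, hφ₁, ?_⟩
  ext y
  constructor
  · rintro ⟨⟨_, x, hx, rfl⟩, rfl⟩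
    refine ⟨φ ⟨x, hx⟩, ⟨_, rfl⟩, ?_⟩
    exact hval ⟨x, hx⟩ _
  · rintro ⟨_, ⟨x, rfl⟩, rfl⟩
    exact ⟨⟨_, x, x.2, rfl⟩, (hval x _).symm⟩

/-- Stability of the product set. -/
theorem goodAbove_prod [Finite S₁] [Finite S₂] [Finite X₁] [Finite X₂] (hE : IsProductSystem F₁ F₂ E)
    (h₁ : GoodAbove F₁ X₁ 0) (h₂ : GoodAbove F₂ X₂ 0) :
    (letI := prodAct S₁ S₂ X₁ X₂; GoodAbove E (X₁ × X₂) 0) := by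
  letI := prodAct S₁ S₂ X₁ X₂
  constructor
  · rintro ⟨x₁, x₂⟩
    obtain ⟨P₁, φ₁, hφ₁, e₁⟩ := h₁.1 x₁
    obtain ⟨P₂, φ₂, hφ₂, e₂⟩ := h₂.1 x₂
    refine ⟨_, _, pairMap_mem hE hφ₁ hφ₂, ?_⟩
    ext ⟨a, b⟩
    have k1 : (pi₁ (a, b) • x₁ = x₁) ↔ pi₁ (a, b) ∈ stabilizer (↥S₁ × ↥S₁) x₁ := Iff.rfl
    have k2 : (pi₂ (a, b) • x₂ = x₂) ↔ pi₂ (a, b) ∈ stabilizer (↥S₂ × ↥S₂) x₂ := Iff.rfl
    rw [e₁] at k1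
    rw [e₂] at k2
    constructor
    · intro h
      have h3 : pi₁ (a, b) • x₁ = x₁ := congrArg Prod.fst h
      have h4 : pi₂ (a, b) • x₂ = x₂ := congrArg Prod.snd h
      obtain ⟨h5, h6⟩ := k1.1 h3
      obtain ⟨h7, h8⟩ := k2.1 h4
      refine ⟨⟨h5, h7⟩, ?_⟩
      apply Prod.ext
      · exact h6
      · exact h8
    · rintro ⟨⟨h5, h7⟩, h8⟩
      have h9 : pairMap φ₁ φ₂ ⟨(a : Ω₁ × Ω₂), ⟨h5, h7⟩⟩ = (b : Ω₁ × Ω₂) := h8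
      rw [pairMap_apply] at h9
      have h3 : pi₁ (a, b) • x₁ = x₁ := k1.2 ⟨h5, congrArg Prod.fst h9⟩
      have h4 : pi₂ (a, b) • x₂ = x₂ := k2.2 ⟨h7, congrArg Prod.snd h9⟩
      exact Prod.ext h3 h4
  · rintro D D' ⟨P, φ, hφ, rfl⟩ ⟨P', φ', hφ', rfl⟩ - hrel
    have hrel' : E.IsConj P P' := by
      have h : E.IsConj (dom _) (dom _) := hrel
      rwa [dom_graph hφ, dom_graph hφ'] at h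
    rw [mark_prod, mark_prod]
    obtain ⟨a₁, ha₁, -, ea₁⟩ := graph_map_pi₁ hE hφ
    obtain ⟨a₂, ha₂, -, ea₂⟩ := graph_map_pi₂ hE hφ
    obtain ⟨b₁, hb₁, -, eb₁⟩ := graph_map_pi₁ hE hφ'
    obtain ⟨b₂, hb₂, -, eb₂⟩ := graph_map_pi₂ hE hφ'
    rw [ea₁, ea₂, eb₁, eb₂]
    congr 1
    · refine h₁.2 _ _ ⟨_, _, ha₁, rfl⟩ ⟨_, _, hb₁, rfl⟩ Nat.card_pos ?_
      show F₁.IsConj (dom _) (dom _)
      rw [dom_graph ha₁, dom_graph hb₁]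
      exact isConj_fst hE hrel'
    · refine h₂.2 _ _ ⟨_, _, ha₂, rfl⟩ ⟨_, _, hb₂, rfl⟩ Nat.card_pos ?_
      show F₂.IsConj (dom _) (dom _)
      rw [dom_graph ha₂, dom_graph hb₂]
      exact isConj_snd hE hrel'

/-- The direct product of saturated fusion systems is saturated. -/
theorem isSaturated_prod [Finite S₁] [Finite S₂] {p : ℕ} [hp : Fact p.Prime] (h₁ : IsPGroup p S₁)
    (h₂ : IsPGroup p S₂) (hF₁ : F₁.IsSaturated p) (hF₂ : F₂.IsSaturated p)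
    (hE : IsProductSystem F₁ F₂ E) : E.IsSaturated p := by
  obtain ⟨X₁, i₁, f₁, g₁, N₁, hN₁, c₁⟩ := Cfsg.Agent.Lib.BisetExist.exists_char h₁ hF₁
  obtain ⟨X₂, i₂, f₂, g₂, N₂, hN₂, c₂⟩ := Cfsg.Agent.Lib.BisetExist.exists_char h₂ hF₂
  letI := prodAct S₁ S₂ X₁ X₂
  have hcardS : Nat.card (S₁.prod S₂) = Nat.card S₁ * Nat.card S₂ :=
    (Nat.card_congr (Subgroup.prodEquiv _ _).toEquiv).trans (Nat.card_prod _ _)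
  haveI hfin : Finite (S₁.prod S₂) := Finite.of_equiv _ (Subgroup.prodEquiv S₁ S₂).symm.toEquiv
  have hS : IsPGroup p (S₁.prod S₂) := by
    obtain ⟨a, ha⟩ := IsPGroup.iff_card.1 h₁
    obtain ⟨b, hb⟩ := IsPGroup.iff_card.1 h₂
    refine IsPGroup.iff_card.2 ⟨a + b, ?_⟩
    rw [hcardS, ha, hb, pow_add]
  have hnd₁ : ¬ p ∣ N₁ := (Nat.Prime.coprime_iff_not_dvd hp.out).1 hN₁.symm
  have hnd₂ : ¬ p ∣ N₂ := (Nat.Prime.coprime_iff_not_dvd hp.out).1 hN₂.symm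
  have hnd : ¬ p ∣ N₁ * N₂ := fun h => (hp.out.dvd_mul.1 h).elim hnd₁ hnd₂
  refine Cfsg.Agent.Lib.BisetSat.isSaturated_of_biset (Y := X₁ × X₂) hS (goodAbove_prod hE g₁ g₂) hnd ?_
  rw [Nat.card_prod, c₁, c₂, hcardS]
  ring

end Cfsg.Agent.Lib.BisetProd
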