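import Cfsg.Agent.Lib.CoherenceCent
import Cfsg.Agent.S1528

/-!
# Coherence for the characters of a Frobenius group nontrivial on the kernel
-/

set_option linter.all false

namespace Cfsg.Agent.Lib.CoherenceFrob

open scoped ComplexConjugate commutatorElement
open Cfsg Cfsg.Agent.Lib.CharIrr Cfsg.Agent.Lib.CharOps Cfsg.Agent.Lib.CharGen Cfsg.Agent.Lib.CharIso
  Cfsg.Agent.Lib.Coherence Cfsg.Agent.Lib.CharAb Cfsg.Agent.Lib.CoherenceInd Cfsg.Agent.Lib.CoherenceCent

universe u v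

section General

variable {L : Type u} [Group L] [Fintype L] {G : Type v} [Group G] [Fintype G]

/-- A coherence criterion for a set of equal degrees from a single anchor value. -/
theorem coherent_of_anchor (S : Set (L → ℂ)) (hfin : S.Finite)
    (hort : ∀ a ∈ S, ∀ b ∈ S, a ≠ b → classInner a b = 0) (hnz : ∀ a ∈ S, a ≠ 0)
    (τ : (L → ℂ) → (G → ℂ)) (hiso : IsLinearIsometryOn (zspanOn S {1}ᶜ) τ)
    (hdeg : ∀ φ ∈ S, ∀ ψ ∈ S, φ 1 = ψ 1) {χ₀ : L → ℂ} (hχ₀ : χ₀ ∈ S) (hd : χ₀ 1 ≠ 0) (X₀ : G → ℂ)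
    (hne : ∃ α ∈ zspanOn S {1}ᶜ, α ≠ 0)
    (hXX : ∀ a ∈ S, ∀ b ∈ S, classInner (τ (a - χ₀) + X₀) (τ (b - χ₀) + X₀) = classInner a b)
    (hXg : ∀ a ∈ S, IsGeneralizedCharacter G (τ (a - χ₀) + X₀)) : IsCoherent S {1}ᶜ τ := by
  classical
  have hE := closed_zspanOn S {1}ᶜ
  have hmem : ∀ a ∈ S, ∀ b ∈ S, a - b ∈ zspanOn S {1}ᶜ := fun a ha b hb =>
    mem_zspanOn_one.2 ⟨(closed_zspan S).sub (zspan_mem ha) (zspan_mem hb), by
      simp [hdeg a ha b hb]⟩
  have hSF : ((hfin.toFinset : Finset (L → ℂ)) : Set (L → ℂ)) = S := hfin.coe_toFinset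
  have hmemF : ∀ a, a ∈ hfin.toFinset ↔ a ∈ S := fun a => hfin.mem_toFinset
  let X : (L → ℂ) → (G → ℂ) := fun ε => τ (ε - χ₀) + X₀
  have hortF : ∀ a ∈ hfin.toFinset, ∀ b ∈ hfin.toFinset, a ≠ b → classInner a b = 0 :=
    fun a ha b hb hab => hort a ((hmemF a).1 ha) b ((hmemF b).1 hb) hab
  have hnzF : ∀ a ∈ hfin.toFinset, a ≠ 0 := fun a ha => hnz a ((hmemF a).1 ha)
  refine ⟨hne, famMap hfin.toFinset X, ?_, ?_⟩
  · have := famMap_iso hortF hnzF X (fun a ha b hb => hXX a ((hmemF a).1 ha) b ((hmemF b).1 hb))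
      (fun a ha => hXg a ((hmemF a).1 ha))
    rwa [hSF] at this
  · intro α hα
    have hα' := mem_zspanOn_one.1 hα
    have key : ∃ m : ℤ, α 1 = m * χ₀ 1 ∧ α - m • χ₀ ∈ zspanOn S {1}ᶜ ∧
        famMap hfin.toFinset X α = τ (α - m • χ₀) + m • X₀ := by
      refine zspan_induction (p := fun f => ∃ m : ℤ, f 1 = m * χ₀ 1 ∧ f - m • χ₀ ∈ zspanOn S {1}ᶜ ∧
        famMap hfin.toFinset X f = τ (f - m • χ₀) + m • X₀) ?_ ?_ ?_ ?_ hα'.1
      · intro x hx
        refine ⟨1, by simpa using hdeg x hx χ₀ hχ₀, ?_, ?_⟩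
        · rw [one_smul]; exact hmem x hx χ₀ hχ₀
        · rw [famMap_of_mem hortF hnzF X ((hmemF x).2 hx), one_smul, one_smul]
      · refine ⟨0, by simp, ?_, ?_⟩
        · simpa using hE.zero
        · rw [famMap_zero, zero_smul, sub_zero, iso_zero hE hiso, zero_smul, add_zero]
      · rintro x y ⟨m, h1, h2, h3⟩ ⟨m', h1', h2', h3'⟩
        refine ⟨m + m', ?_, ?_, ?_⟩
        · simp [h1, h1']; ring
        · have : x + y - (m + m') • χ₀ = (x - m • χ₀) + (y - m' • χ₀) := by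
            rw [add_smul]; abel
          rw [this]
          exact hE.add _ h2 _ h2'
        · have : x + y - (m + m') • χ₀ = (x - m • χ₀) + (y - m' • χ₀) := by
            rw [add_smul]; abel
          rw [famMap_add, h3, h3', this, iso_add hiso h2 h2', add_smul]
          abel
      · rintro n x ⟨m, h1, h2, h3⟩
        refine ⟨n * m, ?_, ?_, ?_⟩
        · simp [h1]; ring
        · have : n • x - (n * m) • χ₀ = n • (x - m • χ₀) := by
            rw [mul_smul, smul_sub]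
          rw [this]
          exact hE.zsmul _ h2 n
        · have : n • x - (n * m) • χ₀ = n • (x - m • χ₀) := by
            rw [mul_smul, smul_sub]
          rw [famMap_zsmul, h3, this, iso_zsmul hiso h2, mul_smul, smul_add]
    obtain ⟨m, h1, -, h3⟩ := key
    rw [hα'.2] at h1
    have hm : m = 0 := by
      have : (m : ℂ) = 0 := (mul_eq_zero.1 h1.symm).resolve_right hd
      exact_mod_cast this
    subst hm
    rw [h3]
    simp

/-- At least two irreducible characters of equal degree are coherent. -/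
theorem coherent_irr_equal (S : Set (L → ℂ)) (hirr : ∀ ξ ∈ S, IsIrrCharacter L ξ)
    (τ : (L → ℂ) → (G → ℂ)) (hτ : IsLinearIsometryOn (zspanOn S {1}ᶜ) τ)
    (hτ1 : ∀ α ∈ zspanOn S {1}ᶜ, τ α 1 = 0) (hdeg : ∀ φ ∈ S, ∀ ψ ∈ S, φ 1 = ψ 1)
    (htwo : ∃ a ∈ S, ∃ b ∈ S, a ≠ b) : IsCoherent S {1}ᶜ τ := by
  classical
  obtain ⟨χ₀, hχ₀, χ₁, hχ₁, hne⟩ := htwo
  have hE := closed_zspanOn S {1}ᶜ
  have hmem : ∀ a ∈ S, ∀ b ∈ S, a - b ∈ zspanOn S {1}ᶜ := fun a ha b hb =>
    mem_zspanOn_one.2 ⟨(closed_zspan S).sub (zspan_mem ha) (zspan_mem hb), by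
      simp [hdeg a ha b hb]⟩
  have hort : ∀ a ∈ S, ∀ b ∈ S, a ≠ b → classInner a b = 0 := fun a ha b hb h =>
    irr_inner_ne (hirr a ha) (hirr b hb) h
  have hnz : ∀ a ∈ S, a ≠ 0 := fun a ha h0 => by
    have h1 := degree_ne_zero (hirr a ha)
    rw [h0] at h1
    exact h1 rfl
  have hfin : S.Finite := finite_of_orthogonal S hort hnz
  let F := hfin.toFinset
  have hF : ∀ a, a ∈ F ↔ a ∈ S := fun a => hfin.mem_toFinset
  let eqv : Fin F.card ≃ F := F.equivFin.symm
  let f : Fin F.card → (L → ℂ) := fun i => (eqv i).1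
  have hfS : ∀ i, f i ∈ S := fun i => (hF _).1 (eqv i).2
  have hfinj : Function.Injective f := fun i j h => eqv.injective (Subtype.ext h)
  have hfsurj : ∀ a ∈ S, ∃ i, f i = a := fun a ha =>
    ⟨eqv.symm ⟨a, (hF a).2 ha⟩, by simp [f]⟩
  obtain ⟨i₀, hi₀⟩ := hfsurj χ₀ hχ₀
  let T : Fin F.card → (G → ℂ) := fun i => τ (f i - χ₀)
  have hT0 : T i₀ = 0 := by
    show τ (f i₀ - χ₀) = 0
    rw [hi₀, sub_self]
    exact iso_zero hE hτ
  have hTg : ∀ i, IsGeneralizedCharacter G (T i) := fun i => iso_gen hτ (hmem _ (hfS i) _ hχ₀)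
  have hT1 : ∀ i, T i 1 = 0 := fun i => hτ1 _ (hmem _ (hfS i) _ hχ₀)
  have hgram : ∀ i j, i ≠ i₀ → j ≠ i₀ → classInner (T i) (T j) = if i = j then 2 else 1 := by
    intro i j hi hj
    show classInner (τ (f i - χ₀)) (τ (f j - χ₀)) = _
    rw [iso_inner hτ (hmem _ (hfS i) _ hχ₀) (hmem _ (hfS j) _ hχ₀)]
    simp only [Coherence.inner_sub_left, Coherence.inner_sub_right]
    have hi' : f i ≠ χ₀ := fun h => hi (hfinj (h.trans hi₀.symm))
    have hj' : f j ≠ χ₀ := fun h => hj (hfinj (h.trans hi₀.symm))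
    rw [hort _ (hfS i) _ hχ₀ hi', hort _ hχ₀ _ (hfS j) hj'.symm, irr_inner_self (hirr _ hχ₀)]
    by_cases hij : i = j
    · subst hij
      rw [irr_inner_self (hirr _ (hfS i)), if_pos rfl]
      norm_num
    · rw [hort _ (hfS i) _ (hfS j) (fun h => hij (hfinj h)), if_neg hij]
      norm_num
  obtain ⟨ε, hε, μ, hμ, hμinj, hTμ⟩ := isometry_lemma F.card i₀ T hT0 hTg hT1 hgram
  have hεε : ε * conj ε = 1 := by
    rcases hε with rfl | rfl <;> simp
  have hval : ∀ i, τ (f i - χ₀) + ε • μ i₀ = ε • μ i := by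
    intro i
    have h1 : τ (f i - χ₀) = ε • (μ i - μ i₀) := hTμ i
    rw [h1, smul_sub]
    abel
  have hinj : ∀ i j, classInner (ε • μ i) (ε • μ j) = classInner (f i) (f j) := by
    intro i j
    have h1 : classInner (ε • μ i) (ε • μ j) = ε * conj ε * classInner (μ i) (μ j) := by
      rw [classInner_smul_left, classInner_smul_right]
      ring
    rw [h1, hεε, one_mul, classInner_irr (hμ i) (hμ j), classInner_irr (hirr _ (hfS i)) (hirr _ (hfS j))]
    exact if_congr ⟨fun h => congrArg f (hμinj h), fun h => congrArg μ (hfinj h)⟩ rfl rfl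
  have hgen : ∀ i, IsGeneralizedCharacter G (ε • μ i) := by
    intro i
    have h1 : IsGeneralizedCharacter G (μ i) := isGen_of_char (IsIrrCharacter.isCharacter' (hμ i))
    rcases hε with rfl | rfl
    · rwa [one_smul]
    · have h2 := Coherence.isGen_zsmul' h1 (-1)
      have h3 : ((-1 : ℂ)) • μ i = (-1 : ℤ) • μ i := by
        funext g
        simp
      rwa [h3]
  refine coherent_of_anchor S hfin hort hnz τ hτ hdeg hχ₀ (degree_ne_zero (hirr _ hχ₀)) (ε • μ i₀)
    ⟨χ₁ - χ₀, hmem _ hχ₁ _ hχ₀, sub_ne_zero.2 hne.symm⟩ ?_ ?_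
  · intro a ha b hb
    obtain ⟨i, rfl⟩ := hfsurj a ha
    obtain ⟨j, rfl⟩ := hfsurj b hb
    rw [hval, hval, hinj]
  · intro a ha
    obtain ⟨i, rfl⟩ := hfsurj a ha
    rw [hval]
    exact hgen i

/-- Adding a finite set of irreducible characters one at a time. -/
theorem coherent_extend_irr (S : Set (L → ℂ)) (hirr : ∀ ξ ∈ S, IsIrrCharacter L ξ)
    (d : (L → ℂ) → ℕ) (hd : ∀ ξ ∈ S, ξ 1 = (d ξ : ℂ)) (τ : (L → ℂ) → (G → ℂ))
    (hτ : IsLinearIsometryOn (zspanOn S {1}ᶜ) τ) (hτ1 : ∀ α ∈ zspanOn S {1}ᶜ, τ α 1 = 0)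
    (T : Finset (L → ℂ)) (hTS : (↑T : Set (L → ℂ)) ⊆ S) (ψ : L → ℂ) (hdiv : ∀ χ ∈ T, d ψ ∣ d χ) :
    ∀ (m : ℕ) (S₀ : Finset (L → ℂ)), (↑S₀ : Set (L → ℂ)) ⊆ S →
      IsCoherent (↑S₀ : Set (L → ℂ)) {1}ᶜ τ → ψ ∈ S₀ → (T \ S₀).card = m →
      (∀ χ ∈ T, 2 * d ψ * d χ < ∑ ξ ∈ S₀, d ξ ^ 2) →
      IsCoherent (↑(S₀ ∪ T) : Set (L → ℂ)) {1}ᶜ τ := by
  classical
  intro m
  induction m using Nat.strong_induction_on with
  | _ m ih =>
    intro S₀ hS₀ hcoh hψ hm hineq
    by_cases hsub : T ⊆ S₀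
    · rwa [Finset.union_eq_left.2 hsub]
    obtain ⟨χ, hχT, hχS₀⟩ := Finset.not_subset.1 hsub
    have hχS : χ ∈ S := hTS hχT
    have hS₁ : (↑(insert χ S₀) : Set (L → ℂ)) ⊆ S := by
      intro x hx
      rcases Finset.mem_insert.1 hx with rfl | hx
      · exact hχS
      · exact hS₀ hx
    have hnew := coherent_insert_irr S₀ χ (fun ξ hξ => hirr ξ (hS₀ hξ)) (hirr χ hχS) hχS₀ d
      (fun ξ hξ => hd ξ (hS₁ hξ)) τ (iso_mono (zspanOn_subset hS₁) hτ)
      (fun α hα => hτ1 α (zspanOn_mono hS₁ hα)) hcoh ψ hψ (hdiv χ hχT) (hineq χ hχT)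
    have hcard : (T \ insert χ S₀).card < m := by
      rw [← hm]
      apply Finset.card_lt_card
      refine ⟨Finset.sdiff_subset_sdiff (Finset.Subset.refl _) (Finset.subset_insert _ _), fun h => ?_⟩
      have h1 : χ ∈ T \ S₀ := Finset.mem_sdiff.2 ⟨hχT, hχS₀⟩
      have h2 := h h1
      exact (Finset.mem_sdiff.1 h2).2 (Finset.mem_insert_self _ _)
    have hsum : ∀ χ' ∈ T, 2 * d ψ * d χ' < ∑ ξ ∈ insert χ S₀, d ξ ^ 2 := by
      intro χ' hχ'
      refine lt_of_lt_of_le (hineq χ' hχ') ?_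
      exact Finset.sum_le_sum_of_subset (Finset.subset_insert _ _)
    have h := ih _ hcard (insert χ S₀) hS₁ hnew (Finset.mem_insert_of_mem hψ) rfl hsum
    have heq : insert χ S₀ ∪ T = S₀ ∪ T := by
      ext x
      simp only [Finset.mem_union, Finset.mem_insert]
      constructor
      · rintro ((rfl | h) | h)
        · exact Or.inr hχT
        · exact Or.inl h
        · exact Or.inr h
      · rintro (h | h)
        · exact Or.inl (Or.inr h)
        · exact Or.inr h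
    rwa [heq] at h

end General

section Product

variable {X : Type u} [Group X] [Fintype X]

open Classical in
/-- The irreducible characters with a given subgroup in the kernel. -/
noncomputable def kerSet (M : Subgroup X) : Finset (IrrCharacter X) :=
  (Finset.univ : Finset (IrrCharacter X)).filter (fun θ : IrrCharacter X => ∀ m ∈ M, θ.1 m = θ.1 1)

theorem mem_kerSet {M : Subgroup X} {θ : IrrCharacter X} : θ ∈ kerSet M ↔ ∀ m ∈ M, θ.1 m = θ.1 1 := by
  classical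
  simp [kerSet]

theorem sum_deg_kerSet (M : Subgroup X) [M.Normal] : ∑ θ ∈ kerSet M, deg θ ^ 2 = M.index := by
  classical
  have h := sum_sq_of_ker M
  have h2 : ((∑ θ ∈ kerSet M, deg θ ^ 2 : ℕ) : ℂ) = (M.index : ℂ) := by
    rw [← h]
    push_cast
    refine Finset.sum_congr ?_ fun θ _ => by rw [apply_one_eq_deg]
    ext θ
    simp [kerSet]
  exact_mod_cast h2

/-- The principal character as an element of the set of irreducibles. -/
def oneIrr (X : Type u) [Group X] [Fintype X] : IrrCharacter X := ⟨fun _ => 1, isIrr_one⟩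

theorem deg_oneIrr : deg (oneIrr X) = 1 := by
  have h : (((deg (oneIrr X) : ℕ)) : ℂ) = ((1 : ℕ) : ℂ) := by
    rw [← apply_one_eq_deg]
    simp [oneIrr]
  exact_mod_cast h

theorem deg_eq_one_of_comm {M : Subgroup X} (hM : commutator X ≤ M) {θ : IrrCharacter X}
    (hθ : ∀ m ∈ M, θ.1 m = θ.1 1) : deg θ = 1 := by
  have h1 : θ.1 1 = 1 := Cfsg.Agent.Lib.CharLinear.degree_one_of_comm θ.2 fun x y => by
    apply hθ
    apply hM
    exact Subgroup.commutator_mem_commutator (Subgroup.mem_top _) (Subgroup.mem_top _)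
  have h : (((deg θ : ℕ)) : ℂ) = ((1 : ℕ) : ℂ) := by
    rw [← apply_one_eq_deg, h1]
    simp
  exact_mod_cast h

/-- Squared degrees below a given degree, in a quotient of prime power order. -/
theorem sq_le_sum_lt (Q : Subgroup X) [hQn : Q.Normal] {p m : ℕ} (hp : p.Prime) (hQ : Q.index = p ^ m)
    (θ₀ : IrrCharacter X) (h₀ : θ₀ ∈ kerSet Q) (hx : 1 < deg θ₀) :
    deg θ₀ ^ 2 ≤ ∑ θ ∈ (kerSet Q).filter (fun θ => deg θ < deg θ₀), deg θ ^ 2 := by
  classical
  have hall := sum_deg_kerSet Q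
  have hsplit := Finset.sum_filter_add_sum_filter_not (kerSet Q) (fun θ => deg θ < deg θ₀)
    (fun θ => deg θ ^ 2)
  rw [hall] at hsplit
  have hd : ∀ θ ∈ kerSet Q, deg θ ∣ p ^ m := fun θ hθ => by
    rw [← hQ, ← Cfsg.Agent.Lib.H7Char.charDegree_eq_deg]
    exact Cfsg.Agent.Lib.CharInflate.deg_dvd_index Q θ (mem_kerSet.1 hθ)
  have ha2 : deg θ₀ ^ 2 ∣ Q.index := by
    have h1 : deg θ₀ ^ 2 ≤ Q.index := by
      refine sq_le_index Q θ₀.2 (fun y hy x => ?_) (apply_one_eq_deg θ₀)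
      apply mem_kerSet.1 h₀
      rw [mul_assoc, mul_assoc]
      refine Q.mul_mem hy ?_
      rw [← mul_assoc]
      exact hQn.conj_mem _ (Q.inv_mem hy) x
    have h3 : deg θ₀ ^ 2 ∣ p ^ (m * 2) := by
      rw [pow_mul]
      exact pow_dvd_pow_of_dvd (hd θ₀ h₀) 2
    have h4 : Q.index ∣ p ^ (m * 2) := by
      rw [hQ]
      exact pow_dvd_pow p (by omega)
    exact prime_pow_dvd_of_le hp h3 h4 h1
  have ht2 : deg θ₀ ^ 2 ∣ ∑ θ ∈ (kerSet Q).filter (fun θ => ¬ deg θ < deg θ₀), deg θ ^ 2 := by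
    refine Finset.dvd_sum fun θ hθ => ?_
    have h1 := Finset.mem_filter.1 hθ
    refine pow_dvd_pow_of_dvd ?_ 2
    exact prime_pow_dvd_of_le hp (hd θ₀ h₀) (hd θ h1.1) (not_lt.1 h1.2)
  have hdvd : deg θ₀ ^ 2 ∣ ∑ θ ∈ (kerSet Q).filter (fun θ => deg θ < deg θ₀), deg θ ^ 2 := by
    rw [← hsplit] at ha2
    exact (Nat.dvd_add_left ht2).1 ha2
  refine Nat.le_of_dvd ?_ hdvd
  have h1 : oneIrr X ∈ (kerSet Q).filter (fun θ => deg θ < deg θ₀) :=
    Finset.mem_filter.2 ⟨mem_kerSet.2 fun _ _ => rfl, by rw [deg_oneIrr]; exact hx⟩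
  refine lt_of_lt_of_le (pow_pos (deg_pos (oneIrr X)) 2) ?_
  exact Finset.single_le_sum (f := fun θ : IrrCharacter X => deg θ ^ 2) (fun _ _ => Nat.zero_le _) h1

variable {P Q : Subgroup X} [hPn : P.Normal] [hQn : Q.Normal]

omit hPn hQn in
theorem sum_complement (hc : P.IsComplement' Q) [Fintype P] [Fintype Q] (f : X → ℂ) :
    ∑ x, f x = ∑ p : P, ∑ q : Q, f (p * q) := by
  rw [← Fintype.sum_prod_type']
  exact (Fintype.sum_equiv (Equiv.ofBijective _ hc) _ _ (fun w => rfl)).symm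

include hPn hQn in
theorem complement_comm (hc : P.IsComplement' Q) {p q : X} (hp : p ∈ P) (hq : q ∈ Q) : p * q = q * p :=
  Subgroup.commute_of_normal_of_disjoint P Q hPn hQn hc.disjoint p q hp hq

/-- The product of characters with complementary kernels is irreducible. -/
theorem isIrr_prod (hc : P.IsComplement' Q) {θ₁ θ₂ : X → ℂ} (h₁ : IsIrrCharacter X θ₁)
    (h₂ : IsIrrCharacter X θ₂) (hk₁ : ∀ q ∈ Q, θ₁ q = θ₁ 1) (hk₂ : ∀ p ∈ P, θ₂ p = θ₂ 1) :
    IsIrrCharacter X (fun x => θ₁ x * θ₂ x) := by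
  classical
  letI : Fintype P := Fintype.ofFinite _
  letI : Fintype Q := Fintype.ofFinite _
  have hv₁ : ∀ (p : P) (q : Q), θ₁ ((p : X) * (q : X)) = θ₁ p := fun p q => by
    rw [complement_comm hc p.2 q.2]
    exact Cfsg.Agent.Lib.CharKernel.apply_mul_of_ker Q (IsIrrCharacter.isCharacter' h₁) hk₁ q.2 p
  have hv₂ : ∀ (p : P) (q : Q), θ₂ ((p : X) * (q : X)) = θ₂ q := fun p q =>
    Cfsg.Agent.Lib.CharKernel.apply_mul_of_ker P (IsIrrCharacter.isCharacter' h₂) hk₂ p.2 q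
  have hcard : (Nat.card X : ℂ) = (Nat.card P : ℂ) * (Nat.card Q : ℂ) := by
    exact_mod_cast hc.card_mul.symm
  have ha : (Nat.card P : ℂ) ≠ 0 := by exact_mod_cast Nat.card_pos.ne'
  have hb : (Nat.card Q : ℂ) ≠ 0 := by exact_mod_cast Nat.card_pos.ne'
  apply isIrr_of_norm_one (isCharacter_mul (IsIrrCharacter.isCharacter' h₁) (IsIrrCharacter.isCharacter' h₂))
  have h1 : classInner θ₁ θ₁ = (Nat.card X : ℂ)⁻¹ * ((Nat.card Q : ℂ) * ∑ p : P, θ₁ p * conj (θ₁ p)) := by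
    rw [classInner, sum_complement hc]
    simp only [hv₁, Finset.sum_const, Finset.card_univ, nsmul_eq_mul, Nat.card_eq_fintype_card]
    congr 1
    rw [Finset.mul_sum]
  have h2 : classInner θ₂ θ₂ = (Nat.card X : ℂ)⁻¹ * ((Nat.card P : ℂ) * ∑ q : Q, θ₂ q * conj (θ₂ q)) := by
    rw [classInner, sum_complement hc]
    simp only [hv₂, Finset.sum_const, Finset.card_univ, nsmul_eq_mul, Nat.card_eq_fintype_card]
  have h3 : classInner (fun x => θ₁ x * θ₂ x) (fun x => θ₁ x * θ₂ x) =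
      (Nat.card X : ℂ)⁻¹ * ((∑ p : P, θ₁ p * conj (θ₁ p)) * ∑ q : Q, θ₂ q * conj (θ₂ q)) := by
    rw [classInner, sum_complement hc, Finset.sum_mul_sum]
    simp only [hv₁, hv₂, map_mul]
    congr 1
    refine Finset.sum_congr rfl fun p _ => Finset.sum_congr rfl fun q _ => ?_
    ring
  rw [irr_inner_self h₁, hcard] at h1
  rw [irr_inner_self h₂, hcard] at h2
  rw [h3, hcard]
  generalize (∑ p : P, θ₁ p * conj (θ₁ p)) = s₁ at *
  generalize (∑ q : Q, θ₂ q * conj (θ₂ q)) = s₂ at *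
  have h4 : s₁ = (Nat.card P : ℂ) := by
    field_simp at h1
    exact h1.symm
  have h5 : s₂ = (Nat.card Q : ℂ) := by
    field_simp at h2
    exact h2.symm
  rw [h4, h5]
  field_simp

/-- The first factor of a product is determined. -/
theorem prod_left_eq (hc : P.IsComplement' Q) {θ₁ θ₂ θ₁' θ₂' : X → ℂ} (h₁ : IsIrrCharacter X θ₁)
    (h₁' : IsIrrCharacter X θ₁') (h₂ : IsIrrCharacter X θ₂) (h₂' : IsIrrCharacter X θ₂')
    (hk₁ : ∀ q ∈ Q, θ₁ q = θ₁ 1) (hk₁' : ∀ q ∈ Q, θ₁' q = θ₁' 1) (hk₂ : ∀ p ∈ P, θ₂ p = θ₂ 1)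
    (hk₂' : ∀ p ∈ P, θ₂' p = θ₂' 1) (h : ∀ x, θ₁ x * θ₂ x = θ₁' x * θ₂' x) : θ₁ = θ₁' := by
  classical
  by_contra hne
  have hv : ∀ x, θ₂ 1 * θ₁ x = θ₂' 1 * θ₁' x := by
    intro x
    obtain ⟨⟨p, q⟩, rfl⟩ := hc.2 x
    have e1 : θ₁ ((p : X) * (q : X)) = θ₁ p := by
      rw [complement_comm hc p.2 q.2]
      exact Cfsg.Agent.Lib.CharKernel.apply_mul_of_ker Q (IsIrrCharacter.isCharacter' h₁) hk₁ q.2 p
    have e2 : θ₁' ((p : X) * (q : X)) = θ₁' p := by
      rw [complement_comm hc p.2 q.2]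
      exact Cfsg.Agent.Lib.CharKernel.apply_mul_of_ker Q (IsIrrCharacter.isCharacter' h₁') hk₁' q.2 p
    show θ₂ 1 * θ₁ ((p : X) * (q : X)) = θ₂' 1 * θ₁' ((p : X) * (q : X))
    rw [e1, e2]
    have h3 := h p
    rw [hk₂ p p.2, hk₂' p p.2] at h3
    rw [mul_comm, h3, mul_comm]
  have hf : (θ₂ 1) • θ₁ = (θ₂' 1) • θ₁' := by
    funext x
    simpa using hv x
  have h4 := congrArg (fun f => classInner f θ₁') hf
  simp only [classInner_smul_left, irr_inner_ne h₁ h₁' hne, irr_inner_self h₁'] at h4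
  simp only [mul_zero, mul_one] at h4
  exact degree_ne_zero h₂' h4.symm

open Classical in
/-- The product as a map on pairs. -/
noncomputable def prodMap (w : IrrCharacter X × IrrCharacter X) : IrrCharacter X :=
  if h : IsIrrCharacter X (fun x => w.1.1 x * w.2.1 x) then ⟨_, h⟩ else oneIrr X

theorem prodMap_coe (hc : P.IsComplement' Q) {w : IrrCharacter X × IrrCharacter X} (h1 : w.1 ∈ kerSet Q)
    (h2 : w.2 ∈ kerSet P) : (prodMap w).1 = fun x => w.1.1 x * w.2.1 x := by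
  classical
  rw [prodMap, dif_pos (isIrr_prod hc w.1.2 w.2.2 (mem_kerSet.1 h1) (mem_kerSet.1 h2))]

theorem deg_prodMap (hc : P.IsComplement' Q) {w : IrrCharacter X × IrrCharacter X} (h1 : w.1 ∈ kerSet Q)
    (h2 : w.2 ∈ kerSet P) : deg (prodMap w) = deg w.1 * deg w.2 := by
  have h : (((deg (prodMap w) : ℕ)) : ℂ) = ((deg w.1 * deg w.2 : ℕ) : ℂ) := by
    rw [← apply_one_eq_deg, prodMap_coe hc h1 h2]
    push_cast
    rw [← apply_one_eq_deg, ← apply_one_eq_deg]
  exact_mod_cast h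

theorem prodMap_injOn (hc : P.IsComplement' Q) :
    Set.InjOn (prodMap (X := X)) (↑(kerSet Q ×ˢ kerSet P) : Set (IrrCharacter X × IrrCharacter X)) := by
  intro w hw w' hw' h
  have hw1 := Finset.mem_product.1 hw
  have hw2 := Finset.mem_product.1 hw'
  have h1 := congrArg Subtype.val h
  rw [prodMap_coe hc hw1.1 hw1.2, prodMap_coe hc hw2.1 hw2.2] at h1
  have h2 : ∀ x, w.1.1 x * w.2.1 x = w'.1.1 x * w'.2.1 x := fun x => congrFun h1 x
  have e1 : w.1.1 = w'.1.1 := prod_left_eq hc w.1.2 w'.1.2 w.2.2 w'.2.2 (mem_kerSet.1 hw1.1)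
    (mem_kerSet.1 hw2.1) (mem_kerSet.1 hw1.2) (mem_kerSet.1 hw2.2) h2
  have e2 : w.2.1 = w'.2.1 := prod_left_eq hc.symm w.2.2 w'.2.2 w.1.2 w'.1.2 (mem_kerSet.1 hw1.2)
    (mem_kerSet.1 hw2.2) (mem_kerSet.1 hw1.1) (mem_kerSet.1 hw2.1) fun x => by
      rw [mul_comm, h2 x, mul_comm]
  exact Prod.ext (Subtype.ext e1) (Subtype.ext e2)

theorem sum_prodMap (hc : P.IsComplement' Q) (A B : Finset (IrrCharacter X)) (hA : A ⊆ kerSet Q)
    (hB : B ⊆ kerSet P) : ∑ w ∈ A ×ˢ B, deg (prodMap w) ^ 2 = (∑ a ∈ A, deg a ^ 2) * ∑ b ∈ B, deg b ^ 2 := by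
  rw [Finset.sum_mul_sum, Finset.sum_product]
  refine Finset.sum_congr rfl fun a ha => Finset.sum_congr rfl fun b hb => ?_
  rw [deg_prodMap hc (w := (a, b)) (hA ha) (hB hb), mul_pow]

/-- Every irreducible character is a product. -/
theorem exists_prod (hc : P.IsComplement' Q) (θ₀ : IrrCharacter X) :
    ∃ w ∈ kerSet Q ×ˢ kerSet P, prodMap w = θ₀ := by
  classical
  by_contra hcon
  push Not at hcon
  have h1 : ∑ θ ∈ (kerSet Q ×ˢ kerSet P).image prodMap, deg θ ^ 2 = Nat.card X := by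
    rw [Finset.sum_image (prodMap_injOn hc), sum_prodMap hc _ _ (Finset.Subset.refl _) (Finset.Subset.refl _),
      sum_deg_kerSet, sum_deg_kerSet, hc.index_eq_card, hc.symm.index_eq_card, hc.card_mul]
  have h2 : θ₀ ∉ (kerSet Q ×ˢ kerSet P).image prodMap := by
    intro h
    obtain ⟨w, hw, hw2⟩ := Finset.mem_image.1 h
    exact hcon w hw hw2
  have h3 : ∑ θ ∈ insert θ₀ ((kerSet Q ×ˢ kerSet P).image prodMap), deg θ ^ 2 ≤ ∑ θ : IrrCharacter X, deg θ ^ 2 :=
    Finset.sum_le_sum_of_subset (Finset.subset_univ _)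
  rw [Finset.sum_insert h2, h1, sum_deg_sq] at h3
  have h4 := pow_pos (deg_pos θ₀) 2
  omega

/-- The bound on the sum of the squared degrees below a given degree for a direct product. -/
theorem sum_bound (hc : P.IsComplement' Q) {p m : ℕ} (hp : p.Prime) (hQ : Q.index = p ^ m)
    (hcop : Nat.Coprime p P.index) (e : ℕ) (hQc : e + 1 ≤ (commutator X ⊔ Q).index)
    (hPc : e + 1 ≤ (commutator X ⊔ P).index) (θ₀ : IrrCharacter X) (hp0 : p ∣ deg θ₀) :
    2 * e * deg θ₀ + 1 <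
      ∑ θ ∈ (Finset.univ : Finset (IrrCharacter X)).filter (fun θ => deg θ < deg θ₀), deg θ ^ 2 := by
  classical
  obtain ⟨w₀, hw₀, rfl⟩ := exists_prod hc θ₀
  obtain ⟨hw₁, hw₂⟩ := Finset.mem_product.1 hw₀
  obtain ⟨θ₁, θ₂⟩ := w₀
  simp only at hw₁ hw₂
  rw [deg_prodMap hc (w := (θ₁, θ₂)) hw₁ hw₂] at hp0 ⊢
  simp only at hp0 ⊢
  obtain ⟨x, hx⟩ : ∃ x, x = deg θ₁ := ⟨_, rfl⟩
  obtain ⟨y, hy⟩ : ∃ y, y = deg θ₂ := ⟨_, rfl⟩
  rw [← hx, ← hy] at hp0 ⊢
  have hy0 : 0 < y := hy ▸ deg_pos θ₂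
  have hydvd : y ∣ P.index := by
    rw [hy, ← Cfsg.Agent.Lib.H7Char.charDegree_eq_deg]
    exact Cfsg.Agent.Lib.CharInflate.deg_dvd_index P θ₂ (mem_kerSet.1 hw₂)
  have hpx : p ∣ x := by
    rcases (Nat.Prime.dvd_mul hp).1 hp0 with h | h
    · exact h
    · have h1 := hcop.eq_one_of_dvd (h.trans hydvd)
      exact absurd h1 hp.one_lt.ne'
  have hx2 : 2 ≤ x := by
    have hx0 : 0 < x := hx ▸ deg_pos θ₁
    exact hp.two_le.trans (Nat.le_of_dvd hx0 hpx)
  -- the four sets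
  let A₁ := (kerSet Q).filter (fun θ => deg θ < x)
  let A₂ := (kerSet Q).filter (fun θ => deg θ = x)
  let B₁ := (kerSet P).filter (fun θ => deg θ < y)
  let B₂ := (kerSet P).filter (fun θ => deg θ ≤ y)
  have hA₁ : A₁ ⊆ kerSet Q := Finset.filter_subset _ _
  have hA₂ : A₂ ⊆ kerSet Q := Finset.filter_subset _ _
  have hB₁ : B₁ ⊆ kerSet P := Finset.filter_subset _ _
  have hB₂ : B₂ ⊆ kerSet P := Finset.filter_subset _ _
  -- the lower bounds
  have hlin : ∀ (M : Subgroup X) [M.Normal] (T : Finset (IrrCharacter X)),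
      (∀ θ ∈ kerSet (commutator X ⊔ M), θ ∈ T) → (commutator X ⊔ M).index ≤ ∑ θ ∈ T, deg θ ^ 2 := by
    intro M _ T hT
    rw [← sum_deg_kerSet (commutator X ⊔ M)]
    exact Finset.sum_le_sum_of_subset hT
  have hlin1 : ∀ (M : Subgroup X) {θ : IrrCharacter X}, θ ∈ kerSet (commutator X ⊔ M) →
      θ ∈ kerSet M ∧ deg θ = 1 := by
    intro M θ hθ
    have h1 := mem_kerSet.1 hθ
    exact ⟨mem_kerSet.2 fun m hm => h1 m (Subgroup.mem_sup_right hm),
      deg_eq_one_of_comm le_sup_left h1⟩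
  have ha₁x : x ^ 2 ≤ ∑ θ ∈ A₁, deg θ ^ 2 := by
    have h1 := sq_le_sum_lt Q hp hQ θ₁ hw₁ (by rw [← hx]; omega)
    rw [← hx] at h1
    exact h1
  have ha₁e : e + 1 ≤ ∑ θ ∈ A₁, deg θ ^ 2 := by
    refine hQc.trans (hlin Q A₁ fun θ hθ => ?_)
    obtain ⟨h1, h2⟩ := hlin1 Q hθ
    exact Finset.mem_filter.2 ⟨h1, by omega⟩
  have ha₂x : x ^ 2 ≤ ∑ θ ∈ A₂, deg θ ^ 2 := by
    have h1 : θ₁ ∈ A₂ := Finset.mem_filter.2 ⟨hw₁, hx.symm⟩
    have h2 := Finset.single_le_sum (f := fun θ : IrrCharacter X => deg θ ^ 2) (fun _ _ => Nat.zero_le _) h1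
    simpa [← hx] using h2
  have hb₂e : e + 1 ≤ ∑ θ ∈ B₂, deg θ ^ 2 := by
    refine hPc.trans (hlin P B₂ fun θ hθ => ?_)
    obtain ⟨h1, h2⟩ := hlin1 P hθ
    exact Finset.mem_filter.2 ⟨h1, by omega⟩
  -- the total
  have hdisj : Disjoint (A₁ ×ˢ B₂) (A₂ ×ˢ B₁) := by
    rw [Finset.disjoint_left]
    intro w h1 h2
    have h3 := (Finset.mem_filter.1 (Finset.mem_product.1 h1).1).2
    have h4 := (Finset.mem_filter.1 (Finset.mem_product.1 h2).1).2
    omega
  have hsub : (A₁ ×ˢ B₂) ∪ (A₂ ×ˢ B₁) ⊆ kerSet Q ×ˢ kerSet P := by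
    intro w hw
    rcases Finset.mem_union.1 hw with h | h
    · exact Finset.mem_product.2 ⟨hA₁ (Finset.mem_product.1 h).1, hB₂ (Finset.mem_product.1 h).2⟩
    · exact Finset.mem_product.2 ⟨hA₂ (Finset.mem_product.1 h).1, hB₁ (Finset.mem_product.1 h).2⟩
  have himg : ((A₁ ×ˢ B₂) ∪ (A₂ ×ˢ B₁)).image prodMap ⊆
      (Finset.univ : Finset (IrrCharacter X)).filter (fun θ => deg θ < x * y) := by
    intro θ hθ
    obtain ⟨w, hw, rfl⟩ := Finset.mem_image.1 hθ
    have hw' := Finset.mem_product.1 (hsub hw)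
    refine Finset.mem_filter.2 ⟨Finset.mem_univ _, ?_⟩
    rw [deg_prodMap hc hw'.1 hw'.2]
    rcases Finset.mem_union.1 hw with h | h
    · have h1 := (Finset.mem_filter.1 (Finset.mem_product.1 h).1).2
      have h2 := (Finset.mem_filter.1 (Finset.mem_product.1 h).2).2
      calc deg w.1 * deg w.2 < x * deg w.2 := Nat.mul_lt_mul_of_pos_right h1 (deg_pos _)
        _ ≤ x * y := Nat.mul_le_mul_left _ h2
    · have h1 := (Finset.mem_filter.1 (Finset.mem_product.1 h).1).2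
      have h2 := (Finset.mem_filter.1 (Finset.mem_product.1 h).2).2
      rw [h1]
      exact Nat.mul_lt_mul_of_pos_left h2 (by omega)
  have htotal : (∑ θ ∈ A₁, deg θ ^ 2) * (∑ θ ∈ B₂, deg θ ^ 2) + (∑ θ ∈ A₂, deg θ ^ 2) * (∑ θ ∈ B₁, deg θ ^ 2) ≤
      ∑ θ ∈ (Finset.univ : Finset (IrrCharacter X)).filter (fun θ => deg θ < x * y), deg θ ^ 2 := by
    rw [← sum_prodMap hc A₁ B₂ hA₁ hB₂, ← sum_prodMap hc A₂ B₁ hA₂ hB₁, ← Finset.sum_union hdisj,
      ← Finset.sum_image (f := fun θ : IrrCharacter X => deg θ ^ 2) ((prodMap_injOn hc).mono (by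
        intro w hw
        exact hsub hw))]
    exact Finset.sum_le_sum_of_subset himg
  refine lt_of_lt_of_le ?_ htotal
  generalize (∑ θ ∈ A₁, deg θ ^ 2) = a₁ at *
  generalize (∑ θ ∈ A₂, deg θ ^ 2) = a₂ at *
  by_cases hy1 : y = 1
  · subst hy1
    have h1 : x ^ 2 * (e + 1) ≤ a₁ * ∑ θ ∈ B₂, deg θ ^ 2 := Nat.mul_le_mul ha₁x hb₂e
    have h2 : 2 * e * (x * 1) + 1 < x ^ 2 * (e + 1) := by
      have h7 : 2 * (x * (e + 1)) ≤ x * (x * (e + 1)) := Nat.mul_le_mul_right _ hx2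
      have h8 : x ^ 2 * (e + 1) = x * (x * (e + 1)) := by ring
      have h9 : 2 * (x * (e + 1)) = 2 * e * (x * 1) + 2 * x := by ring
      omega
    have h3 : 0 ≤ a₂ * ∑ θ ∈ B₁, deg θ ^ 2 := Nat.zero_le _
    omega
  · have hy2 : 1 < y := by omega
    have hb₁e : e + 1 ≤ ∑ θ ∈ B₁, deg θ ^ 2 := by
      refine hPc.trans (hlin P B₁ fun θ hθ => ?_)
      obtain ⟨h1, h2⟩ := hlin1 P hθ
      exact Finset.mem_filter.2 ⟨h1, by omega⟩
    have hb₂y : (∑ θ ∈ B₁, deg θ ^ 2) + y ^ 2 ≤ ∑ θ ∈ B₂, deg θ ^ 2 := by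
      have h1 : θ₂ ∉ B₁ := fun h => by
        have := (Finset.mem_filter.1 h).2
        omega
      have h2 : insert θ₂ B₁ ⊆ B₂ := by
        intro θ hθ
        rcases Finset.mem_insert.1 hθ with rfl | hθ
        · exact Finset.mem_filter.2 ⟨hw₂, hy.symm.le⟩
        · have h3 := Finset.mem_filter.1 hθ
          exact Finset.mem_filter.2 ⟨h3.1, h3.2.le⟩
      have h3 := Finset.sum_le_sum_of_subset (f := fun θ : IrrCharacter X => deg θ ^ 2) h2
      rw [Finset.sum_insert h1, ← hy] at h3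
      omega
    generalize (∑ θ ∈ B₁, deg θ ^ 2) = b₁ at *
    generalize (∑ θ ∈ B₂, deg θ ^ 2) = b₂ at *
    have h1 : (e + 1) * (b₁ + y ^ 2) ≤ a₁ * b₂ := Nat.mul_le_mul ha₁e hb₂y
    have h2 : x ^ 2 * b₁ ≤ a₂ * b₁ := Nat.mul_le_mul_right _ ha₂x
    have h3 : x ^ 2 * (e + 1) ≤ x ^ 2 * b₁ := Nat.mul_le_mul_left _ hb₁e
    have h4 : (e + 1) * (e + 1) ≤ (e + 1) * b₁ := Nat.mul_le_mul_left _ hb₁e
    have h5 : 2 * (x * y) ≤ x ^ 2 + y ^ 2 := by
      nlinarith [sq_nonneg ((x : ℤ) - y), two_mul_le_add_sq x y]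
    have h6 : 0 < x * y := by positivity
    nlinarith

/-- The bound for a group of prime power order with a large commutator quotient. -/
theorem sum_bound_pp {p m : ℕ} (hp : p.Prime) (hX : Nat.card X = p ^ m) (e : ℕ)
    (hc : 4 * e ^ 2 + 1 < (commutator X).index) (θ₀ : IrrCharacter X) (h1 : 1 < deg θ₀) :
    2 * e * deg θ₀ + 1 <
      ∑ θ ∈ (Finset.univ : Finset (IrrCharacter X)).filter (fun θ => deg θ < deg θ₀), deg θ ^ 2 := by
  classical
  have hsub : (kerSet (⊥ : Subgroup X)).filter (fun θ => deg θ < deg θ₀) ⊆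
      (Finset.univ : Finset (IrrCharacter X)).filter (fun θ => deg θ < deg θ₀) := by
    intro θ hθ
    exact Finset.mem_filter.2 ⟨Finset.mem_univ _, (Finset.mem_filter.1 hθ).2⟩
  have h2 : deg θ₀ ^ 2 ≤ ∑ θ ∈ (Finset.univ : Finset (IrrCharacter X)).filter (fun θ => deg θ < deg θ₀), deg θ ^ 2 := by
    refine le_trans (sq_le_sum_lt (⊥ : Subgroup X) hp (by rw [Subgroup.index_bot, hX]) θ₀
      (mem_kerSet.2 fun m hm => ?_) h1) (Finset.sum_le_sum_of_subset hsub)
    rw [(Subgroup.mem_bot.1 hm)]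
  have h3 : (commutator X).index ≤ ∑ θ ∈ (Finset.univ : Finset (IrrCharacter X)).filter (fun θ => deg θ < deg θ₀), deg θ ^ 2 := by
    rw [← sum_deg_kerSet (commutator X)]
    refine Finset.sum_le_sum_of_subset fun θ hθ => ?_
    refine Finset.mem_filter.2 ⟨Finset.mem_univ _, ?_⟩
    rw [deg_eq_one_of_comm le_rfl (mem_kerSet.1 hθ)]
    exact h1
  generalize (∑ θ ∈ (Finset.univ : Finset (IrrCharacter X)).filter (fun θ => deg θ < deg θ₀), deg θ ^ 2) = F at *
  generalize deg θ₀ = a at *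
  by_cases ha : a ≤ 2 * e
  · have h4 : 2 * e * a ≤ 2 * e * (2 * e) := Nat.mul_le_mul_left _ ha
    nlinarith
  · have h4 : 2 * e + 1 ≤ a := by omega
    nlinarith

end Product

section Frob

variable {N : Type u} [Group N] [Fintype N] (H : Subgroup N) [hH : H.Normal]

/-- The irreducible characters nontrivial on `H`. -/
def frobS : Set (N → ℂ) := {χ : N → ℂ | IsIrrCharacter N χ ∧ ∃ h ∈ H, χ h ≠ χ 1}

theorem frob_not_fixed (hC : ∀ h ∈ H, h ≠ 1 → Subgroup.centralizer ({h} : Set N) ≤ H) {θ : H → ℂ}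
    (hθ : IsIrrCharacter H θ) (hne : θ ≠ fun _ => 1) {x : N} (hx : x ∉ H) :
    CharNormal.conjFun H θ x ≠ θ := by
  classical
  letI : Fintype H := Fintype.ofFinite _
  intro hfx
  let α : H ≃* H := MulAut.conjNormal x
  have hcard := CharPerm.card_fixed_aut α
  let φ : IrrCharacter H := ⟨θ, hθ⟩
  let one : IrrCharacter H := oneIrr H
  have hone : (one : H → ℂ) ∘ α = (one : H → ℂ) := rfl
  have hφfix : (φ : H → ℂ) ∘ α = (φ : H → ℂ) := hfx
  have hneone : φ ≠ one := fun h => hne (congrArg Subtype.val h)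
  have h2 : 1 < Nat.card {χ : IrrCharacter H // (χ : H → ℂ) ∘ α = (χ : H → ℂ)} := by
    rw [Finite.one_lt_card_iff_nontrivial]
    exact ⟨⟨⟨φ, hφfix⟩, ⟨one, hone⟩, fun h => hneone (congrArg Subtype.val h)⟩⟩
  rw [← hcard, Finite.one_lt_card_iff_nontrivial] at h2
  obtain ⟨⟨c, hc⟩, hc1⟩ : ∃ c : {C : ConjClasses H // ConjClasses.map α.toMonoidHom C = C},
      c.1 ≠ ConjClasses.mk 1 := by
    by_contra hall
    push Not at hall
    obtain ⟨a, b, hab⟩ := h2
    exact hab (Subtype.ext ((hall a).trans (hall b).symm))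
  obtain ⟨n, rfl⟩ := ConjClasses.exists_rep c
  have hn1 : n ≠ 1 := fun h => hc1 (by show ConjClasses.mk n = _; rw [h])
  have h3 : IsConj (α n) n := ConjClasses.mk_eq_mk_iff_isConj.mp hc
  obtain ⟨m, hm⟩ := isConj_iff.mp h3
  have h4 : (m : N) * (x * n * x⁻¹) * (m : N)⁻¹ = n := congrArg Subtype.val hm
  have h5 : (m : N) * x ∈ Subgroup.centralizer ({(n : N)} : Set N) := by
    rw [Subgroup.mem_centralizer_singleton_iff]
    calc (m : N) * x * n = ((m : N) * (x * n * x⁻¹) * (m : N)⁻¹) * ((m : N) * x) := by group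
      _ = n * ((m : N) * x) := by rw [h4]
  have h6 := hC n n.2 (fun h => hn1 (Subtype.ext h)) h5
  apply hx
  have h7 := H.mul_mem (H.inv_mem m.2) h6
  simpa using h7

theorem frob_irr_ind (hC : ∀ h ∈ H, h ≠ 1 → Subgroup.centralizer ({h} : Set N) ≤ H) {θ : H → ℂ}
    (hθ : IsIrrCharacter H θ) (hne : θ ≠ fun _ => 1) : IsIrrCharacter N (indFun H θ) := by
  classical
  letI : Fintype H := Fintype.ofFinite _
  have hset : ∀ g : N, (∀ h : H, θ ⟨g * h * g⁻¹, hH.conj_mem h h.2 g⟩ = θ h) ↔ g ∈ H := by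
    intro g
    constructor
    · intro h
      by_contra hg
      apply frob_not_fixed H hC hθ hne hg
      funext n
      exact h n
    · intro hg h
      exact congrFun (CharNormal.conjFun_of_mem H
        (IsCharacter.isClassFunction' (IsIrrCharacter.isCharacter' hθ)) ⟨g, hg⟩) h
  have hnorm := CharNormal.card_mul_norm_ind H hθ
  have hcard2 : Nat.card {g : N // ∀ h : H, θ ⟨g * h * g⁻¹, hH.conj_mem h h.2 g⟩ = θ h} = Nat.card H :=
    Nat.card_congr (Equiv.subtypeEquivRight hset)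
  rw [hcard2] at hnorm
  have hK : (Nat.card H : ℂ) ≠ 0 := by exact_mod_cast Nat.card_pos.ne'
  have hone : classInner (indFun H θ) (indFun H θ) = 1 := by
    apply mul_left_cancel₀ hK
    rw [hnorm, mul_one]
  exact isIrr_of_norm_one (isCharacter_indFun H (IsIrrCharacter.isCharacter' hθ)) hone

omit hH in
theorem eq_one_of_triv {X : Type u} [Group X] [Fintype X] {θ : X → ℂ} (hθ : IsIrrCharacter X θ)
    (h : ∀ x, θ x = θ 1) : θ = fun _ => 1 := by
  have h1 := Cfsg.Agent.Lib.CharLinear.degree_one_of_comm hθ (fun x y => h _)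
  funext x
  rw [h x, h1]

theorem ind_mem_frobS (hC : ∀ h ∈ H, h ≠ 1 → Subgroup.centralizer ({h} : Set N) ≤ H) {θ : H → ℂ}
    (hθ : IsIrrCharacter H θ) (hne : θ ≠ fun _ => 1) : indFun H θ ∈ frobS H := by
  letI : Fintype H := Fintype.ofFinite _
  refine ⟨frob_irr_ind H hC hθ hne, ?_⟩
  by_contra hcon
  push Not at hcon
  apply hne
  apply eq_one_of_triv hθ
  intro x
  exact triv_of_ind hθ (hcon x x.2)

theorem frobS_shape (hC : ∀ h ∈ H, h ≠ 1 → Subgroup.centralizer ({h} : Set N) ≤ H) {χ : N → ℂ}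
    (hχ : χ ∈ frobS H) : ∃ θ : H → ℂ, IsIrrCharacter H θ ∧ θ ≠ (fun _ => 1) ∧ χ = indFun H θ := by
  obtain ⟨h1, h2⟩ := hχ
  obtain ⟨φ, hφ, rfl⟩ := Cfsg.Agent.S1528.result H hC χ h1 h2
  refine ⟨φ, hφ, ?_, rfl⟩
  rintro rfl
  obtain ⟨n, hn, hne⟩ := h2
  exact hne (ind_triv (Z := H) hn hn (fun a _ => rfl))

/-- The degrees of the constituents of a fixed irreducible character add up to at most its degree. -/
theorem fiber_le [Fintype H] {χ : N → ℂ} (hχ : IsIrrCharacter N χ) (B : Finset (IrrCharacter H))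
    (hB : ∀ θ ∈ B, indFun H θ.1 = χ) : ∑ θ ∈ B, deg θ ≤ degN χ := by
  classical
  have hres := isCharacter_restrict H (IsIrrCharacter.isCharacter' hχ)
  have hexp := classFunction_expand (IsCharacter.isClassFunction' hres)
  have hnat : ∀ θ : IrrCharacter H, ∃ n : ℕ, classInner (fun h : H => χ h) θ.1 = n := fun θ =>
    exists_nat_classInner hres (IsIrrCharacter.isCharacter' θ.2)
  choose n hn using hnat
  have h1 : χ 1 = ∑ θ : IrrCharacter H, (n θ : ℂ) * (deg θ : ℂ) := by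
    have h2 := congrFun hexp 1
    simp only [Finset.sum_apply, Pi.smul_apply, smul_eq_mul, hn, apply_one_eq_deg] at h2
    simpa using h2
  have h2 : χ 1 = ((∑ θ : IrrCharacter H, n θ * deg θ : ℕ) : ℂ) := by
    rw [h1]
    push_cast
    rfl
  rw [degN_eq h2]
  have hB1 : ∀ θ ∈ B, n θ = 1 := by
    intro θ hθ
    have h3 : classInner (fun h : H => χ h) θ.1 = 1 := by
      rw [← classInner_conj, ← frobenius_reciprocity H θ.1
        (IsCharacter.isClassFunction' (IsIrrCharacter.isCharacter' hχ)), hB θ hθ, irr_inner_self hχ, map_one]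
    have h4 := hn θ
    rw [h3] at h4
    exact_mod_cast h4.symm
  calc ∑ θ ∈ B, deg θ = ∑ θ ∈ B, n θ * deg θ :=
        Finset.sum_congr rfl fun θ hθ => by rw [hB1 θ hθ, one_mul]
    _ ≤ ∑ θ : IrrCharacter H, n θ * deg θ := Finset.sum_le_sum_of_subset (Finset.subset_univ _)

theorem degN_ind [Fintype H] (θ : IrrCharacter H) : degN (indFun H θ.1) = H.index * deg θ :=
  degN_eq (by
    rw [indFun_one, apply_one_eq_deg]
    push_cast
    rfl)

open Classical in
/-- The sum of the squared degrees of the characters of `H` is controlled by those of `N`. -/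
theorem frob_sum_le [Fintype H] (hC : ∀ h ∈ H, h ≠ 1 → Subgroup.centralizer ({h} : Set N) ≤ H)
    (F : Finset (N → ℂ)) (hF : ∀ φ, φ ∈ F ↔ φ ∈ frobS H) (t : ℕ) :
    H.index * ∑ θ ∈ (Finset.univ : Finset (IrrCharacter H)).filter
        (fun θ : IrrCharacter H => θ.1 ≠ (fun _ => 1) ∧ deg θ ≤ t), deg θ ^ 2 ≤
      ∑ χ ∈ F.filter (fun χ => degN χ ≤ H.index * t), degN χ ^ 2 := by
  let g : IrrCharacter H → (N → ℂ) := fun θ => indFun H θ.1
  have hmaps : ∀ θ ∈ (Finset.univ : Finset (IrrCharacter H)).filter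
      (fun θ : IrrCharacter H => θ.1 ≠ (fun _ => 1) ∧ deg θ ≤ t),
      g θ ∈ F.filter (fun χ => degN χ ≤ H.index * t) := by
    intro θ hθ
    obtain ⟨h1, h2⟩ := (Finset.mem_filter.1 hθ).2
    refine Finset.mem_filter.2 ⟨(hF _).2 (ind_mem_frobS H hC θ.2 h1), ?_⟩
    show degN (indFun H θ.1) ≤ _
    rw [degN_ind]
    exact Nat.mul_le_mul_left _ h2
  have h1 : H.index * ∑ θ ∈ (Finset.univ : Finset (IrrCharacter H)).filter
        (fun θ : IrrCharacter H => θ.1 ≠ (fun _ => 1) ∧ deg θ ≤ t), deg θ ^ 2 =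
      ∑ θ ∈ (Finset.univ : Finset (IrrCharacter H)).filter
        (fun θ : IrrCharacter H => θ.1 ≠ (fun _ => 1) ∧ deg θ ≤ t), degN (g θ) * deg θ := by
    rw [Finset.mul_sum]
    refine Finset.sum_congr rfl fun θ _ => ?_
    show _ = degN (indFun H θ.1) * deg θ
    rw [degN_ind]
    ring
  rw [h1, ← Finset.sum_fiberwise_of_maps_to hmaps]
  refine Finset.sum_le_sum fun χ hχ => ?_
  have hχS : χ ∈ frobS H := (hF χ).1 (Finset.mem_filter.1 hχ).1
  have h3 : ∑ θ ∈ ((Finset.univ : Finset (IrrCharacter H)).filter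
        (fun θ : IrrCharacter H => θ.1 ≠ (fun _ => 1) ∧ deg θ ≤ t)).filter (fun θ => g θ = χ), degN (g θ) * deg θ =
      degN χ * ∑ θ ∈ ((Finset.univ : Finset (IrrCharacter H)).filter
        (fun θ : IrrCharacter H => θ.1 ≠ (fun _ => 1) ∧ deg θ ≤ t)).filter (fun θ => g θ = χ), deg θ := by
    rw [Finset.mul_sum]
    refine Finset.sum_congr rfl fun θ hθ => ?_
    rw [(Finset.mem_filter.1 hθ).2]
  rw [h3, pow_two]
  exact Nat.mul_le_mul_left _ (fiber_le H hχS.1 _ fun θ hθ => (Finset.mem_filter.1 hθ).2)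

open Classical in
/-- The chain of coherent parts for a Frobenius group. -/
theorem coherent_frob_chain {G : Type v} [Group G] [Fintype G] [Fintype H]
    (hC : ∀ h ∈ H, h ≠ 1 → Subgroup.centralizer ({h} : Set N) ≤ H) (τ : (N → ℂ) → (G → ℂ))
    (hτ : IsLinearIsometryOn (zspanOn (frobS H) {1}ᶜ) τ)
    (hτ1 : ∀ α ∈ zspanOn (frobS H) {1}ᶜ, τ α 1 = 0)
    (hbd : ∀ θ₀ : IrrCharacter H, 1 < deg θ₀ → 2 * H.index * deg θ₀ + 1 <
      ∑ θ ∈ (Finset.univ : Finset (IrrCharacter H)).filter (fun θ => deg θ < deg θ₀), deg θ ^ 2)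
    (hcne : (commutator H).index ≠ H.index + 1) (hcdvd : H.index ∣ (commutator H).index - 1)
    (hc1 : 1 < (commutator H).index) : IsCoherent (frobS H) {1}ᶜ τ := by
  have hirr : ∀ ξ ∈ frobS H, IsIrrCharacter N ξ := fun ξ h => h.1
  have hort : ∀ a ∈ frobS H, ∀ b ∈ frobS H, a ≠ b → classInner a b = 0 := fun a ha b hb h =>
    irr_inner_ne ha.1 hb.1 h
  have hnz : ∀ a ∈ frobS H, a ≠ 0 := fun a ha h0 => by
    have h1 := degree_ne_zero ha.1
    rw [h0] at h1
    exact h1 rfl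
  have hfin : (frobS H).Finite := finite_of_orthogonal _ hort hnz
  obtain ⟨F, hFdef⟩ : ∃ F, F = hfin.toFinset := ⟨_, rfl⟩
  have hF : ∀ φ, φ ∈ F ↔ φ ∈ frobS H := fun φ => by
    rw [hFdef]
    exact hfin.mem_toFinset
  have he : 0 < H.index := Nat.pos_of_ne_zero Subgroup.index_ne_zero_of_finite
  have hd : ∀ φ ∈ frobS H, φ 1 = (degN φ : ℂ) := by
    intro φ hφ
    obtain ⟨n, hn⟩ := exists_degree (IsIrrCharacter.isCharacter' hφ.1)
    rw [degN_eq hn, hn]
  have hFshape : ∀ φ ∈ F, ∃ θ : IrrCharacter H, θ.1 ≠ (fun _ => 1) ∧ φ = indFun H θ.1 := by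
    intro φ hφ
    obtain ⟨θ, h1, h2, h3⟩ := frobS_shape H hC ((hF φ).1 hφ)
    exact ⟨⟨θ, h1⟩, h2, h3⟩
  let XF : ℕ → Finset (N → ℂ) := fun t => F.filter (fun φ => degN φ ≤ H.index * t)
  have hXFS : ∀ t, (↑(XF t) : Set (N → ℂ)) ⊆ frobS H := fun t φ hφ =>
    (hF φ).1 (Finset.mem_filter.1 hφ).1
  have hX1 : ∀ φ ∈ XF 1, degN φ = H.index := by
    intro φ hφ
    obtain ⟨h1, h2⟩ := Finset.mem_filter.1 hφ
    obtain ⟨θ, -, rfl⟩ := hFshape φ h1
    rw [degN_ind] at h2 ⊢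
    have h3 : deg θ ≤ 1 := Nat.le_of_mul_le_mul_left (by simpa using h2) he
    have h4 := deg_pos θ
    have h5 : deg θ = 1 := by omega
    rw [h5, mul_one]
  have hlow : H.index * ((commutator H).index - 1) ≤ ∑ χ ∈ XF 1, degN χ ^ 2 := by
    refine le_trans (Nat.mul_le_mul_left _ ?_) (frob_sum_le H hC F hF 1)
    have h1 := sum_deg_kerSet (commutator H)
    have hone : oneIrr H ∈ kerSet (commutator H) := mem_kerSet.2 fun _ _ => rfl
    have h2 := Finset.add_sum_erase (kerSet (commutator H)) (fun θ : IrrCharacter H => deg θ ^ 2) hone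
    rw [h1, deg_oneIrr] at h2
    have h3 : (commutator H).index - 1 = ∑ θ ∈ (kerSet (commutator H)).erase (oneIrr H), deg θ ^ 2 := by
      omega
    rw [h3]
    refine Finset.sum_le_sum_of_subset fun θ hθ => ?_
    obtain ⟨h4, h5⟩ := Finset.mem_erase.1 hθ
    refine Finset.mem_filter.2 ⟨Finset.mem_univ _, fun h6 => h4 (Subtype.ext h6), ?_⟩
    rw [deg_eq_one_of_comm le_rfl (mem_kerSet.1 h5)]
  have hcard : 1 < (XF 1).card := by
    by_contra hcon
    have h1 : (XF 1).card ≤ 1 := not_lt.1 hcon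
    have h2 : ∑ χ ∈ XF 1, degN χ ^ 2 = (XF 1).card * H.index ^ 2 := by
      rw [Finset.sum_congr rfl fun χ hχ => by rw [hX1 χ hχ], Finset.sum_const, smul_eq_mul]
    have h3 : H.index * ((commutator H).index - 1) ≤ H.index * H.index := by
      refine hlow.trans ?_
      rw [h2]
      calc (XF 1).card * H.index ^ 2 ≤ 1 * H.index ^ 2 := Nat.mul_le_mul_right _ h1
        _ = H.index * H.index := by ring
    have h4 : (commutator H).index - 1 ≤ H.index := Nat.le_of_mul_le_mul_left h3 he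
    have h5 : H.index ≤ (commutator H).index - 1 := Nat.le_of_dvd (by omega) hcdvd
    omega
  obtain ⟨ψ₁, hψ₁, ψ₂, hψ₂, hψne⟩ := Finset.one_lt_card.1 hcard
  have hbase : IsCoherent (↑(XF 1) : Set (N → ℂ)) {1}ᶜ τ := by
    refine coherent_irr_equal _ (fun ξ hξ => hirr ξ (hXFS 1 hξ)) τ (iso_mono (zspanOn_subset (hXFS 1)) hτ)
      (fun α hα => hτ1 α (zspanOn_mono (hXFS 1) hα)) ?_ ⟨ψ₁, hψ₁, ψ₂, hψ₂, hψne⟩
    intro φ hφ ψ hψ
    rw [hd φ (hXFS 1 hφ), hd ψ (hXFS 1 hψ), hX1 φ hφ, hX1 ψ hψ]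
  have hcoh : ∀ t, 1 ≤ t → IsCoherent (↑(XF t) : Set (N → ℂ)) {1}ᶜ τ := by
    intro t ht
    induction t, ht using Nat.le_induction with
    | base => exact hbase
    | succ t ht ih =>
      let T : Finset (N → ℂ) := F.filter (fun φ => degN φ = H.index * (t + 1))
      have hU : XF (t + 1) = XF t ∪ T := by
        ext φ
        simp only [XF, T, Finset.mem_filter, Finset.mem_union]
        constructor
        · rintro ⟨h1, h2⟩
          obtain ⟨θ, -, rfl⟩ := hFshape φ h1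
          rw [degN_ind] at h2 ⊢
          have h3 : deg θ ≤ t + 1 := Nat.le_of_mul_le_mul_left h2 he
          rcases Nat.lt_or_ge (deg θ) (t + 1) with h4 | h4
          · exact Or.inl ⟨h1, Nat.mul_le_mul_left _ (by omega)⟩
          · refine Or.inr ⟨h1, ?_⟩
            rw [le_antisymm h3 h4]
        · rintro (⟨h1, h2⟩ | ⟨h1, h2⟩)
          · exact ⟨h1, h2.trans (Nat.mul_le_mul_left _ (by omega))⟩
          · exact ⟨h1, h2.le⟩
      have hψ₁t : ψ₁ ∈ XF t := by
        refine Finset.mem_filter.2 ⟨(Finset.mem_filter.1 hψ₁).1, ?_⟩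
        rw [hX1 ψ₁ hψ₁]
        exact Nat.le_mul_of_pos_right _ ht
      have hTshape : ∀ χ ∈ T, ∃ θ : IrrCharacter H, χ = indFun H θ.1 ∧ deg θ = t + 1 := by
        intro χ hχ
        have h1 := Finset.mem_filter.1 hχ
        obtain ⟨θ, -, rfl⟩ := hFshape χ h1.1
        refine ⟨θ, rfl, ?_⟩
        have h2 := h1.2
        rw [degN_ind] at h2
        exact Nat.eq_of_mul_eq_mul_left he h2
      have hU' : (↑(XF (t + 1)) : Set (N → ℂ)) = ↑(XF t ∪ T) := by rw [hU]
      rw [hU']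
      refine coherent_extend_irr (frobS H) hirr degN hd τ hτ hτ1 T ?_ ψ₁ ?_ _ (XF t) (hXFS t) ih hψ₁t rfl ?_
      · exact fun φ hφ => (hF φ).1 (Finset.mem_filter.1 hφ).1
      · intro χ hχ
        rw [hX1 ψ₁ hψ₁, (Finset.mem_filter.1 hχ).2]
        exact Dvd.intro _ rfl
      · intro χ hχ
        rw [hX1 ψ₁ hψ₁, (Finset.mem_filter.1 hχ).2]
        obtain ⟨ϑ, -, hϑ⟩ := hTshape χ hχ
        have h1 := hbd ϑ (by omega)
        rw [hϑ] at h1
        have h3 := frob_sum_le H hC F hF t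
        let A := (Finset.univ : Finset (IrrCharacter H)).filter
          (fun θ : IrrCharacter H => θ.1 ≠ (fun _ => 1) ∧ deg θ ≤ t)
        have h2 : ∑ θ ∈ (Finset.univ : Finset (IrrCharacter H)).filter (fun θ => deg θ < t + 1), deg θ ^ 2 ≤
            1 + ∑ θ ∈ A, deg θ ^ 2 := by
          have hone : oneIrr H ∉ A := fun h => (Finset.mem_filter.1 h).2.1 rfl
          have h4 : 1 + ∑ θ ∈ A, deg θ ^ 2 = ∑ θ ∈ insert (oneIrr H) A, deg θ ^ 2 := by
            rw [Finset.sum_insert hone, deg_oneIrr]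
            simp
          rw [h4]
          refine Finset.sum_le_sum_of_subset fun θ hθ => ?_
          have h5 := (Finset.mem_filter.1 hθ).2
          by_cases h6 : θ.1 = fun _ => 1
          · exact Finset.mem_insert.2 (Or.inl (Subtype.ext h6))
          · exact Finset.mem_insert_of_mem (Finset.mem_filter.2 ⟨Finset.mem_univ _, h6, by omega⟩)
        have h5 : 2 * H.index * (t + 1) < ∑ θ ∈ A, deg θ ^ 2 := by omega
        have h6 : H.index * (2 * H.index * (t + 1)) < H.index * ∑ θ ∈ A, deg θ ^ 2 :=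
          Nat.mul_lt_mul_of_pos_left h5 he
        have h7 : 2 * H.index * (H.index * (t + 1)) = H.index * (2 * H.index * (t + 1)) := by ring
        rw [h7]
        exact lt_of_lt_of_le h6 h3
  have hlast : XF (1 + Nat.card H) = F := by
    apply Finset.filter_true_of_mem
    intro φ hφ
    obtain ⟨θ, -, rfl⟩ := hFshape φ hφ
    rw [degN_ind]
    refine Nat.mul_le_mul_left _ ?_
    have h1 : deg θ ≤ Nat.card H := Nat.le_of_dvd Nat.card_pos (Cfsg.Agent.Lib.H7Char.deg_dvd_card θ)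
    omega
  have hfinal := hcoh _ (Nat.le_add_right 1 (Nat.card H))
  rw [hlast] at hfinal
  have hcoe : (↑F : Set (N → ℂ)) = frobS H := by
    ext φ
    exact hF φ
  rwa [hcoe] at hfinal

/-- Conjugation by an element outside the kernel has no fixed points on the kernel. -/
theorem frob_fpf (hC : ∀ h ∈ H, h ≠ 1 → Subgroup.centralizer ({h} : Set N) ≤ H) {x : N} (hx : x ∉ H) :
    MonoidHom.FixedPointFree ((MulAut.conjNormal x : H ≃* H).toMonoidHom : H →* H) := by
  intro g hg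
  by_contra h
  apply hx
  have hg' : x * (g : N) * x⁻¹ = g := congrArg Subtype.val hg
  apply hC g g.2 (fun h' => h (Subtype.ext h'))
  rw [Subgroup.mem_centralizer_singleton_iff]
  calc x * (g : N) = x * g * x⁻¹ * x := by group
    _ = g * x := by rw [hg']

omit [Fintype N] in
theorem exists_prime_order (hC : ∀ h ∈ H, h ≠ 1 → Subgroup.centralizer ({h} : Set N) ≤ H) [Finite N] :
    ∀ (m : ℕ) (x : N), orderOf x = m → x ∉ H → ∃ y, y ∉ H ∧ (orderOf y).Prime := by
  intro m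
  induction m using Nat.strong_induction_on with
  | _ m ih =>
    intro x hxm hx
    have hm1 : m ≠ 1 := by
      rintro rfl
      exact hx ((orderOf_eq_one_iff.1 hxm).symm ▸ H.one_mem)
    have hm0 : 0 < m := hxm ▸ orderOf_pos x
    by_cases hprime : m.Prime
    · exact ⟨x, hx, hxm ▸ hprime⟩
    · have hr := Nat.minFac_prime hm1
      have hrd : m.minFac ∣ m := Nat.minFac_dvd m
      have hord : orderOf (x ^ m.minFac) = m / m.minFac := by
        rw [orderOf_pow_of_dvd hr.ne_zero (hxm ▸ hrd), hxm]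
      have hlt : m / m.minFac < m := Nat.div_lt_self hm0 hr.one_lt
      by_cases hz : x ^ m.minFac ∈ H
      · have hz1 : x ^ m.minFac ≠ 1 := fun h => by
          have h1 := orderOf_dvd_of_pow_eq_one h
          rw [hxm] at h1
          have h2 := Nat.dvd_antisymm h1 hrd
          rw [h2] at hprime
          exact hprime hr
        exact absurd (hC _ hz hz1 (Subgroup.mem_centralizer_singleton_iff.2
          ((Commute.refl x).pow_right _))) hx
      · exact ih _ hlt _ hord hz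

/-- The kernel of a Frobenius group is nilpotent. -/
theorem frob_nilpotent (hC : ∀ h ∈ H, h ≠ 1 → Subgroup.centralizer ({h} : Set N) ≤ H) (hH2 : H ≠ ⊤) :
    Group.IsNilpotent H := by
  classical
  obtain ⟨x, hx⟩ : ∃ x, x ∉ H := by
    by_contra h
    push Not at h
    exact hH2 (eq_top_iff.2 fun x _ => h x)
  obtain ⟨y, hy, hr⟩ := exists_prime_order H hC _ x rfl hx
  let φ : H →* H := (MulAut.conjNormal y : H ≃* H).toMonoidHom
  have hφ : MonoidHom.FixedPointFree φ := frob_fpf H hC hy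
  have hit : ∀ (j : ℕ) (g : H), ((φ^[j] g : H) : N) = y ^ j * g * (y ^ j)⁻¹ := by
    intro j g
    induction j with
    | zero => simp
    | succ j ih =>
      rw [Function.iterate_succ_apply']
      show y * ((φ^[j] g : H) : N) * y⁻¹ = _
      rw [ih, pow_succ']
      group
  exact ThompsonFpf.thompson_aux hr _ H φ rfl hφ (fun g => Subtype.ext (by
    rw [hit]
    simp [pow_orderOf_eq_one]))

/-- Conjugation is without fixed points on every invariant section. -/
theorem frob_hfrob (hC : ∀ h ∈ H, h ≠ 1 → Subgroup.centralizer ({h} : Set N) ≤ H) (H₁ : Subgroup N)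
    [hH₁ : H₁.Normal] : ∀ k ∈ H, k ∉ H₁ → ∀ x : N, x * k * x⁻¹ * k⁻¹ ∈ H₁ → x ∈ H := by
  intro k hk hk1 x hx
  by_contra hxH
  have hφ := frob_fpf H hC hxH
  have hinv : ∀ h ∈ H₁.subgroupOf H, ((MulAut.conjNormal x : H ≃* H).toMonoidHom : H →* H) h ∈ H₁.subgroupOf H :=
    fun h hh => Subgroup.mem_subgroupOf.2 (hH₁.conj_mem _ (Subgroup.mem_subgroupOf.1 hh) x)
  have hq := ThompsonFpf.quot_fpf _ hφ (H₁.subgroupOf H) hinv
  have h1 := hq (QuotientGroup.mk ⟨k, hk⟩) (by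
    show (QuotientGroup.mk (((MulAut.conjNormal x : H ≃* H).toMonoidHom : H →* H) ⟨k, hk⟩) : H ⧸ H₁.subgroupOf H) =
      QuotientGroup.mk ⟨k, hk⟩
    rw [QuotientGroup.eq]
    apply Subgroup.mem_subgroupOf.2
    show (x * k * x⁻¹)⁻¹ * k ∈ H₁
    have h3 := hH₁.conj_mem _ (H₁.inv_mem hx) (x * k * x⁻¹)⁻¹
    have h4 : (x * k * x⁻¹)⁻¹ * (x * k * x⁻¹ * k⁻¹)⁻¹ * ((x * k * x⁻¹)⁻¹)⁻¹ = (x * k * x⁻¹)⁻¹ * k := by
      group
    rwa [h4] at h3)
  exact hk1 (Subgroup.mem_subgroupOf.1 ((QuotientGroup.eq_one_iff _).1 h1))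

omit hH [Fintype N] in
theorem mem_of_coprime_index {X : Type*} [Group X] [Finite X] (M : Subgroup X) [M.Normal] {g : X}
    (h : Nat.Coprime (orderOf g) M.index) : g ∈ M := by
  have h1 : (QuotientGroup.mk g : X ⧸ M) ^ (orderOf g) = 1 := by
    rw [← QuotientGroup.mk_pow, pow_orderOf_eq_one]
    rfl
  have h2 : (QuotientGroup.mk g : X ⧸ M) ^ (M.index) = 1 := pow_card_eq_one'
  have h3 := pow_gcd_eq_one.2 ⟨h1, h2⟩
  rw [h.gcd_eq_one, pow_one] at h3
  exact (QuotientGroup.eq_one_iff g).1 h3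

/-- A normal Hall subgroup of a normal subgroup is normal. -/
theorem hall_map_normal (M : Subgroup H) [M.Normal] (hall : Nat.Coprime (Nat.card M) M.index) :
    (M.map H.subtype).Normal := by
  constructor
  intro n hn x
  obtain ⟨m, hm, rfl⟩ := Subgroup.mem_map.1 hn
  let g : H := ⟨x * (m : N) * x⁻¹, hH.conj_mem _ m.2 x⟩
  have h1 : orderOf g = orderOf m := by
    have h2 : orderOf g = orderOf (g : N) := (Subgroup.orderOf_coe g).symm
    have h3 : orderOf m = orderOf (m : N) := (Subgroup.orderOf_coe m).symm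
    rw [h2, h3]
    exact MulEquiv.orderOf_eq (MulAut.conj x) _
  have h4 : orderOf m ∣ Nat.card M := Subgroup.orderOf_dvd_natCard M hm
  have h5 : g ∈ M := mem_of_coprime_index M (by
    rw [h1]
    exact Nat.Coprime.coprime_dvd_left h4 hall)
  exact Subgroup.mem_map.2 ⟨g, h5, rfl⟩

/-- Congruence for a section of the kernel. -/
theorem section_index (hC : ∀ h ∈ H, h ≠ 1 → Subgroup.centralizer ({h} : Set N) ≤ H)
    (hnil : Group.IsNilpotent H) (M : Subgroup H) [hM : M.Normal]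
    (hall : Nat.Coprime (Nat.card M) M.index) (hne : M ≠ ⊤) :
    H.index ∣ (commutator H ⊔ M).index - 1 ∧ 1 < (commutator H ⊔ M).index := by
  classical
  haveI hM₀ := hall_map_normal H M hall
  let H₁ : Subgroup N := ⁅H, H⁆ ⊔ M.map H.subtype
  haveI : H₁.Normal := Subgroup.sup_normal _ _
  have hM₀H : M.map H.subtype ≤ H := Subgroup.map_subtype_le M
  have hle : H₁ ≤ H := sup_le (Subgroup.commutator_le_left H H) hM₀H
  have heq : commutator H ⊔ M = H₁.subgroupOf H := by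
    apply Subgroup.map_injective H.subtype_injective
    rw [Subgroup.map_sup, Subgroup.map_subgroupOf_eq_of_le hle, commutator_def, Subgroup.map_commutator,
      ← MonoidHom.range_eq_map, Subgroup.range_subtype]
  have h1 := index_dvd_relIndex_sub_one (K := H) (H₁ := H₁) (N := H) hle le_rfl
    (fun x hx y hy => Subgroup.mem_sup_left (Subgroup.commutator_mem_commutator hx hy))
    (frob_hfrob H hC H₁)
  constructor
  · rw [heq]
    exact h1
  · refine lt_of_le_of_ne (Nat.pos_of_ne_zero Subgroup.index_ne_zero_of_finite) fun h => ?_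
    have htop := Subgroup.index_eq_one.1 h.symm
    haveI := hnil
    haveI hnt : Nontrivial (H ⧸ M) := QuotientGroup.nontrivial_iff.2 hne
    let π := QuotientGroup.mk' M
    have hπ : Function.Surjective π := QuotientGroup.mk'_surjective M
    have h2 : commutator (H ⧸ M) = (commutator H).map π := by
      rw [commutator_def, commutator_def, Subgroup.map_commutator, Subgroup.map_top_of_surjective π hπ]
    have h3 : (commutator H ⊔ M).map π = ⊤ := by
      rw [htop, Subgroup.map_top_of_surjective π hπ]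
    rw [Subgroup.map_sup, ← h2, (Subgroup.map_eq_bot_iff _).2 (by rw [QuotientGroup.ker_mk']), sup_bot_eq] at h3
    exact (Group.IsSolvable.commutator_lt_top_of_nontrivial (H ⧸ M)).ne h3

end Frob

section Main

theorem comm_eq_subgroupOf {N : Type*} [Group N] (H : Subgroup N) [H.Normal] : commutator H = ⁅H, H⁆.subgroupOf H := by
  apply Subgroup.map_injective H.subtype_injective
  rw [Subgroup.map_subgroupOf_eq_of_le (Subgroup.commutator_le_left H H), commutator_def,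
    Subgroup.map_commutator, ← MonoidHom.range_eq_map, Subgroup.range_subtype]

theorem le_of_dvd_sub_one {e c : ℕ} (h : e ∣ c - 1) (h1 : 1 < c) : e + 1 ≤ c := by
  have h2 := Nat.le_of_dvd (by omega) h
  omega

variable {N : Type u} [Group N] [Fintype N] {G : Type v} [Group G] [Fintype G]

/-- The coherence theorem for the characters of a Frobenius group nontrivial on the kernel. -/
theorem frobenius_coherence (H : Subgroup N) [hH : H.Normal] (hH1 : H ≠ ⊥) (hH2 : H ≠ ⊤)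
    (hC : ∀ h ∈ H, h ≠ 1 → Subgroup.centralizer ({h} : Set N) ≤ H) (he : Nat.card H ≠ H.index + 1)
    (τ : (N → ℂ) → (G → ℂ)) (hτ : IsLinearIsometryOn (zspanOn (frobS H) {1}ᶜ) τ)
    (hτ1 : ∀ α ∈ zspanOn (frobS H) {1}ᶜ, τ α 1 = 0) :
    IsCoherent (frobS H) {1}ᶜ τ ∨ ∃ p : ℕ, p.Prime ∧ (∃ m : ℕ, Nat.card H = p ^ m) ∧
      ¬ IsMulCommutative H ∧ (⁅H, H⁆.subgroupOf H).index ≤ 4 * H.index ^ 2 + 1 := by
  classical
  letI : Fintype H := Fintype.ofFinite _
  have hnil := frob_nilpotent H hC hH2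
  haveI := hnil
  rw [← comm_eq_subgroupOf]
  have hcardH : Nat.card H ≠ 1 := by
    intro h
    apply hH1
    exact Subgroup.eq_bot_of_card_eq H h
  have hbot : (⊥ : Subgroup H) ≠ ⊤ := by
    intro h
    apply hcardH
    have h1 : Nat.card (⊤ : Subgroup H) = Nat.card H := Subgroup.card_top
    rw [← h1, ← h, Subgroup.card_bot]
  have hs0 := section_index H hC hnil (⊥ : Subgroup H) (by
    rw [Subgroup.card_bot]
    exact Nat.coprime_one_left _) hbot
  rw [sup_bot_eq] at hs0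
  obtain ⟨hcdvd, hc1⟩ := hs0
  by_cases habel : ∀ a b : H, a * b = b * a
  · left
    have hdeg1 : ∀ θ : IrrCharacter H, deg θ = 1 := by
      intro θ
      have h1 : θ.1 1 = 1 := Cfsg.Agent.Lib.CharLinear.degree_one_of_comm θ.2 fun x y => by
        have h2 : x * y * x⁻¹ * y⁻¹ = 1 := by
          rw [habel x y]
          group
        rw [h2]
      have h : (((deg θ : ℕ)) : ℂ) = ((1 : ℕ) : ℂ) := by
        rw [← apply_one_eq_deg, h1]
        simp
      exact_mod_cast h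
    have hcomm : commutator H = ⊥ := by
      rw [commutator_def, Subgroup.commutator_eq_bot_iff_le_centralizer]
      intro x _
      rw [Subgroup.mem_centralizer_iff]
      intro y _
      exact habel y x
    refine coherent_frob_chain H hC τ hτ hτ1 (fun θ₀ h => ?_) ?_ hcdvd hc1
    · rw [hdeg1] at h
      omega
    · rw [hcomm, Subgroup.index_bot]
      exact he
  · by_cases hpp : ∃ p m : ℕ, p.Prime ∧ Nat.card H = p ^ m
    · obtain ⟨p, m, hp, hm⟩ := hpp
      by_cases hbig : 4 * H.index ^ 2 + 1 < (commutator H).index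
      · left
        refine coherent_frob_chain H hC τ hτ hτ1 (fun θ₀ h => sum_bound_pp hp hm H.index hbig θ₀ h) ?_ hcdvd hc1
        intro h
        rw [h] at hbig
        nlinarith
      · right
        refine ⟨p, hp, ⟨m, hm⟩, ?_, not_lt.1 hbig⟩
        intro hcomm
        apply habel
        intro a b
        exact hcomm.is_comm.comm a b
    · left
      have hdata : ∀ p : ℕ, p.Prime → p ∣ Nat.card H → ∃ P Q : Subgroup H, P.Normal ∧ Q.Normal ∧ ∃ k : ℕ,
          P.IsComplement' Q ∧ Q.index = p ^ k ∧ Nat.Coprime p P.index ∧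
          (H.index ∣ (commutator H ⊔ Q).index - 1 ∧ 1 < (commutator H ⊔ Q).index) ∧
          (H.index ∣ (commutator H ⊔ P).index - 1 ∧ 1 < (commutator H ⊔ P).index) := by
        intro p hp hpd
        haveI : Fact p.Prime := ⟨hp⟩
        obtain ⟨P₀, Q, hQn, hcompl⟩ := ThompsonFpf.npc_of_nilpotent (N := H) p
        obtain ⟨k, hk⟩ := IsPGroup.iff_card.1 P₀.isPGroup'
        have hc := hcompl.symm
        have hQi : Q.index = p ^ k := by
          rw [hc.index_eq_card, hk]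
        have hPi : (P₀ : Subgroup H).index = Nat.card Q := hcompl.index_eq_card
        have hcop : Nat.Coprime p (P₀ : Subgroup H).index :=
          (Nat.Prime.coprime_iff_not_dvd hp).2 P₀.not_dvd_index
        have hQ1 : Q ≠ ⊤ := by
          intro h
          have h1 := P₀.ne_bot_of_dvd_card hpd
          apply h1
          have h2 : Nat.card (P₀ : Subgroup H) = 1 := by
            rw [← hc.index_eq_card, h, Subgroup.index_top]
          exact Subgroup.eq_bot_of_card_eq _ h2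
        have hP1 : (P₀ : Subgroup H) ≠ ⊤ := by
          intro h
          apply hpp
          refine ⟨p, k, hp, ?_⟩
          rw [← hk, h]
          exact Subgroup.card_top.symm
        refine ⟨P₀, Q, inferInstance, hQn, k, hc, hQi, hcop, ?_, ?_⟩
        · haveI := hQn
          refine section_index H hC hnil Q ?_ hQ1
          rw [hQi, ← hPi]
          exact Nat.Coprime.pow_right k hcop.symm
        · refine section_index H hC hnil P₀ ?_ hP1
          rw [hk]
          exact Nat.Coprime.pow_left k hcop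
      refine coherent_frob_chain H hC τ hτ hτ1 (fun θ₀ h => ?_) ?_ hcdvd hc1
      · have hp : (deg θ₀).minFac.Prime := Nat.minFac_prime h.ne'
        have hpd : (deg θ₀).minFac ∣ deg θ₀ := Nat.minFac_dvd _
        obtain ⟨P, Q, hPn, hQn, k, hc, hQi, hcop, ⟨h1, h2⟩, ⟨h3, h4⟩⟩ := hdata _ hp
          (hpd.trans (Cfsg.Agent.Lib.H7Char.deg_dvd_card θ₀))
        exact sum_bound hc hp hQi hcop H.index (le_of_dvd_sub_one h1 h2) (le_of_dvd_sub_one h3 h4) θ₀ hpd
      · intro hce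
        have hp : (Nat.card H).minFac.Prime := Nat.minFac_prime hcardH
        obtain ⟨P, Q, hPn, hQn, k, hc, hQi, hcop, ⟨h1, h2⟩, ⟨h3, h4⟩⟩ := hdata _ hp (Nat.minFac_dvd _)
        have h5 : (commutator H ⊔ Q).index ∣ (commutator H).index := Subgroup.index_dvd_of_le le_sup_left
        have h6 : (commutator H ⊔ P).index ∣ (commutator H).index := Subgroup.index_dvd_of_le le_sup_left
        have h7 := le_of_dvd_sub_one h1 h2
        have h8 := le_of_dvd_sub_one h3 h4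
        have h9 := Nat.le_of_dvd (by omega) h5
        have h10 := Nat.le_of_dvd (by omega) h6
        have h11 : (commutator H ⊔ Q).index = (commutator H).index := by omega
        have h12 : (commutator H ⊔ P).index = (commutator H).index := by omega
        have h13 : (commutator H).index ∣ (Nat.card H).minFac ^ k := by
          rw [← hQi, ← h11]
          exact Subgroup.index_dvd_of_le le_sup_right
        have h14 : (commutator H).index ∣ P.index := by
          rw [← h12]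
          exact Subgroup.index_dvd_of_le le_sup_right
        have h15 : Nat.Coprime ((Nat.card H).minFac ^ k) P.index := Nat.Coprime.pow_left k hcop
        have h16 := Nat.eq_one_of_dvd_coprimes h15 h13 h14
        omega

end Main

end Cfsg.Agent.Lib.CoherenceFrob
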