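import Mathlib
import Cfsg.Prelude.Def_OddOrderChar
import Cfsg.Prelude.Def_OddOrderLocal
import Cfsg.Agent.Lib.CoherenceFrob
import Cfsg.Agent.S1514

/-!
Coherence for trivial intersection subgroups: induction from the normalizer of a trivial
intersection subgroup `P` is an isometry on the integer combinations vanishing at `1` of characters
vanishing off `P`.
-/

set_option autoImplicit false
set_option linter.all false

namespace Cfsg.Agent.Lib.CoherenceTI

open Cfsg Cfsg.Agent.Lib.CharOps Cfsg.Agent.Lib.CharGen Cfsg.Agent.Lib.Coherence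
open Cfsg.Agent.Lib.CoherenceFrob Cfsg.Agent.Lib.CoherenceCent

universe u

variable {G : Type u} [Group G] [Fintype G]

theorem ind_on_T {N : Subgroup G} (T : Set N)
    (hT : ∀ x ∈ T, ∀ g : G, g ∉ N → ∀ y : N, (y : G) = g⁻¹ * x * g → y ∉ T)
    {β : N → ℂ} (hβc : IsClassFunction N β) (hβ0 : ∀ x, x ∉ T → β x = 0) {x : N} (hx : x ∈ T) :
    indFun N β x = β x := by
  classical
  rw [indFun_apply]
  have h : ∀ g : G, extendByZero N β (g⁻¹ * x * g) = if g ∈ N then β x else 0 := by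
    intro g
    by_cases hg : g ∈ N
    · rw [if_pos hg]
      have e : g⁻¹ * (x : G) * g = (((⟨g, hg⟩ : N)⁻¹ * x * (⟨g, hg⟩ : N) : N) : G) := by
        simp
      rw [e, extendByZero_coe]
      have := hβc x (⟨g, hg⟩ : N)⁻¹
      simpa using this
    · rw [if_neg hg]
      by_cases hm : g⁻¹ * (x : G) * g ∈ N
      · rw [extendByZero_of_mem _ _ hm]
        exact hβ0 _ (hT x hx g hg _ rfl)
      · exact extendByZero_of_not_mem _ _ hm
  simp only [h]
  rw [sum_ite_subgroup]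
  have hN : (Nat.card N : ℂ) ≠ 0 := by exact_mod_cast Nat.card_pos.ne'
  field_simp

theorem ti_inner {N : Subgroup G} [Fintype N] (T : Set N)
    (hT : ∀ x ∈ T, ∀ g : G, g ∉ N → ∀ y : N, (y : G) = g⁻¹ * x * g → y ∉ T)
    {α β : N → ℂ} (hα0 : ∀ x, x ∉ T → α x = 0) (hβc : IsClassFunction N β)
    (hβ0 : ∀ x, x ∉ T → β x = 0) :
    classInner (indFun N α) (indFun N β) = classInner α β := by
  classical
  rw [frobenius_reciprocity N α (indFun_isClassFunction N β), classInner, classInner]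
  congr 1
  refine Finset.sum_congr rfl fun x _ => ?_
  by_cases hx : x ∈ T
  · rw [ind_on_T T hT hβc hβ0 hx]
  · rw [hα0 x hx, zero_mul, zero_mul]

/-- Members of the integer span of characters that are class functions vanishing off a subgroup. -/
theorem zspan_props {N : Type*} [Group N] [Fintype N] {S : Set (N → ℂ)} (A : Set N)
    (hS : ∀ χ ∈ S, IsCharacter N χ ∧ ∀ x, x ∉ A → χ x = 0) {α : N → ℂ} (hα : α ∈ zspan S) :
    IsGeneralizedCharacter N α ∧ ∀ x, x ∉ A → α x = 0 := by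
  refine zspan_induction (p := fun a => IsGeneralizedCharacter N a ∧ ∀ x, x ∉ A → a x = 0)
    (fun χ hχ => ⟨isGen_of_char (hS χ hχ).1, (hS χ hχ).2⟩) ⟨isGen_zero, fun _ _ => rfl⟩
    (fun a b ha hb => ⟨isGen_add ha.1 hb.1, fun x hx => by
      simp [ha.2 x hx, hb.2 x hx]⟩)
    (fun n a ha => ⟨isGen_zsmul' ha.1 n, fun x hx => by
      simp [ha.2 x hx]⟩) hα

/-- Induction is an isometry on combinations vanishing at `1` of characters vanishing off a TI set. -/
theorem ti_iso {N : Subgroup G} [Fintype N] (A : Set N)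
    (hT : ∀ x ∈ A, x ≠ 1 → ∀ g : G, g ∉ N → ∀ y : N, (y : G) = g⁻¹ * x * g → y ∉ A)
    {S : Set (N → ℂ)} (hS : ∀ χ ∈ S, IsCharacter N χ ∧ ∀ x, x ∉ A → χ x = 0) :
    IsLinearIsometryOn (zspanOn S {1}ᶜ) (fun α : N → ℂ => indFun N α) ∧
      ∀ α ∈ zspanOn S {1}ᶜ, indFun N α 1 = 0 := by
  classical
  have hc : ∀ {α : N → ℂ}, α ∈ zspanOn S {1}ᶜ → IsGeneralizedCharacter N α ∧
      ∀ x, x ∉ {x | x ∈ A ∧ x ≠ 1} → α x = 0 := by
    intro α hα
    obtain ⟨h1, h2⟩ := zspan_props A hS hα.1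
    refine ⟨h1, fun x hx => ?_⟩
    by_cases hxA : x ∈ A
    · have hx1 : x = 1 := by
        by_contra hne
        exact hx ⟨hxA, hne⟩
      exact hα.2 x (by simpa using hx1)
    · exact h2 x hxA
  refine ⟨⟨fun α _ β _ => ?_, fun α _ n => ?_, fun α hα β hβ => ?_, fun α hα => ?_⟩, fun α hα => ?_⟩
  · exact indFun_add N α β
  · have : n • α = (n : ℂ) • α := by
      funext g
      simp
    simp only
    rw [this, indFun_smul]
    funext g
    simp
  · obtain ⟨h1, h2⟩ := hc hα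
    obtain ⟨h3, h4⟩ := hc hβ
    refine ti_inner {x | x ∈ A ∧ x ≠ 1} (fun x hx g hg y hy hyA => ?_) h2 (IsGen.isClassFunction h3) h4
    refine hT x hx.1 hx.2 g hg y hy hyA.1
  · exact isGen_indFun N (hc hα).1
  · rw [indFun_one, hα.2 1 (by simp), mul_zero]

section Frobenius

open Cfsg.Agent.Lib.CoherenceInd Cfsg.Agent.Lib.CharAb

universe v

variable {L : Type u} [Group L] [Fintype L] {G' : Type v} [Group G'] [Fintype G']

theorem exists_nontrivial_irr (H : Subgroup L) (hH1 : H ≠ ⊥) :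
    ∃ θ : H → ℂ, IsIrrCharacter H θ ∧ θ ≠ (fun _ => 1) := by
  classical
  letI : Fintype H := Fintype.ofFinite _
  by_contra hcon
  push Not at hcon
  have h := sum_deg_sq (G := H)
  have hall : ∀ θ : IrrCharacter H, θ = oneIrr H := fun θ => Subtype.ext (hcon θ.1 θ.2)
  rw [Finset.sum_eq_single (oneIrr H) (fun b _ hb => absurd (hall b) hb) (by simp), deg_oneIrr] at h
  apply hH1
  apply Subgroup.eq_bot_of_card_eq
  simpa using h.symm

/-- The induced characters from a normal subgroup with the Frobenius property form a coherence system. -/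
theorem frob_system (H : Subgroup L) [hH : H.Normal] (hH1 : H ≠ ⊥)
    (hC : ∀ h ∈ H, h ≠ 1 → Subgroup.centralizer ({h} : Set L) ≤ H) (hodd : Odd (Nat.card L))
    (τ : (L → ℂ) → (G' → ℂ)) (hτ : IsLinearIsometryOn (zspanOn (inducedIrrAbove H ⊥) {1}ᶜ) τ)
    (hτ1 : ∀ α ∈ zspanOn (inducedIrrAbove H ⊥) {1}ᶜ, τ α 1 = 0) :
    ∃ R : (L → ℂ) → Finset (G' → ℂ), IsCoherenceSystem (inducedIrrAbove H ⊥) τ R := by
  classical
  letI : Fintype H := Fintype.ofFinite _
  have hirr : ∀ χ ∈ inducedIrrAbove H ⊥, IsIrrCharacter L χ := by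
    rintro χ ⟨θ, h1, h2, -, rfl⟩
    exact frob_irr_ind H hC h1 h2
  refine Cfsg.Agent.S1514.result _ ?_ hirr ?_ τ hτ hτ1
  · obtain ⟨θ, h1, h2⟩ := exists_nontrivial_irr H hH1
    refine ⟨indFun H θ, θ, h1, h2, fun a ha => ?_, rfl⟩
    have : a = 1 := Subtype.ext (by simpa using ha)
    rw [this]
  · intro χ hχ
    refine ⟨above_conj H hχ, fun he => ?_⟩
    obtain ⟨θ, h1, h2, -, rfl⟩ := hχ
    have h3 := Cfsg.Agent.Lib.CharNormal.inner_conj_ind hodd H h1 h2
    have h4 : (fun g => (starRingEnd ℂ) (indFun H θ g)) = indFun H θ := he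
    rw [h4, irr_inner_self (frob_irr_ind H hC h1 h2)] at h3
    exact one_ne_zero h3

/-- A normal subgroup of odd order with the Frobenius property which is not commutative: the whole group has
odd order. -/
theorem odd_of_frob (H : Subgroup L) [hH : H.Normal]
    (hC : ∀ h ∈ H, h ≠ 1 → Subgroup.centralizer ({h} : Set L) ≤ H) (hH2 : ¬ IsMulCommutative H)
    (hoddH : Odd (Nat.card H)) : Odd (Nat.card L) := by
  classical
  by_contra hcon
  rw [Nat.not_odd_iff_even] at hcon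
  haveI : Fact (Nat.Prime 2) := ⟨Nat.prime_two⟩
  obtain ⟨t, ht⟩ := exists_prime_orderOf_dvd_card' 2 hcon.two_dvd
  have htH : t ∉ H := by
    intro hm
    have h1 : orderOf t ∣ Nat.card H := by
      have := Subgroup.orderOf_dvd_natCard H hm
      exact this
    rw [ht] at h1
    exact (Nat.not_even_iff_odd.2 hoddH) (even_iff_two_dvd.2 h1)
  have hf := frob_fpf H hC htH
  have hinv : Function.Involutive ((MulAut.conjNormal t : H ≃* H).toMonoidHom : H →* H) := by
    intro x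
    apply Subtype.ext
    show t * (t * (x : L) * t⁻¹) * t⁻¹ = x
    have h2 : t * t = 1 := by
      rw [← pow_two, ← ht, pow_orderOf_eq_one]
    have h3 : t⁻¹ = t := inv_eq_of_mul_eq_one_left h2
    rw [h3]
    calc t * (t * (x : L) * t) * t = (t * t) * x * (t * t) := by group
      _ = x := by rw [h2]; group
  apply hH2
  exact ⟨⟨fun a b => hf.commute_all_of_involutive hinv a b⟩⟩

end Frobenius

section TI

variable {P N : Subgroup G} [Fintype N]

theorem ti_cond (hTI : ∀ g : G, g ∉ N → ∀ x ∈ P, g * x * g⁻¹ ∈ P → x = 1) :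
    ∀ x ∈ ((P.subgroupOf N : Subgroup N) : Set N), x ≠ 1 → ∀ g : G, g ∉ N → ∀ y : N, (y : G) = g⁻¹ * x * g →
      y ∉ ((P.subgroupOf N : Subgroup N) : Set N) := by
  intro x hx hx1 g hg y hy hyP
  apply hx1
  apply Subtype.ext
  have hyP' : (y : G) ∈ P := hyP
  refine hTI g⁻¹ (fun h => hg (by simpa using N.inv_mem h)) x hx ?_
  rw [inv_inv, ← hy]
  exact hyP'

theorem ti_above_iso (hTI : ∀ g : G, g ∉ N → ∀ x ∈ P, g * x * g⁻¹ ∈ P → x = 1)
    [hn : (P.subgroupOf N).Normal] (A : Subgroup N) :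
    IsLinearIsometryOn (zspanOn (inducedIrrAbove (P.subgroupOf N) A) {1}ᶜ) (fun α : N → ℂ => indFun N α) ∧
      ∀ α ∈ zspanOn (inducedIrrAbove (P.subgroupOf N) A) {1}ᶜ, indFun N α 1 = 0 := by
  refine ti_iso _ (ti_cond hTI) ?_
  intro χ hχ
  refine ⟨Cfsg.Agent.Lib.CoherenceInd.above_isChar _ hχ, fun x hx => ?_⟩
  obtain ⟨θ, -, -, -, rfl⟩ := hχ
  rw [indFun_apply]
  have h0 : ∀ y : N, extendByZero (P.subgroupOf N) θ (y⁻¹ * x * y) = 0 := by
    intro y
    apply extendByZero_of_not_mem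
    intro hm
    apply hx
    have := hn.conj_mem _ hm y
    have e : y * (y⁻¹ * x * y) * y⁻¹ = x := by group
    rw [e] at this
    exact this
  simp only [h0, Finset.sum_const_zero, mul_zero]

theorem frobenius_cond_of_ti (hC : ∀ k ∈ P, k ≠ 1 → Subgroup.centralizer ({k} : Set G) ≤ P) :
    ∀ h ∈ P.subgroupOf N, h ≠ 1 → Subgroup.centralizer ({h} : Set N) ≤ P.subgroupOf N := by
  intro h hh hne x hx
  have h1 : (h : G) ≠ 1 := fun e => hne (Subtype.ext e)
  refine hC h hh h1 ?_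
  rw [Subgroup.mem_centralizer_singleton_iff] at hx ⊢
  exact congrArg Subtype.val hx

theorem not_comm_subgroupOf (hPN : P ≤ N) (hna : ¬ IsMulCommutative P) :
    ¬ IsMulCommutative (P.subgroupOf N) := by
  intro hc
  apply hna
  refine ⟨⟨fun a b => ?_⟩⟩
  have := hc.is_comm.comm (⟨⟨a, hPN a.2⟩, a.2⟩ : P.subgroupOf N) ⟨⟨b, hPN b.2⟩, b.2⟩
  have h2 := congrArg (fun x : P.subgroupOf N => ((x : N) : G)) this
  exact Subtype.ext h2

open Cfsg.Agent.Lib.CoherenceCent in
/-- The characters of the normalizer `N` of a TI subgroup `P` nontrivial on a central normal subgroup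
`Z` of `P` are coherent for induction. -/
theorem coherent_ti_central {p : ℕ} [Fact p.Prime] (hp : p ≠ 2) (hPp : IsPGroup p P)
    (hna : ¬ IsMulCommutative P) (hPN : P ≤ N) [hn : (P.subgroupOf N).Normal]
    (hTI : ∀ g : G, g ∉ N → ∀ x ∈ P, g * x * g⁻¹ ∈ P → x = 1)
    (hC : ∀ k ∈ P, k ≠ 1 → Subgroup.centralizer ({k} : Set G) ≤ P)
    (Z : Subgroup G) (hZ1 : Z ≠ ⊥) (hZP : ∀ z ∈ Z, z ∈ P ∧ ∀ y ∈ P, z * y = y * z)
    (hZn : ∀ x ∈ N, ∀ z ∈ Z, x * z * x⁻¹ ∈ Z) :
    IsCoherent {χ : N → ℂ | IsIrrCharacter N χ ∧ ∃ z : N, (z : G) ∈ Z ∧ χ z ≠ χ 1} {1}ᶜ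
      (fun α => indFun N α) := by
  classical
  let H : Subgroup N := P.subgroupOf N
  have hcard : Nat.card H = Nat.card P := Nat.card_congr (Subgroup.subgroupOfEquivOfLe hPN).toEquiv
  have hpH : IsPGroup p H := by
    obtain ⟨m, hm⟩ := IsPGroup.iff_card.1 hPp
    exact IsPGroup.iff_card.2 ⟨m, by rw [hcard, hm]⟩
  have hC' := frobenius_cond_of_ti (N := N) hC
  have hnc : ¬ IsMulCommutative H := not_comm_subgroupOf hPN hna
  have hoddH : Odd (Nat.card H) := by
    obtain ⟨m, hm⟩ := IsPGroup.iff_card.1 hpH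
    rw [hm]
    exact Odd.pow ((Fact.out : p.Prime).odd_of_ne_two hp)
  have hodd := odd_of_frob H hC' hnc hoddH
  have hH1 : H ≠ ⊥ := by
    intro h
    apply hnc
    refine ⟨⟨fun a b => ?_⟩⟩
    have h1 : ∀ a : H, a = 1 := by
      intro a
      apply Subtype.ext
      have : (a : N) ∈ (⊥ : Subgroup N) := h ▸ a.2
      simpa using this
    rw [h1 a, h1 b]
  obtain ⟨hiso, hiso1⟩ := ti_above_iso (P := P) (N := N) hTI ⊥
  obtain ⟨R, hR⟩ := frob_system H hH1 hC' hodd _ hiso hiso1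
  haveI hnil : Group.IsNilpotent H := hpH.isNilpotent
  have hsolv : Group.IsSolvable H := inferInstance
  have hcomm : ⁅H, H⁆ < H := by
    refine lt_of_le_of_ne (Subgroup.commutator_le_left H H) fun h => ?_
    have h2 := Cfsg.Agent.Lib.CoherenceFrob.comm_eq_subgroupOf H
    rw [h, Subgroup.subgroupOf_self] at h2
    haveI : Nontrivial H := by
      rw [Subgroup.nontrivial_iff_ne_bot]
      exact hH1
    have h3 := Group.IsSolvable.commutator_lt_top_of_nontrivial H
    rw [h2] at h3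
    exact lt_irrefl _ h3
  have hfrob := frob_hfrob H hC' ⁅H, H⁆
  let Z' : Subgroup N := Z.subgroupOf N
  haveI hZ'n : Z'.Normal := ⟨fun z hz g => hZn g g.2 z hz⟩
  have hZ1' : Z' ≠ ⊥ := by
    intro h
    apply hZ1
    rw [Subgroup.eq_bot_iff_forall]
    intro z hz
    have h1 : (⟨z, hPN (hZP z hz).1⟩ : N) ∈ Z' := hz
    rw [h] at h1
    have h2 : (⟨z, hPN (hZP z hz).1⟩ : N) = 1 := by simpa using h1
    exact congrArg Subtype.val h2
  have hZK : Z' ≤ H := fun z hz => (hZP z hz).1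
  have hZc : ∀ z ∈ Z', ∀ k ∈ H, z * k = k * z := fun z hz k hk =>
    Subtype.ext ((hZP z hz).2 k hk)
  have hirr : ∀ χ ∈ inducedIrrAbove H ⊥ \ inducedIrrAbove H Z', IsIrrCharacter N χ := by
    rintro χ ⟨⟨θ, h1, h2, -, rfl⟩, -⟩
    letI : Fintype H := Fintype.ofFinite _
    exact frob_irr_ind H hC' h1 h2
  obtain ⟨he, hcoh⟩ := coherent_above_central H hsolv _ R hR hodd hnil hcomm hfrob Z' hZ1' hZK hZc hirr
  have heq : {χ : N → ℂ | IsIrrCharacter N χ ∧ ∃ z : N, (z : G) ∈ Z ∧ χ z ≠ χ 1} =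
      inducedIrrAbove H ⊥ \ inducedIrrAbove H Z' := by
    rw [he]
    rfl
  rw [heq]
  exact hcoh

end TI

end Cfsg.Agent.Lib.CoherenceTI
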