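import Mathlib
import Cfsg.Agent.Lib.CoherenceTI

/-!
A relation among character degrees for a subgroup of prime order `p` with self-centralizing
property, following from the coherence of the characters of its normalizer (Brauer, Suzuki).
-/

set_option autoImplicit false
set_option linter.all false

namespace Cfsg.Agent.Lib.BrauerRel

open scoped ComplexConjugate
open Cfsg Cfsg.Agent.Lib.CharIrr Cfsg.Agent.Lib.CharOps Cfsg.Agent.Lib.CharGen Cfsg.Agent.Lib.CharIso
open Cfsg.Agent.Lib.CharAb Cfsg.Agent.Lib.Coherence Cfsg.Agent.Lib.CoherenceFrob Cfsg.Agent.Lib.CoherenceCent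
open Cfsg.Agent.Lib.CoherenceTI

universe u v

section Abstract

variable {X : Type u} [Group X] [Fintype X]

/-- Coefficients of a generalized character. -/
theorem coeff_expand {a : X → ℂ} (ha : IsGeneralizedCharacter X a) :
    ∃ n : IrrCharacter X → ℤ, a = ∑ ψ : IrrCharacter X, (n ψ : ℂ) • (ψ : X → ℂ) ∧
      classInner a a = ((∑ ψ, n ψ ^ 2 : ℤ) : ℂ) ∧ ∀ χ : IrrCharacter X, classInner a χ.1 = n χ := by
  classical
  obtain ⟨n, hn, hs⟩ := exists_sq_sum ha
  refine ⟨n, hn, hs, fun χ => ?_⟩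
  rw [hn, classInner_sum_left, Finset.sum_eq_single χ]
  · rw [classInner_smul_left, classInner_irr χ.2 χ.2, if_pos rfl, mul_one]
  · intro b _ hb
    rw [classInner_smul_left, classInner_irr b.2 χ.2, if_neg (fun h => hb (Subtype.ext h)), mul_zero]
  · intro h
    exact absurd (Finset.mem_univ χ) h

/-- A generalized character on a group of prime order with the same multiplicity for all
non-principal irreducible characters. -/
theorem prime_order_shape {p : ℕ} (hp : p.Prime) (hcard : Nat.card X = p) {g : X → ℂ}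
    (hg : IsGeneralizedCharacter X g)
    (heq : ∀ θ θ' : IrrCharacter X, θ ≠ oneIrr X → θ' ≠ oneIrr X → classInner g θ.1 = classInner g θ'.1) :
    ∃ b a : ℤ, (∀ x : X, x ≠ 1 → g x = b) ∧ g 1 = b + a * p := by
  classical
  haveI : Fact p.Prime := ⟨hp⟩
  haveI : Fact (Nat.card X).Prime := ⟨by rw [hcard]; exact hp⟩
  haveI : IsCyclic X := isCyclic_of_prime_card rfl
  have hcomm : ∀ x y : X, x * y = y * x := fun x y => (IsCyclic.commGroup (α := X)).mul_comm x y
  have hdeg1 : ∀ θ : IrrCharacter X, θ.1 1 = 1 := fun θ =>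
    Cfsg.Agent.Lib.CharLinear.degree_one_of_comm θ.2 fun x y => by
      have h2 : x * y * x⁻¹ * y⁻¹ = 1 := by
        rw [hcomm x y]
        group
      rw [h2]
  have hdeg : ∀ θ : IrrCharacter X, deg θ = 1 := by
    intro θ
    have h : (((deg θ : ℕ)) : ℂ) = ((1 : ℕ) : ℂ) := by
      rw [← apply_one_eq_deg, hdeg1]
      simp
    exact_mod_cast h
  have hcardI : Fintype.card (IrrCharacter X) = p := by
    have h := sum_deg_sq (G := X)
    simp only [hdeg, one_pow, Finset.sum_const, Finset.card_univ, smul_eq_mul, mul_one] at h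
    rw [h, hcard]
  obtain ⟨θ₁, hθ₁⟩ : ∃ θ : IrrCharacter X, θ ≠ oneIrr X := by
    by_contra hcon
    push Not at hcon
    have h1 : Fintype.card (IrrCharacter X) ≤ 1 := Fintype.card_le_one_iff.2 fun a b => by
      rw [hcon a, hcon b]
    have := hp.two_le
    omega
  obtain ⟨a₀, ha₀⟩ := exists_int_classInner hg (isGen_of_char (IsIrrCharacter.isCharacter' (oneIrr X).2))
  obtain ⟨a, ha⟩ := exists_int_classInner hg (isGen_of_char (IsIrrCharacter.isCharacter' θ₁.2))
  have hexp := classFunction_expand (IsGen.isClassFunction hg)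
  have hval : ∀ x : X, g x = a₀ * 1 + a * ∑ θ ∈ (Finset.univ : Finset (IrrCharacter X)).erase (oneIrr X), θ.1 x := by
    intro x
    have h1 := congrFun hexp x
    simp only [Finset.sum_apply, Pi.smul_apply, smul_eq_mul] at h1
    rw [h1, ← Finset.add_sum_erase _ _ (Finset.mem_univ (oneIrr X)), ha₀, Finset.mul_sum]
    congr 1
    refine Finset.sum_congr rfl fun θ hθ => ?_
    rw [heq θ θ₁ (Finset.ne_of_mem_erase hθ) hθ₁, ha]
  refine ⟨a₀ - a, a, fun x hx => ?_, ?_⟩
  · have h2 := column_orthogonality x (1 : X)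
    have h3 : ¬ IsConj x 1 := fun h => hx (isConj_one_right.1 h.symm)
    rw [if_neg h3] at h2
    simp only [hdeg1, map_one, mul_one] at h2
    rw [← Finset.add_sum_erase _ _ (Finset.mem_univ (oneIrr X))] at h2
    have h4 : ∑ θ ∈ (Finset.univ : Finset (IrrCharacter X)).erase (oneIrr X), θ.1 x = -1 := by
      have h5 : (oneIrr X).1 x = 1 := rfl
      have h6 : (1 : ℂ) + ∑ θ ∈ (Finset.univ : Finset (IrrCharacter X)).erase (oneIrr X), θ.1 x = 0 := h2
      linear_combination h6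
    rw [hval, h4]
    push_cast
    ring
  · rw [hval]
    simp only [hdeg1, Finset.sum_const, Finset.card_erase_of_mem (Finset.mem_univ _), Finset.card_univ, hcardI,
      nsmul_eq_mul, mul_one]
    have hp1 : 1 ≤ p := hp.one_lt.le
    push_cast [Nat.cast_sub hp1]
    ring

end Abstract

section NLevel

variable {N : Type u} [Group N] [Fintype N] (H : Subgroup N) [hH : H.Normal]

/-- The character induced from the principal character of a normal subgroup. -/
noncomputable def rho : N → ℂ := indFun H (fun _ => 1)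

theorem rho_on {h : N} (hh : h ∈ H) : rho H h = H.index := by
  rw [rho, indFun_apply]
  have h0 : ∀ x : N, extendByZero H (fun _ => (1 : ℂ)) (x⁻¹ * h * x) = 1 := by
    intro x
    have hm : x⁻¹ * h * x ∈ H := by
      have := hH.conj_mem h hh x⁻¹
      rwa [inv_inv] at this
    rw [extendByZero_of_mem H _ hm]
  simp only [h0, Finset.sum_const, Finset.card_univ, nsmul_eq_mul, mul_one]
  have h1 : (Fintype.card N : ℂ) = (Nat.card H : ℂ) * (H.index : ℂ) := by
    rw [← Nat.card_eq_fintype_card]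
    exact_mod_cast (Subgroup.card_mul_index H).symm
  rw [h1]
  have hpos : (Nat.card H : ℂ) ≠ 0 := by exact_mod_cast Nat.card_pos.ne'
  field_simp

theorem ind_off {θ : H → ℂ} {g : N} (hg : g ∉ H) : indFun H θ g = 0 := by
  rw [indFun_apply]
  have h0 : ∀ x : N, extendByZero H θ (x⁻¹ * g * x) = 0 := by
    intro x
    apply extendByZero_of_not_mem
    intro hm
    apply hg
    have := hH.conj_mem _ hm x
    have e : x * (x⁻¹ * g * x) * x⁻¹ = g := by group
    rwa [e] at this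
  simp only [h0, Finset.sum_const_zero, mul_zero]

theorem rho_isChar : IsCharacter N (rho H) := by
  letI : Fintype H := Fintype.ofFinite _
  exact isCharacter_indFun H (isCharacter_one)

theorem inner_one_one {X : Type u} [Group X] [Fintype X] :
    classInner (fun _ : X => (1 : ℂ)) (fun _ => 1) = 1 :=
  irr_inner_self isIrr_one

theorem inner_rho_right {θ : H → ℂ} [Fintype H] : classInner (indFun H θ) (rho H) =
    (H.index : ℂ) * classInner θ (fun _ => 1) := by
  rw [frobenius_reciprocity H θ (IsCharacter.isClassFunction' (rho_isChar H))]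
  have h1 : (fun h : H => rho H h) = (H.index : ℂ) • (fun _ : H => (1 : ℂ)) := by
    funext h
    rw [rho_on H h.2]
    simp
  rw [h1, classInner_smul_right]
  simp

theorem rho_norm : classInner (rho H) (rho H) = H.index := by
  letI : Fintype H := Fintype.ofFinite _
  have := inner_rho_right H (θ := fun _ => 1)
  rw [inner_one_one, mul_one] at this
  exact this

variable (hC : ∀ h ∈ H, h ≠ 1 → Subgroup.centralizer ({h} : Set N) ≤ H)

include hC

theorem frob_inner_rho {η : N → ℂ} (hη : η ∈ frobS H) : classInner η (rho H) = 0 := by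
  letI : Fintype H := Fintype.ofFinite _
  obtain ⟨θ, h1, h2, rfl⟩ := frobS_shape H hC hη
  rw [inner_rho_right, irr_inner_ne h1 isIrr_one h2, mul_zero]

theorem rho_inner_frob {η : N → ℂ} (hη : η ∈ frobS H) : classInner (rho H) η = 0 := by
  rw [← classInner_conj, frob_inner_rho H hC hη]
  simp

omit hC in
theorem rho_inner_one : classInner (rho H) (fun _ => 1) = 1 := by
  letI : Fintype H := Fintype.ofFinite _
  rw [rho, frobenius_reciprocity H _ (IsCharacter.isClassFunction' (isCharacter_one)), inner_one_one]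

omit hC in
theorem frob_inner_one {η : N → ℂ} (hη : η ∈ frobS H) : classInner η (fun _ => 1) = 0 := by
  refine irr_inner_ne hη.1 isIrr_one ?_
  rintro rfl
  obtain ⟨h, _, hne⟩ := hη.2
  exact hne rfl

omit hC in
theorem frob_value_one (hcomm : ∀ a ∈ H, ∀ b ∈ H, a * b = b * a) (hC : ∀ h ∈ H, h ≠ 1 → Subgroup.centralizer ({h} : Set N) ≤ H)
    {η : N → ℂ} (hη : η ∈ frobS H) : η 1 = H.index := by
  letI : Fintype H := Fintype.ofFinite _
  obtain ⟨θ, h1, h2, rfl⟩ := frobS_shape H hC hη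
  rw [indFun_one]
  have h3 : θ 1 = 1 := Cfsg.Agent.Lib.CharLinear.degree_one_of_comm h1 fun x y => by
    have h2 : x * y * x⁻¹ * y⁻¹ = 1 := by
      have : x * y = y * x := Subtype.ext (hcomm x x.2 y y.2)
      rw [this]
      group
    rw [h2]
  rw [h3, mul_one]

open Classical in
/-- The irreducible characters of `N` nontrivial on `H`. -/
noncomputable def sf : Finset (IrrCharacter N) :=
  (Finset.univ : Finset (IrrCharacter N)).filter (fun χ => χ.1 ∈ frobS H)

omit hH hC in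
theorem mem_sf {χ : IrrCharacter N} : χ ∈ sf H ↔ χ.1 ∈ frobS H := by
  classical
  simp [sf]

omit hH hC in
theorem value_of_not_mem {χ : IrrCharacter N} (h : χ ∉ sf H) {n : N} (hn : n ∈ H) : χ.1 n = χ.1 1 := by
  rw [mem_sf] at h
  by_contra hne
  exact h ⟨χ.2, n, hn, hne⟩

omit hH hC in
open Classical in
theorem sum_sq_of_ker' (N' : Subgroup N) [N'.Normal] : ∑ χ ∈ (Finset.univ : Finset (IrrCharacter N)).filter
      (fun χ : IrrCharacter N => ∀ n ∈ N', χ.1 n = χ.1 1), χ.1 1 ^ 2 = (N'.index : ℂ) := by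
  convert Cfsg.Agent.Lib.CoherenceInd.sum_sq_of_ker N'

omit hC in
open Classical in
theorem sum_not_sf : ∑ χ ∈ (Finset.univ : Finset (IrrCharacter N)).filter (fun χ => χ ∉ sf H), χ.1 1 ^ 2 = (H.index : ℂ) := by
  rw [← sum_sq_of_ker' H]
  refine Finset.sum_congr ?_ fun _ _ => rfl
  ext χ
  simp only [Finset.mem_filter, Finset.mem_univ, true_and]
  constructor
  · intro h n hn
    exact value_of_not_mem H h hn
  · intro h hm
    rw [mem_sf] at hm
    obtain ⟨n, hn, hne⟩ := hm.2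
    exact hne (h n hn)

omit hH hC in
open Classical in
theorem sum_split (F : IrrCharacter N → ℂ) : ∑ χ, F χ = ∑ χ ∈ sf H, F χ +
    ∑ χ ∈ (Finset.univ : Finset (IrrCharacter N)).filter (fun χ => χ ∉ sf H), F χ := by
  rw [sf]
  have := Finset.sum_filter_add_sum_filter_not (Finset.univ : Finset (IrrCharacter N)) (fun χ : IrrCharacter N => χ.1 ∈ frobS H) F
  rw [← this]
  congr 1
  refine Finset.sum_congr ?_ fun _ _ => rfl
  ext χ
  simp [sf]

omit hH hC in
theorem conj_one (χ : IrrCharacter N) : conj (χ.1 1) = χ.1 1 := by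
  rw [apply_one_eq_deg]
  simp

theorem card_centralizer_of_prime (hcomm : ∀ a ∈ H, ∀ b ∈ H, a * b = b * a) {x : N} (hx : x ∈ H) (hx1 : x ≠ 1) :
    Nat.card (Subgroup.centralizer ({x} : Set N)) = Nat.card H := by
  have : Subgroup.centralizer ({x} : Set N) = H := by
    apply le_antisymm (hC x hx hx1)
    intro y hy
    rw [Subgroup.mem_centralizer_singleton_iff]
    exact hcomm y hy x hx
  rw [this]

theorem sum_frob_norm (hcomm : ∀ a ∈ H, ∀ b ∈ H, a * b = b * a) {x : N} (hx : x ∈ H) (hx1 : x ≠ 1) :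
    ∑ χ ∈ sf H, χ.1 x * conj (χ.1 x) = (Nat.card H : ℂ) - H.index := by
  classical
  have h := column_orthogonality x x
  rw [if_pos (IsConj.refl _), card_centralizer_of_prime H hC hcomm hx hx1, sum_split H] at h
  have h2 : ∑ χ ∈ (Finset.univ : Finset (IrrCharacter N)).filter (fun χ => χ ∉ sf H), χ.1 x * conj (χ.1 x) =
      (H.index : ℂ) := by
    rw [← sum_not_sf H]
    refine Finset.sum_congr rfl fun χ hχ => ?_
    rw [value_of_not_mem H (Finset.mem_filter.1 hχ).2 hx, conj_one, sq]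
  rw [h2] at h
  linear_combination h

theorem sum_frob_value (hcomm : ∀ a ∈ H, ∀ b ∈ H, a * b = b * a) (hindex : H.index ≠ 0) {x : N} (hx : x ∈ H) (hx1 : x ≠ 1) :
    ∑ χ ∈ sf H, χ.1 x = -1 := by
  classical
  have h := column_orthogonality x (1 : N)
  have hnc : ¬ IsConj x 1 := fun h => hx1 (isConj_one_right.1 h.symm)
  rw [if_neg hnc, sum_split H] at h
  have h2 : ∑ χ ∈ (Finset.univ : Finset (IrrCharacter N)).filter (fun χ => χ ∉ sf H), χ.1 x * conj (χ.1 1) =
      (H.index : ℂ) := by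
    rw [← sum_not_sf H]
    refine Finset.sum_congr rfl fun χ hχ => ?_
    rw [value_of_not_mem H (Finset.mem_filter.1 hχ).2 hx, conj_one, sq]
  have h3 : ∑ χ ∈ sf H, χ.1 x * conj (χ.1 1) = (H.index : ℂ) * ∑ χ ∈ sf H, χ.1 x := by
    rw [Finset.mul_sum]
    refine Finset.sum_congr rfl fun χ hχ => ?_
    rw [conj_one, frob_value_one H hcomm hC ((mem_sf H).1 hχ), mul_comm]
  rw [h2, h3] at h
  have hne : (H.index : ℂ) ≠ 0 := by exact_mod_cast hindex
  have h4 : (H.index : ℂ) * (∑ χ ∈ sf H, χ.1 x + 1) = 0 := by linear_combination h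
  have h5 := (mul_eq_zero.1 h4).resolve_left hne
  linear_combination h5

theorem card_sf (hcomm : ∀ a ∈ H, ∀ b ∈ H, a * b = b * a) (hindex : H.index ≠ 0) :
    (sf H).card * H.index + 1 = Nat.card H := by
  classical
  have h := column_orthogonality (1 : N) (1 : N)
  rw [if_pos (IsConj.refl _), sum_split H] at h
  have h1 : Nat.card (Subgroup.centralizer ({(1 : N)} : Set N)) = Nat.card N := by
    rw [Subgroup.centralizer_eq_top_iff_subset.2 (by simp), Subgroup.card_top]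
  rw [h1] at h
  have h2 : ∑ χ ∈ (Finset.univ : Finset (IrrCharacter N)).filter (fun χ => χ ∉ sf H), χ.1 1 * conj (χ.1 1) =
      (H.index : ℂ) := by
    rw [← sum_not_sf H]
    refine Finset.sum_congr rfl fun χ hχ => ?_
    rw [conj_one, sq]
  have h3 : ∑ χ ∈ sf H, χ.1 1 * conj (χ.1 1) = ((sf H).card : ℂ) * (H.index : ℂ) ^ 2 := by
    rw [← nsmul_eq_mul, ← Finset.sum_const]
    refine Finset.sum_congr rfl fun χ hχ => ?_
    rw [conj_one, frob_value_one H hcomm hC ((mem_sf H).1 hχ), sq]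
  rw [h2, h3] at h
  have h4 : (Nat.card N : ℂ) = (Nat.card H : ℂ) * (H.index : ℂ) := by
    exact_mod_cast (Subgroup.card_mul_index H).symm
  rw [h4] at h
  have hne : (H.index : ℂ) ≠ 0 := by exact_mod_cast hindex
  have h5 : (H.index : ℂ) * (((sf H).card : ℂ) * (H.index : ℂ) + 1 - (Nat.card H : ℂ)) = 0 := by
    linear_combination h
  have h6 := (mul_eq_zero.1 h5).resolve_left hne
  have h7 : (((sf H).card * H.index + 1 : ℕ) : ℂ) = (Nat.card H : ℂ) := by
    push_cast
    linear_combination h6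
  exact_mod_cast h7

/-- A generalized character with equal inner products with all characters in `frobS H`. -/
theorem restrict_shape {p : ℕ} (hp : p.Prime) (hcard : Nat.card H = p) {ξ : N → ℂ}
    (hξ : IsGeneralizedCharacter N ξ)
    (heq : ∀ η ∈ frobS H, ∀ η' ∈ frobS H, classInner ξ η = classInner ξ η') :
    ∃ b a : ℤ, (∀ x ∈ H, x ≠ 1 → ξ x = b) ∧ ξ 1 = b + a * p := by
  classical
  letI : Fintype H := Fintype.ofFinite _
  have hg := isGen_restrict H hξ
  have hne : ∀ θ : IrrCharacter H, θ ≠ oneIrr H → θ.1 ≠ fun _ => 1 := by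
    intro θ h1 h2
    exact h1 (Subtype.ext h2)
  have hinner : ∀ θ : IrrCharacter H, classInner (fun h : H => ξ h) θ.1 = classInner ξ (indFun H θ.1) := by
    intro θ
    rw [← classInner_conj, ← frobenius_reciprocity H θ.1 (IsGen.isClassFunction hξ), classInner_conj]
  obtain ⟨b, a, h1, h2⟩ := prime_order_shape hp hcard hg (fun θ θ' h h' => by
    rw [hinner, hinner]
    exact heq _ (ind_mem_frobS H hC θ.2 (hne θ h)) _ (ind_mem_frobS H hC θ'.2 (hne θ' h')))
  refine ⟨b, a, fun x hx hx1 => ?_, h2⟩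
  exact h1 ⟨x, hx⟩ (fun h => hx1 (congrArg Subtype.val h))

end NLevel

section Main

/-- The arithmetic lemma: `s c² ≤ e + 2 c` with `e + 2 < s` forces `c = 0`. -/
theorem arith_zero {s e c : ℤ} (he : 0 ≤ e) (hs : e + 2 < s) (h : s * c ^ 2 ≤ e + 2 * c) : c = 0 := by
  by_contra hc
  rcases lt_or_gt_of_ne hc with h1 | h1
  · have h2 : 1 ≤ c ^ 2 := by nlinarith
    nlinarith
  · have h2 : c ≤ c ^ 2 := by nlinarith
    have h3 : s * c ≤ s * c ^ 2 := by nlinarith
    nlinarith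

variable {G : Type u} [Group G] [Fintype G]

theorem brauer_core {p : ℕ} (hp : p.Prime) (N : Subgroup G) [Fintype N] (H : Subgroup N) [hH : H.Normal]
    (hcardH : Nat.card H = p) (hcomm : ∀ a ∈ H, ∀ b ∈ H, a * b = b * a)
    (hT : ∀ x ∈ (H : Set N), x ≠ 1 → ∀ g : G, g ∉ N → ∀ y : N, (y : G) = g⁻¹ * x * g → y ∉ (H : Set N))
    (hCH : ∀ h ∈ H, h ≠ 1 → Subgroup.centralizer ({h} : Set N) ≤ H)
    (hCG : ∀ x ∈ H, x ≠ 1 → Nat.card (Subgroup.centralizer ({(x : G)} : Set G)) = p)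
    (he1 : H.index ≠ 1) (hbig : H.index * (H.index + 2) + 1 < p) :
    ∃ (T : Finset (IrrCharacter G)) (y : IrrCharacter G → ℤ) (ψ : IrrCharacter G) (σ : ℤ),
      (σ = 1 ∨ σ = -1) ∧ (∀ χ ∈ T, χ ≠ oneIrr G ∧ y χ ≠ 0 ∧ ∃ a : ℤ, (deg χ : ℤ) = y χ + a * p) ∧
      ∑ χ ∈ T, y χ ^ 2 = (H.index : ℤ) - 1 ∧
      σ * (deg ψ : ℤ) = 1 + ∑ χ ∈ T, y χ * (deg χ : ℤ) := by
  classical
  letI : Fintype H := Fintype.ofFinite _
  have hindex : H.index ≠ 0 := Subgroup.index_ne_zero_of_finite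
  have hH1 : H ≠ ⊥ := by
    intro h
    rw [h, Subgroup.card_bot] at hcardH
    exact hp.one_lt.ne hcardH
  have hH2 : H ≠ ⊤ := by
    intro h
    apply he1
    rw [h, Subgroup.index_top]
  have he : Nat.card H ≠ H.index + 1 := by
    rw [hcardH]
    have : 1 ≤ H.index := Nat.one_le_iff_ne_zero.2 hindex
    nlinarith
  have hvan : ∀ χ ∈ frobS H, ∀ x, x ∉ (H : Set N) → χ x = 0 := by
    intro χ hχ x hx
    obtain ⟨θ, -, -, rfl⟩ := frobS_shape H hCH hχ
    exact ind_off H hx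
  obtain ⟨hiso, hiso1⟩ := ti_iso (H : Set N) hT (S := frobS H)
    (fun χ hχ => ⟨IsIrrCharacter.isCharacter' hχ.1, hvan χ hχ⟩)
  obtain ⟨-, τ₁, hτ₁, hag⟩ : IsCoherent (frobS H) {1}ᶜ (fun α : N → ℂ => indFun N α) := by
    rcases frobenius_coherence H hH1 hH2 hCH he _ hiso hiso1 with h | ⟨_, _, _, h, _⟩
    · exact h
    · exact absurd ⟨⟨fun a b => Subtype.ext (hcomm a a.2 b b.2)⟩⟩ h
  have hval1 : ∀ η ∈ frobS H, η 1 = H.index := fun η hη => frob_value_one H hcomm hCH hη
  have hmem : ∀ η ∈ frobS H, η ∈ zspan (frobS H) := fun η hη => zspan_mem hη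
  have hsubOn : ∀ η ∈ frobS H, ∀ η' ∈ frobS H, η - η' ∈ zspanOn (frobS H) {1}ᶜ := by
    intro η hη η' hη'
    refine ⟨(closed_zspan _).sub (hmem η hη) (hmem η' hη'), fun x hx => ?_⟩
    have hx1 : x = 1 := by simpa using hx
    subst hx1
    simp [hval1 η hη, hval1 η' hη']
  have hind : ∀ η ∈ frobS H, ∀ η' ∈ frobS H, indFun N (η - η') = τ₁ η - τ₁ η' := by
    intro η hη η' hη'
    rw [← iso_sub (closed_zspan _) hτ₁ (hmem η hη) (hmem η' hη')]
    exact (hag _ (hsubOn η hη η' hη')).symm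
  have hgen : ∀ η ∈ frobS H, IsGeneralizedCharacter G (τ₁ η) := fun η hη => iso_gen hτ₁ (hmem η hη)
  have hinn : ∀ η ∈ frobS H, ∀ η' ∈ frobS H, classInner (τ₁ η) (τ₁ η') = classInner η η' :=
    fun η hη η' hη' => iso_inner hτ₁ (hmem η hη) (hmem η' hη')
  have hψ : ∀ η : IrrCharacter N, η ∈ sf H → ∃ (ψ : IrrCharacter G) (σ : ℤ), (σ = 1 ∨ σ = -1) ∧
      τ₁ η.1 = (σ : ℂ) • ψ.1 := by
    intro η hη
    have hη' := (mem_sf H).1 hη
    obtain ⟨χ, hχ, h⟩ := exists_irr_of_norm_one (hgen _ hη')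
      (by rw [hinn _ hη' _ hη', irr_inner_self η.2])
    rcases h with h | h
    · exact ⟨⟨χ, hχ⟩, 1, Or.inl rfl, by rw [h]; simp⟩
    · exact ⟨⟨χ, hχ⟩, -1, Or.inr rfl, by rw [h]; simp⟩
  haveI : Nonempty (IrrCharacter G) := ⟨oneIrr G⟩
  choose! ψ σ hσ hτψ using hψ
  have hσsq : ∀ η ∈ sf H, (σ η : ℂ) * (σ η : ℂ) = 1 := by
    intro η hη
    rcases hσ η hη with h | h <;> rw [h] <;> simp
  have hψinj : ∀ η ∈ sf H, ∀ η' ∈ sf H, ψ η = ψ η' → η = η' := by
    intro η hη η' hη' h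
    by_contra hne
    have h1 := hinn _ ((mem_sf H).1 hη) _ ((mem_sf H).1 hη')
    rw [irr_inner_ne η.2 η'.2 (fun h' => hne (Subtype.ext h')), hτψ η hη, hτψ η' hη', ← h,
      classInner_smul_left, classInner_smul_right, irr_inner_self (ψ η).2] at h1
    rcases hσ η hη with h2 | h2 <;> rcases hσ η' hη' with h3 | h3 <;> rw [h2, h3] at h1 <;> simp at h1
  have hcards := card_sf H hCH hcomm hindex
  rw [hcardH] at hcards
  have hs : H.index + 2 < (sf H).card := by
    have hpos : 0 < H.index := Nat.pos_of_ne_zero hindex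
    have h1 : H.index * (H.index + 2) < H.index * (sf H).card := by
      rw [mul_comm H.index (sf H).card]
      omega
    exact Nat.lt_of_mul_lt_mul_left h1
  obtain ⟨η₀, hη₀, hψ₀⟩ : ∃ η₀ ∈ sf H, ψ η₀ ≠ oneIrr G := by
    obtain ⟨a, ha, b, hb, hab⟩ := Finset.one_lt_card.1 (show 1 < (sf H).card by omega)
    by_cases h : ψ a = oneIrr G
    · refine ⟨b, hb, fun h' => hab (hψinj a ha b hb (h.trans h'.symm))⟩
    · exact ⟨a, ha, h⟩
  have hη₀' := (mem_sf H).1 hη₀
  -- the function `α`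
  let ρ : N → ℂ := rho H
  let α : N → ℂ := ρ - η₀.1
  let T₀ : Set N := {x | x ∈ H ∧ x ≠ 1}
  have hT₀ : ∀ x ∈ T₀, ∀ g : G, g ∉ N → ∀ y : N, (y : G) = g⁻¹ * x * g → y ∉ T₀ := by
    intro x hx g hg y hy hyT
    exact hT x hx.1 hx.2 g hg y hy hyT.1
  have hαT : ∀ x, x ∉ T₀ → α x = 0 := by
    intro x hx
    by_cases hxH : x ∈ H
    · have hx1 : x = 1 := by
        by_contra hne
        exact hx ⟨hxH, hne⟩
      subst hx1
      show rho H 1 - η₀.1 1 = 0
      rw [rho_on H H.one_mem, hval1 _ hη₀', sub_self]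
    · show rho H x - η₀.1 x = 0
      rw [show rho H x = 0 from ind_off H hxH, hvan _ hη₀' x hxH, sub_zero]
  have hsubT : ∀ η ∈ frobS H, ∀ η' ∈ frobS H, ∀ x, x ∉ T₀ → (η - η') x = 0 := by
    intro η hη η' hη' x hx
    by_cases hxH : x ∈ H
    · have hx1 : x = 1 := by
        by_contra hne
        exact hx ⟨hxH, hne⟩
      subst hx1
      simp [hval1 η hη, hval1 η' hη']
    · simp [hvan η hη x hxH, hvan η' hη' x hxH]
  have hηgen : ∀ η ∈ frobS H, IsGeneralizedCharacter N η := fun η hη =>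
    isGen_of_char (IsIrrCharacter.isCharacter' hη.1)
  have hαgen : IsGeneralizedCharacter N α := isGen_sub (isGen_of_char (rho_isChar H)) (hηgen _ hη₀')
  have hαc : IsClassFunction N α := IsGen.isClassFunction hαgen
  have hρη : ∀ η ∈ frobS H, classInner ρ η = 0 := fun η hη => rho_inner_frob H hCH hη
  have hηρ : ∀ η ∈ frobS H, classInner η ρ = 0 := fun η hη => frob_inner_rho H hCH hη
  -- inner products of the induced function
  have hI1 : classInner (indFun N α) (indFun N α) = (H.index : ℂ) + 1 := by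
    rw [ti_inner T₀ hT₀ hαT hαc hαT]
    show classInner (ρ - η₀.1) (ρ - η₀.1) = _
    rw [Cfsg.Agent.Lib.Coherence.inner_sub_left, Cfsg.Agent.Lib.Coherence.inner_sub_right,
      Cfsg.Agent.Lib.Coherence.inner_sub_right, rho_norm, hρη _ hη₀', hηρ _ hη₀', irr_inner_self η₀.2]
    ring
  have hI2 : ∀ η ∈ frobS H, ∀ η' ∈ frobS H, classInner (indFun N α) (τ₁ η - τ₁ η') =
      classInner η₀.1 η' - classInner η₀.1 η := by
    intro η hη η' hη'
    rw [← hind η hη η' hη', ti_inner T₀ hT₀ hαT (IsGen.isClassFunction (isGen_sub (hηgen η hη) (hηgen η' hη')))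
      (hsubT η hη η' hη')]
    show classInner (ρ - η₀.1) (η - η') = _
    rw [Cfsg.Agent.Lib.Coherence.inner_sub_left, Cfsg.Agent.Lib.Coherence.inner_sub_right,
      Cfsg.Agent.Lib.Coherence.inner_sub_right, hρη η hη, hρη η' hη']
    ring
  let Y : G → ℂ := indFun N α + τ₁ η₀.1
  have hYgen : IsGeneralizedCharacter G Y := isGen_add (isGen_indFun N hαgen) (hgen _ hη₀')
  have hY3 : ∀ η ∈ frobS H, ∀ η' ∈ frobS H, classInner Y (τ₁ η - τ₁ η') = 0 := by
    intro η hη η' hη'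
    show classInner (indFun N α + τ₁ η₀.1) _ = 0
    rw [classInner_add_left, hI2 η hη η' hη', Cfsg.Agent.Lib.Coherence.inner_sub_right,
      hinn _ hη₀' η hη, hinn _ hη₀' η' hη']
    ring
  obtain ⟨y, hYexp, hYnorm, hYcoef⟩ := coeff_expand hYgen
  obtain ⟨c, hc⟩ := exists_int_classInner hYgen (hgen _ hη₀')
  have hcη : ∀ η ∈ sf H, classInner Y (τ₁ η.1) = c := by
    intro η hη
    have := hY3 _ ((mem_sf H).1 hη) _ hη₀'
    rw [Cfsg.Agent.Lib.Coherence.inner_sub_right, hc] at this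
    linear_combination this
  have hyψ : ∀ η ∈ sf H, y (ψ η) = σ η * c := by
    intro η hη
    have h1 := hcη η hη
    rw [hτψ η hη, classInner_smul_right, hYcoef] at h1
    have h2 : (σ η : ℂ) * (y (ψ η) : ℂ) = c := by simpa using h1
    have h3 : (y (ψ η) : ℂ) = (σ η : ℂ) * c := by
      rw [← h2, ← mul_assoc, hσsq η hη, one_mul]
    exact_mod_cast h3
  -- the norm of `Y`
  obtain ⟨d, hd⟩ := exists_int_classInner (isGen_indFun N hαgen) (hgen _ hη₀')
  have hcd : c = d + 1 := by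
    have h1 : classInner Y (τ₁ η₀.1) = classInner (indFun N α) (τ₁ η₀.1) + classInner (τ₁ η₀.1) (τ₁ η₀.1) :=
      classInner_add_left _ _ _
    rw [hc, hd, hinn _ hη₀' _ hη₀', irr_inner_self η₀.2] at h1
    exact_mod_cast h1
  have hnorm : ∑ χ, y χ ^ 2 = (H.index : ℤ) + 2 * c := by
    have h1 : classInner Y Y = (H.index : ℂ) + 2 * c := by
      show classInner (indFun N α + τ₁ η₀.1) (indFun N α + τ₁ η₀.1) = _
      rw [classInner_add_left, classInner_add_right, classInner_add_right, hI1, hd, inner_symm_of_int hd,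
        hinn _ hη₀' _ hη₀', irr_inner_self η₀.2, hcd]
      push_cast
      ring
    rw [hYnorm] at h1
    exact_mod_cast h1
  let IS : Finset (IrrCharacter G) := (sf H).image ψ
  have hsumIS : ∀ F : IrrCharacter G → ℤ, ∑ χ ∈ IS, F χ = ∑ η ∈ sf H, F (ψ η) :=
    fun F => Finset.sum_image hψinj
  have hsq : ∀ η ∈ sf H, σ η * σ η = 1 := by
    intro η hη
    rcases hσ η hη with h | h <;> rw [h] <;> norm_num
  have hbessel : ((sf H).card : ℤ) * c ^ 2 ≤ (H.index : ℤ) + 2 * c := by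
    rw [← hnorm]
    have h1 : ∑ χ ∈ IS, y χ ^ 2 = ((sf H).card : ℤ) * c ^ 2 := by
      rw [hsumIS, ← nsmul_eq_mul, ← Finset.sum_const]
      refine Finset.sum_congr rfl fun η hη => ?_
      rw [hyψ η hη]
      linear_combination (c ^ 2) * hsq η hη
    rw [← h1]
    exact Finset.sum_le_sum_of_subset_of_nonneg (Finset.subset_univ _) fun _ _ _ => sq_nonneg _
  have hspos : ((H.index : ℤ) + 2 < ((sf H).card : ℤ)) := by exact_mod_cast hs
  have hc0 : c = 0 := arith_zero (by positivity) hspos hbessel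
  subst hc0
  have hy0 : ∀ χ ∈ IS, y χ = 0 := by
    intro χ hχ
    obtain ⟨η, hη, rfl⟩ := Finset.mem_image.1 hχ
    rw [hyψ η hη, mul_zero]
  -- the shape of generalized characters orthogonal to all differences
  have hshape : ∀ ξ : G → ℂ, IsGeneralizedCharacter G ξ →
      (∀ η ∈ frobS H, ∀ η' ∈ frobS H, classInner ξ (τ₁ η - τ₁ η') = 0) →
      ∃ b a : ℤ, (∀ x ∈ H, x ≠ 1 → ξ (x : G) = b) ∧ ξ 1 = b + a * p := by
    intro ξ hξ h0
    obtain ⟨b, a, h1, h2⟩ := restrict_shape H hCH hp hcardH (ξ := fun n : N => ξ n) (isGen_restrict N hξ) (by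
      intro η hη η' hη'
      have h3 := h0 η hη η' hη'
      rw [← hind η hη η' hη'] at h3
      have h4 : classInner (indFun N (η - η')) ξ = 0 := by
        rw [← classInner_conj, h3]
        simp
      rw [frobenius_reciprocity N _ (IsGen.isClassFunction hξ),
        Cfsg.Agent.Lib.Coherence.inner_sub_left] at h4
      have h5 := sub_eq_zero.1 h4
      rw [← classInner_conj η, h5, classInner_conj])
    refine ⟨b, a, h1, ?_⟩
    simpa using h2
  obtain ⟨bY, aY, hbY, -⟩ := hshape Y hYgen hY3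
  obtain ⟨f, hf⟩ : ∃ f : ℤ, f = bY - (H.index : ℤ) := ⟨_, rfl⟩
  have hvalη₀ : ∀ x ∈ H, x ≠ 1 → τ₁ η₀.1 (x : G) = η₀.1 x + f := by
    intro x hx hx1
    have h1 := hbY x hx hx1
    have h2 : Y (x : G) = indFun N α (x : G) + τ₁ η₀.1 (x : G) := rfl
    rw [h2, ind_on_T T₀ hT₀ hαc hαT ⟨hx, hx1⟩] at h1
    have h3 : α x = H.index - η₀.1 x := by
      show rho H x - η₀.1 x = _
      rw [rho_on H hx]
    rw [h3] at h1
    rw [hf]
    push_cast
    linear_combination h1
  have hval : ∀ η ∈ frobS H, ∀ x ∈ H, x ≠ 1 → τ₁ η (x : G) = η x + f := by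
    intro η hη x hx hx1
    have h1 := congrFun (hind η hη _ hη₀') (x : G)
    rw [ind_on_T T₀ hT₀ (IsGen.isClassFunction (isGen_sub (hηgen η hη) (hηgen _ hη₀'))) (hsubT η hη _ hη₀') ⟨hx, hx1⟩] at h1
    simp only [Pi.sub_apply] at h1
    rw [hvalη₀ x hx hx1] at h1
    linear_combination -h1
  obtain ⟨x₀, hx₀, hx₀1⟩ : ∃ x₀ ∈ H, x₀ ≠ 1 := by
    rcases Subgroup.bot_or_exists_ne_one H with h | h
    · exact absurd h hH1
    · exact h
  have hχ0 : ∀ χ : IrrCharacter G, χ ∉ IS → ∀ η ∈ frobS H, classInner χ.1 (τ₁ η) = 0 := by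
    intro χ hχ η hη
    have hm : (⟨η, hη.1⟩ : IrrCharacter N) ∈ sf H := (mem_sf H).2 hη
    have h1 := hτψ ⟨η, hη.1⟩ hm
    have h2 : τ₁ η = _ := h1
    rw [h2, classInner_smul_right, irr_inner_ne χ.2 (ψ _).2, mul_zero]
    intro h3
    apply hχ
    exact Finset.mem_image.2 ⟨_, hm, Subtype.ext h3.symm⟩
  have hχshape : ∀ χ : IrrCharacter G, χ ∉ IS → ∃ b a : ℤ, (∀ x ∈ H, x ≠ 1 → χ.1 (x : G) = b) ∧
      χ.1 1 = b + a * p := by
    intro χ hχ
    refine hshape χ.1 (isGen_of_char (IsIrrCharacter.isCharacter' χ.2)) fun η hη η' hη' => ?_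
    rw [Cfsg.Agent.Lib.Coherence.inner_sub_right, hχ0 χ hχ η hη, hχ0 χ hχ η' hη', sub_zero]
  choose! b a hb ha using hχshape
  -- the column relation
  have hsplit : ∀ F : IrrCharacter G → ℂ, ∑ χ, F χ = ∑ χ ∈ IS, F χ +
      ∑ χ ∈ (Finset.univ : Finset (IrrCharacter G)).filter (fun χ => χ ∉ IS), F χ := by
    intro F
    rw [← Finset.sum_filter_add_sum_filter_not Finset.univ (fun χ => χ ∈ IS) F]
    congr 1
    refine Finset.sum_congr ?_ fun _ _ => rfl
    ext χ
    simp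
  have hsplitZ : ∀ F : IrrCharacter G → ℤ, ∑ χ, F χ = ∑ χ ∈ IS, F χ +
      ∑ χ ∈ (Finset.univ : Finset (IrrCharacter G)).filter (fun χ => χ ∉ IS), F χ := by
    intro F
    rw [← Finset.sum_filter_add_sum_filter_not Finset.univ (fun χ => χ ∈ IS) F]
    congr 1
    refine Finset.sum_congr ?_ fun _ _ => rfl
    ext χ
    simp
  have hcol := column_orthogonality (x₀ : G) (x₀ : G)
  rw [if_pos (IsConj.refl _), hCG x₀ hx₀ hx₀1, hsplit] at hcol
  have hIS : ∑ χ ∈ IS, χ.1 (x₀ : G) * conj (χ.1 (x₀ : G)) =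
      ((p : ℂ) - H.index) - 2 * f + ((sf H).card : ℂ) * (f : ℂ) ^ 2 := by
    rw [Finset.sum_image hψinj]
    have h1 : ∀ η ∈ sf H, (ψ η).1 (x₀ : G) * conj ((ψ η).1 (x₀ : G)) =
        η.1 x₀ * conj (η.1 x₀) + (f : ℂ) * η.1 x₀ + (f : ℂ) * conj (η.1 x₀) + (f : ℂ) ^ 2 := by
      intro η hη
      have h2 := hval _ ((mem_sf H).1 hη) x₀ hx₀ hx₀1
      rw [hτψ η hη] at h2
      have h3 : (σ η : ℂ) * (ψ η).1 (x₀ : G) = η.1 x₀ + f := h2
      have h4 : conj ((σ η : ℂ) * (ψ η).1 (x₀ : G)) = conj (η.1 x₀) + f := by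
        rw [h3]
        simp
      rw [map_mul, map_intCast] at h4
      have h5 := hσsq η hη
      have h6 : (ψ η).1 (x₀ : G) * conj ((ψ η).1 (x₀ : G)) =
          ((σ η : ℂ) * (ψ η).1 (x₀ : G)) * ((σ η : ℂ) * conj ((ψ η).1 (x₀ : G))) := by
        linear_combination (-(ψ η).1 (x₀ : G) * conj ((ψ η).1 (x₀ : G))) * h5
      rw [h6, h3, h4]
      ring
    rw [Finset.sum_congr rfl h1, Finset.sum_add_distrib, Finset.sum_add_distrib, Finset.sum_add_distrib,
      sum_frob_norm H hCH hcomm hx₀ hx₀1, ← Finset.mul_sum, ← Finset.mul_sum, ← map_sum,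
      sum_frob_value H hCH hcomm hindex hx₀ hx₀1, hcardH, Finset.sum_const, nsmul_eq_mul]
    simp
    ring
  have hnotIS : ∑ χ ∈ (Finset.univ : Finset (IrrCharacter G)).filter (fun χ => χ ∉ IS),
      χ.1 (x₀ : G) * conj (χ.1 (x₀ : G)) =
      ((∑ χ ∈ (Finset.univ : Finset (IrrCharacter G)).filter (fun χ => χ ∉ IS), b χ ^ 2 : ℤ) : ℂ) := by
    push_cast
    refine Finset.sum_congr rfl fun χ hχ => ?_
    rw [hb χ (Finset.mem_filter.1 hχ).2 x₀ hx₀ hx₀1, map_intCast, sq]
  rw [hIS, hnotIS] at hcol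
  have hbsum : ∑ χ ∈ (Finset.univ : Finset (IrrCharacter G)).filter (fun χ => χ ∉ IS), b χ ^ 2 =
      (H.index : ℤ) + 2 * f - ((sf H).card : ℤ) * f ^ 2 := by
    have h1 : ((∑ χ ∈ (Finset.univ : Finset (IrrCharacter G)).filter (fun χ => χ ∉ IS), b χ ^ 2 : ℤ) : ℂ) =
        (((H.index : ℤ) + 2 * f - ((sf H).card : ℤ) * f ^ 2 : ℤ) : ℂ) := by
      push_cast at hcol ⊢
      linear_combination hcol
    exact_mod_cast h1
  have hf0 : f = 0 := by
    have h1 : 0 ≤ ∑ χ ∈ (Finset.univ : Finset (IrrCharacter G)).filter (fun χ => χ ∉ IS), b χ ^ 2 :=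
      Finset.sum_nonneg fun _ _ => sq_nonneg _
    refine arith_zero (by positivity) hspos ?_
    linarith
  subst hf0
  have hbY' : bY = (H.index : ℤ) := by omega
  rw [mul_zero, add_zero, zero_pow two_ne_zero, mul_zero, sub_zero] at hbsum
  -- comparing coefficients
  have hYx₀ : ∑ χ ∈ (Finset.univ : Finset (IrrCharacter G)).filter (fun χ => χ ∉ IS), y χ * b χ = (H.index : ℤ) := by
    have h1 := congrFun hYexp (x₀ : G)
    rw [hbY x₀ hx₀ hx₀1, hbY'] at h1
    simp only [Finset.sum_apply, Pi.smul_apply, smul_eq_mul] at h1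
    rw [hsplit, Finset.sum_eq_zero (s := IS) (fun χ hχ => by rw [hy0 χ hχ]; simp), zero_add] at h1
    have h2 : ∑ χ ∈ (Finset.univ : Finset (IrrCharacter G)).filter (fun χ => χ ∉ IS), (y χ : ℂ) * χ.1 (x₀ : G) =
        ((∑ χ ∈ (Finset.univ : Finset (IrrCharacter G)).filter (fun χ => χ ∉ IS), y χ * b χ : ℤ) : ℂ) := by
      push_cast
      refine Finset.sum_congr rfl fun χ hχ => ?_
      rw [hb χ (Finset.mem_filter.1 hχ).2 x₀ hx₀ hx₀1]
    rw [h2] at h1
    have h3 : (((H.index : ℤ) : ℤ) : ℂ) = ((∑ χ ∈ (Finset.univ : Finset (IrrCharacter G)).filter (fun χ => χ ∉ IS), y χ * b χ : ℤ) : ℂ) := h1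
    exact_mod_cast h3.symm
  have hysum : ∑ χ ∈ (Finset.univ : Finset (IrrCharacter G)).filter (fun χ => χ ∉ IS), y χ ^ 2 = (H.index : ℤ) := by
    have h1 := hsplitZ (fun χ => y χ ^ 2)
    rw [hnorm, Finset.sum_eq_zero (s := IS) (fun χ hχ => by rw [hy0 χ hχ]; simp), zero_add] at h1
    rw [← h1]
    ring
  have heqb : ∀ χ, χ ∉ IS → y χ = b χ := by
    have h1 : ∑ χ ∈ (Finset.univ : Finset (IrrCharacter G)).filter (fun χ => χ ∉ IS), (y χ - b χ) ^ 2 = 0 := by
      have h2 : ∀ χ, (y χ - b χ) ^ 2 = y χ ^ 2 - 2 * (y χ * b χ) + b χ ^ 2 := fun χ => by ring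
      simp only [h2]
      rw [Finset.sum_add_distrib, Finset.sum_sub_distrib, ← Finset.mul_sum, hYx₀, hysum, hbsum]
      ring
    rw [Finset.sum_eq_zero_iff_of_nonneg (fun _ _ => sq_nonneg _)] at h1
    intro χ hχ
    have h2 := h1 χ (Finset.mem_filter.2 ⟨Finset.mem_univ _, hχ⟩)
    have h3 := pow_eq_zero_iff (two_ne_zero) |>.1 h2
    linarith
  have hyone : y (oneIrr G) = 1 := by
    have h1 := hYcoef (oneIrr G)
    have h2 : classInner Y (oneIrr G).1 = classInner (indFun N α) (oneIrr G).1 + classInner (τ₁ η₀.1) (oneIrr G).1 :=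
      classInner_add_left _ _ _
    have h3 : classInner (indFun N α) (oneIrr G).1 = 1 := by
      rw [frobenius_reciprocity N α (IsCharacter.isClassFunction' (IsIrrCharacter.isCharacter' (oneIrr G).2))]
      show classInner (ρ - η₀.1) (fun _ => 1) = 1
      rw [Cfsg.Agent.Lib.Coherence.inner_sub_left, rho_inner_one, frob_inner_one H hη₀', sub_zero]
    have h4 : classInner (τ₁ η₀.1) (oneIrr G).1 = 0 := by
      rw [hτψ η₀ hη₀, classInner_smul_left, irr_inner_ne (ψ η₀).2 (oneIrr G).2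
        (fun h => hψ₀ (Subtype.ext h)), mul_zero]
    rw [h2, h3, h4, add_zero] at h1
    exact_mod_cast h1.symm
  have hone : oneIrr G ∉ IS := by
    intro h
    rw [hy0 _ h] at hyone
    exact zero_ne_one hyone
  let T : Finset (IrrCharacter G) := (Finset.univ : Finset (IrrCharacter G)).filter
    (fun χ => χ ≠ oneIrr G ∧ y χ ≠ 0)
  have hTsub : T ⊆ (Finset.univ : Finset (IrrCharacter G)).erase (oneIrr G) := by
    intro χ hχ
    exact Finset.mem_erase.2 ⟨(Finset.mem_filter.1 hχ).2.1, Finset.mem_univ _⟩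
  have hTzero : ∀ χ ∈ (Finset.univ : Finset (IrrCharacter G)).erase (oneIrr G), χ ∉ T → y χ = 0 := by
    intro χ hχ hn
    by_contra hne
    exact hn (Finset.mem_filter.2 ⟨Finset.mem_univ _, Finset.ne_of_mem_erase hχ, hne⟩)
  refine ⟨T, y, ψ η₀, σ η₀, hσ η₀ hη₀, ?_, ?_, ?_⟩
  · intro χ hχ
    obtain ⟨-, h1, h2⟩ := Finset.mem_filter.1 hχ
    refine ⟨h1, h2, a χ, ?_⟩
    have hχIS : χ ∉ IS := fun h => h2 (hy0 χ h)
    have h3 := ha χ hχIS
    rw [apply_one_eq_deg] at h3
    rw [heqb χ hχIS]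
    exact_mod_cast h3
  · have h1 := hnorm
    rw [← Finset.add_sum_erase _ _ (Finset.mem_univ (oneIrr G)), hyone] at h1
    rw [← Finset.sum_subset hTsub (fun χ hχ hn => by rw [hTzero χ hχ hn]; simp)] at h1
    rw [mul_zero, add_zero] at h1
    linarith
  · have h1 := congrFun hYexp (1 : G)
    have h2 : Y 1 = indFun N α 1 + τ₁ η₀.1 1 := rfl
    rw [h2, indFun_one, hαT 1 (fun h => h.2 rfl), mul_zero, zero_add, hτψ η₀ hη₀] at h1
    simp only [Finset.sum_apply, Pi.smul_apply, smul_eq_mul, apply_one_eq_deg] at h1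
    rw [← Finset.add_sum_erase _ _ (Finset.mem_univ (oneIrr G)), hyone] at h1
    rw [← Finset.sum_subset hTsub (fun χ hχ hn => by rw [hTzero χ hχ hn]; simp)] at h1
    have h3 : deg (oneIrr G) = 1 := deg_oneIrr
    rw [h3] at h1
    have h4 : ((σ η₀ * (deg (ψ η₀) : ℤ) : ℤ) : ℂ) = ((1 + ∑ χ ∈ T, y χ * (deg χ : ℤ) : ℤ) : ℂ) := by
      push_cast
      simpa using h1
    exact_mod_cast h4

end Main

section Simple

variable {G : Type u} [Group G] [Fintype G] [IsSimpleGroup G]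

theorem deg_ne_one_of_simple (hG : ¬ IsMulCommutative G) (χ : IrrCharacter G) (hχ : χ ≠ oneIrr G) : deg χ ≠ 1 := by
  intro h1
  have h2 : χ.1 1 = 1 := by
    rw [apply_one_eq_deg, h1]
    simp
  let l : G →* ℂˣ := homOfDegreeOne (IsIrrCharacter.isCharacter' χ.2) h2
  have hl : ∀ g, ((l g : ℂˣ) : ℂ) = χ.1 g := fun g => rfl
  rcases IsSimpleGroup.eq_bot_or_eq_top_of_normal l.ker (MonoidHom.normal_ker l) with h | h
  · apply hG
    refine ⟨⟨fun a b => ?_⟩⟩
    have hinj : Function.Injective l := (MonoidHom.ker_eq_bot_iff l).1 h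
    apply hinj
    rw [map_mul, map_mul, mul_comm]
  · apply hχ
    apply Subtype.ext
    funext g
    have h3 : g ∈ l.ker := by rw [h]; trivial
    have h4 : l g = 1 := h3
    show χ.1 g = 1
    rw [← hl, h4]
    simp

theorem simple_relation (hG : ¬ IsMulCommutative G) {p : ℕ} [hpf : Fact p.Prime] (R : Sylow p G)
    (hcard : Nat.card (R : Subgroup G) = p) {e : ℕ} (he : e.Prime)
    (hN : Nat.card (Subgroup.normalizer ((R : Subgroup G) : Set G)) = p * e) (hbig : e * (e + 2) + 1 < p) :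
    ∃ (T : Finset (IrrCharacter G)) (y : IrrCharacter G → ℤ) (ψ : IrrCharacter G) (σ : ℤ),
      (σ = 1 ∨ σ = -1) ∧ (∀ χ ∈ T, χ ≠ oneIrr G ∧ y χ ≠ 0 ∧ ∃ a : ℤ, (deg χ : ℤ) = y χ + a * p) ∧
      ∑ χ ∈ T, y χ ^ 2 = (e : ℤ) - 1 ∧
      σ * (deg ψ : ℤ) = 1 + ∑ χ ∈ T, y χ * (deg χ : ℤ) := by
  classical
  have hp : p.Prime := hpf.out
  let N : Subgroup G := Subgroup.normalizer ((R : Subgroup G) : Set G)
  letI : Fintype N := Fintype.ofFinite _
  have hRN : (R : Subgroup G) ≤ N := Subgroup.le_normalizer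
  let H : Subgroup N := (R : Subgroup G).subgroupOf N
  haveI hHn : H.Normal := Subgroup.normal_in_normalizer
  have hcardH : Nat.card H = p :=
    (Nat.card_congr (Subgroup.subgroupOfEquivOfLe hRN).toEquiv).trans hcard
  have hidx : H.index = e := by
    have h1 := H.card_mul_index
    rw [hcardH, hN] at h1
    exact Nat.eq_of_mul_eq_mul_left hp.pos h1
  have hcommR : ∀ a ∈ (R : Subgroup G), ∀ b ∈ (R : Subgroup G), a * b = b * a := by
    haveI : Fact (Nat.card (R : Subgroup G)).Prime := ⟨by rw [hcard]; exact hp⟩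
    haveI : IsCyclic (R : Subgroup G) := isCyclic_of_prime_card rfl
    intro a ha b hb
    have h : (⟨a, ha⟩ : (R : Subgroup G)) * ⟨b, hb⟩ = ⟨b, hb⟩ * ⟨a, ha⟩ :=
      (IsCyclic.commGroup (α := (R : Subgroup G))).mul_comm _ _
    exact congrArg Subtype.val h
  have hcomm : ∀ a ∈ H, ∀ b ∈ H, a * b = b * a := fun a ha b hb =>
    Subtype.ext (hcommR a ha b hb)
  -- the centralizer
  let C : Subgroup G := Subgroup.centralizer ((R : Subgroup G) : Set G)
  have hRC : (R : Subgroup G) ≤ C := by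
    intro a ha
    rw [Subgroup.mem_centralizer_iff]
    intro b hb
    exact hcommR b hb a ha
  have hnc := Cfsg.Agent.Lib.SylowCount.not_normalizer_le_centralizer_of_simple hG R
    (by
      have h1 : Nat.card (R : Subgroup G) ∣ Nat.card G := Subgroup.card_subgroup_dvd_card _
      rwa [hcard] at h1)
  have hCR : C ≤ (R : Subgroup G) := by
    have hCN : C ≤ N := Subgroup.centralizer_le_normalizer _
    have hle : H ≤ C.subgroupOf N := fun x hx => hRC hx
    have hmul := Subgroup.relIndex_mul_index hle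
    rw [hidx] at hmul
    rcases Nat.prime_mul_iff.1 (hmul ▸ he) with ⟨_, h2⟩ | ⟨_, h2⟩
    · exfalso
      rw [Subgroup.index_eq_one] at h2
      apply hnc
      intro x hx
      have : (⟨x, hx⟩ : N) ∈ C.subgroupOf N := by
        rw [h2]
        trivial
      exact this
    · intro x hx
      rw [Subgroup.relIndex_eq_one] at h2
      exact h2 (show (⟨x, hCN hx⟩ : N) ∈ C.subgroupOf N from hx)
  have hCk : ∀ k ∈ (R : Subgroup G), k ≠ 1 → Subgroup.centralizer ({k} : Set G) ≤ (R : Subgroup G) := by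
    intro k hk hk1 z hz
    apply hCR
    rw [Subgroup.mem_centralizer_iff]
    intro a ha
    rw [← Cfsg.Agent.Lib.SylowCount.zpowers_eq_of_card_prime _ hcard hk hk1] at ha
    obtain ⟨n, rfl⟩ := ha
    rw [Subgroup.mem_centralizer_singleton_iff] at hz
    have hc : Commute z k := hz
    exact (hc.zpow_right n).symm.eq
  have hCH := frobenius_cond_of_ti (P := (R : Subgroup G)) (N := N) hCk
  have hCG : ∀ x ∈ H, x ≠ 1 → Nat.card (Subgroup.centralizer ({(x : G)} : Set G)) = p := by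
    intro x hx hx1
    have h1 : (x : G) ≠ 1 := fun h => hx1 (Subtype.ext h)
    have h2 : Subgroup.centralizer ({(x : G)} : Set G) = (R : Subgroup G) := by
      apply le_antisymm (hCk x hx h1)
      intro a ha
      rw [Subgroup.mem_centralizer_singleton_iff]
      exact hcommR a ha x hx
    rw [h2, hcard]
  have hT : ∀ x ∈ (H : Set N), x ≠ 1 → ∀ g : G, g ∉ N → ∀ y : N, (y : G) = g⁻¹ * x * g → y ∉ (H : Set N) := by
    intro x hx hx1 g hg y hy hyH
    apply hg
    have hx1' : (x : G) ≠ 1 := fun h => hx1 (Subtype.ext h)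
    have hy1' : (y : G) ≠ 1 := by
      rw [hy]
      intro h
      apply hx1'
      have : g * (g⁻¹ * (x : G) * g) * g⁻¹ = x := by group
      rw [← this, h]
      group
    have hxR : (x : G) ∈ (R : Subgroup G) := hx
    have hyR : (y : G) ∈ (R : Subgroup G) := hyH
    have e1 := Cfsg.Agent.Lib.SylowCount.zpowers_eq_of_card_prime _ hcard hxR hx1'
    have e2 := Cfsg.Agent.Lib.SylowCount.zpowers_eq_of_card_prime _ hcard hyR hy1'
    have hgy : g * (y : G) * g⁻¹ = x := by rw [hy]; group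
    rw [Subgroup.mem_normalizer_iff]
    intro h
    constructor
    · intro hh
      rw [← e2] at hh
      obtain ⟨k, rfl⟩ := hh
      have : g * (y : G) ^ k * g⁻¹ = (x : G) ^ k := by
        rw [← conj_zpow, hgy]
      show g * (y : G) ^ k * g⁻¹ ∈ (R : Subgroup G)
      rw [this]
      exact Subgroup.zpow_mem _ hxR k
    · intro hh
      rw [← e1] at hh
      obtain ⟨k, hk⟩ := hh
      have hk' : (x : G) ^ k = g * h * g⁻¹ := hk
      have h3 : g⁻¹ * (x : G) ^ k * g = (y : G) ^ k := by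
        have h4 := conj_zpow (a := g⁻¹) (b := (x : G)) (i := k)
        rw [inv_inv] at h4
        rw [← h4, hy]
      have h5 : h = (y : G) ^ k := by
        rw [← h3, hk']
        group
      rw [h5]
      exact Subgroup.zpow_mem _ hyR k
  have hres := brauer_core hp N H hcardH hcomm hT hCH hCG (by rw [hidx]; exact he.one_lt.ne') (by rw [hidx]; exact hbig)
  rw [hidx] at hres
  exact hres

/-- The relation for `e = 2`. -/
theorem rel_two (hG : ¬ IsMulCommutative G) {p : ℕ} [hpf : Fact p.Prime] (R : Sylow p G)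
    (hcard : Nat.card (R : Subgroup G) = p)
    (hN : Nat.card (Subgroup.normalizer ((R : Subgroup G) : Set G)) = p * 2) (hbig : 9 < p) :
    ∃ d u : ℕ, 1 < d ∧ d ∣ Nat.card G ∧ u ∣ Nat.card G ∧
      ((p ∣ d - 1 ∧ u = d + 1) ∨ (p ∣ d + 1 ∧ u + 1 = d)) := by
  classical
  obtain ⟨T, y, ψ, σ, hσ, hT, hsum, hrel⟩ := simple_relation hG R hcard Nat.prime_two hN (by omega)
  norm_num at hsum
  have hcardT : T.card = 1 := by
    have h1 : ∑ χ ∈ T, (1 : ℤ) ≤ ∑ χ ∈ T, y χ ^ 2 := by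
      refine Finset.sum_le_sum fun χ hχ => ?_
      have := (hT χ hχ).2.1
      have h2 : 0 < y χ ^ 2 := by positivity
      omega
    rw [hsum] at h1
    simp only [Finset.sum_const, nsmul_eq_mul, mul_one] at h1
    have h2 : T.card ≤ 1 := by exact_mod_cast h1
    have h3 : T.card ≠ 0 := by
      intro h
      rw [Finset.card_eq_zero] at h
      rw [h] at hsum
      simp at hsum
    omega
  obtain ⟨χ, rfl⟩ := Finset.card_eq_one.1 hcardT
  simp only [Finset.sum_singleton] at hsum hrel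
  obtain ⟨h1, h2, a, h3⟩ := hT χ (Finset.mem_singleton_self χ)
  have hd1 := deg_ne_one_of_simple hG χ h1
  have hd0 := deg_pos χ
  have hy : y χ = 1 ∨ y χ = -1 := by
    have h4 : (y χ - 1) * (y χ + 1) = 0 := by linear_combination hsum
    rcases mul_eq_zero.1 h4 with h5 | h5
    · left; omega
    · right; omega
  have hu0 := deg_pos ψ
  refine ⟨deg χ, deg ψ, by omega, Cfsg.Agent.Lib.H7Char.deg_dvd_card χ, Cfsg.Agent.Lib.H7Char.deg_dvd_card ψ, ?_⟩
  rcases hy with hy | hy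
  · left
    rw [hy] at hrel h3
    constructor
    · have h5 : (p : ℤ) ∣ ((deg χ - 1 : ℕ) : ℤ) := by
        rw [Nat.cast_sub (by omega), h3]
        exact ⟨a, by push_cast; ring⟩
      exact_mod_cast h5
    · rcases hσ with h5 | h5 <;> rw [h5] at hrel <;> omega
  · right
    rw [hy] at hrel h3
    constructor
    · have h5 : (p : ℤ) ∣ ((deg χ + 1 : ℕ) : ℤ) := by
        push_cast
        rw [h3]
        exact ⟨a, by ring⟩
      exact_mod_cast h5
    · rcases hσ with h5 | h5 <;> rw [h5] at hrel <;> omega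

/-- The relation for `e = 3`. -/
theorem rel_three (hG : ¬ IsMulCommutative G) {p : ℕ} [hpf : Fact p.Prime] (R : Sylow p G)
    (hcard : Nat.card (R : Subgroup G) = p)
    (hN : Nat.card (Subgroup.normalizer ((R : Subgroup G) : Set G)) = p * 3) (hbig : 16 < p) :
    ∃ (y₁ y₂ : ℤ) (d₁ d₂ u : ℕ), (y₁ = 1 ∨ y₁ = -1) ∧ (y₂ = 1 ∨ y₂ = -1) ∧ 1 < d₁ ∧ 1 < d₂ ∧
      d₁ ∣ Nat.card G ∧ d₂ ∣ Nat.card G ∧ u ∣ Nat.card G ∧ (p : ℤ) ∣ (d₁ : ℤ) - y₁ ∧ (p : ℤ) ∣ (d₂ : ℤ) - y₂ ∧
      ((u : ℤ) = 1 + y₁ * d₁ + y₂ * d₂ ∨ (u : ℤ) = -(1 + y₁ * d₁ + y₂ * d₂)) := by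
  classical
  obtain ⟨T, y, ψ, σ, hσ, hT, hsum, hrel⟩ := simple_relation hG R hcard Nat.prime_three hN (by omega)
  norm_num at hsum
  have hpos : ∀ χ ∈ T, 1 ≤ y χ ^ 2 := by
    intro χ hχ
    have := (hT χ hχ).2.1
    have h2 : 0 < y χ ^ 2 := by positivity
    omega
  have hcardT : T.card = 2 := by
    have h1 : ∑ χ ∈ T, (1 : ℤ) ≤ ∑ χ ∈ T, y χ ^ 2 := Finset.sum_le_sum hpos
    rw [hsum] at h1
    simp only [Finset.sum_const, nsmul_eq_mul, mul_one] at h1
    have h2 : T.card ≤ 2 := by exact_mod_cast h1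
    have h3 : T.card ≠ 0 := by
      intro h
      rw [Finset.card_eq_zero] at h
      rw [h] at hsum
      simp at hsum
    have h4 : T.card ≠ 1 := by
      intro h
      obtain ⟨χ, rfl⟩ := Finset.card_eq_one.1 h
      simp only [Finset.sum_singleton] at hsum
      have h5 : |y χ| < 2 := by
        rw [← sq_lt_sq₀ (abs_nonneg _) (by norm_num)]
        rw [sq_abs]
        omega
      have h6 : 0 ≤ |y χ| := abs_nonneg _
      have h7 : |y χ| ^ 2 = 2 := by rw [sq_abs]; exact hsum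
      interval_cases |y χ| <;> omega
    omega
  obtain ⟨χ₁, χ₂, hne, rfl⟩ := Finset.card_eq_two.1 hcardT
  rw [Finset.sum_pair hne] at hsum hrel
  have m1 : χ₁ ∈ ({χ₁, χ₂} : Finset (IrrCharacter G)) := by simp
  have m2 : χ₂ ∈ ({χ₁, χ₂} : Finset (IrrCharacter G)) := by simp
  obtain ⟨a1, a2, a₁, a3⟩ := hT χ₁ m1
  obtain ⟨b1, b2, a₂, b3⟩ := hT χ₂ m2
  have hp1 := hpos χ₁ m1
  have hp2 := hpos χ₂ m2
  have hsq : ∀ z : ℤ, z ^ 2 = 1 → z = 1 ∨ z = -1 := by
    intro z hz
    have h4 : (z - 1) * (z + 1) = 0 := by linear_combination hz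
    rcases mul_eq_zero.1 h4 with h5 | h5
    · left; omega
    · right; omega
  have hy1 := hsq (y χ₁) (by omega)
  have hy2 := hsq (y χ₂) (by omega)
  have hd1 := deg_ne_one_of_simple hG χ₁ a1
  have hd2 := deg_ne_one_of_simple hG χ₂ b1
  have hd1' := deg_pos χ₁
  have hd2' := deg_pos χ₂
  refine ⟨y χ₁, y χ₂, deg χ₁, deg χ₂, deg ψ, hy1, hy2, by omega, by omega, Cfsg.Agent.Lib.H7Char.deg_dvd_card χ₁,
    Cfsg.Agent.Lib.H7Char.deg_dvd_card χ₂, Cfsg.Agent.Lib.H7Char.deg_dvd_card ψ, ?_, ?_, ?_⟩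
  · rw [a3]
    exact ⟨a₁, by ring⟩
  · rw [b3]
    exact ⟨a₂, by ring⟩
  · rcases hσ with h5 | h5 <;> rw [h5] at hrel
    · left
      linarith
    · right
      linarith

end Simple

end Cfsg.Agent.Lib.BrauerRel
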