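import Mathlib
import Cfsg.Agent.S0769

/-! The lower unitriangular subgroup of `SL_n(2)`: it is a Sylow subgroup, and the elements `y` with
`U ∩ yUy⁻¹ = 1` number at most `|U|²`. -/

set_option autoImplicit false

namespace Cfsg.Agent.Lib.BruhatF2

open Matrix

variable {n : ℕ}

/-- The group. -/
abbrev SS (n : ℕ) := Matrix.SpecialLinearGroup (Fin n) (ZMod 2)

theorem mul_lower {g h : Matrix (Fin n) (Fin n) (ZMod 2)} (hg : ∀ i j, i < j → g i j = 0)
    (hh : ∀ i j, i < j → h i j = 0) : ∀ i j, i < j → (g * h) i j = 0 := by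
  intro i j hij
  rw [Matrix.mul_apply]
  apply Finset.sum_eq_zero
  intro k _
  rcases lt_or_ge i k with hk | hk
  · rw [hg i k hk, zero_mul]
  · rw [hh k j (lt_of_le_of_lt hk hij), mul_zero]

/-- The lower triangular subgroup of `SL_n(2)`. -/
def lowU (n : ℕ) : Subgroup (SS n) where
  carrier := {g | ∀ i j, i < j → (g : Matrix (Fin n) (Fin n) (ZMod 2)) i j = 0}
  mul_mem' := by
    intro a b ha hb
    change ∀ i j, i < j → ((a * b : SS n) : Matrix (Fin n) (Fin n) (ZMod 2)) i j = 0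
    rw [Matrix.SpecialLinearGroup.coe_mul]
    exact mul_lower ha hb
  one_mem' := by
    intro i j hij
    rw [Matrix.SpecialLinearGroup.coe_one, Matrix.one_apply_ne hij.ne]
  inv_mem' := by
    intro a ha
    have hpow : ∀ m : ℕ, a ^ m ∈ {g : SS n | ∀ i j, i < j → (g : Matrix (Fin n) (Fin n) (ZMod 2)) i j = 0} := by
      intro m
      induction m with
      | zero =>
        intro i j hij
        rw [pow_zero, Matrix.SpecialLinearGroup.coe_one, Matrix.one_apply_ne hij.ne]
      | succ m ih =>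
        intro i j hij
        rw [pow_succ, Matrix.SpecialLinearGroup.coe_mul]
        exact mul_lower ih ha i j hij
    have e : a⁻¹ = a ^ (orderOf a - 1) := by
      rw [eq_comm, ← mul_left_inj a, inv_mul_cancel, ← pow_succ, Nat.sub_add_cancel (orderOf_pos a),
        pow_orderOf_eq_one]
    rw [Set.mem_setOf_eq, e]
    exact hpow _

theorem mem_lowU {g : SS n} : g ∈ lowU n ↔ ∀ i j, i < j → (g : Matrix (Fin n) (Fin n) (ZMod 2)) i j = 0 :=
  Iff.rfl

theorem zmod2_eq_one {x : ZMod 2} (h : x ≠ 0) : x = 1 := by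
  revert x
  decide

theorem zmod2_add_self (x : ZMod 2) : x + x = 0 := by
  revert x
  decide

/-- A lower unitriangular matrix, as an element of the group. -/
noncomputable def mkS (M : Matrix (Fin n) (Fin n) (ZMod 2)) (h : ∀ i j, i < j → M i j = 0) (hd : ∀ i, M i i = 1) : SS n :=
  ⟨M, by
    have h1 : M.BlockTriangular OrderDual.toDual := fun i j hij => h i j hij
    rw [Matrix.det_of_isLowerTriangular _ h1]
    simp [hd]⟩

theorem L_entry (A : Matrix (Fin n) (Fin n) (ZMod 2)) (v : Fin n → ZMod 2) (r a b : Fin n) :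
    ((1 + vecMulVec v (Pi.single r 1)) * A) a b = A a b + v a * A r b := by
  rw [Matrix.add_mul, Matrix.one_mul, Matrix.add_apply, Matrix.mul_apply]
  congr 1
  rw [Finset.sum_eq_single r]
  · simp [vecMulVec_apply]
  · intro c _ hc
    simp [vecMulVec_apply, Pi.single_apply, hc]
  · simp

theorem R_entry (A : Matrix (Fin n) (Fin n) (ZMod 2)) (ρ : Fin n → ZMod 2) (c a b : Fin n) :
    (A * (1 + vecMulVec (Pi.single c 1) ρ)) a b = A a b + A a c * ρ b := by
  rw [Matrix.mul_add, Matrix.mul_one, Matrix.add_apply, Matrix.mul_apply]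
  congr 1
  rw [Finset.sum_eq_single c]
  · simp [vecMulVec_apply]
  · intro d _ hd
    simp [vecMulVec_apply, Pi.single_apply, hd]
  · simp

theorem tr_apply (v φ : Fin n → ZMod 2) (a b : Fin n) :
    (1 + vecMulVec v φ) a b = (1 : Matrix (Fin n) (Fin n) (ZMod 2)) a b + v a * φ b := by
  rw [Matrix.add_apply, vecMulVec_apply]

/-- The lower unitriangular transvection along a row. -/
noncomputable def TL (v : Fin n → ZMod 2) (r : Fin n) (hv : ∀ a, a ≤ r → v a = 0) : SS n :=
  mkS (1 + vecMulVec v (Pi.single r 1))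
    (by
      intro i j hij
      rw [tr_apply, Matrix.one_apply_ne hij.ne]
      by_cases hj : j = r
      · subst hj
        rw [hv i hij.le, zero_mul, add_zero]
      · simp [Pi.single_apply, hj])
    (by
      intro i
      rw [tr_apply, Matrix.one_apply_eq]
      by_cases hi : i = r
      · subst hi
        rw [hv i le_rfl, zero_mul, add_zero]
      · simp [Pi.single_apply, hi])

/-- The lower unitriangular transvection along a column. -/
noncomputable def TR (ρ : Fin n → ZMod 2) (c : Fin n) (hρ : ∀ b, c ≤ b → ρ b = 0) : SS n :=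
  mkS (1 + vecMulVec (Pi.single c 1) ρ)
    (by
      intro i j hij
      rw [tr_apply, Matrix.one_apply_ne hij.ne]
      by_cases hi : i = c
      · subst hi
        rw [hρ j hij.le, mul_zero, add_zero]
      · simp [Pi.single_apply, hi])
    (by
      intro i
      rw [tr_apply, Matrix.one_apply_eq]
      by_cases hi : i = c
      · subst hi
        rw [hρ i le_rfl, mul_zero, add_zero]
      · simp [Pi.single_apply, hi])

theorem TL_mem (v : Fin n → ZMod 2) (r : Fin n) (hv : ∀ a, a ≤ r → v a = 0) : TL v r hv ∈ lowU n := by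
  intro i j hij
  change (1 + vecMulVec v (Pi.single r 1) : Matrix (Fin n) (Fin n) (ZMod 2)) i j = 0
  rw [tr_apply, Matrix.one_apply_ne hij.ne]
  by_cases hj : j = r
  · subst hj
    rw [hv i hij.le, zero_mul, add_zero]
  · simp [Pi.single_apply, hj]

theorem TR_mem (ρ : Fin n → ZMod 2) (c : Fin n) (hρ : ∀ b, c ≤ b → ρ b = 0) : TR ρ c hρ ∈ lowU n := by
  intro i j hij
  change (1 + vecMulVec (Pi.single c 1) ρ : Matrix (Fin n) (Fin n) (ZMod 2)) i j = 0
  rw [tr_apply, Matrix.one_apply_ne hij.ne]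
  by_cases hi : i = c
  · subst hi
    rw [hρ j hij.le, mul_zero, add_zero]
  · simp [Pi.single_apply, hi]

/-- The invariant after `k` steps. -/
def Inv (A : SS n) (k : ℕ) : Prop :=
  (∀ t : Fin n, (t : ℕ) < k → ∀ i, (A : Matrix (Fin n) (Fin n) (ZMod 2)) i (Fin.rev t) = if i = t then 1 else 0) ∧
  (∀ t : Fin n, (t : ℕ) < k → ∀ j, (A : Matrix (Fin n) (Fin n) (ZMod 2)) t j = if j = Fin.rev t then 1 else 0)

theorem rev_inj {a b : Fin n} (h : Fin.rev a = Fin.rev b) : a = b := Fin.rev_injective h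

/-- The elements `y` with `U ∩ yUy⁻¹ = 1`. -/
def IsOpp (y : SS n) : Prop := ∀ t ∈ lowU n, y * t * y⁻¹ ∈ lowU n → t = 1

theorem pivot_ne {A : SS n} (hA : IsOpp A) {t₀ : Fin n} (hinv : Inv A (t₀ : ℕ)) :
    (A : Matrix (Fin n) (Fin n) (ZMod 2)) t₀ (Fin.rev t₀) ≠ 0 := by
  intro h0
  let B : Matrix (Fin n) (Fin n) (ZMod 2) := A
  have hB : ∀ i j, B i j = (A : Matrix (Fin n) (Fin n) (ZMod 2)) i j := fun _ _ => rfl
  have hv : ∀ a, a ≤ t₀ → (fun i => B i (Fin.rev t₀)) a = 0 := by
    intro a ha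
    rcases lt_or_eq_of_le ha with h | rfl
    · have h1 := hinv.2 a h (Fin.rev t₀)
      have h2 : Fin.rev t₀ ≠ Fin.rev a := fun e => h.ne (rev_inj e).symm
      rw [if_neg h2] at h1
      exact h1
    · exact h0
  have hρ : ∀ b, Fin.rev t₀ ≤ b → (fun j => B t₀ j) b = 0 := by
    intro b hb
    rcases lt_or_eq_of_le hb with h | rfl
    · have h3 : Fin.rev b < t₀ := by
        have := Fin.rev_lt_rev.2 h
        rwa [Fin.rev_rev] at this
      have h1 := hinv.1 (Fin.rev b) h3 t₀
      rw [Fin.rev_rev, if_neg h3.ne'] at h1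
      exact h1
    · exact h0
  let T := TL (fun i => B i (Fin.rev t₀)) t₀ hv
  let T' := TR (fun j => B t₀ j) (Fin.rev t₀) hρ
  have hT : T ∈ lowU n := TL_mem _ _ _
  have hT' : T' ∈ lowU n := TR_mem _ _ _
  have hrel : A * T' = T * A := by
    apply Subtype.ext
    rw [Matrix.SpecialLinearGroup.coe_mul, Matrix.SpecialLinearGroup.coe_mul]
    ext a b
    change (B * (1 + vecMulVec (Pi.single (Fin.rev t₀) 1) (fun j => B t₀ j))) a b =
      ((1 + vecMulVec (fun i => B i (Fin.rev t₀)) (Pi.single t₀ 1)) * B) a b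
    rw [R_entry, L_entry]
  have h1 : A * T' * A⁻¹ = T := by
    rw [hrel]
    group
  have h2 := hA T' hT' (by rw [h1]; exact hT)
  -- the row of the pivot does not vanish
  have h3 : ∃ j, B t₀ j ≠ 0 := by
    by_contra hcon
    push Not at hcon
    have h4 : B.det = 0 := Matrix.det_eq_zero_of_row_eq_zero t₀ hcon
    have h5 : B.det = 1 := A.2
    rw [h4] at h5
    exact zero_ne_one h5
  obtain ⟨j, hj⟩ := h3
  have h6 := congrArg (fun g : SS n => (g : Matrix (Fin n) (Fin n) (ZMod 2)) (Fin.rev t₀) j) h2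
  change (1 + vecMulVec (Pi.single (Fin.rev t₀) 1) (fun j => B t₀ j)) (Fin.rev t₀) j =
    ((1 : SS n) : Matrix (Fin n) (Fin n) (ZMod 2)) (Fin.rev t₀) j at h6
  rw [tr_apply, Matrix.SpecialLinearGroup.coe_one] at h6
  simp at h6
  exact hj h6

theorem step {A : SS n} {t₀ : Fin n} (hinv : Inv A (t₀ : ℕ))
    (hp : (A : Matrix (Fin n) (Fin n) (ZMod 2)) t₀ (Fin.rev t₀) ≠ 0) :
    ∃ L ∈ lowU n, ∃ R ∈ lowU n, Inv (L * A * R) ((t₀ : ℕ) + 1) := by
  let B : Matrix (Fin n) (Fin n) (ZMod 2) := A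
  have hB : B t₀ (Fin.rev t₀) = 1 := zmod2_eq_one hp
  -- columns above the pivot vanish
  have hc : ∀ a, a < t₀ → B a (Fin.rev t₀) = 0 := by
    intro a h
    have h1 := hinv.2 a h (Fin.rev t₀)
    have h2 : Fin.rev t₀ ≠ Fin.rev a := fun e => h.ne (rev_inj e).symm
    rw [if_neg h2] at h1
    exact h1
  have hr : ∀ b, Fin.rev t₀ < b → B t₀ b = 0 := by
    intro b h
    have h3 : Fin.rev b < t₀ := by
      have := Fin.rev_lt_rev.2 h
      rwa [Fin.rev_rev] at this
    have h1 := hinv.1 (Fin.rev b) h3 t₀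
    rw [Fin.rev_rev, if_neg h3.ne'] at h1
    exact h1
  let v : Fin n → ZMod 2 := fun a => if a = t₀ then 0 else B a (Fin.rev t₀)
  let ρ : Fin n → ZMod 2 := fun b => if b = Fin.rev t₀ then 0 else B t₀ b
  have hv : ∀ a, a ≤ t₀ → v a = 0 := by
    intro a ha
    rcases lt_or_eq_of_le ha with h | rfl
    · simp only [v, if_neg h.ne]
      exact hc a h
    · simp [v]
  have hρ : ∀ b, Fin.rev t₀ ≤ b → ρ b = 0 := by
    intro b hb
    rcases lt_or_eq_of_le hb with h | rfl
    · simp only [ρ, if_neg h.ne']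
      exact hr b h
    · simp [ρ]
  refine ⟨TL v t₀ hv, TL_mem _ _ _, TR ρ (Fin.rev t₀) hρ, TR_mem _ _ _, ?_⟩
  have hf : ∀ a b, ((TL v t₀ hv * A * TR ρ (Fin.rev t₀) hρ : SS n) : Matrix (Fin n) (Fin n) (ZMod 2)) a b =
      B a b + v a * B t₀ b + (if a = t₀ then ρ b else 0) := by
    intro a b
    rw [Matrix.SpecialLinearGroup.coe_mul, Matrix.SpecialLinearGroup.coe_mul]
    change (((1 + vecMulVec v (Pi.single t₀ 1)) * B) * (1 + vecMulVec (Pi.single (Fin.rev t₀) 1) ρ)) a b = _
    rw [R_entry, L_entry, L_entry, hB, mul_one]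
    congr 1
    by_cases ha : a = t₀
    · subst ha
      simp [v, hB]
    · simp only [v, if_neg ha, zmod2_add_self, zero_mul]
  constructor
  · intro t ht i
    rw [hf]
    rcases Nat.lt_succ_iff_lt_or_eq.1 ht with ht | ht
    · -- old column
      have h1 : B i (Fin.rev t) = if i = t then 1 else 0 := hinv.1 t ht i
      have ht0 : t₀ ≠ t := fun e => ht.ne (by rw [e])
      have h2 : B t₀ (Fin.rev t) = 0 := by
        have := hinv.1 t ht t₀
        rw [if_neg ht0] at this
        exact this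
      have h3 : ρ (Fin.rev t) = 0 := by
        simp only [ρ]
        split_ifs
        · rfl
        · exact h2
      rw [h1, h2, h3]
      simp
    · have ht' : t = t₀ := Fin.ext ht
      subst ht'
      by_cases hi : i = t
      · subst hi
        simp [v, ρ, hB]
      · simp [v, ρ, hi, hB, zmod2_add_self]
  · intro t ht j
    rw [hf]
    rcases Nat.lt_succ_iff_lt_or_eq.1 ht with ht | ht
    · have h1 : B t j = if j = Fin.rev t then 1 else 0 := hinv.2 t ht j
      have ht0 : t ≠ t₀ := fun e => ht.ne (by rw [e])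
      have h2 : v t = 0 := by
        simp only [v, if_neg ht0]
        have := hinv.2 t ht (Fin.rev t₀)
        rw [if_neg (fun e => ht0 (rev_inj e).symm)] at this
        exact this
      rw [h1, h2, if_neg ht0]
      simp
    · have ht' : t = t₀ := Fin.ext ht
      subst ht'
      by_cases hj : j = Fin.rev t
      · subst hj
        simp [v, ρ, hB]
      · simp [v, ρ, hj, zmod2_add_self]

theorem IsOpp.mul {y : SS n} (hy : IsOpp y) {u₁ u₂ : SS n} (h₁ : u₁ ∈ lowU n) (h₂ : u₂ ∈ lowU n) :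
    IsOpp (u₁ * y * u₂) := by
  intro t ht h
  have ht' : u₂ * t * u₂⁻¹ ∈ lowU n := (lowU n).mul_mem ((lowU n).mul_mem h₂ ht) ((lowU n).inv_mem h₂)
  have h3 : y * (u₂ * t * u₂⁻¹) * y⁻¹ ∈ lowU n := by
    have h4 := (lowU n).mul_mem ((lowU n).mul_mem ((lowU n).inv_mem h₁) h) h₁
    have e : u₁⁻¹ * (u₁ * y * u₂ * t * (u₁ * y * u₂)⁻¹) * u₁ = y * (u₂ * t * u₂⁻¹) * y⁻¹ := by group
    rwa [e] at h4
  have h5 := hy _ ht' h3
  have e : t = u₂⁻¹ * (u₂ * t * u₂⁻¹) * u₂ := by group
  rw [e, h5]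
  group

theorem elim {y : SS n} (hy : IsOpp y) (k : ℕ) (hk : k ≤ n) :
    ∃ u₁ ∈ lowU n, ∃ u₂ ∈ lowU n, Inv (u₁ * y * u₂) k := by
  induction k with
  | zero =>
    refine ⟨1, (lowU n).one_mem, 1, (lowU n).one_mem, ?_, ?_⟩
    · intro t ht
      omega
    · intro t ht
      omega
  | succ k ih =>
    obtain ⟨u₁, h₁, u₂, h₂, hinv⟩ := ih (by omega)
    let t₀ : Fin n := ⟨k, by omega⟩
    have hp := pivot_ne (hy.mul h₁ h₂) (t₀ := t₀) hinv
    obtain ⟨L, hL, R, hR, hinv'⟩ := step (t₀ := t₀) hinv hp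
    refine ⟨L * u₁, (lowU n).mul_mem hL h₁, u₂ * R, (lowU n).mul_mem h₂ hR, ?_⟩
    have e : L * u₁ * y * (u₂ * R) = L * (u₁ * y * u₂) * R := by group
    rw [e]
    exact hinv'

theorem card_opp_le : Nat.card {y : SS n // IsOpp y} ≤ Nat.card (lowU n) ^ 2 := by
  classical
  have hex : ∀ y : {y : SS n // IsOpp y}, ∃ p : lowU n × lowU n,
      ∀ i c, (((p.1 : SS n) * y.1 * (p.2 : SS n) : SS n) : Matrix (Fin n) (Fin n) (ZMod 2)) i c =
        if i = Fin.rev c then 1 else 0 := by
    intro y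
    obtain ⟨u₁, h₁, u₂, h₂, hinv⟩ := elim y.2 n le_rfl
    refine ⟨(⟨u₁, h₁⟩, ⟨u₂, h₂⟩), ?_⟩
    intro i c
    have h := hinv.1 (Fin.rev c) (Fin.rev c).2 i
    rw [Fin.rev_rev] at h
    exact h
  choose f hf using hex
  have hinj : Function.Injective f := by
    intro y y' hyy
    have h1 : (((f y).1 : SS n) * y.1 * ((f y).2 : SS n)) = (((f y').1 : SS n) * y'.1 * ((f y').2 : SS n)) := by
      apply Subtype.ext
      ext i c
      rw [hf y i c, hf y' i c]
    rw [hyy] at h1
    exact Subtype.ext (mul_left_cancel (mul_right_cancel h1))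
  have h2 := Nat.card_le_card_of_injective f hinj
  rwa [Nat.card_prod, ← pow_two] at h2

/-- Over the field with two elements `SL` and `GL` coincide. -/
noncomputable def SL_equiv_GL (n : ℕ) : SS n ≃ GL (Fin n) (ZMod 2) where
  toFun g := Matrix.SpecialLinearGroup.toGL g
  invFun g := ⟨(g : Matrix (Fin n) (Fin n) (ZMod 2)), by
    have h := (Matrix.isUnit_iff_isUnit_det _).1 g.isUnit
    exact zmod2_eq_one h.ne_zero⟩
  left_inv g := by
    apply Subtype.ext
    rfl
  right_inv g := by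
    apply Units.ext
    rfl

theorem card_lowU (n : ℕ) : Nat.card (lowU n) = 2 ^ (n * (n - 1) / 2) := by
  have h := Cfsg.Agent.S0769.result (F := ZMod 2) (q := 2) (by simp) n
  have e : lowU n ≃ {g : GL (Fin n) (ZMod 2) // ∀ i j : Fin n, i < j → (g : Matrix (Fin n) (Fin n) (ZMod 2)) i j = 0} :=
    { toFun := fun g => ⟨SL_equiv_GL n g.1, g.2⟩
      invFun := fun g => ⟨(SL_equiv_GL n).symm g.1, g.2⟩
      left_inv := fun g => Subtype.ext ((SL_equiv_GL n).left_inv g.1)
      right_inv := fun g => Subtype.ext ((SL_equiv_GL n).right_inv g.1) }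
  rw [Nat.card_congr e, h]
  simp

theorem factorization_card (n : ℕ) : (Nat.card (SS n)).factorization 2 = n * (n - 1) / 2 := by
  rw [Nat.card_congr (SL_equiv_GL n), Matrix.card_GL_field]
  simp only [ZMod.card]
  have hterm : ∀ i : Fin n, 2 ^ n - 2 ^ (i : ℕ) = 2 ^ (i : ℕ) * (2 ^ (n - i) - 1) := by
    intro i
    have : n = i + (n - i) := by omega
    rw [Nat.mul_sub, mul_one, ← pow_add, ← this]
  have hne : ∀ i : Fin n, 2 ^ n - 2 ^ (i : ℕ) ≠ 0 := by
    intro i
    have : 2 ^ (i : ℕ) < 2 ^ n := Nat.pow_lt_pow_right (by norm_num) i.2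
    omega
  rw [Nat.factorization_prod (fun i _ => hne i), Finsupp.finset_sum_apply]
  have h1 : ∀ i : Fin n, (2 ^ n - 2 ^ (i : ℕ)).factorization 2 = (i : ℕ) := by
    intro i
    rw [hterm]
    have h2 : 2 ^ (n - i) - 1 ≠ 0 := by
      have : 2 ^ 1 ≤ 2 ^ (n - (i : ℕ)) := Nat.pow_le_pow_right (by norm_num) (by omega)
      omega
    have hodd : ¬ 2 ∣ 2 ^ (n - i) - 1 := by
      have h3 : 2 ∣ 2 ^ (n - (i : ℕ)) := dvd_pow_self 2 (by omega)
      have h4 : 1 ≤ 2 ^ (n - (i : ℕ)) := Nat.one_le_two_pow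
      omega
    rw [Nat.factorization_mul (by positivity) h2, Finsupp.add_apply, Nat.Prime.factorization_pow Nat.prime_two,
      Finsupp.single_eq_same, Nat.factorization_eq_zero_of_not_dvd hodd, add_zero]
  simp only [h1]
  rw [Fin.sum_univ_eq_sum_range (fun i => i) n, Finset.sum_range_id]

end Cfsg.Agent.Lib.BruhatF2
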