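import Cfsg.Agent.Lib.ThompsonDeg
import Cfsg.Agent.Lib.CharCliff2
import Cfsg.Agent.Lib.CharGal
import Cfsg.Agent.S0176

/-!
# Groups with two character degrees (Isaacs, Theorem 12.5)
-/

set_option autoImplicit false
set_option linter.all false

namespace Cfsg.Agent.Lib.TwoDeg

open Cfsg Cfsg.Agent.Lib.CharOps Cfsg.Agent.Lib.CharIrr Cfsg.Agent.Lib.CharAb Cfsg.Agent.Lib.CharBlockDefect
  Cfsg.Agent.Lib.ThompsonDeg Cfsg.Agent.Lib.CharCliff Cfsg.Agent.Lib.CharNormal Cfsg.Agent.Lib.CharKernel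
open scoped ComplexConjugate commutatorElement

universe u

/-- All degrees are `1` or `m`. -/
def CD (m : ℕ) (G : Type u) [Group G] : Prop :=
  ∀ χ : IrrCharacter G, charDegree (χ : G → ℂ) = 1 ∨ charDegree (χ : G → ℂ) = m

section Basic

variable {G : Type u} [Group G] [Fintype G] {m : ℕ}

theorem hyp_of_cd {p : ℕ} (hcd : CD m G) (hp : p ∣ m) : Hyp p G := by
  intro χ hχ
  rcases hcd χ with h | h
  · exact absurd h hχ
  · rw [h]; exact hp

theorem cd_quot (hcd : CD m G) (M : Subgroup G) [M.Normal] : CD m (G ⧸ M) := by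
  intro θ
  have h1 : IsIrrCharacter G (fun x : G => (θ : G ⧸ M → ℂ) (x : G ⧸ M)) :=
    Cfsg.Agent.Lib.CharInflate.isIrr_inflate M θ.2
  exact hcd ⟨_, h1⟩

theorem apply_one_of_deg {X : Type u} [Group X] [Fintype X] (θ : IrrCharacter X) (h : charDegree (θ : X → ℂ) = 1) :
    (θ : X → ℂ) 1 = 1 := by
  rw [← charDegree_cast (IsIrrCharacter.isCharacter' θ.2), h]
  simp

theorem abelian_of_coprime (hcd : CD m G) (N : Subgroup G) [N.Normal] [Fintype N] (hc : (Nat.card N).Coprime m) :
    ∀ a b : N, a * b = b * a := by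
  rw [commutative_iff_apply_one]
  intro θ
  obtain ⟨χ, hχ, -, e, he, hed⟩ := exists_over N θ.2
  have h1 : charDegree (θ : N → ℂ) ∣ Nat.card N := charDegree_dvd_card θ.2
  apply apply_one_of_deg
  rcases hcd ⟨χ, hχ⟩ with h | h
  · have h3 : charDegree χ = 1 := h
    rw [he] at h3
    exact Nat.eq_one_of_mul_eq_one_right h3
  · have h3 : charDegree χ = m := h
    rw [he] at h3
    have h4 : charDegree (θ : N → ℂ) ∣ m := ⟨e, h3.symm⟩
    exact Nat.Coprime.eq_one_of_dvd (Nat.Coprime.coprime_dvd_left h1 hc) h4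

/-- The normal complement to the primes dividing `m`. -/
theorem exists_N (hcd : CD m G) (hm0 : m ≠ 0) :
    ∃ (N : Subgroup G) (_ : N.Normal), (Nat.card N).Coprime m ∧ (Nat.card N).Coprime N.index ∧ Group.IsNilpotent (G ⧸ N) := by
  classical
  have hex : ∀ p : m.primeFactors, ∃ H : Subgroup G, H.Normal ∧ (Nat.card H).Coprime p ∧ ∃ k : ℕ, H.index = (p : ℕ) ^ k := by
    rintro ⟨p, hp⟩
    have hpp := Nat.prime_of_mem_primeFactors hp
    exact thompson p hpp _ G rfl (hyp_of_cd hcd (Nat.dvd_of_mem_primeFactors hp))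
  choose H hHn hHc hHk using hex
  haveI : ∀ p, (H p).Normal := hHn
  let φ : G →* ∀ p : m.primeFactors, G ⧸ H p := Pi.monoidHom (fun p => QuotientGroup.mk' (H p))
  have hker : ∀ g, g ∈ φ.ker ↔ ∀ p, g ∈ H p := by
    intro g
    rw [MonoidHom.mem_ker]
    constructor
    · intro h p
      have := congrFun h p
      exact (QuotientGroup.eq_one_iff g).1 this
    · intro h
      funext p
      exact (QuotientGroup.eq_one_iff g).2 (h p)
  have hnd : ∀ p : m.primeFactors, ((Nat.card φ.ker).Coprime p) := by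
    intro p
    have hle : φ.ker ≤ H p := fun g hg => (hker g).1 hg p
    exact Nat.Coprime.coprime_dvd_left (Subgroup.card_dvd_of_le hle) (hHc p)
  refine ⟨φ.ker, MonoidHom.normal_ker φ, ?_, ?_, ?_⟩
  · apply Nat.Coprime.symm
    apply Nat.coprime_of_dvd
    intro k hk hkm hkN
    have hmem : k ∈ m.primeFactors := Nat.mem_primeFactors.2 ⟨hk, hkm, hm0⟩
    have h1 := hnd ⟨k, hmem⟩
    exact hk.one_lt.ne' (Nat.Coprime.eq_one_of_dvd h1.symm hkN)
  · have h1 : φ.ker.index ∣ ∏ p : m.primeFactors, Nat.card (G ⧸ H p) := by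
      rw [Subgroup.index_ker, ← Nat.card_pi]
      exact Subgroup.card_subgroup_dvd_card _
    apply Nat.Coprime.coprime_dvd_right h1
    apply Nat.Coprime.prod_right
    intro p _
    have h2 : Nat.card (G ⧸ H p) = (H p).index := rfl
    obtain ⟨k, hk⟩ := hHk p
    rw [h2, hk]
    exact Nat.Coprime.pow_right k (hnd p)
  · haveI : ∀ p : m.primeFactors, Group.IsNilpotent (G ⧸ H p) := by
      intro p
      haveI : Fact (p : ℕ).Prime := ⟨Nat.prime_of_mem_primeFactors p.2⟩
      obtain ⟨k, hk⟩ := hHk p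
      have h3 : IsPGroup (p : ℕ) (G ⧸ H p) := IsPGroup.of_card (n := k) hk
      exact h3.isNilpotent
    exact nilpotent_of_surjective (QuotientGroup.quotientKerEquivRange φ).symm.toMonoidHom
      (QuotientGroup.quotientKerEquivRange φ).symm.surjective

/-- An abelian subgroup of index `i` bounds all degrees by `i`. -/
theorem degree_le_index {X : Type u} [Group X] [Fintype X] (B : Subgroup X)
    (hB : ∀ a ∈ B, ∀ b ∈ B, a * b = b * a) (χ : IrrCharacter X) : charDegree (χ : X → ℂ) ≤ B.index := by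
  classical
  letI : Fintype B := Fintype.ofFinite _
  obtain ⟨φ, hφ, hin⟩ := exists_constituent_restrict B χ.2
  have hcomm : ∀ a b : B, a * b = b * a := fun a b => Subtype.ext (hB a a.2 b b.2)
  have hφ1 : φ 1 = 1 := commutative_iff_apply_one.1 hcomm ⟨φ, hφ⟩
  have h1 : classInner (indFun B φ) (χ : X → ℂ) ≠ 0 := by
    rw [frobenius_reciprocity _ _ (IsCharacter.isClassFunction' (IsIrrCharacter.isCharacter' χ.2))]
    intro h0
    apply hin
    rw [← classInner_conj, h0, map_zero]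
  apply degree_le_of_inner (isCharacter_indFun B (IsIrrCharacter.isCharacter' hφ)) χ.2 h1
  · rw [indFun_one, hφ1, mul_one]
  · exact (charDegree_cast (IsIrrCharacter.isCharacter' χ.2)).symm

/-- An abelian section of small index forces an abelian quotient. -/
theorem abelian_quot (hcd : CD m G) (F : Subgroup G) [F.Normal] (B : Subgroup G) (hFB : F ≤ B)
    (hcomm : ∀ a ∈ B, ∀ b ∈ B, a * b * a⁻¹ * b⁻¹ ∈ F) (hlt : B.index < m) :
    ∀ a b : G, a * b * a⁻¹ * b⁻¹ ∈ F := by
  classical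
  letI : Fintype (G ⧸ F) := Fintype.ofFinite _
  let B' : Subgroup (G ⧸ F) := B.map (QuotientGroup.mk' F)
  have hB' : B'.comap (QuotientGroup.mk' F) = B := by
    apply Subgroup.comap_map_eq_self
    rwa [QuotientGroup.ker_mk']
  have hidx : B'.index = B.index := by
    rw [← hB', Subgroup.index_comap_of_surjective _ (QuotientGroup.mk'_surjective F)]
  have hab : ∀ x ∈ B', ∀ y ∈ B', x * y = y * x := by
    rintro _ ⟨a, ha, rfl⟩ _ ⟨b, hb, rfl⟩
    have h1 := hcomm a ha b hb
    have h2 : ((a * b * a⁻¹ * b⁻¹ : G) : G ⧸ F) = 1 := (QuotientGroup.eq_one_iff _).2 h1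
    have h3 : ((a : G ⧸ F) * (b : G ⧸ F) * (a : G ⧸ F)⁻¹ * (b : G ⧸ F)⁻¹) = 1 := h2
    have h4 : (a : G ⧸ F) * (b : G ⧸ F) = (b : G ⧸ F) * (a : G ⧸ F) := by
      calc (a : G ⧸ F) * (b : G ⧸ F) = ((a : G ⧸ F) * (b : G ⧸ F) * (a : G ⧸ F)⁻¹ * (b : G ⧸ F)⁻¹) * ((b : G ⧸ F) * (a : G ⧸ F)) := by group
        _ = (b : G ⧸ F) * (a : G ⧸ F) := by rw [h3, one_mul]
    exact h4
  have hdeg : ∀ χ : IrrCharacter (G ⧸ F), (χ : G ⧸ F → ℂ) 1 = 1 := by
    intro χ
    apply apply_one_of_deg
    have h1 := degree_le_index B' hab χ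
    rw [hidx] at h1
    rcases cd_quot hcd F χ with h | h
    · exact h
    · omega
  have hc := commutative_iff_apply_one.2 hdeg
  intro a b
  rw [← QuotientGroup.eq_one_iff]
  have h5 := hc (a : G ⧸ F) (b : G ⧸ F)
  show (a : G ⧸ F) * (b : G ⧸ F) * (a : G ⧸ F)⁻¹ * (b : G ⧸ F)⁻¹ = 1
  rw [h5]
  group

theorem eq_of_le_index {A B : Subgroup G} (h : A ≤ B) (hi : A.index = B.index) : A = B := by
  apply le_antisymm h
  have h1 := Subgroup.relIndex_mul_index h
  rw [hi] at h1
  have h2 : B.index ≠ 0 := Subgroup.index_ne_zero_of_finite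
  have h3 : A.relIndex B = 1 := Nat.eq_of_mul_eq_mul_right (Nat.pos_of_ne_zero h2) (by rw [h1, one_mul])
  exact Subgroup.relIndex_eq_one.1 h3

end Basic

section Stab

variable {G : Type u} [Group G] (N : Subgroup G) [hN : N.Normal]

/-- Conjugation of linear characters. -/
def conjL (g : G) (l : N →* ℂˣ) : N →* ℂˣ where
  toFun n := l ⟨g * n * g⁻¹, hN.conj_mem n n.2 g⟩
  map_one' := by
    have : (⟨g * ((1 : N) : G) * g⁻¹, hN.conj_mem _ (1 : N).2 g⟩ : N) = 1 := by
      apply Subtype.ext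
      simp
    rw [this, map_one]
  map_mul' a b := by
    rw [← map_mul]
    congr 1
    apply Subtype.ext
    show g * ((a : G) * (b : G)) * g⁻¹ = (g * a * g⁻¹) * (g * b * g⁻¹)
    group

theorem conjL_apply (g : G) (l : N →* ℂˣ) (n : N) : conjL N g l n = l ⟨g * n * g⁻¹, hN.conj_mem n n.2 g⟩ := rfl

theorem conjL_one (l : N →* ℂˣ) : conjL N 1 l = l := by
  ext n
  rw [conjL_apply]
  congr 2
  apply Subtype.ext
  simp

theorem conjL_mul (g h : G) (l : N →* ℂˣ) : conjL N (g * h) l = conjL N h (conjL N g l) := by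
  ext n
  rw [conjL_apply, conjL_apply, conjL_apply]
  congr 2
  apply Subtype.ext
  show g * h * n * (g * h)⁻¹ = g * (h * n * h⁻¹) * g⁻¹
  group

theorem conjL_mulR (g : G) (l₁ l₂ : N →* ℂˣ) : conjL N g (l₁ * l₂) = conjL N g l₁ * conjL N g l₂ := rfl

theorem conjL_inv (g : G) (l : N →* ℂˣ) : conjL N g l⁻¹ = (conjL N g l)⁻¹ := rfl

theorem conjL_pow (g : G) (l : N →* ℂˣ) (k : ℕ) : conjL N g (l ^ k) = (conjL N g l) ^ k := rfl

/-- The stabilizer of a linear character. -/
def stab (l : N →* ℂˣ) : Subgroup G where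
  carrier := {g | conjL N g l = l}
  one_mem' := conjL_one N l
  mul_mem' := by
    intro a b ha hb
    show conjL N (a * b) l = l
    rw [conjL_mul, show conjL N a l = l from ha]
    exact hb
  inv_mem' := by
    intro a ha
    show conjL N a⁻¹ l = l
    have h1 : conjL N (a * a⁻¹) l = conjL N a⁻¹ (conjL N a l) := conjL_mul N a a⁻¹ l
    rw [mul_inv_cancel, conjL_one, show conjL N a l = l from ha] at h1
    exact h1.symm

theorem mem_stab {g : G} {l : N →* ℂˣ} : g ∈ stab N l ↔ conjL N g l = l := Iff.rfl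

theorem stab_eq_inertia [Fintype G] [Fintype N] (l : N →* ℂˣ) : stab N l = inertia N (fun n => (l n : ℂ)) := by
  ext g
  rw [mem_stab, mem_inertia]
  constructor
  · intro h
    funext n
    rw [conjFun_apply]
    have := congrArg (fun f : N →* ℂˣ => ((f n : ℂˣ) : ℂ)) h
    exact this
  · intro h
    ext n
    have := congrFun h n
    exact this

variable [Fintype G] {m : ℕ}

/-- The orbit of a linear character has length `1` or `m` and the stabilizer is abelian modulo `N`. -/
theorem stab_props (hcd : CD m G) (hm0 : m ≠ 0) (hcop : (Nat.card N).Coprime N.index) (l : N →* ℂˣ)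
    (hl : stab N l ≠ ⊤) :
    (stab N l).index = m ∧ ∀ a ∈ stab N l, ∀ b ∈ stab N l, a * b * a⁻¹ * b⁻¹ ∈ N := by
  classical
  letI : Fintype N := Fintype.ofFinite _
  let θ : N → ℂ := fun n => (l n : ℂ)
  have hθ : IsIrrCharacter N θ := isIrrCharacter_of_hom l
  have hJ : stab N l = inertia N θ := stab_eq_inertia N l
  rw [hJ] at hl ⊢
  set J := inertia N θ with hJdef
  have hNJ : N ≤ J := le_inertia N (IsCharacter.isClassFunction' (IsIrrCharacter.isCharacter' hθ))
  letI : Fintype J := Fintype.ofFinite _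
  let N₁ : Subgroup J := N.subgroupOf J
  haveI hN₁ : N₁.Normal := inferInstance
  letI : Fintype N₁ := Fintype.ofFinite _
  letI : Fintype (J ⧸ N₁) := Fintype.ofFinite _
  let E : N₁ ≃* N := Subgroup.subgroupOfEquivOfLe hNJ
  have hE : ∀ x : N₁, ((E x : N) : G) = ((x : J) : G) := fun _ => rfl
  let l₁ : N₁ →* ℂˣ := l.comp E.toMonoidHom
  have hinv : ∀ (g : J) (n : N₁), l₁ (MulAut.conjNormal g n) = l₁ n := by
    intro g n
    have hg : conjL N (g : G) l = l := by
      rw [← mem_stab, hJ]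
      exact g.2
    have h1 := congrArg (fun f : N →* ℂˣ => f (E n)) hg
    simp only [conjL_apply] at h1
    show l (E _) = l (E n)
    rw [← h1]
    congr 1
  have hord : orderOf l₁ ∣ Nat.card N₁ := by
    apply orderOf_dvd_of_pow_eq_one
    ext n
    show (((l₁ n) ^ (Nat.card N₁) : ℂˣ) : ℂ) = 1
    rw [← map_pow, pow_card_eq_one']
    simp
  have hc1 : Nat.card N₁ = Nat.card N := Nat.card_congr E.toEquiv
  have hidx : N₁.index ∣ N.index := Subgroup.relIndex_dvd_index_of_normal N J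
  have hcop₁ : N₁.index.Coprime (orderOf l₁) := by
    have h1 : (Nat.card N₁).Coprime N₁.index := by
      rw [hc1]
      exact Nat.Coprime.coprime_dvd_right hidx hcop
    exact (Nat.Coprime.coprime_dvd_left hord h1).symm
  obtain ⟨μ, hμ, -, -⟩ := Cfsg.Agent.Lib.CharDet3.linear_ext N₁ l₁ hinv hcop₁
  have hres : IsIrrCharacter N₁ (fun n : N₁ => ((μ n : ℂˣ) : ℂ)) :=
    isIrrCharacter_of_hom (μ.comp N₁.subtype)
  have hμc : IsCharacter J (fun x : J => ((μ x : ℂˣ) : ℂ)) := IsIrrCharacter.isCharacter' (isIrrCharacter_of_hom μ)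
  have hmain : ∀ β : IrrCharacter (J ⧸ N₁), J.index * charDegree (β : J ⧸ N₁ → ℂ) = m := by
    intro β
    let ψ : J → ℂ := fun x => ((μ x : ℂˣ) : ℂ) * (β : J ⧸ N₁ → ℂ) (x : J ⧸ N₁)
    have hψ : IsIrrCharacter J ψ := Cfsg.Agent.Lib.CharGal.isIrr_mul_inflate N₁ hμc hres β
    set e := charDegree (β : J ⧸ N₁ → ℂ) with he
    have he0 : e ≠ 0 := charDegree_ne_zero β.2
    have hβ1 : (β : J ⧸ N₁ → ℂ) 1 = (e : ℂ) := (charDegree_cast (IsIrrCharacter.isCharacter' β.2)).symm
    have hval : ∀ (a : N) (ha : (a : G) ∈ J), ψ ⟨a, ha⟩ = (e : ℂ) * θ a := by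
      intro a ha
      have h1 : ((⟨a, ha⟩ : J) : J ⧸ N₁) = 1 := (QuotientGroup.eq_one_iff _).2 (Subgroup.mem_subgroupOf.2 a.2)
      show ((μ ⟨a, ha⟩ : ℂˣ) : ℂ) * (β : J ⧸ N₁ → ℂ) ((⟨a, ha⟩ : J) : J ⧸ N₁) = _
      rw [h1, hβ1]
      have h2 := hμ ⟨⟨a, ha⟩, Subgroup.mem_subgroupOf.2 a.2⟩
      have h3 : ((μ ⟨a, ha⟩ : ℂˣ) : ℂ) = (l₁ ⟨⟨a, ha⟩, Subgroup.mem_subgroupOf.2 a.2⟩ : ℂˣ) := congrArg _ h2
      rw [h3, mul_comm]
      rfl
    have hind := Cfsg.Agent.Lib.CharCliff2.isIrr_ind_of_over (A := N) hθ hNJ hψ he0 hval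
    have hdeg : charDegree (indFun J ψ) = J.index * e := by
      have h1 := charDegree_cast (IsIrrCharacter.isCharacter' hind)
      rw [indFun_one] at h1
      have h2 : ψ 1 = (e : ℂ) := by
        show ((μ 1 : ℂˣ) : ℂ) * (β : J ⧸ N₁ → ℂ) ((1 : J) : J ⧸ N₁) = _
        rw [map_one]
        have h3 : (((1 : J) : J ⧸ N₁)) = 1 := rfl
        rw [h3, hβ1]
        simp
      rw [h2] at h1
      exact_mod_cast h1
    have hJ1 : J.index ≠ 1 := fun h => hl (Subgroup.index_eq_one.1 h)
    rcases hcd ⟨_, hind⟩ with h | h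
    · exfalso
      have h3 : charDegree (indFun J ψ) = 1 := h
      rw [hdeg] at h3
      exact hJ1 (Nat.eq_one_of_mul_eq_one_right h3)
    · have h3 : charDegree (indFun J ψ) = m := h
      rwa [hdeg] at h3
  let one : IrrCharacter (J ⧸ N₁) := ⟨fun _ => 1, Cfsg.Agent.Lib.CharIso.isIrr_one⟩
  have hone : charDegree (one : J ⧸ N₁ → ℂ) = 1 := by
    have h1 := charDegree_cast (IsIrrCharacter.isCharacter' one.2)
    have h2 : (one : J ⧸ N₁ → ℂ) 1 = 1 := rfl
    rw [h2] at h1
    exact_mod_cast h1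
  have hJm : J.index = m := by
    have := hmain one
    rwa [hone, mul_one] at this
  refine ⟨hJm, ?_⟩
  have hall : ∀ β : IrrCharacter (J ⧸ N₁), (β : J ⧸ N₁ → ℂ) 1 = 1 := by
    intro β
    apply apply_one_of_deg
    have h1 := hmain β
    rw [hJm] at h1
    have h2 : m * charDegree (β : J ⧸ N₁ → ℂ) = m * 1 := by rw [h1, mul_one]
    exact Nat.eq_of_mul_eq_mul_left (Nat.pos_of_ne_zero hm0) h2
  have hc := commutative_iff_apply_one.2 hall
  intro a ha b hb
  have h5 := hc ((⟨a, ha⟩ : J) : J ⧸ N₁) ((⟨b, hb⟩ : J) : J ⧸ N₁)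
  have h6 : ((⟨a, ha⟩ * ⟨b, hb⟩ * (⟨a, ha⟩ : J)⁻¹ * (⟨b, hb⟩ : J)⁻¹ : J) : J ⧸ N₁) = 1 := by
    show ((⟨a, ha⟩ : J) : J ⧸ N₁) * ((⟨b, hb⟩ : J) : J ⧸ N₁) * ((⟨a, ha⟩ : J) : J ⧸ N₁)⁻¹ * ((⟨b, hb⟩ : J) : J ⧸ N₁)⁻¹ = 1
    rw [h5]
    group
  have h7 := (QuotientGroup.eq_one_iff _).1 h6
  exact Subgroup.mem_subgroupOf.1 h7

end Stab

section Main

variable {G : Type u} [Group G] [Fintype G] {m : ℕ}

theorem comm_aux {X : Type*} [CommGroup X] {a b c d : X} (h : a * b = c * d) : a * c⁻¹ = d * b⁻¹ := by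
  rw [← div_eq_mul_inv, ← div_eq_mul_inv, div_eq_div_iff_mul_eq_mul, h, mul_comm]

theorem pow_zero_mul_aux {X : Type*} [Monoid X] (x l : X) : x ^ 0 * l = l := by
  rw [pow_zero, one_mul]

theorem pow_succ_mul_aux {X : Type*} [Monoid X] (x l : X) (k : ℕ) : x ^ k * (x * l) = x ^ (k + 1) * l := by
  rw [pow_succ, mul_assoc]

theorem eq_one_aux {X : Type*} [Group X] {a b : X} (h : a * b = b) : a = 1 := mul_eq_right.1 h

theorem eq_of_one_aux {X : Type*} [Group X] {a b : X} (h : 1 = a * b⁻¹) : a = b := (mul_inv_eq_one.1 h.symm)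

theorem center_nontrivial_of_nilpotent {X : Type u} [Group X] [Group.IsNilpotent X] [Nontrivial X] :
    Subgroup.center X ≠ ⊥ := by
  intro h
  have h1 : ∀ n, Subgroup.upperCentralSeries X n = ⊥ := by
    intro n
    induction n with
    | zero => exact Subgroup.upperCentralSeries_zero X
    | succ n ih =>
      rw [eq_bot_iff]
      intro x hx
      have h2 := Subgroup.mem_upperCentralSeries_succ_iff.1 hx
      rw [ih] at h2
      have h3 : x ∈ Subgroup.center X := by
        rw [Subgroup.mem_center_iff]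
        intro y
        have h4 := h2 y
        rw [Subgroup.mem_bot, commutatorElement_def] at h4
        have h5 : x * y = y * x := by
          have h6 : x * y * x⁻¹ = y := by
            calc x * y * x⁻¹ = x * y * x⁻¹ * y⁻¹ * y := by group
              _ = y := by rw [h4, one_mul]
          calc x * y = x * y * x⁻¹ * x := by group
            _ = y * x := by rw [h6]
        exact h5.symm
      rw [h] at h3
      exact h3
  obtain ⟨n, hn⟩ := Group.IsNilpotent.nilpotent (G := X)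
  rw [h1] at hn
  exact bot_ne_top hn

/-- The conclusion in the non-central case. -/
theorem case_noncentral (hcd : CD m G) (hm0 : m ≠ 0) (N : Subgroup G) [hN : N.Normal]
    (hab : ∀ a ∈ N, ∀ b ∈ N, a * b = b * a) (hcop : (Nat.card N).Coprime N.index)
    (hnil : Group.IsNilpotent (G ⧸ N)) (hnc : ¬ N ≤ Subgroup.center G) :
    ∃ A : Subgroup G, A.Normal ∧ (∀ a ∈ A, ∀ b ∈ A, a * b = b * a) ∧ A.index = m ∧
      ∀ a b : G, a * b * a⁻¹ * b⁻¹ ∈ A := by
  classical
  let F : Subgroup G := Subgroup.centralizer (N : Set G)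
  have hFmem : ∀ g, g ∈ F ↔ ∀ n ∈ N, n * g = g * n := by
    intro g
    exact Subgroup.mem_centralizer_iff
  haveI hFn : F.Normal := by
    constructor
    intro f hf g
    rw [hFmem] at hf ⊢
    intro n hn
    have h1 : g⁻¹ * n * g ∈ N := by
      have := hN.conj_mem n hn g⁻¹
      simpa using this
    have h2 := hf _ h1
    calc n * (g * f * g⁻¹) = g * ((g⁻¹ * n * g) * f) * g⁻¹ := by group
      _ = g * (f * (g⁻¹ * n * g)) * g⁻¹ := by rw [h2]
      _ = g * f * g⁻¹ * n := by group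
  have hNF : N ≤ F := by
    intro n hn
    rw [hFmem]
    intro n' hn'
    exact hab n' hn' n hn
  letI : Fintype N := Fintype.ofFinite _
  -- separation of points by linear characters
  have hNcomm : ∀ a b : N, a * b = b * a := fun a b => Subtype.ext (hab a a.2 b b.2)
  have hsep : ∀ n : N, (∀ l : N →* ℂˣ, l n = 1) → n = 1 := by
    intro n hn
    have h1 : n ∈ commutator N := by
      apply mem_commutator_of_linear
      intro χ hχ1
      have h2 := hn (homOfDegreeOne (IsIrrCharacter.isCharacter' χ.2) hχ1)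
      have h3 : (χ : N → ℂ) n = ((homOfDegreeOne (IsIrrCharacter.isCharacter' χ.2) hχ1 n : ℂˣ) : ℂ) := rfl
      rw [h3, h2]
      rfl
    have h2 : commutator N = ⊥ := by
      rw [commutator_def, Subgroup.commutator_eq_bot_iff_le_centralizer]
      intro a _ b _
      exact hNcomm b a
    rw [h2] at h1
    exact h1
  have hFstab : ∀ g, g ∈ F ↔ ∀ l : N →* ℂˣ, g ∈ stab N l := by
    intro g
    constructor
    · intro hg l
      rw [mem_stab]
      ext n
      rw [conjL_apply]
      congr 2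
      apply Subtype.ext
      show g * n * g⁻¹ = n
      have := (hFmem g).1 hg n n.2
      rw [← this]
      group
    · intro hg
      rw [hFmem]
      intro n hn
      have h1 : (⟨g * n * g⁻¹ * n⁻¹, N.mul_mem (hN.conj_mem n hn g) (N.inv_mem hn)⟩ : N) = 1 := by
        apply hsep
        intro l
        have h2 : conjL N g l = l := hg l
        have h3 := congrArg (fun f : N →* ℂˣ => f ⟨n, hn⟩) h2
        simp only [conjL_apply] at h3
        have h4 : (⟨g * n * g⁻¹ * n⁻¹, N.mul_mem (hN.conj_mem n hn g) (N.inv_mem hn)⟩ : N)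
            = ⟨g * n * g⁻¹, hN.conj_mem n hn g⟩ * (⟨n, hn⟩ : N)⁻¹ := rfl
        rw [h4, map_mul, map_inv, h3, mul_inv_cancel]
      have h5 : g * n * g⁻¹ * n⁻¹ = 1 := congrArg Subtype.val h1
      have h6 : g * n * g⁻¹ = n := by
        calc g * n * g⁻¹ = g * n * g⁻¹ * n⁻¹ * n := by group
          _ = n := by rw [h5, one_mul]
      calc n * g = g * n * g⁻¹ * g := by rw [h6]
        _ = g * n := by group
  have hFtop : F ≠ ⊤ := by
    intro htop
    apply hnc
    intro n hn
    rw [Subgroup.mem_center_iff]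
    intro g
    have : g ∈ F := htop ▸ Subgroup.mem_top g
    exact ((hFmem g).1 this n hn).symm
  have hprops := fun l (hl : stab N l ≠ ⊤) => stab_props N hcd hm0 hcop l hl
  have hFle : ∀ l : N →* ℂˣ, F ≤ stab N l := fun l g hg => (hFstab g).1 hg l
  -- the quotient by the centralizer is abelian
  have hGF : ∀ a b : G, a * b * a⁻¹ * b⁻¹ ∈ F := by
    haveI : Group.IsNilpotent (G ⧸ F) :=
      nilpotent_of_surjective (QuotientGroup.map N F (MonoidHom.id G) hNF)
        (QuotientGroup.map_surjective_of_surjective N F (MonoidHom.id G) (fun q => by obtain ⟨g, rfl⟩ := QuotientGroup.mk_surjective q; exact ⟨g, rfl⟩) hNF)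
    haveI : Nontrivial (G ⧸ F) := by
      by_contra hsub
      rw [not_nontrivial_iff_subsingleton] at hsub
      exact hFtop (QuotientGroup.subgroup_eq_top_of_subsingleton F hsub)
    have hZ := center_nontrivial_of_nilpotent (X := G ⧸ F)
    obtain ⟨⟨zb, hzb⟩, hzb1⟩ := (Subgroup.ne_bot_iff_exists_ne_one).1 hZ
    obtain ⟨z, rfl⟩ := QuotientGroup.mk_surjective zb
    have hzb2 : (z : G ⧸ F) ≠ 1 := fun h => hzb1 (Subtype.ext h)
    have hzF : z ∉ F := fun h => hzb2 ((QuotientGroup.eq_one_iff z).2 h)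
    obtain ⟨l₁, hl₁⟩ : ∃ l : N →* ℂˣ, z ∉ stab N l := by
      by_contra hcon
      push_neg at hcon
      exact hzF ((hFstab z).2 hcon)
    have hJtop : stab N l₁ ≠ ⊤ := fun h => hl₁ (h ▸ Subgroup.mem_top z)
    obtain ⟨hJm, hJc⟩ := hprops l₁ hJtop
    set J := stab N l₁ with hJ
    let Zb : Subgroup (G ⧸ F) := Subgroup.zpowers (z : G ⧸ F)
    have hZc : ∀ s ∈ Zb, ∀ y : G ⧸ F, s * y = y * s := by
      intro s hs y
      have h1 : Zb ≤ Subgroup.center (G ⧸ F) := Subgroup.zpowers_le.2 hzb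
      exact (Subgroup.mem_center_iff.1 (h1 hs) y).symm
    haveI hZn : Zb.Normal := by
      constructor
      intro s hs g
      have h1 := hZc s hs g
      have h2 : g * s * g⁻¹ = s := by rw [← h1]; group
      rw [h2]
      exact hs
    let Bb : Subgroup (G ⧸ F) := J.map (QuotientGroup.mk' F) ⊔ Zb
    let B : Subgroup G := Bb.comap (QuotientGroup.mk' F)
    have hJB : J ≤ B := by
      intro x hx
      show (QuotientGroup.mk' F x) ∈ Bb
      exact (le_sup_left : J.map (QuotientGroup.mk' F) ≤ Bb) ⟨x, hx, rfl⟩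
    have hFB : F ≤ B := (hFle l₁).trans hJB
    have hzB : z ∈ B := by
      show (z : G ⧸ F) ∈ Bb
      exact (le_sup_right : Zb ≤ Bb) (Subgroup.mem_zpowers _)
    have hlt : B.index < m := by
      have h1 := Subgroup.relIndex_mul_index hJB
      rw [hJm] at h1
      have h2 : J.relIndex B ≠ 1 := by
        intro h3
        exact hl₁ (Subgroup.relIndex_eq_one.1 h3 hzB)
      have h3 : B.index ≠ 0 := Subgroup.index_ne_zero_of_finite
      have h4 : J.relIndex B ≠ 0 := by
        intro h5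
        rw [h5, zero_mul] at h1
        exact hm0 h1.symm
      rw [← h1]
      have h5 : 2 ≤ J.relIndex B := by omega
      have h6 : 0 < B.index := Nat.pos_of_ne_zero h3
      nlinarith
    apply abelian_quot hcd F B hFB _ hlt
    intro a ha b hb
    have ha' : (a : G ⧸ F) ∈ (Bb : Set (G ⧸ F)) := ha
    have hb' : (b : G ⧸ F) ∈ (Bb : Set (G ⧸ F)) := hb
    rw [Subgroup.mul_normal, Set.mem_mul] at ha' hb'
    obtain ⟨t, ht, s, hs, hts⟩ := ha'
    obtain ⟨t', ht', s', hs', hts'⟩ := hb'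
    have htt : t * t' = t' * t := by
      obtain ⟨x, hx, rfl⟩ := ht
      obtain ⟨y, hy, rfl⟩ := ht'
      have h1 : x * y * x⁻¹ * y⁻¹ ∈ F := hNF (hJc x hx y hy)
      have h2 : ((x * y * x⁻¹ * y⁻¹ : G) : G ⧸ F) = 1 := (QuotientGroup.eq_one_iff _).2 h1
      have h3 : (x : G ⧸ F) * (y : G ⧸ F) * (x : G ⧸ F)⁻¹ * (y : G ⧸ F)⁻¹ = 1 := h2
      show (x : G ⧸ F) * (y : G ⧸ F) = (y : G ⧸ F) * (x : G ⧸ F)
      calc (x : G ⧸ F) * (y : G ⧸ F) = ((x : G ⧸ F) * (y : G ⧸ F) * (x : G ⧸ F)⁻¹ * (y : G ⧸ F)⁻¹) * ((y : G ⧸ F) * (x : G ⧸ F)) := by group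
        _ = (y : G ⧸ F) * (x : G ⧸ F) := by rw [h3, one_mul]
    have hcommq : (a : G ⧸ F) * (b : G ⧸ F) = (b : G ⧸ F) * (a : G ⧸ F) := by
      rw [← hts, ← hts']
      calc t * s * (t' * s') = t * (s * t') * s' := by group
        _ = t * (t' * s) * s' := by rw [hZc s hs t']
        _ = (t * t') * (s * s') := by group
        _ = (t' * t) * (s' * s) := by rw [htt, hZc s hs s']
        _ = t' * (t * s') * s := by group
        _ = t' * (s' * t) * s := by rw [hZc s' hs' t]
        _ = t' * s' * (t * s) := by group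
    rw [← QuotientGroup.eq_one_iff]
    show (a : G ⧸ F) * (b : G ⧸ F) * (a : G ⧸ F)⁻¹ * (b : G ⧸ F)⁻¹ = 1
    rw [hcommq]
    group
  have hconj : ∀ (l : N →* ℂˣ) (j a : G), a ∈ stab N l → j * a * j⁻¹ ∈ stab N l := by
    intro l j a ha
    have h1 : j * a * j⁻¹ * a⁻¹ ∈ stab N l := hFle l (hGF j a)
    have h2 : j * a * j⁻¹ = (j * a * j⁻¹ * a⁻¹) * a := by group
    rw [h2]
    exact (stab N l).mul_mem h1 ha
  have hfix : ∀ (l : N →* ℂˣ) (j a : G), a ∈ stab N l → conjL N a (conjL N j l) = conjL N j l := by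
    intro l j a ha
    rw [← conjL_mul]
    have h1 : j * a = (j * a * j⁻¹) * j := by group
    rw [h1, conjL_mul]
    have h2 : conjL N (j * a * j⁻¹) l = l := hconj l j a ha
    rw [h2]
  have hpowcard : ∀ x : N →* ℂˣ, x ^ Nat.card N = 1 := by
    intro x
    ext n
    show (((x n) ^ Nat.card N : ℂˣ) : ℂ) = 1
    rw [← map_pow, pow_card_eq_one']
    simp
  have hNstab : ∀ l : N →* ℂˣ, N ≤ stab N l := fun l => hNF.trans (hFle l)
  have hsame : ∀ l₁ l₂ : N →* ℂˣ, stab N l₁ ≠ ⊤ → stab N l₂ ≠ ⊤ → stab N l₁ = stab N l₂ := by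
    intro l₁ l₂ h₁ h₂
    by_contra hne
    obtain ⟨hi₁, hc₁⟩ := hprops l₁ h₁
    obtain ⟨hi₂, hc₂⟩ := hprops l₂ h₂
    have hn12 : ¬ stab N l₂ ≤ stab N l₁ := fun hle => hne (eq_of_le_index hle (by rw [hi₁, hi₂])).symm
    have hn21 : ¬ stab N l₁ ≤ stab N l₂ := fun hle => hne (eq_of_le_index hle (by rw [hi₁, hi₂]))
    have hK : stab N (l₁ * l₂) ≤ stab N l₁ ⊓ stab N l₂ := by
      intro j hj
      have hj' : conjL N j l₁ * conjL N j l₂ = l₁ * l₂ := hj
      set x := conjL N j l₁ * l₁⁻¹ with hx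
      have hx2 : x = l₂ * (conjL N j l₂)⁻¹ := by
        exact comm_aux (X := N →* ℂˣ) hj'
      have hJ1x : stab N l₁ ≤ stab N x := by
        intro a ha
        show conjL N a x = x
        rw [hx, conjL_mulR, conjL_inv, hfix l₁ j a ha, show conjL N a l₁ = l₁ from ha]
      have hJ2x : stab N l₂ ≤ stab N x := by
        intro a ha
        show conjL N a x = x
        rw [hx2, conjL_mulR, conjL_inv, hfix l₂ j a ha, show conjL N a l₂ = l₂ from ha]
      have hxtop : stab N x = ⊤ := by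
        by_contra hne2
        have h1 := (hprops x hne2).1
        have h2 := eq_of_le_index hJ1x (by rw [hi₁, h1])
        exact hn12 (h2 ▸ hJ2x)
      have hxfix : conjL N j x = x := by
        have : j ∈ stab N x := hxtop ▸ Subgroup.mem_top j
        exact this
      have hjl : conjL N j l₁ = x * l₁ := (inv_mul_cancel_right (G := N →* ℂˣ) _ _).symm
      have hpow : ∀ k : ℕ, conjL N (j ^ k) l₁ = x ^ k * l₁ := by
        intro k
        induction k with
        | zero =>
          rw [pow_zero, conjL_one]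
          exact (pow_zero_mul_aux x l₁).symm
        | succ k ih =>
          have h1 : conjL N (j ^ (k + 1)) l₁ = conjL N j (conjL N (j ^ k) l₁) := by
            rw [pow_succ, conjL_mul]
          have h2 : conjL N j (x ^ k) = x ^ k := by
            show (conjL N j x) ^ k = x ^ k
            rw [hxfix]
          rw [h1, ih]
          show conjL N j (x ^ k) * conjL N j l₁ = _
          rw [h2, hjl]
          exact pow_succ_mul_aux x l₁ k
      have hidx : j ^ N.index ∈ N := Subgroup.pow_index_mem N j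
      have h1 : conjL N (j ^ N.index) l₁ = l₁ := hNstab l₁ hidx
      rw [hpow] at h1
      have h2 : x ^ N.index = 1 := eq_one_aux (X := N →* ℂˣ) h1
      have h3 : orderOf x ∣ Nat.gcd (Nat.card N) N.index :=
        Nat.dvd_gcd (orderOf_dvd_of_pow_eq_one (hpowcard x)) (orderOf_dvd_of_pow_eq_one h2)
      rw [hcop.gcd_eq_one, Nat.dvd_one, orderOf_eq_one_iff] at h3
      constructor
      · show conjL N j l₁ = l₁
        rw [hjl, h3]
        exact one_mul (M := N →* ℂˣ) l₁
      · show conjL N j l₂ = l₂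
        rw [h3] at hx2
        exact (eq_of_one_aux (X := N →* ℂˣ) hx2).symm
    have hKtop : stab N (l₁ * l₂) ≠ ⊤ := by
      intro h
      rw [h] at hK
      exact h₁ (top_le_iff.1 (hK.trans inf_le_left))
    have hKi := (hprops _ hKtop).1
    have hKe := eq_of_le_index (hK.trans inf_le_left) (by rw [hKi, hi₁])
    exact hn21 (hKe ▸ (hK.trans inf_le_right))
  obtain ⟨l₀, hl₀⟩ : ∃ l : N →* ℂˣ, stab N l ≠ ⊤ := by
    by_contra hcon
    push_neg at hcon
    apply hFtop
    rw [eq_top_iff]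
    intro g _
    rw [hFstab]
    intro l
    rw [hcon l]
    trivial
  have hFJ : F = stab N l₀ := by
    apply le_antisymm (hFle l₀)
    intro g hg
    rw [hFstab]
    intro l
    by_cases h : stab N l = ⊤
    · rw [h]; trivial
    · rw [hsame l l₀ h hl₀]
      exact hg
  refine ⟨F, hFn, ?_, ?_, hGF⟩
  · intro a ha b hb
    have haJ : a ∈ stab N l₀ := hFle l₀ ha
    have hbJ : b ∈ stab N l₀ := hFle l₀ hb
    have hc : a * b * a⁻¹ * b⁻¹ ∈ N := (hprops l₀ hl₀).2 a haJ b hbJ
    set c := a * b * a⁻¹ * b⁻¹ with hcdef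
    have hbc : c * b = b * c := (hFmem b).1 hb c hc
    have hbk : b ^ N.index ∈ N := Subgroup.pow_index_mem N b
    have hak : a * b ^ N.index * a⁻¹ = b ^ N.index := by
      have := (hFmem a).1 ha _ hbk
      rw [← this]
      group
    have h1 : a * b * a⁻¹ = c * b := by
      rw [hcdef]
      group
    have h2 : (a * b * a⁻¹) ^ N.index = a * b ^ N.index * a⁻¹ := conj_pow
    have h3 : (c * b) ^ N.index = c ^ N.index * b ^ N.index := (Commute.mul_pow hbc _)
    rw [h1, h3, hak] at h2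
    have h4 : c ^ N.index = 1 := mul_eq_right.1 h2
    have h5 : c ^ Nat.card N = 1 := by
      have h6 := pow_card_eq_one' (x := (⟨c, hc⟩ : N))
      exact congrArg Subtype.val h6
    have h6 : orderOf c ∣ Nat.gcd (Nat.card N) N.index :=
      Nat.dvd_gcd (orderOf_dvd_of_pow_eq_one h5) (orderOf_dvd_of_pow_eq_one h4)
    rw [hcop.gcd_eq_one, Nat.dvd_one, orderOf_eq_one_iff] at h6
    have h7 : a * b * a⁻¹ * b⁻¹ = 1 := h6
    calc a * b = a * b * a⁻¹ * b⁻¹ * (b * a) := by group
      _ = b * a := by rw [h7, one_mul]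
  · rw [hFJ]
    exact (hprops l₀ hl₀).1

/-- The conclusion in the central case. -/
theorem case_central (hcd : CD m G) (hm1 : m ≠ 1) (hex : ∃ χ : IrrCharacter G, charDegree (χ : G → ℂ) = m)
    (N : Subgroup G) [hN : N.Normal] (hnil : Group.IsNilpotent (G ⧸ N)) (hc : N ≤ Subgroup.center G) :
    Group.IsNilpotent G ∧ ∃ p e : ℕ, p.Prime ∧ m = p ^ e ∧ ∃ P A : Subgroup G, P.Normal ∧ A.Normal ∧ IsPGroup p P ∧
      (∀ a ∈ A, ∀ b ∈ A, a * b = b * a) ∧ P ⊓ A = ⊥ ∧ P ⊔ A = ⊤ := by
  classical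
  haveI hnilG : Group.IsNilpotent G := by
    apply Group.of_quotient_center_nilpotent
    exact nilpotent_of_surjective (QuotientGroup.map N (Subgroup.center G) (MonoidHom.id G) hc)
      (QuotientGroup.map_surjective_of_surjective N (Subgroup.center G) (MonoidHom.id G)
        (fun q => by obtain ⟨g, rfl⟩ := QuotientGroup.mk_surjective q; exact ⟨g, rfl⟩) hc)
  refine ⟨hnilG, ?_⟩
  have hp : (m.minFac).Prime := Nat.minFac_prime hm1
  set p := m.minFac with hpdef
  have hpm : p ∣ m := Nat.minFac_dvd m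
  haveI : Fact p.Prime := ⟨hp⟩
  obtain ⟨H, hHn, hHc, k, hk⟩ := thompson p hp _ G rfl (hyp_of_cd hcd hpm)
  haveI := hHn
  obtain ⟨P⟩ : Nonempty (Sylow p G) := inferInstance
  haveI hPn : (P : Subgroup G).Normal := Group.isNilpotent_of_finite_tfae.out 0 3 rfl rfl |>.mp hnilG p inferInstance P
  obtain ⟨a, ha⟩ := IsPGroup.iff_card.1 P.isPGroup'
  have h1 := H.card_mul_index
  have h2 := (P : Subgroup G).card_mul_index
  have hcop1 : Nat.Coprime p (Nat.card H) := hHc.symm
  have hnd : Nat.Coprime p (P : Subgroup G).index := (Nat.Prime.coprime_iff_not_dvd hp).2 P.not_dvd_index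
  have hak : a = k := by
    have h3 : p ^ a ∣ p ^ k := by
      have h4 : p ^ a ∣ Nat.card H * p ^ k := by
        rw [← hk, h1, ← h2, ha]
        exact dvd_mul_right _ _
      exact (Nat.Coprime.pow_left a hcop1).dvd_of_dvd_mul_left h4
    have h5 : p ^ k ∣ p ^ a := by
      have h4 : p ^ k ∣ p ^ a * (P : Subgroup G).index := by
        rw [← ha, h2, ← h1, hk]
        exact dvd_mul_left _ _
      exact (Nat.Coprime.pow_left k hnd).dvd_of_dvd_mul_right h4
    exact Nat.pow_right_injective hp.two_le (Nat.dvd_antisymm h3 h5)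
  have hcopHP : Nat.Coprime (Nat.card H) (Nat.card (P : Subgroup G)) := by
    rw [ha]
    exact Nat.Coprime.pow_right a hHc
  have hcard : Nat.card H * Nat.card (P : Subgroup G) = Nat.card G := by
    rw [ha, hak, ← hk]
    exact h1
  have hC : H.IsComplement' (P : Subgroup G) := Subgroup.isComplement'_of_coprime hcard hcopHP
  have hCs : (P : Subgroup G).IsComplement' H := hC.symm
  -- the complement is abelian
  have hHab : ∀ a ∈ H, ∀ b ∈ H, a * b = b * a := by
    letI : Fintype H := Fintype.ofFinite _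
    letI : Fintype (G ⧸ (P : Subgroup G)) := Fintype.ofFinite _
    have h3 : ∀ θ : IrrCharacter H, (θ : H → ℂ) 1 = 1 := by
      intro θ
      apply apply_one_of_deg
      have h4 : IsIrrCharacter (G ⧸ (P : Subgroup G)) (fun x => (θ : H → ℂ) (hC.QuotientMulEquiv x)) :=
        isIrr_comp_mulEquiv hC.QuotientMulEquiv θ.2
      have h5 := Cfsg.Agent.Lib.CharInflate.isIrr_inflate (P : Subgroup G) h4
      have h6 : charDegree (fun g : G => (θ : H → ℂ) (hC.QuotientMulEquiv (g : G ⧸ (P : Subgroup G)))) = charDegree (θ : H → ℂ) := by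
        unfold charDegree
        have h7 : hC.QuotientMulEquiv ((1 : G) : G ⧸ (P : Subgroup G)) = 1 := map_one _
        show ⌊((θ : H → ℂ) (hC.QuotientMulEquiv ((1 : G) : G ⧸ (P : Subgroup G)))).re⌋₊ = _
        rw [h7]
      rcases hcd ⟨_, h5⟩ with h8 | h8
      · have h9 : charDegree (fun g : G => (θ : H → ℂ) (hC.QuotientMulEquiv (g : G ⧸ (P : Subgroup G)))) = 1 := h8
        rwa [h6] at h9
      · exfalso
        have h9 : charDegree (fun g : G => (θ : H → ℂ) (hC.QuotientMulEquiv (g : G ⧸ (P : Subgroup G)))) = m := h8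
        rw [h6] at h9
        have h10 : charDegree (θ : H → ℂ) ∣ Nat.card H := charDegree_dvd_card θ.2
        rw [h9] at h10
        have h11 : p ∣ Nat.card H := hpm.trans h10
        exact hp.one_lt.ne' (Nat.Coprime.eq_one_of_dvd hcop1 h11)
    have h4 := commutative_iff_apply_one.2 h3
    intro a ha b hb
    exact congrArg Subtype.val (h4 ⟨a, ha⟩ ⟨b, hb⟩)
  -- the Sylow subgroup is not abelian
  have hPna : ¬ ∀ a ∈ (P : Subgroup G), ∀ b ∈ (P : Subgroup G), a * b = b * a := by
    intro hPab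
    obtain ⟨χ, hχ⟩ := hex
    have hcommG : ∀ a b : G, a * b = b * a := by
      intro a b
      obtain ⟨⟨a₁, a₂⟩, rfl, -⟩ := hC.existsUnique a
      obtain ⟨⟨b₁, b₂⟩, rfl, -⟩ := hC.existsUnique b
      have hcomm : ∀ x ∈ H, ∀ y ∈ (P : Subgroup G), x * y = y * x :=
        fun x hx y hy => Subgroup.commute_of_normal_of_disjoint H (P : Subgroup G) ‹_› ‹_› hC.disjoint x y hx hy
      show (a₁ : G) * a₂ * (b₁ * b₂) = b₁ * b₂ * (a₁ * a₂)
      calc (a₁ : G) * a₂ * (b₁ * b₂) = a₁ * (a₂ * b₁) * b₂ := by group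
        _ = a₁ * (b₁ * a₂) * b₂ := by rw [hcomm b₁ b₁.2 a₂ a₂.2]
        _ = (a₁ * b₁) * (a₂ * b₂) := by group
        _ = (b₁ * a₁) * (b₂ * a₂) := by rw [hHab a₁ a₁.2 b₁ b₁.2, hPab a₂ a₂.2 b₂ b₂.2]
        _ = b₁ * (a₁ * b₂) * a₂ := by group
        _ = b₁ * (b₂ * a₁) * a₂ := by rw [hcomm a₁ a₁.2 b₂ b₂.2]
        _ = b₁ * b₂ * (a₁ * a₂) := by group
    have h3 := commutative_iff_apply_one.1 hcommG χ
    have h4 := charDegree_cast (IsIrrCharacter.isCharacter' χ.2)
    rw [h3, hχ] at h4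
    exact hm1 (by exact_mod_cast h4)
  letI : Fintype (P : Subgroup G) := Fintype.ofFinite _
  letI : Fintype (G ⧸ H) := Fintype.ofFinite _
  obtain ⟨θ, hθ⟩ : ∃ θ : IrrCharacter (P : Subgroup G), (θ : ↥(P : Subgroup G) → ℂ) 1 ≠ 1 := by
    by_contra hcon
    push_neg at hcon
    have h4 := commutative_iff_apply_one.2 hcon
    exact hPna fun a ha b hb => congrArg Subtype.val (h4 ⟨a, ha⟩ ⟨b, hb⟩)
  have hmd : charDegree (θ : ↥(P : Subgroup G) → ℂ) = m := by
    have h4 : IsIrrCharacter (G ⧸ H) (fun x => (θ : ↥(P : Subgroup G) → ℂ) (hCs.QuotientMulEquiv x)) :=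
      isIrr_comp_mulEquiv hCs.QuotientMulEquiv θ.2
    have h5 := Cfsg.Agent.Lib.CharInflate.isIrr_inflate H h4
    have h6 : charDegree (fun g : G => (θ : ↥(P : Subgroup G) → ℂ) (hCs.QuotientMulEquiv (g : G ⧸ H))) = charDegree (θ : ↥(P : Subgroup G) → ℂ) := by
      unfold charDegree
      have h7 : hCs.QuotientMulEquiv ((1 : G) : G ⧸ H) = 1 := map_one _
      show ⌊((θ : ↥(P : Subgroup G) → ℂ) (hCs.QuotientMulEquiv ((1 : G) : G ⧸ H))).re⌋₊ = _
      rw [h7]
    rcases hcd ⟨_, h5⟩ with h8 | h8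
    · exfalso
      have h9 : charDegree (fun g : G => (θ : ↥(P : Subgroup G) → ℂ) (hCs.QuotientMulEquiv (g : G ⧸ H))) = 1 := h8
      rw [h6] at h9
      exact hθ (apply_one_of_deg θ h9)
    · have h9 : charDegree (fun g : G => (θ : ↥(P : Subgroup G) → ℂ) (hCs.QuotientMulEquiv (g : G ⧸ H))) = m := h8
      rwa [h6] at h9
  have h10 : charDegree (θ : ↥(P : Subgroup G) → ℂ) ∣ Nat.card (P : Subgroup G) := charDegree_dvd_card θ.2
  rw [hmd, ha] at h10
  obtain ⟨e, -, he⟩ := (Nat.dvd_prime_pow hp).1 h10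
  exact ⟨p, e, hp, he, P, H, hPn, hHn, P.isPGroup', hHab, hC.disjoint.symm.eq_bot, hCs.sup_eq_top⟩

/-- The structure theorem for groups with two character degrees. -/
theorem two_deg (hcd : CD m G) (hm1 : m ≠ 1) (hex : ∃ χ : IrrCharacter G, charDegree (χ : G → ℂ) = m) :
    (∃ A : Subgroup G, A.Normal ∧ (∀ a ∈ A, ∀ b ∈ A, a * b = b * a) ∧ A.index = m ∧
      ∀ a b : G, a * b * a⁻¹ * b⁻¹ ∈ A) ∨
    (Group.IsNilpotent G ∧ ∃ p e : ℕ, p.Prime ∧ m = p ^ e ∧ ∃ P A : Subgroup G, P.Normal ∧ A.Normal ∧ IsPGroup p P ∧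
      (∀ a ∈ A, ∀ b ∈ A, a * b = b * a) ∧ P ⊓ A = ⊥ ∧ P ⊔ A = ⊤) := by
  classical
  have hm0 : m ≠ 0 := by
    obtain ⟨χ, hχ⟩ := hex
    rw [← hχ]
    exact charDegree_ne_zero χ.2
  obtain ⟨N, hN, hc1, hc2, hnil⟩ := exists_N hcd hm0
  haveI := hN
  letI : Fintype N := Fintype.ofFinite _
  have hab : ∀ a ∈ N, ∀ b ∈ N, a * b = b * a := by
    intro a ha b hb
    exact congrArg Subtype.val (abelian_of_coprime hcd N hc1 ⟨a, ha⟩ ⟨b, hb⟩)
  by_cases hc : N ≤ Subgroup.center G
  · exact Or.inr (case_central hcd hm1 hex N hnil hc)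
  · exact Or.inl (case_noncentral hcd hm0 N hab hc2 hnil hc)

/-- All irreducible characters trivial at `g` forces `g = 1`. -/
theorem eq_one_of_all_ker {g : G} (h : ∀ χ : IrrCharacter G, (χ : G → ℂ) g = (χ : G → ℂ) 1) : g = 1 := by
  classical
  have h1 := column_orthogonality g 1
  have h2 := column_orthogonality (1 : G) 1
  simp only [h] at h1
  rw [if_pos (IsConj.refl _)] at h2
  rw [h2] at h1
  by_cases hc : IsConj g 1
  · exact isConj_one_right.1 hc.symm
  · rw [if_neg hc] at h1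
    have : (Nat.card (Subgroup.centralizer ({1} : Set G)) : ℂ) ≠ 0 := by
      exact_mod_cast Nat.card_pos.ne'
    exact absurd h1 this

/-- Taketa's inequality for nilpotent groups with two degrees. -/
theorem metabelian_of_nilpotent [Group.IsNilpotent G] (hcd : CD m G) (hm1 : m ≠ 1) {a b : G}
    (ha : a ∈ commutator G) (hb : b ∈ commutator G) : a * b = b * a := by
  classical
  have hg : a * b * a⁻¹ * b⁻¹ = 1 := by
    apply eq_one_of_all_ker
    intro χ
    have hχc := IsIrrCharacter.isCharacter' χ.2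
    by_cases hχ1 : (χ : G → ℂ) 1 = 1
    · -- linear
      let f := homOfDegreeOne hχc hχ1
      have h1 : f (a * b * a⁻¹ * b⁻¹) = 1 := by
        rw [map_mul, map_mul, map_mul, map_inv, map_inv, mul_comm (f a)]
        group
      have h2 : (χ : G → ℂ) (a * b * a⁻¹ * b⁻¹) = ((f (a * b * a⁻¹ * b⁻¹) : ℂˣ) : ℂ) := rfl
      rw [h2, h1, hχ1]
      rfl
    · -- nonlinear
      obtain ⟨L, lam, hL⟩ := Cfsg.Agent.S0176.result (χ : G → ℂ) χ.2
      letI : Fintype L := Fintype.ofFinite _
      have hdeg : charDegree (χ : G → ℂ) = m := by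
        rcases hcd χ with h | h
        · exfalso
          apply hχ1
          exact apply_one_of_deg χ h
        · exact h
      have hidx : L.index = m := by
        have h1 := charDegree_cast hχc
        rw [hL, indFun_one] at h1
        have h2 : ((lam 1 : ℂˣ) : ℂ) = 1 := by rw [map_one]; rfl
        rw [h2, mul_one, ← hL, hdeg] at h1
        exact_mod_cast h1.symm
      -- the permutation character
      let Ψ : G → ℂ := indFun L fun _ => (1 : ℂ)
      have hΨ : IsCharacter G Ψ := isCharacter_indFun L (IsIrrCharacter.isCharacter' Cfsg.Agent.Lib.CharIso.isIrr_one)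
      obtain ⟨mu, hmu1, -, hmu3⟩ := Cfsg.Agent.Lib.CdSmall.char_decomp hΨ
      let one : IrrCharacter G := ⟨fun _ => 1, Cfsg.Agent.Lib.CharIso.isIrr_one⟩
      have hm_one : mu one = 1 := by
        have h1 := hmu1 one
        have h2 : classInner Ψ (one : G → ℂ) = 1 := by
          show classInner (indFun L _) (fun _ => (1 : ℂ)) = 1
          rw [frobenius_reciprocity _ _ (IsCharacter.isClassFunction' (IsIrrCharacter.isCharacter' Cfsg.Agent.Lib.CharIso.isIrr_one))]
          rw [classInner_irr Cfsg.Agent.Lib.CharIso.isIrr_one Cfsg.Agent.Lib.CharIso.isIrr_one, if_pos rfl]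
        rw [h2] at h1
        exact_mod_cast h1.symm
      have hdeg_one : charDegree (one : G → ℂ) = 1 := by
        have := charDegree_cast (IsIrrCharacter.isCharacter' one.2)
        have h2 : (one : G → ℂ) 1 = 1 := rfl
        rw [h2] at this
        exact_mod_cast this
      have hΨ1 : Ψ 1 = (m : ℂ) := by
        show indFun L _ 1 = _
        rw [indFun_one, hidx]
        simp
      have hsum : ∑ ψ : IrrCharacter G, mu ψ * charDegree (ψ : G → ℂ) = m := by
        have h2 : ∀ ψ : IrrCharacter G, (ψ : G → ℂ) 1 = (charDegree (ψ : G → ℂ) : ℂ) := fun ψ =>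
          (charDegree_cast (IsIrrCharacter.isCharacter' ψ.2)).symm
        rw [hΨ1] at hmu3
        simp only [h2] at hmu3
        exact_mod_cast hmu3.symm
      -- all constituents are linear
      have hlin : ∀ ψ : IrrCharacter G, mu ψ ≠ 0 → (ψ : G → ℂ) 1 = 1 := by
        intro ψ hψ
        by_cases hψ1 : ψ = one
        · rw [hψ1]
        · apply apply_one_of_deg
          rcases hcd ψ with h | h
          · exact h
          · exfalso
            have h3 := Finset.add_sum_erase Finset.univ (fun ψ : IrrCharacter G => mu ψ * charDegree (ψ : G → ℂ)) (Finset.mem_univ one)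
            rw [hsum, hm_one, hdeg_one] at h3
            have h4 : mu ψ * charDegree (ψ : G → ℂ) ≤ ∑ x ∈ Finset.univ.erase one, mu x * charDegree (x : G → ℂ) :=
              Finset.single_le_sum (f := fun x : IrrCharacter G => mu x * charDegree (x : G → ℂ)) (fun _ _ => Nat.zero_le _) (Finset.mem_erase.2 ⟨hψ1, Finset.mem_univ _⟩)
            rw [h] at h4
            have h5 : m ≤ mu ψ * m := Nat.le_mul_of_pos_left m (Nat.pos_of_ne_zero hψ)
            omega
      -- the derived subgroup lies in `L`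
      have hcomm : ∀ x ∈ commutator G, Ψ x = Ψ 1 := by
        intro x hx
        have hexp := classFunction_expand (IsCharacter.isClassFunction' hΨ)
        rw [hexp]
        simp only [Finset.sum_apply, Pi.smul_apply, smul_eq_mul]
        refine Finset.sum_congr rfl fun ψ _ => ?_
        rw [hmu1 ψ]
        by_cases hψ : mu ψ = 0
        · rw [hψ]
          simp
        · congr 1
          have h3 := hlin ψ hψ
          let f := homOfDegreeOne (IsIrrCharacter.isCharacter' ψ.2) h3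
          have h4 : commutator G ≤ f.ker := by
            unfold _root_.commutator
            rw [Subgroup.commutator_le]
            intro p _ q _
            rw [MonoidHom.mem_ker, map_commutatorElement, commutatorElement_def, mul_comm (f p)]
            group
          have h5 : f x = 1 := h4 hx
          have h6 : (ψ : G → ℂ) x = ((f x : ℂˣ) : ℂ) := rfl
          rw [h6, h5, h3]
          rfl
      have hGL : ∀ x ∈ commutator G, x ∈ L := by
        intro x hx
        have h1 := hcomm x hx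
        have h2 : Ψ x = (Nat.card L : ℂ)⁻¹ * ∑ t : G, if t⁻¹ * x * t ∈ L then (1 : ℂ) else 0 := by
          show indFun L _ x = _
          rw [indFun_apply]
          congr 1
          refine Finset.sum_congr rfl fun t _ => ?_
          exact Cfsg.Agent.Lib.CdSmall.extend_one L _
        have h3 : Ψ 1 = (Nat.card L : ℂ)⁻¹ * ∑ t : G, (1 : ℂ) := by
          show indFun L _ 1 = _
          rw [indFun_apply]
          congr 1
          refine Finset.sum_congr rfl fun t _ => ?_
          rw [Cfsg.Agent.Lib.CdSmall.extend_one L _]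
          rw [if_pos (by simp [L.one_mem])]
        have hL0 : (Nat.card L : ℂ)⁻¹ ≠ 0 := inv_ne_zero (by exact_mod_cast Nat.card_pos.ne')
        rw [h2, h3] at h1
        have h4 := mul_left_cancel₀ hL0 h1
        have h5 : ∑ t : G, ((if t⁻¹ * x * t ∈ L then 1 else 0 : ℕ) : ℂ) = ∑ t : G, ((1 : ℕ) : ℂ) := by
          push_cast
          exact h4
        have h6 : ∑ t : G, (if t⁻¹ * x * t ∈ L then 1 else 0 : ℕ) = ∑ t : G, 1 := by
          exact_mod_cast h5
        have h7 : ∀ t : G, (if t⁻¹ * x * t ∈ L then 1 else 0 : ℕ) = 1 := by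
          intro t
          have h8 := (Finset.sum_eq_sum_iff_of_le (s := Finset.univ) (f := fun t : G => (if t⁻¹ * x * t ∈ L then 1 else 0 : ℕ)) (g := fun _ => 1)
            (fun t _ => by split_ifs <;> omega)).1 h6 t (Finset.mem_univ t)
          exact h8
        have h8 := h7 1
        rw [inv_one, one_mul, mul_one] at h8
        by_contra hx2
        rw [if_neg hx2] at h8
        exact Nat.zero_ne_one h8
      -- value of the character
      have hconj : ∀ t : G, t⁻¹ * (a * b * a⁻¹ * b⁻¹) * t ∈ L ∧ ∀ h : t⁻¹ * (a * b * a⁻¹ * b⁻¹) * t ∈ L, lam ⟨_, h⟩ = 1 := by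
        intro t
        have hn : (commutator G).Normal := inferInstance
        have ha' : t⁻¹ * a * t ∈ L := hGL _ (by
          have := hn.conj_mem a ha t⁻¹
          simpa using this)
        have hb' : t⁻¹ * b * t ∈ L := hGL _ (by
          have := hn.conj_mem b hb t⁻¹
          simpa using this)
        have he : t⁻¹ * (a * b * a⁻¹ * b⁻¹) * t = (t⁻¹ * a * t) * (t⁻¹ * b * t) * (t⁻¹ * a * t)⁻¹ * (t⁻¹ * b * t)⁻¹ := by group
        have hmem : t⁻¹ * (a * b * a⁻¹ * b⁻¹) * t ∈ L := by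
          rw [he]
          exact L.mul_mem (L.mul_mem (L.mul_mem ha' hb') (L.inv_mem ha')) (L.inv_mem hb')
        refine ⟨hmem, fun h => ?_⟩
        have h2 : (⟨_, h⟩ : L) = ⟨_, ha'⟩ * ⟨_, hb'⟩ * (⟨_, ha'⟩ : L)⁻¹ * (⟨_, hb'⟩ : L)⁻¹ := Subtype.ext he
        rw [h2, map_mul, map_mul, map_mul, map_inv, map_inv, mul_comm (lam ⟨_, ha'⟩)]
        group
      rw [hL, indFun_apply, indFun_apply]
      congr 1
      refine Finset.sum_congr rfl fun t _ => ?_
      obtain ⟨h1, h2⟩ := hconj t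
      rw [extendByZero_of_mem _ _ h1, extendByZero_of_mem L _ (by simp [L.one_mem] : t⁻¹ * 1 * t ∈ L)]
      have h3 := h2 h1
      have h4 : (⟨t⁻¹ * 1 * t, by simp [L.one_mem]⟩ : L) = 1 := Subtype.ext (by simp)
      rw [h3, h4, map_one]
  calc a * b = a * b * a⁻¹ * b⁻¹ * (b * a) := by group
    _ = b * a := by rw [hg, one_mul]

end Main

end Cfsg.Agent.Lib.TwoDeg
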