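import Mathlib
import Cfsg.Agent.S0035
import Cfsg.Agent.S0039
import Cfsg.Agent.S0042
import Cfsg.Agent.Lib.TwoDeg
import Cfsg.Agent.Lib.SigFunc

/-! A solvable subgroup central in every solvable overgroup is central (via Frobenius' and
Thompson's theorems). -/

set_option autoImplicit false
set_option linter.all false

namespace Cfsg.Agent.Lib.CentSolvOver

open Cfsg
open scoped Pointwise

universe u

/-- The hypothesis of the theorem. -/
def Hyp {G : Type u} [Group G] (A : Subgroup G) : Prop :=
  Group.IsSolvable A ∧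
    ∀ S : Subgroup G, A ≤ S → Group.IsSolvable S → ∀ a ∈ A, ∀ s ∈ S, a * s = s * a

section
variable {G : Type u} [Group G]

theorem Hyp.conj {A : Subgroup G} (h : Hyp A) (g : G) : Hyp (A.map (MulAut.conj g).toMonoidHom) := by
  refine ⟨?_, ?_⟩
  · haveI := h.1
    exact solvable_of_surjective (f := (MulAut.conj g).toMonoidHom.subgroupMap A)
      ((MulAut.conj g).toMonoidHom.subgroupMap_surjective A)
  · intro S hS hSs a ha s hs
    obtain ⟨b, hb, rfl⟩ := ha
    -- conjugate back
    have hS' : A ≤ S.map (MulAut.conj g⁻¹).toMonoidHom := by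
      intro x hx
      refine ⟨g * x * g⁻¹, hS ⟨x, hx, rfl⟩, ?_⟩
      simp [MulAut.conj_apply]
      group
    have hsol : Group.IsSolvable (S.map (MulAut.conj g⁻¹).toMonoidHom) := by
      haveI := hSs
      exact solvable_of_surjective (f := (MulAut.conj g⁻¹).toMonoidHom.subgroupMap S)
        ((MulAut.conj g⁻¹).toMonoidHom.subgroupMap_surjective S)
    have h1 := h.2 _ hS' hsol b hb (g⁻¹ * s * g) ⟨s, hs, by simp [MulAut.conj_apply]⟩
    simp only [MulEquiv.coe_toMonoidHom, MulAut.conj_apply]
    have h2 : g * (b * (g⁻¹ * s * g)) * g⁻¹ = g * ((g⁻¹ * s * g) * b) * g⁻¹ := by rw [h1]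
    calc g * b * g⁻¹ * s = g * (b * (g⁻¹ * s * g)) * g⁻¹ := by group
      _ = g * ((g⁻¹ * s * g) * b) * g⁻¹ := h2
      _ = s * (g * b * g⁻¹) := by group

theorem Hyp.subgroupOf {A L : Subgroup G} (hAL : A ≤ L) (h : Hyp A) : Hyp (A.subgroupOf L) := by
  refine ⟨?_, ?_⟩
  · haveI := h.1
    exact solvable_of_solvable_injective (f := MonoidHom.mk' (fun a : A.subgroupOf L => (⟨a.1.1, a.2⟩ : A))
      (fun a b => rfl)) (fun a b hab => by
        have h1 : (⟨a.1.1, a.2⟩ : A) = ⟨b.1.1, b.2⟩ := hab
        have : ((a : L) : G) = ((b : L) : G) := congrArg (fun z : A => (z : G)) h1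
        exact Subtype.ext (Subtype.ext this))
  · intro S hS hSs a ha s hs
    have hS' : A ≤ S.map L.subtype := by
      intro x hx
      exact ⟨⟨x, hAL hx⟩, hS (by simpa [Subgroup.mem_subgroupOf] using hx), rfl⟩
    have hsol : Group.IsSolvable (S.map L.subtype) := by
      haveI := hSs
      exact solvable_of_surjective (f := L.subtype.subgroupMap S) (L.subtype.subgroupMap_surjective S)
    have h1 := h.2 _ hS' hsol a.1 (by simpa [Subgroup.mem_subgroupOf] using ha) s.1 ⟨s, hs, rfl⟩
    exact Subtype.ext h1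

end

theorem mem_comm_of_closure {G : Type u} [Group G] (s : Set G) (hs : ∀ a ∈ s, ∀ b ∈ s, a * b = b * a)
    (x y : G) (hx : x ∈ Subgroup.closure s) (hy : y ∈ Subgroup.closure s) : x * y = y * x := by
  have h1 : Subgroup.closure s ≤ Subgroup.centralizer s := by
    rw [Subgroup.closure_le]
    intro a ha
    rw [SetLike.mem_coe, Subgroup.mem_centralizer_iff]
    intro b hb
    exact hs b hb a ha
  have h2 : x ∈ Subgroup.centralizer (Subgroup.closure s : Set G) := by
    rw [Subgroup.centralizer_closure]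
    exact h1 hx
  exact ((Subgroup.mem_centralizer_iff.1 h2) y hy).symm

theorem card_lt_of_ne_top {G : Type u} [Group G] [Finite G] (L : Subgroup G) (h : L ≠ ⊤) :
    Nat.card L < Nat.card G := by
  have h1 := L.index_mul_card
  have h2 : L.index ≠ 1 := fun h3 => h (Subgroup.index_eq_one.1 h3)
  have h3 : L.index ≠ 0 := Subgroup.index_ne_zero_of_finite
  have h4 : 2 ≤ L.index := by omega
  have h5 : 0 < Nat.card L := Nat.card_pos
  nlinarith

theorem main (n : ℕ) : ∀ (G : Type u) [Group G] [Finite G], Nat.card G = n → ∀ A : Subgroup G, Hyp A →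
    A ≤ Subgroup.center G := by
  induction n using Nat.strong_induction_on with
  | _ n ih =>
  intro G _ _ hcard A hA
  classical
  by_contra hnot
  obtain ⟨a₀, ha₀, ha₀c⟩ := SetLike.not_le_iff_exists.1 hnot
  -- the inductive statement
  have hprop : ∀ B : Subgroup G, Hyp B → ∀ L : Subgroup G, L ≠ ⊤ → B ≤ L →
      ∀ b ∈ B, ∀ l ∈ L, b * l = l * b := by
    intro B hB L hL hBL b hb l hl
    have h1 := ih (Nat.card L) (hcard ▸ card_lt_of_ne_top L hL) L rfl (B.subgroupOf L) (hB.subgroupOf hBL)
    have h2 : (⟨b, hBL hb⟩ : L) ∈ B.subgroupOf L := by simpa [Subgroup.mem_subgroupOf] using hb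
    have h3 := Subgroup.mem_center_iff.1 (h1 h2) ⟨l, hl⟩
    have h4 := congrArg Subtype.val h3
    exact h4.symm
  let C : Subgroup G := Subgroup.centralizer (A : Set G)
  have hmemC : ∀ x, x ∈ C ↔ ∀ a ∈ A, a * x = x * a := fun x => Subgroup.mem_centralizer_iff
  have hCtop : C ≠ ⊤ := by
    intro h
    apply hnot
    intro a ha
    rw [Subgroup.mem_center_iff]
    intro g
    have : g ∈ C := h ▸ Subgroup.mem_top g
    exact ((hmemC g).1 this a ha).symm
  have hmaxC : ∀ L : Subgroup G, L ≠ ⊤ → A ≤ L → L ≤ C := by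
    intro L hL hAL l hl
    exact (hmemC l).2 (fun a ha => hprop A hA L hL hAL a ha l hl)
  have hAC : A ≤ C := by
    intro x hx
    exact (hmemC x).2 (fun a ha => hA.2 A le_rfl hA.1 a ha x hx)
  by_cases hCn : C.Normal
  · -- `C` normal
    apply hCtop
    rw [eq_top_iff]
    intro g _
    have hconjC : ∀ x, ∀ a ∈ A, x * a * x⁻¹ ∈ C := fun x a ha => hCn.conj_mem a (hAC ha) x
    let B : Subgroup G := Subgroup.normalClosure (A : Set G)
    have hBcomm : ∀ x ∈ B, ∀ y ∈ B, x * y = y * x := by
      apply fun x hx y hy => mem_comm_of_closure (Group.conjugatesOfSet (A : Set G)) ?_ x y hx hy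
      intro u hu v hv
      rw [Group.mem_conjugatesOfSet_iff] at hu hv
      obtain ⟨a, ha, hau⟩ := hu
      obtain ⟨b, hb, hbv⟩ := hv
      obtain ⟨x, rfl⟩ := isConj_iff.1 hau
      obtain ⟨y, rfl⟩ := isConj_iff.1 hbv
      -- `a` commutes with `(x⁻¹ y) b (x⁻¹ y)⁻¹`
      have h1 := (hmemC _).1 (hconjC (x⁻¹ * y) b hb) a ha
      have h2 : x * a * x⁻¹ * (y * b * y⁻¹) = x * (a * ((x⁻¹ * y) * b * (x⁻¹ * y)⁻¹)) * x⁻¹ := by group
      have h3 : y * b * y⁻¹ * (x * a * x⁻¹) = x * (((x⁻¹ * y) * b * (x⁻¹ * y)⁻¹) * a) * x⁻¹ := by group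
      rw [h2, h3, h1]
    haveI hBn : B.Normal := Subgroup.normalClosure_normal
    have hBsol : Group.IsSolvable B := by
      haveI : IsMulCommutative B := ⟨⟨fun x y => Subtype.ext (hBcomm x.1 x.2 y.1 y.2)⟩⟩
      let _ : CommGroup B := { (inferInstance : Group B) with mul_comm := fun x y => Subtype.ext (hBcomm x.1 x.2 y.1 y.2) }
      exact Group.isSolvable_of_comm (fun x y => Subtype.ext (hBcomm x.1 x.2 y.1 y.2))
    have hZsol : Group.IsSolvable (Subgroup.zpowers g) :=
      Group.isSolvable_of_comm (fun x y => by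
        obtain ⟨i, hi⟩ := x.2
        obtain ⟨j, hj⟩ := y.2
        apply Subtype.ext
        show x.1 * y.1 = y.1 * x.1
        rw [← hi, ← hj]
        exact (Commute.zpow_zpow_self g i j))
    have hn : Subgroup.zpowers g ≤ Subgroup.normalizer (B : Set G) := by
      have : Subgroup.normalizer (B : Set G) = ⊤ := Subgroup.normalizer_eq_top_iff.2 hBn
      rw [this]; exact le_top
    have hS := (Cfsg.Agent.Lib.SigFunc.card_sup_dvd_and_solvable B (Subgroup.zpowers g) hn).2 hBsol hZsol
    have hAS : A ≤ B ⊔ Subgroup.zpowers g := (Subgroup.le_normalClosure).trans le_sup_left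
    exact (hmemC g).2 (fun a ha => hA.2 _ hAS hS a ha g
      ((Subgroup.mem_zpowers g : g ∈ Subgroup.zpowers g) |> (le_sup_right : Subgroup.zpowers g ≤ B ⊔ Subgroup.zpowers g)))
  · -- `C` is not normal
    have hNC : Subgroup.normalizer (C : Set G) ≤ C := by
      apply hmaxC
      · intro h
        exact hCn (Subgroup.normalizer_eq_top_iff.1 h)
      · exact hAC.trans Subgroup.le_normalizer
    have hkey : ∀ g, g ∉ C → ∀ x, x ∈ C → g⁻¹ * x * g ∈ C → x ∈ Subgroup.center G := by
      intro g hg x hx hx'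
      have hsup : A ⊔ A.map (MulAut.conj g).toMonoidHom = ⊤ := by
        by_contra hne
        have hL := hmaxC _ hne le_sup_left
        have hA'C : A.map (MulAut.conj g).toMonoidHom ≤ C := le_sup_right.trans hL
        have hcomm := hprop _ (hA.conj g) C hCtop hA'C
        -- so `g⁻¹ C g ≤ C`
        have hle : C.map (MulAut.conj g⁻¹).toMonoidHom ≤ C := by
          rintro _ ⟨l, hl, rfl⟩
          refine (hmemC _).2 (fun a ha => ?_)
          have h1 := hcomm (g * a * g⁻¹) ⟨a, ha, by simp [MulAut.conj_apply]⟩ l hl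
          simp only [MulEquiv.coe_toMonoidHom, MulAut.conj_apply]
          have h2 : g⁻¹ * (g * a * g⁻¹ * l) * g = g⁻¹ * (l * (g * a * g⁻¹)) * g := by rw [h1]
          calc a * (g⁻¹ * l * g⁻¹⁻¹) = g⁻¹ * (g * a * g⁻¹ * l) * g := by group
            _ = g⁻¹ * (l * (g * a * g⁻¹)) * g := h2
            _ = g⁻¹ * l * g⁻¹⁻¹ * a := by group
        have hcard' : Nat.card (C.map (MulAut.conj g⁻¹).toMonoidHom : Subgroup G) = Nat.card C :=
          Nat.card_congr ((C.equivMapOfInjective _ (MulAut.conj g⁻¹).injective).toEquiv.symm)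
        have heq : C.map (MulAut.conj g⁻¹).toMonoidHom = C :=
          Subgroup.eq_of_le_of_card_ge hle (by rw [hcard'])
        have hgn : g⁻¹ ∈ Subgroup.normalizer (C : Set G) := by
          rw [Subgroup.mem_normalizer_iff]
          intro h
          constructor
          · intro hh
            have : (MulAut.conj g⁻¹).toMonoidHom h ∈ C.map (MulAut.conj g⁻¹).toMonoidHom := ⟨h, hh, rfl⟩
            rw [heq] at this
            simpa [MulAut.conj_apply] using this
          · intro hh
            rw [← heq] at hh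
            obtain ⟨y, hy, hye⟩ := hh
            simp only [MulEquiv.coe_toMonoidHom, MulAut.conj_apply] at hye
            have : y = h := by
              have h5 : g⁻¹ * y = g⁻¹ * h := mul_right_cancel hye
              exact mul_left_cancel h5
            exact this ▸ hy
        exact hg (by simpa using C.inv_mem (hNC hgn))
      rw [Subgroup.mem_center_iff]
      have h1 : A ⊔ A.map (MulAut.conj g).toMonoidHom ≤ Subgroup.centralizer ({x} : Set G) := by
        apply sup_le
        · intro a ha
          rw [Subgroup.mem_centralizer_singleton_iff]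
          exact ((hmemC x).1 hx a ha)
        · rintro _ ⟨a, ha, rfl⟩
          rw [Subgroup.mem_centralizer_singleton_iff]
          simp only [MulEquiv.coe_toMonoidHom, MulAut.conj_apply]
          have h2 := (hmemC _).1 hx' a ha
          have h3 : g * (a * (g⁻¹ * x * g)) * g⁻¹ = g * ((g⁻¹ * x * g) * a) * g⁻¹ := by rw [h2]
          calc g * a * g⁻¹ * x = g * (a * (g⁻¹ * x * g)) * g⁻¹ := by group
            _ = g * ((g⁻¹ * x * g) * a) * g⁻¹ := h3
            _ = x * (g * a * g⁻¹) := by group
      rw [hsup] at h1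
      intro y
      exact Subgroup.mem_centralizer_singleton_iff.1 (h1 (Subgroup.mem_top y))
    -- quotient by the centre
    have hZC : Subgroup.center G ≤ C := by
      intro z hz
      exact (hmemC z).2 (fun a _ => (Subgroup.mem_center_iff.1 hz a))
    let π : G →* G ⧸ Subgroup.center G := QuotientGroup.mk' (Subgroup.center G)
    have hπ : ∀ x, π x = 1 ↔ x ∈ Subgroup.center G := fun x => QuotientGroup.eq_one_iff x
    have hπs : Function.Surjective π := QuotientGroup.mk'_surjective _
    have hπeq : ∀ x y, π x = π y → ∃ z ∈ Subgroup.center G, x = y * z := by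
      intro x y h
      refine ⟨y⁻¹ * x, ?_, by group⟩
      rw [← hπ, map_mul, map_inv, h, inv_mul_cancel]
    let H : Subgroup (G ⧸ Subgroup.center G) := C.map π
    have hmemH : ∀ g, π g ∈ H ↔ g ∈ C := by
      intro g
      constructor
      · rintro ⟨c, hc, hce⟩
        obtain ⟨z, hz, rfl⟩ := hπeq g c hce.symm
        exact C.mul_mem hc (hZC hz)
      · intro h
        exact ⟨g, h, rfl⟩
    have hH : IsFrobeniusComplement H := by
      refine ⟨?_, ?_, ?_⟩
      · intro h
        have : π a₀ ∈ H := (hmemH a₀).2 (hAC ha₀)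
        rw [h, Subgroup.mem_bot, hπ] at this
        exact ha₀c this
      · intro h
        apply hCtop
        rw [eq_top_iff]
        intro g _
        exact (hmemH g).1 (h ▸ Subgroup.mem_top _)
      · intro gb hgb
        obtain ⟨g, rfl⟩ := hπs gb
        have hgC : g ∉ C := fun h => hgb ((hmemH g).2 h)
        rw [eq_bot_iff]
        rintro y ⟨hy1, hy2⟩
        obtain ⟨x, hx, rfl⟩ := hy1
        replace hy2 : π x ∈ MulAut.conj (π g) • H := hy2
        rw [Subgroup.mem_pointwise_smul_iff_inv_smul_mem] at hy2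
        have e : (MulAut.conj (π g))⁻¹ • π x = π (g⁻¹ * x * g) := by
          simp [MulAut.smul_def, MulAut.conj_inv_apply]
        rw [e, hmemH] at hy2
        rw [Subgroup.mem_bot, hπ]
        exact hkey g hgC x hx hy2
    obtain ⟨N, hNs, hNn, hc⟩ := Cfsg.Agent.S0035.result H hH
    obtain ⟨N', hNs', hNn', hnil⟩ := Cfsg.Agent.S0042.result H hH
    have e : N' = N := SetLike.coe_injective (hNs'.trans hNs.symm)
    rw [e] at hnil
    have hN : N ≠ ⊥ := by
      rintro rfl
      apply hH.2.1
      have := hc.sup_eq_top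
      rwa [bot_sup_eq] at this
    have hfpf := (Cfsg.Agent.S0039.result N H hc hN hH.1).1 hH
    -- the centre of `N`
    let W : Subgroup (G ⧸ Subgroup.center G) := N ⊓ Subgroup.centralizer (N : Set _)
    have hWcomm : ∀ x ∈ W, ∀ y ∈ W, x * y = y * x := by
      intro x hx y hy
      exact (Subgroup.mem_centralizer_iff.1 hy.2) x hx.1
    have hWn : W.Normal := by
      refine ⟨fun x hx g => ⟨hNn.conj_mem x hx.1 g, ?_⟩⟩
      show g * x * g⁻¹ ∈ Subgroup.centralizer (N : Set _)
      rw [Subgroup.mem_centralizer_iff]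
      intro n hn
      have h1 := (Subgroup.mem_centralizer_iff.1 hx.2) (g⁻¹ * n * g) (by
        have := hNn.conj_mem n hn g⁻¹
        simpa using this)
      have h2 : g * (g⁻¹ * n * g * x) * g⁻¹ = g * (x * (g⁻¹ * n * g)) * g⁻¹ := by rw [h1]
      calc n * (g * x * g⁻¹) = g * (g⁻¹ * n * g * x) * g⁻¹ := by group
        _ = g * (x * (g⁻¹ * n * g)) * g⁻¹ := h2
        _ = g * x * g⁻¹ * n := by group
    have hWne : W ≠ ⊥ := by
      haveI : Nontrivial N := (Subgroup.nontrivial_iff_ne_bot N).2 hN
      haveI := hnil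
      have h1 := Cfsg.Agent.Lib.TwoDeg.center_nontrivial_of_nilpotent (X := N)
      intro hW
      apply h1
      rw [eq_bot_iff]
      intro z hz
      have hzW : (z : G ⧸ Subgroup.center G) ∈ W := by
        refine ⟨z.2, ?_⟩
        show (z : G ⧸ Subgroup.center G) ∈ Subgroup.centralizer (N : Set _)
        rw [Subgroup.mem_centralizer_iff]
        intro n hn
        have := Subgroup.mem_center_iff.1 hz ⟨n, hn⟩
        exact congrArg Subtype.val this
      rw [hW, Subgroup.mem_bot] at hzW
      exact Subgroup.mem_bot.2 (Subtype.ext hzW)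
    let Ab : Subgroup (G ⧸ Subgroup.center G) := A.map π
    have hAbsol : Group.IsSolvable Ab := by
      haveI := hA.1
      exact solvable_of_surjective (f := π.subgroupMap A) (π.subgroupMap_surjective A)
    have hWsol : Group.IsSolvable W :=
      Group.isSolvable_of_comm (fun x y => Subtype.ext (hWcomm x.1 x.2 y.1 y.2))
    have hn : Ab ≤ Subgroup.normalizer (W : Set (G ⧸ Subgroup.center G)) := by
      have : Subgroup.normalizer (W : Set (G ⧸ Subgroup.center G)) = ⊤ := Subgroup.normalizer_eq_top_iff.2 hWn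
      rw [this]; exact le_top
    have hTb := (Cfsg.Agent.Lib.SigFunc.card_sup_dvd_and_solvable W Ab hn).2 hWsol hAbsol
    let Tb : Subgroup (G ⧸ Subgroup.center G) := W ⊔ Ab
    let T : Subgroup G := Tb.comap π
    have hZT : Subgroup.center G ≤ T := by
      intro z hz
      show π z ∈ Tb
      rw [(hπ z).2 hz]
      exact one_mem _
    have hTsol : Group.IsSolvable T := by
      haveI : Group.IsSolvable Tb := hTb
      haveI : Group.IsSolvable (Subgroup.center G) :=
        Group.isSolvable_of_comm (fun x y => Subtype.ext (by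
          exact Subgroup.mem_center_iff.1 x.2 y.1 |>.symm))
      refine solvable_of_ker_le_range (Subgroup.inclusion hZT) (π.subgroupComap Tb) ?_
      intro x hx
      have h1 : π x.1 = 1 := congrArg Subtype.val (MonoidHom.mem_ker.1 hx)
      exact ⟨⟨x.1, (hπ _).1 h1⟩, rfl⟩
    have hAT : A ≤ T := by
      intro a ha
      show π a ∈ Tb
      exact (le_sup_right : Ab ≤ Tb) ⟨a, ha, rfl⟩
    have hWb : ∃ w ∈ W, w ≠ 1 := by
      by_contra hall
      push Not at hall
      exact hWne ((Subgroup.eq_bot_iff_forall W).2 hall)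
    obtain ⟨w, hw, hw1⟩ := hWb
    obtain ⟨t, rfl⟩ := hπs w
    have htT : t ∈ T := by
      show π t ∈ Tb
      exact (le_sup_left : W ≤ Tb) hw
    have h1 := hA.2 T hAT hTsol a₀ ha₀ t htT
    have h2 : π t ∈ N ⊓ Subgroup.centralizer {π a₀} := by
      refine ⟨hw.1, ?_⟩
      show π t ∈ Subgroup.centralizer {π a₀}
      rw [Subgroup.mem_centralizer_singleton_iff]
      rw [← map_mul, ← map_mul, h1]
    have h3 : π a₀ ≠ 1 := fun h => ha₀c ((hπ _).1 h)
    rw [hfpf (π a₀) ((hmemH a₀).2 (hAC ha₀)) h3, Subgroup.mem_bot] at h2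
    exact hw1 h2

end Cfsg.Agent.Lib.CentSolvOver
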