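import Cfsg.Agent.Lib.CharPermRep
import Cfsg.Prelude.Def_Perm

/-!
# The commutant of a representation; central projections

For a representation `σ` on `V` with character `π`, `proj σ χ` is the central projection attached
to an irreducible character.  Its traces are `⟨π, χ⟩ χ`; when `π` is multiplicity free these span
the commutant.
-/

set_option linter.unusedSectionVars false
set_option linter.style.haveILetI false

namespace Cfsg.Agent.Lib.CharCommutant

open scoped ComplexConjugate
open Module Cfsg Cfsg.Agent.Lib.CharCore Cfsg.Agent.Lib.CharBasic Cfsg.Agent.Lib.CharIrr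
  Cfsg.Agent.Lib.CharOps Cfsg.Agent.Lib.CharGen Cfsg.Agent.Lib.CharAb Cfsg.Agent.Lib.CharClass

universe u v w

variable {G : Type u} [Group G] [Fintype G]
variable {V : Type*} [AddCommGroup V] [Module ℂ V] [FiniteDimensional ℂ V]
variable (σ : Representation ℂ G V)

/-- The central projection attached to `χ`. -/
noncomputable def proj (χ : G → ℂ) : End ℂ V :=
  (χ 1 / (Nat.card G : ℂ)) • Cfsg.Agent.Lib.CharClass.classOp σ (fun g => conj (χ g))

theorem proj_comm {χ : G → ℂ} (hχ : IsIrrCharacter G χ) (h : G) : proj σ χ * σ h = σ h * proj σ χ := by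
  have hc : IsClassFunction G (fun g => conj (χ g)) := by
    intro g x
    simp only
    rw [IsCharacter.isClassFunction' (IsIrrCharacter.isCharacter' hχ)]
  simp only [proj, smul_mul_assoc, mul_smul_comm]
  rw [Cfsg.Agent.Lib.CharClass.classOp_comm σ hc h]

/-- The sum of `conj χ` against a translate of an irreducible character. -/
theorem sum_conj_mul_translate {χ ψ : G → ℂ} (hχ : IsIrrCharacter G χ) (hψ : IsIrrCharacter G ψ) (h : G) :
    ∑ g, conj (χ g) * ψ (g * h) * χ 1 = if ψ = χ then (Nat.card G : ℂ) * χ h else 0 := by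
  classical
  have hc : IsClassFunction G (fun g => conj (χ g)) := by
    intro g x
    simp only
    rw [IsCharacter.isClassFunction' (IsIrrCharacter.isCharacter' hχ)]
  have h1 := Cfsg.Agent.Lib.CharCentral.sum_mul_irr hψ hc h
  have hG : (Nat.card G : ℂ) ≠ 0 := by exact_mod_cast Nat.card_pos.ne'
  have h2 : ∑ g, conj (χ g) * ψ g = if ψ = χ then (Nat.card G : ℂ) else 0 := by
    have h3 := classInner_irr hψ hχ
    rw [Cfsg.classInner] at h3
    have h4 : ∑ g, ψ g * conj (χ g) = (Nat.card G : ℂ) * (if ψ = χ then 1 else 0) := by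
      rw [← h3]
      field_simp
    simp only [mul_comm (conj _)]
    rw [h4]
    split_ifs <;> simp
  rw [h2] at h1
  by_cases he : ψ = χ
  · subst he
    rw [if_pos rfl] at h1 ⊢
    rw [← Finset.sum_mul]
    exact h1
  · rw [if_neg he] at h1 ⊢
    rw [zero_mul] at h1
    have h5 : ψ 1 ≠ 0 := degree_ne_zero hψ
    have h6 : ∑ g, conj (χ g) * ψ (g * h) = 0 := by
      rcases mul_eq_zero.mp h1 with h7 | h7
      · exact h7
      · exact absurd h7 h5
    rw [← Finset.sum_mul, h6, zero_mul]

/-- The trace formula for the central projections. -/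
theorem trace_proj_mul {χ : G → ℂ} (hχ : IsIrrCharacter G χ) (h : G) :
    LinearMap.trace ℂ V (proj σ χ * σ h) = classInner σ.character χ * χ h := by
  classical
  have hG : (Nat.card G : ℂ) ≠ 0 := by exact_mod_cast Nat.card_pos.ne'
  have hπ : IsCharacter G σ.character := isCharacter_character σ
  have hexp := classFunction_expand (IsCharacter.isClassFunction' hπ)
  have h1 : LinearMap.trace ℂ V (proj σ χ * σ h) =
      (Nat.card G : ℂ)⁻¹ * ∑ g, conj (χ g) * σ.character (g * h) * χ 1 := by
    simp only [proj, Cfsg.Agent.Lib.CharClass.classOp, smul_mul_assoc, Finset.sum_mul, map_smul, map_sum, smul_eq_mul]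
    rw [Finset.mul_sum, Finset.mul_sum]
    refine Finset.sum_congr rfl fun g _ => ?_
    rw [← map_mul]
    simp only [Representation.character]
    field_simp
  rw [h1]
  have h2 : ∀ g, σ.character (g * h) = ∑ ψ : IrrCharacter G, classInner σ.character (ψ : G → ℂ) * (ψ : G → ℂ) (g * h) := by
    intro g
    conv_lhs => rw [hexp]
    simp [Finset.sum_apply]
  simp only [h2, Finset.mul_sum, Finset.sum_mul]
  rw [Finset.sum_comm]
  have h3 : ∀ ψ : IrrCharacter G, ∑ g, conj (χ g) * (classInner σ.character (ψ : G → ℂ) * (ψ : G → ℂ) (g * h)) * χ 1 =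
      classInner σ.character (ψ : G → ℂ) * (if (ψ : G → ℂ) = χ then (Nat.card G : ℂ) * χ h else 0) := by
    intro ψ
    rw [← sum_conj_mul_translate hχ ψ.2 h, Finset.mul_sum]
    refine Finset.sum_congr rfl fun g _ => ?_
    ring
  have h4 : (Nat.card G : ℂ)⁻¹ * ∑ ψ : IrrCharacter G, ∑ g, conj (χ g) * (classInner σ.character (ψ : G → ℂ) * (ψ : G → ℂ) (g * h)) * χ 1 = classInner σ.character χ * χ h := by
    simp only [h3]
    rw [Finset.sum_eq_single (⟨χ, hχ⟩ : IrrCharacter G)]
    · simp only [if_true]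
      field_simp
    · intro ψ _ hne
      rw [if_neg]
      · simp
      · intro he
        exact hne (Subtype.ext he)
    · simp
  rw [← h4, Finset.mul_sum]
  simp only [Finset.mul_sum]

theorem trace_proj {χ : G → ℂ} (hχ : IsIrrCharacter G χ) :
    LinearMap.trace ℂ V (proj σ χ) = classInner σ.character χ * χ 1 := by
  have := trace_proj_mul σ hχ 1
  rwa [map_one, mul_one] at this

theorem mem_invariants_iff (S : End ℂ V) :
    S ∈ (σ.linHom σ).invariants ↔ ∀ g, S * σ g = σ g * S := by
  rw [Representation.mem_invariants]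
  constructor
  · intro h g
    have h1 := h g
    rw [Representation.linHom_apply] at h1
    have h2 : σ g * S * σ g⁻¹ = S := h1
    calc S * σ g = (σ g * S * σ g⁻¹) * σ g := by rw [h2]
      _ = σ g * S * (σ g⁻¹ * σ g) := by rw [mul_assoc (σ g * S)]
      _ = σ g * S := by
        rw [← map_mul]
        simp
  · intro h g
    rw [Representation.linHom_apply]
    show σ g * S * σ g⁻¹ = S
    rw [← h g, mul_assoc, ← map_mul]
    simp

theorem proj_mem_invariants {χ : G → ℂ} (hχ : IsIrrCharacter G χ) :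
    proj σ χ ∈ (σ.linHom σ).invariants :=
  (mem_invariants_iff σ _).mpr (proj_comm σ hχ)

theorem finrank_invariants :
    (finrank ℂ (σ.linHom σ).invariants : ℂ) = classInner σ.character σ.character := by
  rw [(Representation.invariantsEquivIntertwiningMap σ σ).finrank_eq,
    Cfsg.Agent.Lib.CharOrtho.classInner_character]

/-- `⟨π, π⟩` is the sum of squares of the multiplicities. -/
theorem classInner_self_eq_sum (m : IrrCharacter G → ℕ)
    (hm : ∀ χ : IrrCharacter G, classInner σ.character (χ : G → ℂ) = m χ) :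
    classInner σ.character σ.character = ((∑ χ, m χ ^ 2 : ℕ) : ℂ) := by
  rw [Cfsg.Agent.Lib.CharDecomp.classInner_self_eq_sum (isCharacter_character σ)]
  push_cast
  refine Finset.sum_congr rfl fun χ _ => ?_
  rw [hm χ]
  simp [sq]

/-- When all multiplicities are at most one, the central projections span the commutant. -/
theorem invariants_le_span (hfree : ∀ χ : IrrCharacter G, classInner σ.character (χ : G → ℂ) = 0 ∨
      classInner σ.character (χ : G → ℂ) = 1) (S : End ℂ V) (hS : S ∈ (σ.linHom σ).invariants) :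
    S ∈ Submodule.span ℂ (Set.range (fun χ : {χ : IrrCharacter G // classInner σ.character (χ : G → ℂ) ≠ 0} => proj σ (χ.1 : G → ℂ))) := by
  classical
  let I := {χ : IrrCharacter G // classInner σ.character (χ : G → ℂ) ≠ 0}
  let p : I → (σ.linHom σ).invariants := fun i => ⟨proj σ (i.1 : G → ℂ), proj_mem_invariants σ i.1.2⟩
  have hli : LinearIndependent ℂ p := by
    rw [Fintype.linearIndependent_iff]
    intro c hc i
    -- apply the traces
    have h1 : ∑ j : I, c j • (proj σ (j.1 : G → ℂ)) = 0 := by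
      have := congrArg Subtype.val hc
      simpa [p] using this
    have h2 : ∑ j : I, (c j * classInner σ.character (j.1 : G → ℂ)) • ((j.1 : G → ℂ)) = 0 := by
      funext h
      have h3 := congrArg (fun T : End ℂ V => LinearMap.trace ℂ V (T * σ h)) h1
      simp only [Finset.sum_mul, map_sum, smul_mul_assoc, map_smul, smul_eq_mul, map_zero, zero_mul] at h3
      simp only [trace_proj_mul σ (Subtype.property _)] at h3
      simp only [Finset.sum_apply, Pi.smul_apply, smul_eq_mul, Pi.zero_apply]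
      refine Eq.trans ?_ h3
      refine Finset.sum_congr rfl fun j _ => ?_
      ring
    have h3 := congrArg (fun f => classInner f (i.1 : G → ℂ)) h2
    simp only [classInner_sum_left, classInner_smul_left, classInner_zero_left] at h3
    rw [Finset.sum_eq_single i] at h3
    · rw [classInner_irr i.1.2 i.1.2, if_pos rfl, mul_one] at h3
      exact (mul_eq_zero.mp h3).resolve_right i.2
    · intro j _ hj
      rw [classInner_irr j.1.2 i.1.2, if_neg, mul_zero]
      intro he
      exact hj (Subtype.ext (Subtype.ext he))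
    · simp
  have hcard : Fintype.card I = finrank ℂ (σ.linHom σ).invariants := by
    have h1 := finrank_invariants σ
    have h2 : ∀ χ : IrrCharacter G, classInner σ.character (χ : G → ℂ) = ((if classInner σ.character (χ : G → ℂ) ≠ 0 then 1 else 0 : ℕ) : ℂ) := by
      intro χ
      rcases hfree χ with h | h
      · simp [h]
      · simp [h]
    rw [classInner_self_eq_sum σ _ h2] at h1
    have h3 : finrank ℂ (σ.linHom σ).invariants = ∑ χ : IrrCharacter G, (if classInner σ.character (χ : G → ℂ) ≠ 0 then 1 else 0) ^ 2 := by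
      exact_mod_cast h1
    rw [h3, Fintype.card_subtype, Finset.card_filter]
    refine Finset.sum_congr rfl fun χ _ => ?_
    split_ifs <;> rfl
  have htop := hli.span_eq_top_of_card_eq_finrank' hcard
  have hmem : (⟨S, hS⟩ : (σ.linHom σ).invariants) ∈ Submodule.span ℂ (Set.range p) := by
    rw [htop]
    exact Submodule.mem_top
  have hmap := Submodule.mem_map_of_mem (f := (σ.linHom σ).invariants.subtype) hmem
  rw [Submodule.map_span, ← Set.range_comp] at hmap
  exact hmap

/-- A multiplicity free representation has commutative commutant. -/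
theorem commute_of_free (hfree : ∀ χ : IrrCharacter G, classInner σ.character (χ : G → ℂ) = 0 ∨
      classInner σ.character (χ : G → ℂ) = 1) (S T : End ℂ V) (hS : S ∈ (σ.linHom σ).invariants)
    (hT : T ∈ (σ.linHom σ).invariants) : S * T = T * S := by
  classical
  have hS' := invariants_le_span σ hfree S hS
  -- `T` commutes with all central projections
  have hcomm : ∀ χ : {χ : IrrCharacter G // classInner σ.character (χ : G → ℂ) ≠ 0}, proj σ (χ.1 : G → ℂ) * T = T * proj σ (χ.1 : G → ℂ) := by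
    intro χ
    have hT' := (mem_invariants_iff σ T).mp hT
    simp only [proj, Cfsg.Agent.Lib.CharClass.classOp, smul_mul_assoc, mul_smul_comm, Finset.sum_mul, Finset.mul_sum]
    congr 1
    refine Finset.sum_congr rfl fun g _ => ?_
    rw [hT' g]
  refine Submodule.span_induction (p := fun S _ => S * T = T * S) ?_ ?_ ?_ ?_ hS'
  · rintro _ ⟨χ, rfl⟩
    exact hcomm χ
  · simp
  · intro a b _ _ ha hb
    rw [add_mul, mul_add, ha, hb]
  · intro c a _ ha
    rw [smul_mul_assoc, mul_smul_comm, ha]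

/-- A non multiplicity free representation has noncommuting endomorphisms. -/
theorem exists_not_commute {χ : G → ℂ} (hχ : IsIrrCharacter G χ)
    (h0 : classInner σ.character χ ≠ 0) (h1 : classInner σ.character χ ≠ 1) :
    ∃ S T : End ℂ V, S ∈ (σ.linHom σ).invariants ∧ T ∈ (σ.linHom σ).invariants ∧ S * T ≠ T * S := by
  classical
  obtain ⟨n, τ, hτ, rfl⟩ := hχ
  haveI := hτ
  have hfr := Cfsg.Agent.Lib.CharOrtho.classInner_character τ σ
  have hfr2 : 1 < finrank ℂ (τ.IntertwiningMap σ) := by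
    have h2 : finrank ℂ (τ.IntertwiningMap σ) ≠ 0 := by
      intro h
      apply h0
      rw [hfr, h]
      simp
    have h3 : finrank ℂ (τ.IntertwiningMap σ) ≠ 1 := by
      intro h
      apply h1
      rw [hfr, h]
      simp
    omega
  have hnt : Nontrivial (τ.IntertwiningMap σ) := Module.nontrivial_of_finrank_pos (R := ℂ) (by omega)
  obtain ⟨φ₁, hφ₁⟩ := exists_ne (0 : τ.IntertwiningMap σ)
  obtain ⟨φ₂, hli⟩ := exists_linearIndependent_pair_of_one_lt_finrank hfr2 hφ₁
  have hinj : Function.Injective φ₁ := (Representation.IsIrreducible.injective_or_eq_zero φ₁).resolve_right hφ₁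
  obtain ⟨r, hr⟩ := φ₁.toLinearMap.exists_leftInverse_of_injective (LinearMap.ker_eq_bot.mpr hinj)
  have hG : (Nat.card G : ℂ) ≠ 0 := by exact_mod_cast Nat.card_pos.ne'
  let ψ : (V →ₗ[ℂ] (Fin n → ℂ)) := (Nat.card G : ℂ)⁻¹ • ∑ g : G, (τ g) ∘ₗ r ∘ₗ (σ (g⁻¹))
  have hψcomm : ∀ h : G, ψ ∘ₗ σ h = τ h ∘ₗ ψ := by
    intro h
    refine LinearMap.ext fun v => ?_
    simp only [ψ, LinearMap.comp_apply, LinearMap.smul_apply, LinearMap.sum_apply, map_smul, map_sum]
    congr 1
    refine Fintype.sum_equiv (Equiv.mulLeft h⁻¹)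
      (fun g => (τ g) (r (σ g⁻¹ (σ h v)))) (fun g => τ h (τ g (r (σ g⁻¹ v)))) fun g => ?_
    have e1 : (h⁻¹ * g)⁻¹ = g⁻¹ * h := by group
    have e2 : τ g = τ h * τ (h⁻¹ * g) := by
      rw [← map_mul]
      simp
    simp only [Equiv.coe_mulLeft]
    rw [e1, map_mul σ, e2]
    rfl
  have hψφ : ψ ∘ₗ φ₁.toLinearMap = LinearMap.id := by
    refine LinearMap.ext fun v => ?_
    have h3 : ∀ g : G, τ g (r (σ g⁻¹ (φ₁ v))) = v := by
      intro g
      have h4 : φ₁ (τ g⁻¹ v) = σ g⁻¹ (φ₁ v) := LinearMap.congr_fun (φ₁.isIntertwining' g⁻¹) v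
      have h5 : r (φ₁ (τ g⁻¹ v)) = τ g⁻¹ v := LinearMap.congr_fun hr _
      rw [← h4, h5, ← Module.End.mul_apply, ← map_mul]
      simp
    have h6 : (ψ ∘ₗ φ₁.toLinearMap) v = (Nat.card G : ℂ)⁻¹ • ∑ g : G, τ g (r (σ g⁻¹ (φ₁ v))) := by
      simp [ψ]
    rw [h6]
    simp only [h3, Finset.sum_const, Finset.card_univ, ← Nat.card_eq_fintype_card]
    rw [← Nat.cast_smul_eq_nsmul ℂ, smul_smul, inv_mul_cancel₀ hG, one_smul]
    rfl
  -- the scalar
  have hcomm2 : ∀ g, (ψ ∘ₗ φ₂.toLinearMap) ∘ₗ τ g = τ g ∘ₗ (ψ ∘ₗ φ₂.toLinearMap) := by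
    intro g
    rw [LinearMap.comp_assoc, φ₂.isIntertwining', ← LinearMap.comp_assoc, hψcomm, LinearMap.comp_assoc]
  obtain ⟨c, hc⟩ := schur_scalar τ (ψ ∘ₗ φ₂.toLinearMap) hcomm2
  let φ₃ : (Fin n → ℂ) →ₗ[ℂ] V := φ₂.toLinearMap - c • φ₁.toLinearMap
  have hψ3 : ψ ∘ₗ φ₃ = 0 := by
    simp only [φ₃, LinearMap.comp_sub, LinearMap.comp_smul, hψφ, hc, sub_self]
  have hφ₃ne : φ₃ ≠ 0 := by
    intro h0
    have h5 : φ₂.toLinearMap = c • φ₁.toLinearMap := sub_eq_zero.mp h0
    have h6 : φ₂ = c • φ₁ := Representation.IntertwiningMap.ext (h5.trans rfl)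
    rw [LinearIndependent.pair_iff] at hli
    have h7 := hli (-c) 1 (by rw [h6]; simp)
    simp at h7
  refine ⟨φ₁.toLinearMap ∘ₗ ψ, φ₃ ∘ₗ ψ, ?_, ?_, ?_⟩
  · rw [mem_invariants_iff]
    intro g
    show (φ₁.toLinearMap ∘ₗ ψ) ∘ₗ σ g = σ g ∘ₗ (φ₁.toLinearMap ∘ₗ ψ)
    rw [LinearMap.comp_assoc, hψcomm, ← LinearMap.comp_assoc, φ₁.isIntertwining', LinearMap.comp_assoc]
  · rw [mem_invariants_iff]
    intro g
    show (φ₃ ∘ₗ ψ) ∘ₗ σ g = σ g ∘ₗ (φ₃ ∘ₗ ψ)
    have h8 : φ₃ ∘ₗ τ g = σ g ∘ₗ φ₃ := by
      simp only [φ₃, LinearMap.sub_comp, LinearMap.smul_comp, LinearMap.comp_sub, LinearMap.comp_smul,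
        φ₁.isIntertwining', φ₂.isIntertwining']
    rw [LinearMap.comp_assoc, hψcomm, ← LinearMap.comp_assoc, h8, LinearMap.comp_assoc]
  · intro heq
    apply hφ₃ne
    have h9 : (φ₁.toLinearMap ∘ₗ ψ) ∘ₗ (φ₃ ∘ₗ ψ) = (φ₃ ∘ₗ ψ) ∘ₗ (φ₁.toLinearMap ∘ₗ ψ) := heq
    have h10 : (φ₁.toLinearMap ∘ₗ ψ) ∘ₗ (φ₃ ∘ₗ ψ) = 0 := by
      rw [LinearMap.comp_assoc, ← LinearMap.comp_assoc ψ φ₃, hψ3]
      simp
    have h11 : (φ₃ ∘ₗ ψ) ∘ₗ (φ₁.toLinearMap ∘ₗ ψ) = φ₃ ∘ₗ ψ := by
      rw [LinearMap.comp_assoc, ← LinearMap.comp_assoc ψ φ₁.toLinearMap, hψφ]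
      simp
    rw [h10, h11] at h9
    refine LinearMap.ext fun w => ?_
    have h12 := LinearMap.congr_fun h9 (φ₁ w)
    have h13 : ψ (φ₁ w) = w := LinearMap.congr_fun hψφ w
    simp only [LinearMap.comp_apply, h13, LinearMap.zero_apply] at h12
    rw [LinearMap.zero_apply, ← h12]

/-- The character of the permutation representation on functions counts fixed points. -/
theorem character_permRep {Ω : Type*} [Fintype Ω] [MulAction G Ω] (g : G) :
    (Cfsg.permRep ℂ G Ω).character g = (Nat.card (MulAction.fixedBy Ω g) : ℂ) := by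
  classical
  rw [Representation.character, LinearMap.trace_eq_matrix_trace ℂ (Pi.basisFun ℂ Ω), Matrix.trace]
  have : ∀ x : Ω, Matrix.diag (LinearMap.toMatrix (Pi.basisFun ℂ Ω) (Pi.basisFun ℂ Ω)
      ((Cfsg.permRep ℂ G Ω) g)) x = if g • x = x then 1 else 0 := by
    intro x
    simp only [LinearMap.toMatrix_apply, Matrix.diag_apply, Pi.basisFun_apply, Pi.basisFun_repr]
    show (Pi.single x (1 : ℂ) : Ω → ℂ) (g⁻¹ • x) = _
    rw [Pi.single_apply]
    by_cases h : g • x = x
    · have h2 : g⁻¹ • x = x := by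
        conv_lhs => rw [← h]
        simp
      rw [if_pos h, if_pos h2]
    · have h2 : g⁻¹ • x ≠ x := by
        intro h3
        apply h
        conv_lhs => rw [← h3]
        simp
      rw [if_neg h, if_neg h2]
  simp_rw [this]
  rw [Finset.sum_boole, Nat.card_eq_fintype_card, Fintype.card_subtype]
  rfl

theorem character_permRep_eq {Ω : Type*} [Fintype Ω] [MulAction G Ω] :
    (Cfsg.permRep ℂ G Ω).character = fun g => (Nat.card (MulAction.fixedBy Ω g) : ℂ) :=
  funext character_permRep

end Cfsg.Agent.Lib.CharCommutant
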