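import Cfsg.Agent.Lib.CharCommutant
import Cfsg.Agent.Lib.CharGalois

/-!
# Galois conjugates of irreducible characters

For `m` coprime to the group order `g ↦ χ (g ^ m)` is again an irreducible character.
-/

set_option linter.unusedSectionVars false
set_option linter.style.haveILetI false

namespace Cfsg.Agent.Lib.CharGalois2

open scoped ComplexConjugate
open Module Cfsg Cfsg.Agent.Lib.CharCore Cfsg.Agent.Lib.CharBasic Cfsg.Agent.Lib.CharIrr
  Cfsg.Agent.Lib.CharOps Cfsg.Agent.Lib.CharGen Cfsg.Agent.Lib.CharAb Cfsg.Agent.Lib.CharGalois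

universe u v w

variable {G : Type u} [Group G] [Fintype G]

/-- The Galois image of a character value. -/
theorem exists_sigma {m : ℕ} (hm : m.Coprime (Nat.card G)) :
    ∃ σ : cyc (Nat.card G) →ₐ[ℚ] ℂ, ∀ (n : ℕ) (ρ : Representation ℂ G (Fin n → ℂ)) (g : G),
      σ ⟨ρ.character g, character_mem ρ g⟩ = ρ.character (g ^ m) := by
  obtain ⟨σ, hσ⟩ := exists_algHom (n := Nat.card G) Nat.card_pos.ne' hm
  exact ⟨σ, fun n ρ g => algHom_character ρ g m σ hσ⟩

theorem isClass_pow {χ : G → ℂ} (hχ : IsClassFunction G χ) (m : ℕ) :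
    IsClassFunction G (fun g => χ (g ^ m)) := by
  intro g h
  simp only
  rw [conj_pow, hχ]

/-- The convolution identity transported by a Galois automorphism. -/
theorem sum_pow_identity {χ : G → ℂ} (hχ : IsIrrCharacter G χ) {m : ℕ} (hm : m.Coprime (Nat.card G)) (w : G) :
    (∑ h, conj (χ (h ^ m)) * χ ((h * w) ^ m)) * χ 1 = (Nat.card G : ℂ) * χ (w ^ m) := by
  classical
  obtain ⟨σ, hσ⟩ := exists_sigma (G := G) hm
  have hχ' := hχ
  obtain ⟨n, ρ, hρ, rfl⟩ := hχ
  have h1 := Cfsg.Agent.Lib.CharCommutant.sum_conj_mul_translate hχ' hχ' w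
  rw [if_pos rfl] at h1
  -- in the cyclotomic field
  let x : G → cyc (Nat.card G) := fun g => ⟨ρ.character g, character_mem ρ g⟩
  have hconj : ∀ h : G, conj (ρ.character h) = ρ.character h⁻¹ := fun h =>
    (Cfsg.Agent.Lib.CharBase0.IsCharacter.inv_eq ⟨n, ρ, rfl⟩ h).symm
  have h2 : (∑ h, x h⁻¹ * x (h * w)) * x 1 = (Nat.card G : cyc (Nat.card G)) * x w := by
    apply Subtype.ext
    push_cast
    simp only [x, hconj] at h1 ⊢
    rw [Finset.sum_mul]
    exact h1
  have h3 := congrArg σ h2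
  simp only [map_mul, map_sum, map_natCast, x, hσ] at h3
  have h4 : ∀ h : G, conj (ρ.character (h ^ m)) = ρ.character (h⁻¹ ^ m) := by
    intro h
    rw [hconj, inv_pow]
  simp only [h4]
  rw [← h3]
  simp

/-- The coefficients of a Galois conjugate of an irreducible character. -/
theorem coeff_pow {χ ψ : G → ℂ} (hχ : IsIrrCharacter G χ) (hψ : IsIrrCharacter G ψ) {m : ℕ}
    (hm : m.Coprime (Nat.card G)) :
    classInner (fun g => χ (g ^ m)) ψ = 0 ∨ classInner (fun g => χ (g ^ m)) ψ * χ 1 = ψ 1 := by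
  classical
  let f : G → ℂ := fun g => χ (g ^ m)
  have hcl := IsCharacter.isClassFunction' (IsIrrCharacter.isCharacter' hχ)
  have hfc : IsClassFunction G f := isClass_pow hcl m
  have hfc' : IsClassFunction G (fun g => conj (f g)) := by
    intro g h
    simp only
    rw [hfc]
  have hG : (Nat.card G : ℂ) ≠ 0 := by exact_mod_cast Nat.card_pos.ne'
  have hexp := classFunction_expand hfc
  -- evaluate the identity
  have hkey : ∀ w : G, f w = ∑ θ : IrrCharacter G, (classInner f (θ : G → ℂ) * conj (classInner f (θ : G → ℂ)) * χ 1 / (θ : G → ℂ) 1) * (θ : G → ℂ) w := by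
    intro w
    have h1 := sum_pow_identity hχ hm w
    have h2 : ∀ h : G, conj (χ (h ^ m)) * χ ((h * w) ^ m) = ∑ θ : IrrCharacter G, classInner f (θ : G → ℂ) * (conj (f h) * (θ : G → ℂ) (h * w)) := by
      intro h
      have h3 := congrFun hexp (h * w)
      simp only [Finset.sum_apply, Pi.smul_apply, smul_eq_mul] at h3
      show conj (f h) * f (h * w) = _
      rw [h3, Finset.mul_sum]
      refine Finset.sum_congr rfl fun θ _ => ?_
      ring
    simp only [h2] at h1
    rw [Finset.sum_comm] at h1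
    have h4 : ∀ θ : IrrCharacter G, ∑ h, classInner f (θ : G → ℂ) * (conj (f h) * (θ : G → ℂ) (h * w)) =
        classInner f (θ : G → ℂ) * ((Nat.card G : ℂ) * conj (classInner f (θ : G → ℂ)) * (θ : G → ℂ) w / (θ : G → ℂ) 1) := by
      intro θ
      rw [← Finset.mul_sum]
      congr 1
      have h5 := Cfsg.Agent.Lib.CharCentral.sum_mul_irr θ.2 hfc' w
      have h6 : ∑ g, conj (f g) * (θ : G → ℂ) g = (Nat.card G : ℂ) * conj (classInner f (θ : G → ℂ)) := by
        rw [classInner_conj, Cfsg.classInner, ← mul_assoc, mul_inv_cancel₀ hG, one_mul]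
        refine Finset.sum_congr rfl fun g _ => ?_
        rw [mul_comm]
      rw [h6] at h5
      have hθ1 : (θ : G → ℂ) 1 ≠ 0 := degree_ne_zero θ.2
      field_simp
      linear_combination h5
    rw [Finset.sum_mul] at h1
    have h7 : ∀ θ : IrrCharacter G, (∑ h, classInner f (θ : G → ℂ) * (conj (f h) * (θ : G → ℂ) (h * w))) * χ 1 =
        (Nat.card G : ℂ) * ((classInner f (θ : G → ℂ) * conj (classInner f (θ : G → ℂ)) * χ 1 / (θ : G → ℂ) 1) * (θ : G → ℂ) w) := by
      intro θ
      rw [h4 θ]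
      ring
    simp only [h7] at h1
    rw [← Finset.mul_sum] at h1
    exact (mul_left_cancel₀ hG h1).symm
  have hsplit : ∀ θ : IrrCharacter G, classInner f (θ : G → ℂ) = classInner f (θ : G → ℂ) * conj (classInner f (θ : G → ℂ)) * χ 1 / (θ : G → ℂ) 1 := by
    intro θ
    have hfun : (∑ φ : IrrCharacter G, (classInner f (φ : G → ℂ) * conj (classInner f (φ : G → ℂ)) * χ 1 / (φ : G → ℂ) 1) • (φ : G → ℂ)) = f := by
      funext w
      rw [hkey w]
      simp [Finset.sum_apply]
    have h8 := Cfsg.Agent.Lib.CharDecomp.classInner_sum_irr (G := G) (fun θ : IrrCharacter G => classInner f (θ : G → ℂ) * conj (classInner f (θ : G → ℂ)) * χ 1 / (θ : G → ℂ) 1) θ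
    simp only [hfun] at h8
    exact h8
  by_cases hc : classInner f ψ = 0
  · exact Or.inl hc
  right
  have h9 := hsplit ⟨ψ, hψ⟩
  have hψ1 : ψ 1 ≠ 0 := degree_ne_zero hψ
  simp only at h9
  have h10 : conj (classInner f ψ) * χ 1 = ψ 1 := by
    field_simp at h9
    exact h9.symm
  have h11 := congrArg conj h10
  obtain ⟨a, ha⟩ := exists_degree (IsIrrCharacter.isCharacter' hχ)
  obtain ⟨b, hb⟩ := exists_degree (IsIrrCharacter.isCharacter' hψ)
  rw [map_mul, Complex.conj_conj] at h11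
  rw [ha] at h11 ⊢
  rw [hb] at h11 ⊢
  simpa using h11

theorem exists_inv_exponent {m : ℕ} (hm : m.Coprime (Nat.card G)) :
    ∃ m' : ℕ, m'.Coprime (Nat.card G) ∧ ∀ g : G, (g ^ m) ^ m' = g := by
  by_cases h1 : 1 < Nat.card G
  · obtain ⟨m', -, hm'⟩ := Nat.exists_mul_mod_eq_one_of_coprime hm h1
    refine ⟨m', ?_, ?_⟩
    · have h2 : Nat.Coprime (m * m') (Nat.card G) := by
        rw [Nat.Coprime, Nat.gcd_comm, Nat.gcd_rec, hm', Nat.gcd_one_left]
      exact h2.coprime_mul_left
    · intro g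
      rw [← pow_mul, ← pow_mod_natCard, hm', pow_one]
  · refine ⟨1, by simp, ?_⟩
    have h2 : Nat.card G = 1 := by have := Nat.card_pos (α := G); omega
    have h3 : Subsingleton G := (Nat.card_eq_one_iff_unique.1 h2).1
    intro g
    exact Subsingleton.elim _ _

theorem coeff_pow_nonneg {χ ψ : G → ℂ} (hχ : IsIrrCharacter G χ) (hψ : IsIrrCharacter G ψ) {m : ℕ}
    (hm : m.Coprime (Nat.card G)) :
    ∃ r : ℝ, 0 ≤ r ∧ classInner (fun g => χ (g ^ m)) ψ = (r : ℂ) := by
  rcases coeff_pow hχ hψ hm with h | h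
  · exact ⟨0, le_rfl, by simpa using h⟩
  · obtain ⟨a, ha⟩ := exists_degree (IsIrrCharacter.isCharacter' hχ)
    obtain ⟨b, hb⟩ := exists_degree (IsIrrCharacter.isCharacter' hψ)
    have ha0 : χ 1 ≠ 0 := degree_ne_zero hχ
    refine ⟨(b : ℝ) / a, by positivity, ?_⟩
    rw [ha] at h ha0
    rw [hb] at h
    have ha1 : (a : ℂ) ≠ 0 := ha0
    push_cast
    field_simp
    exact h

/-- For `m` coprime to the group order, `g ↦ χ (g ^ m)` is irreducible. -/
theorem isIrr_pow {χ : G → ℂ} (hχ : IsIrrCharacter G χ) {m : ℕ} (hm : m.Coprime (Nat.card G)) :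
    IsIrrCharacter G (fun g => χ (g ^ m)) := by
  classical
  obtain ⟨m', hm'c, hm'⟩ := exists_inv_exponent (G := G) hm
  have hcl := IsCharacter.isClassFunction' (IsIrrCharacter.isCharacter' hχ)
  let f : G → ℂ := fun g => χ (g ^ m)
  have hfc : IsClassFunction G f := isClass_pow hcl m
  have hexp := classFunction_expand hfc
  -- a nonzero coefficient
  have hf1 : f 1 ≠ 0 := by
    simp only [f, one_pow]
    exact degree_ne_zero hχ
  obtain ⟨θ₀, hθ₀⟩ : ∃ θ₀ : IrrCharacter G, classInner f (θ₀ : G → ℂ) ≠ 0 := by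
    by_contra hcon
    push Not at hcon
    apply hf1
    rw [hexp]
    simp [hcon, Finset.sum_apply]
  -- the double expansion
  have hdouble : χ = ∑ θ : IrrCharacter G, classInner f (θ : G → ℂ) • (fun x => (θ : G → ℂ) (x ^ m')) := by
    funext x
    have h1 := congrFun hexp (x ^ m')
    simp only [Finset.sum_apply, Pi.smul_apply, smul_eq_mul] at h1 ⊢
    rw [← h1]
    simp only [f]
    rw [← pow_mul, mul_comm, pow_mul, hm']
  let g₀ : G → ℂ := fun x => (θ₀ : G → ℂ) (x ^ m')
  have hg₀c : IsClassFunction G g₀ :=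
    isClass_pow (IsCharacter.isClassFunction' (IsIrrCharacter.isCharacter' θ₀.2)) m'
  -- other coefficients vanish
  have hvan : ∀ ψ : IrrCharacter G, ψ ≠ ⟨χ, hχ⟩ → classInner g₀ (ψ : G → ℂ) = 0 := by
    intro ψ hψ
    have h2 := congrArg (fun k => classInner k (ψ : G → ℂ)) hdouble
    rw [classInner_sum_left] at h2
    simp_rw [classInner_smul_left] at h2
    have h3 : classInner χ (ψ : G → ℂ) = 0 := by
      have := classInner_irr hχ ψ.2
      rw [this, if_neg]
      intro h
      exact hψ (Subtype.ext h.symm)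
    rw [h3] at h2
    choose r hr0 hr using fun θ : IrrCharacter G => coeff_pow_nonneg hχ θ.2 hm
    choose r' hr'0 hr' using fun θ : IrrCharacter G => coeff_pow_nonneg θ.2 ψ.2 hm'c
    have h4 : (∑ θ : IrrCharacter G, r θ * r' θ) = 0 := by
      have h5 : ((∑ θ : IrrCharacter G, r θ * r' θ : ℝ) : ℂ) = 0 := by
        push_cast
        rw [h2]
        refine Finset.sum_congr rfl fun θ _ => ?_
        rw [hr θ, hr' θ]
      exact_mod_cast h5
    have h6 := (Finset.sum_eq_zero_iff_of_nonneg (fun θ _ => mul_nonneg (hr0 θ) (hr'0 θ))).1 h4 θ₀ (Finset.mem_univ _)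
    have h7 : r θ₀ ≠ 0 := by
      intro h
      apply hθ₀
      simp only [f]
      rw [hr θ₀, h]
      simp
    have h8 : r' θ₀ = 0 := (mul_eq_zero.1 h6).resolve_left h7
    show classInner (fun x => (θ₀ : G → ℂ) (x ^ m')) (ψ : G → ℂ) = 0
    rw [hr' θ₀, h8]
    simp
  -- so g₀ is a multiple of χ
  have hg₀ : g₀ = classInner g₀ χ • χ := by
    conv_lhs => rw [classFunction_expand hg₀c]
    rw [Finset.sum_eq_single (⟨χ, hχ⟩ : IrrCharacter G)]
    · intro ψ _ hψ
      rw [hvan ψ hψ, zero_smul]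
    · simp
  -- degrees
  obtain ⟨c, hc0, hc⟩ := coeff_pow_nonneg θ₀.2 hχ hm'c
  have hc' : classInner g₀ χ = (c : ℂ) := hc
  have hθ1 : (θ₀ : G → ℂ) 1 = c * χ 1 := by
    have := congrFun hg₀ 1
    simp only [g₀, one_pow, Pi.smul_apply, smul_eq_mul] at this
    rw [this, hc']
  have hχ1 : χ 1 ≠ 0 := degree_ne_zero hχ
  have hθ10 : (θ₀ : G → ℂ) 1 ≠ 0 := degree_ne_zero θ₀.2
  have hc1 : (c : ℂ) * (θ₀ : G → ℂ) 1 = χ 1 := by
    rcases coeff_pow θ₀.2 hχ hm'c with h | h
    · exfalso
      apply hθ10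
      rw [hθ1, ← hc', show classInner g₀ χ = 0 from h, zero_mul]
    · rw [← hc']; exact h
  have hc2 : (c : ℂ) * c = 1 := by
    have h1 : (c : ℂ) * c * χ 1 = 1 * χ 1 := by
      rw [one_mul, mul_assoc, ← hθ1, hc1]
    exact mul_right_cancel₀ hχ1 h1
  have hc3 : c = 1 := by
    have h1 : c * c = 1 := by exact_mod_cast hc2
    nlinarith [hc0, sq_nonneg (c - 1), sq_nonneg (c + 1)]
  have hg₀χ : g₀ = χ := by
    conv_lhs => rw [hg₀]
    rw [hc', hc3]
    simp
  -- conclude
  have hfinal : (fun g => χ (g ^ m)) = (θ₀ : G → ℂ) := by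
    funext x
    rw [← hg₀χ]
    simp only [g₀]
    rw [hm']
  rw [hfinal]
  exact θ₀.2

end Cfsg.Agent.Lib.CharGalois2
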