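import Mathlib

set_option autoImplicit false

namespace Cfsg.Agent.Lib.CharSimple

section rev

variable {S : Type*} [Group S] {n : ℕ}

/-- permuting the coordinates -/
def coordAut (σ : Equiv.Perm (Fin n)) : (Fin n → S) ≃* (Fin n → S) where
  toFun f := f ∘ σ
  invFun f := f ∘ σ.symm
  left_inv f := by funext i; simp
  right_inv f := by funext i; simp
  map_mul' _ _ := rfl

/-- the shear, for commutative `S`. -/
def shear (hS : ∀ a b : S, a * b = b * a) (i j : Fin n) (hij : j ≠ i) : (Fin n → S) ≃* (Fin n → S) where
  toFun f k := if k = j then f j * f i else f k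
  invFun f k := if k = j then f j * (f i)⁻¹ else f k
  left_inv f := by
    funext k
    by_cases hk : k = j
    · subst hk; simp [hij.symm]
    · simp [hk]
  right_inv f := by
    funext k
    by_cases hk : k = j
    · subst hk; simp [hij.symm]
    · simp [hk]
  map_mul' f g := by
    funext k
    by_cases hk : k = j
    · subst hk
      simp only [Pi.mul_apply, if_true]
      calc f k * g k * (f i * g i) = f k * (g k * f i) * g i := by group
        _ = f k * (f i * g k) * g i := by rw [hS (g k) (f i)]
        _ = f k * f i * (g k * g i) := by group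
    · simp [hk]

variable [IsSimpleGroup S]

/-- Once `H` contains a non-trivial element of a coordinate subgroup, it is everything. -/
theorem eq_top_of_single (H : Subgroup (Fin n → S)) (hH : H.Characteristic) (j : Fin n) (t : S)
    (ht : t ≠ 1) (htH : Pi.mulSingle j t ∈ H) : H = ⊤ := by
  classical
  haveI hN : H.Normal := inferInstance
  let N : Subgroup S := H.comap (MonoidHom.mulSingle (fun _ => S) j)
  haveI : N.Normal := hN.comap _
  have hNtop : N = ⊤ := by
    rcases Subgroup.Normal.eq_bot_or_eq_top (H := N) inferInstance with h | h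
    · exfalso
      have : t ∈ N := htH
      rw [h, Subgroup.mem_bot] at this
      exact ht this
    · exact h
  have hall : ∀ (k : Fin n) (s : S), (Pi.mulSingle k s : Fin n → S) ∈ H := by
    intro k s
    have h1 : (Pi.mulSingle j s : Fin n → S) ∈ H := by
      have : s ∈ N := by rw [hNtop]; trivial
      exact this
    have h2 := (Subgroup.characteristic_iff_le_comap.1 hH) (coordAut (Equiv.swap j k)) h1
    have h3 : (coordAut (Equiv.swap j k)).toMonoidHom (Pi.mulSingle j s) = (Pi.mulSingle k s : Fin n → S) := by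
      funext l
      show (Pi.mulSingle j s : Fin n → S) (Equiv.swap j k l) = (Pi.mulSingle k s : Fin n → S) l
      by_cases hl : l = k
      · subst hl; simp
      · rw [Pi.mulSingle_eq_of_ne hl]
        by_cases hl2 : l = j
        · subst hl2
          rw [Equiv.swap_apply_left, Pi.mulSingle_eq_of_ne (Ne.symm hl)]
        · rw [Equiv.swap_apply_of_ne_of_ne hl2 hl, Pi.mulSingle_eq_of_ne hl2]
    have h4 : (coordAut (Equiv.swap j k)).toMonoidHom (Pi.mulSingle j s) ∈ H := h2
    rw [h3] at h4
    exact h4
  rw [eq_top_iff]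
  intro f _
  have hT : ∀ T : Finset (Fin n), (fun k => if k ∈ T then f k else 1) ∈ H := by
    intro T
    induction T using Finset.induction_on with
    | empty =>
      have : (fun k => if k ∈ (∅ : Finset (Fin n)) then f k else 1) = 1 := by
        funext k; simp
      rw [this]; exact H.one_mem
    | insert a T ha ih =>
      have : (fun k => if k ∈ insert a T then f k else 1) =
          (fun k => if k ∈ T then f k else 1) * Pi.mulSingle a (f a) := by
        funext k
        by_cases hka : k = a
        · subst hka; simp [ha]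
        · simp [hka, Pi.mulSingle_eq_of_ne hka]
      rw [this]
      exact H.mul_mem ih (hall _ _)
  have := hT Finset.univ
  simpa using this

theorem rev (H : Subgroup (Fin n → S)) (hH : H.Characteristic) (hne : H ≠ ⊥) : H = ⊤ := by
  classical
  haveI hN : H.Normal := inferInstance
  obtain ⟨x, hx, hx1⟩ : ∃ x ∈ H, x ≠ 1 := (H.bot_or_exists_ne_one).resolve_left hne
  obtain ⟨i, hi⟩ : ∃ i, x i ≠ 1 := by
    by_contra hcon
    push Not at hcon
    exact hx1 (funext hcon)
  by_cases hcomm : ∃ s, x i * s ≠ s * x i
  · obtain ⟨s, hs⟩ := hcomm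
    refine eq_top_of_single H hH i (x i * s * (x i)⁻¹ * s⁻¹) ?_ ?_
    · intro h
      apply hs
      have h2 : x i * s * (x i)⁻¹ = s := by
        rw [mul_inv_eq_one] at h; exact h
      rw [mul_inv_eq_iff_eq_mul] at h2
      exact h2
    · have h1 : x * Pi.mulSingle i s * x⁻¹ * (Pi.mulSingle i s)⁻¹ = Pi.mulSingle i (x i * s * (x i)⁻¹ * s⁻¹) := by
        funext k
        by_cases hk : k = i
        · subst hk; simp
        · simp [hk, Pi.mulSingle_eq_of_ne hk]
      rw [← h1, mul_assoc, mul_assoc]
      refine H.mul_mem hx ?_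
      have := hN.conj_mem _ (H.inv_mem hx) (Pi.mulSingle i s)
      convert this using 1
      group
  · push Not at hcomm
    have hcen : x i ∈ Subgroup.center S := by
      rw [Subgroup.mem_center_iff]
      intro s
      exact (hcomm s).symm
    have hctop : Subgroup.center S = ⊤ := by
      rcases Subgroup.Normal.eq_bot_or_eq_top (H := Subgroup.center S) inferInstance with h | h
      · rw [h, Subgroup.mem_bot] at hcen
        exact absurd hcen hi
      · exact h
    have hS : ∀ a b : S, a * b = b * a := by
      intro a b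
      have : b ∈ Subgroup.center S := by rw [hctop]; trivial
      exact (Subgroup.mem_center_iff.1 this a)
    by_cases hj : ∃ j, j ≠ i
    · obtain ⟨j, hj⟩ := hj
      refine eq_top_of_single H hH j (x i) hi ?_
      have h1 := (Subgroup.characteristic_iff_le_comap.1 hH) (shear hS i j hj) hx
      have h2 : (shear hS i j hj) x * x⁻¹ = Pi.mulSingle j (x i) := by
        funext k
        by_cases hk : k = j
        · subst hk
          show (if k = k then x k * x i else x k) * (x k)⁻¹ = _
          rw [if_pos rfl, Pi.mulSingle_eq_same, hS (x k) (x i), mul_inv_cancel_right]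
        · show (if k = j then x j * x i else x k) * (x k)⁻¹ = _
          rw [if_neg hk, mul_inv_cancel, Pi.mulSingle_eq_of_ne hk]
      rw [← h2]
      exact H.mul_mem h1 (H.inv_mem hx)
    · push Not at hj
      refine eq_top_of_single H hH i (x i) hi ?_
      have : x = Pi.mulSingle i (x i) := by
        funext k
        rw [hj k]
        simp
      rw [← this]
      exact hx

end rev

section fwd

variable {G : Type*} [Group G] [Finite G]

/-- automorphic images -/
def imgs (N : Subgroup G) : Set (Subgroup G) := {X | ∃ φ : G ≃* G, X = N.map φ.toMonoidHom}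

theorem fwd_core [Nontrivial G]
    (h : ∀ H : Subgroup G, H.Characteristic → H = ⊥ ∨ H = ⊤) :
    ∃ (X : Subgroup G) (_ : IsSimpleGroup X) (m : ℕ), 1 ≤ m ∧ Nonempty (G ≃* (Fin m → X)) := by
  classical
  -- minimal normal subgroup
  obtain ⟨N, hNmin⟩ : ∃ N, Minimal (· ∈ {H : Subgroup G | H.Normal ∧ H ≠ ⊥}) N := by
    apply Set.Finite.exists_minimal (Set.toFinite _)
    exact ⟨⊤, inferInstance, top_ne_bot⟩
  obtain ⟨⟨hNn, hNne⟩, hNle⟩ := hNmin
  -- images are minimal normal
  have himg : ∀ X ∈ imgs N, X.Normal ∧ X ≠ ⊥ ∧ ∀ Y : Subgroup G, Y.Normal → Y ≤ X → Y = ⊥ ∨ Y = X := by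
    rintro X ⟨φ, rfl⟩
    refine ⟨hNn.map _ φ.surjective, ?_, ?_⟩
    · intro h0
      apply hNne
      rw [← Subgroup.map_eq_bot_iff_of_injective (f := φ.toMonoidHom) _ φ.injective]
      exact h0
    · intro Y hY hle
      by_cases hY0 : Y = ⊥
      · exact Or.inl hY0
      · right
        have h1 : (Y.comap φ.toMonoidHom).Normal := hY.comap _
        have h2 : Y.comap φ.toMonoidHom ≤ N := by
          intro a ha
          obtain ⟨b, hb, hab⟩ := hle ha
          have : b = a := φ.injective hab
          rwa [← this]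
        have h3 : Y.comap φ.toMonoidHom ≠ ⊥ := by
          intro h4
          apply hY0
          rw [eq_bot_iff]
          intro y hy
          have h5 : φ.symm y ∈ Y.comap φ.toMonoidHom := by
            show φ (φ.symm y) ∈ Y
            simpa using hy
          rw [h4, Subgroup.mem_bot] at h5
          have := congrArg φ h5
          simpa using this
        have h4 : N ≤ Y.comap φ.toMonoidHom := hNle ⟨h1, h3⟩ h2
        apply le_antisymm hle
        rintro _ ⟨a, ha, rfl⟩
        exact h4 ha
  -- maximal independent family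
  obtain ⟨s, hsmax⟩ : ∃ s, Maximal (· ∈ {s : Set (Subgroup G) | s ⊆ imgs N ∧ sSupIndep s}) s := by
    apply Set.Finite.exists_maximal (Set.toFinite _)
    exact ⟨∅, by simp, by simp [sSupIndep]⟩
  obtain ⟨⟨hsimg, hsind⟩, hsle⟩ := hsmax
  have hsnorm : ∀ X ∈ s, X.Normal := fun X hX => (himg X (hsimg hX)).1
  have hsup_normal : ∀ T : Set (Subgroup G), T ⊆ s → (sSup T).Normal := by
    intro T hT
    exact Subgroup.sSup_normal T (fun X hX => hsnorm X (hT hX))
  -- everything lies in the join
  have hall : ∀ X ∈ imgs N, X ≤ sSup s := by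
    intro X hX
    by_contra hcon
    obtain ⟨hXn, hX0, hXmin⟩ := himg X hX
    haveI := hsup_normal s subset_rfl
    have hdis : Disjoint X (sSup s) := by
      rw [disjoint_iff]
      rcases hXmin (X ⊓ sSup s) (Subgroup.normal_inf_normal _ _) inf_le_left with h1 | h1
      · exact h1
      · exact absurd (inf_eq_left.1 h1) hcon
    have hXs : X ∉ s := fun hm => hcon (le_sSup hm)
    have hins : sSupIndep (insert X s) := by
      intro a ha
      rcases ha with rfl | ha
      · exact hdis.mono_right (sSup_le_sSup (by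
          rintro b ⟨hb, hba⟩
          rcases hb with rfl | hb
          · exact absurd rfl hba
          · exact hb))
      · rw [disjoint_iff]
        haveI := hsnorm a ha
        haveI := hXn
        set T := sSup (s \ {a}) with hT
        haveI := hsup_normal (s \ {a}) Set.sdiff_subset
        have hle : sSup (insert X s \ {a}) ≤ X ⊔ T := by
          apply sSup_le
          rintro b ⟨hb, hba⟩
          rcases hb with rfl | hb
          · exact le_sup_left
          · exact le_sup_of_le_right (le_sSup ⟨hb, hba⟩)
        rw [eq_bot_iff]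
        rintro x ⟨hxa, hxb⟩
        have hx2 := hle hxb
        rw [Subgroup.mem_sup_of_normal_left] at hx2
        obtain ⟨y, hy, z, hz, rfl⟩ := hx2
        have hy2 : y ∈ sSup s := by
          have h1 : y * z ∈ sSup s := (le_sSup ha : a ≤ sSup s) hxa
          have h2 : z ∈ sSup s := (sSup_le_sSup Set.sdiff_subset : T ≤ sSup s) hz
          have := (sSup s).mul_mem h1 ((sSup s).inv_mem h2)
          simpa using this
        have hy1 : y = 1 := by
          have : y ∈ X ⊓ sSup s := ⟨hy, hy2⟩
          rw [hdis.eq_bot, Subgroup.mem_bot] at this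
          exact this
        subst hy1
        rw [one_mul] at hxa ⊢
        have : z ∈ a ⊓ T := ⟨hxa, hz⟩
        rw [(hsind ha).eq_bot] at this
        exact this
    have h7 := hsle ⟨Set.insert_subset hX hsimg, hins⟩ (Set.subset_insert X s)
    exact hXs (h7 (Set.mem_insert X s))
  have hN_mem : N ∈ imgs N := ⟨MulEquiv.refl G, by
    ext x
    simp⟩
  have hsupTop : sSup s = ⊤ := by
    have hchar : (sSup s).Characteristic := by
      rw [Subgroup.characteristic_iff_map_le]
      intro φ
      rw [Subgroup.map_le_iff_le_comap]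
      apply sSup_le
      intro X hX
      rw [← Subgroup.map_le_iff_le_comap]
      apply hall
      obtain ⟨ψ, rfl⟩ := hsimg hX
      refine ⟨ψ.trans φ, ?_⟩
      rw [Subgroup.map_map]
      rfl
    rcases h _ hchar with h1 | h1
    · exfalso
      apply hNne
      rw [eq_bot_iff, ← h1]
      exact hall N hN_mem
    · exact h1
  have hsne : s.Nonempty := by
    by_contra hs
    rw [Set.not_nonempty_iff_eq_empty] at hs
    rw [hs, sSup_empty] at hsupTop
    exact bot_ne_top hsupTop
  obtain ⟨X₀, hX₀⟩ := hsne
  -- simplicity of `X₀`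
  obtain ⟨hX₀n, hX₀ne, hX₀min⟩ := himg X₀ (hsimg hX₀)
  haveI := hX₀n
  have hX₀simple : IsSimpleGroup X₀ := by
    haveI : Nontrivial X₀ := (Subgroup.nontrivial_iff_ne_bot X₀).2 hX₀ne
    refine ⟨?_⟩
    intro M hM
    set C := sSup (s \ {X₀}) with hC
    haveI hCn : C.Normal := hsup_normal _ Set.sdiff_subset
    have hdis : Disjoint X₀ C := hsind hX₀
    have hjoin : X₀ ⊔ C = ⊤ := by
      rw [eq_top_iff, ← hsupTop]
      apply sSup_le
      intro Y hY
      by_cases hYX : Y = X₀
      · rw [hYX]; exact le_sup_left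
      · exact le_sup_of_le_right (le_sSup ⟨hY, hYX⟩)
    have hM' : (M.map X₀.subtype).Normal := by
      constructor
      rintro _ ⟨m, hm, rfl⟩ g
      have hg : g ∈ X₀ ⊔ C := by rw [hjoin]; trivial
      rw [Subgroup.mem_sup_of_normal_left] at hg
      obtain ⟨a, ha, c, hc, rfl⟩ := hg
      have hcomm : Commute c (m : G) :=
        (Subgroup.commute_of_normal_of_disjoint X₀ C hX₀n hCn hdis m c m.2 hc).symm
      have h1 : a * c * (m : G) * (a * c)⁻¹ = a * (m : G) * a⁻¹ := by
        have h2 : c * (m : G) = (m : G) * c := hcomm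
        rw [mul_inv_rev, mul_assoc a c, h2]
        group
      simp only [Subgroup.coe_subtype]
      rw [h1]
      refine ⟨⟨a, ha⟩ * m * ⟨a, ha⟩⁻¹, hM.conj_mem m hm _, ?_⟩
      simp
    rcases hX₀min _ hM' (Subgroup.map_subtype_le M) with h1 | h1
    · left
      rwa [Subgroup.map_eq_bot_iff_of_injective _ X₀.subtype_injective] at h1
    · right
      rw [eq_top_iff]
      intro x _
      have : (x : G) ∈ M.map X₀.subtype := by rw [h1]; exact x.2
      obtain ⟨m, hm, hmx⟩ := this
      have : m = x := Subtype.ext hmx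
      rwa [← this]
  -- the isomorphism
  have hcomm : Pairwise fun i j : s => ∀ x y : G, x ∈ (i : Subgroup G) → y ∈ (j : Subgroup G) → Commute x y := by
    intro i j hij x y hx hy
    have hd : Disjoint (i : Subgroup G) (j : Subgroup G) :=
      ((sSupIndep_iff s).1 hsind).pairwiseDisjoint hij
    exact Subgroup.commute_of_normal_of_disjoint _ _ (hsnorm _ i.2) (hsnorm _ j.2) hd x y hx hy
  haveI : Fintype s := Fintype.ofFinite s
  have hinj := Subgroup.injective_noncommPiCoprod_of_iSupIndep (hcomm := hcomm)
    ((sSupIndep_iff s).1 hsind)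
  have hsurj : Function.Surjective (Subgroup.noncommPiCoprod hcomm) := by
    rw [← MonoidHom.range_eq_top, Subgroup.noncommPiCoprod_range, ← sSup_eq_iSup', hsupTop]
  let E₁ := MulEquiv.ofBijective (Subgroup.noncommPiCoprod hcomm) ⟨hinj, hsurj⟩
  have hiso : ∀ X ∈ imgs N, Nonempty (N ≃* X) := by
    rintro X ⟨φ, rfl⟩
    exact ⟨N.equivMapOfInjective φ.toMonoidHom φ.injective⟩
  obtain ⟨e0⟩ := hiso X₀ (hsimg hX₀)
  have he : ∀ i : s, Nonempty ((i : Subgroup G) ≃* X₀) := by
    intro i
    obtain ⟨e1⟩ := hiso i.1 (hsimg i.2)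
    exact ⟨e1.symm.trans e0⟩
  let e := fun i => (he i).some
  let σ : s ≃ Fin (Nat.card s) := Finite.equivFin s
  haveI : Nonempty s := ⟨⟨X₀, hX₀⟩⟩
  refine ⟨X₀, hX₀simple, Nat.card s, Nat.succ_le_of_lt Nat.card_pos, ⟨?_⟩⟩
  exact E₁.symm.trans ((MulEquiv.piCongrRight e).trans (MulEquiv.arrowCongr σ (MulEquiv.refl _)))

end fwd

theorem main5914 {G : Type*} [Group G] [Finite G] [Nontrivial G] :
    (∀ H : Subgroup G, H.Characteristic → H = ⊥ ∨ H = ⊤) ↔
    ∃ (S : Type) (_ : Group S) (_ : IsSimpleGroup S) (n : ℕ), 1 ≤ n ∧ Nonempty (G ≃* (Fin n → S)) := by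
  classical
  constructor
  · intro h
    obtain ⟨X, hX, m, hm, ⟨E⟩⟩ := fwd_core h
    let τ : Shrink.{0} X ≃* X := Shrink.mulEquiv
    refine ⟨Shrink.{0} X, inferInstance, τ.isSimpleGroup, m, hm, ⟨?_⟩⟩
    exact E.trans (MulEquiv.arrowCongr (Equiv.refl _) τ.symm)
  · rintro ⟨S, hG, hS, n, hn, ⟨E⟩⟩ H hH
    by_cases hbot : H = ⊥
    · exact Or.inl hbot
    right
    have h1 : H.map E.toMonoidHom ≠ ⊥ := by
      intro h0
      apply hbot
      rwa [Subgroup.map_eq_bot_iff_of_injective _ E.injective] at h0
    have h2 : (H.map E.toMonoidHom).Characteristic := by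
      rw [Subgroup.characteristic_iff_le_comap]
      rintro ψ _ ⟨h, hh, rfl⟩
      have h3 := (Subgroup.characteristic_iff_le_comap.1 hH) (E.trans (ψ.trans E.symm)) hh
      refine ⟨_, h3, ?_⟩
      simp
    have h3 := rev _ h2 h1
    rw [eq_top_iff]
    intro g _
    have : E g ∈ H.map E.toMonoidHom := by rw [h3]; trivial
    obtain ⟨h, hh, he⟩ := this
    have : h = g := E.injective he
    rwa [← this]

end Cfsg.Agent.Lib.CharSimple
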