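import Mathlib
import Cfsg.Prelude
import Cfsg.Agent.Lib.OddInv
import Cfsg.Agent.Lib.SylowCount
import Cfsg.Agent.Lib.H2Basic

/-!
# The rank-one set-up: a doubly transitive group whose point stabiliser splits over an odd two-point stabiliser
-/

set_option autoImplicit false
set_option linter.all false

namespace Cfsg.Agent.Lib.RankOneSetup

open Subgroup Cfsg MulAction

variable {G Ω : Type*} [Group G] [Finite G] [MulAction G Ω] {a : Ω} {t : G} {Q : Subgroup G}

/-- the two-point stabiliser -/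
abbrev Dd (a : Ω) (t : G) : Subgroup G := stabilizer G a ⊓ stabilizer G (t • a)

theorem mem_Dd {a : Ω} {t d : G} : d ∈ Dd a t ↔ d • a = a ∧ d • (t • a) = t • a := Iff.rfl

section
variable (hS : IsRankOneSetup G Ω a t Q)
include hS

theorem t_inv : t⁻¹ = t := inv_eq_of_mul_eq_one_left hS.mul_self

theorem t_t_a : t • t • a = a := by
  rw [← mul_smul, hS.mul_self, one_smul]

theorem ta_ne : t • a ≠ a := fun h => hS.not_mem h

theorem two_trans {x₁ x₂ y₁ y₂ : Ω} (hx : x₁ ≠ x₂) (hy : y₁ ≠ y₂) : ∃ g : G, g • x₁ = y₁ ∧ g • x₂ = y₂ :=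
  (MulAction.is_two_pretransitive_iff.1 hS.two_transitive) hx hy

theorem exists_smul_a (b : Ω) : ∃ g : G, g • a = b := by
  by_cases h : b = a
  · exact ⟨1, by rw [one_smul, h]⟩
  · obtain ⟨g, h1, _⟩ := (two_trans hS) ((ta_ne hS)).symm (Ne.symm h |>.symm)
    exact ⟨g, h1⟩

theorem finite_Ω : Finite Ω := by
  apply Finite.of_surjective (fun g : G => g • a)
  intro b
  exact (exists_smul_a hS) b

/-- `G_a = Q D` -/
theorem stab_eq_mul {g : G} (hg : g • a = a) : ∃ q ∈ Q, ∃ d ∈ Dd a t, g = q * d := by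
  have hN : Dd a t ≤ normalizer (Q : Set G) := by
    intro d hd
    refine Subgroup.mem_set_normalizer_iff.2 ?_
    intro x
    constructor
    · intro hx
      exact hS.conj_mem d hd.1 x hx
    · intro hx
      have h1 := hS.conj_mem d⁻¹ (Subgroup.inv_mem _ hd.1) _ hx
      have h2 : d⁻¹ * (d * x * d⁻¹) * d⁻¹⁻¹ = x := by group
      rwa [h2] at h1
  have h1 : g⁻¹ ∈ ((Dd a t ⊔ Q : Subgroup G) : Set G) := by
    rw [sup_comm, hS.sup_eq]
    exact Subgroup.inv_mem _ hg
  rw [Subgroup.coe_mul_of_left_le_normalizer_right _ _ hN] at h1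
  obtain ⟨d, hd, q, hq, he⟩ := Set.mem_mul.1 h1
  refine ⟨q⁻¹, Q.inv_mem hq, d⁻¹, Subgroup.inv_mem _ hd, ?_⟩
  have he' : d * q = g⁻¹ := he
  rw [← mul_inv_rev, he', inv_inv]

/-- `Q` is transitive on the rest -/
theorem exists_Q_smul {b : Ω} (hb : b ≠ a) : ∃ q ∈ Q, q • (t • a) = b := by
  obtain ⟨g, h1, h2⟩ := (two_trans hS) ((ta_ne hS)).symm hb.symm
  obtain ⟨q, hq, d, hd, rfl⟩ := (stab_eq_mul hS) h1
  refine ⟨q, hq, ?_⟩
  rw [mul_smul, hd.2] at h2
  exact h2

theorem Q_fix_ta {q : G} (hq : q ∈ Q) (h : q • (t • a) = t • a) : q = 1 := by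
  have h1 : q ∈ Q ⊓ stabilizer G (t • a) := ⟨hq, h⟩
  rw [hS.inf_eq_bot] at h1
  exact h1

theorem Q_inj {q q' : G} (hq : q ∈ Q) (hq' : q' ∈ Q) (h : q • (t • a) = q' • (t • a)) : q = q' := by
  have h1 : (q'⁻¹ * q) • (t • a) = t • a := by
    rw [mul_smul, h, inv_smul_smul]
  have h2 := (Q_fix_ta hS) (Q.mul_mem (Q.inv_mem hq') hq) h1
  have h3 : q = q' * (q'⁻¹ * q) := by group
  rw [h3, h2, mul_one]

/-- elements of `Q` acting with a fixed point outside `a` are trivial -/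
theorem Q_fix {q : G} (hq : q ∈ Q) {b : Ω} (hb : b ≠ a) (h : q • b = b) : q = 1 := by
  obtain ⟨r, hr, rfl⟩ := (exists_Q_smul hS) hb
  have h1 : (r⁻¹ * q * r) • (t • a) = t • a := by
    rw [mul_smul, mul_smul, h, inv_smul_smul]
  have h2 := (Q_fix_ta hS) (Q.mul_mem (Q.mul_mem (Q.inv_mem hr) hq) hr) h1
  have h3 : q = r * (r⁻¹ * q * r) * r⁻¹ := by group
  rw [h3, h2]
  group

theorem Q_smul_ne {q : G} (hq : q ∈ Q) {b : Ω} (hb : b ≠ a) : q • b ≠ a := by
  intro h
  apply hb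
  have h1 : q • a = a := hS.le hq
  have h2 : q • b = q • a := by rw [h, h1]
  exact smul_left_cancel q h2

/-- `Q` is regular on the points other than `a` -/
theorem Q_regular {b c : Ω} (hb : b ≠ a) (hc : c ≠ a) : ∃! x : Q, (x : G) • b = c := by
  obtain ⟨r, hr, rfl⟩ := (exists_Q_smul hS) hb
  obtain ⟨r', hr', rfl⟩ := (exists_Q_smul hS) hc
  refine ⟨⟨r' * r⁻¹, Q.mul_mem hr' (Q.inv_mem hr)⟩, ?_, ?_⟩
  · show (r' * r⁻¹) • r • t • a = r' • t • a
    rw [mul_smul, inv_smul_smul]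
  · rintro ⟨y, hy⟩ hye
    have hye' : y • r • t • a = r' • t • a := hye
    rw [← mul_smul] at hye'
    have h1 := (Q_inj hS) (Q.mul_mem hy hr) hr' hye'
    apply Subtype.ext
    show y = r' * r⁻¹
    rw [← h1]
    group

/-- every element fixing two distinct points has odd order -/
theorem odd_orderOf_of_fix {b c : Ω} (hbc : b ≠ c) {y : G} (hb : y • b = b) (hc : y • c = c) : Odd (orderOf y) := by
  obtain ⟨g, h1, h2⟩ := (two_trans hS) ((ta_ne hS)).symm hbc
  have hmem : g⁻¹ * y * g ∈ Dd a t := by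
    constructor
    · show (g⁻¹ * y * g) • a = a
      rw [mul_smul, mul_smul, h1, hb, ← h1, inv_smul_smul]
    · show (g⁻¹ * y * g) • (t • a) = t • a
      rw [mul_smul, mul_smul, h2, hc, ← h2, inv_smul_smul]
  have h3 := Cfsg.Agent.Lib.OddInv.odd_orderOf_of_mem hS.odd_card hmem
  have h4 : orderOf (g⁻¹ * y * g) = orderOf y := by
    have := MulEquiv.orderOf_eq (MulAut.conj g⁻¹) y
    rw [← this]
    congr 1
    simp [MulAut.conj_apply]
  rwa [h4] at h3

theorem invol_fix_unique {u : G} (h1 : u * u = 1) (hu : u ≠ 1) {b c : Ω} (hb : u • b = b) (hc : u • c = c) : b = c := by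
  by_contra hbc
  have h2 := (odd_orderOf_of_fix hS) hbc hb hc
  have h3 : orderOf u = 2 := orderOf_eq_prime (by rw [pow_two]; exact h1) hu
  rw [h3] at h2
  exact absurd h2 (by decide)

theorem card_Ω : Nat.card Ω = Nat.card Q + 1 := by
  classical
  haveI := (finite_Ω hS)
  have h1 : Nat.card {b : Ω // b ≠ a} = Nat.card Q := by
    symm
    apply Nat.card_eq_of_bijective (fun q : Q => (⟨(q : G) • (t • a), (Q_smul_ne hS) q.2 (ta_ne hS)⟩ : {b : Ω // b ≠ a}))
    constructor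
    · rintro ⟨q, hq⟩ ⟨q', hq'⟩ h
      have h2 : q • t • a = q' • t • a := congrArg Subtype.val h
      exact Subtype.ext ((Q_inj hS) hq hq' h2)
    · rintro ⟨b, hb⟩
      obtain ⟨q, hq, rfl⟩ := (exists_Q_smul hS) hb
      exact ⟨⟨q, hq⟩, rfl⟩
  haveI := Fintype.ofFinite Ω
  rw [← h1, Nat.card_eq_fintype_card, Nat.card_eq_fintype_card, Fintype.card_subtype_compl]
  have : Fintype.card {x // x = a} = 1 := by simp
  have h2 : 0 < Fintype.card Ω := Fintype.card_pos_iff.2 ⟨a⟩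
  omega

theorem odd_card_Ω : Odd (Nat.card Ω) := by
  rw [(card_Ω hS)]
  exact Even.add_one hS.even_card

/-- involutions have a (unique) fixed point -/
theorem invol_has_fixed {u : G} (h1 : u * u = 1) : ∃ b : Ω, u • b = b := by
  classical
  haveI := (finite_Ω hS)
  haveI := Fintype.ofFinite Ω
  haveI : Fact (Nat.Prime 2) := ⟨Nat.prime_two⟩
  have h2 : ¬ 2 ∣ Fintype.card Ω := by
    rw [← Nat.card_eq_fintype_card]
    intro h
    exact (Nat.not_even_iff_odd.2 (odd_card_Ω hS)) (even_iff_two_dvd.2 h)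
  have h3 : (MulAction.toPerm u : Equiv.Perm Ω) ^ 2 ^ 1 = 1 := by
    ext b
    simp only [pow_one, pow_two, Equiv.Perm.coe_mul, Function.comp_apply, MulAction.toPerm_apply, Equiv.Perm.coe_one, id_eq]
    rw [← mul_smul, h1, one_smul]
  obtain ⟨b, hb⟩ := Equiv.Perm.exists_fixed_point_of_prime h2 h3
  exact ⟨b, hb⟩

/-- the canonical form is unique -/
theorem canon_unique {g h f g' h' f' : G} (hg : g ∈ Q) (hh : h ∈ Dd a t) (hf : f ∈ Q)
    (hg' : g' ∈ Q) (hh' : h' ∈ Dd a t) (hf' : f' ∈ Q) (he : g * h * t * f = g' * h' * t * f') :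
    g = g' ∧ h = h' ∧ f = f' := by
  have ht := (t_inv hS)
  have hgh : (g * h) • a = a := by
    rw [mul_smul, hh.1]; exact hS.le hg
  have hgh' : (g' * h') • a = a := by
    rw [mul_smul, hh'.1]; exact hS.le hg'
  have h1 : f' * f⁻¹ = t⁻¹ * ((g' * h')⁻¹ * (g * h)) * t := by
    calc f' * f⁻¹ = (g' * h' * t)⁻¹ * (g' * h' * t * f') * f⁻¹ := by group
      _ = (g' * h' * t)⁻¹ * (g * h * t * f) * f⁻¹ := by rw [he]
      _ = _ := by group
  have hgh'' : ((g' * h')⁻¹) • a = a := by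
    rw [inv_smul_eq_iff]; exact hgh'.symm
  have h2 : (f' * f⁻¹) • (t • a) = t • a := by
    rw [h1, mul_smul, mul_smul, ← mul_smul t, ht, hS.mul_self, one_smul, mul_smul, hgh, hgh'']
  have h3 := Q_fix_ta hS (Q.mul_mem hf' (Q.inv_mem hf)) h2
  have h4 : f' = f := by
    have : f' = (f' * f⁻¹) * f := by group
    rw [this, h3, one_mul]
  rw [h4] at he
  have h5 : g * h = g' * h' := mul_right_cancel (mul_right_cancel he)
  have h6 : g'⁻¹ * g = h' * h⁻¹ := by
    calc g'⁻¹ * g = g'⁻¹ * (g * h) * h⁻¹ := by group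
      _ = g'⁻¹ * (g' * h') * h⁻¹ := by rw [h5]
      _ = h' * h⁻¹ := by group
  have h7 : (g'⁻¹ * g) • (t • a) = t • a := by
    rw [h6]
    exact (Subgroup.mul_mem _ hh' (Subgroup.inv_mem _ hh)).2
  have h8 := Q_fix_ta hS (Q.mul_mem (Q.inv_mem hg') hg) h7
  have h9 : g = g' := by
    have : g = g' * (g'⁻¹ * g) := by group
    rw [this, h8, mul_one]
  refine ⟨h9, ?_, h4.symm⟩
  rw [h9] at h5
  exact mul_left_cancel h5

/-- the `t`-conjugate of `D` -/
theorem t_conj_D {d : G} (hd : d ∈ Dd a t) : t * d * t ∈ Dd a t := by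
  constructor
  · show (t * d * t) • a = a
    rw [mul_smul, mul_smul, hd.2, t_t_a hS]
  · show (t * d * t) • (t • a) = t • a
    rw [mul_smul, mul_smul, t_t_a hS, hd.1]

/-- existence of the canonical form -/
theorem exists_canon {g : G} (hg : g • a ≠ a) :
    ∃ q ∈ Q, ∃ d ∈ Dd a t, ∃ f ∈ Q, g = q * d * t * f := by
  -- `g⁻¹ a ≠ a`
  have h1 : g⁻¹ • a ≠ a := by
    intro h
    apply hg
    have : g • g⁻¹ • a = g • a := by rw [h]
    rw [smul_inv_smul] at this
    exact this.symm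
  obtain ⟨f₀, hf₀, hfe⟩ := exists_Q_smul hS h1
  have h2 : (g * f₀ * t) • a = a := by
    rw [mul_smul, mul_smul, hfe, smul_inv_smul]
  obtain ⟨q, hq, d, hd, he⟩ := stab_eq_mul hS h2
  refine ⟨q, hq, d, hd, f₀⁻¹, Q.inv_mem hf₀, ?_⟩
  calc g = (g * f₀ * t) * t⁻¹ * f₀⁻¹ := by group
    _ = q * d * t⁻¹ * f₀⁻¹ := by rw [he]
    _ = q * d * t * f₀⁻¹ := by rw [t_inv hS]

/-- **S1118** first part -/
theorem normalizer_le (X : Set G) (hX : X ⊆ (Q : Set G)) (hne : ∃ x ∈ X, x ≠ 1) :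
    normalizer X ≤ stabilizer G a := by
  intro g hg
  by_contra hga
  have hga' : g • a ≠ a := hga
  obtain ⟨x, hx, hx1⟩ := hne
  -- x = g y g⁻¹ with y ∈ X
  have h1 : g⁻¹ * x * g ∈ X := (Subgroup.mem_set_normalizer_iff''.1 hg x).1 hx
  have h2 : g⁻¹ * x * g ∈ Q := hX h1
  have h3 : (g⁻¹ * x * g) • a = a := hS.le h2
  have h4 : x • (g • a) = g • a := by
    have h5 : g • (g⁻¹ * x * g) • a = g • a := by rw [h3]
    rw [← mul_smul] at h5 ⊢
    have h6 : g * (g⁻¹ * x * g) = x * g := by group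
    rw [h6] at h5
    exact h5
  exact hx1 (Q_fix hS (hX hx) hga' h4)

theorem Q_ne_one : ∃ x ∈ Q, x ≠ 1 := by
  by_contra h
  push Not at h
  have h1 : Q = ⊥ := (Subgroup.eq_bot_iff_forall Q).2 h
  have h2 := hS.even_card
  rw [h1, Subgroup.card_bot] at h2
  exact absurd h2 (by decide)

theorem normalizer_Q : normalizer (Q : Set G) = stabilizer G a := by
  apply le_antisymm
  · exact normalizer_le hS _ (le_refl _) (Q_ne_one hS)
  · intro g hg
    refine Subgroup.mem_set_normalizer_iff.2 ?_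
    intro x
    constructor
    · intro hx
      exact hS.conj_mem g hg x hx
    · intro hx
      have h1 := hS.conj_mem g⁻¹ (Subgroup.inv_mem _ hg) _ hx
      have h2 : g⁻¹ * (g * x * g⁻¹) * g⁻¹⁻¹ = x := by group
      rwa [h2] at h1

theorem normalizer_stab : normalizer (stabilizer G a : Set G) = stabilizer G a := by
  apply le_antisymm
  · intro g hg
    by_contra hga
    have hga' : g • a ≠ a := hga
    obtain ⟨x, hx, hx1⟩ := Q_ne_one hS
    have h1 : x ∈ stabilizer G a := hS.le hx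
    have h2 : g⁻¹ * x * g ∈ stabilizer G a := (Subgroup.mem_set_normalizer_iff''.1 hg x).1 h1
    have h3 : (g⁻¹ * x * g) • a = a := h2
    have h4 : x • (g • a) = g • a := by
      have h5 : g • (g⁻¹ * x * g) • a = g • a := by rw [h3]
      rw [← mul_smul] at h5 ⊢
      have h6 : g * (g⁻¹ * x * g) = x * g := by group
      rw [h6] at h5
      exact h5
    exact hx1 (Q_fix hS hx hga' h4)
  · exact Subgroup.le_normalizer

/-- orders -/
theorem card_stab : Nat.card (stabilizer G a) = Nat.card Q * Nat.card (Dd a t) := by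
  classical
  symm
  rw [← Nat.card_prod]
  apply Nat.card_eq_of_bijective (fun p : Q × Dd a t => (⟨(p.1 : G) * (p.2 : G), Subgroup.mul_mem _ (hS.le p.1.2) p.2.2.1⟩ : stabilizer G a))
  constructor
  · rintro ⟨⟨q, hq⟩, ⟨d, hd⟩⟩ ⟨⟨q', hq'⟩, ⟨d', hd'⟩⟩ h
    have h1 : q * d = q' * d' := congrArg Subtype.val h
    have h2 : q'⁻¹ * q = d' * d⁻¹ := by
      calc q'⁻¹ * q = q'⁻¹ * (q * d) * d⁻¹ := by group
        _ = q'⁻¹ * (q' * d') * d⁻¹ := by rw [h1]
        _ = d' * d⁻¹ := by group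
    have h3 : (q'⁻¹ * q) • (t • a) = t • a := by
      rw [h2]
      exact (Subgroup.mul_mem _ hd' (Subgroup.inv_mem _ hd)).2
    have h4 := Q_fix_ta hS (Q.mul_mem (Q.inv_mem hq') hq) h3
    have h5 : q = q' := by
      have : q = q' * (q'⁻¹ * q) := by group
      rw [this, h4, mul_one]
    subst h5
    have h6 : d = d' := mul_left_cancel h1
    subst h6
    rfl
  · rintro ⟨g, hg⟩
    obtain ⟨q, hq, d, hd, rfl⟩ := stab_eq_mul hS hg
    exact ⟨(⟨q, hq⟩, ⟨d, hd⟩), rfl⟩

theorem card_G : Nat.card G = Nat.card Q * Nat.card (Dd a t) * (Nat.card Q + 1) := by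
  classical
  haveI := finite_Ω hS
  have h1 := Cfsg.Agent.Lib.SylowCount.card_eq_mul_of_fibers (fun g : G => g • a) (Nat.card (stabilizer G a)) (by
    intro b
    obtain ⟨g₀, rfl⟩ := exists_smul_a hS b
    symm
    apply Nat.card_eq_of_bijective (fun s : stabilizer G a => (⟨g₀ * s, by
      show (g₀ * s) • a = g₀ • a
      rw [mul_smul]
      have : (s : G) • a = a := s.2
      rw [this]⟩ : {g : G // g • a = g₀ • a}))
    constructor
    · rintro ⟨s, hs⟩ ⟨s', hs'⟩ h
      have h1 : g₀ * s = g₀ * s' := congrArg Subtype.val h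
      exact Subtype.ext (mul_left_cancel h1)
    · rintro ⟨g, hg⟩
      have h1 : g₀⁻¹ * g ∈ stabilizer G a := by
        show (g₀⁻¹ * g) • a = a
        rw [mul_smul, hg, inv_smul_smul]
      refine ⟨⟨_, h1⟩, ?_⟩
      apply Subtype.ext
      show g₀ * (g₀⁻¹ * g) = g
      group)
  rw [h1, card_stab hS, card_Ω hS]
  ring

/-- a Sylow 2-subgroup lies in `Q` -/
theorem exists_sylow_le : ∃ P : Sylow 2 G, (P : Subgroup G) ≤ Q := by
  classical
  haveI : Fact (Nat.Prime 2) := ⟨Nat.prime_two⟩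
  obtain ⟨P₀⟩ : Nonempty (Sylow 2 Q) := inferInstance
  let P₁ : Subgroup G := (P₀ : Subgroup Q).map Q.subtype
  have hP₁ : IsPGroup 2 P₁ := P₀.isPGroup'.map _
  have hP₁Q : P₁ ≤ Q := by
    rintro _ ⟨x, _, rfl⟩
    exact x.2
  obtain ⟨P, hP⟩ := hP₁.exists_le_sylow
  -- P₁ is already Sylow, by order
  have hc1 : Nat.card P₁ = Nat.card P₀ := by
    exact Nat.card_congr ((Subgroup.equivMapOfInjective (P₀ : Subgroup Q) Q.subtype Q.subtype_injective).symm.toEquiv)
  have hc2 : Nat.card P = 2 ^ (Nat.card G).factorization 2 := Sylow.card_eq_multiplicity P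
  have hc3 : Nat.card P₀ = 2 ^ (Nat.card Q).factorization 2 := Sylow.card_eq_multiplicity P₀
  have hodd : ¬ 2 ∣ Nat.card (Dd a t) * (Nat.card Q + 1) := by
    have h1 : Odd (Nat.card (Dd a t) * (Nat.card Q + 1)) := hS.odd_card.mul (Even.add_one hS.even_card)
    intro h
    exact (Nat.not_even_iff_odd.2 h1) (even_iff_two_dvd.2 h)
  have hfac : (Nat.card G).factorization 2 = (Nat.card Q).factorization 2 := by
    rw [card_G hS, mul_assoc, Nat.factorization_mul Nat.card_pos.ne' (Nat.mul_ne_zero Nat.card_pos.ne' (by omega))]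
    rw [Finsupp.add_apply]
    rw [Nat.factorization_eq_zero_of_not_dvd hodd, add_zero]
  have hle : (P : Subgroup G) ≤ P₁ := by
    have h1 : P₁ = (P : Subgroup G) := Subgroup.eq_of_le_of_card_ge hP (by rw [hc1, hc2, hc3, hfac])
    rw [h1]
  exact ⟨P, hle.trans hP₁Q⟩

/-- any element outside `G_a` has a unique form `p₁ t p₂` -/
theorem bruhat {g : G} (hg : g ∉ stabilizer G a) :
    ∃! p : G × G, p.1 ∈ stabilizer G a ∧ p.2 ∈ Q ∧ g = p.1 * t * p.2 := by
  have hg' : g • a ≠ a := hg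
  obtain ⟨q, hq, d, hd, f, hf, rfl⟩ := exists_canon hS hg'
  refine ⟨(q * d, f), ⟨Subgroup.mul_mem _ (hS.le hq) hd.1, hf, rfl⟩, ?_⟩
  rintro ⟨p₁, p₂⟩ ⟨h1, h2, h3⟩
  obtain ⟨q', hq', d', hd', rfl⟩ := stab_eq_mul hS h1
  obtain ⟨e1, e2, e3⟩ := canon_unique hS hq' hd' h2 hq hd hf h3.symm
  simp only [Prod.mk.injEq]
  rw [e1, e2]
  exact ⟨rfl, e3⟩

/-- involutions: even order of a product -/
theorem odd_mul_invol {s u : G} (hs : s • a = a) (hs1 : s ≠ 1) (hss : s * s = 1) (hu : u • a ≠ a)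
    (hu1 : u ≠ 1) (huu : u * u = 1) : Odd (orderOf (s * u)) := by
  by_contra hodd
  rw [Nat.not_odd_iff_even] at hodd
  obtain ⟨k, hk⟩ := hodd
  have hk' : orderOf (s * u) = 2 * k := by omega
  have hk0 : 0 < k := by
    have := orderOf_pos (s * u)
    omega
  obtain ⟨y, hy⟩ : ∃ y, y = s * u := ⟨_, rfl⟩
  rw [← hy] at hk'
  obtain ⟨z, hz⟩ : ∃ z, z = y ^ k := ⟨_, rfl⟩
  have hz2 : z * z = 1 := by
    rw [hz, ← pow_add, ← two_mul, ← hk', pow_orderOf_eq_one]
  have hz1 : z ≠ 1 := by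
    intro h
    rw [hz] at h
    have := orderOf_dvd_of_pow_eq_one h
    rw [hk'] at this
    have h2 := Nat.le_of_dvd hk0 this
    omega
  have hsi : s⁻¹ = s := inv_eq_of_mul_eq_one_left hss
  have hui : u⁻¹ = u := inv_eq_of_mul_eq_one_left huu
  have hzinv : z⁻¹ = z := inv_eq_of_mul_eq_one_left hz2
  -- s inverts y, u inverts y
  have hsy : s * y * s⁻¹ = y⁻¹ := by
    rw [hy, hsi]
    calc s * (s * u) * s = (s * s) * u * s := by group
      _ = u * s := by rw [hss, one_mul]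
      _ = (s * u)⁻¹ := by rw [mul_inv_rev, hsi, hui]
  have huy : u * y * u⁻¹ = y⁻¹ := by
    rw [hy, hui]
    calc u * (s * u) * u = u * s * (u * u) := by group
      _ = u * s := by rw [huu, mul_one]
      _ = (s * u)⁻¹ := by rw [mul_inv_rev, hsi, hui]
  have hsz : s * z * s⁻¹ = z := by
    rw [hz, ← conj_pow, hsy, inv_pow, ← hz, hzinv]
  have huz : u * z * u⁻¹ = z := by
    rw [hz, ← conj_pow, huy, inv_pow, ← hz, hzinv]
  -- z fixes a
  have hza : z • a = a := by
    have h1 : s • (z • a) = z • a := by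
      rw [← mul_smul]
      have : s * z = z * s := by
        calc s * z = (s * z * s⁻¹) * s := by group
          _ = z * s := by rw [hsz]
      rw [this, mul_smul, hs]
    exact invol_fix_unique hS hss hs1 h1 hs
  have hzua : z • (u • a) = u • a := by
    rw [← mul_smul]
    have : z * u = u * z := by
      calc z * u = (u * z * u⁻¹) * u := by rw [huz]
        _ = u * z := by group
    rw [this, mul_smul, hza]
  have := invol_fix_unique hS hz2 hz1 hzua hza
  exact hu this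

/-- an element with `u * u = 1`, `u ≠ 1` outside the point stabilizer of another point: conjugate involutions -/
theorem conj_of_odd {s u : G} (hss : s * s = 1) (huu : u * u = 1) (hodd : Odd (orderOf (s * u))) :
    ∃ g : G, g * u * g⁻¹ = s := by
  obtain ⟨m, hm⟩ := hodd
  have hsi : s⁻¹ = s := inv_eq_of_mul_eq_one_left hss
  have hui : u⁻¹ = u := inv_eq_of_mul_eq_one_left huu
  obtain ⟨y, hy⟩ : ∃ y, y = s * u := ⟨_, rfl⟩
  rw [← hy] at hm
  have hyi : y⁻¹ = u * s := by rw [hy, mul_inv_rev, hsi, hui]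
  have hus : u * y⁻¹ = s := by rw [hyi, ← mul_assoc, huu, one_mul]
  have hyu : y * u = s := by rw [hy, mul_assoc, huu, mul_one]
  have hpow : ∀ k : ℕ, y ^ k * u * (y ^ k)⁻¹ = y ^ (2 * k) * u := by
    intro k
    induction k with
    | zero => simp
    | succ k ih =>
      calc y ^ (k + 1) * u * (y ^ (k + 1))⁻¹ = y * (y ^ k * u * (y ^ k)⁻¹) * y⁻¹ := by rw [pow_succ']; group
        _ = y * (y ^ (2 * k) * u) * y⁻¹ := by rw [ih]
        _ = y * y ^ (2 * k) * (u * y⁻¹) := by group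
        _ = y * y ^ (2 * k) * (y * u) := by rw [hus, hyu]
        _ = y ^ (2 * (k + 1)) * u := by
          have h2 : 2 * (k + 1) = 1 + 2 * k + 1 := by ring
          rw [h2, pow_succ, pow_add, pow_one]
          group
  refine ⟨y ^ (m + 1), ?_⟩
  rw [hpow]
  have h1 : 2 * (m + 1) = orderOf y + 1 := by omega
  rw [h1, pow_succ, pow_orderOf_eq_one, one_mul, hyu]

end

end Cfsg.Agent.Lib.RankOneSetup
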