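import Mathlib
import Cfsg.Prelude
import Cfsg.Agent.Lib.RankOneSetup
import Cfsg.Agent.Lib.OddInv
import Cfsg.Agent.Lib.CoprimeGen

/-!
# The rank-one set-up, part two: swaps of involutions and the structure of the inverted set
-/

set_option autoImplicit false
set_option linter.all false

namespace Cfsg.Agent.Lib.RankOneSetup2

open Subgroup Cfsg MulAction
open Cfsg.Agent.Lib.RankOneSetup (Dd mem_Dd t_inv t_t_a ta_ne two_trans exists_smul_a finite_Ω stab_eq_mul
  exists_Q_smul Q_fix_ta Q_inj Q_fix Q_smul_ne Q_regular odd_orderOf_of_fix invol_fix_unique card_Ω odd_card_Ω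
  invol_has_fixed canon_unique t_conj_D exists_canon normalizer_le Q_ne_one normalizer_Q normalizer_stab card_stab
  card_G exists_sylow_le bruhat odd_mul_invol conj_of_odd)

/-- Two involutions with a product of odd order are swapped by an involution which is a word in them -/
theorem exists_swap {G : Type*} [Group G] [Finite G] {r r' : G} (hr : r * r = 1) (hr' : r' * r' = 1)
    (hodd : Odd (orderOf (r' * r))) :
    ∃ v : G, v * v = 1 ∧ v * r * v⁻¹ = r' ∧ v * r' * v⁻¹ = r ∧ ∀ c : G, c * r = r * c → c * r' = r' * c → c * v = v * c := by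
  obtain ⟨m, hm⟩ := hodd
  have hri : r⁻¹ = r := inv_eq_of_mul_eq_one_left hr
  have hri' : r'⁻¹ = r' := inv_eq_of_mul_eq_one_left hr'
  obtain ⟨y, hy⟩ : ∃ y, y = r' * r := ⟨_, rfl⟩
  rw [← hy] at hm
  have hinv : r * y * r⁻¹ = y⁻¹ := by
    rw [hy, hri, mul_inv_rev, hri, hri']
    calc r * (r' * r) * r = r * r' * (r * r) := by group
      _ = r * r' := by rw [hr, mul_one]
  have hpow : ∀ n : ℕ, r * y ^ n * r⁻¹ = (y ^ n)⁻¹ := by
    intro n
    have h1 : r * y ^ n * r⁻¹ = (r * y * r⁻¹) ^ n := (conj_pow).symm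
    rw [h1, hinv, inv_pow]
  have hy2 : y ^ (2 * m + 1) = 1 := by
    rw [← hm]; exact pow_orderOf_eq_one y
  obtain ⟨g, hg⟩ : ∃ g, g = y ^ (m + 1) := ⟨_, rfl⟩
  have hgg : g * g = y := by
    rw [hg, ← pow_add]
    have : m + 1 + (m + 1) = (2 * m + 1) + 1 := by ring
    rw [this, pow_succ, hy2, one_mul]
  have hgr : r * g * r⁻¹ = g⁻¹ := by rw [hg]; exact hpow _
  have hrg : r * g = g⁻¹ * r := by
    calc r * g = r * g * r⁻¹ * r := by group
      _ = g⁻¹ * r := by rw [hgr]
  have hr'y : r' = y * r := by rw [hy, mul_assoc, hr, mul_one]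
  refine ⟨g * r, ?_, ?_, ?_, ?_⟩
  · calc g * r * (g * r) = g * (r * g) * r := by group
      _ = g * (g⁻¹ * r) * r := by rw [hrg]
      _ = r * r := by group
      _ = 1 := hr
  · rw [mul_inv_rev, hri]
    calc g * r * r * (r * g⁻¹) = g * (r * r) * r * g⁻¹ := by group
      _ = g * r * g⁻¹ := by rw [hr]; group
      _ = g * (r * g⁻¹ * r⁻¹) * r := by group
      _ = g * (r * g * r⁻¹)⁻¹ * r := by group
      _ = g * g * r := by rw [hgr]; group
      _ = r' := by rw [hgg, ← hr'y]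
  · rw [mul_inv_rev, hri, hr'y]
    have h1 : g * r * (y * r) * (r * g⁻¹) = g * r * y * (r * r) * g⁻¹ := by group
    rw [h1, hr, mul_one]
    rw [← hgg]
    have h2 : r * (g * g) = g⁻¹ * g⁻¹ * r := by
      calc r * (g * g) = (r * g) * g := by group
        _ = (g⁻¹ * r) * g := by rw [hrg]
        _ = g⁻¹ * (r * g) := by group
        _ = g⁻¹ * (g⁻¹ * r) := by rw [hrg]
        _ = g⁻¹ * g⁻¹ * r := by group
    calc g * r * (g * g) * g⁻¹ = g * (r * (g * g)) * g⁻¹ := by group
      _ = g * (g⁻¹ * g⁻¹ * r) * g⁻¹ := by rw [h2]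
      _ = g⁻¹ * r * g⁻¹ := by group
      _ = (r * g) * g⁻¹ := by rw [hrg]
      _ = r := by group
  · intro c hc hc'
    have h1 : c * y = y * c := by
      rw [hy]
      calc c * (r' * r) = (c * r') * r := by group
        _ = r' * (c * r) := by rw [hc']; group
        _ = r' * (r * c) := by rw [hc]
        _ = r' * r * c := by group
    have h2 : c * g = g * c := by
      rw [hg]
      exact (Commute.pow_right (show Commute c y from h1) _)
    calc c * (g * r) = (c * g) * r := by group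
      _ = g * (c * r) := by rw [h2]; group
      _ = g * (r * c) := by rw [hc]
      _ = g * r * c := by group

/-- an element of odd order cannot invert a nontrivial element of odd order -/
theorem eq_one_of_odd_invert {G : Type*} [Group G] {w z : G} (hw : Odd (orderOf w)) (hz : Odd (orderOf z))
    (hwz : w * z * w⁻¹ = z⁻¹) : z = 1 := by
  obtain ⟨m, hm⟩ := hw
  have h2 : w ^ 2 * z * (w ^ 2)⁻¹ = z := by
    have h3 : w ^ 2 * z * (w ^ 2)⁻¹ = w * (w * z * w⁻¹) * w⁻¹ := by
      rw [pow_two]; group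
    rw [h3, hwz]
    calc w * z⁻¹ * w⁻¹ = (w * z * w⁻¹)⁻¹ := by group
      _ = z := by rw [hwz, inv_inv]
  have h4 : Commute (w ^ 2) z := by
    show w ^ 2 * z = z * w ^ 2
    calc w ^ 2 * z = w ^ 2 * z * (w ^ 2)⁻¹ * w ^ 2 := by group
      _ = z * w ^ 2 := by rw [h2]
  have h5 : (w ^ 2) ^ (m + 1) = w := by
    rw [← pow_mul]
    have : 2 * (m + 1) = orderOf w + 1 := by omega
    rw [this, pow_succ, pow_orderOf_eq_one, one_mul]
  have h6 : Commute w z := by
    rw [← h5]
    exact h4.pow_left _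
  have h7 : w * z * w⁻¹ = z := by
    rw [h6.eq]; group
  rw [hwz] at h7
  have h8 : z ^ 2 = 1 := by
    rw [pow_two]
    calc z * z = z * z⁻¹ := by rw [h7]
      _ = 1 := by group
  have h9 : orderOf z ∣ 2 := orderOf_dvd_of_pow_eq_one h8
  obtain ⟨k, hk⟩ := hz
  have h10 : orderOf z = 1 := by
    have := Nat.le_of_dvd (by norm_num) h9
    interval_cases h : orderOf z
    · omega
    · rfl
    · omega
  exact orderOf_eq_one_iff.1 h10

section
variable {G Ω : Type*} [Group G] [Finite G] [MulAction G Ω] {a : Ω} {t : G} {Q : Subgroup G}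
variable (hS : IsRankOneSetup G Ω a t Q)
include hS

/-- odd product at any point -/
theorem odd_mul_invol' {e : Ω} {s u : G} (hs : s • e = e) (hs1 : s ≠ 1) (hss : s * s = 1) (hu : u • e ≠ e)
    (hu1 : u ≠ 1) (huu : u * u = 1) : Odd (orderOf (s * u)) := by
  obtain ⟨g, rfl⟩ := exists_smul_a hS e
  have h := odd_mul_invol hS (s := g⁻¹ * s * g) (u := g⁻¹ * u * g)
    (by rw [mul_smul, mul_smul, hs, inv_smul_smul])
    (by
      intro h
      apply hs1
      have : s = g * (g⁻¹ * s * g) * g⁻¹ := by group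
      rw [this, h]; group)
    (by
      calc g⁻¹ * s * g * (g⁻¹ * s * g) = g⁻¹ * (s * s) * g := by group
        _ = 1 := by rw [hss]; group)
    (by
      intro h
      apply hu
      rw [mul_smul, mul_smul] at h
      have h2 := congrArg (fun z => g • z) h
      simpa using h2)
    (by
      intro h
      apply hu1
      have : u = g * (g⁻¹ * u * g) * g⁻¹ := by group
      rw [this, h]; group)
    (by
      calc g⁻¹ * u * g * (g⁻¹ * u * g) = g⁻¹ * (u * u) * g := by group
        _ = 1 := by rw [huu]; group)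
  have h2 : g⁻¹ * s * g * (g⁻¹ * u * g) = g⁻¹ * (s * u) * g⁻¹⁻¹ := by group
  rw [h2] at h
  have h3 := MulEquiv.orderOf_eq (MulAut.conj g⁻¹) (s * u)
  rw [MulAut.conj_apply] at h3
  rwa [h3] at h

/-- The key claim: an involution commuting with an element `z ≠ 1` of odd order, fixing a point moved by an
involution inverting `z`, cannot exist. -/
theorem no_invert {z i r : G} {x : Ω} (hz : Odd (orderOf z)) (hz1 : z ≠ 1) (hii : i * i = 1)
    (hiz : i * z * i⁻¹ = z⁻¹) (hrr : r * r = 1) (hr1 : r ≠ 1) (hrz : r * z = z * r)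
    (hrx : r • x = x) (hix : i • x ≠ x) : False := by
  have hii' : i⁻¹ = i := inv_eq_of_mul_eq_one_left hii
  obtain ⟨r', hr'⟩ : ∃ r', r' = i * r * i := ⟨_, rfl⟩
  have hr'r' : r' * r' = 1 := by
    rw [hr']
    calc i * r * i * (i * r * i) = i * r * (i * i) * r * i := by group
      _ = i * (r * r) * i := by rw [hii]; group
      _ = 1 := by rw [hrr]; simpa using hii
  have hr'1 : r' ≠ 1 := by
    intro h
    apply hr1
    have : r = i * r' * i := by
      rw [hr']
      calc r = (i * i) * r * (i * i) := by rw [hii]; group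
        _ = _ := by group
    rw [this, h]; simpa using hii
  have hr'fix : r' • (i • x) = i • x := by
    rw [hr', mul_smul, mul_smul, ← mul_smul i i, hii, one_smul, hrx]
  have hr'x : r' • x ≠ x := by
    intro h
    exact hix (invol_fix_unique hS hr'r' hr'1 hr'fix h)
  have hodd := odd_mul_invol' hS hrx hr1 hrr hr'x hr'1 hr'r'
  -- order of `r' * r` is also odd
  have hodd' : Odd (orderOf (r' * r)) := by
    have h1 : r' * r = (r * r')⁻¹ := by
      rw [mul_inv_rev, inv_eq_of_mul_eq_one_left hrr, inv_eq_of_mul_eq_one_left hr'r']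
    rw [h1, orderOf_inv]
    exact hodd
  obtain ⟨v, hvv, hv, hv', hvc⟩ := exists_swap hrr hr'r' hodd'
  have hvi : v⁻¹ = v := inv_eq_of_mul_eq_one_left hvv
  have hv1 : v • x = i • x := by
    have h1 : r' • (v • x) = v • x := by
      rw [← hv, hvi, mul_smul, mul_smul, ← mul_smul v v, hvv, one_smul, hrx]
    exact invol_fix_unique hS hr'r' hr'1 h1 hr'fix
  have hv2 : v • (i • x) = x := by
    have h1 : r • (v • (i • x)) = v • (i • x) := by
      rw [← hv', hvi, mul_smul, mul_smul, ← mul_smul v v, hvv, one_smul, hr'fix]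
    exact invol_fix_unique hS hrr hr1 h1 hrx
  obtain ⟨w, hw⟩ : ∃ w, w = i * v := ⟨_, rfl⟩
  have hwx : w • x = x := by
    rw [hw, mul_smul, hv1, ← mul_smul, hii, one_smul]
  have hwi : w • (i • x) = i • x := by
    rw [hw, mul_smul, hv2]
  have hwodd : Odd (orderOf w) := odd_orderOf_of_fix hS (Ne.symm hix) hwx hwi
  have hizi : i * z = z⁻¹ * i := by
    calc i * z = i * z * i⁻¹ * i := by group
      _ = z⁻¹ * i := by rw [hiz]
  have hizi' : i * z⁻¹ = z * i := by
    have h1 : (i * z)⁻¹ = (z⁻¹ * i)⁻¹ := by rw [hizi]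
    rw [mul_inv_rev, mul_inv_rev, inv_inv, hii'] at h1
    -- `z⁻¹ * i = i * z`
    calc i * z⁻¹ = i * z⁻¹ * (i * i) := by rw [hii]; group
      _ = i * (z⁻¹ * i) * i := by group
      _ = i * (i * z) * i := by rw [h1]
      _ = (i * i) * z * i := by group
      _ = z * i := by rw [hii]; group
  have hzr' : z * r' = r' * z := by
    rw [hr']
    calc z * (i * r * i) = (z * i) * r * i := by group
      _ = (i * z⁻¹) * r * i := by rw [hizi']
      _ = i * (z⁻¹ * r) * i := by group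
      _ = i * (r * z⁻¹) * i := by
        congr 2
        have : z⁻¹ * r = z⁻¹ * (r * z) * z⁻¹ := by group
        rw [this, hrz]; group
      _ = i * r * (z⁻¹ * i) := by group
      _ = i * r * (i * z) := by rw [hizi]
      _ = i * r * i * z := by group
  have hzv := hvc z hrz.symm hzr'
  have hwz : w * z * w⁻¹ = z⁻¹ := by
    rw [hw]
    calc i * v * z * (i * v)⁻¹ = i * (v * z) * v⁻¹ * i⁻¹ := by group
      _ = i * (z * v) * v⁻¹ * i⁻¹ := by rw [hzv]
      _ = i * z * i⁻¹ := by group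
      _ = z⁻¹ := hiz
  exact hz1 (eq_one_of_odd_invert hwodd hz hwz)

/-- the involutions `t k` attached to the inverted elements -/
theorem mul_self_of_inverted {k : G} (hk : t * k * t⁻¹ = k⁻¹) : (t * k) * (t * k) = 1 := by
  have ht := t_inv hS
  rw [ht] at hk
  calc t * k * (t * k) = (t * k * t) * k := by group
    _ = k⁻¹ * k := by rw [hk]
    _ = 1 := by group

theorem odd_orderOf_mem_D {d : G} (hd : d ∈ Dd a t) : Odd (orderOf d) :=
  Cfsg.Agent.Lib.OddInv.odd_orderOf_of_mem hS.odd_card hd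

/-- conjugation by `k⁻¹` on involutions of `G_a` is injective on the inverted set -/
theorem inverted_conj_inj {s k k' : G} (hsa : s • a = a) (hs1 : s ≠ 1) (hss : s * s = 1)
    (hk : k ∈ invertedBy (Dd a t) t) (hk' : k' ∈ invertedBy (Dd a t) t)
    (he : k⁻¹ * s * k = k'⁻¹ * s * k') : k = k' := by
  by_contra hne
  have ht := t_inv hS
  obtain ⟨hkD, hki⟩ := hk
  obtain ⟨hkD', hki'⟩ := hk'
  have hki2 := hki
  have hki2' := hki'
  rw [ht] at hki2 hki2'
  have hii := mul_self_of_inverted hS hki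
  obtain ⟨i, hi⟩ : ∃ i, i = t * k := ⟨_, rfl⟩
  rw [← hi] at hii
  obtain ⟨z, hz⟩ : ∃ z, z = k⁻¹ * k' := ⟨_, rfl⟩
  have hzD : z ∈ Dd a t := by
    rw [hz]
    exact Subgroup.mul_mem _ (Subgroup.inv_mem _ hkD) hkD'
  have hz1 : z ≠ 1 := by
    intro h
    apply hne
    rw [hz] at h
    have : k' = k * (k⁻¹ * k') := by group
    rw [this, h, mul_one]
  have hii' : i⁻¹ = i := inv_eq_of_mul_eq_one_left hii
  have hki3 : t * k = k⁻¹ * t := by
    calc t * k = (t * k * t) * t := by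
          rw [mul_assoc (t * k), hS.mul_self, mul_one]
      _ = k⁻¹ * t := by rw [hki2]
  have hki3' : t * k' = k'⁻¹ * t := by
    calc t * k' = (t * k' * t) * t := by
          rw [mul_assoc (t * k'), hS.mul_self, mul_one]
      _ = k'⁻¹ * t := by rw [hki2']
  have hkinv : t * k⁻¹ = k * t := by
    calc t * k⁻¹ = t * k⁻¹ * (t * t) := by rw [hS.mul_self, mul_one]
      _ = t * (k⁻¹ * t) * t := by group
      _ = t * (t * k) * t := by rw [hki3]
      _ = (t * t) * k * t := by group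
      _ = k * t := by rw [hS.mul_self, one_mul]
  have hkinv' : t * k'⁻¹ = k' * t := by
    calc t * k'⁻¹ = t * k'⁻¹ * (t * t) := by rw [hS.mul_self, mul_one]
      _ = t * (k'⁻¹ * t) * t := by group
      _ = t * (t * k') * t := by rw [hki3']
      _ = (t * t) * k' * t := by group
      _ = k' * t := by rw [hS.mul_self, one_mul]
  -- `z = i * (t * k')`
  have hz2 : z = i * (t * k') := by
    rw [hz, hi]
    calc k⁻¹ * k' = k⁻¹ * (t * t) * k' := by rw [hS.mul_self, mul_one]
      _ = (k⁻¹ * t) * t * k' := by group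
      _ = (t * k) * t * k' := by rw [hki3]
      _ = _ := by group
  have hii'' := mul_self_of_inverted hS hki'
  have hiz : i * z * i⁻¹ = z⁻¹ := by
    rw [hii', hz2]
    have h1 : (t * k') ⁻¹ = t * k' := inv_eq_of_mul_eq_one_left hii''
    rw [mul_inv_rev, hii', h1]
    calc i * (i * (t * k')) * i = (i * i) * (t * k') * i := by group
      _ = t * k' * i := by rw [hii, one_mul]
  -- the involution `r = t s t`
  obtain ⟨r, hr⟩ : ∃ r, r = t * s * t := ⟨_, rfl⟩
  have hrr : r * r = 1 := by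
    rw [hr]
    calc t * s * t * (t * s * t) = t * s * (t * t) * s * t := by group
      _ = t * (s * s) * t := by rw [hS.mul_self]; group
      _ = t * t := by rw [hss]; group
      _ = 1 := hS.mul_self
  have hr1 : r ≠ 1 := by
    intro h
    apply hs1
    have h2 : s = t * r * t := by
      rw [hr]
      calc s = (t * t) * s * (t * t) := by rw [hS.mul_self]; group
        _ = _ := by group
    rw [h2, h]
    simpa using hS.mul_self
  have hrx : r • (t • a) = t • a := by
    rw [hr, mul_smul, mul_smul, t_t_a hS, hsa]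
  have hix : i • (t • a) ≠ t • a := by
    rw [hi, mul_smul, hkD.2, t_t_a hS]
    exact (ta_ne hS).symm
  -- commuting
  have hrz : r * z = z * r := by
    -- `k' * k⁻¹` commutes with `s`
    have h1 : (k * k'⁻¹) * s = s * (k * k'⁻¹) := by
      have h2 : s = k * (k⁻¹ * s * k) * k⁻¹ := by group
      have h3 : s = k' * (k'⁻¹ * s * k') * k'⁻¹ := by group
      -- from `he`
      have h4 : k'⁻¹ * s * k' = k⁻¹ * s * k := he.symm
      calc (k * k'⁻¹) * s = k * (k'⁻¹ * s * k') * k'⁻¹ := by group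
        _ = k * (k⁻¹ * s * k) * k'⁻¹ := by rw [h4]
        _ = s * (k * k'⁻¹) := by group
    have h5 : t * z * t = k * k'⁻¹ := by
      rw [hz]
      calc t * (k⁻¹ * k') * t = (t * k⁻¹) * k' * t := by group
        _ = (k * t) * k' * t := by rw [hkinv]
        _ = k * (t * k') * t := by group
        _ = k * (k'⁻¹ * t) * t := by rw [hki3']
        _ = k * k'⁻¹ * (t * t) := by group
        _ = k * k'⁻¹ := by rw [hS.mul_self, mul_one]
    rw [← h5] at h1
    rw [hr]
    calc t * s * t * z = t * s * t * z * (t * t) := by rw [hS.mul_self, mul_one]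
      _ = t * (s * (t * z * t)) * t := by group
      _ = t * (t * z * t * s) * t := by rw [h1]
      _ = (t * t) * z * (t * s * t) := by group
      _ = z * (t * s * t) := by rw [hS.mul_self, one_mul]
  exact no_invert hS (odd_orderOf_mem_D hS hzD) hz1 hii hiz hrr hr1 hrz hrx hix

/-- any two involutions of `G_a` are conjugate by an inverted element -/
theorem exists_inverted_conj {s s' : G} (hsa : s • a = a) (hs1 : s ≠ 1) (hss : s * s = 1)
    (hsa' : s' • a = a) (hs1' : s' ≠ 1) (hss' : s' * s' = 1) :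
    ∃ k ∈ invertedBy (Dd a t) t, k⁻¹ * s * k = s' := by
  have ht := t_inv hS
  obtain ⟨r, hr⟩ : ∃ r, r = t * s * t := ⟨_, rfl⟩
  have hrr : r * r = 1 := by
    rw [hr]
    calc t * s * t * (t * s * t) = t * s * (t * t) * s * t := by group
      _ = t * (s * s) * t := by rw [hS.mul_self]; group
      _ = t * t := by rw [hss]; group
      _ = 1 := hS.mul_self
  have hr1 : r ≠ 1 := by
    intro h
    apply hs1
    have h2 : s = t * r * t := by
      rw [hr]
      calc s = (t * t) * s * (t * t) := by rw [hS.mul_self]; group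
        _ = _ := by group
    rw [h2, h]
    simpa using hS.mul_self
  have hrx : r • (t • a) = t • a := by
    rw [hr, mul_smul, mul_smul, t_t_a hS, hsa]
  have hra : r • a ≠ a := by
    intro h
    exact ta_ne hS (invol_fix_unique hS hrr hr1 hrx h)
  have hodd := odd_mul_invol hS hsa' hs1' hss' hra hr1 hrr
  obtain ⟨v, hvv, hv, hv', -⟩ := exists_swap hrr hss' hodd
  have hvi : v⁻¹ = v := inv_eq_of_mul_eq_one_left hvv
  have hv1 : v • (t • a) = a := by
    have h1 : s' • (v • (t • a)) = v • (t • a) := by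
      rw [← hv, hvi, mul_smul, mul_smul, ← mul_smul v v, hvv, one_smul, hrx]
    exact invol_fix_unique hS hss' hs1' h1 hsa'
  have hv2 : v • a = t • a := by
    have h1 : r • (v • a) = v • a := by
      rw [← hv', hvi, mul_smul, mul_smul, ← mul_smul v v, hvv, one_smul, hsa']
    exact invol_fix_unique hS hrr hr1 h1 hrx
  refine ⟨t * v, ⟨⟨?_, ?_⟩, ?_⟩, ?_⟩
  · show (t * v) • a = a
    rw [mul_smul, hv2, t_t_a hS]
  · show (t * v) • (t • a) = t • a
    rw [mul_smul, hv1]
  · rw [ht, mul_inv_rev, hvi, ht]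
    calc t * (t * v) * t = (t * t) * v * t := by group
      _ = v * t := by rw [hS.mul_self, one_mul]
  · rw [mul_inv_rev, hvi, ht]
    calc v * t * s * (t * v) = v * (t * s * t) * v := by group
      _ = v * r * v⁻¹ := by rw [hr, hvi]
      _ = s' := hv

/-- an involution of `G_a` exists -/
theorem exists_invol_Q : ∃ s ∈ Q, s ≠ 1 ∧ s * s = 1 := by
  classical
  haveI : Fact (Nat.Prime 2) := ⟨Nat.prime_two⟩
  have h2 : 2 ∣ Nat.card Q := even_iff_two_dvd.1 hS.even_card
  obtain ⟨x, hx⟩ := exists_prime_orderOf_dvd_card' (G := Q) 2 h2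
  refine ⟨(x : G), x.2, ?_, ?_⟩
  · intro h
    have : x = 1 := Subtype.ext h
    rw [this, orderOf_one] at hx
    omega
  · have h3 : x ^ 2 = 1 := by rw [← hx]; exact pow_orderOf_eq_one x
    have h4 : (x : G) ^ 2 = 1 := by
      have := congrArg Subtype.val h3
      simpa using this
    rw [← pow_two]; exact h4

/-- the cardinality of the inverted set is the number of involutions of `G_a` -/
theorem card_inverted : Nat.card (invertedBy (Dd a t) t) = Nat.card (involutionsIn (stabilizer G a : Set G)) := by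
  classical
  obtain ⟨s₀, hs₀, hs₀1, hs₀s⟩ := exists_invol_Q hS
  have hs₀a : s₀ • a = a := hS.le hs₀
  have hmem : ∀ k : invertedBy (Dd a t) t, (k : G)⁻¹ * s₀ * k ∈ involutionsIn (stabilizer G a : Set G) := by
    rintro ⟨k, hk⟩
    refine ⟨?_, ?_, ?_⟩
    · exact Subgroup.mul_mem _ (Subgroup.mul_mem _ (Subgroup.inv_mem _ hk.1.1) hs₀a) hk.1.1
    · intro h
      apply hs₀1
      have h' : k⁻¹ * s₀ * k = 1 := h
      have : s₀ = k * (k⁻¹ * s₀ * k) * k⁻¹ := by group
      rw [this, h']; group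
    · show k⁻¹ * s₀ * k * (k⁻¹ * s₀ * k) = 1
      calc k⁻¹ * s₀ * k * (k⁻¹ * s₀ * k) = k⁻¹ * (s₀ * s₀) * k := by group
        _ = 1 := by rw [hs₀s]; group
  apply Nat.card_eq_of_bijective (fun k : invertedBy (Dd a t) t => (⟨(k : G)⁻¹ * s₀ * k, hmem k⟩ : involutionsIn (stabilizer G a : Set G)))
  constructor
  · rintro ⟨k, hk⟩ ⟨k', hk'⟩ h
    have h1 : k⁻¹ * s₀ * k = k'⁻¹ * s₀ * k' := congrArg Subtype.val h
    exact Subtype.ext (inverted_conj_inj hS hs₀a hs₀1 hs₀s hk hk' h1)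
  · rintro ⟨s', hs'a, hs'1, hs's⟩
    obtain ⟨k, hk, hke⟩ := exists_inverted_conj hS hs₀a hs₀1 hs₀s hs'a hs'1 hs's
    exact ⟨⟨k, hk⟩, Subtype.ext hke⟩

/-- Elements of `Q` moving fixed points to fixed points centralise the set -/
theorem exists_Q_comm (X : Set G) (hX : ∀ x ∈ X, x • a = a) {p p' : Ω} (hp : p ≠ a) (hp' : p' ≠ a)
    (hxp : ∀ x ∈ X, x • p = p) (hxp' : ∀ x ∈ X, x • p' = p') :
    ∃ q ∈ Q, q • p = p' ∧ ∀ x ∈ X, x * q = q * x := by
  obtain ⟨⟨q, hq⟩, hqe, huniq⟩ := Q_regular hS hp hp'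
  have hqe' : q • p = p' := hqe
  refine ⟨q, hq, hqe', ?_⟩
  intro x hx
  have h1 : x * q * x⁻¹ ∈ Q := hS.conj_mem x (hX x hx) q hq
  have h2 : (x * q * x⁻¹) • p = p' := by
    have h3 : x⁻¹ • p = p := by
      conv_lhs => rw [← hxp x hx]
      exact inv_smul_smul x p
    rw [mul_smul, mul_smul, h3, hqe', hxp' x hx]
  have h4 := huniq ⟨x * q * x⁻¹, h1⟩ h2
  have h5 : x * q * x⁻¹ = q := congrArg Subtype.val h4
  calc x * q = x * q * x⁻¹ * x := by group
    _ = q * x := by rw [h5]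

/-- the same at any point -/
theorem exists_comm_fix (X : Set G) {e p p' : Ω} (he : ∀ x ∈ X, x • e = e) (hp : p ≠ e) (hp' : p' ≠ e)
    (hxp : ∀ x ∈ X, x • p = p) (hxp' : ∀ x ∈ X, x • p' = p') :
    ∃ q : G, q • e = e ∧ q • p = p' ∧ ∀ x ∈ X, x * q = q * x := by
  obtain ⟨g, rfl⟩ := exists_smul_a hS e
  have hcancel : ∀ {u v : Ω}, u ≠ g • v → g⁻¹ • u ≠ v := by
    intro u v h h2
    apply h
    rw [← h2, smul_inv_smul]
  obtain ⟨q, hq, hqe, hqc⟩ := exists_Q_comm hS ((fun x => g⁻¹ * x * g) '' X) (p := g⁻¹ • p) (p' := g⁻¹ • p')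
    (by
      rintro _ ⟨x, hx, rfl⟩
      show (g⁻¹ * x * g) • a = a
      rw [mul_smul, mul_smul, he x hx, inv_smul_smul])
    (hcancel hp) (hcancel hp')
    (by
      rintro _ ⟨x, hx, rfl⟩
      show (g⁻¹ * x * g) • (g⁻¹ • p) = g⁻¹ • p
      rw [mul_smul, mul_smul, smul_inv_smul, hxp x hx])
    (by
      rintro _ ⟨x, hx, rfl⟩
      show (g⁻¹ * x * g) • (g⁻¹ • p') = g⁻¹ • p'
      rw [mul_smul, mul_smul, smul_inv_smul, hxp' x hx])
  refine ⟨g * q * g⁻¹, ?_, ?_, ?_⟩
  · rw [mul_smul, mul_smul, inv_smul_smul, show q • a = a from hS.le hq]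
  · rw [mul_smul, mul_smul, hqe, smul_inv_smul]
  · intro x hx
    have h1 := hqc _ ⟨x, hx, rfl⟩
    have h1' : g⁻¹ * x * g * q = q * (g⁻¹ * x * g) := h1
    calc x * (g * q * g⁻¹) = g * (g⁻¹ * x * g * q) * g⁻¹ := by group
      _ = g * (q * (g⁻¹ * x * g)) * g⁻¹ := by rw [h1']
      _ = g * q * g⁻¹ * x := by group

/-- the centraliser of a set fixing at least three points is transitive on the fixed points -/
theorem exists_comm_trans (X : Set G) {b c d : Ω} (hbc : b ≠ c) (hbd : b ≠ d) (hcd : c ≠ d)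
    (h3 : ∀ x ∈ X, x • b = b ∧ x • c = c ∧ x • d = d) {p p' : Ω}
    (hxp : ∀ x ∈ X, x • p = p) (hxp' : ∀ x ∈ X, x • p' = p') :
    ∃ g : G, g • p = p' ∧ ∀ x ∈ X, x * g = g * x := by
  by_cases hpp : p = p'
  · exact ⟨1, by rw [one_smul, hpp], by simp⟩
  -- a third point
  have key : ∃ e, (∀ x ∈ X, x • e = e) ∧ p ≠ e ∧ p' ≠ e := by
    by_cases h1 : p ≠ b ∧ p' ≠ b
    · exact ⟨b, fun x hx => (h3 x hx).1, h1.1, h1.2⟩
    by_cases h2 : p ≠ c ∧ p' ≠ c
    · exact ⟨c, fun x hx => (h3 x hx).2.1, h2.1, h2.2⟩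
    refine ⟨d, fun x hx => (h3 x hx).2.2, ?_, ?_⟩
    · rintro rfl
      rcases not_and_or.1 h1 with h | h
      · exact hbd (not_not.1 h).symm
      · rw [not_not] at h
        rcases not_and_or.1 h2 with h' | h'
        · exact hcd (not_not.1 h').symm
        · rw [not_not] at h'
          exact hbc (h.symm.trans h')
    · rintro rfl
      rcases not_and_or.1 h1 with h | h
      · rw [not_not] at h
        rcases not_and_or.1 h2 with h' | h'
        · rw [not_not] at h'
          exact hbc (h.symm.trans h')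
        · exact hcd (not_not.1 h').symm
      · exact hbd (not_not.1 h).symm
  obtain ⟨e, he, hpe, hpe'⟩ := key
  obtain ⟨q, -, hq, hqc⟩ := exists_comm_fix hS X he hpe hpe' hxp hxp'
  exact ⟨q, hq, hqc⟩

/-- double transitivity on the fixed points -/
theorem exists_comm_two_trans (X : Set G) {b c d : Ω} (hbc : b ≠ c) (hbd : b ≠ d) (hcd : c ≠ d)
    (h3 : ∀ x ∈ X, x • b = b ∧ x • c = c ∧ x • d = d) {b₁ b₂ c₁ c₂ : Ω}
    (hx : ∀ x ∈ X, x • b₁ = b₁ ∧ x • b₂ = b₂ ∧ x • c₁ = c₁ ∧ x • c₂ = c₂)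
    (hb : b₁ ≠ b₂) (hc : c₁ ≠ c₂) : ∃ g : G, (∀ x ∈ X, x * g = g * x) ∧ g • b₁ = c₁ ∧ g • b₂ = c₂ := by
  obtain ⟨g₁, hg₁, hg₁c⟩ := exists_comm_trans hS X hbc hbd hcd h3 (fun x hx' => (hx x hx').1)
    (fun x hx' => (hx x hx').2.2.1)
  have hfix : ∀ x ∈ X, x • (g₁ • b₂) = g₁ • b₂ := by
    intro x hx'
    rw [← mul_smul, hg₁c x hx', mul_smul, (hx x hx').2.1]
  have hne : g₁ • b₂ ≠ c₁ := by
    rw [← hg₁]
    intro h
    exact hb (smul_left_cancel g₁ h).symm
  obtain ⟨q, hq1, hq2, hqc⟩ := exists_comm_fix hS X (fun x hx' => (hx x hx').2.2.1) hne hc.symm hfix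
    (fun x hx' => (hx x hx').2.2.2)
  refine ⟨q * g₁, ?_, ?_, ?_⟩
  · intro x hx'
    calc x * (q * g₁) = (x * q) * g₁ := by group
      _ = q * (x * g₁) := by rw [hqc x hx']; group
      _ = q * (g₁ * x) := by rw [hg₁c x hx']
      _ = q * g₁ * x := by group
  · rw [mul_smul, hg₁, hq1]
  · rw [mul_smul, hq2]

/-- an involution of `G_a` lies in `Q` -/
theorem invol_mem_Q {s : G} (hsa : s • a = a) (hss : s * s = 1) : s ∈ Q := by
  obtain ⟨q, hq, d, hd, rfl⟩ := stab_eq_mul hS hsa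
  have h1 : d * d = (q * (d * q * d⁻¹))⁻¹ := by
    apply eq_inv_of_mul_eq_one_right
    calc q * (d * q * d⁻¹) * (d * d) = q * d * (q * d) := by group
      _ = 1 := hss
  have h2 : d * q * d⁻¹ ∈ Q := hS.conj_mem d hd.1 q hq
  have h3 : d * d ∈ Q := by
    rw [h1]
    exact Q.inv_mem (Q.mul_mem hq h2)
  have h4 : d * d = 1 := Q_fix_ta hS h3 (by rw [mul_smul, hd.2, hd.2])
  have h5 := odd_orderOf_mem_D hS hd
  have h6 : d = 1 := by
    have h7 : d ^ 2 = 1 := by rw [pow_two]; exact h4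
    have h8 : orderOf d ∣ 2 := orderOf_dvd_of_pow_eq_one h7
    obtain ⟨k, hk⟩ := h5
    have h10 : orderOf d = 1 := by
      have := Nat.le_of_dvd (by norm_num) h8
      interval_cases h : orderOf d
      · omega
      · rfl
      · omega
    exact orderOf_eq_one_iff.1 h10
  rw [h6, mul_one]
  exact hq

/-- An involution swapping `a` and `t a` in the centraliser of a subset of `D` fixing three points -/
theorem exists_swap_comm (X : Set G) (hX : X ⊆ (Dd a t : Set G)) {b c d : Ω} (hbc : b ≠ c) (hbd : b ≠ d)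
    (hcd : c ≠ d) (h3 : ∀ x ∈ X, x • b = b ∧ x • c = c ∧ x • d = d) :
    ∃ i : G, i * i = 1 ∧ i • a = t • a ∧ i • (t • a) = a ∧ ∀ x ∈ X, x * i = i * x := by
  have hta := ta_ne hS
  obtain ⟨g, hgc, hg1, hg2⟩ := exists_comm_two_trans hS X hbc hbd hcd h3 (b₁ := a) (b₂ := t • a) (c₁ := t • a) (c₂ := a)
    (fun x hx => ⟨(hX hx).1, (hX hx).2, (hX hx).2, (hX hx).1⟩) hta.symm hta
  obtain ⟨y, hy⟩ : ∃ y, y = g ^ 2 := ⟨_, rfl⟩
  have hya : y • a = a := by
    rw [hy, pow_two, mul_smul, hg1, hg2]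
  have hyta : y • (t • a) = t • a := by
    rw [hy, pow_two, mul_smul, hg2, hg1]
  have hodd : Odd (orderOf y) := odd_orderOf_of_fix hS hta.symm hya hyta
  obtain ⟨m, hm⟩ := hodd
  have hym : ∀ n : ℕ, y ^ n • a = a ∧ y ^ n • (t • a) = t • a := by
    intro n
    induction n with
    | zero => simp
    | succ n ih =>
      rw [pow_succ, mul_smul, mul_smul, hya, hyta]
      exact ih
  refine ⟨g ^ (2 * m + 1), ?_, ?_, ?_, ?_⟩
  · rw [← pow_add]
    have h1 : 2 * m + 1 + (2 * m + 1) = 2 * (2 * m + 1) := by ring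
    rw [h1, pow_mul, ← hy, ← hm, pow_orderOf_eq_one]
  · rw [pow_succ, pow_mul, ← hy, mul_smul, hg1, (hym m).2]
  · rw [pow_succ, pow_mul, ← hy, mul_smul, hg2, (hym m).1]
  · intro x hx
    exact (Commute.pow_right (show Commute x g from hgc x hx) _)

/-- a subset of `D` fixing three points is conjugate by an element of `D` into `C(t)` -/
theorem exists_conj_comm (X : Set G) (hX : X ⊆ (Dd a t : Set G)) {b c d : Ω} (hbc : b ≠ c) (hbd : b ≠ d)
    (hcd : c ≠ d) (h3 : ∀ x ∈ X, x • b = b ∧ x • c = c ∧ x • d = d) :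
    ∃ k ∈ Dd a t, ∀ x ∈ X, (k * x * k⁻¹) * t = t * (k * x * k⁻¹) := by
  have ht := t_inv hS
  obtain ⟨i, hii, hia, hita, hic⟩ := exists_swap_comm hS X hX hbc hbd hcd h3
  have hii' : i⁻¹ = i := inv_eq_of_mul_eq_one_left hii
  obtain ⟨k₀, hk₀⟩ : ∃ k₀, k₀ = t * i := ⟨_, rfl⟩
  have hk₀D : k₀ ∈ Dd a t := by
    rw [hk₀]
    constructor
    · show (t * i) • a = a
      rw [mul_smul, hia, t_t_a hS]
    · show (t * i) • (t • a) = t • a
      rw [mul_smul, hita]
  have hk₀i : t * k₀ * t⁻¹ = k₀⁻¹ := by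
    rw [hk₀, ht, mul_inv_rev, hii', ht]
    calc t * (t * i) * t = (t * t) * i * t := by group
      _ = i * t := by rw [hS.mul_self, one_mul]
  obtain ⟨n, hn⟩ := Cfsg.Agent.Lib.OddInv.exists_sqrt (odd_orderOf_mem_D hS hk₀D)
  obtain ⟨e, he⟩ : ∃ e, e = k₀ ^ n := ⟨_, rfl⟩
  rw [← he] at hn
  have heD : e ∈ Dd a t := by
    rw [he]; exact Subgroup.pow_mem _ hk₀D _
  have hei : t * e * t⁻¹ = e⁻¹ := by
    rw [he, ← conj_pow, hk₀i, inv_pow]
  rw [ht] at hei
  have hte : t * e = e⁻¹ * t := by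
    calc t * e = (t * e * t) * t := by rw [mul_assoc (t * e), hS.mul_self, mul_one]
      _ = e⁻¹ * t := by rw [hei]
  have hi : i = e⁻¹ * t * e := by
    have h1 : i = t * k₀ := by
      rw [hk₀, ← mul_assoc, hS.mul_self, one_mul]
    rw [h1, ← hn, pow_two, ← mul_assoc, hte]
  refine ⟨e, heD, ?_⟩
  intro x hx
  have hxi := hic x hx
  rw [hi] at hxi
  calc e * x * e⁻¹ * t = e * (x * (e⁻¹ * t * e)) * e⁻¹ := by group
    _ = e * ((e⁻¹ * t * e) * x) * e⁻¹ := by rw [hxi]
    _ = t * (e * x * e⁻¹) := by group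

end

end Cfsg.Agent.Lib.RankOneSetup2
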