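import Mathlib
import Cfsg.Prelude
import Cfsg.Agent.Lib.OddInv
import Cfsg.Agent.Lib.RankOneSetup2

/-!
# Actions in which two-point stabilisers have odd order and every involution fixes a point

These are exactly the consequences of strong embedding used for the elementary involution
arguments.
-/

set_option autoImplicit false
set_option linter.all false

namespace Cfsg.Agent.Lib.OddTwoPoint

open Subgroup Cfsg MulAction
open Cfsg.Agent.Lib.RankOneSetup2 (exists_swap eq_one_of_odd_invert)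

/-- two-point stabilisers have odd order and involutions fix points -/
structure OddStab (G Ω : Type*) [Group G] [MulAction G Ω] : Prop where
  odd_fix : ∀ (y : G) (b c : Ω), b ≠ c → y • b = b → y • c = c → Odd (orderOf y)
  has_fix : ∀ u : G, u * u = 1 → ∃ b : Ω, u • b = b

section
variable {G Ω : Type*} [Group G] [Finite G] [MulAction G Ω]
variable (hO : OddStab G Ω)
include hO

theorem fix_unique {u : G} (h1 : u * u = 1) (hu : u ≠ 1) {b c : Ω} (hb : u • b = b) (hc : u • c = c) : b = c := by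
  by_contra hbc
  have h2 := hO.odd_fix u b c hbc hb hc
  have h3 : orderOf u = 2 := orderOf_eq_prime (by rw [pow_two]; exact h1) hu
  rw [h3] at h2
  exact absurd h2 (by decide)

/-- involution fixing `e` and involution moving `e`: the product has odd order -/
theorem odd_mul {e : Ω} {s u : G} (hs : s • e = e) (hs1 : s ≠ 1) (hss : s * s = 1) (hu : u • e ≠ e)
    (hu1 : u ≠ 1) (huu : u * u = 1) : Odd (orderOf (s * u)) := by
  by_contra hodd
  rw [Nat.not_odd_iff_even] at hodd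
  obtain ⟨k, hk⟩ := hodd
  have hk' : orderOf (s * u) = 2 * k := by omega
  have hk0 : 0 < k := by
    have := orderOf_pos (s * u)
    omega
  obtain ⟨y, hy⟩ : ∃ y, y = s * u := ⟨_, rfl⟩
  rw [← hy] at hk'
  obtain ⟨z, hz⟩ : ∃ z, z = y ^ k := ⟨_, rfl⟩
  have hz2 : z * z = 1 := by
    rw [hz, ← pow_add, ← two_mul, ← hk', pow_orderOf_eq_one]
  have hz1 : z ≠ 1 := by
    intro h
    rw [hz] at h
    have := orderOf_dvd_of_pow_eq_one h
    rw [hk'] at this
    have h2 := Nat.le_of_dvd hk0 this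
    omega
  have hsi : s⁻¹ = s := inv_eq_of_mul_eq_one_left hss
  have hui : u⁻¹ = u := inv_eq_of_mul_eq_one_left huu
  have hzinv : z⁻¹ = z := inv_eq_of_mul_eq_one_left hz2
  have hsy : s * y * s⁻¹ = y⁻¹ := by
    rw [hy, hsi]
    calc s * (s * u) * s = (s * s) * u * s := by group
      _ = u * s := by rw [hss, one_mul]
      _ = (s * u)⁻¹ := by rw [mul_inv_rev, hsi, hui]
  have huy : u * y * u⁻¹ = y⁻¹ := by
    rw [hy, hui]
    calc u * (s * u) * u = u * s * (u * u) := by group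
      _ = u * s := by rw [huu, mul_one]
      _ = (s * u)⁻¹ := by rw [mul_inv_rev, hsi, hui]
  have hsz : s * z * s⁻¹ = z := by
    rw [hz, ← conj_pow, hsy, inv_pow, ← hz, hzinv]
  have huz : u * z * u⁻¹ = z := by
    rw [hz, ← conj_pow, huy, inv_pow, ← hz, hzinv]
  have hza : z • e = e := by
    have h1 : s • (z • e) = z • e := by
      rw [← mul_smul]
      have : s * z = z * s := by
        calc s * z = (s * z * s⁻¹) * s := by group
          _ = z * s := by rw [hsz]
      rw [this, mul_smul, hs]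
    exact fix_unique hO hss hs1 h1 hs
  have hzua : z • (u • e) = u • e := by
    rw [← mul_smul]
    have : z * u = u * z := by
      calc z * u = (u * z * u⁻¹) * u := by rw [huz]
        _ = u * z := by group
    rw [this, mul_smul, hza]
  have := fix_unique hO hz2 hz1 hzua hza
  exact hu this

/-- The key claim -/
theorem no_invert {z i r : G} {x : Ω} (hz : Odd (orderOf z)) (hz1 : z ≠ 1) (hii : i * i = 1)
    (hiz : i * z * i⁻¹ = z⁻¹) (hrr : r * r = 1) (hr1 : r ≠ 1) (hrz : r * z = z * r)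
    (hrx : r • x = x) (hix : i • x ≠ x) : False := by
  have hii' : i⁻¹ = i := inv_eq_of_mul_eq_one_left hii
  obtain ⟨r', hr'⟩ : ∃ r', r' = i * r * i := ⟨_, rfl⟩
  have hr'r' : r' * r' = 1 := by
    rw [hr']
    calc i * r * i * (i * r * i) = i * r * (i * i) * r * i := by group
      _ = i * (r * r) * i := by rw [hii]; group
      _ = 1 := by rw [hrr]; simpa using hii
  have hr'1 : r' ≠ 1 := by
    intro h
    apply hr1
    have : r = i * r' * i := by
      rw [hr']
      calc r = (i * i) * r * (i * i) := by rw [hii]; group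
        _ = _ := by group
    rw [this, h]; simpa using hii
  have hr'fix : r' • (i • x) = i • x := by
    rw [hr', mul_smul, mul_smul, ← mul_smul i i, hii, one_smul, hrx]
  have hr'x : r' • x ≠ x := by
    intro h
    exact hix (fix_unique hO hr'r' hr'1 hr'fix h)
  have hodd := odd_mul hO hrx hr1 hrr hr'x hr'1 hr'r'
  have hodd' : Odd (orderOf (r' * r)) := by
    have h1 : r' * r = (r * r')⁻¹ := by
      rw [mul_inv_rev, inv_eq_of_mul_eq_one_left hrr, inv_eq_of_mul_eq_one_left hr'r']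
    rw [h1, orderOf_inv]
    exact hodd
  obtain ⟨v, hvv, hv, hv', hvc⟩ := exists_swap hrr hr'r' hodd'
  have hvi : v⁻¹ = v := inv_eq_of_mul_eq_one_left hvv
  have hv1 : v • x = i • x := by
    have h1 : r' • (v • x) = v • x := by
      rw [← hv, hvi, mul_smul, mul_smul, ← mul_smul v v, hvv, one_smul, hrx]
    exact fix_unique hO hr'r' hr'1 h1 hr'fix
  have hv2 : v • (i • x) = x := by
    have h1 : r • (v • (i • x)) = v • (i • x) := by
      rw [← hv', hvi, mul_smul, mul_smul, ← mul_smul v v, hvv, one_smul, hr'fix]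
    exact fix_unique hO hrr hr1 h1 hrx
  obtain ⟨w, hw⟩ : ∃ w, w = i * v := ⟨_, rfl⟩
  have hwx : w • x = x := by
    rw [hw, mul_smul, hv1, ← mul_smul, hii, one_smul]
  have hwi : w • (i • x) = i • x := by
    rw [hw, mul_smul, hv2]
  have hwodd : Odd (orderOf w) := hO.odd_fix w _ _ (Ne.symm hix) hwx hwi
  have hizi : i * z = z⁻¹ * i := by
    calc i * z = i * z * i⁻¹ * i := by group
      _ = z⁻¹ * i := by rw [hiz]
  have hizi' : i * z⁻¹ = z * i := by
    have h1 : (i * z)⁻¹ = (z⁻¹ * i)⁻¹ := by rw [hizi]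
    rw [mul_inv_rev, mul_inv_rev, inv_inv, hii'] at h1
    calc i * z⁻¹ = i * z⁻¹ * (i * i) := by rw [hii]; group
      _ = i * (z⁻¹ * i) * i := by group
      _ = i * (i * z) * i := by rw [h1]
      _ = (i * i) * z * i := by group
      _ = z * i := by rw [hii]; group
  have hzr' : z * r' = r' * z := by
    rw [hr']
    calc z * (i * r * i) = (z * i) * r * i := by group
      _ = (i * z⁻¹) * r * i := by rw [hizi']
      _ = i * (z⁻¹ * r) * i := by group
      _ = i * (r * z⁻¹) * i := by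
        congr 2
        have : z⁻¹ * r = z⁻¹ * (r * z) * z⁻¹ := by group
        rw [this, hrz]; group
      _ = i * r * (z⁻¹ * i) := by group
      _ = i * r * (i * z) := by rw [hizi]
      _ = i * r * i * z := by group
  have hzv := hvc z hrz.symm hzr'
  have hwz : w * z * w⁻¹ = z⁻¹ := by
    rw [hw]
    calc i * v * z * (i * v)⁻¹ = i * (v * z) * v⁻¹ * i⁻¹ := by group
      _ = i * (z * v) * v⁻¹ * i⁻¹ := by rw [hzv]
      _ = i * z * i⁻¹ := by group
      _ = z⁻¹ := hiz
  exact hz1 (eq_one_of_odd_invert hwodd hz hwz)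

/-- Two involutions fixing distinct points are swapped by an involution which swaps the points -/
theorem exists_swap_between {x y : Ω} (hxy : x ≠ y) {r r' : G} (hrr : r * r = 1) (hr1 : r ≠ 1) (hrx : r • x = x)
    (hr'r' : r' * r' = 1) (hr'1 : r' ≠ 1) (hr'y : r' • y = y) :
    ∃ v : G, v * v = 1 ∧ v ≠ 1 ∧ v • x = y ∧ v • y = x ∧ v * r * v⁻¹ = r' ∧ v * r' * v⁻¹ = r := by
  have hr'x : r' • x ≠ x := by
    intro h
    exact hxy (fix_unique hO hr'r' hr'1 h hr'y)
  have hodd := odd_mul hO hrx hr1 hrr hr'x hr'1 hr'r'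
  have hodd' : Odd (orderOf (r' * r)) := by
    have h1 : r' * r = (r * r')⁻¹ := by
      rw [mul_inv_rev, inv_eq_of_mul_eq_one_left hrr, inv_eq_of_mul_eq_one_left hr'r']
    rw [h1, orderOf_inv]
    exact hodd
  obtain ⟨v, hvv, hv, hv', -⟩ := exists_swap hrr hr'r' hodd'
  have hvi : v⁻¹ = v := inv_eq_of_mul_eq_one_left hvv
  have hv1 : v • x = y := by
    have h1 : r' • (v • x) = v • x := by
      rw [← hv, hvi, mul_smul, mul_smul, ← mul_smul v v, hvv, one_smul, hrx]
    exact fix_unique hO hr'r' hr'1 h1 hr'y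
  have hv2 : v • y = x := by
    have h1 : r • (v • y) = v • y := by
      rw [← hv', hvi, mul_smul, mul_smul, ← mul_smul v v, hvv, one_smul, hr'y]
    exact fix_unique hO hrr hr1 h1 hrx
  refine ⟨v, hvv, ?_, hv1, hv2, hv, hv'⟩
  rintro rfl
  rw [one_smul] at hv1
  exact hxy hv1

/-- Number of involutions carrying `x` to `y`, when an involution fixes `y` -/
theorem card_swaps {x y : Ω} (hxy : x ≠ y) {r₀ : G} (hr₀ : r₀ * r₀ = 1) (hr₀1 : r₀ ≠ 1) (hr₀y : r₀ • y = y) :
    Nat.card {i : G // i * i = 1 ∧ i ≠ 1 ∧ i • x = y} = Nat.card {s : G // s * s = 1 ∧ s ≠ 1 ∧ s • x = x} := by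
  classical
  have hback : ∀ i : G, i * i = 1 → i • x = y → i • y = x := by
    intro i hi hix
    rw [← hix, ← mul_smul, hi, one_smul]
  have hmem : ∀ i : {i : G // i * i = 1 ∧ i ≠ 1 ∧ i • x = y},
      (i : G) * r₀ * (i : G) * ((i : G) * r₀ * (i : G)) = 1 ∧ (i : G) * r₀ * (i : G) ≠ 1 ∧ ((i : G) * r₀ * (i : G)) • x = x := by
    rintro ⟨i, hi, hi1, hix⟩
    refine ⟨?_, ?_, ?_⟩
    · show i * r₀ * i * (i * r₀ * i) = 1
      calc i * r₀ * i * (i * r₀ * i) = i * r₀ * (i * i) * r₀ * i := by group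
        _ = i * (r₀ * r₀) * i := by rw [hi]; group
        _ = 1 := by rw [hr₀]; simpa using hi
    · intro h
      have h' : i * r₀ * i = 1 := h
      apply hr₀1
      have : r₀ = i * (i * r₀ * i) * i := by
        calc r₀ = (i * i) * r₀ * (i * i) := by rw [hi]; group
          _ = _ := by group
      rw [this, h']; simpa using hi
    · show (i * r₀ * i) • x = x
      rw [mul_smul, mul_smul, hix, hr₀y, hback i hi hix]
  apply Nat.card_eq_of_bijective (fun i : {i : G // i * i = 1 ∧ i ≠ 1 ∧ i • x = y} =>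
    (⟨(i : G) * r₀ * (i : G), hmem i⟩ : {s : G // s * s = 1 ∧ s ≠ 1 ∧ s • x = x}))
  constructor
  · rintro ⟨v, hv, hv1, hvx⟩ ⟨v', hv', hv'1, hv'x⟩ h
    have he : v * r₀ * v = v' * r₀ * v' := congrArg Subtype.val h
    have hvi : v⁻¹ = v := inv_eq_of_mul_eq_one_left hv
    have hvi' : v'⁻¹ = v' := inv_eq_of_mul_eq_one_left hv'
    obtain ⟨z, hz⟩ : ∃ z, z = v * v' := ⟨_, rfl⟩
    have hzx : z • x = x := by
      rw [hz, mul_smul, hv'x, hback v hv hvx]
    have hzy : z • y = y := by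
      rw [hz, mul_smul, hback v' hv' hv'x, hvx]
    have hzo : Odd (orderOf z) := hO.odd_fix z _ _ hxy hzx hzy
    by_cases hz1 : z = 1
    · apply Subtype.ext
      rw [hz] at hz1
      show v = v'
      have h2 : v = v'⁻¹ := eq_inv_of_mul_eq_one_left hz1
      rw [h2, hvi']
    · exfalso
      have hiz : v * z * v⁻¹ = z⁻¹ := by
        rw [hz, hvi, mul_inv_rev, hvi, hvi']
        calc v * (v * v') * v = (v * v) * v' * v := by group
          _ = v' * v := by rw [hv, one_mul]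
      have hrz : r₀ * z = z * r₀ := by
        rw [hz]
        calc r₀ * (v * v') = v * (v * r₀ * v) * v' := by
              calc r₀ * (v * v') = (v * v) * r₀ * (v * v') := by rw [hv, one_mul]
                _ = _ := by group
          _ = v * (v' * r₀ * v') * v' := by rw [he]
          _ = v * v' * r₀ * (v' * v') := by group
          _ = v * v' * r₀ := by rw [hv', mul_one]
      have hvy : v • y ≠ y := by
        rw [hback v hv hvx]
        exact hxy
      exact no_invert hO hzo hz1 hv hiz hr₀ hr₀1 hrz hr₀y hvy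
  · rintro ⟨s, hs, hs1, hsx⟩
    obtain ⟨v, hvv, hv1, hvx, hvy, h1, h2⟩ := exists_swap_between hO hxy hs hs1 hsx hr₀ hr₀1 hr₀y
    refine ⟨⟨v, hvv, hv1, hvx⟩, Subtype.ext ?_⟩
    have hvi : v⁻¹ = v := inv_eq_of_mul_eq_one_left hvv
    rw [hvi] at h2
    exact h2

section inverted
variable {τ : G} {x : Ω} (hτ : τ * τ = 1) (hτx : τ • x ≠ x)
include hτ hτx

theorem mul_self_of_inverted {k : G} (hk : τ * k * τ⁻¹ = k⁻¹) : (τ * k) * (τ * k) = 1 := by
  have ht : τ⁻¹ = τ := inv_eq_of_mul_eq_one_left hτ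
  rw [ht] at hk
  calc τ * k * (τ * k) = (τ * k * τ) * k := by group
    _ = k⁻¹ * k := by rw [hk]
    _ = 1 := by group

theorem tt_x : τ • τ • x = x := by
  rw [← mul_smul, hτ, one_smul]

theorem odd_orderOf_mem_D {d : G} (hd : d ∈ stabilizer G x ⊓ stabilizer G (τ • x)) : Odd (orderOf d) :=
  hO.odd_fix d x (τ • x) (Ne.symm hτx) hd.1 hd.2

/-- conjugation by `k⁻¹` on involutions fixing `x` is injective on the inverted set -/
theorem inverted_conj_inj {s k k' : G} (hsa : s • x = x) (hs1 : s ≠ 1) (hss : s * s = 1)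
    (hk : k ∈ invertedBy (stabilizer G x ⊓ stabilizer G (τ • x)) τ)
    (hk' : k' ∈ invertedBy (stabilizer G x ⊓ stabilizer G (τ • x)) τ)
    (he : k⁻¹ * s * k = k'⁻¹ * s * k') : k = k' := by
  by_contra hne
  have ht : τ⁻¹ = τ := inv_eq_of_mul_eq_one_left hτ
  obtain ⟨hkD, hki⟩ := hk
  obtain ⟨hkD', hki'⟩ := hk'
  have hki2 := hki
  have hki2' := hki'
  rw [ht] at hki2 hki2'
  have hii := mul_self_of_inverted hO hτ hτx hki
  obtain ⟨i, hi⟩ : ∃ i, i = τ * k := ⟨_, rfl⟩
  rw [← hi] at hii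
  obtain ⟨z, hz⟩ : ∃ z, z = k⁻¹ * k' := ⟨_, rfl⟩
  have hzD : z ∈ stabilizer G x ⊓ stabilizer G (τ • x) := by
    rw [hz]
    exact Subgroup.mul_mem _ (Subgroup.inv_mem _ hkD) hkD'
  have hz1 : z ≠ 1 := by
    intro h
    apply hne
    rw [hz] at h
    have : k' = k * (k⁻¹ * k') := by group
    rw [this, h, mul_one]
  have hii' : i⁻¹ = i := inv_eq_of_mul_eq_one_left hii
  have hki3 : τ * k = k⁻¹ * τ := by
    calc τ * k = (τ * k * τ) * τ := by
          rw [mul_assoc (τ * k), hτ, mul_one]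
      _ = k⁻¹ * τ := by rw [hki2]
  have hki3' : τ * k' = k'⁻¹ * τ := by
    calc τ * k' = (τ * k' * τ) * τ := by
          rw [mul_assoc (τ * k'), hτ, mul_one]
      _ = k'⁻¹ * τ := by rw [hki2']
  have hkinv : τ * k⁻¹ = k * τ := by
    calc τ * k⁻¹ = τ * k⁻¹ * (τ * τ) := by rw [hτ, mul_one]
      _ = τ * (k⁻¹ * τ) * τ := by group
      _ = τ * (τ * k) * τ := by rw [hki3]
      _ = (τ * τ) * k * τ := by group
      _ = k * τ := by rw [hτ, one_mul]
  have hz2 : z = i * (τ * k') := by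
    rw [hz, hi]
    calc k⁻¹ * k' = k⁻¹ * (τ * τ) * k' := by rw [hτ, mul_one]
      _ = (k⁻¹ * τ) * τ * k' := by group
      _ = (τ * k) * τ * k' := by rw [hki3]
      _ = _ := by group
  have hii'' := mul_self_of_inverted hO hτ hτx hki'
  have hiz : i * z * i⁻¹ = z⁻¹ := by
    rw [hii', hz2]
    have h1 : (τ * k') ⁻¹ = τ * k' := inv_eq_of_mul_eq_one_left hii''
    rw [mul_inv_rev, hii', h1]
    calc i * (i * (τ * k')) * i = (i * i) * (τ * k') * i := by group
      _ = τ * k' * i := by rw [hii, one_mul]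
  obtain ⟨r, hr⟩ : ∃ r, r = τ * s * τ := ⟨_, rfl⟩
  have hrr : r * r = 1 := by
    rw [hr]
    calc τ * s * τ * (τ * s * τ) = τ * s * (τ * τ) * s * τ := by group
      _ = τ * (s * s) * τ := by rw [hτ]; group
      _ = τ * τ := by rw [hss]; group
      _ = 1 := hτ
  have hr1 : r ≠ 1 := by
    intro h
    apply hs1
    have h2 : s = τ * r * τ := by
      rw [hr]
      calc s = (τ * τ) * s * (τ * τ) := by rw [hτ]; group
        _ = _ := by group
    rw [h2, h]
    simpa using hτ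
  have hrx : r • (τ • x) = τ • x := by
    rw [hr, mul_smul, mul_smul, tt_x hO hτ hτx, hsa]
  have hix : i • (τ • x) ≠ τ • x := by
    rw [hi, mul_smul, hkD.2, tt_x hO hτ hτx]
    exact (Ne.symm hτx)
  have hrz : r * z = z * r := by
    have h1 : (k * k'⁻¹) * s = s * (k * k'⁻¹) := by
      have h4 : k'⁻¹ * s * k' = k⁻¹ * s * k := he.symm
      calc (k * k'⁻¹) * s = k * (k'⁻¹ * s * k') * k'⁻¹ := by group
        _ = k * (k⁻¹ * s * k) * k'⁻¹ := by rw [h4]
        _ = s * (k * k'⁻¹) := by group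
    have h5 : τ * z * τ = k * k'⁻¹ := by
      rw [hz]
      calc τ * (k⁻¹ * k') * τ = (τ * k⁻¹) * k' * τ := by group
        _ = (k * τ) * k' * τ := by rw [hkinv]
        _ = k * (τ * k') * τ := by group
        _ = k * (k'⁻¹ * τ) * τ := by rw [hki3']
        _ = k * k'⁻¹ * (τ * τ) := by group
        _ = k * k'⁻¹ := by rw [hτ, mul_one]
    rw [← h5] at h1
    rw [hr]
    calc τ * s * τ * z = τ * s * τ * z * (τ * τ) := by rw [hτ, mul_one]
      _ = τ * (s * (τ * z * τ)) * τ := by group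
      _ = τ * (τ * z * τ * s) * τ := by rw [h1]
      _ = (τ * τ) * z * (τ * s * τ) := by group
      _ = z * (τ * s * τ) := by rw [hτ, one_mul]
  exact no_invert hO (odd_orderOf_mem_D hO hτ hτx hzD) hz1 hii hiz hrr hr1 hrz hrx hix

/-- any two involutions fixing `x` are conjugate by an inverted element -/
theorem exists_inverted_conj {s s' : G} (hsa : s • x = x) (hs1 : s ≠ 1) (hss : s * s = 1)
    (hsa' : s' • x = x) (hs1' : s' ≠ 1) (hss' : s' * s' = 1) :
    ∃ k ∈ invertedBy (stabilizer G x ⊓ stabilizer G (τ • x)) τ, k⁻¹ * s * k = s' := by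
  have ht : τ⁻¹ = τ := inv_eq_of_mul_eq_one_left hτ
  have htt := tt_x hO hτ hτx
  obtain ⟨r, hr⟩ : ∃ r, r = τ * s * τ := ⟨_, rfl⟩
  have hrr : r * r = 1 := by
    rw [hr]
    calc τ * s * τ * (τ * s * τ) = τ * s * (τ * τ) * s * τ := by group
      _ = τ * (s * s) * τ := by rw [hτ]; group
      _ = τ * τ := by rw [hss]; group
      _ = 1 := hτ
  have hr1 : r ≠ 1 := by
    intro h
    apply hs1
    have h2 : s = τ * r * τ := by
      rw [hr]
      calc s = (τ * τ) * s * (τ * τ) := by rw [hτ]; group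
        _ = _ := by group
    rw [h2, h]
    simpa using hτ
  have hrx : r • (τ • x) = τ • x := by
    rw [hr, mul_smul, mul_smul, htt, hsa]
  obtain ⟨v, hvv, -, hv2, hv1, hv, hv'⟩ := exists_swap_between hO (x := τ • x) (y := x) hτx hrr hr1 hrx hss' hs1' hsa'
  have hvi : v⁻¹ = v := inv_eq_of_mul_eq_one_left hvv
  refine ⟨τ * v, ⟨⟨?_, ?_⟩, ?_⟩, ?_⟩
  · show (τ * v) • x = x
    rw [mul_smul, hv1, htt]
  · show (τ * v) • (τ • x) = τ • x
    rw [mul_smul, hv2]
  · rw [ht, mul_inv_rev, hvi, ht]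
    calc τ * (τ * v) * τ = (τ * τ) * v * τ := by group
      _ = v * τ := by rw [hτ, one_mul]
  · rw [mul_inv_rev, hvi, ht]
    calc v * τ * s * (τ * v) = v * (τ * s * τ) * v := by group
      _ = v * r * v⁻¹ := by rw [hr, hvi]
      _ = s' := hv

/-- the cardinality of the inverted set is the number of involutions fixing `x`, when there is one -/
theorem card_inverted {s₀ : G} (hs₀a : s₀ • x = x) (hs₀1 : s₀ ≠ 1) (hs₀s : s₀ * s₀ = 1) :
    Nat.card (invertedBy (stabilizer G x ⊓ stabilizer G (τ • x)) τ) = Nat.card {s : G // s * s = 1 ∧ s ≠ 1 ∧ s • x = x} := by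
  classical
  have hmem : ∀ k : invertedBy (stabilizer G x ⊓ stabilizer G (τ • x)) τ,
      (k : G)⁻¹ * s₀ * k * ((k : G)⁻¹ * s₀ * k) = 1 ∧ (k : G)⁻¹ * s₀ * k ≠ 1 ∧ ((k : G)⁻¹ * s₀ * k) • x = x := by
    rintro ⟨k, hk⟩
    refine ⟨?_, ?_, ?_⟩
    · show k⁻¹ * s₀ * k * (k⁻¹ * s₀ * k) = 1
      calc k⁻¹ * s₀ * k * (k⁻¹ * s₀ * k) = k⁻¹ * (s₀ * s₀) * k := by group
        _ = 1 := by rw [hs₀s]; group
    · intro h
      apply hs₀1
      have h' : k⁻¹ * s₀ * k = 1 := h
      have : s₀ = k * (k⁻¹ * s₀ * k) * k⁻¹ := by group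
      rw [this, h']; group
    · exact Subgroup.mul_mem _ (Subgroup.mul_mem _ (Subgroup.inv_mem _ hk.1.1) hs₀a) hk.1.1
  apply Nat.card_eq_of_bijective (fun k : invertedBy (stabilizer G x ⊓ stabilizer G (τ • x)) τ =>
    (⟨(k : G)⁻¹ * s₀ * k, hmem k⟩ : {s : G // s * s = 1 ∧ s ≠ 1 ∧ s • x = x}))
  constructor
  · rintro ⟨k, hk⟩ ⟨k', hk'⟩ h
    have h1 : k⁻¹ * s₀ * k = k'⁻¹ * s₀ * k' := congrArg Subtype.val h
    exact Subtype.ext (inverted_conj_inj hO hτ hτx hs₀a hs₀1 hs₀s hk hk' h1)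
  · rintro ⟨s', hs's, hs'1, hs'a⟩
    obtain ⟨k, hk, hke⟩ := exists_inverted_conj hO hτ hτx hs₀a hs₀1 hs₀s hs'a hs'1 hs's
    exact ⟨⟨k, hk⟩, Subtype.ext hke⟩

end inverted

end

section strong
variable {G : Type*} [Group G] [Finite G] {H : Subgroup G} (hH : IsStronglyEmbedded H)
include hH

theorem exists_invol : ∃ t ∈ H, t ≠ 1 ∧ t * t = 1 := by
  classical
  haveI : Fact (Nat.Prime 2) := ⟨Nat.prime_two⟩
  have h2 : 2 ∣ Nat.card H := even_iff_two_dvd.1 hH.2.1
  obtain ⟨x, hx⟩ := exists_prime_orderOf_dvd_card' (G := H) 2 h2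
  refine ⟨(x : G), x.2, ?_, ?_⟩
  · intro h
    have : x = 1 := Subtype.ext h
    rw [this, orderOf_one] at hx
    omega
  · have h3 : x ^ 2 = 1 := by rw [← hx]; exact pow_orderOf_eq_one x
    have h4 : (x : G) ^ 2 = 1 := by
      have := congrArg Subtype.val h3
      simpa using this
    rw [← pow_two]; exact h4

theorem mem_conj_of_smul_mk {y g : G} (h : y • (QuotientGroup.mk g : G ⧸ H) = QuotientGroup.mk g) : g⁻¹ * y * g ∈ H := by
  have h1 : (QuotientGroup.mk (y * g) : G ⧸ H) = QuotientGroup.mk g := h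
  have h2 := QuotientGroup.eq.1 h1
  have h3 : (y * g)⁻¹ * g ∈ H := h2
  have h4 := H.inv_mem h3
  have h5 : ((y * g)⁻¹ * g)⁻¹ = g⁻¹ * y * g := by group
  rwa [h5] at h4

theorem smul_mk_of_mem_conj {y g : G} (h : g⁻¹ * y * g ∈ H) : y • (QuotientGroup.mk g : G ⧸ H) = QuotientGroup.mk g := by
  show (QuotientGroup.mk (y * g) : G ⧸ H) = QuotientGroup.mk g
  apply QuotientGroup.eq.2
  have h5 : (y * g)⁻¹ * g = (g⁻¹ * y * g)⁻¹ := by group
  rw [h5]
  exact H.inv_mem h

theorem odd_of_fix_two (y : G) {b c : G ⧸ H} (hbc : b ≠ c) (hb : y • b = b) (hc : y • c = c) : Odd (orderOf y) := by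
  induction b using QuotientGroup.induction_on with
  | H g =>
  induction c using QuotientGroup.induction_on with
  | H g' =>
  have h1 := mem_conj_of_smul_mk hH hb
  have h2 := mem_conj_of_smul_mk hH hc
  obtain ⟨h, hh⟩ : ∃ h, h = g⁻¹ * g' := ⟨_, rfl⟩
  have hhH : h ∉ H := by
    intro h'
    apply hbc
    apply QuotientGroup.eq.2
    rw [← hh]
    exact h'
  have hodd := hH.2.2 h hhH
  have hmem : g⁻¹ * y * g ∈ H ⊓ H.map (MulAut.conj h).toMonoidHom := by
    refine ⟨h1, ⟨g'⁻¹ * y * g', h2, ?_⟩⟩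
    show h * (g'⁻¹ * y * g') * h⁻¹ = g⁻¹ * y * g
    rw [hh]
    group
  have h3 := Cfsg.Agent.Lib.OddInv.odd_orderOf_of_mem hodd hmem
  have h4 := MulEquiv.orderOf_eq (MulAut.conj g⁻¹) y
  rw [MulAut.conj_apply] at h4
  have h5 : g⁻¹ * y * g⁻¹⁻¹ = g⁻¹ * y * g := by group
  rw [h5] at h4
  rwa [h4] at h3

theorem not_two_dvd_card_quotient : ¬ 2 ∣ Nat.card (G ⧸ H) := by
  classical
  intro hd
  obtain ⟨t, htH, ht1, htt⟩ := exists_invol hH
  haveI := Fintype.ofFinite (G ⧸ H)
  haveI : Fact (Nat.Prime 2) := ⟨Nat.prime_two⟩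
  rw [Nat.card_eq_fintype_card] at hd
  have h3 : (MulAction.toPerm t : Equiv.Perm (G ⧸ H)) ^ 2 ^ 1 = 1 := by
    ext b
    simp only [pow_one, pow_two, Equiv.Perm.coe_mul, Function.comp_apply, MulAction.toPerm_apply, Equiv.Perm.coe_one, id_eq]
    rw [← mul_smul, htt, one_smul]
  have hfix : (MulAction.toPerm t : Equiv.Perm (G ⧸ H)) (QuotientGroup.mk 1) = QuotientGroup.mk 1 := by
    show t • (QuotientGroup.mk 1 : G ⧸ H) = QuotientGroup.mk 1
    apply smul_mk_of_mem_conj hH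
    simpa using htH
  obtain ⟨b, hb, hne⟩ := Equiv.Perm.exists_fixed_point_of_prime' hd h3 hfix
  have h4 := odd_of_fix_two hH t hne hb hfix
  have h5 : orderOf t = 2 := orderOf_eq_prime (by rw [pow_two]; exact htt) ht1
  rw [h5] at h4
  exact absurd h4 (by decide)

theorem oddStab : OddStab G (G ⧸ H) := by
  refine ⟨fun y b c hbc hb hc => odd_of_fix_two hH y hbc hb hc, ?_⟩
  intro u hu
  classical
  haveI := Fintype.ofFinite (G ⧸ H)
  haveI : Fact (Nat.Prime 2) := ⟨Nat.prime_two⟩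
  have h2 : ¬ 2 ∣ Fintype.card (G ⧸ H) := by
    rw [← Nat.card_eq_fintype_card]
    exact not_two_dvd_card_quotient hH
  have h3 : (MulAction.toPerm u : Equiv.Perm (G ⧸ H)) ^ 2 ^ 1 = 1 := by
    ext b
    simp only [pow_one, pow_two, Equiv.Perm.coe_mul, Function.comp_apply, MulAction.toPerm_apply, Equiv.Perm.coe_one, id_eq]
    rw [← mul_smul, hu, one_smul]
  obtain ⟨b, hb⟩ := Equiv.Perm.exists_fixed_point_of_prime h2 h3
  exact ⟨b, hb⟩

end strong

end Cfsg.Agent.Lib.OddTwoPoint
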