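import Mathlib
import Cfsg.Prelude
import Cfsg.Agent.Lib.OddTwoPoint
import Cfsg.Agent.Lib.SchurZ
import Cfsg.Agent.Lib.H2Basic

/-!
# Groups in which the centraliser of every involution is an elementary abelian 2-group

The Sylow 2-subgroup `T` is not normal. The normaliser `H` of `T` is strongly embedded, and `G` acts on
`G / H` like `PSL(2, 2^n)` on the projective line.
-/

set_option autoImplicit false
set_option linter.all false

namespace Cfsg.Agent.Lib.CitAbelian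

open Subgroup Cfsg MulAction
open Cfsg.Agent.Lib.OddTwoPoint

variable {G : Type*} [Group G] [Finite G] {T : Sylow 2 G}

theorem isPGroup_of_exp {C : Subgroup G} (h : ∀ c ∈ C, c ^ 2 = 1) : IsPGroup 2 C := by
  intro c
  refine ⟨1, ?_⟩
  apply Subtype.ext
  simpa using h c c.2

section
variable (hne : (T : Subgroup G) ≠ ⊥)
  (hC : ∀ t : G, orderOf t = 2 → IsMulCommutative (Subgroup.centralizer ({t} : Set G)) ∧ ∀ c ∈ Subgroup.centralizer ({t} : Set G), c ^ 2 = 1)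

theorem order_two {t : G} (h1 : t * t = 1) (ht : t ≠ 1) : orderOf t = 2 :=
  orderOf_eq_prime (by rw [pow_two]; exact h1) ht

include hC in
theorem centralizer_invol_eq {t : G} (h1 : t * t = 1) (ht : t ≠ 1) (hT : (T : Subgroup G) ≤ centralizer {t}) :
    centralizer {t} = (T : Subgroup G) :=
  T.is_maximal' (isPGroup_of_exp (hC t (order_two h1 ht)).2) hT

include hne hC in
theorem exists_central_invol : ∃ z ∈ (T : Subgroup G), z ≠ 1 ∧ z * z = 1 ∧ ∀ x ∈ (T : Subgroup G), x * z = z * x := by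
  classical
  haveI : Fact (Nat.Prime 2) := ⟨Nat.prime_two⟩
  have hTp : IsPGroup 2 (T : Subgroup G) := T.isPGroup'
  haveI : Nontrivial (T : Subgroup G) := (Subgroup.nontrivial_iff_ne_bot _).2 hne
  have hcn := hTp.center_nontrivial
  have hcp : IsPGroup 2 (center (T : Subgroup G)) := hTp.to_subgroup _
  obtain ⟨n, hn0, hn⟩ := hcp.nontrivial_iff_card.1 hcn
  have h2 : 2 ∣ Nat.card (center (T : Subgroup G)) := by
    rw [hn]; exact dvd_pow_self 2 (Nat.pos_iff_ne_zero.1 hn0)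
  obtain ⟨x, hx⟩ := exists_prime_orderOf_dvd_card' (G := center (T : Subgroup G)) 2 h2
  have hx1 : ((x : (T : Subgroup G)) : G) ≠ 1 := by
    intro h
    have h3 : x = 1 := Subtype.ext (Subtype.ext h)
    rw [h3, orderOf_one] at hx
    omega
  refine ⟨((x : (T : Subgroup G)) : G), (x : (T : Subgroup G)).2, hx1, ?_, ?_⟩
  · have h3 : x ^ 2 = 1 := orderOf_dvd_iff_pow_eq_one.1 (dvd_of_eq hx)
    have h4 : ((x : (T : Subgroup G)) : G) ^ 2 = 1 := by
      have := congrArg (fun y : center (T : Subgroup G) => ((y : (T : Subgroup G)) : G)) h3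
      simpa using this
    rw [← pow_two]; exact h4
  · intro y hy
    have h5 := (Subgroup.mem_center_iff.1 x.2) ⟨y, hy⟩
    exact congrArg Subtype.val h5

include hne hC in
theorem T_mem_centralizer : ∃ z : G, z * z = 1 ∧ z ≠ 1 ∧ centralizer {z} = (T : Subgroup G) := by
  obtain ⟨z, hz, hz1, hzz, hc⟩ := exists_central_invol hne hC
  refine ⟨z, hzz, hz1, centralizer_invol_eq hC hzz hz1 ?_⟩
  intro y hy
  exact Subgroup.mem_centralizer_singleton_iff.2 (hc y hy)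

include hne hC in
theorem T_sq {x : G} (hx : x ∈ (T : Subgroup G)) : x * x = 1 := by
  obtain ⟨z, hzz, hz1, hz⟩ := T_mem_centralizer hne hC
  have h2 := (hC z (order_two hzz hz1)).2 x (by rw [hz]; exact hx)
  rw [← pow_two]; exact h2

include hne hC in
theorem T_comm {x y : G} (hx : x ∈ (T : Subgroup G)) (hy : y ∈ (T : Subgroup G)) : x * y = y * x := by
  have h1 := T_sq hne hC hx
  have h2 := T_sq hne hC hy
  have h3 := T_sq hne hC (Subgroup.mul_mem _ hx hy)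
  have hxi : x⁻¹ = x := inv_eq_of_mul_eq_one_left h1
  have hyi : y⁻¹ = y := inv_eq_of_mul_eq_one_left h2
  have h4 := inv_eq_of_mul_eq_one_left h3
  rw [mul_inv_rev, hxi, hyi] at h4
  exact h4.symm

include hne hC in
theorem centralizer_T {s : G} (hs : s ∈ (T : Subgroup G)) (hs1 : s ≠ 1) : centralizer {s} = (T : Subgroup G) := by
  apply centralizer_invol_eq hC (T_sq hne hC hs) hs1
  intro y hy
  exact Subgroup.mem_centralizer_singleton_iff.2 (T_comm hne hC hy hs)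

include hne hC in
/-- commuting with a nontrivial element of `T` forces membership in `T` -/
theorem mem_T_of_comm {s c : G} (hs : s ∈ (T : Subgroup G)) (hs1 : s ≠ 1) (h : c * s = s * c) : c ∈ (T : Subgroup G) := by
  rw [← centralizer_T hne hC hs hs1]
  exact Subgroup.mem_centralizer_singleton_iff.2 h

abbrev HH (T : Sylow 2 G) : Subgroup G := normalizer ((T : Subgroup G) : Set G)

theorem T_le_H : (T : Subgroup G) ≤ HH T := by
  intro x hx
  refine Subgroup.mem_set_normalizer_iff.2 ?_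
  intro y
  constructor
  · intro hy
    exact Subgroup.mul_mem _ (Subgroup.mul_mem _ hx hy) (Subgroup.inv_mem _ hx)
  · intro hy
    have h1 := Subgroup.mul_mem _ (Subgroup.mul_mem _ (Subgroup.inv_mem _ hx) hy) hx
    have h2 : x⁻¹ * (x * y * x⁻¹) * x = y := by group
    rwa [h2] at h1

theorem conj_mem_T_of_H {h x : G} (hh : h ∈ HH T) (hx : x ∈ (T : Subgroup G)) : h * x * h⁻¹ ∈ (T : Subgroup G) :=
  (Subgroup.mem_set_normalizer_iff.1 hh x).1 hx

/-- involutions of `H` lie in `T` -/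
theorem invol_mem_T {v : G} (hv : v ∈ HH T) (hvv : v * v = 1) : v ∈ (T : Subgroup G) := by
  haveI : Fact (Nat.Prime 2) := ⟨Nat.prime_two⟩
  have hQ : IsPGroup 2 (zpowers v) := by
    apply isPGroup_of_exp
    rintro _ ⟨k, rfl⟩
    show (v ^ k) ^ 2 = 1
    rw [← zpow_natCast, ← zpow_mul, mul_comm, zpow_mul]
    have : v ^ ((2 : ℕ) : ℤ) = 1 := by
      rw [zpow_natCast, pow_two]; exact hvv
    rw [this, one_zpow]
  have hle : zpowers v ≤ normalizer (((T : Subgroup G) : Set G)) := by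
    rw [Subgroup.zpowers_le]
    exact hv
  have h1 := T.is_maximal' (hQ.to_sup_of_normal_right' T.isPGroup' hle) le_sup_right
  have h2 : v ∈ zpowers v ⊔ (T : Subgroup G) := Subgroup.mem_sup_left (mem_zpowers v)
  rw [h1] at h2
  exact h2

include hne hC in
/-- conjugation into `T` forces the normaliser -/
theorem mem_H_of_conj {t g : G} (ht : t ∈ (T : Subgroup G)) (ht1 : t ≠ 1) (h : g⁻¹ * t * g ∈ (T : Subgroup G)) : g ∈ HH T := by
  apply Cfsg.Agent.Lib.H2Basic.mem_normalizer_of_conj_le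
  intro a ha
  apply mem_T_of_comm hne hC ht ht1
  have h1 := T_comm hne hC ha h
  calc g * a * g⁻¹ * t = g * (a * (g⁻¹ * t * g)) * g⁻¹ := by group
    _ = g * ((g⁻¹ * t * g) * a) * g⁻¹ := by rw [h1]
    _ = t * (g * a * g⁻¹) := by group

include hne hC in
theorem stronglyEmbedded (hnn : ¬ (T : Subgroup G).Normal) : IsStronglyEmbedded (HH T) := by
  refine ⟨?_, ?_, ?_⟩
  · intro h
    exact hnn (Subgroup.normalizer_eq_top_iff.1 h)
  · obtain ⟨z, hz, hz1, hzz, -⟩ := exists_central_invol hne hC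
    have h1 : orderOf z = 2 := order_two hzz hz1
    have h2 := Subgroup.orderOf_dvd_natCard (HH T) (T_le_H hz)
    rw [h1] at h2
    exact even_iff_two_dvd.2 h2
  · intro g hg
    by_contra hodd
    rw [Nat.not_odd_iff_even] at hodd
    haveI : Fact (Nat.Prime 2) := ⟨Nat.prime_two⟩
    obtain ⟨x, hx⟩ := exists_prime_orderOf_dvd_card' (G := ↥(HH T ⊓ (HH T).map (MulAut.conj g).toMonoidHom)) 2 (even_iff_two_dvd.1 hodd)
    have hx1 : (x : G) ≠ 1 := by
      intro h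
      have h3 : x = 1 := Subtype.ext h
      rw [h3, orderOf_one] at hx
      omega
    have hxx : (x : G) * x = 1 := by
      have h3 : x ^ 2 = 1 := by rw [← hx]; exact pow_orderOf_eq_one x
      have h4 : (x : G) ^ 2 = 1 := by
        exact_mod_cast congrArg Subtype.val h3
      rw [← pow_two]; exact h4
    obtain ⟨hxH, y, hyH, hye⟩ := x.2
    have hye' : g * y * g⁻¹ = (x : G) := hye
    have hyy : y * y = 1 := by
      have h5 : y = g⁻¹ * (x : G) * g := by rw [← hye']; group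
      rw [h5]
      calc g⁻¹ * (x : G) * g * (g⁻¹ * (x : G) * g) = g⁻¹ * ((x : G) * x) * g := by group
        _ = 1 := by rw [hxx]; group
    have hxT := invol_mem_T hxH hxx
    have hyT := invol_mem_T hyH hyy
    apply hg
    apply mem_H_of_conj hne hC hxT hx1
    have h5 : g⁻¹ * (x : G) * g = y := by rw [← hye']; group
    rw [h5]; exact hyT

/-- the base point -/
abbrev x₀ (T : Sylow 2 G) : G ⧸ HH T := (QuotientGroup.mk 1 : G ⧸ HH T)

theorem fix_x0_iff {g : G} : g • x₀ T = x₀ T ↔ g ∈ HH T := by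
  constructor
  · intro h
    have h1 : (QuotientGroup.mk (g * 1) : G ⧸ HH T) = QuotientGroup.mk 1 := h
    have h2 := QuotientGroup.eq.1 h1
    have h3 := (HH T).inv_mem h2
    simpa using h3
  · intro h
    show (QuotientGroup.mk (g * 1) : G ⧸ HH T) = QuotientGroup.mk 1
    apply QuotientGroup.eq.2
    have h4 := (HH T).inv_mem h
    simpa using h4

include hne hC in
theorem card_invols : Nat.card {s : G // s * s = 1 ∧ s ≠ 1 ∧ s • x₀ T = x₀ T} = Nat.card (T : Subgroup G) - 1 := by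
  classical
  have h1 : Nat.card {s : G // s * s = 1 ∧ s ≠ 1 ∧ s • x₀ T = x₀ T} = Nat.card {s : (T : Subgroup G) // s ≠ 1} := by
    symm
    apply Nat.card_eq_of_bijective (fun s : {s : (T : Subgroup G) // s ≠ 1} =>
      (⟨((s : (T : Subgroup G)) : G), T_sq hne hC (s : (T : Subgroup G)).2,
        fun h => s.2 (Subtype.ext h), fix_x0_iff.2 (T_le_H (s : (T : Subgroup G)).2)⟩ : {s : G // s * s = 1 ∧ s ≠ 1 ∧ s • x₀ T = x₀ T}))
    constructor
    · rintro ⟨⟨s, hs⟩, hs1⟩ ⟨⟨s', hs'⟩, hs1'⟩ h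
      have h2 : s = s' := congrArg Subtype.val h
      subst h2
      rfl
    · rintro ⟨s, hss, hs1, hsx⟩
      have hsT := invol_mem_T (fix_x0_iff.1 hsx) hss
      exact ⟨⟨⟨s, hsT⟩, fun h => hs1 (congrArg Subtype.val h)⟩, rfl⟩
  rw [h1]
  haveI := Fintype.ofFinite (T : Subgroup G)
  rw [Nat.card_eq_fintype_card, Nat.card_eq_fintype_card, Fintype.card_subtype_compl]
  simp

section points
variable (hnn : ¬ (T : Subgroup G).Normal)
include hne hC hnn

theorem oddStabH : OddStab G (G ⧸ HH T) := oddStab (stronglyEmbedded hne hC hnn)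

theorem exists_invol_T : ∃ s ∈ (T : Subgroup G), s ≠ 1 ∧ s * s = 1 := by
  obtain ⟨z, hz, hz1, hzz, -⟩ := exists_central_invol hne hC
  exact ⟨z, hz, hz1, hzz⟩

/-- the swap of the base point with any other point -/
theorem exists_swap_to {y : G ⧸ HH T} (hy : y ≠ x₀ T) :
    ∃ v : G, v * v = 1 ∧ v ≠ 1 ∧ v • x₀ T = y ∧ v • y = x₀ T := by
  have hO := oddStabH hne hC hnn
  obtain ⟨s, hs, hs1, hss⟩ := exists_invol_T hne hC hnn
  induction y using QuotientGroup.induction_on with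
  | H g =>
  have hr : (g * s * g⁻¹) • (QuotientGroup.mk g : G ⧸ HH T) = QuotientGroup.mk g := by
    apply smul_mk_of_mem_conj (stronglyEmbedded hne hC hnn)
    have : g⁻¹ * (g * s * g⁻¹) * g = s := by group
    rw [this]; exact T_le_H hs
  obtain ⟨v, hvv, hv1, h1, h2, -, -⟩ := exists_swap_between hO (x := x₀ T) (y := (QuotientGroup.mk g : G ⧸ HH T)) (Ne.symm hy) hss hs1 (fix_x0_iff.2 (T_le_H hs))
    (r' := g * s * g⁻¹)
    (by
      calc g * s * g⁻¹ * (g * s * g⁻¹) = g * (s * s) * g⁻¹ := by group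
        _ = 1 := by rw [hss]; group)
    (by
      intro h
      apply hs1
      have : s = g⁻¹ * (g * s * g⁻¹) * g := by group
      rw [this, h]; group) hr
  exact ⟨v, hvv, hv1, h1, h2⟩

section inv
variable {v : G} (hvv : v * v = 1) (hvx : v • x₀ T ≠ x₀ T)
include hvv hvx

theorem odd_DD {d : G} (hd : d ∈ stabilizer G (x₀ T) ⊓ stabilizer G (v • x₀ T)) : Odd (orderOf d) :=
  odd_orderOf_mem_D (oddStabH hne hC hnn) hvv hvx hd

theorem DD_inf_T {d : G} (hd : d ∈ stabilizer G (x₀ T) ⊓ stabilizer G (v • x₀ T)) (hdT : d ∈ (T : Subgroup G)) : d = 1 := by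
  by_contra hd1
  have h1 : orderOf d = 2 := order_two (T_sq hne hC hdT) hd1
  have h2 := odd_DD hne hC hnn hvv hvx hd
  rw [h1] at h2
  exact absurd h2 (by decide)

/-- `D` is inverted by `v`, and has order `|T| - 1` -/
theorem DD_main : (∀ d ∈ stabilizer G (x₀ T) ⊓ stabilizer G (v • x₀ T), v * d * v⁻¹ = d⁻¹) ∧
    Nat.card ↥(stabilizer G (x₀ T) ⊓ stabilizer G (v • x₀ T)) = Nat.card (T : Subgroup G) - 1 := by
  classical
  have hO := oddStabH hne hC hnn
  obtain ⟨s, hs, hs1, hss⟩ := exists_invol_T hne hC hnn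
  have hsx : s • x₀ T = x₀ T := fix_x0_iff.2 (T_le_H hs)
  have hcK := card_inverted hO hvv hvx hsx hs1 hss
  have hcI := card_invols (T := T) hne hC
  rw [hcI] at hcK
  -- injective map from `D`
  have hinj : Nat.card ↥(stabilizer G (x₀ T) ⊓ stabilizer G (v • x₀ T)) ≤ Nat.card {s : G // s * s = 1 ∧ s ≠ 1 ∧ s • x₀ T = x₀ T} := by
    have hmem : ∀ k : ↥(stabilizer G (x₀ T) ⊓ stabilizer G (v • x₀ T)),
        (k : G)⁻¹ * s * k * ((k : G)⁻¹ * s * k) = 1 ∧ (k : G)⁻¹ * s * k ≠ 1 ∧ ((k : G)⁻¹ * s * k) • x₀ T = x₀ T := by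
      rintro ⟨k, hk⟩
      refine ⟨?_, ?_, ?_⟩
      · show k⁻¹ * s * k * (k⁻¹ * s * k) = 1
        calc k⁻¹ * s * k * (k⁻¹ * s * k) = k⁻¹ * (s * s) * k := by group
          _ = 1 := by rw [hss]; group
      · intro h
        apply hs1
        have h' : k⁻¹ * s * k = 1 := h
        have : s = k * (k⁻¹ * s * k) * k⁻¹ := by group
        rw [this, h']; group
      · exact Subgroup.mul_mem _ (Subgroup.mul_mem _ (Subgroup.inv_mem _ hk.1) hsx) hk.1
    apply Nat.card_le_card_of_injective (fun k : ↥(stabilizer G (x₀ T) ⊓ stabilizer G (v • x₀ T)) =>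
      (⟨(k : G)⁻¹ * s * k, hmem k⟩ : {s : G // s * s = 1 ∧ s ≠ 1 ∧ s • x₀ T = x₀ T}))
    rintro ⟨k, hk⟩ ⟨k', hk'⟩ h
    have h1 : k⁻¹ * s * k = k'⁻¹ * s * k' := congrArg Subtype.val h
    have h2 : (k' * k⁻¹) * s = s * (k' * k⁻¹) := by
      calc (k' * k⁻¹) * s = k' * (k⁻¹ * s * k) * k⁻¹ := by group
        _ = k' * (k'⁻¹ * s * k') * k⁻¹ := by rw [h1]
        _ = s * (k' * k⁻¹) := by group
    have h3 := mem_T_of_comm hne hC hs hs1 h2
    have h4 := DD_inf_T hne hC hnn hvv hvx (Subgroup.mul_mem _ hk' (Subgroup.inv_mem _ hk)) h3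
    apply Subtype.ext
    show k = k'
    have h5 : k' = (k' * k⁻¹) * k := by group
    rw [h5, h4, one_mul]
  rw [hcI] at hinj
  -- the inverted set is everything
  have hsub : invertedBy (stabilizer G (x₀ T) ⊓ stabilizer G (v • x₀ T)) v ⊆ ((stabilizer G (x₀ T) ⊓ stabilizer G (v • x₀ T) : Subgroup G) : Set G) :=
    fun k hk => hk.1
  have hle : Nat.card (invertedBy (stabilizer G (x₀ T) ⊓ stabilizer G (v • x₀ T)) v) ≤ Nat.card ↥(stabilizer G (x₀ T) ⊓ stabilizer G (v • x₀ T)) := by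
    rw [Nat.card_coe_set_eq, show Nat.card ↥(stabilizer G (x₀ T) ⊓ stabilizer G (v • x₀ T)) = (((stabilizer G (x₀ T) ⊓ stabilizer G (v • x₀ T) : Subgroup G) : Set G)).ncard from Nat.card_coe_set_eq _]
    exact Set.ncard_le_ncard hsub (Set.toFinite _)
  have hcard : Nat.card ↥(stabilizer G (x₀ T) ⊓ stabilizer G (v • x₀ T)) = Nat.card (T : Subgroup G) - 1 := by
    omega
  refine ⟨?_, hcard⟩
  have heq : invertedBy (stabilizer G (x₀ T) ⊓ stabilizer G (v • x₀ T)) v = ((stabilizer G (x₀ T) ⊓ stabilizer G (v • x₀ T) : Subgroup G) : Set G) := by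
    apply Set.eq_of_subset_of_ncard_le hsub _ (Set.toFinite _)
    rw [← Nat.card_coe_set_eq, ← Nat.card_coe_set_eq]
    show Nat.card ↥(stabilizer G (x₀ T) ⊓ stabilizer G (v • x₀ T)) ≤ _
    omega
  intro d hd
  have h1 : d ∈ invertedBy (stabilizer G (x₀ T) ⊓ stabilizer G (v • x₀ T)) v := by
    rw [heq]; exact hd
  exact h1.2

theorem DD_inv {d : G} (hd : d ∈ stabilizer G (x₀ T) ⊓ stabilizer G (v • x₀ T)) : v * d * v⁻¹ = d⁻¹ :=
  (DD_main hne hC hnn hvv hvx).1 d hd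

theorem DD_card : Nat.card ↥(stabilizer G (x₀ T) ⊓ stabilizer G (v • x₀ T)) = Nat.card (T : Subgroup G) - 1 :=
  (DD_main hne hC hnn hvv hvx).2

theorem DD_comm {d d' : G} (hd : d ∈ stabilizer G (x₀ T) ⊓ stabilizer G (v • x₀ T))
    (hd' : d' ∈ stabilizer G (x₀ T) ⊓ stabilizer G (v • x₀ T)) : d * d' = d' * d := by
  have h1 := DD_inv hne hC hnn hvv hvx (Subgroup.mul_mem _ hd hd')
  have h2 := DD_inv hne hC hnn hvv hvx hd
  have h3 := DD_inv hne hC hnn hvv hvx hd'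
  have h4 : v * (d * d') * v⁻¹ = (v * d * v⁻¹) * (v * d' * v⁻¹) := by group
  rw [h4, h2, h3, mul_inv_rev] at h1
  -- `d⁻¹ * d'⁻¹ = d'⁻¹ * d⁻¹`
  have h5 := congrArg (fun z => z⁻¹) h1
  simp only [mul_inv_rev, inv_inv] at h5
  exact h5.symm

/-- `H = D T` -/
theorem H_factor {h : G} (hh : h ∈ HH T) : ∃ d ∈ stabilizer G (x₀ T) ⊓ stabilizer G (v • x₀ T), ∃ τ ∈ (T : Subgroup G), h = d * τ := by
  have hO := oddStabH hne hC hnn
  obtain ⟨s, hs, hs1, hss⟩ := exists_invol_T hne hC hnn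
  have hsx : s • x₀ T = x₀ T := fix_x0_iff.2 (T_le_H hs)
  have hts : h * s * h⁻¹ ∈ (T : Subgroup G) := conj_mem_T_of_H hh hs
  have hts1 : h * s * h⁻¹ ≠ 1 := by
    intro h'
    apply hs1
    have : s = h⁻¹ * (h * s * h⁻¹) * h := by group
    rw [this, h']; group
  obtain ⟨k, hk, hke⟩ := exists_inverted_conj hO hvv hvx hsx hs1 hss (fix_x0_iff.2 (T_le_H hts)) hts1 (T_sq hne hC hts)
  have h1 : (k * h) * s = s * (k * h) := by
    calc (k * h) * s = k * (h * s * h⁻¹) * h := by group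
      _ = k * (k⁻¹ * s * k) * h := by rw [hke]
      _ = s * (k * h) := by group
  have h2 := mem_T_of_comm hne hC hs hs1 h1
  refine ⟨k⁻¹, Subgroup.inv_mem _ hk.1, k * h, h2, by group⟩

theorem DD_le_H {d : G} (hd : d ∈ stabilizer G (x₀ T) ⊓ stabilizer G (v • x₀ T)) : d ∈ HH T :=
  fix_x0_iff.1 hd.1

/-- `D` is self-normalising in `H` -/
theorem norm_H (hD : ∃ d ∈ stabilizer G (x₀ T) ⊓ stabilizer G (v • x₀ T), d ≠ 1) {g : G} (hg : g ∈ HH T)
    (hgn : ∀ d ∈ stabilizer G (x₀ T) ⊓ stabilizer G (v • x₀ T), g * d * g⁻¹ ∈ stabilizer G (x₀ T) ⊓ stabilizer G (v • x₀ T)) :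
    g ∈ stabilizer G (x₀ T) ⊓ stabilizer G (v • x₀ T) := by
  obtain ⟨d₀, hd₀, τ, hτ, rfl⟩ := H_factor hne hC hnn hvv hvx hg
  have hτn : ∀ d ∈ stabilizer G (x₀ T) ⊓ stabilizer G (v • x₀ T), τ * d * τ⁻¹ ∈ stabilizer G (x₀ T) ⊓ stabilizer G (v • x₀ T) := by
    intro d hd
    have h1 := hgn d hd
    have h2 := Subgroup.mul_mem _ (Subgroup.mul_mem _ (Subgroup.inv_mem _ hd₀) h1) hd₀
    have h3 : d₀⁻¹ * (d₀ * τ * d * (d₀ * τ)⁻¹) * d₀ = τ * d * τ⁻¹ := by group
    rwa [h3] at h2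
  by_cases hτ1 : τ = 1
  · rw [hτ1, mul_one]; exact hd₀
  exfalso
  obtain ⟨d, hd, hd1⟩ := hD
  have hc : τ * d * τ⁻¹ * d⁻¹ = 1 := by
    apply DD_inf_T hne hC hnn hvv hvx
    · exact Subgroup.mul_mem _ (hτn d hd) (Subgroup.inv_mem _ hd)
    · have h1 : d * τ⁻¹ * d⁻¹ ∈ (T : Subgroup G) := conj_mem_T_of_H (DD_le_H hne hC hnn hvv hvx hd) (Subgroup.inv_mem _ hτ)
      have h2 : τ * d * τ⁻¹ * d⁻¹ = τ * (d * τ⁻¹ * d⁻¹) := by group
      rw [h2]
      exact Subgroup.mul_mem _ hτ h1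
  have h3 : d * τ = τ * d := by
    have h4 : τ * d = (τ * d * τ⁻¹ * d⁻¹) * (d * τ) := by group
    rw [h4, hc, one_mul]
  have h5 := mem_T_of_comm hne hC hτ hτ1 h3
  exact hd1 (DD_inf_T hne hC hnn hvv hvx hd h5)

/-- if `v`-stabiliser `D` fixes `y`, the stabilisers agree -/
theorem DD_eq_of_fix {w : G} (hww : w * w = 1) (hwx : w • x₀ T ≠ x₀ T)
    (h : ∀ d ∈ stabilizer G (x₀ T) ⊓ stabilizer G (v • x₀ T), d • (w • x₀ T) = w • x₀ T) :
    stabilizer G (x₀ T) ⊓ stabilizer G (v • x₀ T) = stabilizer G (x₀ T) ⊓ stabilizer G (w • x₀ T) := by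
  apply Subgroup.eq_of_le_of_card_ge
  · intro d hd
    exact ⟨hd.1, h d hd⟩
  · rw [DD_card hne hC hnn hvv hvx, DD_card hne hC hnn hww hwx]

/-- The fixed points of `D`: only the base point and its image under `v` -/
theorem fix_DD (hD : ∃ d ∈ stabilizer G (x₀ T) ⊓ stabilizer G (v • x₀ T), d ≠ 1) {y : G ⧸ HH T} (hy : y ≠ x₀ T)
    (hfix : ∀ d ∈ stabilizer G (x₀ T) ⊓ stabilizer G (v • x₀ T), d • y = y) : y = v • x₀ T := by
  have hinv := fun {d : G} (hd : d ∈ stabilizer G (x₀ T) ⊓ stabilizer G (v • x₀ T)) => DD_inv hne hC hnn hvv hvx hd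
  have hvi : v⁻¹ = v := inv_eq_of_mul_eq_one_left hvv
  obtain ⟨w, hww, hw1, hwx, hwy⟩ := exists_swap_to hne hC hnn hy
  have hwi : w⁻¹ = w := inv_eq_of_mul_eq_one_left hww
  have hwne : w • x₀ T ≠ x₀ T := by rw [hwx]; exact hy
  have heq := DD_eq_of_fix hne hC hnn hvv hvx hww hwne (by rw [hwx]; exact hfix)
  have hwinv : ∀ d ∈ stabilizer G (x₀ T) ⊓ stabilizer G (v • x₀ T), w * d * w⁻¹ = d⁻¹ := by
    intro d hd
    rw [heq] at hd
    exact DD_inv hne hC hnn hww hwne hd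
  obtain ⟨g, hg⟩ : ∃ g, g = w * v := ⟨_, rfl⟩
  have hgc : ∀ d ∈ stabilizer G (x₀ T) ⊓ stabilizer G (v • x₀ T), g * d * g⁻¹ = d := by
    intro d hd
    have h1 := hinv hd
    have h2 := hwinv d hd
    rw [hg]
    calc w * v * d * (w * v)⁻¹ = w * (v * d * v⁻¹) * w⁻¹ := by group
      _ = w * d⁻¹ * w⁻¹ := by rw [h1]
      _ = (w * d * w⁻¹)⁻¹ := by group
      _ = d := by rw [h2, inv_inv]
  by_cases hgx : g • x₀ T = x₀ T
  · have hgH := fix_x0_iff.1 hgx
    have hgD := norm_H hne hC hnn hvv hvx hD hgH (fun d hd => by rw [hgc d hd]; exact hd)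
    have h1 : g • (v • x₀ T) = v • x₀ T := hgD.2
    rw [hg, mul_smul, ← mul_smul v v, hvv, one_smul, hwx] at h1
    exact h1
  · exfalso
    -- the second swap
    have hy2 : ∀ d ∈ stabilizer G (x₀ T) ⊓ stabilizer G (v • x₀ T), d • (g • x₀ T) = g • x₀ T := by
      intro d hd
      have h1 := hgc d hd
      have h2 : d * g = g * d := by
        calc d * g = (g * d * g⁻¹) * g := by rw [h1]
          _ = g * d := by group
      rw [← mul_smul, h2, mul_smul, show d • x₀ T = x₀ T from hd.1]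
    obtain ⟨w₂, hw₂w₂, hw₂1, hw₂x, hw₂y⟩ := exists_swap_to hne hC hnn hgx
    have hw₂i : w₂⁻¹ = w₂ := inv_eq_of_mul_eq_one_left hw₂w₂
    have hw₂ne : w₂ • x₀ T ≠ x₀ T := by rw [hw₂x]; exact hgx
    have heq₂ := DD_eq_of_fix hne hC hnn hvv hvx hw₂w₂ hw₂ne (by rw [hw₂x]; exact hy2)
    have hw₂inv : ∀ d ∈ stabilizer G (x₀ T) ⊓ stabilizer G (v • x₀ T), w₂ * d * w₂⁻¹ = d⁻¹ := by
      intro d hd
      rw [heq₂] at hd
      exact DD_inv hne hC hnn hw₂w₂ hw₂ne hd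
    obtain ⟨q, hq⟩ : ∃ q, q = w₂ * g := ⟨_, rfl⟩
    have hqx : q • x₀ T = x₀ T := by
      rw [hq, mul_smul, hw₂y]
    have hqe : ∀ d ∈ stabilizer G (x₀ T) ⊓ stabilizer G (v • x₀ T), q * d * q⁻¹ = d⁻¹ := by
      intro d hd
      rw [hq]
      calc w₂ * g * d * (w₂ * g)⁻¹ = w₂ * (g * d * g⁻¹) * w₂⁻¹ := by group
        _ = w₂ * d * w₂⁻¹ := by rw [hgc d hd]
        _ = d⁻¹ := hw₂inv d hd
    have hqD := norm_H hne hC hnn hvv hvx hD (fix_x0_iff.1 hqx) (fun d hd => by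
      rw [hqe d hd]; exact Subgroup.inv_mem _ hd)
    obtain ⟨d, hd, hd1⟩ := hD
    have h1 := hqe d hd
    have h2 := DD_comm hne hC hnn hvv hvx hqD hd
    have h3 : q * d * q⁻¹ = d := by
      rw [h2]; group
    rw [h3] at h1
    have h4 : d ^ 2 = 1 := by
      rw [pow_two]
      calc d * d = d * d⁻¹ := by rw [← h1]
        _ = 1 := by group
    have h5 := odd_DD hne hC hnn hvv hvx hd
    have h6 : orderOf d ∣ 2 := orderOf_dvd_of_pow_eq_one h4
    obtain ⟨k, hk⟩ := h5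
    have h7 : orderOf d = 1 := by
      have := Nat.le_of_dvd (by norm_num) h6
      interval_cases h : orderOf d
      · omega
      · rfl
      · omega
    exact hd1 (orderOf_eq_one_iff.1 h7)

/-- `T` is transitive on the points other than the base point -/
theorem exists_T_smul (hD : ∃ d ∈ stabilizer G (x₀ T) ⊓ stabilizer G (v • x₀ T), d ≠ 1) {y : G ⧸ HH T} (hy : y ≠ x₀ T) :
    ∃ τ ∈ (T : Subgroup G), τ • (v • x₀ T) = y := by
  obtain ⟨w, hww, hw1, hwx, hwy⟩ := exists_swap_to hne hC hnn hy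
  have hwne : w • x₀ T ≠ x₀ T := by rw [hwx]; exact hy
  have hDw : ∃ d ∈ stabilizer G (x₀ T) ⊓ stabilizer G (w • x₀ T), d ≠ 1 := by
    by_contra hcon
    push Not at hcon
    have h1 : stabilizer G (x₀ T) ⊓ stabilizer G (w • x₀ T) = ⊥ := (Subgroup.eq_bot_iff_forall _).2 hcon
    have h2 := DD_card hne hC hnn hww hwne
    rw [h1, Subgroup.card_bot] at h2
    have h3 := DD_card hne hC hnn hvv hvx
    rw [← h2] at h3
    obtain ⟨d, hd, hd1⟩ := hD
    have h4 : stabilizer G (x₀ T) ⊓ stabilizer G (v • x₀ T) = ⊥ := Subgroup.card_eq_one.1 h3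
    rw [h4] at hd
    exact hd1 hd
  have hsolv : Group.IsSolvable (T : Subgroup G) ∨ Group.IsSolvable ↥(stabilizer G (x₀ T) ⊓ stabilizer G (v • x₀ T)) := by
    left
    haveI : Fact (Nat.Prime 2) := ⟨Nat.prime_two⟩
    haveI := T.isPGroup'.isNilpotent
    infer_instance
  have hcop : Nat.Coprime (Nat.card (T : Subgroup G)) (Nat.card ↥(stabilizer G (x₀ T) ⊓ stabilizer G (v • x₀ T))) := by
    rw [DD_card hne hC hnn hvv hvx]
    have h1 : 0 < Nat.card (T : Subgroup G) := Nat.card_pos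
    obtain ⟨m, hm⟩ : ∃ m, Nat.card (T : Subgroup G) = m + 1 := ⟨Nat.card (T : Subgroup G) - 1, by omega⟩
    rw [hm]
    simp
  obtain ⟨n, hn, hnD⟩ := Cfsg.Agent.Lib.SchurZ.sz_conj_ambient (T : Subgroup G) (stabilizer G (x₀ T) ⊓ stabilizer G (v • x₀ T))
    (stabilizer G (x₀ T) ⊓ stabilizer G (w • x₀ T))
    (fun d hd => DD_le_H hne hC hnn hvv hvx hd)
    (by
      intro d hd
      obtain ⟨d', hd', τ, hτ, rfl⟩ := H_factor hne hC hnn hvv hvx (DD_le_H hne hC hnn hww hwne hd)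
      exact Subgroup.mul_mem _ (Subgroup.mem_sup_right hd') (Subgroup.mem_sup_left hτ))
    (by rw [DD_card hne hC hnn hvv hvx, DD_card hne hC hnn hww hwne]) hcop hsolv
  refine ⟨n, hn, ?_⟩
  rw [← hwx]
  apply fix_DD hne hC hnn hww hwne hDw
  · intro h
    apply hvx
    have h1 : n • x₀ T = x₀ T := fix_x0_iff.2 (T_le_H hn)
    have h2 : n • (v • x₀ T) = n • x₀ T := by rw [h, h1]
    exact smul_left_cancel n h2
  · intro d hd
    rw [← hnD] at hd
    obtain ⟨d', hd', rfl⟩ := hd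
    show (n * d' * n⁻¹) • (n • v • x₀ T) = n • v • x₀ T
    rw [mul_smul, mul_smul, inv_smul_smul, show d' • (v • x₀ T) = v • x₀ T from hd'.2]

/-- an element fixing the base point, its image and a third point is trivial -/
theorem fix_three (hD : ∃ d ∈ stabilizer G (x₀ T) ⊓ stabilizer G (v • x₀ T), d ≠ 1) {g : G} {p : G ⧸ HH T}
    (h1 : g • x₀ T = x₀ T) (h2 : g • (v • x₀ T) = v • x₀ T) (h3 : g • p = p) (hp1 : p ≠ x₀ T) (hp2 : p ≠ v • x₀ T) : g = 1 := by
  obtain ⟨τ, hτ, rfl⟩ := exists_T_smul hne hC hnn hvv hvx hD hp1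
  have hτ1 : τ ≠ 1 := by
    rintro rfl
    rw [one_smul] at hp2
    exact hp2 rfl
  have hgH := fix_x0_iff.1 h1
  have hτx : τ • x₀ T = x₀ T := fix_x0_iff.2 (T_le_H hτ)
  have hτix : τ⁻¹ • x₀ T = x₀ T := by
    conv_lhs => rw [← hτx]
    exact inv_smul_smul τ _
  have hdD : τ⁻¹ * g * τ ∈ stabilizer G (x₀ T) ⊓ stabilizer G (v • x₀ T) := by
    constructor
    · show (τ⁻¹ * g * τ) • x₀ T = x₀ T
      rw [mul_smul, mul_smul, hτx, h1, hτix]
    · show (τ⁻¹ * g * τ) • (v • x₀ T) = v • x₀ T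
      rw [mul_smul, mul_smul, h3, inv_smul_smul]
  have hgD : g ∈ stabilizer G (x₀ T) ⊓ stabilizer G (v • x₀ T) := ⟨h1, h2⟩
  have hc : g * (τ⁻¹ * g * τ)⁻¹ = 1 := by
    apply DD_inf_T hne hC hnn hvv hvx (Subgroup.mul_mem _ hgD (Subgroup.inv_mem _ hdD))
    have h4 : g * τ⁻¹ * g⁻¹ ∈ (T : Subgroup G) := conj_mem_T_of_H hgH (Subgroup.inv_mem _ hτ)
    have h5 : g * (τ⁻¹ * g * τ)⁻¹ = (g * τ⁻¹ * g⁻¹) * τ := by group
    rw [h5]
    exact Subgroup.mul_mem _ h4 hτ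
  have h6 : g = τ⁻¹ * g * τ := mul_inv_eq_one.1 hc
  have h7 : g * τ = τ * g := by
    calc g * τ = τ * (τ⁻¹ * g * τ) := by group
      _ = τ * g := by rw [← h6]
  have h8 := mem_T_of_comm hne hC hτ hτ1 h7
  exact DD_inf_T hne hC hnn hvv hvx hgD h8

/-- `D` is transitive on the remaining points -/
theorem exists_D_smul (hD : ∃ d ∈ stabilizer G (x₀ T) ⊓ stabilizer G (v • x₀ T), d ≠ 1) {p q : G ⧸ HH T}
    (hp1 : p ≠ x₀ T) (hp2 : p ≠ v • x₀ T) (hq1 : q ≠ x₀ T) (hq2 : q ≠ v • x₀ T) :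
    ∃ d ∈ stabilizer G (x₀ T) ⊓ stabilizer G (v • x₀ T), d • p = q := by
  have hO := oddStabH hne hC hnn
  obtain ⟨τ, hτ, rfl⟩ := exists_T_smul hne hC hnn hvv hvx hD hp1
  obtain ⟨τ', hτ', rfl⟩ := exists_T_smul hne hC hnn hvv hvx hD hq1
  have hτ1 : τ ≠ 1 := by
    rintro rfl
    rw [one_smul] at hp2
    exact hp2 rfl
  have hτ1' : τ' ≠ 1 := by
    rintro rfl
    rw [one_smul] at hq2
    exact hq2 rfl
  obtain ⟨k, hk, hke⟩ := exists_inverted_conj hO hvv hvx (fix_x0_iff.2 (T_le_H hτ)) hτ1 (T_sq hne hC hτ) (fix_x0_iff.2 (T_le_H hτ')) hτ1' (T_sq hne hC hτ')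
  refine ⟨k⁻¹, Subgroup.inv_mem _ hk.1, ?_⟩
  rw [← hke]
  have h2 : k • (v • x₀ T) = v • x₀ T := hk.1.2
  calc k⁻¹ • τ • v • x₀ T = (k⁻¹ * τ) • v • x₀ T := by rw [mul_smul]
    _ = (k⁻¹ * τ) • k • v • x₀ T := by rw [h2]
    _ = (k⁻¹ * τ * k) • v • x₀ T := by rw [← mul_smul]

end inv

end points

theorem ne_bot_of_not_cyclic (hnc : ¬ IsCyclic (T : Subgroup G)) : (T : Subgroup G) ≠ ⊥ := by
  intro h
  apply hnc
  rw [h]
  infer_instance

include hne in
theorem card_gt_two (hnc : ¬ IsCyclic (T : Subgroup G)) : 2 < Nat.card (T : Subgroup G) := by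
  by_contra h
  have h1 : Nat.card (T : Subgroup G) ≠ 1 := by
    intro h2
    exact hne (Subgroup.card_eq_one.1 h2)
  have h2 : 0 < Nat.card (T : Subgroup G) := Nat.card_pos
  have h3 : Nat.card (T : Subgroup G) = 2 := by omega
  haveI : Fact (Nat.Prime (Nat.card (T : Subgroup G))) := ⟨by rw [h3]; exact Nat.prime_two⟩
  exact hnc (isCyclic_of_prime_card rfl)

theorem DD_ne_one (hnn : ¬ (T : Subgroup G).Normal) (hne : (T : Subgroup G) ≠ ⊥)
    (hC : ∀ t : G, orderOf t = 2 → IsMulCommutative (Subgroup.centralizer ({t} : Set G)) ∧ ∀ c ∈ Subgroup.centralizer ({t} : Set G), c ^ 2 = 1)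
    (hnc : ¬ IsCyclic (T : Subgroup G)) {v : G} (hvv : v * v = 1) (hvx : v • x₀ T ≠ x₀ T) :
    ∃ d ∈ stabilizer G (x₀ T) ⊓ stabilizer G (v • x₀ T), d ≠ 1 := by
  by_contra hcon
  push Not at hcon
  have h1 : stabilizer G (x₀ T) ⊓ stabilizer G (v • x₀ T) = ⊥ := (Subgroup.eq_bot_iff_forall _).2 hcon
  have h2 := DD_card hne hC hnn hvv hvx
  rw [h1, Subgroup.card_bot] at h2
  have h3 := card_gt_two hne hnc
  omega

/-- the two-point stabiliser in terms of the subgroup itself -/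
theorem DD_eq (u : G) : HH T ⊓ (HH T).map (MulAut.conj u).toMonoidHom = stabilizer G (x₀ T) ⊓ stabilizer G (u • x₀ T) := by
  ext d
  constructor
  · rintro ⟨h1, y, hy, rfl⟩
    refine ⟨fix_x0_iff.2 h1, ?_⟩
    show (u * y * u⁻¹) • (u • x₀ T) = u • x₀ T
    rw [mul_smul, mul_smul, inv_smul_smul, fix_x0_iff.2 hy]
  · rintro ⟨h1, h2⟩
    refine ⟨fix_x0_iff.1 h1, u⁻¹ * d * u, ?_, ?_⟩
    · apply fix_x0_iff.1
      have h2' : d • (u • x₀ T) = u • x₀ T := h2
      rw [mul_smul, mul_smul, h2', inv_smul_smul]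
    · show u * (u⁻¹ * d * u) * u⁻¹ = d
      group

end

end Cfsg.Agent.Lib.CitAbelian
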