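import Cfsg.Agent.Lib.ConjCover
import Cfsg.Agent.Lib.H5Basic

/-! # Primary parts of elements, centralizers of products, covers by conjugates -/

set_option linter.all false

namespace Cfsg.Agent.Lib.ClassParts

open Cfsg.Agent.Lib.ConjFamily Cfsg.Agent.Lib.ConjCover

variable {G : Type*} [Group G] [Finite G]

/-- Splitting an element into a `p`-part and a `p'`-part. -/
theorem exists_parts (x : G) {p : ℕ} (hp : p.Prime) :
    ∃ a b : G, x = a * b ∧ a ∈ Subgroup.zpowers x ∧ b ∈ Subgroup.zpowers x ∧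
      (∃ k : ℕ, a ^ p ^ k = 1) ∧ (∃ n : ℕ, ¬ p ∣ n ∧ b ^ n = 1) := by
  have hn : orderOf x ≠ 0 := (orderOf_pos x).ne'
  obtain ⟨e, m, hm, hnm⟩ := Nat.exists_eq_pow_mul_and_not_dvd hn p hp.ne_one
  have hcop : Nat.Coprime (p ^ e) m := Nat.Coprime.pow_left _ ((Nat.Prime.coprime_iff_not_dvd hp).2 hm)
  have hbez := Nat.gcd_eq_gcd_ab (p ^ e) m
  rw [hcop.gcd_eq_one] at hbez
  set A := Nat.gcdA (p ^ e) m
  set B := Nat.gcdB (p ^ e) m
  have hpow : x ^ ((p ^ e * m : ℕ) : ℤ) = 1 := by
    rw [zpow_natCast, ← hnm, pow_orderOf_eq_one]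
  refine ⟨x ^ ((m : ℤ) * B), x ^ (((p ^ e : ℕ) : ℤ) * A), ?_, Subgroup.zpow_mem_zpowers _ _,
    Subgroup.zpow_mem_zpowers _ _, ⟨e, ?_⟩, ⟨m, hm, ?_⟩⟩
  · rw [← zpow_add]
    have : (m : ℤ) * B + ((p ^ e : ℕ) : ℤ) * A = 1 := by
      have h := hbez
      push_cast at h ⊢
      linarith
    rw [this, zpow_one]
  · rw [← zpow_natCast, ← zpow_mul]
    have : (m : ℤ) * B * ((p ^ e : ℕ) : ℤ) = ((p ^ e * m : ℕ) : ℤ) * B := by
      push_cast; ring
    rw [this, zpow_mul, hpow, one_zpow]
  · rw [← zpow_natCast, ← zpow_mul]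
    have : ((p ^ e : ℕ) : ℤ) * A * (m : ℤ) = ((p ^ e * m : ℕ) : ℤ) * A := by
      push_cast; ring
    rw [this, zpow_mul, hpow, one_zpow]

theorem commute_of_mem_zpowers {x a b : G} (ha : a ∈ Subgroup.zpowers x) (hb : b ∈ Subgroup.zpowers x) :
    Commute a b := by
  obtain ⟨i, rfl⟩ := Subgroup.mem_zpowers_iff.1 ha
  obtain ⟨j, rfl⟩ := Subgroup.mem_zpowers_iff.1 hb
  exact (Commute.refl x).zpow_zpow i j

/-- The centralizer of a product of commuting elements of coprime orders. -/
theorem centralizer_mul {x y : G} (hxy : Commute x y) (hc : (orderOf x).Coprime (orderOf y)) :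
    Subgroup.centralizer ({x * y} : Set G) =
      Subgroup.centralizer ({x} : Set G) ⊓ Subgroup.centralizer ({y} : Set G) := by
  apply le_antisymm
  · intro z hz
    have hz' : z * (x * y) = (x * y) * z := Subgroup.mem_centralizer_singleton_iff.1 hz
    have hcomm : Commute z (x * y) := hz'
    let c := Nat.chineseRemainder hc 1 0
    have h1 : (c : ℕ) ≡ 1 [MOD orderOf x] := c.2.1
    have h2 : (c : ℕ) ≡ 0 [MOD orderOf y] := c.2.2
    let d := Nat.chineseRemainder hc 0 1
    have h3 : (d : ℕ) ≡ 0 [MOD orderOf x] := d.2.1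
    have h4 : (d : ℕ) ≡ 1 [MOD orderOf y] := d.2.2
    have hx : (x * y) ^ (c : ℕ) = x := by
      rw [hxy.mul_pow, pow_eq_pow_iff_modEq.2 h1, pow_eq_pow_iff_modEq.2 h2]
      simp
    have hy : (x * y) ^ (d : ℕ) = y := by
      rw [hxy.mul_pow, pow_eq_pow_iff_modEq.2 h3, pow_eq_pow_iff_modEq.2 h4]
      simp
    refine Subgroup.mem_inf.2 ⟨Subgroup.mem_centralizer_singleton_iff.2 ?_, Subgroup.mem_centralizer_singleton_iff.2 ?_⟩
    · have := hcomm.pow_right (c : ℕ)
      rw [hx] at this
      exact this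
    · have := hcomm.pow_right (d : ℕ)
      rw [hy] at this
      exact this
  · intro z hz
    have h1 := Subgroup.mem_centralizer_singleton_iff.1 (Subgroup.mem_inf.1 hz).1
    have h2 := Subgroup.mem_centralizer_singleton_iff.1 (Subgroup.mem_inf.1 hz).2
    rw [Subgroup.mem_centralizer_singleton_iff]
    have c1 : Commute z x := h1
    have c2 : Commute z y := h2
    exact c1.mul_right c2

/-- Jordan: a finite group is not the union of the conjugates of a proper subgroup. -/
theorem eq_top_of_forall_mem_U (M : Subgroup G) (h : ∀ z : G, z ∈ U M) : M = ⊤ := by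
  by_contra hne
  have huniv : U M = Set.univ := Set.eq_univ_of_forall h
  have h1 := ncard_U_le M
  rw [huniv, Set.ncard_univ] at h1
  have hMN : M ≤ Subgroup.normalizer (M : Set G) := Subgroup.le_normalizer
  have h2 : (Subgroup.normalizer (M : Set G)).index ≤ M.index :=
    Nat.le_of_dvd (Nat.pos_of_ne_zero Subgroup.index_ne_zero_of_finite) (Subgroup.index_dvd_of_le hMN)
  have hMpos : 0 < Nat.card M := Nat.card_pos
  have h3 : M.index * Nat.card M = Nat.card G := Subgroup.index_mul_card M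
  have h4 : 2 ≤ M.index := by
    have h5 : M.index ≠ 0 := Subgroup.index_ne_zero_of_finite
    have h6 : M.index ≠ 1 := fun h => hne (Subgroup.index_eq_one.1 h)
    omega
  have h7 : (Subgroup.normalizer (M : Set G)).index * (Nat.card M - 1) ≤ M.index * (Nat.card M - 1) :=
    Nat.mul_le_mul_right _ h2
  have h8 : M.index * (Nat.card M - 1) + M.index = M.index * Nat.card M := by
    rw [← Nat.mul_succ]
    congr 1
    omega
  omega

/-- An element whose class size is prime to `p` centralizes a Sylow `p`-subgroup. -/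
theorem exists_cj_le_centralizer {p : ℕ} [Fact p.Prime] (P : Sylow p G) (x : G)
    (h : ¬ p ∣ (Subgroup.centralizer ({x} : Set G)).index) :
    ∃ g : G, cj g (P : Subgroup G) ≤ Subgroup.centralizer ({x} : Set G) := by
  obtain ⟨S⟩ : Nonempty (Sylow p ↥(Subgroup.centralizer ({x} : Set G))) := inferInstance
  set C := Subgroup.centralizer ({x} : Set G) with hC
  have hR : IsPGroup p ((S : Subgroup ↥C).map C.subtype) := S.2.map _
  have hidx : ¬ p ∣ ((S : Subgroup ↥C).map C.subtype).index := by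
    rw [Subgroup.index_map_subtype]
    intro hd
    rcases (Fact.out : p.Prime).dvd_mul.1 hd with hd | hd
    · exact S.not_dvd_index hd
    · exact h hd
  obtain ⟨g, hg⟩ := MulAction.exists_smul_eq G P (hR.toSylow hidx)
  refine ⟨g, ?_⟩
  have h1 : cj g (P : Subgroup G) = ((g • P : Sylow p G) : Subgroup G) := by
    rw [Sylow.coe_subgroup_smul]
    rfl
  rw [h1, hg]
  show ((S : Subgroup ↥C).map C.subtype) ≤ C
  rintro _ ⟨r, _, rfl⟩
  exact r.2

theorem mem_U_of_not_dvd {p : ℕ} [Fact p.Prime] (P : Sylow p G) (x : G)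
    (h : ¬ p ∣ (Subgroup.centralizer ({x} : Set G)).index) :
    x ∈ U (Subgroup.centralizer ((P : Subgroup G) : Set G)) := by
  obtain ⟨g, hg⟩ := exists_cj_le_centralizer P x h
  refine ⟨g, ?_⟩
  refine mem_cj.2 ?_
  refine Subgroup.mem_centralizer_iff.mpr ?_
  intro u hu
  have hc' : (g * u * g⁻¹) * x = x * (g * u * g⁻¹) :=
    Subgroup.mem_centralizer_singleton_iff.1 (hg (cj_mem hu))
  have : u * (g⁻¹ * x * g) = g⁻¹ * (g * u * g⁻¹ * x) * g := by group
  rw [this, hc']
  group

/-- If the index of `Y` is at most the orbit size of `P` on the cosets of `Y`, then `G = P Y`. -/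
theorem exists_mul_of_index (P Y : Subgroup G) (h : Y.index ≤ Y.relIndex P) (g : G) :
    ∃ s ∈ P, ∃ c ∈ Y, g = s * c := by
  classical
  let φ : ↥P ⧸ Y.subgroupOf P → G ⧸ Y := fun q => Quotient.liftOn' q (fun s => (((s : ↥P) : G) : G ⧸ Y))
    (by
      intro a b hab
      have h1 : a⁻¹ * b ∈ Y.subgroupOf P := QuotientGroup.leftRel_apply.1 hab
      have h2 : ((a : G))⁻¹ * (b : G) ∈ Y := h1
      exact QuotientGroup.eq.2 h2)
  have hinj : Function.Injective φ := by
    intro q₁ q₂
    induction q₁ using QuotientGroup.induction_on with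
    | H a =>
      induction q₂ using QuotientGroup.induction_on with
      | H b =>
        intro hab
        have h1 : ((a : G) : G ⧸ Y) = ((b : G) : G ⧸ Y) := hab
        have h2 : ((a : G))⁻¹ * (b : G) ∈ Y := QuotientGroup.eq.1 h1
        exact QuotientGroup.eq.2 h2
  have hbij : Function.Bijective φ := by
    refine hinj.bijective_of_nat_card_le ?_
    exact h
  obtain ⟨q, hq⟩ := hbij.2 ((g : G ⧸ Y))
  induction q using QuotientGroup.induction_on with
  | H s =>
    have h1 : ((s : G) : G ⧸ Y) = (g : G ⧸ Y) := hq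
    have h2 : ((s : G))⁻¹ * g ∈ Y := QuotientGroup.eq.1 h1
    exact ⟨s, s.2, _, h2, by group⟩

/-- All stabilizers of the same index: this index divides the size of the set. -/
theorem dvd_card_of_stabilizer_index {Γ S : Type*} [Group Γ] [Finite Γ] [MulAction Γ S] [Finite S] (f : ℕ)
    (h : ∀ s : S, (MulAction.stabilizer Γ s).index = f) : f ∣ Nat.card S := by
  classical
  haveI := Fintype.ofFinite S
  let Ω := MulAction.orbitRel.Quotient Γ S
  haveI : Finite Ω := Quotient.finite _
  haveI := Fintype.ofFinite Ω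
  have e : S ≃ Σ ω : Ω, MulAction.orbit Γ (Quotient.out ω : S) :=
    MulAction.selfEquivSigmaOrbits Γ S
  rw [Nat.card_congr e, Nat.card_sigma]
  refine Finset.dvd_sum fun ω _ => ?_
  have e2 := MulAction.orbitEquivQuotientStabilizer Γ (Quotient.out ω : S)
  rw [Nat.card_congr e2]
  exact (h _).symm.dvd

end Cfsg.Agent.Lib.ClassParts
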