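import Mathlib
import Cfsg.Agent.Lib.CoprimeGen

/-!
Offenders for an elementary abelian `2`-group acting on an elementary abelian `2`-group:
either some involution of the acting group inverts an element of order three in a given
odd-order normal subgroup `R`, or `|V : C_V(A)| ≥ |A|²`.
-/

set_option autoImplicit false
set_option linter.all false

namespace Cfsg.Agent.Lib.Offender

universe u v

section
variable {V : Type v} [CommGroup V] [Finite V]

theorem card_eq_mul_relIndex {G : Type*} [Group G] {H K : Subgroup G} (h : H ≤ K) :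
    Nat.card K = Nat.card H * H.relIndex K := by
  have h1 := Subgroup.card_mul_index (H.subgroupOf K)
  have h2 : Nat.card (H.subgroupOf K) = Nat.card H := Nat.card_congr (Subgroup.subgroupOfEquivOfLe h).toEquiv
  rw [h2] at h1
  exact h1.symm

/-- Fixed points of one automorphism. -/
def fixOne (A : MulAut V) : Subgroup V where
  carrier := {v | A v = v}
  mul_mem' := by
    intro a b ha hb
    show A (a * b) = a * b
    rw [map_mul, ha, hb]
  one_mem' := map_one A
  inv_mem' := by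
    intro a ha
    show A a⁻¹ = a⁻¹
    rw [map_inv, ha]

theorem mem_fixOne {A : MulAut V} {v : V} : v ∈ fixOne A ↔ A v = v := Iff.rfl

theorem isPGroup_of_sq {G : Type*} [Group G] (hexp : ∀ v : G, v * v = 1) (K : Subgroup G) : IsPGroup 2 K := by
  intro x
  refine ⟨1, ?_⟩
  apply Subtype.ext
  simpa [pow_two] using hexp x

/-- The key counting lemma. -/
theorem four_le (hexp : ∀ v : V, v * v = 1) (A D : MulAut V) (hAA : A * A = 1) (hAD : A * D * A⁻¹ = D⁻¹)
    (q : ℕ) (hq : q.Prime) (hq5 : 5 ≤ q) (hDq : orderOf D = q) (W : Subgroup V)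
    (hDW : ∀ w ∈ W, D w ∈ W) (y : V) (hy : y ∈ W) (hyD : D y ≠ y) :
    4 * Nat.card (W ⊓ fixOne A : Subgroup V) ≤ Nat.card W := by
  classical
  by_contra hcon
  push Not at hcon
  set W₀ : Subgroup V := W ⊓ fixOne A with hW₀
  have hW₀W : W₀ ≤ W := inf_le_left
  have hcard := card_eq_mul_relIndex hW₀W
  have hW₀pos : 0 < Nat.card W₀ := Nat.card_pos
  set r := W₀.relIndex W with hr
  have hr4 : r < 4 := by
    rw [hcard] at hcon
    by_contra h
    push Not at h
    nlinarith
  have hWp : IsPGroup 2 W := isPGroup_of_sq hexp W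
  obtain ⟨k, hk⟩ := IsPGroup.iff_card.1 hWp
  have hrd : r ∣ 2 ^ k := by
    rw [← hk, hcard]
    exact dvd_mul_left _ _
  obtain ⟨m, _, hm⟩ := (Nat.dvd_prime_pow Nat.prime_two).1 hrd
  have hr2 : r ≤ 2 := by
    rw [hm] at hr4 ⊢
    have hm2 : m < 2 := by
      by_contra h
      push Not at h
      have : 2 ^ 2 ≤ 2 ^ m := Nat.pow_le_pow_right (by norm_num) h
      omega
    interval_cases m <;> norm_num
  -- the map to pairs of classes
  have hpow : ∀ i : ℕ, (D ^ i) y ∈ W := by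
    intro i
    induction i with
    | zero => simpa using hy
    | succ i ih =>
      rw [pow_succ']
      exact hDW _ ih
  let Qt := W ⧸ W₀.subgroupOf W
  have hQt : Nat.card Qt = r := rfl
  let f : Fin 5 → Qt × Qt := fun i =>
    ((⟨(D ^ (i.1 + 1)) y, hpow _⟩ : W), (⟨(D ^ i.1) y, hpow _⟩ : W))
  haveI : Fintype Qt := Fintype.ofFinite _
  have hcardP : Fintype.card (Qt × Qt) < Fintype.card (Fin 5) := by
    rw [Fintype.card_prod, Fintype.card_fin, ← Nat.card_eq_fintype_card, hQt]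
    nlinarith
  obtain ⟨i, j, hij, hf⟩ := Fintype.exists_ne_map_eq_of_card_lt f hcardP
  -- the key computation
  have key : ∀ i j : Fin 5, i.1 < j.1 → f i = f j → False := by
    intro i j hlt hf
    have h1 := (Prod.ext_iff.1 hf).1
    have h2 := (Prod.ext_iff.1 hf).2
    have h3 := QuotientGroup.eq.1 h1
    have h4 := QuotientGroup.eq.1 h2
    set z := (D ^ i.1) y with hz
    set k := j.1 - i.1 with hk'
    have hkpos : 0 < k := Nat.sub_pos_of_lt hlt
    have hk4 : k ≤ 4 := by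
      have := j.2
      omega
    have hj : (D ^ j.1) y = (D ^ k) z := by
      rw [hz, ← MulAut.mul_apply, ← pow_add]
      congr 2
      omega
    set c := z⁻¹ * (D ^ k) z with hc
    have hcW₀ : c ∈ W₀ := by
      have : ((⟨z, hpow _⟩ : W)⁻¹ * (⟨(D ^ j.1) y, hpow _⟩ : W) : W) ∈ W₀.subgroupOf W := h4
      have h5 : (((⟨z, hpow _⟩ : W)⁻¹ * (⟨(D ^ j.1) y, hpow _⟩ : W) : W) : V) ∈ W₀ := this
      have h6 : (((⟨z, hpow _⟩ : W)⁻¹ * (⟨(D ^ j.1) y, hpow _⟩ : W) : W) : V) = c := by
        show z⁻¹ * (D ^ j.1) y = c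
        rw [hj]
      rwa [h6] at h5
    have hDc : D c = ((D ^ (i.1 + 1)) y)⁻¹ * (D ^ (j.1 + 1)) y := by
      have e1 : (D ^ (i.1 + 1)) y = D z := by
        rw [pow_succ', MulAut.mul_apply]
      have e2 : (D ^ (j.1 + 1)) y = D ((D ^ k) z) := by
        rw [pow_succ', MulAut.mul_apply, hj]
      rw [e1, e2, hc, map_mul, map_inv]
    have hDcW₀ : D c ∈ W₀ := by
      have : ((⟨(D ^ (i.1 + 1)) y, hpow _⟩ : W)⁻¹ * (⟨(D ^ (j.1 + 1)) y, hpow _⟩ : W) : W) ∈ W₀.subgroupOf W := h3
      have h5 : (((⟨(D ^ (i.1 + 1)) y, hpow _⟩ : W)⁻¹ * (⟨(D ^ (j.1 + 1)) y, hpow _⟩ : W) : W) : V) ∈ W₀ := this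
      have h6 : (((⟨(D ^ (i.1 + 1)) y, hpow _⟩ : W)⁻¹ * (⟨(D ^ (j.1 + 1)) y, hpow _⟩ : W) : W) : V) = D c := hDc.symm
      rwa [h6] at h5
    have hAc : A c = c := hcW₀.2
    have hADc : A (D c) = D c := hDcW₀.2
    -- `D² c = c`
    have hAinv : A⁻¹ = A := inv_eq_of_mul_eq_one_left hAA
    have hAD' : A * D = D⁻¹ * A := by
      rw [← hAD, hAinv, mul_assoc, hAA, mul_one]
    have h7 : D⁻¹ c = D c := by
      have h8 : (A * D) c = (D⁻¹ * A) c := by rw [hAD']
      rw [MulAut.mul_apply, MulAut.mul_apply, hADc, hAc] at h8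
      exact h8.symm
    have h8 : (D ^ 2) c = c := by
      rw [pow_two, MulAut.mul_apply, ← h7]
      show D (D⁻¹ c) = c
      rw [← MulAut.mul_apply, mul_inv_cancel]
      rfl
    have hodd : Nat.Coprime 2 (orderOf D) := by
      rw [hDq]
      exact (Nat.coprime_primes Nat.prime_two hq).2 (by omega)
    obtain ⟨m₁, hm₁⟩ := exists_pow_eq_self_of_coprime hodd
    have hfixpow : ∀ {E : MulAut V} {x : V}, E x = x → ∀ n : ℕ, (E ^ n) x = x := by
      intro E x hx n
      induction n with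
      | zero => simp
      | succ n ih => rw [pow_succ', MulAut.mul_apply, ih, hx]
    have h9 : D c = c := by
      have := hfixpow h8 m₁
      rw [hm₁] at this
      exact this
    -- `D^(2k)` fixes `z`
    have h10 : (D ^ k) c = c := hfixpow h9 k
    have hcc : c * c = 1 := hexp c
    have h11 : (D ^ k) z = z * c := by
      rw [hc, mul_inv_cancel_left]
    have h12 : (D ^ (2 * k)) z = z := by
      rw [two_mul, pow_add, MulAut.mul_apply, h11, map_mul, h10, h11, mul_assoc, hcc, mul_one]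
    have hkq : Nat.Coprime (2 * k) (orderOf D) := by
      rw [hDq]
      apply Nat.Coprime.mul_left
      · exact (Nat.coprime_primes Nat.prime_two hq).2 (by omega)
      · apply Nat.Coprime.symm
        rw [Nat.Prime.coprime_iff_not_dvd hq]
        intro hd
        have := Nat.le_of_dvd hkpos hd
        omega
    obtain ⟨m₂, hm₂⟩ := exists_pow_eq_self_of_coprime hkq
    have h13 : D z = z := by
      have := hfixpow h12 m₂
      rw [hm₂] at this
      exact this
    apply hyD
    have h14 : (D ^ i.1) (D y) = (D ^ i.1) y := by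
      rw [← MulAut.mul_apply, ← pow_succ, pow_succ', MulAut.mul_apply]
      exact h13
    exact (D ^ i.1).injective h14
  rcases lt_or_gt_of_ne (fun h => hij (Fin.ext h) : i.1 ≠ j.1) with h | h
  · exact key i j h hf
  · exact key j i h hf.symm

end

section
variable {Γ : Type u} [Group Γ] [Finite Γ] {V : Type v} [CommGroup V] [Finite V]

/-- Fixed points of a subgroup. -/
def fixA (ρ : Γ →* MulAut V) (B : Subgroup Γ) : Subgroup V where
  carrier := {v | ∀ b ∈ B, ρ b v = v}
  mul_mem' := by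
    intro x y hx hy b hb
    rw [map_mul, hx b hb, hy b hb]
  one_mem' := fun b _ => map_one _
  inv_mem' := by
    intro x hx b hb
    rw [map_inv, hx b hb]

theorem mem_fixA {ρ : Γ →* MulAut V} {B : Subgroup Γ} {v : V} : v ∈ fixA ρ B ↔ ∀ b ∈ B, ρ b v = v := Iff.rfl

/-- A `2`-subgroup commuting with `d` which moves a point: `d` moves a fixed point of the `2`-subgroup. -/
theorem exists_moved_fixed (hexp : ∀ v : V, v * v = 1) (ρ : Γ →* MulAut V) (B : Subgroup Γ)
    (hB : IsPGroup 2 B) (d : Γ) (hdB : ∀ b ∈ B, b * d = d * b) (hodd : Odd (orderOf d))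
    (hd : ρ d ≠ 1) : ∃ w ∈ fixA ρ B, ρ d w ≠ w := by
  classical
  haveI : Fact (Nat.Prime 2) := ⟨Nat.prime_two⟩
  set D := ρ d with hD
  obtain ⟨v, hv⟩ : ∃ v, D v ≠ v := by
    by_contra h
    push Not at h
    exact hd (MulEquiv.ext h)
  let φ : V →* V :=
    { toFun := fun x => x⁻¹ * D x
      map_one' := by simp
      map_mul' := by
        intro x y
        simp only [map_mul, mul_inv]
        exact mul_mul_mul_comm _ _ _ _ }
  have hφ : ∀ x, φ x = x⁻¹ * D x := fun x => rfl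
  let U : Subgroup V := φ.range
  have hbD : ∀ b ∈ B, ∀ x, ρ b (D x) = D (ρ b x) := by
    intro b hb x
    rw [← MulAut.mul_apply, ← MulAut.mul_apply, hD, ← map_mul, ← map_mul, hdB b hb]
  have hUb : ∀ b ∈ B, ∀ u ∈ U, ρ b u ∈ U := by
    rintro b hb _ ⟨x, rfl⟩
    refine ⟨ρ b x, ?_⟩
    rw [hφ, hφ, map_mul, map_inv, hbD b hb]
  letI : MulAction B U :=
    { smul := fun b u => ⟨ρ b.1 u.1, hUb b.1 b.2 u.1 u.2⟩
      one_smul := fun u => Subtype.ext (by
        show ρ ((1 : B) : Γ) u.1 = u.1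
        simp)
      mul_smul := fun b c u => Subtype.ext (by
        show ρ ((b * c : B) : Γ) u.1 = ρ b.1 (ρ c.1 u.1)
        simp [MulAut.mul_apply]) }
  have hsmul : ∀ (b : B) (u : U), ((b • u : U) : V) = ρ b.1 u.1 := fun _ _ => rfl
  have hU1 : φ v ≠ 1 := by
    intro h
    apply hv
    rw [hφ, inv_mul_eq_one] at h
    exact h.symm
  have hUcard : 2 ∣ Nat.card U := by
    have hUp : IsPGroup 2 U := isPGroup_of_sq hexp U
    obtain ⟨k, hk⟩ := IsPGroup.iff_card.1 hUp
    have hk0 : k ≠ 0 := by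
      rintro rfl
      rw [pow_zero] at hk
      have h1 : U = ⊥ := Subgroup.card_eq_one.1 hk
      have h2 : φ v ∈ U := ⟨v, rfl⟩
      rw [h1, Subgroup.mem_bot] at h2
      exact hU1 h2
    rw [hk]
    exact dvd_pow_self 2 hk0
  have hone : (1 : U) ∈ MulAction.fixedPoints B U := by
    intro b
    apply Subtype.ext
    rw [hsmul]
    simp
  obtain ⟨w, hw, hw1⟩ := IsPGroup.exists_fixed_point_of_prime_dvd_card_of_fixed_point hB U hUcard hone
  refine ⟨w.1, ?_, ?_⟩
  · intro b hb
    have := hw ⟨b, hb⟩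
    exact congrArg Subtype.val this
  · intro h
    apply hw1
    apply Subtype.ext
    show (1 : V) = w.1
    obtain ⟨x, hx⟩ := w.2
    set u := w.1 with hu
    have hpow : ∀ n : ℕ, (D ^ n) x = x * u ^ n := by
      intro n
      induction n with
      | zero => simp
      | succ n ih =>
        have h1 : D x = x * u := by
          rw [← hx, hφ, mul_inv_cancel_left]
        have h2 : (D ^ n) u = u := by
          clear ih
          induction n with
          | zero => simp
          | succ n ih2 => rw [pow_succ', MulAut.mul_apply, ih2, h]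
        rw [pow_succ, MulAut.mul_apply, h1, map_mul, ih, h2, pow_succ, mul_assoc]
    have h3 : (D ^ orderOf d) x = x := by
      have h4 : D ^ orderOf d = 1 := by
        rw [hD, ← map_pow, pow_orderOf_eq_one, map_one]
      rw [h4]
      rfl
    rw [hpow] at h3
    have h5 : u ^ orderOf d = 1 := mul_eq_left.1 h3
    obtain ⟨m, hm⟩ := hodd
    rw [hm, pow_succ, pow_mul, pow_two, hexp u, one_pow, one_mul] at h5
    exact h5.symm

theorem offender (hexp : ∀ v : V, v * v = 1) (ρ : Γ →* MulAut V) (hρ : Function.Injective ρ)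
    (R : Subgroup Γ) (hR : Odd (Nat.card R)) (n : ℕ) :
    ∀ (A : Subgroup Γ), Nat.card A = n → (∀ a ∈ A, ∀ b ∈ A, a * b = b * a) → (∀ a ∈ A, a * a = 1) →
    (∀ a ∈ A, ∀ r ∈ R, a * r * a⁻¹ ∈ R) → (∀ a ∈ A, (∀ r ∈ R, a * r = r * a) → a = 1) →
    (∃ a ∈ A, ∃ d ∈ R, a * d * a⁻¹ = d⁻¹ ∧ d ≠ 1 ∧ d ^ 3 = 1) ∨
      Nat.card A ^ 2 * Nat.card (fixA ρ A) ≤ Nat.card V := by
  classical
  haveI : Fact (Nat.Prime 2) := ⟨Nat.prime_two⟩
  induction n using Nat.strong_induction_on with
  | _ n ih =>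
  intro A hAn hcomm hA2 hAR hfaith
  by_cases hA1 : A = ⊥
  · right
    have h1 : Nat.card A = 1 := by rw [hA1]; simp
    have h2 : fixA ρ A = ⊤ := by
      rw [hA1, eq_top_iff]
      intro v _ b hb
      rw [Subgroup.mem_bot] at hb
      rw [hb, map_one]
      rfl
    rw [h1, h2]
    simp
  obtain ⟨a, ha, ha1⟩ : ∃ a ∈ A, a ≠ 1 := by
    obtain ⟨x, hx⟩ := Subgroup.ne_bot_iff_exists_ne_one.1 hA1
    exact ⟨x, x.2, fun h => hx (Subtype.ext h)⟩
  obtain ⟨r, hr, har⟩ : ∃ r ∈ R, a * r ≠ r * a := by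
    by_contra h
    push Not at h
    exact ha1 (hfaith a ha h)
  have hainv : a⁻¹ = a := inv_eq_of_mul_eq_one_left (hA2 a ha)
  have hordA : 2 ∣ Nat.card A := by
    have h1 : orderOf (⟨a, ha⟩ : A) = 2 := by
      apply orderOf_eq_prime
      · apply Subtype.ext
        simpa [pow_two] using hA2 a ha
      · intro h
        exact ha1 (congrArg Subtype.val h)
    rw [← h1]
    exact orderOf_dvd_natCard _
  -- a hyperplane
  obtain ⟨B, hBA, hBi, r', hr'R, hr'B, har'⟩ : ∃ B : Subgroup Γ, B ≤ A ∧ B.relIndex A = 2 ∧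
      ∃ r' ∈ R, (∀ b ∈ B, b * r' = r' * b) ∧ a * r' ≠ r' * a := by
    by_cases h4 : 2 ^ 2 ≤ Nat.card A
    · have hgen := Cfsg.Agent.Lib.CoprimeGen.gen_all (p := 2) A R hcomm
        (fun x hx => by simpa [pow_two] using hA2 x hx) h4 hAR hR.not_two_dvd_nat
      by_contra hcon
      push Not at hcon
      have hle : (⨆ B : {B : Subgroup Γ // B ≤ A ∧ B.relIndex A = 2},
          R ⊓ Subgroup.centralizer ((B : Subgroup Γ) : Set Γ)) ≤ Subgroup.centralizer {a} := by
        refine iSup_le ?_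
        rintro ⟨B, hB1, hB2⟩ x ⟨hx1, hx2⟩
        rw [Subgroup.mem_centralizer_singleton_iff]
        exact (hcon B hB1 hB2 x hx1 (fun b hb => Subgroup.mem_centralizer_iff.1 hx2 b hb)).symm
      have h5 := hle (hgen hr)
      rw [Subgroup.mem_centralizer_singleton_iff] at h5
      exact har h5.symm
    · push Not at h4
      have h5 : Nat.card A = 2 := by
        obtain ⟨m, hm⟩ := hordA
        have hm0 : 0 < Nat.card A := Nat.card_pos
        omega
      refine ⟨⊥, bot_le, by rw [Subgroup.relIndex_bot_left, h5], r, hr, ?_, har⟩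
      intro b hb
      rw [Subgroup.mem_bot] at hb
      rw [hb, one_mul, mul_one]
  have haB : a ∉ B := fun h => har' (hr'B a h)
  set d₀ := r'⁻¹ * (a * r' * a⁻¹) with hd₀
  have hd₀R : d₀ ∈ R := R.mul_mem (R.inv_mem hr'R) (hAR a ha r' hr'R)
  have hd₀1 : d₀ ≠ 1 := by
    intro h
    apply har'
    rw [hd₀, inv_mul_eq_one, eq_mul_inv_iff_mul_eq] at h
    exact h.symm
  have hd₀inv : a * d₀ * a⁻¹ = d₀⁻¹ := by
    have e1 : a * d₀ * a⁻¹ = (a * r'⁻¹ * a⁻¹) * ((a * a) * r' * (a * a)⁻¹) := by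
      rw [hd₀]; group
    rw [e1, hA2 a ha, hd₀]
    simp only [one_mul, inv_one, mul_one]
    group
  have hd₀B : ∀ b ∈ B, b * d₀ = d₀ * b := by
    intro b hb
    have h1 := hr'B b hb
    have h2 : b * a = a * b := hcomm b (hBA hb) a ha
    have h3 : b * r'⁻¹ = r'⁻¹ * b := by
      have := (Commute.inv_right (show Commute b r' from h1))
      exact this
    have h4 : b * a⁻¹ = a⁻¹ * b := by
      have := (Commute.inv_right (show Commute b a from h2))
      exact this
    calc b * d₀ = (b * r'⁻¹) * a * r' * a⁻¹ := by rw [hd₀]; group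
      _ = r'⁻¹ * (b * a) * r' * a⁻¹ := by rw [h3]; group
      _ = r'⁻¹ * a * (b * r') * a⁻¹ := by rw [h2]; group
      _ = r'⁻¹ * a * r' * (b * a⁻¹) := by rw [h1]; group
      _ = d₀ * b := by rw [h4, hd₀]; group
  have hord : orderOf d₀ ∣ Nat.card R := by
    have := orderOf_dvd_natCard (⟨d₀, hd₀R⟩ : R)
    rwa [Subgroup.orderOf_mk] at this
  have hne1 : orderOf d₀ ≠ 1 := fun h => hd₀1 (orderOf_eq_one_iff.1 h)
  obtain ⟨q, hq, hqd⟩ := Nat.exists_prime_and_dvd hne1
  have hd₀pos : orderOf d₀ ≠ 0 := (orderOf_pos d₀).ne'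
  set d := d₀ ^ (orderOf d₀ / q) with hd
  have hdq : orderOf d = q := orderOf_pow_orderOf_div hd₀pos hqd
  have hqodd : Odd q := Odd.of_dvd_nat hR (hqd.trans hord)
  have hdR : d ∈ R := R.pow_mem hd₀R _
  have hdinv : a * d * a⁻¹ = d⁻¹ := by
    rw [hd, ← conj_pow, hd₀inv, inv_pow]
  have hd1 : d ≠ 1 := by
    intro h
    rw [h, orderOf_one] at hdq
    exact hq.one_lt.ne hdq
  have hdB : ∀ b ∈ B, b * d = d * b := by
    intro b hb
    exact (show Commute b d₀ from hd₀B b hb).pow_right _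
  by_cases hq3 : q = 3
  · left
    refine ⟨a, ha, d, hdR, hdinv, hd1, ?_⟩
    rw [← hq3, ← hdq]
    exact pow_orderOf_eq_one d
  have hq5 : 5 ≤ q := by
    by_contra h
    push Not at h
    have h2 : q ≠ 2 := by
      rintro rfl
      exact absurd hqodd (by decide)
    have h4 : q ≠ 4 := by
      rintro rfl
      exact absurd hq (by norm_num)
    have := hq.two_le
    omega
  have hcardA : Nat.card A = Nat.card B * 2 := by
    rw [card_eq_mul_relIndex hBA, hBi]
  have hBpos : 0 < Nat.card B := Nat.card_pos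
  have hlt : Nat.card B < n := by
    rw [← hAn, hcardA]
    omega
  rcases ih _ hlt B rfl (fun x hx y hy => hcomm x (hBA hx) y (hBA hy)) (fun x hx => hA2 x (hBA hx))
    (fun x hx => hAR x (hBA hx)) (fun x hx => hfaith x (hBA hx)) with h | hB
  · left
    obtain ⟨b, hb, d', hd', h1⟩ := h
    exact ⟨b, hBA hb, d', hd', h1⟩
  right
  have hBp : IsPGroup 2 B := by
    intro x
    refine ⟨1, ?_⟩
    apply Subtype.ext
    simpa [pow_two] using hA2 x (hBA x.2)
  have hρd : ρ d ≠ 1 := by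
    intro h
    apply hd1
    apply hρ
    rw [h, map_one]
  have hoddd : Odd (orderOf d) := by rw [hdq]; exact hqodd
  obtain ⟨y, hy, hyD⟩ := exists_moved_fixed hexp ρ B hBp d hdB hoddd hρd
  have hDW : ∀ w ∈ fixA ρ B, ρ d w ∈ fixA ρ B := by
    intro w hw b hb
    rw [← MulAut.mul_apply, ← map_mul, hdB b hb, map_mul, MulAut.mul_apply, hw b hb]
  have hAA : ρ a * ρ a = 1 := by rw [← map_mul, hA2 a ha, map_one]
  have hAD : ρ a * ρ d * (ρ a)⁻¹ = (ρ d)⁻¹ := by
    rw [← map_inv, ← map_mul, ← map_mul, hdinv, map_inv]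
  have hDq : orderOf (ρ d) = q := by rw [orderOf_injective ρ hρ, hdq]
  have h4 := four_le hexp (ρ a) (ρ d) hAA hAD q hq hq5 hDq (fixA ρ B) hDW y hy hyD
  have h5 : Nat.card (fixA ρ A) ≤ Nat.card (fixA ρ B ⊓ fixOne (ρ a) : Subgroup V) := by
    apply Subgroup.card_le_of_le
    intro v hv
    exact ⟨fun b hb => hv b (hBA hb), hv a ha⟩
  calc Nat.card A ^ 2 * Nat.card (fixA ρ A)
      ≤ Nat.card A ^ 2 * Nat.card (fixA ρ B ⊓ fixOne (ρ a) : Subgroup V) := Nat.mul_le_mul_left _ h5
    _ = Nat.card B ^ 2 * (4 * Nat.card (fixA ρ B ⊓ fixOne (ρ a) : Subgroup V)) := by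
        rw [hcardA]; ring
    _ ≤ Nat.card B ^ 2 * Nat.card (fixA ρ B) := Nat.mul_le_mul_left _ h4
    _ ≤ Nat.card V := hB

end

end Cfsg.Agent.Lib.Offender
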