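import Mathlib
import Cfsg.Prelude.Def_LocalEven
import Cfsg.Agent.Lib.QdSection
import Cfsg.Agent.Lib.PGroupBasic
import Cfsg.Agent.Lib.SchurZ
import Cfsg.Agent.Lib.SchurZ2

/-!
Sections isomorphic to the symmetric group of degree four or three.

`s4_of_pair`: if `Q` is a normal `2`-subgroup of `G`, `a, d ∈ G` with `d³ = 1`, `a² ∈ Q`,
`a d a⁻¹ ≡ d⁻¹ (mod Q)` and `d` does not centralize `Q`, then `Sym(4)` is involved in `G`.
-/

set_option autoImplicit false
set_option linter.all false

namespace Cfsg.Agent.Lib.S4Sec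

open Cfsg.Agent.Lib.QdSection
open scoped Pointwise

universe u v

/-- A faithful action on the cosets of a subgroup of index `n` of a group of order at least `n!`. -/
theorem invTo_perm_of_core {K : Type u} [Group K] [Finite K] (H : Subgroup K) (n : ℕ)
    (hi : H.index = n) (hc : H.normalCore = ⊥) (hK : n.factorial ≤ Nat.card K) :
    InvTo (Equiv.Perm (Fin n)) K := by
  classical
  have hcard : Nat.card (K ⧸ H) = n := hi
  haveI : Finite (K ⧸ H) := inferInstance
  let e : (K ⧸ H) ≃ Fin n := Finite.equivFinOfCardEq hcard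
  let φ : K →* Equiv.Perm (K ⧸ H) := MulAction.toPermHom K (K ⧸ H)
  have hker : φ.ker = ⊥ := by
    rw [← Subgroup.normalCore_eq_ker]
    exact hc
  have hinj : Function.Injective φ := (MonoidHom.ker_eq_bot_iff φ).1 hker
  have hc2 : Nat.card (Equiv.Perm (K ⧸ H)) ≤ Nat.card K := by
    rw [Nat.card_perm, hcard]
    exact hK
  have hbij : Function.Bijective φ := hinj.bijective_of_nat_card_le hc2
  refine ⟨⊤, ((Equiv.permCongrHom e).toMonoidHom.comp φ).comp (Subgroup.subtype ⊤), ?_⟩
  intro σ
  obtain ⟨k, hk⟩ := hbij.2 ((Equiv.permCongrHom e).symm σ)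
  refine ⟨⟨k, trivial⟩, ?_⟩
  show (Equiv.permCongrHom e) (φ k) = σ
  rw [hk]
  exact MulEquiv.apply_symm_apply _ _

/-- In a finite group a one-sided invariance of `N` under conjugation by `g` suffices. -/
theorem mem_normalizer_of_forall {G : Type*} [Group G] [Finite G] {N : Subgroup G} {g : G}
    (h : ∀ x ∈ N, g * x * g⁻¹ ∈ N) : g ∈ Subgroup.normalizer (N : Set G) := by
  rw [Subgroup.mem_normalizer_iff]
  intro x
  refine ⟨h x, fun hx => ?_⟩
  have hpow : ∀ k : ℕ, ∀ y ∈ N, g ^ k * y * (g ^ k)⁻¹ ∈ N := by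
    intro k
    induction k with
    | zero => intro y hy; simpa using hy
    | succ k ih =>
      intro y hy
      have e : g ^ (k + 1) * y * (g ^ (k + 1))⁻¹ = g ^ k * (g * y * g⁻¹) * (g ^ k)⁻¹ := by
        rw [pow_succ]; group
      rw [e]
      exact ih _ (h y hy)
  have h1 := hpow (orderOf g - 1) _ hx
  have hpos : 0 < orderOf g := orderOf_pos g
  have h2 : g ^ (orderOf g - 1) * g = 1 := by
    rw [← pow_succ, Nat.sub_add_cancel hpos, pow_orderOf_eq_one]
  have e : g ^ (orderOf g - 1) * (g * x * g⁻¹) * (g ^ (orderOf g - 1))⁻¹ = x := by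
    have : g ^ (orderOf g - 1) * (g * x * g⁻¹) * (g ^ (orderOf g - 1))⁻¹
        = (g ^ (orderOf g - 1) * g) * x * (g ^ (orderOf g - 1) * g)⁻¹ := by group
    rw [this, h2]
    group
  rwa [e] at h1

/-- Normality from invariance under `Q` and two generators. -/
theorem normal_of_gens {G : Type*} [Group G] [Finite G] {Q N : Subgroup G} {a d : G}
    (hgen : ∀ g : G, g ∈ Q ⊔ Subgroup.closure {a, d})
    (hQ : ∀ q ∈ Q, ∀ x ∈ N, q * x * q⁻¹ ∈ N)
    (ha : ∀ x ∈ N, a * x * a⁻¹ ∈ N) (hd : ∀ x ∈ N, d * x * d⁻¹ ∈ N) : N.Normal := by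
  rw [← Subgroup.normalizer_eq_top_iff, eq_top_iff]
  intro g _
  have h1 : Q ⊔ Subgroup.closure {a, d} ≤ Subgroup.normalizer (N : Set G) := by
    refine sup_le (fun q hq => mem_normalizer_of_forall (hQ q hq)) ?_
    rw [Subgroup.closure_le]
    rintro y (rfl | rfl)
    · exact mem_normalizer_of_forall ha
    · exact mem_normalizer_of_forall hd
  exact h1 (hgen g)

/-- Conjugates of elements commuting with `d` by an element inverting `d` commute with `d`. -/
theorem comm_conj {G : Type*} [Group G] {a d x : G} (had : a * d * a⁻¹ = d⁻¹) (hx : x * d = d * x) :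
    (a * x * a⁻¹) * d = d * (a * x * a⁻¹) := by
  have h1 : (a * x * a⁻¹) * (a * d * a⁻¹) = (a * d * a⁻¹) * (a * x * a⁻¹) := by
    have e1 : (a * x * a⁻¹) * (a * d * a⁻¹) = a * (x * d) * a⁻¹ := by group
    have e2 : (a * d * a⁻¹) * (a * x * a⁻¹) = a * (d * x) * a⁻¹ := by group
    rw [e1, e2, hx]
  rw [had] at h1
  have h2 := congrArg (fun y => d * y * d) h1
  simp only [mul_assoc, mul_inv_cancel_left, mul_inv_cancel, mul_one] at h2
  simpa [mul_assoc] using h2.symm

set_option maxHeartbeats 2000000 in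
theorem s4_core (n : ℕ) : ∀ (G : Type u) [Group G] [Finite G], Nat.card G = n →
    ∀ (Q : Subgroup G) [Q.Normal], IsPGroup 2 Q → ∀ (a d : G), d ^ 3 = 1 → a * d * a⁻¹ = d⁻¹ →
    a ^ 2 ∈ Q → (∀ g : G, g ∈ Q ⊔ Subgroup.closure {a, d}) → (∃ q ∈ Q, d * q * d⁻¹ ≠ q) →
    InvTo (Equiv.Perm (Fin 4)) G := by
  induction n using Nat.strong_induction_on with
  | _ n ih =>
  intro G _ _ hn Q hQn hQ a d hd3 had ha2 hgen hmove
  classical
  haveI : Fact (Nat.Prime 2) := ⟨Nat.prime_two⟩
  haveI : Fact (Nat.Prime 3) := ⟨Nat.prime_three⟩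
  by_cases hmin : ∃ N : Subgroup G, N.Normal ∧ N ≤ Q ∧ N ≠ ⊥ ∧ ∃ q ∈ Q, d * q * d⁻¹ * q⁻¹ ∉ N
  · obtain ⟨N, hNn, hNQ, hN1, q, hq, hqN⟩ := hmin
    haveI := hNn
    let π := QuotientGroup.mk' N
    have hπ : Function.Surjective π := QuotientGroup.mk'_surjective N
    have hcard : Nat.card (G ⧸ N) < n := by
      have h1 := Subgroup.card_eq_card_quotient_mul_card_subgroup N
      have h2 : 1 < Nat.card N := by
        rw [Subgroup.one_lt_card_iff_ne_bot]
        exact hN1
      have h3 : 0 < Nat.card (G ⧸ N) := Nat.card_pos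
      rw [hn] at h1
      rw [h1]
      nlinarith
    haveI hQ' : (Q.map π).Normal := hQn.map π hπ
    have := ih _ hcard (G ⧸ N) rfl (Q.map π) (hQ.map π) (π a) (π d)
      (by rw [← map_pow, hd3, map_one])
      (by rw [← map_inv, ← map_inv, ← map_mul, ← map_mul, had])
      (by rw [← map_pow]; exact ⟨_, ha2, rfl⟩)
      (by
        intro g
        obtain ⟨g, rfl⟩ := hπ g
        have h1 : π g ∈ (Q ⊔ Subgroup.closure {a, d}).map π := ⟨g, hgen g, rfl⟩
        rw [Subgroup.map_sup, MonoidHom.map_closure, Set.image_pair] at h1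
        exact h1)
      ⟨π q, ⟨q, hq, rfl⟩, by
        intro h
        apply hqN
        have h1 : π (d * q * d⁻¹ * q⁻¹) = 1 := by
          rw [map_mul, map_mul, map_mul, map_inv, map_inv, h, mul_inv_cancel]
        exact (QuotientGroup.eq_one_iff _).1 h1⟩
    exact this.of_quot
  · push Not at hmin
    -- the subgroup generated by the commutators with `d`
    let T : Subgroup G := Subgroup.normalClosure {x | ∃ q ∈ Q, x = d * q * d⁻¹ * q⁻¹}
    haveI hTn : T.Normal := Subgroup.normalClosure_normal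
    have hcQ : ∀ q ∈ Q, d * q * d⁻¹ * q⁻¹ ∈ Q := fun q hq =>
      Q.mul_mem (hQn.conj_mem q hq d) (Q.inv_mem hq)
    have hTQ : T ≤ Q := by
      apply Subgroup.normalClosure_le_normal
      rintro _ ⟨q, hq, rfl⟩
      exact hcQ q hq
    have hcT : ∀ q ∈ Q, d * q * d⁻¹ * q⁻¹ ∈ T := fun q hq =>
      Subgroup.subset_normalClosure ⟨q, hq, rfl⟩
    have hTmin : ∀ N : Subgroup G, N.Normal → N ≤ Q → N ≠ ⊥ → T ≤ N := by
      intro N hNn hNQ hN1
      haveI := hNn
      apply Subgroup.normalClosure_le_normal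
      rintro _ ⟨q, hq, rfl⟩
      exact hmin N hNn hNQ hN1 q hq
    obtain ⟨q₀, hq₀, hq₀m⟩ := hmove
    have hq₀c : d * q₀ * d⁻¹ * q₀⁻¹ ≠ 1 := by
      intro h
      apply hq₀m
      rwa [mul_inv_eq_one] at h
    have hT1 : T ≠ ⊥ := by
      intro h0
      apply hq₀c
      have := hcT q₀ hq₀
      rw [h0, Subgroup.mem_bot] at this
      exact this
    -- `T` is central in `Q`
    have hTc : ∀ t ∈ T, ∀ q ∈ Q, q * t = t * q := by
      haveI hT' : (T.subgroupOf Q).Normal := hTn.subgroupOf Q
      have hne : T.subgroupOf Q ≠ ⊥ := by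
        intro h0
        apply hT1
        rw [eq_bot_iff]
        intro x hx
        have h1 : (⟨x, hTQ hx⟩ : Q) ∈ T.subgroupOf Q := hx
        rw [h0, Subgroup.mem_bot] at h1
        exact Subgroup.mem_bot.2 (congrArg Subtype.val h1)
      obtain ⟨x, hxT, hx1, hxZ⟩ := Cfsg.Agent.Lib.PGroupBasic.exists_ne_one_mem_center_of_normal hQ
        (T.subgroupOf Q) hne
      haveI hCn : (Subgroup.centralizer (Q : Set G)).Normal := Subgroup.normal_centralizer
      have hN : (T ⊓ Subgroup.centralizer (Q : Set G)).Normal := Subgroup.normal_inf_normal _ _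
      have hN1 : T ⊓ Subgroup.centralizer (Q : Set G) ≠ ⊥ := by
        intro h0
        apply hx1
        have h1 : (x : G) ∈ T ⊓ Subgroup.centralizer (Q : Set G) := by
          refine ⟨hxT, ?_⟩
          refine Subgroup.mem_centralizer_iff.2 ?_
          intro q hq
          have := (Subgroup.mem_center_iff.1 hxZ) ⟨q, hq⟩
          exact congrArg Subtype.val this
        rw [h0, Subgroup.mem_bot] at h1
        exact Subtype.ext h1
      intro t ht q hq
      have h1 := hTmin _ hN (inf_le_left.trans hTQ) hN1 ht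
      exact Subgroup.mem_centralizer_iff.1 h1.2 q hq
    have hTcc : ∀ t ∈ T, ∀ t' ∈ T, t * t' = t' * t := fun t ht t' ht' => (hTc t ht t' (hTQ ht')).symm
    -- `T` has exponent two
    have hT2 : ∀ t ∈ T, t * t = 1 := by
      let E : Subgroup G :=
        { carrier := {x | x ∈ T ∧ x * x = 1}
          mul_mem' := by
            rintro x y ⟨hx, hx2⟩ ⟨hy, hy2⟩
            refine ⟨T.mul_mem hx hy, ?_⟩
            calc x * y * (x * y) = x * (y * x) * y := by group
              _ = x * (x * y) * y := by rw [hTcc y hy x hx]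
              _ = (x * x) * (y * y) := by group
              _ = 1 := by rw [hx2, hy2, one_mul]
          one_mem' := ⟨T.one_mem, one_mul 1⟩
          inv_mem' := by
            rintro x ⟨hx, hx2⟩
            refine ⟨T.inv_mem hx, ?_⟩
            rw [← mul_inv_rev, hx2, inv_one] }
      have hEn : E.Normal := by
        refine ⟨?_⟩
        rintro x ⟨hx, hx2⟩ g
        refine ⟨hTn.conj_mem x hx g, ?_⟩
        calc g * x * g⁻¹ * (g * x * g⁻¹) = g * (x * x) * g⁻¹ := by group
          _ = 1 := by rw [hx2]; group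
      have hE1 : E ≠ ⊥ := by
        have hTp : IsPGroup 2 T := hQ.to_le hTQ
        obtain ⟨k, hk⟩ := IsPGroup.iff_card.1 hTp
        have hk0 : k ≠ 0 := by
          rintro rfl
          apply hT1
          rw [pow_zero] at hk
          exact Subgroup.card_eq_one.1 hk
        have h2 : 2 ∣ Nat.card T := by
          rw [hk]
          exact dvd_pow_self 2 hk0
        obtain ⟨x, hx⟩ := exists_prime_orderOf_dvd_card' 2 h2
        intro h0
        have hx2 : (x : G) * x = 1 := by
          have h3 : x ^ 2 = 1 := by rw [← hx]; exact pow_orderOf_eq_one x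
          have h4 := congrArg Subtype.val h3
          simpa [pow_two] using h4
        have h5 : (x : G) ∈ E := ⟨x.2, hx2⟩
        rw [h0, Subgroup.mem_bot] at h5
        have h6 : x = 1 := Subtype.ext h5
        rw [h6, orderOf_one] at hx
        omega
      intro t ht
      exact (hTmin E hEn (fun x hx => hTQ hx.1) hE1 ht).2
    -- `d` moves an element of `T`
    have hdT : ∃ t ∈ T, d * t * d⁻¹ ≠ t := by
      by_contra hcon
      push Not at hcon
      set c := d * q₀ * d⁻¹ * q₀⁻¹ with hc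
      have hcm : c ∈ T := hcT q₀ hq₀
      have h1 : d * q₀ * d⁻¹ = c * q₀ := by rw [hc]; group
      have h2 : d * (d * q₀ * d⁻¹) * d⁻¹ = q₀ := by
        rw [h1]
        calc d * (c * q₀) * d⁻¹ = (d * c * d⁻¹) * (d * q₀ * d⁻¹) := by group
          _ = c * (c * q₀) := by rw [hcon c hcm, h1]
          _ = (c * c) * q₀ := by group
          _ = q₀ := by rw [hT2 c hcm, one_mul]
      have h3 : d * (d * (d * q₀ * d⁻¹) * d⁻¹) * d⁻¹ = q₀ := by
        have : d * (d * (d * q₀ * d⁻¹) * d⁻¹) * d⁻¹ = d ^ 3 * q₀ * (d ^ 3)⁻¹ := by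
          rw [pow_succ, pow_succ, pow_one]; group
        rw [this, hd3]; group
      rw [h2] at h3
      exact hq₀m h3
    -- `d` has no fixed points on `T`
    have hcomm_iff : ∀ x : G, d * x * d⁻¹ = x ↔ x * d = d * x := by
      intro x
      constructor
      · intro h
        have := congrArg (fun y => y * d) h
        simpa [mul_assoc] using this.symm
      · intro h
        rw [mul_inv_eq_iff_eq_mul]
        exact h.symm
    have hfpf : ∀ t ∈ T, d * t * d⁻¹ = t → t = 1 := by
      let N₃ : Subgroup G := T ⊓ Subgroup.centralizer {d}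
      have hN₃ : N₃.Normal := by
        apply normal_of_gens hgen
        · rintro q hq x ⟨hx, hx2⟩
          have : q * x * q⁻¹ = x := by
            rw [hTc x hx q hq]; group
          rw [this]
          exact ⟨hx, hx2⟩
        · rintro x ⟨hx, hx2⟩
          refine ⟨hTn.conj_mem x hx a, Subgroup.mem_centralizer_singleton_iff.2 ?_⟩
          exact comm_conj had (Subgroup.mem_centralizer_singleton_iff.1 hx2)
        · rintro x ⟨hx, hx2⟩
          refine ⟨hTn.conj_mem x hx d, ?_⟩
          have : d * x * d⁻¹ = x := (hcomm_iff x).2 (Subgroup.mem_centralizer_singleton_iff.1 hx2)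
          rw [this]
          exact hx2
      have hN₃0 : N₃ = ⊥ := by
        by_contra h0
        have h1 := hTmin N₃ hN₃ (inf_le_left.trans hTQ) h0
        obtain ⟨t, ht, ht2⟩ := hdT
        apply ht2
        have h2 := (h1 ht).2
        exact (hcomm_iff t).2 (Subgroup.mem_centralizer_singleton_iff.1 h2)
      intro t ht h
      have h1 : t ∈ N₃ := ⟨ht, Subgroup.mem_centralizer_singleton_iff.2 ((hcomm_iff t).1 h)⟩
      rw [hN₃0, Subgroup.mem_bot] at h1
      exact h1
    -- the map `t ↦ t · d t d⁻¹` is onto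
    have hτ : ∀ c ∈ T, ∃ t ∈ T, t * (d * t * d⁻¹) = c := by
      let τ : T → T := fun t => ⟨t * (d * t * d⁻¹), T.mul_mem t.2 (hTn.conj_mem t t.2 d)⟩
      have hinj : Function.Injective τ := by
        intro t t' h
        have h1 : (t : G) * (d * t * d⁻¹) = t' * (d * t' * d⁻¹) := congrArg Subtype.val h
        have h2 : d * ((t : G) * t') * d⁻¹ = t * t' := by
          have e : d * ((t : G) * t') * d⁻¹ = (d * t * d⁻¹) * (d * t' * d⁻¹) := by group
          rw [e]
          have h3 : (d * (t : G) * d⁻¹) = t * (t' * (d * t' * d⁻¹)) := by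
            rw [← h1, ← mul_assoc, hT2 t t.2, one_mul]
          rw [h3]
          have h4 := hT2 _ (hTn.conj_mem t' t'.2 d)
          calc (t : G) * (t' * (d * t' * d⁻¹)) * (d * t' * d⁻¹) = t * t' * ((d * t' * d⁻¹) * (d * t' * d⁻¹)) := by
                group
            _ = t * t' := by rw [h4, mul_one]
        have h3 := hfpf _ (T.mul_mem t.2 t'.2) h2
        have h4 : (t : G) = t' := by
          have h5 := hT2 t' t'.2
          calc (t : G) = t * (t' * t') := by rw [h5, mul_one]
            _ = (t * t') * t' := by group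
            _ = t' := by rw [h3, one_mul]
        exact Subtype.ext h4
      have hsurj : Function.Surjective τ := Finite.injective_iff_surjective.1 hinj
      intro c hc
      obtain ⟨t, ht⟩ := hsurj ⟨c, hc⟩
      exact ⟨t, t.2, congrArg Subtype.val ht⟩
    have hdec : ∀ q ∈ Q, ∃ t ∈ T, d * (q * t) * d⁻¹ = q * t := by
      intro q hq
      obtain ⟨t, ht, h⟩ := hτ _ (hcT q hq)
      refine ⟨t, ht, ?_⟩
      have h1 : d * q * d⁻¹ = (t * (d * t * d⁻¹)) * q := by rw [h]; group
      have h2 := hTn.conj_mem t ht d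
      calc d * (q * t) * d⁻¹ = (d * q * d⁻¹) * (d * t * d⁻¹) := by group
        _ = (t * (d * t * d⁻¹)) * q * (d * t * d⁻¹) := by rw [h1]
        _ = t * ((d * t * d⁻¹) * q) * (d * t * d⁻¹) := by group
        _ = t * (q * (d * t * d⁻¹)) * (d * t * d⁻¹) := by rw [hTc _ h2 q hq]
        _ = t * q * ((d * t * d⁻¹) * (d * t * d⁻¹)) := by group
        _ = t * q := by rw [hT2 _ h2, mul_one]
        _ = q * t := (hTc t ht q hq).symm
    -- `C_Q(d) = 1`
    let C₀ : Subgroup G := Q ⊓ Subgroup.centralizer {d}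
    have hC₀n : C₀.Normal := by
      apply normal_of_gens hgen
      · rintro q hq x ⟨hx, hx2⟩
        obtain ⟨t, ht, hqt⟩ := hdec q hq
        have hc1 : q * t ∈ C₀ := ⟨Q.mul_mem hq (hTQ ht),
          Subgroup.mem_centralizer_singleton_iff.2 ((hcomm_iff _).1 hqt)⟩
        have e : q * x * q⁻¹ = (q * t) * x * (q * t)⁻¹ := by
          have h1 : t * x * t⁻¹ = x := by
            rw [← hTc t ht x hx]; group
          calc q * x * q⁻¹ = q * (t * x * t⁻¹) * q⁻¹ := by rw [h1]
            _ = (q * t) * x * (q * t)⁻¹ := by group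
        rw [e]
        exact C₀.mul_mem (C₀.mul_mem hc1 ⟨hx, hx2⟩) (C₀.inv_mem hc1)
      · rintro x ⟨hx, hx2⟩
        refine ⟨hQn.conj_mem x hx a, Subgroup.mem_centralizer_singleton_iff.2 ?_⟩
        exact comm_conj had (Subgroup.mem_centralizer_singleton_iff.1 hx2)
      · rintro x ⟨hx, hx2⟩
        refine ⟨hQn.conj_mem x hx d, ?_⟩
        have : d * x * d⁻¹ = x := (hcomm_iff x).2 (Subgroup.mem_centralizer_singleton_iff.1 hx2)
        rw [this]
        exact hx2
    have hC₀ : C₀ = ⊥ := by
      by_contra h0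
      have h1 := hTmin C₀ hC₀n inf_le_left h0
      obtain ⟨t, ht, ht2⟩ := hdT
      apply ht2
      have h2 := (h1 ht).2
      exact (hcomm_iff t).2 (Subgroup.mem_centralizer_singleton_iff.1 h2)
    have hC₀' : ∀ q ∈ Q, d * q * d⁻¹ = q → q = 1 := by
      intro q hq h
      have h1 : q ∈ C₀ := ⟨hq, Subgroup.mem_centralizer_singleton_iff.2 ((hcomm_iff q).1 h)⟩
      rw [hC₀, Subgroup.mem_bot] at h1
      exact h1
    have hQT : Q ≤ T := by
      intro q hq
      obtain ⟨t, ht, hqt⟩ := hdec q hq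
      have h1 := hC₀' _ (Q.mul_mem hq (hTQ ht)) hqt
      have h2 : q = t⁻¹ := eq_inv_of_mul_eq_one_left h1
      rw [h2]
      exact T.inv_mem ht
    have hQcomm : ∀ x ∈ Q, ∀ y ∈ Q, x * y = y * x := fun x hx y hy => hTcc x (hQT hx) y (hQT hy)
    have hQ2 : ∀ x ∈ Q, x * x = 1 := fun x hx => hT2 x (hQT hx)
    -- `a² = 1`
    have ha2' : a * a = 1 := by
      have h1 : a * a ∈ Q := by rwa [pow_two] at ha2
      apply hC₀' _ h1
      have h2 : d * (a * a) * d⁻¹ = a * a := by
        have h3 : a * d⁻¹ * a⁻¹ = d := by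
          have : a * d⁻¹ * a⁻¹ = (a * d * a⁻¹)⁻¹ := by group
          rw [this, had, inv_inv]
        have h4 : a * a * d * (a * a)⁻¹ = d := by
          have : a * a * d * (a * a)⁻¹ = a * (a * d * a⁻¹) * a⁻¹ := by group
          rw [this, had, h3]
        have h5 : (a * a) * d = d * (a * a) := by
          rw [mul_inv_eq_iff_eq_mul] at h4
          exact h4
        exact (hcomm_iff _).2 h5
      exact h2
    have hainv : a⁻¹ = a := inv_eq_of_mul_eq_one_left ha2'
    -- a fixed point of `a`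
    have hQ1 : Q ≠ ⊥ := by
      intro h0
      apply hT1
      rw [eq_bot_iff, ← h0]
      exact hTQ
    obtain ⟨t₀, ht₀Q, ht₀1, ht₀a⟩ : ∃ t₀ ∈ Q, t₀ ≠ 1 ∧ a * t₀ * a⁻¹ = t₀ := by
      obtain ⟨t, ht, ht1⟩ := (Subgroup.ne_bot_iff_exists_ne_one.1 hQ1 : ∃ x : Q, x ≠ 1)
        |>.elim (fun x hx => (⟨x, x.2, fun h => hx (Subtype.ext h)⟩ : ∃ t ∈ Q, t ≠ 1))
      by_cases h : a * t * a⁻¹ = t
      · exact ⟨t, ht, ht1, h⟩
      · refine ⟨t * (a * t * a⁻¹), Q.mul_mem ht (hQn.conj_mem t ht a), ?_, ?_⟩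
        · intro h1
          apply h
          have h2 := hQ2 t ht
          calc a * t * a⁻¹ = (t * t) * (a * t * a⁻¹) := by rw [h2, one_mul]
            _ = t * (t * (a * t * a⁻¹)) := by group
            _ = t := by rw [h1, mul_one]
        · have e : a * (t * (a * t * a⁻¹)) * a⁻¹ = (a * t * a⁻¹) * ((a * a) * t * (a * a)⁻¹) := by group
          rw [e, ha2']
          have : (1 : G) * t * (1 : G)⁻¹ = t := by group
          rw [this]
          exact hQcomm _ (hQn.conj_mem t ht a) _ ht
    set t₁ := d * t₀ * d⁻¹ with ht₁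
    have ht₁Q : t₁ ∈ Q := hQn.conj_mem t₀ ht₀Q d
    have hdt₁ : d * t₁ * d⁻¹ = t₀ * t₁ := by
      -- `t₀ t₁ t₂` is fixed by `d`
      set t₂ := d * t₁ * d⁻¹ with ht₂
      have ht₂Q : t₂ ∈ Q := hQn.conj_mem t₁ ht₁Q d
      have hdt₂ : d * t₂ * d⁻¹ = t₀ := by
        have : d * t₂ * d⁻¹ = d ^ 3 * t₀ * (d ^ 3)⁻¹ := by
          rw [ht₂, ht₁, pow_succ, pow_succ, pow_one]; group
        rw [this, hd3]; group
      have hfix : d * (t₀ * t₁ * t₂) * d⁻¹ = t₀ * t₁ * t₂ := by
        have e : d * (t₀ * t₁ * t₂) * d⁻¹ = (d * t₀ * d⁻¹) * (d * t₁ * d⁻¹) * (d * t₂ * d⁻¹) := by group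
        rw [e, hdt₂, ← ht₁, ← ht₂]
        calc t₁ * t₂ * t₀ = t₁ * (t₂ * t₀) := by group
          _ = t₁ * (t₀ * t₂) := by rw [hQcomm _ ht₂Q _ ht₀Q]
          _ = (t₁ * t₀) * t₂ := by group
          _ = t₀ * t₁ * t₂ := by rw [hQcomm _ ht₁Q _ ht₀Q]
      have h1 := hC₀' _ (Q.mul_mem (Q.mul_mem ht₀Q ht₁Q) ht₂Q) hfix
      have h2 := hQ2 _ (Q.mul_mem ht₀Q ht₁Q)
      calc t₂ = (t₀ * t₁) * (t₀ * t₁) * t₂ := by rw [h2, one_mul]
        _ = (t₀ * t₁) * (t₀ * t₁ * t₂) := by group
        _ = t₀ * t₁ := by rw [h1, mul_one]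
    have ht₁0 : t₁ ≠ t₀ := fun h => ht₀1 (hC₀' t₀ ht₀Q h)
    have ht₁1 : t₁ ≠ 1 := by
      intro h
      apply ht₀1
      have : t₀ = d⁻¹ * t₁ * d := by rw [ht₁]; group
      rw [this, h]; group
    have h00 : t₀ * t₀ = 1 := hQ2 t₀ ht₀Q
    have h11 : t₁ * t₁ = 1 := hQ2 t₁ ht₁Q
    have h10 : t₁ * t₀ = t₀ * t₁ := hQcomm t₁ ht₁Q t₀ ht₀Q
    have h00' : ∀ x, t₀ * (t₀ * x) = x := fun x => by rw [← mul_assoc, h00, one_mul]
    have h11' : ∀ x, t₁ * (t₁ * x) = x := fun x => by rw [← mul_assoc, h11, one_mul]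
    have h10' : ∀ x, t₁ * (t₀ * x) = t₀ * (t₁ * x) := fun x => by rw [← mul_assoc, h10, mul_assoc]
    let N₄ : Subgroup G :=
      { carrier := {x | x = 1 ∨ x = t₀ ∨ x = t₁ ∨ x = t₀ * t₁}
        mul_mem' := by
          rintro x y (rfl | rfl | rfl | rfl) (rfl | rfl | rfl | rfl) <;>
            simp [mul_assoc, h00, h11, h10, h00', h11', h10']
        one_mem' := Or.inl rfl
        inv_mem' := by
          rintro x (rfl | rfl | rfl | rfl)
          · simp
          · right; left; exact inv_eq_of_mul_eq_one_left h00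
          · right; right; left; exact inv_eq_of_mul_eq_one_left h11
          · right; right; right
            apply inv_eq_of_mul_eq_one_left
            simp [mul_assoc, h00, h11, h10, h00', h11', h10'] }
    have hN₄Q : N₄ ≤ Q := by
      rintro x (rfl | rfl | rfl | rfl)
      · exact Q.one_mem
      · exact ht₀Q
      · exact ht₁Q
      · exact Q.mul_mem ht₀Q ht₁Q
    have hd3' : d⁻¹ * t₀ * d = d * t₁ * d⁻¹ := by
      have hh : d * d = d⁻¹ := by
        apply eq_inv_of_mul_eq_one_left
        rw [← hd3]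
        simp [pow_succ]
      have e : d * t₁ * d⁻¹ = (d * d) * t₀ * (d * d)⁻¹ := by
        rw [ht₁]; group
      rw [e, hh, inv_inv]
    have hN₄n : N₄.Normal := by
      apply normal_of_gens hgen
      · intro q hq x hx
        have : q * x * q⁻¹ = x := by
          rw [hQcomm q hq x (hN₄Q hx)]; group
        rw [this]; exact hx
      · have hat₁ : a * t₁ * a⁻¹ = t₀ * t₁ := by
          have e : a * t₁ * a⁻¹ = (a * d * a⁻¹) * (a * t₀ * a⁻¹) * (a * d * a⁻¹)⁻¹ := by
            rw [ht₁]; group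
          rw [e, had, ht₀a, inv_inv, hd3', hdt₁]
        rintro x (rfl | rfl | rfl | rfl)
        · left; group
        · right; left; exact ht₀a
        · right; right; right; exact hat₁
        · right; right; left
          have e : a * (t₀ * t₁) * a⁻¹ = (a * t₀ * a⁻¹) * (a * t₁ * a⁻¹) := by group
          rw [e, ht₀a, hat₁, h00']
      · rintro x (rfl | rfl | rfl | rfl)
        · left; group
        · right; right; left; rfl
        · right; right; right; exact hdt₁
        · right; left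
          have e : d * (t₀ * t₁) * d⁻¹ = (d * t₀ * d⁻¹) * (d * t₁ * d⁻¹) := by group
          rw [e, ← ht₁, hdt₁, ← mul_assoc, h10, mul_assoc, h11, mul_one]
    have hN₄1 : N₄ ≠ ⊥ := by
      intro h0
      have h1 : t₀ ∈ N₄ := Or.inr (Or.inl rfl)
      rw [h0, Subgroup.mem_bot] at h1
      exact ht₀1 h1
    have hQN₄ : Q ≤ N₄ := hQT.trans (hTmin N₄ hN₄n hN₄Q hN₄1)
    have hcardQ : Nat.card Q = 4 := by
      have hset : (Q : Set G) = (({1, t₀, t₁, t₀ * t₁} : Finset G) : Set G) := by
        ext x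
        simp only [Finset.coe_insert, Finset.coe_singleton, Set.mem_insert_iff, Set.mem_singleton_iff,
          SetLike.mem_coe]
        constructor
        · intro hx; exact hQN₄ hx
        · intro hx; exact hN₄Q hx
      have hcard : ({1, t₀, t₁, t₀ * t₁} : Finset G).card = 4 := by
        rw [Finset.card_insert_of_notMem, Finset.card_insert_of_notMem, Finset.card_insert_of_notMem,
          Finset.card_singleton]
        · simp only [Finset.mem_singleton]
          intro h
          exact ht₀1 (by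
            have := congrArg (fun y => y * t₁⁻¹) h
            simpa using this.symm)
        · simp only [Finset.mem_insert, Finset.mem_singleton, not_or]
          refine ⟨fun h => ht₁0 h.symm, fun h => ht₁1 ?_⟩
          have := congrArg (fun y => t₀⁻¹ * y) h
          simpa using this.symm
        · simp only [Finset.mem_insert, Finset.mem_singleton, not_or]
          refine ⟨fun h => ht₀1 h.symm, fun h => ht₁1 h.symm, fun h => ?_⟩
          have h2 : t₀ * t₁ = 1 := h.symm
          apply ht₁0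
          exact (eq_inv_of_mul_eq_one_right h2).trans (inv_eq_of_mul_eq_one_left h00)
      have h9 : Nat.card Q = (Q : Set G).ncard := Nat.card_coe_set_eq (Q : Set G)
      rw [h9, hset, Set.ncard_coe_finset, hcard]
    -- the normalizer of `⟨d⟩`
    have hd1 : d ≠ 1 := by
      rintro rfl
      exact hq₀m (by group)
    have hZQ : ∀ x ∈ Subgroup.zpowers d, x ∈ Q → x = 1 := by
      rintro _ ⟨k, rfl⟩ hx
      have h3 : (d ^ k) ^ 3 = 1 := by
        rw [← zpow_natCast, ← zpow_mul, mul_comm, zpow_mul, zpow_natCast, hd3, one_zpow]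
      have h2 := hQ2 _ hx
      have h1 : d ^ k * (d ^ k * d ^ k) = 1 := by
        rw [← h3]
        simp [pow_succ, mul_assoc]
      rw [h2, mul_one] at h1
      exact h1
    let H : Subgroup G := Subgroup.normalizer (Subgroup.zpowers d : Set G)
    have hdH : d ∈ H := Subgroup.le_normalizer (Subgroup.mem_zpowers d)
    have haH : a ∈ H := by
      apply mem_normalizer_of_forall
      rintro _ ⟨k, rfl⟩
      refine ⟨-k, ?_⟩
      show d ^ (-k) = a * d ^ k * a⁻¹
      rw [← conj_zpow, had, inv_zpow, zpow_neg]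
    have hdisj : Disjoint Q H := by
      rw [Subgroup.disjoint_def]
      intro q hq hqH
      apply hC₀' q hq
      have h1 : q * d * q⁻¹ ∈ Subgroup.zpowers d :=
        (Subgroup.mem_normalizer_iff.1 hqH d).1 (Subgroup.mem_zpowers d)
      have h2 : q * d * q⁻¹ * d⁻¹ ∈ Subgroup.zpowers d :=
        Subgroup.mul_mem _ h1 (Subgroup.inv_mem _ (Subgroup.mem_zpowers d))
      have h3 : q * d * q⁻¹ * d⁻¹ ∈ Q := by
        have : q * d * q⁻¹ * d⁻¹ = q * (d * q⁻¹ * d⁻¹) := by group
        rw [this]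
        exact Q.mul_mem hq (hQn.conj_mem _ (Q.inv_mem hq) d)
      have h4 := hZQ _ h2 h3
      rw [mul_inv_eq_one] at h4
      have h5 : q * d = d * q := by
        rw [mul_inv_eq_iff_eq_mul] at h4
        exact h4
      exact (hcomm_iff q).2 h5
    have hcH : Subgroup.closure {a, d} ≤ H := by
      rw [Subgroup.closure_le]
      rintro y (rfl | rfl)
      · exact haH
      · exact hdH
    have hmul : (Q : Set G) * (H : Set G) = Set.univ := by
      rw [Set.eq_univ_iff_forall]
      intro g
      obtain ⟨y, hy, z, hz, rfl⟩ := Subgroup.mem_sup_of_normal_left.1 (hgen g)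
      exact Set.mem_mul.2 ⟨y, hy, z, hcH hz, rfl⟩
    have hcompl : Q.IsComplement' H := Subgroup.isComplement'_of_disjoint_and_mul_eq_univ hdisj hmul
    have hindex : H.index = 4 := by rw [hcompl.index_eq_card, hcardQ]
    -- the element `a⁻¹`-form of the generated subgroup
    have hazp : ∀ k : ℤ, a * d ^ k = d ^ (-k) * a := by
      intro k
      have h1 : a * d ^ k * a⁻¹ = d ^ (-k) := by
        rw [← conj_zpow, had, inv_zpow, zpow_neg]
      rw [← h1]
      group
    have hform : ∀ w ∈ Subgroup.closure {a, d}, ∃ i : ℤ, w = d ^ i ∨ w = d ^ i * a := by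
      intro w hw
      induction hw using Subgroup.closure_induction with
      | mem x hx =>
        rcases hx with rfl | rfl
        · exact ⟨0, Or.inr (by simp)⟩
        · exact ⟨1, Or.inl (by simp)⟩
      | one => exact ⟨0, Or.inl (by simp)⟩
      | mul x y _ _ hx hy =>
        obtain ⟨i, hi⟩ := hx
        obtain ⟨j, hj⟩ := hy
        rcases hi with rfl | rfl <;> rcases hj with rfl | rfl
        · exact ⟨i + j, Or.inl (zpow_add d i j).symm⟩
        · exact ⟨i + j, Or.inr (by rw [zpow_add, mul_assoc])⟩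
        · refine ⟨i - j, Or.inr ?_⟩
          rw [mul_assoc, hazp, ← mul_assoc, ← zpow_add, sub_eq_add_neg]
        · refine ⟨i - j, Or.inl ?_⟩
          rw [mul_assoc, ← mul_assoc a, hazp, mul_assoc, ha2', mul_one, ← zpow_add, sub_eq_add_neg]
      | inv x _ hx =>
        obtain ⟨i, hi⟩ := hx
        rcases hi with rfl | rfl
        · exact ⟨-i, Or.inl (zpow_neg d i).symm⟩
        · refine ⟨i, Or.inr ?_⟩
          rw [mul_inv_rev, hainv, ← zpow_neg, hazp, neg_neg]
    -- `C(Q) ≤ Q`
    haveI hCn : (Subgroup.centralizer (Q : Set G)).Normal := Subgroup.normal_centralizer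
    have hdC : d ∉ Subgroup.centralizer (Q : Set G) := by
      intro h
      apply hq₀m
      rw [Subgroup.mem_centralizer_iff] at h
      have := h q₀ hq₀
      rw [← this]
      group
    have hd2C : d * d ∉ Subgroup.centralizer (Q : Set G) := by
      intro h
      apply hdC
      have h1 : (d * d) * (d * d) = d := by
        have : (d * d) * (d * d) = d ^ 3 * d := by simp [pow_succ, mul_assoc]
        rw [this, hd3, one_mul]
      rw [← h1]
      exact Subgroup.mul_mem _ h h
    have hCQ : Subgroup.centralizer (Q : Set G) ≤ Q := by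
      intro x hx
      obtain ⟨y, hy, z, hz, rfl⟩ := Subgroup.mem_sup_of_normal_left.1 (hgen x)
      have hyC : y ∈ Subgroup.centralizer (Q : Set G) := by
        rw [Subgroup.mem_centralizer_iff]
        intro q hq
        exact hQcomm q hq y hy
      have hzC : z ∈ Subgroup.centralizer (Q : Set G) := by
        have : z = y⁻¹ * (y * z) := by group
        rw [this]
        exact Subgroup.mul_mem _ (Subgroup.inv_mem _ hyC) hx
      obtain ⟨i, hi⟩ := hform z hz
      rcases hi with rfl | rfl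
      · -- `z = d ^ i`
        have h3 : i = 3 * (i / 3) + i % 3 := (Int.mul_ediv_add_emod i 3).symm
        have h4 : d ^ i = d ^ (i % 3) := by
          conv_lhs => rw [h3]
          rw [zpow_add, zpow_mul]
          have : d ^ (3 : ℤ) = 1 := by exact_mod_cast hd3
          rw [this, one_zpow, one_mul]
        have h5 : 0 ≤ i % 3 := Int.emod_nonneg _ (by norm_num)
        have h6 : i % 3 < 3 := Int.emod_lt_of_pos _ (by norm_num)
        rw [h4] at hzC
        have h7 : i % 3 = 0 ∨ i % 3 = 1 ∨ i % 3 = 2 := by omega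
        rcases h7 with h7 | h7 | h7
        · rw [h4, h7, zpow_zero, mul_one]
          exact hy
        · rw [h7, zpow_one] at hzC
          exact absurd hzC hdC
        · rw [h7] at hzC
          have : d ^ (2 : ℤ) = d * d := by
            rw [show (2 : ℤ) = 1 + 1 by norm_num, zpow_add, zpow_one]
          rw [this] at hzC
          exact absurd hzC hd2C
      · -- `z = d ^ i * a`
        exfalso
        apply hd2C
        have h1 : d * (d ^ i * a) * d⁻¹ ∈ Subgroup.centralizer (Q : Set G) := hCn.conj_mem _ hzC d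
        have h2 : d * (d ^ i * a) * d⁻¹ = d * d ^ i * d * a := by
          have h3 := hazp (-1)
          rw [zpow_neg, zpow_one, neg_neg, zpow_one] at h3
          calc d * (d ^ i * a) * d⁻¹ = d * d ^ i * (a * d⁻¹) := by group
            _ = d * d ^ i * (d * a) := by rw [h3]
            _ = d * d ^ i * d * a := by group
        have h4 : (d * (d ^ i * a) * d⁻¹) * (d ^ i * a)⁻¹ = d * d := by
          rw [h2]
          have : d * d ^ i * d = d * d * d ^ i := by
            have hc : Commute (d ^ i) d := (Commute.refl d).zpow_left i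
            rw [mul_assoc, hc.eq, ← mul_assoc]
          rw [this, mul_assoc (d * d) (d ^ i) a, mul_inv_cancel_right]
        rw [← h4]
        exact Subgroup.mul_mem _ h1 (Subgroup.inv_mem _ hzC)
    have hcore : H.normalCore = ⊥ := by
      rw [eq_bot_iff]
      intro x hx
      have hxH : x ∈ H := Subgroup.normalCore_le H hx
      have hxC : x ∈ Subgroup.centralizer (Q : Set G) := by
        rw [Subgroup.mem_centralizer_iff]
        intro q hq
        have h1 : q * x * q⁻¹ ∈ H := hx q
        have h2 : q * x * q⁻¹ * x⁻¹ ∈ H := H.mul_mem h1 (H.inv_mem hxH)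
        have h3 : q * x * q⁻¹ * x⁻¹ ∈ Q := by
          have : q * x * q⁻¹ * x⁻¹ = q * (x * q⁻¹ * x⁻¹) := by group
          rw [this]
          exact Q.mul_mem hq (hQn.conj_mem _ (Q.inv_mem hq) x)
        have h4 : q * x * q⁻¹ * x⁻¹ = 1 := Subgroup.disjoint_def.1 hdisj h3 h2
        rw [mul_inv_eq_one, mul_inv_eq_iff_eq_mul] at h4
        exact h4
      have h5 := Subgroup.disjoint_def.1 hdisj (hCQ hxC) hxH
      exact Subgroup.mem_bot.2 h5
    have ha1 : a ≠ 1 := by
      rintro rfl
      apply hd1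
      have h1 : d = d⁻¹ := by simpa using had
      have h2 : d * d = 1 := by
        nth_rewrite 2 [h1]
        group
      have h3 : d ^ 3 = d * (d * d) := by simp [pow_succ, mul_assoc]
      rw [h3, h2, mul_one] at hd3
      exact hd3
    have hcardH : 6 ∣ Nat.card H := by
      have h2 : 2 ∣ Nat.card H := by
        have h3 : orderOf (⟨a, haH⟩ : H) = 2 := by
          apply orderOf_eq_prime
          · apply Subtype.ext
            simpa [pow_two] using ha2'
          · intro h
            exact ha1 (congrArg Subtype.val h)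
        rw [← h3]
        exact orderOf_dvd_natCard _
      have h3 : 3 ∣ Nat.card H := by
        have h4 : orderOf (⟨d, hdH⟩ : H) = 3 := by
          apply orderOf_eq_prime
          · apply Subtype.ext
            simpa using hd3
          · intro h
            exact hd1 (congrArg Subtype.val h)
        rw [← h4]
        exact orderOf_dvd_natCard _
      have : 2 * 3 ∣ Nat.card H := Nat.Coprime.mul_dvd_of_dvd_of_dvd (by norm_num) h2 h3
      simpa using this
    have hcardG : (4 : ℕ).factorial ≤ Nat.card G := by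
      have h1 : Nat.card G = Nat.card H * 4 := by
        rw [← Subgroup.card_mul_index H, hindex]
      obtain ⟨m, hm⟩ := hcardH
      have hm0 : m ≠ 0 := by
        rintro rfl
        have := Nat.card_pos (α := H)
        omega
      rw [h1, hm]
      have : (4 : ℕ).factorial = 24 := rfl
      rw [this]
      have : 1 ≤ m := Nat.one_le_iff_ne_zero.2 hm0
      nlinarith
    exact invTo_perm_of_core H 4 hindex hcore hcardG

/-- Main criterion. -/
theorem s4_of_pair {G : Type u} [Group G] [Finite G] (Q : Subgroup G) [hQn : Q.Normal] (hQ : IsPGroup 2 Q)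
    (a d : G) (hd3 : d ^ 3 = 1) (had : a * d * a⁻¹ * d ∈ Q) (ha2 : a ^ 2 ∈ Q)
    (hmove : ∃ q ∈ Q, d * q * d⁻¹ ≠ q) : Cfsg.Involves (Equiv.Perm (Fin 4)) G := by
  classical
  haveI : Fact (Nat.Prime 2) := ⟨Nat.prime_two⟩
  haveI : Fact (Nat.Prime 3) := ⟨Nat.prime_three⟩
  have hd1 : d ≠ 1 := by
    rintro rfl
    obtain ⟨q, _, h⟩ := hmove
    exact h (by group)
  have hcZ : Nat.card (Subgroup.zpowers d) = 3 := by
    rw [Nat.card_zpowers, orderOf_eq_prime hd3 hd1]
  have hcop : Nat.Coprime (Nat.card Q) (Nat.card (Subgroup.zpowers d)) := by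
    obtain ⟨k, hk⟩ := IsPGroup.iff_card.1 hQ
    rw [hk, hcZ]
    exact Nat.Coprime.pow_left _ (by norm_num)
  obtain ⟨n, hn, hna⟩ := Cfsg.Agent.Lib.SchurZ.exists_normalizing Q (Subgroup.zpowers d)
    (by
      rw [Subgroup.normalizer_eq_top_iff.2 hQn]
      exact le_top)
    a
    (by
      rintro _ ⟨k, rfl⟩
      show a * d ^ k * a⁻¹ ∈ _
      rw [← conj_zpow]
      apply Subgroup.zpow_mem
      have e : a * d * a⁻¹ = (a * d * a⁻¹ * d) * d⁻¹ := by group
      rw [e]
      exact Subgroup.mul_mem _ ((le_sup_left : Q ≤ _) had)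
        ((le_sup_right : Subgroup.zpowers d ≤ _) (Subgroup.inv_mem _ (Subgroup.mem_zpowers d))))
    hcop (Or.inr inferInstance)
  set a₁ := n * a with ha₁
  have hZQ : ∀ x ∈ Subgroup.zpowers d, x ∈ Q → x = 1 := by
    intro x hx hxQ
    have h1 : Nat.Coprime (orderOf x) 3 := by
      have h2 : orderOf x ∣ Nat.card Q := by
        have := orderOf_dvd_natCard (⟨x, hxQ⟩ : Q)
        rwa [Subgroup.orderOf_mk] at this
      exact (Nat.Coprime.coprime_dvd_left h2 (by rw [← hcZ]; exact hcop))
    have h3 : orderOf x ∣ 3 := by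
      have h4 := orderOf_dvd_natCard (⟨x, hx⟩ : Subgroup.zpowers d)
      rw [Subgroup.orderOf_mk, hcZ] at h4
      exact h4
    have h5 : orderOf x = 1 := Nat.Coprime.eq_one_of_dvd h1 h3
    exact orderOf_eq_one_iff.1 h5
  have had₁ : a₁ * d * a₁⁻¹ = d⁻¹ := by
    have h1 : a₁ * d * a₁⁻¹ ∈ Subgroup.zpowers d :=
      (Subgroup.mem_normalizer_iff.1 hna d).1 (Subgroup.mem_zpowers d)
    have h2 : a₁ * d * a₁⁻¹ * d ∈ Subgroup.zpowers d :=
      Subgroup.mul_mem _ h1 (Subgroup.mem_zpowers d)
    have h3 : a₁ * d * a₁⁻¹ * d ∈ Q := by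
      have e : a₁ * d * a₁⁻¹ * d = n * (a * d * a⁻¹ * d) * (d⁻¹ * n⁻¹ * d) := by
        rw [ha₁]; group
      rw [e]
      refine Q.mul_mem (Q.mul_mem hn had) ?_
      have := hQn.conj_mem _ (Q.inv_mem hn) d⁻¹
      simpa using this
    have h4 := hZQ _ h2 h3
    exact eq_inv_of_mul_eq_one_left h4
  have ha₁2 : a₁ ^ 2 ∈ Q := by
    have e : a₁ ^ 2 = n * (a * n * a⁻¹) * a ^ 2 := by
      rw [ha₁, pow_two, pow_two]; group
    rw [e]
    exact Q.mul_mem (Q.mul_mem hn (hQn.conj_mem n hn a)) ha2
  let Y : Subgroup G := Q ⊔ Subgroup.closure {a₁, d}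
  have hQY : Q ≤ Y := le_sup_left
  have ha₁Y : a₁ ∈ Y := (le_sup_right : Subgroup.closure {a₁, d} ≤ Y) (Subgroup.subset_closure (Or.inl rfl))
  have hdY : d ∈ Y := (le_sup_right : Subgroup.closure {a₁, d} ≤ Y) (Subgroup.subset_closure (Or.inr rfl))
  let Q' : Subgroup Y := Q.subgroupOf Y
  haveI hQ'n : Q'.Normal := hQn.subgroupOf Y
  have hQ'p : IsPGroup 2 Q' := hQ.comap_of_injective Y.subtype Y.subtype_injective
  let a' : Y := ⟨a₁, ha₁Y⟩
  let d' : Y := ⟨d, hdY⟩
  have hgen : ∀ g : Y, g ∈ Q' ⊔ Subgroup.closure {a', d'} := by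
    intro g
    have h1 : (g : G) ∈ (Q' ⊔ Subgroup.closure {a', d'}).map Y.subtype := by
      rw [Subgroup.map_sup, MonoidHom.map_closure, Set.image_pair]
      have h2 : Y ≤ Q'.map Y.subtype ⊔ Subgroup.closure {Y.subtype a', Y.subtype d'} := by
        refine sup_le ?_ ?_
        · intro x hx
          apply (le_sup_left : Q'.map Y.subtype ≤ _)
          exact ⟨⟨x, hQY hx⟩, hx, rfl⟩
        · exact (le_sup_right : Subgroup.closure {Y.subtype a', Y.subtype d'} ≤ _)
      exact h2 g.2
    obtain ⟨g', hg', e⟩ := h1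
    have : g' = g := Subtype.ext e
    rwa [← this]
  have := s4_core (Nat.card Y) Y rfl Q' hQ'p a' d'
    (Subtype.ext (by simpa [d'] using hd3))
    (Subtype.ext (by simpa [a', d'] using had₁))
    (by
      show ((a' ^ 2 : Y) : G) ∈ Q
      simpa [a'] using ha₁2)
    hgen
    (by
      obtain ⟨q, hq, h⟩ := hmove
      refine ⟨⟨q, hQY hq⟩, hq, ?_⟩
      intro h1
      apply h
      have := congrArg Subtype.val h1
      simpa [d'] using this)
  exact involves_iff.2 this.of_le

/-- An involution inverting an element of order three gives a section `Sym(3)` (in fact a subgroup). -/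
theorem s3_of_pair {K : Type u} [Group K] [Finite K] (a d : K) (ha : a * a = 1) (hd1 : d ≠ 1)
    (hd3 : d ^ 3 = 1) (had : a * d * a⁻¹ = d⁻¹) : Cfsg.Involves (Equiv.Perm (Fin 3)) K := by
  classical
  haveI : Fact (Nat.Prime 2) := ⟨Nat.prime_two⟩
  haveI : Fact (Nat.Prime 3) := ⟨Nat.prime_three⟩
  have hdord : orderOf d = 3 := orderOf_eq_prime hd3 hd1
  have hd2 : d * d ≠ 1 := by
    intro h
    apply hd1
    have h3 : d ^ 3 = d * (d * d) := by simp [pow_succ, mul_assoc]
    rw [h3, h, mul_one] at hd3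
    exact hd3
  have hne : d ≠ d⁻¹ := by
    intro h
    apply hd2
    nth_rewrite 2 [h]
    group
  have ha1 : a ≠ 1 := by
    rintro rfl
    apply hne
    simpa using had
  have haord : orderOf a = 2 := orderOf_eq_prime (by simpa [pow_two] using ha) ha1
  let N : Subgroup K := Subgroup.zpowers d
  let A₀ : Subgroup K := Subgroup.zpowers a
  have hA₀ : A₀ ≤ Subgroup.normalizer (N : Set K) := by
    rw [Subgroup.zpowers_le]
    apply mem_normalizer_of_forall
    rintro _ ⟨k, rfl⟩
    refine ⟨-k, ?_⟩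
    show d ^ (-k) = a * d ^ k * a⁻¹
    rw [← conj_zpow, had, inv_zpow, zpow_neg]
  have hc := Cfsg.Agent.Lib.SchurZ2.card_sup_mul_card_inf N A₀ hA₀
  have hinf : N ⊓ A₀ = ⊥ := by
    rw [eq_bot_iff]
    rintro x ⟨hx1, hx2⟩
    have h3 : orderOf x ∣ 3 := by
      have h4 := orderOf_dvd_natCard (⟨x, hx1⟩ : N)
      rwa [Subgroup.orderOf_mk, Nat.card_zpowers, hdord] at h4
    have h2 : orderOf x ∣ 2 := by
      have h4 := orderOf_dvd_natCard (⟨x, hx2⟩ : A₀)
      rwa [Subgroup.orderOf_mk, Nat.card_zpowers, haord] at h4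
    have h5 : orderOf x ∣ 1 := by
      have := Nat.dvd_gcd h3 h2
      simpa using this
    exact Subgroup.mem_bot.2 (orderOf_eq_one_iff.1 (Nat.dvd_one.1 h5))
  rw [hinf, Subgroup.card_bot, mul_one] at hc
  have hcN : Nat.card N = 3 := by rw [Nat.card_zpowers, hdord]
  have hcA : Nat.card A₀ = 2 := by rw [Nat.card_zpowers, haord]
  rw [hcN, hcA] at hc
  let Y : Subgroup K := N ⊔ A₀
  let H : Subgroup Y := A₀.subgroupOf Y
  have hcH : Nat.card H = 2 := by
    rw [← hcA]
    exact Nat.card_congr (Subgroup.subgroupOfEquivOfLe le_sup_right).toEquiv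
  have hindex : H.index = 3 := by
    have h1 := Subgroup.card_mul_index H
    rw [hcH] at h1
    have h2 : Nat.card Y = 6 := hc
    omega
  have hzp : ∀ z ∈ A₀, z = 1 ∨ z = a := by
    rintro _ ⟨k, rfl⟩
    have h1 : a ^ (2 : ℤ) = 1 := by
      rw [show (2 : ℤ) = ((2 : ℕ) : ℤ) by norm_num, zpow_natCast, pow_two, ha]
    have h2 : k = 2 * (k / 2) + k % 2 := (Int.mul_ediv_add_emod k 2).symm
    have h3 : a ^ k = a ^ (k % 2) := by
      conv_lhs => rw [h2]
      rw [zpow_add, zpow_mul, h1, one_zpow, one_mul]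
    have h4 : k % 2 = 0 ∨ k % 2 = 1 := by omega
    show a ^ k = 1 ∨ a ^ k = a
    rw [h3]
    rcases h4 with h4 | h4
    · left; rw [h4, zpow_zero]
    · right; rw [h4, zpow_one]
  have hcore : H.normalCore = ⊥ := by
    rw [eq_bot_iff]
    intro x hx
    have hxH : (x : K) ∈ A₀ := Subgroup.normalCore_le H hx
    have hdY : d ∈ Y := (le_sup_left : N ≤ Y) (Subgroup.mem_zpowers d)
    rcases hzp _ hxH with h | h
    · exact Subgroup.mem_bot.2 (Subtype.ext h)
    · exfalso
      have h1 : (⟨d, hdY⟩ : Y) * x * (⟨d, hdY⟩ : Y)⁻¹ ∈ H := hx _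
      have h2 : d * a * d⁻¹ ∈ A₀ := by
        have h3 : ((⟨d, hdY⟩ : Y) * x * (⟨d, hdY⟩ : Y)⁻¹ : Y).1 = d * x.1 * d⁻¹ := rfl
        have h4 : ((⟨d, hdY⟩ : Y) * x * (⟨d, hdY⟩ : Y)⁻¹ : Y).1 ∈ A₀ := h1
        rwa [h3, h] at h4
      rcases hzp _ h2 with h3 | h3
      · apply ha1
        have : a = d⁻¹ * (d * a * d⁻¹) * d := by group
        rw [this, h3]; group
      · apply hne
        have h4 : d * a = a * d := by
          rw [mul_inv_eq_iff_eq_mul] at h3
          exact h3
        have h5 : a * d * a⁻¹ = d := by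
          rw [← h4]; group
        rw [← had, h5]
  have hle : (3 : ℕ).factorial ≤ Nat.card Y := by
    have h2 : Nat.card Y = 6 := hc
    rw [h2]
    decide
  exact involves_iff.2 (invTo_perm_of_core H 3 hindex hcore hle).of_le

end Cfsg.Agent.Lib.S4Sec
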