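import Mathlib
import Cfsg.Prelude
import Cfsg.Agent.Lib.S4Sec
import Cfsg.Agent.Lib.Offender
import Cfsg.Agent.Lib.FitCore
import Cfsg.Agent.Lib.FitSolv
import Cfsg.Agent.Lib.SchurZ
import Cfsg.Agent.Lib.SchurZ2
import Cfsg.Agent.Lib.Replacement
import Cfsg.Agent.Lib.CoprimeAct
import Cfsg.Agent.Lib.PReduced
import Cfsg.Agent.Lib.PCore

/-!
Solvable groups without sections `Sym(4)` and with Sylow `2`-subgroups of class at most two:
the elementary abelian subgroups of largest order of a Sylow `2`-subgroup lie in `O₂(G)` when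
`O_{2'}(G) = 1`.
-/

set_option autoImplicit false
set_option linter.all false

namespace Cfsg.Agent.Lib.ClassTwoJ

open Cfsg
open scoped commutatorElement

universe u

section basics

variable {G : Type u} [Group G]

theorem elem_comm {H : Subgroup G} (hH : IsElementaryAbelian 2 H) : ∀ a ∈ H, ∀ b ∈ H, a * b = b * a := by
  intro a ha b hb
  haveI := hH.1
  have := mul_comm' (⟨a, ha⟩ : H) ⟨b, hb⟩
  exact congrArg Subtype.val this

theorem elem_sq {H : Subgroup G} (hH : IsElementaryAbelian 2 H) : ∀ a ∈ H, a * a = 1 := by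
  intro a ha
  have := hH.2 a ha
  simpa [pow_two] using this

theorem elem_of {H : Subgroup G} (h1 : ∀ a ∈ H, ∀ b ∈ H, a * b = b * a) (h2 : ∀ a ∈ H, a * a = 1) :
    IsElementaryAbelian 2 H := by
  refine ⟨⟨⟨fun a b => Subtype.ext (h1 a a.2 b b.2)⟩⟩, fun a ha => ?_⟩
  simpa [pow_two] using h2 a ha

theorem elem_sup {H K : Subgroup G} (hH : IsElementaryAbelian 2 H) (hK : IsElementaryAbelian 2 K)
    (h : ∀ x ∈ H, ∀ y ∈ K, x * y = y * x) : IsElementaryAbelian 2 (H ⊔ K) := by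
  have hN : H ≤ Subgroup.normalizer (K : Set G) := by
    intro x hx
    rw [Subgroup.mem_normalizer_iff]
    intro y
    have hc : ∀ y ∈ K, x * y * x⁻¹ = y := by
      intro y hy
      rw [h x hx y hy]; group
    constructor
    · intro hy
      rw [hc y hy]; exact hy
    · intro hy
      have h1 := hc _ hy
      have h2 : x * y * x⁻¹ = y := by
        have e : x * (x * y * x⁻¹) * x⁻¹ = x * y * x⁻¹ := h1
        have := mul_left_cancel (a := x) (by
          have e2 := mul_right_cancel (a := x * (x * y * x⁻¹)) (b := x⁻¹) (c := x * y) (by simpa [mul_assoc] using e)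
          exact e2)
        exact this
      rw [← h2]; exact hy
  apply elem_of
  · intro a ha b hb
    obtain ⟨x, hx, y, hy, rfl⟩ := Cfsg.Agent.Lib.Replacement.mem_sup_of_le_normalizer hN ha
    obtain ⟨x', hx', y', hy', rfl⟩ := Cfsg.Agent.Lib.Replacement.mem_sup_of_le_normalizer hN hb
    calc x * y * (x' * y') = x * (y * x') * y' := by group
      _ = x * (x' * y) * y' := by rw [h x' hx' y hy]
      _ = (x * x') * (y * y') := by group
      _ = (x' * x) * (y' * y) := by rw [elem_comm hH x hx x' hx', elem_comm hK y hy y' hy']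
      _ = x' * (x * y') * y := by group
      _ = x' * (y' * x) * y := by rw [h x hx y' hy']
      _ = x' * y' * (x * y) := by group
  · intro a ha
    obtain ⟨x, hx, y, hy, rfl⟩ := Cfsg.Agent.Lib.Replacement.mem_sup_of_le_normalizer hN ha
    calc x * y * (x * y) = x * (y * x) * y := by group
      _ = x * (x * y) * y := by rw [h x hx y hy]
      _ = (x * x) * (y * y) := by group
      _ = 1 := by rw [elem_sq hH x hx, elem_sq hK y hy, one_mul]

variable [Finite G]

/-- The basic inequality for an elementary abelian subgroup of largest order. -/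
theorem thompson_ineq (S A V : Subgroup G) (hAS : A ≤ S) (hVS : V ≤ S) (hA : IsElementaryAbelian 2 A)
    (hV : IsElementaryAbelian 2 V)
    (hmax : ∀ B : Subgroup G, B ≤ S → IsElementaryAbelian 2 B → Nat.card B ≤ Nat.card A) :
    Nat.card V * Nat.card (A ⊓ Subgroup.centralizer (V : Set G) : Subgroup G) ≤
      Nat.card A * Nat.card (V ⊓ Subgroup.centralizer (A : Set G) : Subgroup G) := by
  set A₁ : Subgroup G := A ⊓ Subgroup.centralizer (V : Set G) with hA₁
  set V₁ : Subgroup G := V ⊓ Subgroup.centralizer (A : Set G) with hV₁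
  have hA₁e : IsElementaryAbelian 2 A₁ :=
    elem_of (fun a ha b hb => elem_comm hA a ha.1 b hb.1) (fun a ha => elem_sq hA a ha.1)
  have hV₁e : IsElementaryAbelian 2 V₁ :=
    elem_of (fun a ha b hb => elem_comm hV a ha.1 b hb.1) (fun a ha => elem_sq hV a ha.1)
  -- `V₁ ≤ A`
  have hsup : IsElementaryAbelian 2 (A ⊔ V₁) := elem_sup hA hV₁e (fun x hx y hy =>
    (Subgroup.mem_centralizer_iff.1 hy.2 x hx))
  have hV₁A : V₁ ≤ A := by
    have h1 : Nat.card (A ⊔ V₁ : Subgroup G) ≤ Nat.card A := hmax _ (sup_le hAS (inf_le_left.trans hVS)) hsup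
    have h2 : A = A ⊔ V₁ := Subgroup.eq_of_le_of_card_ge le_sup_left h1
    rw [h2]
    exact le_sup_right
  have hinf : V ⊓ A₁ = V₁ := by
    apply le_antisymm
    · rintro x ⟨hxV, hxA, _⟩
      exact ⟨hxV, Subgroup.mem_centralizer_iff.2 (fun a ha => elem_comm hA a ha x hxA)⟩
    · intro x hx
      exact ⟨hx.1, hV₁A hx, Subgroup.mem_centralizer_iff.2 (fun v hv => elem_comm hV v hv x hx.1)⟩
  have hN : A₁ ≤ Subgroup.normalizer (V : Set G) := by
    intro x hx
    rw [Subgroup.mem_normalizer_iff]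
    intro y
    by_cases hy : y ∈ V
    · have h1 : x * y * x⁻¹ = y := by
        have := Subgroup.mem_centralizer_iff.1 hx.2 y hy
        rw [← this]; group
      rw [h1]
    · constructor
      · intro h; exact absurd h hy
      · intro h
        have h1 : x⁻¹ * (x * y * x⁻¹) * x = y := by group
        have h2 : x⁻¹ ∈ Subgroup.centralizer (V : Set G) := Subgroup.inv_mem _ hx.2
        have h3 := Subgroup.mem_centralizer_iff.1 h2 _ h
        have h4 : x⁻¹ * (x * y * x⁻¹) * x = x * y * x⁻¹ := by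
          rw [← h3]
          group
        rw [h1] at h4
        rw [h4]; exact h
  have hc := Cfsg.Agent.Lib.SchurZ2.card_sup_mul_card_inf V A₁ hN
  rw [hinf] at hc
  rw [← hc]
  apply Nat.mul_le_mul_right
  apply hmax _ (sup_le hVS (inf_le_left.trans hAS))
  exact elem_sup hV hA₁e (fun x hx y hy => Subgroup.mem_centralizer_iff.1 hy.2 x hx)

end basics

section main

variable {G : Type u} [Group G] [Finite G]

set_option maxHeartbeats 2000000 in
theorem le_pCore_of_max [hsG : Group.IsSolvable G] (hO : pPrimeCore 2 G = ⊥)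
    (hS4 : ¬ Cfsg.Involves (Equiv.Perm (Fin 4)) G) (S : Sylow 2 G)
    (hcl : ∀ x ∈ (S : Subgroup G), ∀ y ∈ (S : Subgroup G), ∀ z ∈ (S : Subgroup G),
      (x * y * x⁻¹ * y⁻¹) * z = z * (x * y * x⁻¹ * y⁻¹))
    (A : Subgroup G) (hAS : A ≤ (S : Subgroup G)) (hA : IsElementaryAbelian 2 A)
    (hmax : ∀ B : Subgroup G, B ≤ (S : Subgroup G) → IsElementaryAbelian 2 B → Nat.card B ≤ Nat.card A) :
    A ≤ pCore 2 G := by
  classical
  haveI : Fact (Nat.Prime 2) := ⟨Nat.prime_two⟩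
  haveI : Fact (Nat.Prime 3) := ⟨Nat.prime_three⟩
  set Q := pCore 2 G with hQdef
  haveI hQn : Q.Normal := Cfsg.Agent.Lib.FitCore.pCore_normal 2
  have hQp : IsPGroup 2 Q := Cfsg.Agent.Lib.FitCore.pCore_isPGroup 2
  have hCQ : Subgroup.centralizer (Q : Set G) ≤ Q := Cfsg.Agent.Lib.FitSolv.centralizer_pCore_le 2 hO
  have hQS : Q ≤ (S : Subgroup G) := Cfsg.Agent.Lib.FitCore.pCore_le_sylow 2 S
  haveI hCn : (Subgroup.centralizer (Q : Set G)).Normal := Subgroup.normal_centralizer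
  -- the centre of `Q`
  let Z : Subgroup G := Q ⊓ Subgroup.centralizer (Q : Set G)
  haveI hZn : Z.Normal := Subgroup.normal_inf_normal _ _
  have hZc : ∀ z ∈ Z, ∀ q ∈ Q, q * z = z * q := fun z hz q hq => Subgroup.mem_centralizer_iff.1 hz.2 q hq
  have hZcomm : ∀ x ∈ Z, ∀ y ∈ Z, x * y = y * x := fun x hx y hy => (hZc x hx y hy.1).symm
  -- its involutions
  let V₀ : Subgroup G :=
    { carrier := {z | z ∈ Z ∧ z * z = 1}
      mul_mem' := by
        rintro x y ⟨hx, hx2⟩ ⟨hy, hy2⟩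
        refine ⟨Z.mul_mem hx hy, ?_⟩
        calc x * y * (x * y) = x * (y * x) * y := by group
          _ = x * (x * y) * y := by rw [hZcomm y hy x hx]
          _ = (x * x) * (y * y) := by group
          _ = 1 := by rw [hx2, hy2, one_mul]
      one_mem' := ⟨Z.one_mem, one_mul 1⟩
      inv_mem' := by
        rintro x ⟨hx, hx2⟩
        refine ⟨Z.inv_mem hx, ?_⟩
        rw [← mul_inv_rev, hx2, inv_one] }
  have hV₀mem : ∀ z, z ∈ V₀ ↔ z ∈ Z ∧ z * z = 1 := fun z => Iff.rfl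
  haveI hV₀n : V₀.Normal := by
    refine ⟨?_⟩
    rintro x ⟨hx, hx2⟩ g
    refine ⟨hZn.conj_mem x hx g, ?_⟩
    calc g * x * g⁻¹ * (g * x * g⁻¹) = g * (x * x) * g⁻¹ := by group
      _ = 1 := by rw [hx2]; group
  have hV₀e : IsElementaryAbelian 2 V₀ :=
    elem_of (fun a ha b hb => hZcomm a ha.1 b hb.1) (fun a ha => ha.2)
  have hV₀S : V₀ ≤ (S : Subgroup G) := fun x hx => hQS hx.1.1
  -- the stabilizer of `Q / Z`
  let E : Subgroup G :=
    { carrier := {g | ∀ q ∈ Q, g * q * g⁻¹ * q⁻¹ ∈ Z}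
      mul_mem' := by
        intro g h hg hh q hq
        have e : (g * h) * q * (g * h)⁻¹ * q⁻¹ = g * (h * q * h⁻¹ * q⁻¹) * g⁻¹ * (g * q * g⁻¹ * q⁻¹) := by group
        rw [e]
        exact Z.mul_mem (hZn.conj_mem _ (hh q hq) g) (hg q hq)
      one_mem' := by
        intro q _
        have e : (1 : G) * q * (1 : G)⁻¹ * q⁻¹ = 1 := by group
        rw [e]
        exact Z.one_mem
      inv_mem' := by
        intro g hg q hq
        have h1 := hg _ (hQn.conj_mem q hq g⁻¹)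
        have e : g⁻¹ * q * g⁻¹⁻¹ * q⁻¹ = (g * (g⁻¹ * q * g⁻¹⁻¹) * g⁻¹ * (g⁻¹ * q * g⁻¹⁻¹)⁻¹)⁻¹ := by group
        rw [e]
        exact Z.inv_mem h1 }
  have hEmem : ∀ g, g ∈ E ↔ ∀ q ∈ Q, g * q * g⁻¹ * q⁻¹ ∈ Z := fun g => Iff.rfl
  haveI hEn : E.Normal := by
    refine ⟨?_⟩
    intro g hg x q hq
    have h1 := hg _ (hQn.conj_mem q hq x⁻¹)
    have e : x * g * x⁻¹ * q * (x * g * x⁻¹)⁻¹ * q⁻¹ =
        x * (g * (x⁻¹ * q * x⁻¹⁻¹) * g⁻¹ * (x⁻¹ * q * x⁻¹⁻¹)⁻¹) * x⁻¹ := by group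
    rw [e]
    exact hZn.conj_mem _ h1 x
  have hSE : (S : Subgroup G) ≤ E := by
    intro s hs q hq
    refine ⟨Q.mul_mem (hQn.conj_mem q hq s) (Q.inv_mem hq), Subgroup.mem_centralizer_iff.2 ?_⟩
    intro t ht
    exact (hcl s hs q (hQS hq) t (hQS ht)).symm
  have hAE : A ≤ E := hAS.trans hSE
  have hQE : Q ≤ E := hQS.trans hSE
  -- the action on `V₀`
  haveI hVc : IsMulCommutative V₀ := hV₀e.1
  letI : CommGroup V₀ := { (inferInstance : Group V₀) with mul_comm := fun a b => mul_comm' a b }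
  have hVexp : ∀ v : V₀, v * v = 1 := by
    intro v
    apply Subtype.ext
    exact v.2.2
  let φ : G →* MulAut V₀ := MulAut.conjNormal
  have hφ : ∀ (g : G) (v : V₀), ((φ g v : V₀) : G) = g * v * g⁻¹ := fun g v => MulAut.conjNormal_apply g v
  have hφ1 : ∀ g, φ g = 1 ↔ g ∈ Subgroup.centralizer (V₀ : Set G) := by
    intro g
    constructor
    · intro h
      refine Subgroup.mem_centralizer_iff.2 ?_
      intro v hv
      have h1 : φ g ⟨v, hv⟩ = ⟨v, hv⟩ := by rw [h]; rfl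
      have h2 := congrArg Subtype.val h1
      rw [hφ] at h2
      rw [mul_inv_eq_iff_eq_mul] at h2
      exact h2.symm
    · intro h
      apply MulEquiv.ext
      intro v
      apply Subtype.ext
      rw [hφ]
      have h1 := Subgroup.mem_centralizer_iff.1 h v.1 v.2
      show g * v.1 * g⁻¹ = v.1
      rw [← h1]
      group
  -- elements of `E` acting trivially on `V₀` form a normal `2`-subgroup
  let C₁ : Subgroup G := E ⊓ Subgroup.centralizer (V₀ : Set G)
  haveI hC₀n : (Subgroup.centralizer (V₀ : Set G)).Normal := Subgroup.normal_centralizer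
  haveI hC₁n : C₁.Normal := Subgroup.normal_inf_normal _ _
  have hC₁p : IsPGroup 2 C₁ := by
    apply Cfsg.Agent.Lib.CoprimeAct.isPGroup_of_coprime_eq_one
    rintro x ⟨hxE, hxC⟩ hxo
    have hxV : ∀ v ∈ V₀, x * v = v * x := fun v hv => (Subgroup.mem_centralizer_iff.1 hxC v hv).symm
    have hstep1 : ∀ k : ℕ, ∀ z ∈ Z, z ^ (2 ^ k) = 1 → x * z * x⁻¹ = z := by
      intro k
      induction k with
      | zero =>
        intro z _ hz
        have : z = 1 := by simpa using hz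
        rw [this]; group
      | succ k ih =>
        intro z hz hzk
        have hz2 : z * z ∈ Z := Z.mul_mem hz hz
        have h1 : x * (z * z) * x⁻¹ = z * z := by
          apply ih _ hz2
          rw [← pow_two, ← pow_mul, ← pow_succ']
          exact hzk
        set u := (x * z * x⁻¹) * z⁻¹ with hu
        have hxz : x * z * x⁻¹ ∈ Z := hZn.conj_mem z hz x
        have huZ : u ∈ Z := Z.mul_mem hxz (Z.inv_mem hz)
        have hu2 : u * u = 1 := by
          have e : u * u = ((x * z * x⁻¹) * (x * z * x⁻¹)) * (z⁻¹ * z⁻¹) := by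
            rw [hu]
            calc (x * z * x⁻¹) * z⁻¹ * ((x * z * x⁻¹) * z⁻¹)
                = (x * z * x⁻¹) * (z⁻¹ * (x * z * x⁻¹)) * z⁻¹ := by group
              _ = (x * z * x⁻¹) * ((x * z * x⁻¹) * z⁻¹) * z⁻¹ := by
                  rw [hZcomm _ (Z.inv_mem hz) _ hxz]
              _ = _ := by group
          have e2 : (x * z * x⁻¹) * (x * z * x⁻¹) = x * (z * z) * x⁻¹ := by group
          rw [e, e2, h1]
          group
        have huV : u ∈ V₀ := ⟨huZ, hu2⟩
        have h2 : x * z * x⁻¹ = u * z := by rw [hu]; group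
        obtain ⟨k', hk'⟩ := (IsPGroup.iff_orderOf.1 hQp) ⟨u, huZ.1⟩
        rw [Subgroup.orderOf_mk] at hk'
        have h3 := Cfsg.Agent.Lib.CoprimeAct.comm_trivial_of_coprime h2 (hxV u huV) hxo hk'
        rw [h2, h3, one_mul]
    have hstep2 : ∀ z ∈ Z, x * z * x⁻¹ = z := by
      intro z hz
      obtain ⟨k', hk'⟩ := (IsPGroup.iff_orderOf.1 hQp) ⟨z, hz.1⟩
      rw [Subgroup.orderOf_mk] at hk'
      apply hstep1 k' z hz
      rw [← hk']
      exact pow_orderOf_eq_one z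
    have hstep3 : x ∈ Subgroup.centralizer (Q : Set G) := by
      refine Subgroup.mem_centralizer_iff.2 ?_
      intro q hq
      have h1 : ⁅x, q⁆ ∈ Z := by
        rw [commutatorElement_def]
        exact hxE q hq
      have h2 := Cfsg.Agent.Lib.CoprimeAct.commutator_trivial_of_coprime hQp h1.1
        (by
          have := hstep2 _ h1
          rw [mul_inv_eq_iff_eq_mul] at this
          exact this)
        hxo
      rw [mul_inv_eq_iff_eq_mul] at h2
      exact h2.symm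
    exact Cfsg.Agent.Lib.CoprimeAct.eq_one_of_mem_pgroup_of_coprime hQp (hCQ hstep3) hxo
  have hC₁Q : C₁ ≤ Q := Cfsg.Agent.Lib.FitCore.le_pCore 2 C₁ hC₁n hC₁p
  have hQker : ∀ q ∈ Q, φ q = 1 := by
    intro q hq
    rw [hφ1]
    refine Subgroup.mem_centralizer_iff.2 ?_
    intro v hv
    exact (hZc v hv.1 q hq).symm
  have hEker : ∀ g ∈ E, φ g = 1 → g ∈ Q := fun g hg h => hC₁Q ⟨hg, (hφ1 g).1 h⟩
  -- the group induced on `V₀`
  let Γ : Subgroup (MulAut V₀) := E.map φ
  let π : E →* Γ := φ.subgroupMap E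
  have hπ : Function.Surjective π := φ.subgroupMap_surjective E
  have hπa : ∀ x : E, ((π x : Γ) : MulAut V₀) = φ x.1 := fun x => rfl
  haveI hΓs : Group.IsSolvable Γ := Group.isSolvable_of_surjective hπ
  -- `O₂(Γ) = 1`
  have hP : pCore 2 Γ = ⊥ := by
    have hPn : (pCore 2 Γ).Normal := Cfsg.Agent.Lib.FitCore.pCore_normal 2
    have hPp : IsPGroup 2 (pCore 2 Γ) := Cfsg.Agent.Lib.FitCore.pCore_isPGroup 2
    have hkerp : IsPGroup 2 π.ker := by
      have h1 : IsPGroup 2 (C₁.comap E.subtype) := hC₁p.comap_of_injective E.subtype E.subtype_injective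
      have h2 : π.ker = C₁.comap E.subtype := by
        ext x
        constructor
        · intro hx
          have h3 : φ x.1 = 1 := congrArg Subtype.val hx
          exact ⟨x.2, (hφ1 _).1 h3⟩
        · intro hx
          apply Subtype.ext
          exact (hφ1 _).2 hx.2
      rw [h2]
      exact h1
    have hP1 : IsPGroup 2 ((pCore 2 Γ).comap π) := hPp.comap_of_ker_isPGroup π hkerp
    haveI hP2 : ((pCore 2 Γ).comap π).Normal := hPn.comap π
    have hP3 : (pCore 2 Γ).comap π ≤ pCore 2 E := Cfsg.Agent.Lib.FitCore.le_pCore 2 _ hP2 hP1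
    haveI hc1 : (pCore 2 E).Characteristic := by
      rw [Subgroup.characteristic_iff_map_eq]
      intro e
      exact Cfsg.Agent.Lib.PCore.pCore_map_equiv e
    have hn := Cfsg.Agent.Lib.FitCore.map_subtype_normal_of_char E (pCore 2 E)
    have hp2 : IsPGroup 2 ((pCore 2 E).map E.subtype) :=
      (Cfsg.Agent.Lib.FitCore.pCore_isPGroup 2).map E.subtype
    have hle : (pCore 2 E).map E.subtype ≤ Q := Cfsg.Agent.Lib.FitCore.le_pCore 2 _ hn hp2
    rw [eq_bot_iff]
    intro y hy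
    obtain ⟨x, rfl⟩ := hπ y
    have h1 : x ∈ pCore 2 E := hP3 hy
    have h2 : x.1 ∈ Q := hle ⟨x, h1, rfl⟩
    have h3 : φ x.1 = 1 := hQker _ h2
    exact Subgroup.mem_bot.2 (Subtype.ext h3)
  -- the `2'`-core of `Γ`
  set O := pPrimeCore 2 Γ with hOdef
  haveI hOn : O.Normal := Cfsg.Agent.Lib.FitCore.pPrimeCore_normal 2
  have hFO : fittingSubgroup Γ ≤ O := by
    rw [Cfsg.Agent.Lib.FitSolv.fitting_eq_iSup]
    refine iSup_le fun p => ?_
    haveI : Fact (p : ℕ).Prime := ⟨p.2⟩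
    by_cases hp : (p : ℕ) = 2
    · rw [hp, hP]
      exact bot_le
    · apply Cfsg.Agent.Lib.FitSolv.le_pPrimeCore 2 _ (Cfsg.Agent.Lib.FitCore.pCore_normal _)
      obtain ⟨k, hk⟩ := IsPGroup.iff_card.1 (Cfsg.Agent.Lib.FitCore.pCore_isPGroup (G := Γ) (p : ℕ))
      rw [hk]
      exact Nat.Coprime.pow_left _ ((Nat.coprime_primes p.2 Nat.prime_two).2 hp)
  have hCO : Subgroup.centralizer (O : Set Γ) ≤ O :=
    (Subgroup.centralizer_le hFO).trans (Cfsg.Agent.Lib.FitSolv.centralizer_fitting_le.trans hFO)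
  have hOodd : Odd (Nat.card O) :=
    Nat.odd_iff.2 (Nat.two_dvd_ne_zero.1 (Cfsg.Agent.Lib.FitCore.not_dvd_card_pPrimeCore 2 Nat.prime_two))
  have hAΓ : A.map φ ≤ Γ := Subgroup.map_mono hAE
  let Â : Subgroup Γ := (A.map φ).subgroupOf Γ
  have hcardÂ : Nat.card Â = Nat.card (A.map φ) := Nat.card_congr (Subgroup.subgroupOfEquivOfLe hAΓ).toEquiv
  have hÂmem : ∀ a ∈ Â, ∃ a₀ ∈ A, φ a₀ = a.1 := by
    intro a ha
    obtain ⟨a₀, ha₀, h⟩ := ha
    exact ⟨a₀, ha₀, h⟩
  have hÂc : ∀ a ∈ Â, ∀ b ∈ Â, a * b = b * a := by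
    intro a ha b hb
    obtain ⟨a₀, ha₀, h1⟩ := hÂmem a ha
    obtain ⟨b₀, hb₀, h2⟩ := hÂmem b hb
    apply Subtype.ext
    show a.1 * b.1 = b.1 * a.1
    rw [← h1, ← h2, ← map_mul, ← map_mul, elem_comm hA a₀ ha₀ b₀ hb₀]
  have hÂ2 : ∀ a ∈ Â, a * a = 1 := by
    intro a ha
    obtain ⟨a₀, ha₀, h1⟩ := hÂmem a ha
    apply Subtype.ext
    show a.1 * a.1 = 1
    rw [← h1, ← map_mul, elem_sq hA a₀ ha₀, map_one]
  have hfa : ∀ a ∈ Â, (∀ r ∈ O, a * r = r * a) → a = 1 := by
    intro a ha hc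
    have h1 : a ∈ Subgroup.centralizer (O : Set Γ) :=
      Subgroup.mem_centralizer_iff.2 (fun r hr => (hc r hr).symm)
    have h2 := hCO h1
    have h3 : orderOf (⟨a, h2⟩ : O) ∣ Nat.card O := orderOf_dvd_natCard _
    have h4 : a ^ 2 = 1 := by rw [pow_two]; exact hÂ2 a ha
    have h5 : orderOf a ∣ 2 := orderOf_dvd_of_pow_eq_one h4
    rw [Subgroup.orderOf_mk] at h3
    have h6 : Nat.Coprime (orderOf a) 2 :=
      Nat.Coprime.coprime_dvd_left h3 (Nat.coprime_two_right.2 hOodd)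
    exact orderOf_eq_one_iff.1 (Nat.Coprime.eq_one_of_dvd h6 h5)
  rcases Cfsg.Agent.Lib.Offender.offender hVexp Γ.subtype Γ.subtype_injective O hOodd _ Â rfl hÂc hÂ2
      (fun a _ r hr => hOn.conj_mem r hr a) hfa with h | h
  · -- a section `Sym(4)`
    exfalso
    apply hS4
    obtain ⟨a, ha, d, _, had, hd1, hd3⟩ := h
    obtain ⟨a₀, ha₀, hφa⟩ := hÂmem a ha
    obtain ⟨d₀, hd₀, hφd⟩ : ∃ d₀ ∈ E, φ d₀ = d.1 := d.2
    set D : MulAut V₀ := d.1 with hD
    set A₁ : MulAut V₀ := a.1 with hA₁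
    have hD3 : D ^ 3 = 1 := by
      have := congrArg Subtype.val hd3
      simpa using this
    have hD1 : D ≠ 1 := fun h => hd1 (Subtype.ext h)
    have hAD : A₁ * D * A₁⁻¹ = D⁻¹ := by
      have := congrArg Subtype.val had
      simpa using this
    have hd3E : d₀ ^ 3 ∈ E := E.pow_mem hd₀ 3
    have hd3Q : d₀ ^ 3 ∈ Q := hEker _ hd3E (by rw [map_pow, hφd, hD3])
    obtain ⟨m, hm⟩ := (IsPGroup.iff_orderOf.1 hQp) ⟨d₀ ^ 3, hd3Q⟩
    rw [Subgroup.orderOf_mk] at hm
    set d₁ := d₀ ^ (2 ^ m) with hd₁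
    have hd₁3 : d₁ ^ 3 = 1 := by
      rw [hd₁, pow_right_comm, ← hm, pow_orderOf_eq_one]
    have hd₁E : d₁ ∈ E := E.pow_mem hd₀ _
    have hφd₁ : φ d₁ = D ^ (2 ^ m) := by rw [hd₁, map_pow, hφd]
    have hDord : orderOf D = 3 := orderOf_eq_prime hD3 hD1
    have hDm : D ^ (2 ^ m) ≠ 1 := by
      intro h
      have h1 : orderOf D ∣ 2 ^ m := orderOf_dvd_of_pow_eq_one h
      rw [hDord] at h1
      have h2 := Nat.Prime.dvd_of_dvd_pow Nat.prime_three h1
      omega
    have ha₀E : a₀ ∈ E := hAE ha₀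
    have hcomb : a₀ * d₁ * a₀⁻¹ * d₁ ∈ Q := by
      apply hEker _ (E.mul_mem (E.mul_mem (E.mul_mem ha₀E hd₁E) (E.inv_mem ha₀E)) hd₁E)
      rw [map_mul, map_mul, map_mul, map_inv, hφa, hφd₁]
      rw [← conj_pow, hAD, inv_pow, inv_mul_cancel]
    have ha₀2 : a₀ ^ 2 ∈ Q := by
      rw [pow_two, elem_sq hA a₀ ha₀]
      exact Q.one_mem
    have hmove : ∃ q ∈ Q, d₁ * q * d₁⁻¹ ≠ q := by
      by_contra hcon
      push Not at hcon
      have h1 : d₁ ∈ Subgroup.centralizer (Q : Set G) := by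
        refine Subgroup.mem_centralizer_iff.2 ?_
        intro q hq
        have h2 := hcon q hq
        rw [mul_inv_eq_iff_eq_mul] at h2
        exact h2.symm
      have h3 : d₁ ∈ Q := hCQ h1
      have h4 : orderOf d₁ ∣ 3 := orderOf_dvd_of_pow_eq_one hd₁3
      have h5 : (orderOf d₁).Coprime 2 := by
        apply Nat.Coprime.coprime_dvd_left h4
        norm_num
      have h6 := Cfsg.Agent.Lib.CoprimeAct.eq_one_of_mem_pgroup_of_coprime hQp h3 h5
      apply hDm
      rw [← hφd₁, h6, map_one]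
    exact Cfsg.Agent.Lib.S4Sec.s4_of_pair Q hQp a₀ d₁ hd₁3 hcomb ha₀2 hmove
  · -- counting
    have hineq := thompson_ineq (S : Subgroup G) A V₀ hAS hV₀S hA hV₀e hmax
    set a₁ := Nat.card (A ⊓ Subgroup.centralizer (V₀ : Set G) : Subgroup G) with ha₁
    set f := Nat.card (V₀ ⊓ Subgroup.centralizer (A : Set G) : Subgroup G) with hf
    set m := Nat.card (A.map φ) with hm
    have ha₁pos : 0 < a₁ := Nat.card_pos
    have hfpos : 0 < f := Nat.card_pos
    have hmpos : 0 < m := Nat.card_pos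
    have hAcard : Nat.card A = a₁ * m := by
      have h1 := Cfsg.Agent.Lib.Offender.card_eq_mul_relIndex (inf_le_left : A ⊓ Subgroup.centralizer (V₀ : Set G) ≤ A)
      have h2 : (A ⊓ Subgroup.centralizer (V₀ : Set G)).relIndex A = m := by
        have h3 : A ⊓ Subgroup.centralizer (V₀ : Set G) = φ.ker ⊓ A := by
          ext x
          constructor
          · rintro ⟨h4, h5⟩
            exact ⟨(hφ1 x).2 h5, h4⟩
          · rintro ⟨h4, h5⟩
            exact ⟨h5, (hφ1 x).1 h4⟩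
        rw [h3, Subgroup.inf_relIndex_right, Subgroup.relIndex_ker]
      rw [h2] at h1
      exact h1
    have hfix : f ≤ Nat.card (Cfsg.Agent.Lib.Offender.fixA Γ.subtype Â) := by
      let g : (V₀ ⊓ Subgroup.centralizer (A : Set G) : Subgroup G) → Cfsg.Agent.Lib.Offender.fixA Γ.subtype Â :=
        fun v => ⟨⟨v.1, v.2.1⟩, by
          intro b hb
          obtain ⟨a₀, ha₀, h1⟩ := hÂmem b hb
          show b.1 ⟨v.1, v.2.1⟩ = ⟨v.1, v.2.1⟩
          rw [← h1]
          apply Subtype.ext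
          rw [hφ]
          have h2 := Subgroup.mem_centralizer_iff.1 v.2.2 a₀ ha₀
          show a₀ * v.1 * a₀⁻¹ = v.1
          rw [h2]
          group⟩
      apply Nat.card_le_card_of_injective g
      intro x y hxy
      have := congrArg (fun z => ((z : V₀) : G)) (congrArg Subtype.val hxy)
      exact Subtype.ext this
    rw [hcardÂ] at h
    have h1 : m ^ 2 * f ≤ Nat.card V₀ := (Nat.mul_le_mul_left _ hfix).trans h
    have h2 : Nat.card V₀ ≤ m * f := by
      rw [hAcard] at hineq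
      have h3 : a₁ * Nat.card V₀ ≤ a₁ * (m * f) := by nlinarith
      exact Nat.le_of_mul_le_mul_left h3 ha₁pos
    have h3 : m = 1 := by
      have h4 : m * (m * f) ≤ 1 * (m * f) := by nlinarith
      have h5 : m ≤ 1 := Nat.le_of_mul_le_mul_right h4 (Nat.mul_pos hmpos hfpos)
      omega
    intro a ha
    have h4 : A.map φ = ⊥ := Subgroup.card_eq_one.1 h3
    have h5 : φ a ∈ A.map φ := ⟨a, ha, rfl⟩
    rw [h4, Subgroup.mem_bot] at h5
    exact hEker a (hAE ha) h5

end main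

section final

variable {G : Type u} [Group G] [Finite G]

/-- The theorem. -/
theorem main [hsG : Group.IsSolvable G] (hS4 : ¬ Cfsg.Involves (Equiv.Perm (Fin 4)) G) (S : Sylow 2 G)
    (hcl : Subgroup.lowerCentralSeries (S : Subgroup G) 2 = ⊥) :
    Subgroup.normalizer ((thompsonSubgroupOf 2 (S : Subgroup G)) : Set G) ⊔ pPrimeCore 2 G = ⊤ := by
  classical
  haveI : Fact (Nat.Prime 2) := ⟨Nat.prime_two⟩
  set O := pPrimeCore 2 G with hOdef
  haveI hOn : O.Normal := Cfsg.Agent.Lib.FitCore.pPrimeCore_normal 2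
  have hOodd : ¬ 2 ∣ Nat.card O := Cfsg.Agent.Lib.FitCore.not_dvd_card_pPrimeCore 2 Nat.prime_two
  let π : G →* G ⧸ O := QuotientGroup.mk' O
  have hπ : Function.Surjective π := QuotientGroup.mk'_surjective O
  have hπ1 : ∀ x, π x = 1 ↔ x ∈ O := fun x => QuotientGroup.eq_one_iff x
  set P : Subgroup G := (S : Subgroup G) with hP
  have hPp : IsPGroup 2 P := S.isPGroup'
  have hinj : ∀ x ∈ P, π x = 1 → x = 1 := by
    intro x hx h
    have hxO : x ∈ O := (hπ1 x).1 h
    have h1 : orderOf x ∣ Nat.card O := by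
      have := orderOf_dvd_natCard (⟨x, hxO⟩ : O)
      rwa [Subgroup.orderOf_mk] at this
    have h2 : (orderOf x).Coprime 2 :=
      Nat.Coprime.coprime_dvd_left h1 ((Nat.Prime.coprime_iff_not_dvd Nat.prime_two).2 hOodd).symm
    exact Cfsg.Agent.Lib.CoprimeAct.eq_one_of_mem_pgroup_of_coprime hPp hx h2
  have hinj' : ∀ x ∈ P, ∀ y ∈ P, π x = π y → x = y := by
    intro x hx y hy h
    have h1 : π (x * y⁻¹) = 1 := by rw [map_mul, map_inv, h, mul_inv_cancel]
    have h2 := hinj _ (P.mul_mem hx (P.inv_mem hy)) h1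
    exact mul_inv_eq_one.1 h2
  have hO' : pPrimeCore 2 (G ⧸ O) = ⊥ := Cfsg.Agent.Lib.FitSolv.pPrimeCore_quotient 2
  have hS4' : ¬ Cfsg.Involves (Equiv.Perm (Fin 4)) (G ⧸ O) := by
    intro h
    apply hS4
    exact Cfsg.Agent.Lib.QdSection.involves_iff.2 (Cfsg.Agent.Lib.QdSection.involves_iff.1 h).of_quot
  let Sb : Sylow 2 (G ⧸ O) := S.mapSurjective hπ
  have hSb : (Sb : Subgroup (G ⧸ O)) = P.map π := Sylow.coe_mapSurjective hπ S
  have hclP : ∀ x ∈ P, ∀ y ∈ P, ∀ z ∈ P, (x * y * x⁻¹ * y⁻¹) * z = z * (x * y * x⁻¹ * y⁻¹) := by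
    intro x hx y hy z hz
    have h1 : ⁅x, y⁆ ∈ Subgroup.lowerCentralSeries P 1 := by
      rw [Subgroup.lowerCentralSeries_succ, Subgroup.lowerCentralSeries_zero]
      exact Subgroup.commutator_mem_commutator hx hy
    have h2 : ⁅⁅x, y⁆, z⁆ ∈ Subgroup.lowerCentralSeries P 2 := by
      rw [Subgroup.lowerCentralSeries_succ]
      exact Subgroup.commutator_mem_commutator h1 hz
    rw [hcl, Subgroup.mem_bot, commutatorElement_def, commutatorElement_def] at h2
    rw [mul_inv_eq_one, mul_inv_eq_iff_eq_mul] at h2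
    exact h2
  have hcl' : ∀ x ∈ (Sb : Subgroup (G ⧸ O)), ∀ y ∈ (Sb : Subgroup (G ⧸ O)), ∀ z ∈ (Sb : Subgroup (G ⧸ O)),
      (x * y * x⁻¹ * y⁻¹) * z = z * (x * y * x⁻¹ * y⁻¹) := by
    rw [hSb]
    rintro _ ⟨x, hx, rfl⟩ _ ⟨y, hy, rfl⟩ _ ⟨z, hz, rfl⟩
    have := congrArg π (hclP x hx y hy z hz)
    simpa only [map_mul, map_inv] using this
  -- pulling back elementary abelian subgroups of the image of the Sylow subgroup
  have hpull : ∀ B : Subgroup (G ⧸ O), B ≤ P.map π → IsElementaryAbelian 2 B →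
      ∃ B₀ : Subgroup G, B₀ ≤ P ∧ B₀.map π = B ∧ IsElementaryAbelian 2 B₀ ∧ Nat.card B₀ = Nat.card B := by
    intro B hB hBe
    let B₀ : Subgroup G := B.comap π ⊓ P
    have hmap : B₀.map π = B := by
      apply le_antisymm
      · rintro _ ⟨x, hx, rfl⟩
        exact hx.1
      · intro y hy
        obtain ⟨x, hx, rfl⟩ := hB hy
        exact ⟨x, ⟨hy, hx⟩, rfl⟩
    refine ⟨B₀, inf_le_right, hmap, ?_, ?_⟩
    · apply elem_of
      · rintro a ⟨ha, haP⟩ b ⟨hb, hbP⟩
        apply hinj' _ (P.mul_mem haP hbP) _ (P.mul_mem hbP haP)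
        rw [map_mul, map_mul]
        exact elem_comm hBe _ ha _ hb
      · rintro a ⟨ha, haP⟩
        apply hinj _ (P.mul_mem haP haP)
        rw [map_mul]
        exact elem_sq hBe _ ha
    · rw [← hmap]
      symm
      apply Nat.card_congr
      symm
      refine Equiv.ofBijective (fun x : B₀ => (⟨π x.1, ⟨x.1, x.2, rfl⟩⟩ : B₀.map π)) ⟨?_, ?_⟩
      · intro x y h
        have h1 : π x.1 = π y.1 := congrArg Subtype.val h
        exact Subtype.ext (hinj' _ x.2.2 _ y.2.2 h1)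
      · rintro ⟨_, x, hx, rfl⟩
        exact ⟨⟨x, hx⟩, rfl⟩
  have hcardmap : ∀ A : Subgroup G, A ≤ P → Nat.card (A.map π) = Nat.card A := by
    intro A hA
    symm
    apply Nat.card_congr
    refine Equiv.ofBijective (fun x : A => (⟨π x.1, ⟨x.1, x.2, rfl⟩⟩ : A.map π)) ⟨?_, ?_⟩
    · intro x y h
      have h1 : π x.1 = π y.1 := congrArg Subtype.val h
      exact Subtype.ext (hinj' _ (hA x.2) _ (hA y.2) h1)
    · rintro ⟨_, x, hx, rfl⟩
      exact ⟨⟨x, hx⟩, rfl⟩
  set J := thompsonSubgroupOf 2 P with hJ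
  have hJP : J ≤ P := Subgroup.map_subtype_le _
  -- the maximal elementary abelian subgroups
  have hmaxP : ∀ A₀ ∈ maxElementaryAbelianSubgroups 2 P, ∀ g : G, ∀ a ∈ A₀, g * a.1 * g⁻¹ ∈ J ⊔ O := by
    intro A₀ hA₀ g a ha
    let A : Subgroup G := A₀.map P.subtype
    have hAP : A ≤ P := Subgroup.map_subtype_le _
    have hAe : IsElementaryAbelian 2 A := Cfsg.Agent.Lib.PReduced.isElementaryAbelian_map _ hA₀.1
    have hcA : Nat.card A = Nat.card A₀ := Subgroup.card_map_of_injective P.subtype_injective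
    have hmaxA : ∀ B : Subgroup G, B ≤ P → IsElementaryAbelian 2 B → Nat.card B ≤ Nat.card A := by
      intro B hB hBe
      have h1 := hA₀.2 (B.subgroupOf P) (elem_of
        (fun x hx y hy => Subtype.ext (elem_comm hBe x.1 hx y.1 hy))
        (fun x hx => Subtype.ext (elem_sq hBe x.1 hx)))
      have h2 : Nat.card (B.subgroupOf P) = Nat.card B := Nat.card_congr (Subgroup.subgroupOfEquivOfLe hB).toEquiv
      rw [h2] at h1
      rwa [hcA]
    -- its image lies in `O₂`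
    let Ab : Subgroup (G ⧸ O) := A.map π
    have hAbS : Ab ≤ (Sb : Subgroup (G ⧸ O)) := by
      rw [hSb]
      exact Subgroup.map_mono hAP
    have hAbe : IsElementaryAbelian 2 Ab := Cfsg.Agent.Lib.PReduced.isElementaryAbelian_map _ hAe
    have hmaxb : ∀ B : Subgroup (G ⧸ O), B ≤ (Sb : Subgroup (G ⧸ O)) → IsElementaryAbelian 2 B →
        Nat.card B ≤ Nat.card Ab := by
      intro B hB hBe
      rw [hSb] at hB
      obtain ⟨B₀, hB₀P, _, hB₀e, hB₀c⟩ := hpull B hB hBe
      rw [← hB₀c, hcardmap A hAP]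
      exact hmaxA B₀ hB₀P hB₀e
    have hle := le_pCore_of_max hO' hS4' Sb hcl' Ab hAbS hAbe hmaxb
    have hQb : pCore 2 (G ⧸ O) ≤ P.map π := by
      rw [← hSb]
      exact Cfsg.Agent.Lib.FitCore.pCore_le_sylow 2 Sb
    haveI hQbn : (pCore 2 (G ⧸ O)).Normal := Cfsg.Agent.Lib.FitCore.pCore_normal 2
    -- the conjugate
    let Bb : Subgroup (G ⧸ O) := Ab.map (MulAut.conj (π g)).toMonoidHom
    have hBbQ : Bb ≤ pCore 2 (G ⧸ O) := by
      rintro _ ⟨x, hx, rfl⟩
      exact hQbn.conj_mem x (hle hx) (π g)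
    have hBbe : IsElementaryAbelian 2 Bb := Cfsg.Agent.Lib.PReduced.isElementaryAbelian_map _ hAbe
    have hBbc : Nat.card Bb = Nat.card Ab :=
      Subgroup.card_map_of_injective (MulAut.conj (π g)).injective
    obtain ⟨B₀, hB₀P, hB₀m, hB₀e, hB₀c⟩ := hpull Bb (hBbQ.trans hQb) hBbe
    -- `B₀` is a maximal one
    have hB₀J : B₀ ≤ J := by
      intro b hb
      have hmem : B₀.subgroupOf P ∈ maxElementaryAbelianSubgroups 2 P := by
        refine ⟨elem_of (fun x hx y hy => Subtype.ext (elem_comm hB₀e x.1 hx y.1 hy))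
          (fun x hx => Subtype.ext (elem_sq hB₀e x.1 hx)), ?_⟩
        intro C hC
        have h2 : Nat.card (B₀.subgroupOf P) = Nat.card B₀ :=
          Nat.card_congr (Subgroup.subgroupOfEquivOfLe hB₀P).toEquiv
        rw [h2, hB₀c, hBbc, hcardmap A hAP, hcA]
        exact hA₀.2 C hC
      have h3 : (⟨b, hB₀P hb⟩ : P) ∈ B₀.subgroupOf P := hb
      have h4 : (⟨b, hB₀P hb⟩ : P) ∈ thompsonSubgroup 2 P := (le_sSup hmem : _ ≤ thompsonSubgroup 2 P) h3
      exact ⟨_, h4, rfl⟩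
    -- conclusion
    have hmemb : π (g * a.1 * g⁻¹) ∈ Bb := by
      refine ⟨π a.1, ⟨a.1, ⟨a, ha, rfl⟩, rfl⟩, ?_⟩
      simp [map_mul, map_inv, MulAut.conj_apply]
    rw [← hB₀m] at hmemb
    obtain ⟨b, hb, hbe⟩ := hmemb
    have hbo : b⁻¹ * (g * a.1 * g⁻¹) ∈ O := by
      rw [← hπ1, map_mul, map_inv, hbe, inv_mul_cancel]
    have e : g * a.1 * g⁻¹ = b * (b⁻¹ * (g * a.1 * g⁻¹)) := by group
    rw [e]
    exact Subgroup.mul_mem _ ((le_sup_left : J ≤ J ⊔ O) (hB₀J hb)) ((le_sup_right : O ≤ J ⊔ O) hbo)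
  have hJO : ∀ g : G, ∀ x ∈ J, g * x * g⁻¹ ∈ O ⊔ J := by
    intro g x hx
    rw [sup_comm]
    obtain ⟨y, hy, rfl⟩ := hx
    have h1 : thompsonSubgroup 2 P ≤ (((J ⊔ O).comap (MulAut.conj g).toMonoidHom)).comap P.subtype := by
      refine sSup_le ?_
      intro A₀ hA₀ a ha
      exact hmaxP A₀ hA₀ g a ha
    exact h1 hy
  rw [eq_top_iff]
  intro g _
  have hJp : IsPGroup 2 J := hPp.to_le hJP
  haveI hJnil : Group.IsNilpotent J := hJp.isNilpotent
  have hcop : Nat.Coprime (Nat.card O) (Nat.card J) := by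
    obtain ⟨k, hk⟩ := IsPGroup.iff_card.1 hJp
    rw [hk]
    apply Nat.Coprime.pow_right
    exact ((Nat.Prime.coprime_iff_not_dvd Nat.prime_two).2 hOodd).symm
  obtain ⟨n, hn, hng⟩ := Cfsg.Agent.Lib.SchurZ.exists_normalizing O J
    (by
      rw [Subgroup.normalizer_eq_top_iff.2 hOn]
      exact le_top)
    g (hJO g) hcop (Or.inr inferInstance)
  have e : g = n⁻¹ * (n * g) := by group
  rw [e, sup_comm]
  exact Subgroup.mul_mem _ ((le_sup_left : O ≤ O ⊔ _) (O.inv_mem hn)) ((le_sup_right : _ ≤ O ⊔ _) hng)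

end final

end Cfsg.Agent.Lib.ClassTwoJ
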