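import Cfsg.Prelude.Def_OddOrderChar
import Cfsg.Agent.Lib.CharIso

/-!
# Coherence: bilinear calculus, Bessel, split lemma, extension of isometries from families
-/

set_option linter.all false

namespace Cfsg.Agent.Lib.Coherence

open scoped ComplexConjugate
open Cfsg Cfsg.Agent.Lib.CharIrr Cfsg.Agent.Lib.CharOps Cfsg.Agent.Lib.CharGen Cfsg.Agent.Lib.CharIso

universe u v

section Inner

variable {G : Type u} [Group G] [Fintype G]

theorem inner_sub_left (a b c : G → ℂ) :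
    classInner (a - b) c = classInner a c - classInner b c := by
  simp only [classInner, Pi.sub_apply, sub_mul, Finset.sum_sub_distrib, mul_sub]

theorem inner_sub_right (a b c : G → ℂ) :
    classInner a (b - c) = classInner a b - classInner a c := by
  simp only [classInner, Pi.sub_apply, map_sub, mul_sub, Finset.sum_sub_distrib]

theorem inner_neg_left (a c : G → ℂ) : classInner (-a) c = - classInner a c := by
  simp only [classInner, Pi.neg_apply, neg_mul, Finset.sum_neg_distrib, mul_neg]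

theorem inner_neg_right (a c : G → ℂ) : classInner a (-c) = - classInner a c := by
  simp only [classInner, Pi.neg_apply, map_neg, mul_neg, Finset.sum_neg_distrib]

theorem inner_zsmul_left (n : ℤ) (a c : G → ℂ) :
    classInner (n • a) c = (n : ℂ) * classInner a c := by
  have : n • a = (n : ℂ) • a := by
    funext g; simp
  rw [this, classInner_smul_left]

theorem inner_zsmul_right (n : ℤ) (a c : G → ℂ) :
    classInner a (n • c) = (n : ℂ) * classInner a c := by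
  have : n • c = (n : ℂ) • c := by
    funext g; simp
  rw [this, classInner_smul_right]
  simp

theorem inner_nsmul_left (n : ℕ) (a c : G → ℂ) :
    classInner (n • a) c = (n : ℂ) * classInner a c := by
  have : n • a = (n : ℂ) • a := by
    funext g; simp
  rw [this, classInner_smul_left]

theorem inner_nsmul_right (n : ℕ) (a c : G → ℂ) :
    classInner a (n • c) = (n : ℂ) * classInner a c := by
  have : n • c = (n : ℂ) • c := by
    funext g; simp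
  rw [this, classInner_smul_right]
  simp

theorem inner_self_eq (f : G → ℂ) :
    classInner f f = (((Nat.card G : ℝ)⁻¹ * ∑ g, ‖f g‖ ^ 2 : ℝ) : ℂ) := by
  simp only [classInner, RCLike.mul_conj]
  push_cast
  rfl

theorem inner_self_re_nonneg (f : G → ℂ) : 0 ≤ (classInner f f).re := by
  rw [inner_self_eq, Complex.ofReal_re]
  positivity

theorem eq_zero_of_inner_self {f : G → ℂ} (h : classInner f f = 0) : f = 0 := by
  rw [inner_self_eq] at h
  have h1 : ((Nat.card G : ℝ)⁻¹ * ∑ g, ‖f g‖ ^ 2 : ℝ) = 0 := by exact_mod_cast h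
  have hc : (Nat.card G : ℝ)⁻¹ ≠ 0 := by
    have : (Nat.card G : ℝ) ≠ 0 := by exact_mod_cast Nat.card_pos.ne'
    exact inv_ne_zero this
  have h2 : ∑ g, ‖f g‖ ^ 2 = 0 := (mul_eq_zero.1 h1).resolve_left hc
  have h3 := (Finset.sum_eq_zero_iff_of_nonneg (fun g _ => by positivity)).1 h2
  funext g
  have := h3 g (Finset.mem_univ g)
  simpa using this

theorem inner_self_ne_zero {f : G → ℂ} (h : f ≠ 0) : classInner f f ≠ 0 :=
  fun h' => h (eq_zero_of_inner_self h')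

theorem int_nonneg_of_inner_self {f : G → ℂ} {n : ℤ} (h : classInner f f = n) : 0 ≤ n := by
  have := inner_self_re_nonneg f
  rw [h] at this
  simpa using this

theorem inner_symm_of_int {a b : G → ℂ} {n : ℤ} (h : classInner a b = n) :
    classInner b a = n := by
  rw [← classInner_conj a b, h]
  simp

theorem inner_gen_symm {a b : G → ℂ} (ha : IsGeneralizedCharacter G a)
    (hb : IsGeneralizedCharacter G b) : classInner a b = classInner b a := by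
  obtain ⟨n, hn⟩ := exists_int_classInner ha hb
  rw [hn, inner_symm_of_int hn]

theorem inner_conjFun (a b : G → ℂ) :
    classInner (conjFun a) (conjFun b) = conj (classInner a b) := by
  simp only [classInner, conjFun, map_mul, map_sum, map_inv₀, map_natCast]

theorem inner_conjFun_self (a : G → ℂ) : classInner (conjFun a) (conjFun a) = classInner a a := by
  rw [inner_conjFun, classInner_conj]

theorem conjFun_conjFun (a : G → ℂ) : conjFun (conjFun a) = a := by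
  funext g; simp [conjFun]

theorem inner_sum_sum_zero {ι κ : Type*} (s : Finset ι) (t : Finset κ) (a : ι → G → ℂ) (b : κ → G → ℂ)
    (h : ∀ i ∈ s, ∀ j ∈ t, classInner (a i) (b j) = 0) :
    classInner (∑ i ∈ s, a i) (∑ j ∈ t, b j) = 0 := by
  rw [classInner_sum_left]
  refine Finset.sum_eq_zero fun i hi => ?_
  rw [classInner_sum_right]
  exact Finset.sum_eq_zero fun j hj => h i hi j hj

/-- Bessel identity for an orthogonal family. -/
theorem bessel_eq {ι : Type*} (s : Finset ι) (v : ι → G → ℂ) (w c : ι → ℝ)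
    (hw : ∀ i ∈ s, w i ≠ 0)
    (hvv : ∀ i ∈ s, classInner (v i) (v i) = (w i : ℂ))
    (hort : ∀ i ∈ s, ∀ j ∈ s, i ≠ j → classInner (v i) (v j) = 0)
    (Θ : G → ℂ) (hc : ∀ i ∈ s, classInner Θ (v i) = (c i : ℂ)) :
    classInner (Θ - ∑ i ∈ s, ((c i / w i : ℝ) : ℂ) • v i) (Θ - ∑ i ∈ s, ((c i / w i : ℝ) : ℂ) • v i)
      = classInner Θ Θ - ((∑ i ∈ s, c i ^ 2 / w i : ℝ) : ℂ) := by
  classical
  set P : G → ℂ := ∑ i ∈ s, ((c i / w i : ℝ) : ℂ) • v i with hP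
  have hPv : ∀ j ∈ s, classInner P (v j) = (c j : ℂ) := by
    intro j hj
    rw [hP, classInner_sum_left, Finset.sum_eq_single j]
    · rw [classInner_smul_left, hvv j hj]
      have := hw j hj
      have h' : (w j : ℂ) ≠ 0 := by exact_mod_cast this
      push_cast
      field_simp
    · intro i hi hij
      rw [classInner_smul_left, hort i hi j hj hij, mul_zero]
    · intro h; exact absurd hj h
  have hΘP : classInner Θ P = ((∑ i ∈ s, c i ^ 2 / w i : ℝ) : ℂ) := by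
    rw [hP, classInner_sum_right]
    push_cast
    refine Finset.sum_congr rfl fun i hi => ?_
    rw [classInner_smul_right, hc i hi]
    simp only [Complex.conj_ofReal, map_div₀]
    push_cast
    ring
  have hPP : classInner P P = ((∑ i ∈ s, c i ^ 2 / w i : ℝ) : ℂ) := by
    have h1 : classInner P P = ∑ i ∈ s, classInner P (((c i / w i : ℝ) : ℂ) • v i) := by
      rw [← classInner_sum_right]
    rw [h1, Complex.ofReal_sum]
    refine Finset.sum_congr rfl fun i hi => ?_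
    rw [classInner_smul_right, hPv i hi, Complex.conj_ofReal]
    push_cast
    ring
  have hPΘ : classInner P Θ = ((∑ i ∈ s, c i ^ 2 / w i : ℝ) : ℂ) := by
    rw [← classInner_conj Θ P, hΘP, Complex.conj_ofReal]
  rw [inner_sub_left, inner_sub_right, inner_sub_right, hΘP, hPΘ, hPP]
  ring

theorem bessel_le {ι : Type*} (s : Finset ι) (v : ι → G → ℂ) (w c : ι → ℝ)
    (hw : ∀ i ∈ s, w i ≠ 0)
    (hvv : ∀ i ∈ s, classInner (v i) (v i) = (w i : ℂ))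
    (hort : ∀ i ∈ s, ∀ j ∈ s, i ≠ j → classInner (v i) (v j) = 0)
    (Θ : G → ℂ) (hc : ∀ i ∈ s, classInner Θ (v i) = (c i : ℂ)) :
    ∑ i ∈ s, c i ^ 2 / w i ≤ (classInner Θ Θ).re := by
  have h := inner_self_re_nonneg (Θ - ∑ i ∈ s, ((c i / w i : ℝ) : ℂ) • v i)
  rw [bessel_eq s v w c hw hvv hort Θ hc, Complex.sub_re, Complex.ofReal_re] at h
  linarith

theorem bessel_equality {ι : Type*} (s : Finset ι) (v : ι → G → ℂ) (w c : ι → ℝ)
    (hw : ∀ i ∈ s, w i ≠ 0)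
    (hvv : ∀ i ∈ s, classInner (v i) (v i) = (w i : ℂ))
    (hort : ∀ i ∈ s, ∀ j ∈ s, i ≠ j → classInner (v i) (v j) = 0)
    (Θ : G → ℂ) (hc : ∀ i ∈ s, classInner Θ (v i) = (c i : ℂ))
    (he : classInner Θ Θ = ((∑ i ∈ s, c i ^ 2 / w i : ℝ) : ℂ)) :
    Θ = ∑ i ∈ s, ((c i / w i : ℝ) : ℂ) • v i := by
  have h := bessel_eq s v w c hw hvv hort Θ hc
  rw [he, sub_self] at h
  exact sub_eq_zero.1 (eq_zero_of_inner_self h)

/-- **Split lemma.** -/
theorem split {ι : Type*} [Fintype ι] [DecidableEq ι] (v : ι → G → ℂ)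
    (hv : ∀ i j, classInner (v i) (v j) = if i = j then 1 else 0)
    (hvg : ∀ i, IsGeneralizedCharacter G (v i)) {Y Y' : G → ℂ}
    (hY : IsGeneralizedCharacter G Y) (h0 : classInner Y Y' = 0)
    (hsum : Y - Y' = ∑ i, v i) :
    ∃ c : ι → ℤ, (∀ i, c i = 0 ∨ c i = 1) ∧ (∀ i, classInner Y (v i) = c i) ∧
      Y = ∑ i, (c i) • v i := by
  classical
  choose c hc using fun i => exists_int_classInner hY (hvg i)
  have hYY : classInner Y Y = ((∑ i, c i : ℤ) : ℂ) := by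
    have : Y = Y' + ∑ i, v i := by rw [← hsum]; abel
    have h1 : classInner Y Y = classInner Y (Y' + ∑ i, v i) := by rw [← this]
    rw [h1, classInner_add_right, classInner_sum_right, h0, zero_add]
    push_cast
    exact Finset.sum_congr rfl fun i _ => hc i
  have hvv : ∀ i ∈ (Finset.univ : Finset ι), classInner (v i) (v i) = (((1 : ℝ)) : ℂ) := by
    intro i _
    rw [hv, if_pos rfl]; simp
  have hort : ∀ i ∈ (Finset.univ : Finset ι), ∀ j ∈ (Finset.univ : Finset ι), i ≠ j →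
      classInner (v i) (v j) = 0 := by
    intro i _ j _ hij
    rw [hv, if_neg hij]
  have hc' : ∀ i ∈ (Finset.univ : Finset ι), classInner Y (v i) = (((c i : ℝ)) : ℂ) := by
    intro i _
    rw [hc i]; simp
  have hb := bessel_le Finset.univ v (fun _ => 1) (fun i => (c i : ℝ))
    (fun _ _ => one_ne_zero) hvv hort Y hc'
  rw [hYY] at hb
  simp only [Complex.intCast_re, div_one] at hb
  have hle : ∑ i, (c i) ^ 2 ≤ ∑ i, c i := by exact_mod_cast hb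
  have hnn : ∀ i ∈ (Finset.univ : Finset ι), 0 ≤ (c i) ^ 2 - c i := by
    intro i _
    rcases le_or_gt (c i) 0 with h | h
    · nlinarith
    · nlinarith
  have hz : ∑ i, ((c i) ^ 2 - c i) = 0 := by
    apply le_antisymm
    · rw [Finset.sum_sub_distrib]; linarith
    · exact Finset.sum_nonneg hnn
  have hz' := (Finset.sum_eq_zero_iff_of_nonneg hnn).1 hz
  have h01 : ∀ i, c i = 0 ∨ c i = 1 := by
    intro i
    have h1 := hz' i (Finset.mem_univ i)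
    have h2 : c i * (c i - 1) = 0 := by nlinarith
    rcases mul_eq_zero.1 h2 with h | h
    · exact Or.inl h
    · exact Or.inr (by omega)
  refine ⟨c, h01, hc, ?_⟩
  have he : classInner Y Y = ((∑ i, (c i : ℝ) ^ 2 / 1 : ℝ) : ℂ) := by
    rw [hYY]
    have h3 : ∑ i, c i = ∑ i, (c i) ^ 2 := by
      refine Finset.sum_congr rfl fun i _ => ?_
      have := hz' i (Finset.mem_univ i)
      linarith
    rw [h3]
    push_cast
    simp
  have h4 := bessel_equality Finset.univ v (fun _ => 1) (fun i => (c i : ℝ))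
    (fun _ _ => one_ne_zero) hvv hort Y hc' he
  rw [h4]
  refine Finset.sum_congr rfl fun i _ => ?_
  funext g
  simp

/-- Split lemma in terms of two orthonormal finite sets. -/
theorem split_two (R R' : Finset (G → ℂ))
    (hR : ∀ a ∈ R, ∀ b ∈ R, classInner a b = if a = b then 1 else 0)
    (hR' : ∀ a ∈ R', ∀ b ∈ R', classInner a b = if a = b then 1 else 0)
    (hRR' : ∀ a ∈ R, ∀ b ∈ R', classInner a b = 0)
    (hg : ∀ a ∈ R, IsGeneralizedCharacter G a) (hg' : ∀ a ∈ R', IsGeneralizedCharacter G a)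
    {Y Y' : G → ℂ} (hY : IsGeneralizedCharacter G Y) (h0 : classInner Y Y' = 0)
    (hsum : Y - Y' = ∑ a ∈ R, a - ∑ b ∈ R', b) :
    ∃ T ⊆ R, ∃ T' ⊆ R', Y = ∑ a ∈ T, a - ∑ b ∈ T', b := by
  classical
  let v : (↥R ⊕ ↥R') → G → ℂ := fun i => match i with
    | Sum.inl a => a.1
    | Sum.inr b => -b.1
  have hv : ∀ i j, classInner (v i) (v j) = if i = j then 1 else 0 := by
    rintro (a | a) (b | b)
    · simp only [v, Sum.inl.injEq, Subtype.ext_iff]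
      exact hR a.1 a.2 b.1 b.2
    · simp only [v, reduceCtorEq, if_false, inner_neg_right]
      rw [hRR' a.1 a.2 b.1 b.2, neg_zero]
    · simp only [v, reduceCtorEq, if_false, inner_neg_left]
      rw [← classInner_conj, hRR' b.1 b.2 a.1 a.2]
      simp
    · simp only [v, Sum.inr.injEq, Subtype.ext_iff, inner_neg_left, inner_neg_right, neg_neg]
      exact hR' a.1 a.2 b.1 b.2
  have hvg : ∀ i, IsGeneralizedCharacter G (v i) := by
    rintro (a | a)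
    · exact hg a.1 a.2
    · exact isGen_neg (hg' a.1 a.2)
  have hs : Y - Y' = ∑ i, v i := by
    rw [hsum, Fintype.sum_sum_type]
    simp only [v, Finset.sum_neg_distrib, sub_eq_add_neg]
    rw [Finset.sum_coe_sort R (fun a => a), Finset.sum_coe_sort R' (fun a => a)]
  obtain ⟨c, h01, -, hY'⟩ := split v hv hvg hY h0 hs
  refine ⟨R.filter (fun a => ∃ h : a ∈ R, c (Sum.inl ⟨a, h⟩) = 1), Finset.filter_subset _ _,
    R'.filter (fun a => ∃ h : a ∈ R', c (Sum.inr ⟨a, h⟩) = 1), Finset.filter_subset _ _, ?_⟩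
  rw [hY', Fintype.sum_sum_type, sub_eq_add_neg]
  congr 1
  · rw [Finset.sum_filter, ← Finset.sum_coe_sort R]
    refine Finset.sum_congr rfl fun a _ => ?_
    have : (∃ h : a.1 ∈ R, c (Sum.inl ⟨a.1, h⟩) = 1) ↔ c (Sum.inl a) = 1 :=
      ⟨fun ⟨_, h⟩ => h, fun h => ⟨a.2, h⟩⟩
    simp only [this]
    rcases h01 (Sum.inl a) with h | h
    · rw [h]; simp
    · rw [h]; simp [v]
  · rw [Finset.sum_filter, ← Finset.sum_neg_distrib, ← Finset.sum_coe_sort R']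
    refine Finset.sum_congr rfl fun a _ => ?_
    have : (∃ h : a.1 ∈ R', c (Sum.inr ⟨a.1, h⟩) = 1) ↔ c (Sum.inr a) = 1 :=
      ⟨fun ⟨_, h⟩ => h, fun h => ⟨a.2, h⟩⟩
    simp only [this]
    rcases h01 (Sum.inr a) with h | h
    · rw [h]; simp
    · rw [h]; simp [v]

/-- Split lemma for one orthonormal finite set. -/
theorem split_one (R : Finset (G → ℂ))
    (hR : ∀ a ∈ R, ∀ b ∈ R, classInner a b = if a = b then 1 else 0)
    (hg : ∀ a ∈ R, IsGeneralizedCharacter G a)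
    {Y Y' : G → ℂ} (hY : IsGeneralizedCharacter G Y) (h0 : classInner Y Y' = 0)
    (hsum : Y - Y' = ∑ a ∈ R, a) :
    ∃ T ⊆ R, Y = ∑ a ∈ T, a := by
  classical
  obtain ⟨T, hT, T', hT', h⟩ := split_two R ∅ hR (by simp) (by simp) hg (by simp) hY h0
    (by simpa using hsum)
  refine ⟨T, hT, ?_⟩
  rw [h, Finset.subset_empty.1 hT']
  simp

/-- Orthonormal sums: the inner product of a sum over a subset with the whole sum is its size. -/
theorem inner_sum_subset (R T : Finset (G → ℂ)) (hT : T ⊆ R)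
    (hR : ∀ a ∈ R, ∀ b ∈ R, classInner a b = if a = b then 1 else 0) :
    classInner (∑ a ∈ T, a) (∑ b ∈ R, b) = (T.card : ℂ) := by
  classical
  rw [classInner_sum_left]
  have : ∀ a ∈ T, classInner a (∑ b ∈ R, b) = 1 := by
    intro a ha
    rw [classInner_sum_right, Finset.sum_eq_single a]
    · rw [hR a (hT ha) a (hT ha), if_pos rfl]
    · intro b hb hba
      rw [hR a (hT ha) b hb, if_neg (Ne.symm hba)]
    · intro h; exact absurd (hT ha) h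
  rw [Finset.sum_congr rfl this]
  simp

theorem isGen_zsmul' {a : G → ℂ} (ha : IsGeneralizedCharacter G a) (n : ℤ) :
    IsGeneralizedCharacter G (n • a) := by
  have : n • a = (n : ℂ) • a := by
    funext g; simp
  rw [this]
  exact isGen_zsmul ha n

theorem isGen_sum_finset (T : Finset (G → ℂ)) (h : ∀ a ∈ T, IsGeneralizedCharacter G a) :
    IsGeneralizedCharacter G (∑ a ∈ T, a) :=
  isGen_sum T (fun a => a) h

end Inner

section Span

variable {X : Type u}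

theorem zspan_mem {S : Set (X → ℂ)} {a : X → ℂ} (h : a ∈ S) : a ∈ zspan S :=
  Submodule.subset_span h

theorem zspan_mono {S T : Set (X → ℂ)} (h : S ⊆ T) {a : X → ℂ} (ha : a ∈ zspan S) : a ∈ zspan T :=
  Submodule.span_mono h ha

theorem zspan_induction {S : Set (X → ℂ)} {p : (X → ℂ) → Prop} (mem : ∀ x ∈ S, p x) (zero : p 0)
    (add : ∀ x y, p x → p y → p (x + y)) (smul : ∀ (n : ℤ) x, p x → p (n • x))
    {a : X → ℂ} (ha : a ∈ zspan S) : p a := by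
  refine Submodule.span_induction (p := fun x _ => p x) (fun x hx => mem x hx) zero
    (fun x y _ _ hx hy => add x y hx hy) (fun n x _ hx => smul n x hx) ha

/-- A set of functions closed under the integer linear operations. -/
structure Closed (E : Set (X → ℂ)) : Prop where
  zero : 0 ∈ E
  add : ∀ a ∈ E, ∀ b ∈ E, a + b ∈ E
  zsmul : ∀ a ∈ E, ∀ n : ℤ, n • a ∈ E

theorem closed_zspan (S : Set (X → ℂ)) : Closed (zspan S) :=
  ⟨Submodule.zero_mem _, fun _ ha _ hb => Submodule.add_mem _ ha hb,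
    fun _ ha n => Submodule.smul_mem _ n ha⟩

theorem closed_zspanOn (S : Set (X → ℂ)) (A : Set X) : Closed (zspanOn S A) := by
  refine ⟨⟨Submodule.zero_mem _, fun _ _ => rfl⟩, ?_, ?_⟩
  · rintro a ⟨ha, ha'⟩ b ⟨hb, hb'⟩
    exact ⟨Submodule.add_mem _ ha hb, fun x hx => by simp [ha' x hx, hb' x hx]⟩
  · rintro a ⟨ha, ha'⟩ n
    exact ⟨Submodule.smul_mem _ n ha, fun x hx => by simp [ha' x hx]⟩

theorem Closed.neg {E : Set (X → ℂ)} (hE : Closed E) {a : X → ℂ} (ha : a ∈ E) : -a ∈ E := by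
  have := hE.zsmul a ha (-1)
  simpa using this

theorem Closed.sub {E : Set (X → ℂ)} (hE : Closed E) {a b : X → ℂ} (ha : a ∈ E) (hb : b ∈ E) :
    a - b ∈ E := by
  rw [sub_eq_add_neg]
  exact hE.add a ha _ (hE.neg hb)

theorem mem_zspanOn_one [One X] {S : Set (X → ℂ)} {a : X → ℂ} :
    a ∈ zspanOn S {1}ᶜ ↔ a ∈ zspan S ∧ a 1 = 0 := by
  constructor
  · rintro ⟨h, h'⟩
    exact ⟨h, h' 1 (by simp)⟩
  · rintro ⟨h, h'⟩
    refine ⟨h, fun x hx => ?_⟩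
    have : x = 1 := by simpa using hx
    rw [this, h']

theorem zspanOn_mono {S T : Set (X → ℂ)} (h : S ⊆ T) {A : Set X} {a : X → ℂ}
    (ha : a ∈ zspanOn S A) : a ∈ zspanOn T A :=
  ⟨zspan_mono h ha.1, ha.2⟩

end Span

section Iso

variable {L : Type u} [Group L] [Fintype L] {G : Type v} [Group G] [Fintype G]
  {E : Set (L → ℂ)} {τ : (L → ℂ) → (G → ℂ)}

theorem iso_add (h : IsLinearIsometryOn E τ) {a b : L → ℂ} (ha : a ∈ E) (hb : b ∈ E) :
    τ (a + b) = τ a + τ b := h.1 a ha b hb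

theorem iso_zsmul (h : IsLinearIsometryOn E τ) {a : L → ℂ} (ha : a ∈ E) (n : ℤ) :
    τ (n • a) = n • τ a := h.2.1 a ha n

theorem iso_inner (h : IsLinearIsometryOn E τ) {a b : L → ℂ} (ha : a ∈ E) (hb : b ∈ E) :
    classInner (τ a) (τ b) = classInner a b := h.2.2.1 a ha b hb

theorem iso_gen (h : IsLinearIsometryOn E τ) {a : L → ℂ} (ha : a ∈ E) :
    IsGeneralizedCharacter G (τ a) := h.2.2.2 a ha

theorem iso_zero (hE : Closed E) (h : IsLinearIsometryOn E τ) : τ 0 = 0 := by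
  have := iso_zsmul h hE.zero 0
  simpa using this

theorem iso_neg (hE : Closed E) (h : IsLinearIsometryOn E τ) {a : L → ℂ} (ha : a ∈ E) :
    τ (-a) = -τ a := by
  have := iso_zsmul h ha (-1)
  simpa using this

theorem iso_sub (hE : Closed E) (h : IsLinearIsometryOn E τ) {a b : L → ℂ} (ha : a ∈ E)
    (hb : b ∈ E) : τ (a - b) = τ a - τ b := by
  rw [sub_eq_add_neg, iso_add h ha (hE.neg hb), iso_neg hE h hb, sub_eq_add_neg]

/-- The linear extension of a family given on a finite orthogonal set. -/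
noncomputable def famMap (S : Finset (L → ℂ)) (X : (L → ℂ) → (G → ℂ)) (f : L → ℂ) : G → ℂ :=
  ∑ ε ∈ S, (classInner f ε / classInner ε ε) • X ε

theorem famMap_add (S : Finset (L → ℂ)) (X : (L → ℂ) → (G → ℂ)) (a b : L → ℂ) :
    famMap S X (a + b) = famMap S X a + famMap S X b := by
  simp only [famMap, classInner_add_left, add_div, add_smul, Finset.sum_add_distrib]

theorem famMap_zsmul (S : Finset (L → ℂ)) (X : (L → ℂ) → (G → ℂ)) (n : ℤ) (a : L → ℂ) :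
    famMap S X (n • a) = n • famMap S X a := by
  simp only [famMap, inner_zsmul_left, Finset.smul_sum]
  refine Finset.sum_congr rfl fun ε _ => ?_
  funext g
  simp only [Pi.smul_apply, smul_eq_mul, zsmul_eq_mul]
  ring

theorem famMap_zero (S : Finset (L → ℂ)) (X : (L → ℂ) → (G → ℂ)) : famMap S X 0 = 0 := by
  simp [famMap, classInner_zero_left]

theorem famMap_of_mem {S : Finset (L → ℂ)} (hort : ∀ a ∈ S, ∀ b ∈ S, a ≠ b → classInner a b = 0)
    (hnz : ∀ a ∈ S, a ≠ 0) (X : (L → ℂ) → (G → ℂ)) {ε : L → ℂ} (hε : ε ∈ S) :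
    famMap S X ε = X ε := by
  rw [famMap, Finset.sum_eq_single ε]
  · rw [div_self (inner_self_ne_zero (hnz ε hε)), one_smul]
  · intro b hb hbε
    rw [hort ε hε b hb (Ne.symm hbε), zero_div, zero_smul]
  · intro h; exact absurd hε h

theorem famMap_iso {S : Finset (L → ℂ)} (hort : ∀ a ∈ S, ∀ b ∈ S, a ≠ b → classInner a b = 0)
    (hnz : ∀ a ∈ S, a ≠ 0) (X : (L → ℂ) → (G → ℂ))
    (hX : ∀ a ∈ S, ∀ b ∈ S, classInner (X a) (X b) = classInner a b)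
    (hXg : ∀ a ∈ S, IsGeneralizedCharacter G (X a)) :
    IsLinearIsometryOn (zspan (↑S : Set (L → ℂ))) (famMap S X) := by
  refine ⟨fun a _ b _ => famMap_add S X a b, fun a _ n => famMap_zsmul S X n a, ?_, ?_⟩
  · intro f hf g hg
    have h1 : ∀ b ∈ S, ∀ f ∈ zspan (↑S : Set (L → ℂ)),
        classInner (famMap S X f) (X b) = classInner f b := by
      intro b hb f hf
      refine zspan_induction (p := fun f => classInner (famMap S X f) (X b) = classInner f b)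
        ?_ ?_ ?_ ?_ hf
      · intro x hx
        rw [famMap_of_mem hort hnz X hx]
        exact hX x hx b hb
      · rw [famMap_zero, classInner_zero_left, classInner_zero_left]
      · intro x y hx hy
        rw [famMap_add, classInner_add_left, classInner_add_left, hx, hy]
      · intro n x hx
        rw [famMap_zsmul, inner_zsmul_left, inner_zsmul_left, hx]
    refine zspan_induction (p := fun g => classInner (famMap S X f) (famMap S X g) = classInner f g)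
      ?_ ?_ ?_ ?_ hg
    · intro x hx
      rw [famMap_of_mem hort hnz X hx]
      exact h1 x hx f hf
    · rw [famMap_zero, classInner_zero_right, classInner_zero_right]
    · intro x y hx hy
      rw [famMap_add, classInner_add_right, classInner_add_right, hx, hy]
    · intro n x hx
      rw [famMap_zsmul, inner_zsmul_right, inner_zsmul_right, hx]
  · intro f hf
    refine zspan_induction (p := fun f => IsGeneralizedCharacter G (famMap S X f)) ?_ ?_ ?_ ?_ hf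
    · intro x hx
      rw [famMap_of_mem hort hnz X hx]
      exact hXg x hx
    · rw [famMap_zero]; exact isGen_zero
    · intro x y hx hy
      rw [famMap_add]; exact isGen_add hx hy
    · intro n x hx
      rw [famMap_zsmul]; exact isGen_zsmul' hx n

/-- Agreement of an isometry with the linear extension on the span of a subset. -/
theorem famMap_eq_on_sub {S S₀ : Finset (L → ℂ)} (hS₀ : S₀ ⊆ S)
    (hort : ∀ a ∈ S, ∀ b ∈ S, a ≠ b → classInner a b = 0)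
    (hnz : ∀ a ∈ S, a ≠ 0)
    (X : (L → ℂ) → (G → ℂ)) (σ : (L → ℂ) → (G → ℂ))
    (hσ : IsLinearIsometryOn (zspan (↑S₀ : Set (L → ℂ))) σ) (hσX : ∀ a ∈ S₀, X a = σ a)
    {f : L → ℂ} (hf : f ∈ zspan (↑S₀ : Set (L → ℂ))) : famMap S X f = σ f := by
  have hc := closed_zspan (↑S₀ : Set (L → ℂ))
  refine (zspan_induction (p := fun f => f ∈ zspan (↑S₀ : Set (L → ℂ)) ∧ famMap S X f = σ f)
    ?_ ?_ ?_ ?_ hf).2
  · intro x hx
    exact ⟨zspan_mem hx, by rw [famMap_of_mem hort hnz X (hS₀ hx), hσX x hx]⟩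
  · exact ⟨hc.zero, by rw [famMap_zero, iso_zero hc hσ]⟩
  · rintro x y ⟨hx, hx'⟩ ⟨hy, hy'⟩
    exact ⟨hc.add x hx y hy, by rw [famMap_add, iso_add hσ hx hy, hx', hy']⟩
  · rintro n x ⟨hx, hx'⟩
    exact ⟨hc.zsmul x hx n, by rw [famMap_zsmul, iso_zsmul hσ hx, hx']⟩

/-- Orthogonal sets of nonzero functions are finite. -/
theorem finite_of_orthogonal (S : Set (L → ℂ)) (hort : ∀ a ∈ S, ∀ b ∈ S, a ≠ b → classInner a b = 0)
    (hnz : ∀ a ∈ S, a ≠ 0) : S.Finite := by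
  classical
  have hli : LinearIndependent ℂ (fun x : S => (x : L → ℂ)) := by
    rw [linearIndependent_iff']
    intro s g hg i hi
    have h1 : classInner (∑ x ∈ s, g x • (x : L → ℂ)) (i : L → ℂ) = 0 := by
      rw [hg, classInner_zero_left]
    rw [classInner_sum_left, Finset.sum_eq_single i] at h1
    · rw [classInner_smul_left] at h1
      exact (mul_eq_zero.1 h1).resolve_right (inner_self_ne_zero (hnz i i.2))
    · intro b _ hb
      rw [classInner_smul_left, hort b b.2 i i.2 (fun h => hb (Subtype.ext h)), mul_zero]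
    · intro h; exact absurd hi h
  exact hli.setFinite

end Iso

section System

variable {L : Type u} [Group L] [Fintype L] {G : Type v} [Group G] [Fintype G]
  {S : Set (L → ℂ)} {τ : (L → ℂ) → (G → ℂ)} {R : (L → ℂ) → Finset (G → ℂ)}

theorem conjFun_one_of_char {χ : L → ℂ} (h : IsCharacter L χ) : conjFun χ 1 = χ 1 := by
  obtain ⟨n, hn⟩ := exists_degree h
  simp [conjFun, hn]

theorem cs_ne_zero (hS : IsCoherenceSystem S τ R) {φ : L → ℂ} (hφ : φ ∈ S) : φ ≠ 0 := by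
  intro h
  apply hS.conj_ne φ hφ
  rw [h]
  funext g
  simp [conjFun]

theorem cs_conj_one (hS : IsCoherenceSystem S τ R) {φ : L → ℂ} (hφ : φ ∈ S) :
    conjFun φ 1 = φ 1 := conjFun_one_of_char (hS.isCharacter φ hφ)

theorem cs_closed (_hS : IsCoherenceSystem S τ R) : Closed (zspanOn S {1}ᶜ) := closed_zspanOn S _

theorem cs_sub_mem (hS : IsCoherenceSystem S τ R) {φ ψ : L → ℂ} (hφ : φ ∈ S) (hψ : ψ ∈ S)
    (h : φ 1 = ψ 1) : φ - ψ ∈ zspanOn S {1}ᶜ := by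
  rw [mem_zspanOn_one]
  refine ⟨(closed_zspan S).sub (zspan_mem hφ) (zspan_mem hψ), ?_⟩
  simp [h]

theorem cs_sub_conj_mem (hS : IsCoherenceSystem S τ R) {φ : L → ℂ} (hφ : φ ∈ S) :
    φ - conjFun φ ∈ zspanOn S {1}ᶜ :=
  cs_sub_mem hS hφ (hS.conj_mem φ hφ) (cs_conj_one hS hφ).symm

theorem cs_norm (hS : IsCoherenceSystem S τ R) {φ : L → ℂ} (hφ : φ ∈ S) :
    ∃ n : ℕ, 0 < n ∧ classInner φ φ = n := by
  obtain ⟨n, hn⟩ := exists_nat_classInner (hS.isCharacter φ hφ) (hS.isCharacter φ hφ)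
  refine ⟨n, ?_, hn⟩
  rcases Nat.eq_zero_or_pos n with h | h
  · subst h
    exact absurd (eq_zero_of_inner_self (by simpa using hn)) (cs_ne_zero hS hφ)
  · exact h

theorem cs_orth_conj (hS : IsCoherenceSystem S τ R) {φ : L → ℂ} (hφ : φ ∈ S) :
    classInner φ (conjFun φ) = 0 :=
  hS.orthogonal φ hφ _ (hS.conj_mem φ hφ) (hS.conj_ne φ hφ).symm

theorem cs_conj_orth (hS : IsCoherenceSystem S τ R) {φ : L → ℂ} (hφ : φ ∈ S) :
    classInner (conjFun φ) φ = 0 :=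
  hS.orthogonal _ (hS.conj_mem φ hφ) φ hφ (hS.conj_ne φ hφ)

theorem cs_R_orth (hS : IsCoherenceSystem S τ R) {φ χ : L → ℂ} (hφ : φ ∈ S) (hχ : χ ∈ S)
    (h1 : φ ≠ χ) (h2 : φ ≠ conjFun χ) : ∀ α ∈ R φ, ∀ β ∈ R χ, classInner α β = 0 :=
  hS.disjoint χ hχ φ hφ (hS.orthogonal φ hφ χ hχ h1)
    (hS.orthogonal φ hφ _ (hS.conj_mem χ hχ) h2)

theorem cs_sumR_norm (hS : IsCoherenceSystem S τ R) {φ : L → ℂ} (hφ : φ ∈ S) :
    classInner (∑ α ∈ R φ, α) (∑ α ∈ R φ, α) = 2 * classInner φ φ := by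
  have hm := cs_sub_conj_mem hS hφ
  rw [← hS.sum_eq φ hφ, iso_inner hS.isometry hm hm, inner_sub_left, inner_sub_right,
    inner_sub_right, cs_orth_conj hS hφ, cs_conj_orth hS hφ, inner_conjFun_self]
  ring

theorem cs_R_card (hS : IsCoherenceSystem S τ R) {φ : L → ℂ} (hφ : φ ∈ S) {n : ℕ}
    (hn : classInner φ φ = n) : (R φ).card = 2 * n := by
  have h1 := inner_sum_subset (R φ) (R φ) (Finset.Subset.refl _) (hS.orthonormal φ hφ)
  rw [cs_sumR_norm hS hφ, hn] at h1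
  have h2 : ((2 * n : ℕ) : ℂ) = ((R φ).card : ℂ) := by
    push_cast
    exact h1
  exact_mod_cast h2.symm

theorem char_one_ne_zero {χ : L → ℂ} (h : IsCharacter L χ) (hne : χ ≠ 0) : χ 1 ≠ 0 := by
  obtain ⟨n, ρ, rfl⟩ := h
  rw [Representation.char_one]
  have hn : n ≠ 0 := by
    rintro rfl
    apply hne
    funext g
    have : ρ g = 0 := Subsingleton.elim _ _
    simp [Representation.character, this]
  simpa using hn

end System

/-- Equal degrees imply coherence. -/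
theorem coherent_of_equal_degrees {L : Type u} [Group L] [Fintype L] {G : Type v} [Group G] [Fintype G]
    (S : Set (L → ℂ)) (τ : (L → ℂ) → (G → ℂ)) (R : (L → ℂ) → Finset (G → ℂ))
    (hS : IsCoherenceSystem S τ R) (hdeg : ∀ φ ∈ S, ∀ ψ ∈ S, φ 1 = ψ 1) :
    IsCoherent S {1}ᶜ τ := by
  classical
  obtain ⟨χ₀, hχ₀⟩ := hS.nonempty
  have hiso := hS.isometry
  have hE := cs_closed hS
  have hconj₀ := hS.conj_mem χ₀ hχ₀
  obtain ⟨n₀, hn₀pos, hn₀⟩ := cs_norm hS hχ₀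
  have hR₀ := hS.orthonormal χ₀ hχ₀
  have hmem : ∀ a ∈ S, ∀ b ∈ S, a - b ∈ zspanOn S {1}ᶜ :=
    fun a ha b hb => cs_sub_mem hS ha hb (hdeg _ ha _ hb)
  have hsplit : ∀ ε ∈ S, ε ≠ χ₀ → ε ≠ conjFun χ₀ →
      ∃ T ⊆ R χ₀, ∃ T' ⊆ R ε, τ (χ₀ - ε) = ∑ a ∈ T, a - ∑ b ∈ T', b := by
    intro ε hε h1 h2
    have hεc := hS.conj_mem ε hε
    have hm1 := hmem χ₀ hχ₀ ε hε
    have hm2 := hmem _ hconj₀ _ hεc
    have h3 : χ₀ ≠ conjFun ε := by
      intro h
      apply h2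
      rw [h, conjFun_conjFun]
    apply split_two (R χ₀) (R ε) hR₀ (hS.orthonormal ε hε)
      (cs_R_orth hS hχ₀ hε (Ne.symm h1) h3) (hS.virtual _ hχ₀) (hS.virtual _ hε)
      (iso_gen hiso hm1) (Y' := τ (conjFun χ₀ - conjFun ε))
    · rw [iso_inner hiso hm1 hm2, inner_sub_left, inner_sub_right, inner_sub_right,
        cs_orth_conj hS hχ₀, cs_orth_conj hS hε, hS.orthogonal χ₀ hχ₀ _ hεc h3,
        hS.orthogonal ε hε _ hconj₀ h2]
      simp
    · rw [← hS.sum_eq χ₀ hχ₀, ← hS.sum_eq ε hε, ← iso_sub hE hiso hm1 hm2,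
        ← iso_sub hE hiso (cs_sub_conj_mem hS hχ₀) (cs_sub_conj_mem hS hε)]
      congr 1
      abel
  have hcard : ∀ ε ∈ S, ε ≠ χ₀ → ε ≠ conjFun χ₀ → ∀ T ⊆ R χ₀, ∀ T' ⊆ R ε,
      τ (χ₀ - ε) = ∑ a ∈ T, a - ∑ b ∈ T', b → T.card = n₀ := by
    intro ε hε h1 h2 T hT T' hT' hY
    have hm1 := hmem χ₀ hχ₀ ε hε
    have h3 : classInner (τ (χ₀ - ε)) (∑ a ∈ R χ₀, a) = (n₀ : ℂ) := by
      rw [← hS.sum_eq χ₀ hχ₀, iso_inner hiso hm1 (cs_sub_conj_mem hS hχ₀), inner_sub_left,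
        inner_sub_right, inner_sub_right, cs_orth_conj hS hχ₀, hn₀,
        hS.orthogonal ε hε _ hconj₀ h2, hS.orthogonal ε hε _ hχ₀ h1]
      simp
    rw [hY, inner_sub_left, inner_sum_subset _ _ hT hR₀,
      inner_sum_sum_zero T' (R χ₀) (fun a => a) (fun a => a)
        (fun a ha b hb => cs_R_orth hS hε hχ₀ h1 h2 a (hT' ha) b hb), sub_zero] at h3
    exact_mod_cast h3
  have hT : ∃ T ⊆ R χ₀, T.card = n₀ ∧ ∀ ε ∈ S, ε ≠ χ₀ → ε ≠ conjFun χ₀ →
      classInner (τ (χ₀ - ε)) (∑ a ∈ T, a) = (n₀ : ℂ) := by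
    by_cases hex : ∃ φ ∈ S, φ ≠ χ₀ ∧ φ ≠ conjFun χ₀
    · obtain ⟨φ, hφ, hφ1, hφ2⟩ := hex
      obtain ⟨T, hT, T', hT', hY⟩ := hsplit φ hφ hφ1 hφ2
      have hc := hcard φ hφ hφ1 hφ2 T hT T' hT' hY
      have hφR := cs_R_orth hS hφ hχ₀ hφ1 hφ2
      have hself : classInner (τ (χ₀ - φ)) (∑ a ∈ T, a) = (n₀ : ℂ) := by
        rw [hY, inner_sub_left, inner_sum_subset T T (Finset.Subset.refl _)
          (fun a ha b hb => hR₀ a (hT ha) b (hT hb)),
          inner_sum_sum_zero T' T (fun a => a) (fun a => a)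
            (fun a ha b hb => hφR a (hT' ha) b (hT hb)), sub_zero, hc]
      refine ⟨T, hT, hc, fun ε hε h1 h2 => ?_⟩
      by_cases h3 : ε = φ
      · rw [h3]; exact hself
      by_cases h4 : ε = conjFun φ
      · have h5 : χ₀ - ε = (χ₀ - φ) + (φ - conjFun φ) := by rw [h4]; abel
        rw [h5, iso_add hiso (hmem χ₀ hχ₀ φ hφ) (cs_sub_conj_mem hS hφ), classInner_add_left, hself,
          hS.sum_eq φ hφ, inner_sum_sum_zero (R φ) T (fun a => a) (fun a => a)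
            (fun a ha b hb => hφR a ha b (hT hb)), add_zero]
      · have h5 : ∑ a ∈ T, a = τ (χ₀ - φ) + ∑ b ∈ T', b := by rw [hY]; abel
        obtain ⟨A, hA, B, hB, hYε⟩ := hsplit ε hε h1 h2
        rw [h5, classInner_add_right, iso_inner hiso (hmem χ₀ hχ₀ ε hε) (hmem χ₀ hχ₀ φ hφ),
          inner_sub_left, inner_sub_right, inner_sub_right, hn₀,
          hS.orthogonal χ₀ hχ₀ φ hφ (Ne.symm hφ1), hS.orthogonal ε hε χ₀ hχ₀ h1,
          hS.orthogonal ε hε φ hφ h3, hYε, inner_sub_left,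
          inner_sum_sum_zero A T' (fun a => a) (fun a => a)
            (fun a ha b hb => ?_),
          inner_sum_sum_zero B T' (fun a => a) (fun a => a)
            (fun a ha b hb => cs_R_orth hS hε hφ h3 h4 a (hB ha) b (hT' hb))]
        · simp
        · have := hφR b (hT' hb) a (hA ha)
          rw [← classInner_conj, this]
          simp
    · have hc2 := cs_R_card hS hχ₀ hn₀
      obtain ⟨T, hT, hc⟩ := Finset.exists_subset_card_eq (s := R χ₀) (n := n₀) (by omega)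
      refine ⟨T, hT, hc, fun ε hε h1 h2 => ?_⟩
      exact absurd ⟨ε, hε, h1, h2⟩ hex
  obtain ⟨T, hT, hc, hinner⟩ := hT
  have hX₀g : IsGeneralizedCharacter G (∑ a ∈ T, a) :=
    isGen_sum_finset T fun a ha => hS.virtual _ hχ₀ a (hT ha)
  have hX₀X₀ : classInner (∑ a ∈ T, a) (∑ a ∈ T, a) = (n₀ : ℂ) := by
    rw [inner_sum_subset T T (Finset.Subset.refl _) (fun a ha b hb => hR₀ a (hT ha) b (hT hb)), hc]
  generalize hX₀ : ∑ a ∈ T, a = X₀ at hX₀g hX₀X₀ hinner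
  have hg : ∀ ε ∈ S, classInner (τ (ε - χ₀)) X₀ = classInner ε χ₀ - n₀ := by
    intro ε hε
    by_cases h1 : ε = χ₀
    · subst h1
      rw [sub_self, iso_zero hE hiso, classInner_zero_left, hn₀, sub_self]
    by_cases h2 : ε = conjFun χ₀
    · have h3 : ε - χ₀ = -(χ₀ - conjFun χ₀) := by rw [h2]; abel
      rw [h3, iso_neg hE hiso (cs_sub_conj_mem hS hχ₀), inner_neg_left, hS.sum_eq χ₀ hχ₀, ← hX₀,
        ← classInner_conj, inner_sum_subset (R χ₀) T hT hR₀, hc, h2, cs_conj_orth hS hχ₀]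
      simp
    · have h3 : ε - χ₀ = -(χ₀ - ε) := by abel
      rw [h3, iso_neg hE hiso (hmem χ₀ hχ₀ ε hε), inner_neg_left, hinner ε hε h1 h2,
        hS.orthogonal ε hε χ₀ hχ₀ h1]
      simp
  have hfin : S.Finite := finite_of_orthogonal S hS.orthogonal (fun a ha => cs_ne_zero hS ha)
  have hSF : ((hfin.toFinset : Finset (L → ℂ)) : Set (L → ℂ)) = S := hfin.coe_toFinset
  have hmemF : ∀ a, a ∈ hfin.toFinset ↔ a ∈ S := fun a => hfin.mem_toFinset
  let X : (L → ℂ) → (G → ℂ) := fun ε => τ (ε - χ₀) + X₀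
  have hortF : ∀ a ∈ hfin.toFinset, ∀ b ∈ hfin.toFinset, a ≠ b → classInner a b = 0 :=
    fun a ha b hb hab => hS.orthogonal a ((hmemF a).1 ha) b ((hmemF b).1 hb) hab
  have hnzF : ∀ a ∈ hfin.toFinset, a ≠ 0 := fun a ha => cs_ne_zero hS ((hmemF a).1 ha)
  have hXX : ∀ a ∈ hfin.toFinset, ∀ b ∈ hfin.toFinset, classInner (X a) (X b) = classInner a b := by
    intro a ha b hb
    have ha' := (hmemF a).1 ha
    have hb' := (hmemF b).1 hb
    simp only [X]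
    have h1 : classInner X₀ (τ (b - χ₀)) = classInner χ₀ b - n₀ := by
      rw [← classInner_conj, hg b hb', map_sub, classInner_conj]
      simp
    rw [classInner_add_left, classInner_add_right, classInner_add_right,
      iso_inner hiso (hmem a ha' χ₀ hχ₀) (hmem b hb' χ₀ hχ₀), inner_sub_left, inner_sub_right,
      inner_sub_right, hg a ha', h1, hX₀X₀, hn₀]
    ring
  have hXg : ∀ a ∈ hfin.toFinset, IsGeneralizedCharacter G (X a) :=
    fun a ha => isGen_add (iso_gen hiso (hmem a ((hmemF a).1 ha) χ₀ hχ₀)) hX₀g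
  have hd : χ₀ 1 ≠ 0 := char_one_ne_zero (hS.isCharacter χ₀ hχ₀) (cs_ne_zero hS hχ₀)
  refine ⟨⟨χ₀ - conjFun χ₀, cs_sub_conj_mem hS hχ₀, sub_ne_zero.2 (hS.conj_ne χ₀ hχ₀).symm⟩,
    famMap hfin.toFinset X, ?_, ?_⟩
  · have := famMap_iso hortF hnzF X hXX hXg
    rwa [hSF] at this
  · intro α hα
    have hα' := mem_zspanOn_one.1 hα
    have key : ∃ m : ℤ, α 1 = m * χ₀ 1 ∧ α - m • χ₀ ∈ zspanOn S {1}ᶜ ∧
        famMap hfin.toFinset X α = τ (α - m • χ₀) + m • X₀ := by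
      refine zspan_induction (p := fun f => ∃ m : ℤ, f 1 = m * χ₀ 1 ∧ f - m • χ₀ ∈ zspanOn S {1}ᶜ ∧
        famMap hfin.toFinset X f = τ (f - m • χ₀) + m • X₀) ?_ ?_ ?_ ?_ hα'.1
      · intro x hx
        refine ⟨1, by simpa using hdeg x hx χ₀ hχ₀, ?_, ?_⟩
        · rw [one_smul]; exact hmem x hx χ₀ hχ₀
        · rw [famMap_of_mem hortF hnzF X ((hmemF x).2 hx), one_smul, one_smul]
      · refine ⟨0, by simp, ?_, ?_⟩
        · simpa using hE.zero
        · rw [famMap_zero, zero_smul, sub_zero, iso_zero hE hiso, zero_smul, add_zero]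
      · rintro x y ⟨m, h1, h2, h3⟩ ⟨m', h1', h2', h3'⟩
        refine ⟨m + m', ?_, ?_, ?_⟩
        · simp [h1, h1']; ring
        · have : x + y - (m + m') • χ₀ = (x - m • χ₀) + (y - m' • χ₀) := by
            rw [add_smul]; abel
          rw [this]
          exact hE.add _ h2 _ h2'
        · have : x + y - (m + m') • χ₀ = (x - m • χ₀) + (y - m' • χ₀) := by
            rw [add_smul]; abel
          rw [famMap_add, h3, h3', this, iso_add hiso h2 h2', add_smul]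
          abel
      · rintro n x ⟨m, h1, h2, h3⟩
        refine ⟨n * m, ?_, ?_, ?_⟩
        · simp [h1]; ring
        · have : n • x - (n * m) • χ₀ = n • (x - m • χ₀) := by
            rw [mul_smul, smul_sub]
          rw [this]
          exact hE.zsmul _ h2 n
        · have : n • x - (n * m) • χ₀ = n • (x - m • χ₀) := by
            rw [mul_smul, smul_sub]
          rw [famMap_zsmul, h3, this, iso_zsmul hiso h2, mul_smul, smul_add]
    obtain ⟨m, h1, -, h3⟩ := key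
    rw [hα'.2] at h1
    have hm : m = 0 := by
      have : (m : ℂ) = 0 := (mul_eq_zero.1 h1.symm).resolve_right hd
      exact_mod_cast this
    subst hm
    rw [h3]
    simp

section Irr

variable {L : Type u} [Group L] [Fintype L] {G : Type v} [Group G] [Fintype G]

theorem irr_inner_self {χ : L → ℂ} (h : IsIrrCharacter L χ) : classInner χ χ = 1 := by
  rw [classInner_irr h h, if_pos rfl]

theorem irr_inner_ne {χ ψ : L → ℂ} (h : IsIrrCharacter L χ) (h' : IsIrrCharacter L ψ) (hne : χ ≠ ψ) :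
    classInner χ ψ = 0 := by
  rw [classInner_irr h h', if_neg hne]

theorem gen_norm_one_ne_zero {a : G → ℂ} (ha : IsGeneralizedCharacter G a)
    (h : classInner a a = 1) : a 1 ≠ 0 := by
  obtain ⟨χ, hχ, h1 | h1⟩ := exists_irr_of_norm_one ha h
  · rw [h1]; exact degree_ne_zero hχ
  · rw [h1]
    simpa using degree_ne_zero hχ

theorem inner_eq_sign {a b : G → ℂ} (ha : classInner a a = 1) (hb : classInner b b = 1) {e : ℤ}
    (h : classInner a b = e) (he : e ≠ 0) : (e = 1 ∨ e = -1) ∧ a = e • b := by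
  have h' := inner_symm_of_int h
  have h1 : classInner (a - e • b) (a - e • b) = ((1 - e ^ 2 : ℤ) : ℂ) := by
    simp only [inner_sub_left, inner_sub_right, inner_zsmul_left, inner_zsmul_right]
    rw [ha, hb, h, h']
    push_cast
    ring
  have h2 := int_nonneg_of_inner_self h1
  have h3 : e ^ 2 = 1 := by
    have : 0 < e ^ 2 := by positivity
    omega
  have h4 : e = 1 ∨ e = -1 := by
    have h5 : (e - 1) * (e + 1) = 0 := by nlinarith
    rcases mul_eq_zero.1 h5 with h6 | h6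
    · exact Or.inl (by omega)
    · exact Or.inr (by omega)
  refine ⟨h4, ?_⟩
  rw [h3] at h1
  have h5 : classInner (a - e • b) (a - e • b) = 0 := by simpa using h1
  exact sub_eq_zero.1 (eq_zero_of_inner_self h5)

theorem zspan_one_int {S : Set (L → ℂ)} (hS : ∀ x ∈ S, ∃ n : ℕ, x 1 = n) {f : L → ℂ}
    (hf : f ∈ zspan S) : ∃ m : ℤ, f 1 = m := by
  refine zspan_induction (p := fun f => ∃ m : ℤ, f 1 = m) ?_ ?_ ?_ ?_ hf
  · intro x hx
    obtain ⟨n, hn⟩ := hS x hx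
    exact ⟨n, by simpa using hn⟩
  · exact ⟨0, by simp⟩
  · rintro x y ⟨m, hm⟩ ⟨m', hm'⟩
    exact ⟨m + m', by simp [hm, hm']⟩
  · rintro n x ⟨m, hm⟩
    exact ⟨n * m, by simp [hm]⟩

end Irr

/-- Adding one irreducible character of large enough degree sum to a coherent set. -/
theorem coherent_insert_irr {L : Type u} [Group L] [Fintype L] {G : Type v} [Group G] [Fintype G]
    (S₀ : Finset (L → ℂ)) (χ : L → ℂ) (hirr : ∀ ξ ∈ S₀, IsIrrCharacter L ξ)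
    (hχ : IsIrrCharacter L χ) (hχS : χ ∉ S₀) (d : (L → ℂ) → ℕ)
    (hd : ∀ ξ ∈ insert χ S₀, ξ 1 = (d ξ : ℂ)) (τ : (L → ℂ) → (G → ℂ))
    (hτ : IsLinearIsometryOn (zspanOn (↑(insert χ S₀) : Set (L → ℂ)) {1}ᶜ) τ)
    (hτ1 : ∀ α ∈ zspanOn (↑(insert χ S₀) : Set (L → ℂ)) {1}ᶜ, τ α 1 = 0)
    (hcoh : IsCoherent (↑S₀ : Set (L → ℂ)) {1}ᶜ τ) (ψ : L → ℂ) (hψ : ψ ∈ S₀) (hdvd : d ψ ∣ d χ)
    (hlt : 2 * d ψ * d χ < ∑ ξ ∈ S₀, d ξ ^ 2) :
    IsCoherent (↑(insert χ S₀) : Set (L → ℂ)) {1}ᶜ τ := by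
  classical
  obtain ⟨hne, τ₁, hτ₁, hτ₁τ⟩ := hcoh
  obtain ⟨a, ha⟩ := hdvd
  have hE := closed_zspanOn (↑(insert χ S₀) : Set (L → ℂ)) {1}ᶜ
  have hE₀ := closed_zspan (↑S₀ : Set (L → ℂ))
  have hsub : (↑S₀ : Set (L → ℂ)) ⊆ ↑(insert χ S₀) :=
    Finset.coe_subset.2 (Finset.subset_insert _ _)
  have hψ' : ψ ∈ zspan (↑S₀ : Set (L → ℂ)) := zspan_mem hψ
  have hirr' : ∀ ξ ∈ insert χ S₀, IsIrrCharacter L ξ := by
    intro ξ hξ
    rcases Finset.mem_insert.1 hξ with rfl | h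
    · exact hχ
    · exact hirr ξ h
  have hdpos : ∀ ξ ∈ insert χ S₀, 0 < d ξ := by
    intro ξ hξ
    have h1 := degree_ne_zero (hirr' ξ hξ)
    rw [hd ξ hξ] at h1
    exact Nat.pos_of_ne_zero (by exact_mod_cast h1)
  have hψI : ψ ∈ insert χ S₀ := Finset.mem_insert_of_mem hψ
  have hχI : χ ∈ insert χ S₀ := Finset.mem_insert_self _ _
  have hδ : 0 < d ψ := hdpos ψ hψI
  have ha0 : 0 < a := by
    have := hdpos χ hχI
    rw [ha] at this
    exact Nat.pos_of_mul_pos_left this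
  have hχψ : ∀ ξ ∈ S₀, classInner χ ξ = 0 := fun ξ hξ =>
    irr_inner_ne hχ (hirr ξ hξ) (fun h => hχS (h ▸ hξ))
  have hξχ : ∀ ξ ∈ S₀, classInner ξ χ = 0 := fun ξ hξ =>
    irr_inner_ne (hirr ξ hξ) hχ (fun h => hχS (h ▸ hξ))
  set β : L → ℂ := χ - (a : ℤ) • ψ with hβ
  have hβ1 : β 1 = 0 := by
    simp only [hβ, Pi.sub_apply, Pi.smul_apply, hd χ hχI, hd ψ hψI, ha]
    simp
    ring
  have hβZ : β ∈ zspan (↑(insert χ S₀) : Set (L → ℂ)) :=
    (closed_zspan _).sub (zspan_mem (by simp)) ((closed_zspan _).zsmul _ (zspan_mono hsub hψ') _)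
  have hβE : β ∈ zspanOn (↑(insert χ S₀) : Set (L → ℂ)) {1}ᶜ := mem_zspanOn_one.2 ⟨hβZ, hβ1⟩
  set Θ : G → ℂ := τ β + (a : ℤ) • τ₁ ψ with hΘ
  have hψg := iso_gen hτ₁ hψ'
  have hβg := iso_gen hτ hβE
  have hΘg : IsGeneralizedCharacter G Θ := isGen_add hβg (isGen_zsmul' hψg _)
  have hψψ : classInner (τ₁ ψ) (τ₁ ψ) = 1 := by
    rw [iso_inner hτ₁ hψ' hψ', irr_inner_self (hirr ψ hψ)]
  -- the coefficients
  let γ : (L → ℂ) → (L → ℂ) := fun ξ => (d ξ : ℤ) • ψ - (d ψ : ℤ) • ξ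
  have hγ₀ : ∀ ξ ∈ S₀, γ ξ ∈ zspanOn (↑S₀ : Set (L → ℂ)) {1}ᶜ := by
    intro ξ hξ
    refine mem_zspanOn_one.2 ⟨hE₀.sub (hE₀.zsmul _ hψ' _) (hE₀.zsmul _ (zspan_mem hξ) _), ?_⟩
    simp only [γ, Pi.sub_apply, Pi.smul_apply, hd ξ (Finset.mem_insert_of_mem hξ), hd ψ hψI]
    simp
    ring
  have hτ₁γ : ∀ ξ ∈ S₀, τ₁ (γ ξ) = (d ξ : ℤ) • τ₁ ψ - (d ψ : ℤ) • τ₁ ξ := by
    intro ξ hξ
    simp only [γ]
    rw [iso_sub hE₀ hτ₁ (hE₀.zsmul _ hψ' _) (hE₀.zsmul _ (zspan_mem hξ) _), iso_zsmul hτ₁ hψ',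
      iso_zsmul hτ₁ (zspan_mem hξ)]
  have key1 : ∀ ξ ∈ S₀, (d ξ : ℂ) * classInner Θ (τ₁ ψ) = (d ψ : ℂ) * classInner Θ (τ₁ ξ) := by
    intro ξ hξ
    have hγE := zspanOn_mono hsub (hγ₀ ξ hξ)
    have h2a : classInner (τ β) (τ₁ (γ ξ)) = classInner β (γ ξ) := by
      rw [hτ₁τ _ (hγ₀ ξ hξ)]
      exact iso_inner hτ hβE hγE
    have h2b : classInner (τ₁ ψ) (τ₁ (γ ξ)) = classInner ψ (γ ξ) :=
      iso_inner hτ₁ hψ' (hγ₀ ξ hξ).1
    have h2 : classInner Θ (τ₁ (γ ξ)) = 0 := by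
      rw [hΘ, classInner_add_left, inner_zsmul_left, h2a, h2b, hβ, inner_sub_left, inner_zsmul_left]
      have : classInner χ (γ ξ) = 0 := by
        simp only [γ]
        rw [inner_sub_right, inner_zsmul_right, inner_zsmul_right, hχψ ψ hψ, hχψ ξ hξ]
        simp
      rw [this]
      ring
    rw [hτ₁γ ξ hξ, inner_sub_right, inner_zsmul_right, inner_zsmul_right] at h2
    have h3 := sub_eq_zero.1 h2
    simpa using h3
  have hcex : ∀ ξ ∈ S₀, ∃ c : ℤ, classInner Θ (τ₁ ξ) = c := fun ξ hξ =>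
    exists_int_classInner hΘg (iso_gen hτ₁ (zspan_mem hξ))
  choose! c hc using hcex
  have hk : classInner Θ (τ₁ ψ) = (c ψ : ℂ) := hc ψ hψ
  have hkξ : ∀ ξ ∈ S₀, (d ξ : ℤ) * c ψ = (d ψ : ℤ) * c ξ := by
    intro ξ hξ
    have := key1 ξ hξ
    rw [hk, hc ξ hξ] at this
    exact_mod_cast this
  -- the norm of Θ
  have hnorm : classInner Θ Θ = ((1 + 2 * (a : ℤ) * c ψ : ℤ) : ℂ) := by
    have hy : classInner (τ β) (τ₁ ψ) = (c ψ : ℂ) - a := by
      have := hk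
      rw [hΘ, classInner_add_left, inner_zsmul_left, hψψ] at this
      rw [← this]
      simp
    have hy' : classInner (τ₁ ψ) (τ β) = (c ψ : ℂ) - a := by
      rw [← inner_gen_symm hβg hψg, hy]
    have hββ : classInner (τ β) (τ β) = 1 + (a : ℂ) ^ 2 := by
      rw [iso_inner hτ hβE hβE, hβ]
      simp only [inner_sub_left, inner_sub_right, inner_zsmul_left, inner_zsmul_right]
      rw [irr_inner_self hχ, irr_inner_self (hirr ψ hψ), hχψ ψ hψ, hξχ ψ hψ]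
      push_cast
      ring
    rw [hΘ]
    simp only [classInner_add_left, classInner_add_right, inner_zsmul_left, inner_zsmul_right]
    rw [hββ, hy, hy', hψψ]
    push_cast
    ring
  -- Bessel
  have hvv : ∀ ξ ∈ S₀, classInner (τ₁ ξ) (τ₁ ξ) = ((1 : ℝ) : ℂ) := by
    intro ξ hξ
    rw [iso_inner hτ₁ (zspan_mem hξ) (zspan_mem hξ), irr_inner_self (hirr ξ hξ)]
    simp
  have hort : ∀ ξ ∈ S₀, ∀ ξ' ∈ S₀, ξ ≠ ξ' → classInner (τ₁ ξ) (τ₁ ξ') = 0 := by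
    intro ξ hξ ξ' hξ' hne'
    rw [iso_inner hτ₁ (zspan_mem hξ) (zspan_mem hξ'), irr_inner_ne (hirr ξ hξ) (hirr ξ' hξ') hne']
  have hc' : ∀ ξ ∈ S₀, classInner Θ (τ₁ ξ) = (((c ξ : ℝ)) : ℂ) := by
    intro ξ hξ
    rw [hc ξ hξ]; simp
  have hbes := bessel_le S₀ τ₁ (fun _ => 1) (fun ξ => (c ξ : ℝ)) (fun _ _ => one_ne_zero) hvv hort Θ hc'
  rw [hnorm] at hbes
  simp only [Complex.intCast_re, div_one] at hbes
  have hSum : ∑ ξ ∈ S₀, (c ξ) ^ 2 ≤ 1 + 2 * (a : ℤ) * c ψ := by exact_mod_cast hbes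
  have hmul : ((d ψ : ℤ)) ^ 2 * ∑ ξ ∈ S₀, (c ξ) ^ 2 = (c ψ) ^ 2 * ∑ ξ ∈ S₀, ((d ξ : ℤ)) ^ 2 := by
    rw [Finset.mul_sum, Finset.mul_sum]
    refine Finset.sum_congr rfl fun ξ hξ => ?_
    have := hkξ ξ hξ
    calc ((d ψ : ℤ)) ^ 2 * (c ξ) ^ 2 = ((d ψ : ℤ) * c ξ) ^ 2 := by ring
      _ = ((d ξ : ℤ) * c ψ) ^ 2 := by rw [this]
      _ = _ := by ring
  have hltZ : 2 * (d ψ : ℤ) * ((d ψ : ℤ) * a) < ∑ ξ ∈ S₀, ((d ξ : ℤ)) ^ 2 := by
    have : 2 * d ψ * (d ψ * a) < ∑ ξ ∈ S₀, d ξ ^ 2 := by rwa [← ha]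
    exact_mod_cast this
  have hδZ : 0 < (d ψ : ℤ) := by exact_mod_cast hδ
  have haZ : 0 < (a : ℤ) := by exact_mod_cast ha0
  have hSum0 : 0 ≤ ∑ ξ ∈ S₀, (c ξ) ^ 2 := Finset.sum_nonneg fun _ _ => by positivity
  generalize hD : ∑ ξ ∈ S₀, ((d ξ : ℤ)) ^ 2 = D at hmul hltZ
  generalize hSig : ∑ ξ ∈ S₀, (c ξ) ^ 2 = Sig at hSum hmul hSum0
  have hk0 : c ψ = 0 := by
    by_contra hk0
    have hkpos : 0 < c ψ := by
      by_contra hneg
      have h1 : c ψ ≤ -1 := by omega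
      nlinarith
    have hk1 : c ψ = 1 := by
      by_contra hk1
      have h2 : 2 ≤ c ψ := by omega
      have he : 0 < (d ψ : ℤ) ^ 2 := by positivity
      have h3 : (d ψ : ℤ) ^ 2 * Sig ≤ (d ψ : ℤ) ^ 2 * (1 + 2 * (a : ℤ) * c ψ) :=
        mul_le_mul_of_nonneg_left hSum he.le
      have h4 : (c ψ) ^ 2 * (2 * (d ψ : ℤ) * ((d ψ : ℤ) * a)) ≤ (c ψ) ^ 2 * D :=
        mul_le_mul_of_nonneg_left hltZ.le (by positivity)
      have h5 : (0 : ℤ) ≤ (d ψ : ℤ) ^ 2 * a * (c ψ * (c ψ - 1) - 2) := by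
        apply mul_nonneg (by positivity)
        nlinarith
      have h6 : 0 < (d ψ : ℤ) ^ 2 * a := by positivity
      nlinarith
    rw [hk1] at hmul hSum hkξ
    have hSigeq : Sig = 1 + 2 * (a : ℤ) := by
      have h1 : (d ψ : ℤ) ^ 2 * (2 * a) < (d ψ : ℤ) ^ 2 * Sig := by nlinarith
      have h2 := lt_of_mul_lt_mul_left h1 (by positivity)
      linarith
    -- Bessel equality
    have he : classInner Θ Θ = ((∑ ξ ∈ S₀, (c ξ : ℝ) ^ 2 / 1 : ℝ) : ℂ) := by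
      rw [hnorm, hk1]
      simp only [div_one]
      have : (∑ ξ ∈ S₀, (c ξ : ℝ) ^ 2) = ((1 + 2 * (a : ℤ) * 1 : ℤ) : ℝ) := by
        have h1 : ((∑ ξ ∈ S₀, (c ξ) ^ 2 : ℤ) : ℝ) = ((1 + 2 * (a : ℤ) * 1 : ℤ) : ℝ) := by
          rw [hSig, hSigeq]; simp
        rw [← h1]
        push_cast
        rfl
      rw [this]
      simp
    have hΘeq := bessel_equality S₀ τ₁ (fun _ => 1) (fun ξ => (c ξ : ℝ)) (fun _ _ => one_ne_zero)
      hvv hort Θ hc' he
    set r : ℂ := τ₁ ψ 1 with hr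
    have hr0 : r ≠ 0 := gen_norm_one_ne_zero hψg hψψ
    have hval : ∀ ξ ∈ S₀, τ₁ ξ 1 = (c ξ : ℂ) * r := by
      intro ξ hξ
      have h1 : τ₁ (γ ξ) 1 = 0 := by
        rw [hτ₁τ _ (hγ₀ ξ hξ)]
        exact hτ1 _ (zspanOn_mono hsub (hγ₀ ξ hξ))
      rw [hτ₁γ ξ hξ] at h1
      simp only [Pi.sub_apply, Pi.smul_apply] at h1
      simp only [zsmul_eq_mul, Int.cast_natCast] at h1
      have h2 := hkξ ξ hξ
      have h3 : (d ξ : ℂ) = (d ψ : ℂ) * (c ξ : ℂ) := by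
        have : (d ξ : ℤ) = (d ψ : ℤ) * c ξ := by simpa using h2
        exact_mod_cast this
      rw [h3] at h1
      have h4 : (d ψ : ℂ) ≠ 0 := by exact_mod_cast hδ.ne'
      have h5 : (d ψ : ℂ) * ((c ξ : ℂ) * r - τ₁ ξ 1) = 0 := by
        linear_combination h1
      have h6 := (mul_eq_zero.1 h5).resolve_left h4
      exact (sub_eq_zero.1 h6).symm
    have hΘ1a : Θ 1 = (a : ℂ) * r := by
      rw [hΘ]
      simp only [Pi.add_apply, Pi.smul_apply]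
      simp only [zsmul_eq_mul, Int.cast_natCast]
      rw [hτ1 β hβE, zero_add]
    have hΘ1b : Θ 1 = (1 + 2 * (a : ℂ)) * r := by
      have h1 : Θ 1 = ∑ ξ ∈ S₀, (c ξ : ℂ) ^ 2 * r := by
        conv_lhs => rw [hΘeq]
        rw [Finset.sum_apply]
        refine Finset.sum_congr rfl fun ξ hξ => ?_
        simp only [Pi.smul_apply, smul_eq_mul, div_one, Complex.ofReal_intCast]
        rw [hval ξ hξ]
        ring
      rw [h1, ← Finset.sum_mul]
      congr 1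
      have h2 : ((∑ ξ ∈ S₀, (c ξ) ^ 2 : ℤ) : ℂ) = ((1 + 2 * (a : ℤ) : ℤ) : ℂ) := by
        rw [hSig, hSigeq]
      push_cast at h2
      exact h2
    rw [hΘ1a] at hΘ1b
    have h7 : ((a : ℂ) + 1) * r = 0 := by linear_combination -hΘ1b
    have h8 : (a : ℂ) + 1 ≠ 0 := by exact_mod_cast Nat.succ_ne_zero a
    exact hr0 ((mul_eq_zero.1 h7).resolve_left h8)
  -- conclusion
  have hc0 : ∀ ξ ∈ S₀, classInner Θ (τ₁ ξ) = 0 := by
    intro ξ hξ
    have h1 := hkξ ξ hξ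
    rw [hk0, mul_zero] at h1
    have h2 : c ξ = 0 := by
      have := mul_eq_zero.1 h1.symm
      rcases this with h | h
      · omega
      · exact h
    rw [hc ξ hξ, h2]
    simp
  have hnorm1 : classInner Θ Θ = 1 := by
    rw [hnorm, hk0]; simp
  let X : (L → ℂ) → (G → ℂ) := fun ξ => if ξ = χ then Θ else τ₁ ξ
  have hortI : ∀ a ∈ insert χ S₀, ∀ b ∈ insert χ S₀, a ≠ b → classInner a b = 0 :=
    fun a ha b hb hab => irr_inner_ne (hirr' a ha) (hirr' b hb) hab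
  have hnzI : ∀ a ∈ insert χ S₀, a ≠ 0 := by
    intro a ha h
    have := degree_ne_zero (hirr' a ha)
    rw [h] at this
    simp at this
  have hXχ : X χ = Θ := by simp [X]
  have hXξ : ∀ ξ ∈ S₀, X ξ = τ₁ ξ := by
    intro ξ hξ
    have : ξ ≠ χ := fun h => hχS (h ▸ hξ)
    simp [X, this]
  have hXX : ∀ a ∈ insert χ S₀, ∀ b ∈ insert χ S₀, classInner (X a) (X b) = classInner a b := by
    intro a ha b hb
    rcases Finset.mem_insert.1 ha with rfl | ha'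
    · rcases Finset.mem_insert.1 hb with rfl | hb'
      · rw [hXχ, hnorm1, irr_inner_self hχ]
      · rw [hXχ, hXξ b hb', hc0 b hb', hχψ b hb']
    · rcases Finset.mem_insert.1 hb with rfl | hb'
      · rw [hXχ, hXξ a ha', ← classInner_conj, hc0 a ha', hξχ a ha']
        simp
      · rw [hXξ a ha', hXξ b hb']
        exact iso_inner hτ₁ (zspan_mem ha') (zspan_mem hb')
  have hXg : ∀ a ∈ insert χ S₀, IsGeneralizedCharacter G (X a) := by
    intro a ha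
    rcases Finset.mem_insert.1 ha with rfl | ha'
    · rw [hXχ]; exact hΘg
    · rw [hXξ a ha']; exact iso_gen hτ₁ (zspan_mem ha')
  obtain ⟨α₀, hα₀, hα₀ne⟩ := hne
  refine ⟨⟨α₀, zspanOn_mono hsub hα₀, hα₀ne⟩, famMap (insert χ S₀) X,
    famMap_iso hortI hnzI X hXX hXg, ?_⟩
  intro α hα
  have hα' := mem_zspanOn_one.1 hα
  have hα1 := hα'.1
  rw [zspan, Finset.coe_insert, SetLike.mem_coe, Submodule.mem_span_insert] at hα1
  obtain ⟨m, f, hf, hαeq⟩ := hα1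
  have hfZ : f ∈ zspan (↑S₀ : Set (L → ℂ)) := hf
  have hfam : famMap (insert χ S₀) X f = τ₁ f :=
    famMap_eq_on_sub (Finset.subset_insert _ _) hortI hnzI X τ₁ hτ₁ hXξ hfZ
  set α' : L → ℂ := f + (m * a : ℤ) • ψ with hα'def
  have hα'Z : α' ∈ zspan (↑S₀ : Set (L → ℂ)) := hE₀.add _ hfZ _ (hE₀.zsmul _ hψ' _)
  have hα'eq : α = m • β + α' := by
    rw [hαeq, hα'def, hβ, smul_sub, mul_smul]
    abel
  have hα'1 : α' 1 = 0 := by
    have h1 := hα'.2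
    rw [hα'eq] at h1
    simpa [hβ1] using h1
  have hα'E₀ : α' ∈ zspanOn (↑S₀ : Set (L → ℂ)) {1}ᶜ := mem_zspanOn_one.2 ⟨hα'Z, hα'1⟩
  have hτα' : τ α' = τ₁ f + (m * a : ℤ) • τ₁ ψ := by
    rw [← hτ₁τ _ hα'E₀, hα'def, iso_add hτ₁ hfZ (hE₀.zsmul _ hψ' _), iso_zsmul hτ₁ hψ']
  rw [hαeq, famMap_add, famMap_zsmul, famMap_of_mem hortI hnzI X hχI, hXχ, hfam]
  have h9 : m • χ + f = m • β + α' := by rw [← hαeq]; exact hα'eq
  rw [h9, iso_add hτ (hE.zsmul _ hβE m) (zspanOn_mono hsub hα'E₀), iso_zsmul hτ hβE, hτα', hΘ,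
    smul_add, mul_smul]
  abel

/-- Orthogonality of two isometries agreeing with a common one on the vanishing part. -/
theorem two_iso_orth {L : Type u} [Group L] [Fintype L] {G : Type v} [Group G] [Fintype G]
    (S X Y : Set (L → ℂ)) (hirr : ∀ ξ ∈ S, IsIrrCharacter L ξ) (hXS : X ⊆ S) (hYS : Y ⊆ S)
    (hXY : Disjoint X Y) (hX2 : ∃ a ∈ X, ∃ b ∈ X, a ≠ b) (hY2 : ∃ a ∈ Y, ∃ b ∈ Y, a ≠ b)
    (α : (L → ℂ) → (G → ℂ)) (hα : IsLinearIsometryOn (zspanOn S {1}ᶜ) α)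
    (hα1 : ∀ θ ∈ zspanOn S {1}ᶜ, α θ 1 = 0) (σ τ : (L → ℂ) → (G → ℂ))
    (hσ : IsLinearIsometryOn (zspan X) σ) (hσα : ∀ θ ∈ zspanOn X {1}ᶜ, σ θ = α θ)
    (hτ : IsLinearIsometryOn (zspan Y) τ) (hτα : ∀ θ ∈ zspanOn Y {1}ᶜ, τ θ = α θ) :
    ∀ χ ∈ X, ∀ η ∈ Y, classInner (σ χ) (τ η) = 0 := by
  classical
  intro χ hχ η hη
  by_contra hne
  have hEX := closed_zspan X
  have hEY := closed_zspan Y
  have hiX : ∀ ξ ∈ X, IsIrrCharacter L ξ := fun ξ hξ => hirr ξ (hXS hξ)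
  have hiY : ∀ ξ ∈ Y, IsIrrCharacter L ξ := fun ξ hξ => hirr ξ (hYS hξ)
  have hgX : ∀ ξ ∈ X, IsGeneralizedCharacter G (σ ξ) := fun ξ hξ => iso_gen hσ (zspan_mem hξ)
  have hgY : ∀ ξ ∈ Y, IsGeneralizedCharacter G (τ ξ) := fun ξ hξ => iso_gen hτ (zspan_mem hξ)
  have hnX : ∀ ξ ∈ X, classInner (σ ξ) (σ ξ) = 1 := fun ξ hξ => by
    rw [iso_inner hσ (zspan_mem hξ) (zspan_mem hξ), irr_inner_self (hiX ξ hξ)]
  have hnY : ∀ ξ ∈ Y, classInner (τ ξ) (τ ξ) = 1 := fun ξ hξ => by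
    rw [iso_inner hτ (zspan_mem hξ) (zspan_mem hξ), irr_inner_self (hiY ξ hξ)]
  have hXYo : ∀ x ∈ X, ∀ y ∈ Y, classInner x y = 0 := fun x hx y hy =>
    irr_inner_ne (hiX x hx) (hiY y hy) (fun h => Set.disjoint_left.1 hXY hx (h ▸ hy))
  obtain ⟨e, he⟩ := exists_int_classInner (hgX χ hχ) (hgY η hη)
  have he0 : e ≠ 0 := by
    rintro rfl
    apply hne
    rw [he]
    simp
  obtain ⟨he1, hσχ⟩ := inner_eq_sign (hnX χ hχ) (hnY η hη) he he0
  obtain ⟨χ', hχ', hχχ'⟩ : ∃ χ' ∈ X, χ' ≠ χ := by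
    obtain ⟨p, hp, q, hq, hpq⟩ := hX2
    by_cases h : p = χ
    · exact ⟨q, hq, fun h' => hpq (h.trans h'.symm)⟩
    · exact ⟨p, hp, h⟩
  obtain ⟨η', hη', hηη'⟩ : ∃ η' ∈ Y, η' ≠ η := by
    obtain ⟨p, hp, q, hq, hpq⟩ := hY2
    by_cases h : p = η
    · exact ⟨q, hq, fun h' => hpq (h.trans h'.symm)⟩
    · exact ⟨p, hp, h⟩
  obtain ⟨a, ha, ha1⟩ := exists_degree_pos (hiX χ hχ)
  obtain ⟨a', ha', ha'1⟩ := exists_degree_pos (hiX χ' hχ')
  obtain ⟨b, hb, hb1⟩ := exists_degree_pos (hiY η hη)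
  obtain ⟨b', hb', hb'1⟩ := exists_degree_pos (hiY η' hη')
  have hχZ := zspan_mem hχ
  have hχ'Z := zspan_mem hχ'
  have hηZ := zspan_mem hη
  have hη'Z := zspan_mem hη'
  have hA : (a' : ℤ) • χ - (a : ℤ) • χ' ∈ zspanOn X {1}ᶜ := by
    refine mem_zspanOn_one.2 ⟨hEX.sub (hEX.zsmul _ hχZ _) (hEX.zsmul _ hχ'Z _), ?_⟩
    simp only [Pi.sub_apply, Pi.smul_apply, ha1, ha'1]
    simp
    ring
  have hB : (b' : ℤ) • η - (b : ℤ) • η' ∈ zspanOn Y {1}ᶜ := by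
    refine mem_zspanOn_one.2 ⟨hEY.sub (hEY.zsmul _ hηZ _) (hEY.zsmul _ hη'Z _), ?_⟩
    simp only [Pi.sub_apply, Pi.smul_apply, hb1, hb'1]
    simp
    ring
  have hAS := zspanOn_mono hXS hA
  have hBS := zspanOn_mono hYS hB
  have hσA : σ ((a' : ℤ) • χ - (a : ℤ) • χ') = (a' : ℤ) • σ χ - (a : ℤ) • σ χ' := by
    rw [iso_sub hEX hσ (hEX.zsmul _ hχZ _) (hEX.zsmul _ hχ'Z _), iso_zsmul hσ hχZ, iso_zsmul hσ hχ'Z]
  have hτB : τ ((b' : ℤ) • η - (b : ℤ) • η') = (b' : ℤ) • τ η - (b : ℤ) • τ η' := by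
    rw [iso_sub hEY hτ (hEY.zsmul _ hηZ _) (hEY.zsmul _ hη'Z _), iso_zsmul hτ hηZ, iso_zsmul hτ hη'Z]
  have hinner : classInner (σ ((a' : ℤ) • χ - (a : ℤ) • χ')) (τ ((b' : ℤ) • η - (b : ℤ) • η')) = 0 := by
    rw [hσα _ hA, hτα _ hB, iso_inner hα hAS hBS]
    simp only [inner_sub_left, inner_sub_right, inner_zsmul_left, inner_zsmul_right]
    rw [hXYo χ hχ η hη, hXYo χ hχ η' hη', hXYo χ' hχ' η hη, hXYo χ' hχ' η' hη']
    simp
  obtain ⟨e', he'⟩ := exists_int_classInner (hgX χ' hχ') (hgY η' hη')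
  have h1 : classInner (σ χ) (τ η') = 0 := by
    rw [hσχ, inner_zsmul_left, iso_inner hτ hηZ hη'Z, irr_inner_ne (hiY η hη) (hiY η' hη') (Ne.symm hηη'),
      mul_zero]
  have h2 : classInner (σ χ') (τ η) = 0 := by
    have h3 : classInner (σ χ') (σ χ) = 0 := by
      rw [iso_inner hσ hχ'Z hχZ, irr_inner_ne (hiX χ' hχ') (hiX χ hχ) hχχ']
    rw [hσχ, inner_zsmul_right] at h3
    exact (mul_eq_zero.1 h3).resolve_left (by exact_mod_cast he0)
  have hrect : (a' : ℤ) * b' * e + (a : ℤ) * b * e' = 0 := by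
    rw [hσA, hτB] at hinner
    simp only [inner_sub_left, inner_sub_right, inner_zsmul_left, inner_zsmul_right] at hinner
    rw [he, he', h1, h2] at hinner
    have : (((a' : ℤ) * b' * e + (a : ℤ) * b * e' : ℤ) : ℂ) = 0 := by
      push_cast
      linear_combination hinner
    exact_mod_cast this
  have ha'Z : (0 : ℤ) < a' := by exact_mod_cast ha'
  have haZ : (0 : ℤ) < a := by exact_mod_cast ha
  have hbZ : (0 : ℤ) < b := by exact_mod_cast hb
  have hb'Z : (0 : ℤ) < b' := by exact_mod_cast hb'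
  have he'0 : e' ≠ 0 := by
    rintro rfl
    have : (a' : ℤ) * b' * e = 0 := by simpa using hrect
    have h3 : (a' : ℤ) * b' ≠ 0 := by positivity
    exact he0 ((mul_eq_zero.1 this).resolve_left h3)
  obtain ⟨he'1, hσχ'⟩ := inner_eq_sign (hnX χ' hχ') (hnY η' hη') he' he'0
  have hv1 : (a' : ℂ) * σ χ 1 = (a : ℂ) * σ χ' 1 := by
    have h3 := hα1 _ hAS
    rw [← hσα _ hA, hσA] at h3
    simp only [Pi.sub_apply, Pi.smul_apply] at h3
    simp only [zsmul_eq_mul, Int.cast_natCast] at h3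
    exact sub_eq_zero.1 h3
  have hv2 : (b' : ℂ) * τ η 1 = (b : ℂ) * τ η' 1 := by
    have h3 := hα1 _ hBS
    rw [← hτα _ hB, hτB] at h3
    simp only [Pi.sub_apply, Pi.smul_apply] at h3
    simp only [zsmul_eq_mul, Int.cast_natCast] at h3
    exact sub_eq_zero.1 h3
  have hr : τ η 1 ≠ 0 := gen_norm_one_ne_zero (hgY η hη) (hnY η hη)
  have hv3 : σ χ 1 = (e : ℂ) * τ η 1 := by
    rw [hσχ]
    simp only [Pi.smul_apply]
    simp
  have hv4 : σ χ' 1 = (e' : ℂ) * τ η' 1 := by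
    rw [hσχ']
    simp only [Pi.smul_apply]
    simp
  rw [hv3, hv4] at hv1
  have hz : (((a' : ℤ) * b * e - (a : ℤ) * b' * e' : ℤ) : ℂ) * τ η 1 = 0 := by
    push_cast
    linear_combination (b : ℂ) * hv1 + (-(a : ℂ) * e') * hv2
  have hz' : (a' : ℤ) * b * e - (a : ℤ) * b' * e' = 0 := by
    have := (mul_eq_zero.1 hz).resolve_right hr
    exact_mod_cast this
  have p1 : (0 : ℤ) < (a' : ℤ) * b' := by positivity
  have p2 : (0 : ℤ) < (a : ℤ) * b := by positivity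
  have p3 : (0 : ℤ) < (a' : ℤ) * b := by positivity
  have p4 : (0 : ℤ) < (a : ℤ) * b' := by positivity
  rcases he1 with rfl | rfl <;> rcases he'1 with rfl | rfl <;> nlinarith

/-- Gluing two isometries into a coherent one given one compatibility. -/
theorem two_iso_coherent {L : Type u} [Group L] [Fintype L] {G : Type v} [Group G] [Fintype G]
    (S X Y : Set (L → ℂ)) (hirr : ∀ ξ ∈ S, IsIrrCharacter L ξ) (hXS : X ⊆ S) (hYS : Y ⊆ S)
    (hXY : Disjoint X Y) (hX2 : ∃ a ∈ X, ∃ b ∈ X, a ≠ b)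
    (α : (L → ℂ) → (G → ℂ)) (hα : IsLinearIsometryOn (zspanOn S {1}ᶜ) α)
    (σ τ : (L → ℂ) → (G → ℂ))
    (hσ : IsLinearIsometryOn (zspan X) σ) (hσα : ∀ θ ∈ zspanOn X {1}ᶜ, σ θ = α θ)
    (hτ : IsLinearIsometryOn (zspan Y) τ) (hτα : ∀ θ ∈ zspanOn Y {1}ᶜ, τ θ = α θ)
    (horth : ∀ χ ∈ X, ∀ η ∈ Y, classInner (σ χ) (τ η) = 0)
    (h : ∃ χ₀ ∈ X, ∃ η₀ ∈ Y, α (χ₀ 1 • η₀ - η₀ 1 • χ₀) = χ₀ 1 • τ η₀ - η₀ 1 • σ χ₀) :
    IsCoherent (X ∪ Y) {1}ᶜ α := by
  classical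
  obtain ⟨χ₀, hχ₀, η₀, hη₀, hcomp⟩ := h
  have hEX := closed_zspan X
  have hEY := closed_zspan Y
  have hES := closed_zspanOn S {1}ᶜ
  have hiX : ∀ ξ ∈ X, IsIrrCharacter L ξ := fun ξ hξ => hirr ξ (hXS hξ)
  have hiY : ∀ ξ ∈ Y, IsIrrCharacter L ξ := fun ξ hξ => hirr ξ (hYS hξ)
  have hiU : ∀ ξ ∈ X ∪ Y, IsIrrCharacter L ξ := fun ξ hξ => hξ.elim (hiX ξ) (hiY ξ)
  have hUS : X ∪ Y ⊆ S := Set.union_subset hXS hYS
  have hXYo : ∀ x ∈ X, ∀ y ∈ Y, classInner x y = 0 := fun x hx y hy =>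
    irr_inner_ne (hiX x hx) (hiY y hy) (fun h => Set.disjoint_left.1 hXY hx (h ▸ hy))
  have hnz : ∀ ξ ∈ X ∪ Y, ξ ≠ 0 := by
    intro ξ hξ h0
    have := degree_ne_zero (hiU ξ hξ)
    rw [h0] at this
    simp at this
  have hortU : ∀ a ∈ X ∪ Y, ∀ b ∈ X ∪ Y, a ≠ b → classInner a b = 0 :=
    fun a ha b hb hab => irr_inner_ne (hiU a ha) (hiU b hb) hab
  have hfin := finite_of_orthogonal (X ∪ Y) hortU hnz
  have hmemF : ∀ a, a ∈ hfin.toFinset ↔ a ∈ X ∪ Y := fun a => hfin.mem_toFinset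
  have hSF : ((hfin.toFinset : Finset (L → ℂ)) : Set (L → ℂ)) = X ∪ Y := hfin.coe_toFinset
  let F : (L → ℂ) → (G → ℂ) := fun ξ => if ξ ∈ X then σ ξ else τ ξ
  have hFX : ∀ ξ ∈ X, F ξ = σ ξ := fun ξ hξ => by simp [F, hξ]
  have hFY : ∀ ξ ∈ Y, F ξ = τ ξ := fun ξ hξ => by
    have : ξ ∉ X := fun h => Set.disjoint_left.1 hXY h hξ
    simp [F, this]
  have hFF : ∀ a ∈ hfin.toFinset, ∀ b ∈ hfin.toFinset, classInner (F a) (F b) = classInner a b := by
    intro a ha b hb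
    rcases (hmemF a).1 ha with ha' | ha' <;> rcases (hmemF b).1 hb with hb' | hb'
    · rw [hFX a ha', hFX b hb']
      exact iso_inner hσ (zspan_mem ha') (zspan_mem hb')
    · rw [hFX a ha', hFY b hb', horth a ha' b hb', hXYo a ha' b hb']
    · rw [hFY a ha', hFX b hb', ← classInner_conj, horth b hb' a ha', ← classInner_conj b a,
        hXYo b hb' a ha']
    · rw [hFY a ha', hFY b hb']
      exact iso_inner hτ (zspan_mem ha') (zspan_mem hb')
  have hFg : ∀ a ∈ hfin.toFinset, IsGeneralizedCharacter G (F a) := by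
    intro a ha
    rcases (hmemF a).1 ha with ha' | ha'
    · rw [hFX a ha']; exact iso_gen hσ (zspan_mem ha')
    · rw [hFY a ha']; exact iso_gen hτ (zspan_mem ha')
  have hortF : ∀ a ∈ hfin.toFinset, ∀ b ∈ hfin.toFinset, a ≠ b → classInner a b = 0 :=
    fun a ha b hb hab => hortU a ((hmemF a).1 ha) b ((hmemF b).1 hb) hab
  have hnzF : ∀ a ∈ hfin.toFinset, a ≠ 0 := fun a ha => hnz a ((hmemF a).1 ha)
  have hdegU : ∀ ξ ∈ X ∪ Y, ∃ n : ℕ, ξ 1 = n := fun ξ hξ => by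
    obtain ⟨n, _, hn⟩ := exists_degree_pos (hiU ξ hξ)
    exact ⟨n, hn⟩
  have hdegX : ∀ ξ ∈ X, ∃ n : ℕ, ξ 1 = n := fun ξ hξ => hdegU ξ (Or.inl hξ)
  have hdegY : ∀ ξ ∈ Y, ∃ n : ℕ, ξ 1 = n := fun ξ hξ => hdegU ξ (Or.inr hξ)
  refine ⟨?_, famMap hfin.toFinset F, ?_, ?_⟩
  · obtain ⟨p, hp, q, hq, hpq⟩ := hX2
    obtain ⟨a, ha, ha1⟩ := exists_degree_pos (hiX p hp)
    obtain ⟨b, hb, hb1⟩ := exists_degree_pos (hiX q hq)
    refine ⟨(b : ℤ) • p - (a : ℤ) • q, ?_, ?_⟩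
    · refine mem_zspanOn_one.2 ⟨(closed_zspan _).sub ((closed_zspan _).zsmul _ (zspan_mem (Or.inl hp)) _)
        ((closed_zspan _).zsmul _ (zspan_mem (Or.inl hq)) _), ?_⟩
      simp only [Pi.sub_apply, Pi.smul_apply, ha1, hb1]
      simp
      ring
    · intro h0
      have h1 : classInner ((b : ℤ) • p - (a : ℤ) • q) p = 0 := by
        rw [h0, classInner_zero_left]
      rw [inner_sub_left, inner_zsmul_left, inner_zsmul_left, irr_inner_self (hiX p hp),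
        irr_inner_ne (hiX q hq) (hiX p hp) (Ne.symm hpq)] at h1
      have h2 : (b : ℂ) = 0 := by simpa using h1
      have h3 : b = 0 := by exact_mod_cast h2
      omega
  · have := famMap_iso hortF hnzF F hFF hFg
    rwa [hSF] at this
  · intro θ hθ
    have hθ' := mem_zspanOn_one.1 hθ
    have key : ∃ f₁ ∈ zspan X, ∃ f₂ ∈ zspan Y, θ = f₁ + f₂ ∧
        famMap hfin.toFinset F θ = σ f₁ + τ f₂ := by
      refine zspan_induction (p := fun θ => ∃ f₁ ∈ zspan X, ∃ f₂ ∈ zspan Y, θ = f₁ + f₂ ∧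
        famMap hfin.toFinset F θ = σ f₁ + τ f₂) ?_ ?_ ?_ ?_ hθ'.1
      · rintro x (hx | hx)
        · refine ⟨x, zspan_mem hx, 0, hEY.zero, by simp, ?_⟩
          rw [famMap_of_mem hortF hnzF F ((hmemF x).2 (Or.inl hx)), hFX x hx, iso_zero hEY hτ, add_zero]
        · refine ⟨0, hEX.zero, x, zspan_mem hx, by simp, ?_⟩
          rw [famMap_of_mem hortF hnzF F ((hmemF x).2 (Or.inr hx)), hFY x hx, iso_zero hEX hσ, zero_add]
      · refine ⟨0, hEX.zero, 0, hEY.zero, by simp, ?_⟩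
        rw [famMap_zero, iso_zero hEX hσ, iso_zero hEY hτ, add_zero]
      · rintro x y ⟨f₁, hf₁, f₂, hf₂, rfl, h2⟩ ⟨g₁, hg₁, g₂, hg₂, rfl, h2'⟩
        refine ⟨f₁ + g₁, hEX.add _ hf₁ _ hg₁, f₂ + g₂, hEY.add _ hf₂ _ hg₂, by abel, ?_⟩
        rw [famMap_add, h2, h2', iso_add hσ hf₁ hg₁, iso_add hτ hf₂ hg₂]
        abel
      · rintro n x ⟨f₁, hf₁, f₂, hf₂, rfl, h2⟩
        refine ⟨n • f₁, hEX.zsmul _ hf₁ _, n • f₂, hEY.zsmul _ hf₂ _, by rw [smul_add], ?_⟩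
        rw [famMap_zsmul, h2, iso_zsmul hσ hf₁, iso_zsmul hτ hf₂, smul_add]
    obtain ⟨f₁, hf₁, f₂, hf₂, hθeq, hfam⟩ := key
    rw [hfam]
    obtain ⟨A, hA⟩ := zspan_one_int hdegX hf₁
    obtain ⟨B, hB⟩ := zspan_one_int hdegY hf₂
    have hAB : B = -A := by
      have h1 := hθ'.2
      rw [hθeq] at h1
      simp only [Pi.add_apply, hA, hB] at h1
      have h2 : ((A + B : ℤ) : ℂ) = 0 := by
        push_cast
        exact h1
      have h3 : A + B = 0 := by exact_mod_cast h2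
      omega
    subst hAB
    obtain ⟨c, hc, hc1⟩ := exists_degree_pos (hiX χ₀ hχ₀)
    obtain ⟨e, he, he1⟩ := exists_degree_pos (hiY η₀ hη₀)
    have hχ₀Z := zspan_mem hχ₀
    have hη₀Z := zspan_mem hη₀
    have hu : (c : ℤ) • f₁ - A • χ₀ ∈ zspanOn X {1}ᶜ := by
      refine mem_zspanOn_one.2 ⟨hEX.sub (hEX.zsmul _ hf₁ _) (hEX.zsmul _ hχ₀Z _), ?_⟩
      simp only [Pi.sub_apply, Pi.smul_apply, hA, hc1]
      simp
      ring
    have hv : (e : ℤ) • f₂ - (-A) • η₀ ∈ zspanOn Y {1}ᶜ := by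
      refine mem_zspanOn_one.2 ⟨hEY.sub (hEY.zsmul _ hf₂ _) (hEY.zsmul _ hη₀Z _), ?_⟩
      simp only [Pi.sub_apply, Pi.smul_apply, hB, he1]
      simp
      ring
    have hw : (c : ℤ) • η₀ - (e : ℤ) • χ₀ ∈ zspanOn S {1}ᶜ := by
      refine mem_zspanOn_one.2 ⟨(closed_zspan _).sub ((closed_zspan _).zsmul _ (zspan_mem (hYS hη₀)) _)
        ((closed_zspan _).zsmul _ (zspan_mem (hXS hχ₀)) _), ?_⟩
      simp only [Pi.sub_apply, Pi.smul_apply, hc1, he1]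
      simp
      ring
    have hcastL : ∀ (n : ℕ) (f : L → ℂ), (n : ℂ) • f = (n : ℤ) • f := by
      intro n f
      funext x
      simp
    have hcastG : ∀ (n : ℕ) (f : G → ℂ), (n : ℂ) • f = (n : ℤ) • f := by
      intro n f
      funext x
      simp
    rw [hc1, he1, hcastL, hcastL, hcastG, hcastG] at hcomp
    have hσu := hσα _ hu
    have hτv := hτα _ hv
    rw [iso_sub hEX hσ (hEX.zsmul _ hf₁ _) (hEX.zsmul _ hχ₀Z _), iso_zsmul hσ hf₁, iso_zsmul hσ hχ₀Z]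
      at hσu
    rw [iso_sub hEY hτ (hEY.zsmul _ hf₂ _) (hEY.zsmul _ hη₀Z _), iso_zsmul hτ hf₂, iso_zsmul hτ hη₀Z]
      at hτv
    have huS := zspanOn_mono hXS hu
    have hvS := zspanOn_mono hYS hv
    have hid : ((c : ℤ) * (e : ℤ)) • θ = (e : ℤ) • ((c : ℤ) • f₁ - A • χ₀)
        + (c : ℤ) • ((e : ℤ) • f₂ - (-A) • η₀) + (-A) • ((c : ℤ) • η₀ - (e : ℤ) • χ₀) := by
      rw [hθeq]
      funext x
      simp only [Pi.add_apply, Pi.sub_apply, Pi.smul_apply]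
      simp only [zsmul_eq_mul]
      push_cast
      ring
    have hθS : θ ∈ zspanOn S {1}ᶜ := zspanOn_mono hUS hθ
    have h1 := iso_zsmul hα hθS ((c : ℤ) * (e : ℤ))
    rw [hid, iso_add hα (hES.add _ (hES.zsmul _ huS _) _ (hES.zsmul _ hvS _)) (hES.zsmul _ hw _),
      iso_add hα (hES.zsmul _ huS _) (hES.zsmul _ hvS _), iso_zsmul hα huS, iso_zsmul hα hvS,
      iso_zsmul hα hw, ← hσu, ← hτv, hcomp] at h1
    funext x
    have h2 := congrFun h1 x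
    simp only [Pi.add_apply, Pi.sub_apply, Pi.smul_apply] at h2
    simp only [zsmul_eq_mul] at h2
    push_cast at h2
    have hne : (c : ℂ) * (e : ℂ) ≠ 0 := by
      have h3 : (c : ℂ) ≠ 0 := by exact_mod_cast hc.ne'
      have h4 : (e : ℂ) ≠ 0 := by exact_mod_cast he.ne'
      exact mul_ne_zero h3 h4
    apply mul_left_cancel₀ hne
    simp only [Pi.add_apply]
    linear_combination h2

/-- Adding a conjugate pair to a coherent set. -/
theorem coherent_add_pair {L : Type u} [Group L] [Fintype L] {G : Type v} [Group G] [Fintype G]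
    (S : Set (L → ℂ)) (τ : (L → ℂ) → (G → ℂ)) (R : (L → ℂ) → Finset (G → ℂ))
    (hS : IsCoherenceSystem S τ R) (d n : (L → ℂ) → ℕ)
    (hd : ∀ φ ∈ S, φ 1 = (d φ : ℂ)) (hn : ∀ φ ∈ S, classInner φ φ = (n φ : ℂ))
    (S₁ : Finset (L → ℂ)) (hS₁ : (↑S₁ : Set (L → ℂ)) ⊆ S) (hS₁c : ∀ φ ∈ S₁, conjFun φ ∈ S₁)
    (hcoh : IsCoherent (↑S₁ : Set (L → ℂ)) {1}ᶜ τ) (χ : L → ℂ) (hχ : χ ∈ S) (hχ₁ : χ ∉ S₁)
    (hχ₂ : conjFun χ ∉ S₁) (χ₁ : L → ℂ) (hχ₁S : χ₁ ∈ S₁) (hdvd : d χ₁ ∣ d χ)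
    (hineq : (2 * d χ * d χ₁ : ℝ) < ∑ φ ∈ S₁, ((d φ : ℝ) ^ 2 / (n φ : ℝ))) :
    IsCoherent (↑S₁ ∪ {χ, conjFun χ} : Set (L → ℂ)) {1}ᶜ τ := by
  classical
  obtain ⟨hne, τ₁, hτ₁, hτ₁τ⟩ := hcoh
  obtain ⟨a, ha⟩ := hdvd
  have hiso := hS.isometry
  have hE := cs_closed hS
  have hE₁ := closed_zspan (↑S₁ : Set (L → ℂ))
  have hZ := closed_zspan S
  have hχc := hS.conj_mem χ hχ
  have hχ₁' : χ₁ ∈ S := hS₁ hχ₁S
  have hmemS : ∀ φ ∈ S₁, φ ∈ S := fun φ hφ => hS₁ hφ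
  have hdpos : ∀ φ ∈ S, 0 < d φ := by
    intro φ hφ
    have h1 := char_one_ne_zero (hS.isCharacter φ hφ) (cs_ne_zero hS hφ)
    rw [hd φ hφ] at h1
    exact Nat.pos_of_ne_zero (by exact_mod_cast h1)
  have hnpos : ∀ φ ∈ S, 0 < n φ := by
    intro φ hφ
    have h1 := inner_self_ne_zero (cs_ne_zero hS hφ)
    rw [hn φ hφ] at h1
    exact Nat.pos_of_ne_zero (by exact_mod_cast h1)
  have hδ := hdpos χ₁ hχ₁'
  have ha0 : 0 < a := by
    have := hdpos χ hχ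
    rw [ha] at this
    exact Nat.pos_of_mul_pos_left this
  have hχne : ∀ φ ∈ S₁, φ ≠ χ := fun φ hφ h => hχ₁ (h ▸ hφ)
  have hχcne : ∀ φ ∈ S₁, φ ≠ conjFun χ := fun φ hφ h => hχ₂ (h ▸ hφ)
  have hχφ : ∀ φ ∈ S₁, classInner χ φ = 0 := fun φ hφ =>
    hS.orthogonal χ hχ φ (hmemS φ hφ) (hχne φ hφ).symm
  have hφχ : ∀ φ ∈ S₁, classInner φ χ = 0 := fun φ hφ =>
    hS.orthogonal φ (hmemS φ hφ) χ hχ (hχne φ hφ)
  have hχcφ : ∀ φ ∈ S₁, classInner (conjFun χ) φ = 0 := fun φ hφ =>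
    hS.orthogonal _ hχc φ (hmemS φ hφ) (hχcne φ hφ).symm
  have hφχc : ∀ φ ∈ S₁, classInner φ (conjFun χ) = 0 := fun φ hφ =>
    hS.orthogonal φ (hmemS φ hφ) _ hχc (hχcne φ hφ)
  have hχ₁Z : χ₁ ∈ zspan (↑S₁ : Set (L → ℂ)) := zspan_mem hχ₁S
  have hχ₁ZS : χ₁ ∈ zspan S := zspan_mono hS₁ hχ₁Z
  set β : L → ℂ := χ - (a : ℤ) • χ₁ with hβ
  set β' : L → ℂ := conjFun χ - (a : ℤ) • χ₁ with hβ'
  have hχ1 : χ 1 = (d χ₁ : ℂ) * a := by rw [hd χ hχ, ha]; push_cast; ring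
  have hβ1 : β 1 = 0 := by
    simp only [hβ, Pi.sub_apply, Pi.smul_apply, hχ1, hd χ₁ hχ₁']
    simp
    ring
  have hβ'1 : β' 1 = 0 := by
    simp only [hβ', Pi.sub_apply, Pi.smul_apply, cs_conj_one hS hχ, hχ1, hd χ₁ hχ₁']
    simp
    ring
  have hβE : β ∈ zspanOn S {1}ᶜ :=
    mem_zspanOn_one.2 ⟨hZ.sub (zspan_mem hχ) (hZ.zsmul _ hχ₁ZS _), hβ1⟩
  have hβ'E : β' ∈ zspanOn S {1}ᶜ :=
    mem_zspanOn_one.2 ⟨hZ.sub (zspan_mem hχc) (hZ.zsmul _ hχ₁ZS _), hβ'1⟩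
  set Θ : G → ℂ := τ β + (a : ℤ) • τ₁ χ₁ with hΘ
  set Θ' : G → ℂ := τ β' + (a : ℤ) • τ₁ χ₁ with hΘ'
  have hχ₁g := iso_gen hτ₁ hχ₁Z
  have hβg := iso_gen hiso hβE
  have hβ'g := iso_gen hiso hβ'E
  have hΘg : IsGeneralizedCharacter G Θ := isGen_add hβg (isGen_zsmul' hχ₁g _)
  have hΘ'g : IsGeneralizedCharacter G Θ' := isGen_add hβ'g (isGen_zsmul' hχ₁g _)
  have hdiff : Θ - Θ' = ∑ α ∈ R χ, α := by
    rw [← hS.sum_eq χ hχ]
    have h1 : χ - conjFun χ = β - β' := by rw [hβ, hβ']; abel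
    rw [h1, iso_sub hE hiso hβE hβ'E, hΘ, hΘ']
    abel
  -- R χ is orthogonal to the image of τ₁
  have claim1 : ∀ φ ∈ S₁, ∀ α ∈ R χ, classInner (τ₁ φ) α = 0 := by
    intro φ hφ α hα
    have hφZ : φ ∈ zspan (↑S₁ : Set (L → ℂ)) := zspan_mem hφ
    have hφcZ : conjFun φ ∈ zspan (↑S₁ : Set (L → ℂ)) := zspan_mem (hS₁c φ hφ)
    have hφS := hmemS φ hφ
    have hsubm : φ - conjFun φ ∈ zspanOn (↑S₁ : Set (L → ℂ)) {1}ᶜ := by
      refine mem_zspanOn_one.2 ⟨hE₁.sub hφZ hφcZ, ?_⟩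
      simp [cs_conj_one hS hφS]
    obtain ⟨T, hT, hY⟩ := split_one (R φ) (hS.orthonormal φ hφS) (hS.virtual φ hφS)
      (iso_gen hτ₁ hφZ) (Y' := τ₁ (conjFun φ))
      (by rw [iso_inner hτ₁ hφZ hφcZ, cs_orth_conj hS hφS])
      (by rw [← iso_sub hE₁ hτ₁ hφZ hφcZ, hτ₁τ _ hsubm, hS.sum_eq φ hφS])
    rw [hY, classInner_sum_left]
    exact Finset.sum_eq_zero fun b hb =>
      cs_R_orth hS hφS hχ (hχne φ hφ) (hχcne φ hφ) b (hT hb) α hα
  have claim1' : ∀ φ ∈ S₁, ∀ α ∈ R χ, classInner α (τ₁ φ) = 0 := by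
    intro φ hφ α hα
    rw [← classInner_conj, claim1 φ hφ α hα]
    simp
  have hsumφ : ∀ φ ∈ S₁, classInner (∑ α ∈ R χ, α) (τ₁ φ) = 0 := by
    intro φ hφ
    rw [classInner_sum_left]
    exact Finset.sum_eq_zero fun α hα => claim1' φ hφ α hα
  have hΘΘ' : ∀ φ ∈ S₁, classInner Θ' (τ₁ φ) = classInner Θ (τ₁ φ) := by
    intro φ hφ
    have h1 : Θ = Θ' + ∑ α ∈ R χ, α := by rw [← hdiff]; abel
    rw [h1, classInner_add_left Θ' (∑ α ∈ R χ, α) (τ₁ φ), hsumφ φ hφ, add_zero]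
  -- the coefficients
  let γ : (L → ℂ) → (L → ℂ) := fun φ => (d φ : ℤ) • χ₁ - (d χ₁ : ℤ) • φ
  have hγ₀ : ∀ φ ∈ S₁, γ φ ∈ zspanOn (↑S₁ : Set (L → ℂ)) {1}ᶜ := by
    intro φ hφ
    refine mem_zspanOn_one.2 ⟨hE₁.sub (hE₁.zsmul _ hχ₁Z _) (hE₁.zsmul _ (zspan_mem hφ) _), ?_⟩
    simp only [γ, Pi.sub_apply, Pi.smul_apply, hd φ (hmemS φ hφ), hd χ₁ hχ₁']
    simp
    ring
  have hτ₁γ : ∀ φ ∈ S₁, τ₁ (γ φ) = (d φ : ℤ) • τ₁ χ₁ - (d χ₁ : ℤ) • τ₁ φ := by
    intro φ hφ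
    simp only [γ]
    rw [iso_sub hE₁ hτ₁ (hE₁.zsmul _ hχ₁Z _) (hE₁.zsmul _ (zspan_mem hφ) _), iso_zsmul hτ₁ hχ₁Z,
      iso_zsmul hτ₁ (zspan_mem hφ)]
  have key1 : ∀ φ ∈ S₁, (d φ : ℂ) * classInner Θ (τ₁ χ₁) = (d χ₁ : ℂ) * classInner Θ (τ₁ φ) := by
    intro φ hφ
    have hγE := zspanOn_mono hS₁ (hγ₀ φ hφ)
    have h2a : classInner (τ β) (τ₁ (γ φ)) = classInner β (γ φ) := by
      rw [hτ₁τ _ (hγ₀ φ hφ)]
      exact iso_inner hiso hβE hγE
    have h2b : classInner (τ₁ χ₁) (τ₁ (γ φ)) = classInner χ₁ (γ φ) :=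
      iso_inner hτ₁ hχ₁Z (hγ₀ φ hφ).1
    have h2 : classInner Θ (τ₁ (γ φ)) = 0 := by
      rw [hΘ, classInner_add_left, inner_zsmul_left, h2a, h2b, hβ, inner_sub_left, inner_zsmul_left]
      have : classInner χ (γ φ) = 0 := by
        simp only [γ]
        rw [inner_sub_right, inner_zsmul_right, inner_zsmul_right, hχφ χ₁ hχ₁S, hχφ φ hφ]
        simp
      rw [this]
      ring
    rw [hτ₁γ φ hφ, inner_sub_right, inner_zsmul_right, inner_zsmul_right] at h2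
    have h3 := sub_eq_zero.1 h2
    simpa using h3
  have hcex : ∀ φ ∈ S₁, ∃ c : ℤ, classInner Θ (τ₁ φ) = c := fun φ hφ =>
    exists_int_classInner hΘg (iso_gen hτ₁ (zspan_mem hφ))
  choose! c hc using hcex
  have hk : classInner Θ (τ₁ χ₁) = (c χ₁ : ℂ) := hc χ₁ hχ₁S
  have hkφ : ∀ φ ∈ S₁, (d φ : ℤ) * c χ₁ = (d χ₁ : ℤ) * c φ := by
    intro φ hφ
    have := key1 φ hφ
    rw [hk, hc φ hφ] at this
    exact_mod_cast this
  have hχ₁χ₁ : classInner (τ₁ χ₁) (τ₁ χ₁) = (n χ₁ : ℂ) := by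
    rw [iso_inner hτ₁ hχ₁Z hχ₁Z, hn χ₁ hχ₁']
  -- pairing computations
  have hy : classInner (τ β) (τ₁ χ₁) = (c χ₁ : ℂ) - a * n χ₁ := by
    have := hk
    rw [hΘ, classInner_add_left, inner_zsmul_left, hχ₁χ₁] at this
    rw [← this]
    simp
  have hy' : classInner (τ β') (τ₁ χ₁) = (c χ₁ : ℂ) - a * n χ₁ := by
    have := hk
    rw [← hΘΘ' χ₁ hχ₁S, hΘ', classInner_add_left, inner_zsmul_left, hχ₁χ₁] at this
    rw [← this]
    simp
  have hyr : classInner (τ₁ χ₁) (τ β) = (c χ₁ : ℂ) - a * n χ₁ := by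
    rw [← inner_gen_symm hβg hχ₁g, hy]
  have hyr' : classInner (τ₁ χ₁) (τ β') = (c χ₁ : ℂ) - a * n χ₁ := by
    rw [← inner_gen_symm hβ'g hχ₁g, hy']
  have hχχ₁ := hχφ χ₁ hχ₁S
  have hχ₁χ := hφχ χ₁ hχ₁S
  have hχcχ₁ := hχcφ χ₁ hχ₁S
  have hχ₁χc := hφχc χ₁ hχ₁S
  have hn₁ := hn χ₁ hχ₁'
  have hnχ := hn χ hχ
  have hββ' : classInner (τ β) (τ β') = (a : ℂ) ^ 2 * n χ₁ := by
    rw [iso_inner hiso hβE hβ'E, hβ, hβ']
    simp only [inner_sub_left, inner_sub_right, inner_zsmul_left, inner_zsmul_right]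
    rw [cs_orth_conj hS hχ, hχχ₁, hχ₁χc, hn₁]
    push_cast
    ring
  have hββ : classInner (τ β) (τ β) = (n χ : ℂ) + (a : ℂ) ^ 2 * n χ₁ := by
    rw [iso_inner hiso hβE hβE, hβ]
    simp only [inner_sub_left, inner_sub_right, inner_zsmul_left, inner_zsmul_right]
    rw [hnχ, hχχ₁, hχ₁χ, hn₁]
    push_cast
    ring
  have hβ'β' : classInner (τ β') (τ β') = (n χ : ℂ) + (a : ℂ) ^ 2 * n χ₁ := by
    rw [iso_inner hiso hβ'E hβ'E, hβ']
    simp only [inner_sub_left, inner_sub_right, inner_zsmul_left, inner_zsmul_right]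
    rw [inner_conjFun_self, hnχ, hχcχ₁, hχ₁χc, hn₁]
    push_cast
    ring
  have hIP : classInner Θ Θ' = ((2 * (a : ℤ) * c χ₁ : ℤ) : ℂ) := by
    rw [hΘ, hΘ']
    simp only [classInner_add_left, classInner_add_right, inner_zsmul_left, inner_zsmul_right]
    rw [hββ', hy, hyr', hχ₁χ₁]
    push_cast
    ring
  have hΘnorm : classInner Θ Θ = (n χ : ℂ) + ((2 * (a : ℤ) * c χ₁ : ℤ) : ℂ) := by
    rw [hΘ]
    simp only [classInner_add_left, classInner_add_right, inner_zsmul_left, inner_zsmul_right]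
    rw [hββ, hy, hyr, hχ₁χ₁]
    push_cast
    ring
  have hΘ'norm : classInner Θ' Θ' = (n χ : ℂ) + ((2 * (a : ℤ) * c χ₁ : ℤ) : ℂ) := by
    rw [hΘ']
    simp only [classInner_add_left, classInner_add_right, inner_zsmul_left, inner_zsmul_right]
    rw [hβ'β', hy', hyr', hχ₁χ₁]
    push_cast
    ring
  -- removing the component along R χ
  have hcex' : ∀ α ∈ R χ, ∃ c : ℤ, classInner Θ α = c := fun α hα =>
    exists_int_classInner hΘg (hS.virtual χ hχ α hα)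
  choose! c' hc' using hcex'
  have hRv : ∀ α ∈ R χ, classInner α α = (((1 : ℝ)) : ℂ) := by
    intro α hα
    rw [hS.orthonormal χ hχ α hα α hα, if_pos rfl]
    simp
  have hRo : ∀ α ∈ R χ, ∀ β ∈ R χ, α ≠ β → classInner α β = 0 := by
    intro α hα β hβ hαβ
    rw [hS.orthonormal χ hχ α hα β hβ, if_neg hαβ]
  have hc'R : ∀ α ∈ R χ, classInner Θ α = (((c' α : ℝ)) : ℂ) := by
    intro α hα
    rw [hc' α hα]
    simp
  have hΘnorm2 : classInner Θ Θ = ((2 * (a : ℤ) * c χ₁ + ∑ α ∈ R χ, c' α : ℤ) : ℂ) := by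
    have h1 : Θ = Θ' + ∑ α ∈ R χ, α := by rw [← hdiff]; abel
    have h2 : classInner Θ Θ = classInner Θ (Θ' + ∑ α ∈ R χ, α) := by rw [← h1]
    rw [h2, classInner_add_right, hIP, classInner_sum_right, Finset.sum_congr rfl hc']
    push_cast
    rfl
  have hbe1 := bessel_eq (R χ) (fun α => α) (fun _ => 1) (fun α => (c' α : ℝ))
    (fun _ _ => one_ne_zero) hRv hRo Θ hc'R
  set Θ₂ : G → ℂ := Θ - ∑ α ∈ R χ, (((c' α : ℝ) / 1 : ℝ) : ℂ) • α with hΘ₂
  have hΘ₂φ : ∀ φ ∈ S₁, classInner Θ₂ (τ₁ φ) = (((c φ : ℝ)) : ℂ) := by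
    intro φ hφ
    rw [hΘ₂, inner_sub_left, classInner_sum_left, hc φ hφ, Finset.sum_eq_zero]
    · simp
    · intro α hα
      rw [classInner_smul_left, claim1' φ hφ α hα, mul_zero]
  have hvv : ∀ φ ∈ S₁, classInner (τ₁ φ) (τ₁ φ) = ((n φ : ℝ) : ℂ) := by
    intro φ hφ
    rw [iso_inner hτ₁ (zspan_mem hφ) (zspan_mem hφ), hn φ (hmemS φ hφ)]
    simp
  have hort : ∀ φ ∈ S₁, ∀ φ' ∈ S₁, φ ≠ φ' → classInner (τ₁ φ) (τ₁ φ') = 0 := by
    intro φ hφ φ' hφ' hne'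
    rw [iso_inner hτ₁ (zspan_mem hφ) (zspan_mem hφ'),
      hS.orthogonal φ (hmemS φ hφ) φ' (hmemS φ' hφ') hne']
  have hnR : ∀ φ ∈ S₁, (n φ : ℝ) ≠ 0 := fun φ hφ => by
    exact_mod_cast (hnpos φ (hmemS φ hφ)).ne'
  have hbes := bessel_le S₁ τ₁ (fun φ => (n φ : ℝ)) (fun φ => (c φ : ℝ)) hnR hvv hort Θ₂ hΘ₂φ
  rw [hbe1, hΘnorm2, Complex.sub_re, Complex.ofReal_re, Complex.intCast_re] at hbes
  have hsc : ∑ α ∈ R χ, (c' α : ℝ) ^ 2 / 1 ≥ ∑ α ∈ R χ, (c' α : ℝ) := by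
    refine Finset.sum_le_sum fun α _ => ?_
    have h1 : c' α ≤ (c' α) ^ 2 := by
      rcases le_or_gt (c' α) 0 with h | h
      · nlinarith [sq_nonneg (c' α)]
      · nlinarith
    have h2 : (c' α : ℝ) ≤ (c' α : ℝ) ^ 2 := by exact_mod_cast h1
    simpa using h2
  push_cast at hbes
  have hQ1 : ∑ φ ∈ S₁, (c φ : ℝ) ^ 2 / (n φ : ℝ) ≤ 2 * (a : ℝ) * (c χ₁ : ℝ) := by
    linarith
  have hδR : (d χ₁ : ℝ) ≠ 0 := by exact_mod_cast hδ.ne'
  have hcφR : ∀ φ ∈ S₁, (c φ : ℝ) ^ 2 / (n φ : ℝ) =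
      ((c χ₁ : ℝ) ^ 2 / (d χ₁ : ℝ) ^ 2) * ((d φ : ℝ) ^ 2 / (n φ : ℝ)) := by
    intro φ hφ
    have h1 : ((d φ : ℤ) * c χ₁ : ℝ) = ((d χ₁ : ℤ) * c φ : ℝ) := by exact_mod_cast hkφ φ hφ
    have h2 : (c φ : ℝ) = (d φ : ℝ) * (c χ₁ : ℝ) / (d χ₁ : ℝ) := by
      push_cast at h1
      field_simp
      linarith
    rw [h2]
    have := hnR φ hφ
    field_simp
  rw [Finset.sum_congr rfl hcφR, ← Finset.mul_sum] at hQ1
  have hk0 : c χ₁ = 0 := by
    by_contra hk0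
    have hkR : (c χ₁ : ℝ) ≠ 0 := by exact_mod_cast hk0
    have hk2 : 0 < (c χ₁ : ℝ) ^ 2 := by positivity
    have hδ2 : 0 < (d χ₁ : ℝ) ^ 2 := by positivity
    have h3 : (2 * (d χ : ℝ) * d χ₁) = 2 * (a : ℝ) * (d χ₁ : ℝ) ^ 2 := by
      rw [ha]; push_cast; ring
    rw [h3] at hineq
    have h4 : ((c χ₁ : ℝ) ^ 2 / (d χ₁ : ℝ) ^ 2) * (2 * (a : ℝ) * (d χ₁ : ℝ) ^ 2) <
        ((c χ₁ : ℝ) ^ 2 / (d χ₁ : ℝ) ^ 2) * ∑ φ ∈ S₁, ((d φ : ℝ) ^ 2 / (n φ : ℝ)) :=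
      mul_lt_mul_of_pos_left hineq (by positivity)
    have h5 : ((c χ₁ : ℝ) ^ 2 / (d χ₁ : ℝ) ^ 2) * (2 * (a : ℝ) * (d χ₁ : ℝ) ^ 2) =
        2 * (a : ℝ) * (c χ₁ : ℝ) ^ 2 := by
      field_simp
    rw [h5] at h4
    have h6 : 2 * (a : ℝ) * (c χ₁ : ℝ) ^ 2 < 2 * (a : ℝ) * (c χ₁ : ℝ) := lt_of_lt_of_le h4 hQ1
    have haR : (0 : ℝ) < a := by exact_mod_cast ha0
    have h7 : (c χ₁ : ℝ) ^ 2 < (c χ₁ : ℝ) := lt_of_mul_lt_mul_left h6 (by positivity)
    have h8 : (c χ₁) ^ 2 < c χ₁ := by exact_mod_cast h7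
    rcases le_or_gt (c χ₁) 0 with h | h
    · nlinarith [sq_nonneg (c χ₁)]
    · nlinarith
  have hc0 : ∀ φ ∈ S₁, classInner Θ (τ₁ φ) = 0 := by
    intro φ hφ
    have h1 := hkφ φ hφ
    rw [hk0, mul_zero] at h1
    have h2 : c φ = 0 := by
      rcases mul_eq_zero.1 h1.symm with h | h
      · exact absurd h (by exact_mod_cast hδ.ne')
      · exact h
    rw [hc φ hφ, h2]
    simp
  have hc0' : ∀ φ ∈ S₁, classInner Θ' (τ₁ φ) = 0 := fun φ hφ => by
    rw [hΘΘ' φ hφ, hc0 φ hφ]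
  have hIP0 : classInner Θ Θ' = 0 := by
    rw [hIP, hk0]; simp
  have hN : classInner Θ Θ = (n χ : ℂ) := by
    rw [hΘnorm, hk0]; simp
  have hN' : classInner Θ' Θ' = (n χ : ℂ) := by
    rw [hΘ'norm, hk0]; simp
  -- the family
  let SF : Finset (L → ℂ) := insert χ (insert (conjFun χ) S₁)
  have hmemSF : ∀ x, x ∈ SF ↔ x = χ ∨ x = conjFun χ ∨ x ∈ S₁ := by
    intro x
    simp [SF]
  have hSFS : ∀ x ∈ SF, x ∈ S := by
    intro x hx
    rcases (hmemSF x).1 hx with rfl | rfl | h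
    · exact hχ
    · exact hχc
    · exact hmemS x h
  have hSFc : ((SF : Finset (L → ℂ)) : Set (L → ℂ)) = ↑S₁ ∪ {χ, conjFun χ} := by
    ext x
    simp [SF]
  let X : (L → ℂ) → (G → ℂ) := fun φ => if φ = χ then Θ else if φ = conjFun χ then Θ' else τ₁ φ
  have hXχ : X χ = Θ := by simp [X]
  have hXχc : X (conjFun χ) = Θ' := by
    have := hS.conj_ne χ hχ
    simp [X, this]
  have hXφ : ∀ φ ∈ S₁, X φ = τ₁ φ := by
    intro φ hφ
    simp [X, hχne φ hφ, hχcne φ hφ]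
  have hortF : ∀ a ∈ SF, ∀ b ∈ SF, a ≠ b → classInner a b = 0 := fun a ha b hb hab =>
    hS.orthogonal a (hSFS a ha) b (hSFS b hb) hab
  have hnzF : ∀ a ∈ SF, a ≠ 0 := fun a ha => cs_ne_zero hS (hSFS a ha)
  have hconj0 : ∀ (u v : G → ℂ) (p q : L → ℂ), classInner u v = classInner p q →
      classInner v u = classInner q p := by
    intro u v p q h
    rw [← classInner_conj u v, h, classInner_conj]
  have hXX1 : ∀ b ∈ SF, classInner (X χ) (X b) = classInner χ b := by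
    intro b hb
    rcases (hmemSF b).1 hb with rfl | rfl | h
    · rw [hXχ, hN, hnχ]
    · rw [hXχ, hXχc, hIP0, cs_orth_conj hS hχ]
    · rw [hXχ, hXφ b h, hc0 b h, hχφ b h]
  have hXX2 : ∀ b ∈ SF, classInner (X (conjFun χ)) (X b) = classInner (conjFun χ) b := by
    intro b hb
    rcases (hmemSF b).1 hb with rfl | rfl | h
    · rw [hXχ, hXχc]
      exact hconj0 _ _ _ _ (by rw [hIP0, cs_orth_conj hS hχ])
    · rw [hXχc, hN', inner_conjFun_self, hnχ]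
    · rw [hXχc, hXφ b h, hc0' b h, hχcφ b h]
  have hXX : ∀ a ∈ SF, ∀ b ∈ SF, classInner (X a) (X b) = classInner a b := by
    intro a ha b hb
    rcases (hmemSF a).1 ha with rfl | rfl | h
    · exact hXX1 b hb
    · exact hXX2 b hb
    · rcases (hmemSF b).1 hb with rfl | rfl | h'
      · exact hconj0 _ _ _ _ (hXX1 a ha)
      · exact hconj0 _ _ _ _ (hXX2 a ha)
      · rw [hXφ a h, hXφ b h']
        exact iso_inner hτ₁ (zspan_mem h) (zspan_mem h')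
  have hXg : ∀ a ∈ SF, IsGeneralizedCharacter G (X a) := by
    intro a ha
    rcases (hmemSF a).1 ha with rfl | rfl | h
    · rw [hXχ]; exact hΘg
    · rw [hXχc]; exact hΘ'g
    · rw [hXφ a h]; exact iso_gen hτ₁ (zspan_mem h)
  obtain ⟨α₀, hα₀, hα₀ne⟩ := hne
  have hS₁sub : (↑S₁ : Set (L → ℂ)) ⊆ ↑S₁ ∪ {χ, conjFun χ} := Set.subset_union_left
  refine ⟨⟨α₀, zspanOn_mono hS₁sub hα₀, hα₀ne⟩, famMap SF X, ?_, ?_⟩
  · have := famMap_iso hortF hnzF X hXX hXg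
    rwa [hSFc] at this
  · intro θ hθ
    have hθ' := mem_zspanOn_one.1 hθ
    have hSFsub : ∀ x ∈ (↑S₁ ∪ {χ, conjFun χ} : Set (L → ℂ)), x ∈ SF := by
      intro x hx
      rw [← Finset.mem_coe, hSFc]
      exact hx
    have key : ∃ m m' : ℤ, ∃ f ∈ zspan (↑S₁ : Set (L → ℂ)), θ = m • χ + m' • conjFun χ + f ∧
        famMap SF X θ = m • Θ + m' • Θ' + τ₁ f := by
      refine zspan_induction (p := fun θ => ∃ m m' : ℤ, ∃ f ∈ zspan (↑S₁ : Set (L → ℂ)),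
        θ = m • χ + m' • conjFun χ + f ∧ famMap SF X θ = m • Θ + m' • Θ' + τ₁ f) ?_ ?_ ?_ ?_ hθ'.1
      · intro x hx
        have hxF := hSFsub x hx
        rcases (hmemSF x).1 hxF with rfl | rfl | h
        · refine ⟨1, 0, 0, hE₁.zero, by simp, ?_⟩
          rw [famMap_of_mem hortF hnzF X hxF, hXχ, iso_zero hE₁ hτ₁]
          simp
        · refine ⟨0, 1, 0, hE₁.zero, by simp, ?_⟩
          rw [famMap_of_mem hortF hnzF X hxF, hXχc, iso_zero hE₁ hτ₁]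
          simp
        · refine ⟨0, 0, x, zspan_mem h, by simp, ?_⟩
          rw [famMap_of_mem hortF hnzF X hxF, hXφ x h]
          simp
      · refine ⟨0, 0, 0, hE₁.zero, by simp, ?_⟩
        rw [famMap_zero, iso_zero hE₁ hτ₁]
        simp
      · rintro x y ⟨m, m', f, hf, rfl, h2⟩ ⟨p, p', g, hg, rfl, h2'⟩
        refine ⟨m + p, m' + p', f + g, hE₁.add _ hf _ hg, ?_, ?_⟩
        · rw [add_smul, add_smul]; abel
        · rw [famMap_add, h2, h2', iso_add hτ₁ hf hg, add_smul, add_smul]; abel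
      · rintro k x ⟨m, m', f, hf, rfl, h2⟩
        refine ⟨k * m, k * m', k • f, hE₁.zsmul _ hf _, ?_, ?_⟩
        · rw [mul_smul, mul_smul, smul_add, smul_add]
        · rw [famMap_zsmul, h2, iso_zsmul hτ₁ hf, mul_smul, mul_smul, smul_add, smul_add]
    obtain ⟨m, m', f, hf, hθeq, hfam⟩ := key
    rw [hfam]
    set α' : L → ℂ := f + ((m + m') * a : ℤ) • χ₁ with hα'
    have hα'Z : α' ∈ zspan (↑S₁ : Set (L → ℂ)) := hE₁.add _ hf _ (hE₁.zsmul _ hχ₁Z _)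
    have hθdec : θ = m • β + m' • β' + α' := by
      rw [hθeq, hα', hβ, hβ', smul_sub, smul_sub, mul_smul, add_smul]
      abel
    have hα'1 : α' 1 = 0 := by
      have h1 := hθ'.2
      rw [hθdec] at h1
      simpa [hβ1, hβ'1] using h1
    have hα'E₁ : α' ∈ zspanOn (↑S₁ : Set (L → ℂ)) {1}ᶜ := mem_zspanOn_one.2 ⟨hα'Z, hα'1⟩
    have hτα' : τ α' = τ₁ f + ((m + m') * a : ℤ) • τ₁ χ₁ := by
      rw [← hτ₁τ _ hα'E₁, hα', iso_add hτ₁ hf (hE₁.zsmul _ hχ₁Z _), iso_zsmul hτ₁ hχ₁Z]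
    have hα'E := zspanOn_mono hS₁ hα'E₁
    rw [hθdec, iso_add hiso (hE.add _ (hE.zsmul _ hβE m) _ (hE.zsmul _ hβ'E m')) hα'E,
      iso_add hiso (hE.zsmul _ hβE m) (hE.zsmul _ hβ'E m'), iso_zsmul hiso hβE, iso_zsmul hiso hβ'E,
      hτα', hΘ, hΘ', smul_add, smul_add, mul_smul, add_smul]
    abel

end Cfsg.Agent.Lib.Coherence
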