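import Cfsg.Agent.Lib.CoherenceInd
import Cfsg.Agent.Lib.H7Char
import Cfsg.Agent.Lib.LinChar

/-!
# Coherence above a central subgroup
-/

set_option linter.all false

namespace Cfsg.Agent.Lib.CoherenceCent

open scoped ComplexConjugate commutatorElement
open Cfsg Cfsg.Agent.Lib.CharIrr Cfsg.Agent.Lib.CharOps Cfsg.Agent.Lib.CharGen Cfsg.Agent.Lib.CharIso
  Cfsg.Agent.Lib.Coherence Cfsg.Agent.Lib.CharAb Cfsg.Agent.Lib.CoherenceInd

universe u v

section Central

variable {K : Type u} [Group K] [Fintype K]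

/-- An irreducible character restricted to a central subgroup is a multiple of a linear character. -/
theorem exists_central_hom (Z : Subgroup K) (hZ : ∀ z ∈ Z, ∀ k : K, z * k = k * z) {θ : K → ℂ}
    (hθ : IsIrrCharacter K θ) : ∃ ω : Z →* ℂˣ, ∀ z : Z, θ z = ((ω z : ℂˣ) : ℂ) * θ 1 := by
  classical
  obtain ⟨n, ρ, hρ, rfl⟩ := id hθ
  haveI := hρ
  have hfr : 0 < Module.finrank ℂ (Fin n → ℂ) :=
    Cfsg.Agent.Lib.CharBasic.finrank_pos_of_irreducible ρ hρ
  haveI hV : Nontrivial (Fin n → ℂ) := Module.nontrivial_of_finrank_pos (R := ℂ) hfr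
  have hsc : ∀ z : Z, ∃ c : ℂ, ρ z = c • (LinearMap.id : (Fin n → ℂ) →ₗ[ℂ] (Fin n → ℂ)) := fun z =>
    Cfsg.Agent.Lib.CharClass.schur_scalar ρ (ρ z) (fun g => by
      have h1 := hZ z z.2 g
      have h2 : ρ ((z : K) * g) = ρ (g * (z : K)) := by rw [h1]
      rw [map_mul, map_mul] at h2
      exact h2)
  choose c hc using hsc
  have hinj : ∀ a b : ℂ, a • (LinearMap.id : (Fin n → ℂ) →ₗ[ℂ] (Fin n → ℂ)) =
      b • (LinearMap.id : (Fin n → ℂ) →ₗ[ℂ] (Fin n → ℂ)) → a = b := by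
    intro a b h
    obtain ⟨v, hv⟩ := exists_ne (0 : Fin n → ℂ)
    have h1 := congrArg (fun f => f v) h
    simp only [LinearMap.smul_apply, LinearMap.id_apply] at h1
    exact smul_left_injective ℂ hv h1
  let f : Z →* ℂ :=
    { toFun := c
      map_one' := by
        apply hinj
        rw [← hc 1]
        simp
        rfl
      map_mul' := fun a b => by
        apply hinj
        rw [← hc (a * b)]
        have h1 : ρ ((a * b : Z) : K) = ρ a * ρ b := by
          rw [← map_mul]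
          rfl
        rw [h1, hc a, hc b]
        ext v
        simp [mul_smul]
        ring }
  refine ⟨f.toHomUnits, fun z => ?_⟩
  have h2 : ρ.character 1 = (Module.finrank ℂ (Fin n → ℂ) : ℂ) := Representation.char_one ρ
  have h3 : ρ.character (z : K) = c z * (Module.finrank ℂ (Fin n → ℂ) : ℂ) := by
    rw [Representation.character, hc z, map_smul, LinearMap.trace_id]
    simp
  rw [h2, h3]
  simp [f]

open Classical in
/-- The squared degrees over a given linear character of a central subgroup. -/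
theorem sum_sq_over (Z : Subgroup K) (hZ : ∀ z ∈ Z, ∀ k : K, z * k = k * z) (ω : Z →* ℂˣ) :
    ∑ θ ∈ (Finset.univ : Finset (IrrCharacter K)).filter
      (fun θ : IrrCharacter K => ∀ z : Z, θ.1 z = ((ω z : ℂˣ) : ℂ) * θ.1 1), θ.1 1 ^ 2 = (Z.index : ℂ) := by
  letI : Fintype Z := Fintype.ofFinite _
  let l : Z → ℂ := fun z => ((ω z : ℂˣ) : ℂ)
  have hl : IsIrrCharacter Z l := isIrrCharacter_of_hom ω
  have hf := classFunction_expand (indFun_isClassFunction Z l)
  have h1 : indFun Z l 1 = (Z.index : ℂ) := by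
    rw [indFun_one]
    simp [l]
  have h2 := congrFun hf 1
  rw [h1, Finset.sum_apply] at h2
  rw [h2, Finset.sum_filter]
  refine Finset.sum_congr rfl fun χ _ => ?_
  rw [Pi.smul_apply, smul_eq_mul, frobenius_reciprocity Z l
    (IsCharacter.isClassFunction' (IsIrrCharacter.isCharacter' χ.2))]
  obtain ⟨d, -, hd⟩ := exists_degree_pos χ.2
  split_ifs with h
  · have h3 : (fun z : Z => χ.1 z) = (χ.1 1) • l := by
      funext z
      simp only [Pi.smul_apply, smul_eq_mul, l]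
      rw [h z]
      ring
    rw [h3, classInner_smul_right, irr_inner_self hl, hd]
    simp
    ring
  · obtain ⟨ω', hω'⟩ := exists_central_hom Z hZ χ.2
    let l' : Z → ℂ := fun z => ((ω' z : ℂˣ) : ℂ)
    have hl' : IsIrrCharacter Z l' := isIrrCharacter_of_hom ω'
    have hne : l ≠ l' := by
      intro h4
      apply h
      intro z
      rw [hω' z]
      have := congrFun h4 z
      simp only [l, l'] at this
      rw [this]
    have h3 : (fun z : Z => χ.1 z) = (χ.1 1) • l' := by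
      funext z
      simp only [Pi.smul_apply, smul_eq_mul, l']
      rw [hω' z]
      ring
    rw [h3, classInner_smul_right, irr_inner_ne hl hl' hne]
    simp

open Classical in
/-- Natural number form. -/
theorem sum_deg_sq_over (Z : Subgroup K) (hZ : ∀ z ∈ Z, ∀ k : K, z * k = k * z) (ω : Z →* ℂˣ) :
    ∑ θ ∈ (Finset.univ : Finset (IrrCharacter K)).filter
      (fun θ : IrrCharacter K => ∀ z : Z, θ.1 z = ((ω z : ℂˣ) : ℂ) * θ.1 1), deg θ ^ 2 = Z.index := by
  have h := sum_sq_over Z hZ ω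
  simp only [apply_one_eq_deg] at h
  have h2 : ((∑ θ ∈ (Finset.univ : Finset (IrrCharacter K)).filter
      (fun θ : IrrCharacter K => ∀ z : Z, θ.1 z = ((ω z : ℂˣ) : ℂ) * θ.1 1), deg θ ^ 2 : ℕ) : ℂ) =
      (Z.index : ℂ) := by
    rw [← h]
    push_cast
    refine Finset.sum_congr ?_ fun _ _ => rfl
    ext θ
    simp only [Finset.mem_filter, Finset.mem_univ, true_and]
    constructor
    · intro h3 z
      rw [h3 z, ← apply_one_eq_deg]
    · intro h3 z
      rw [h3 z, ← apply_one_eq_deg]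
  exact_mod_cast h2

/-- Divisibility of a weighted sum under a fixed point free permutation of prime order. -/
theorem dvd_sum_of_free {α : Type*} [Fintype α] (f : α → ℕ) (σ : α → α) (r : ℕ) (hr : r.Prime)
    (hσr : σ^[r] = id) (hfree : ∀ x, σ x ≠ x) (hf : ∀ x, f (σ x) = f x) : r ∣ ∑ x, f x := by
  classical
  haveI : Fact r.Prime := ⟨hr⟩
  have hfib : ∀ v, r ∣ (Finset.univ.filter (fun x => f x = v)).card := by
    intro v
    let g : Function.End {x // f x = v} := fun x => ⟨σ x.1, (hf x.1).trans x.2⟩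
    have hiter : ∀ (j : ℕ) (x : {x // f x = v}), ((g ^ j) x).1 = σ^[j] x.1 := by
      intro j
      induction j with
      | zero => intro x; rfl
      | succ j ih =>
        intro x
        rw [pow_succ', Function.iterate_succ_apply', ← ih x]
        rfl
    have hg : g ^ r ^ 1 = 1 := by
      rw [pow_one]
      funext x
      apply Subtype.ext
      rw [hiter, hσr]
      rfl
    have h := Equiv.Perm.card_fixedPoints_modEq hg
    have h0 : Fintype.card (Function.fixedPoints g) = 0 := by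
      rw [Fintype.card_eq_zero_iff]
      refine ⟨fun y => ?_⟩
      have h1 : g y.1 = y.1 := y.2
      exact hfree y.1.1 (congrArg Subtype.val h1)
    rw [h0] at h
    have h2 := (Nat.modEq_zero_iff_dvd).1 h
    rwa [Fintype.card_subtype] at h2
  have h3 : ∑ x, f x = ∑ b ∈ Finset.univ.image f, (Finset.univ.filter (fun x => f x = b)).card • b := by
    exact Finset.sum_comp (fun v => v) f
  rw [h3]
  exact Finset.dvd_sum fun b _ => by
    rw [smul_eq_mul]
    exact Dvd.dvd.mul_right (hfib b) b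

end Central

section Helpers

theorem eq_one_of_sq {A : Type*} [Group A] {a : A} {n : ℕ} (hn : Odd n) (h : a ^ n = 1) (h2 : a ^ 2 = 1) :
    a = 1 := by
  have h3 : orderOf a ∣ n := orderOf_dvd_of_pow_eq_one h
  have h4 : orderOf a ∣ 2 := orderOf_dvd_of_pow_eq_one h2
  have h5 : Nat.Coprime n 2 := Nat.coprime_two_right.2 hn
  have h6 : orderOf a ∣ Nat.gcd n 2 := Nat.dvd_gcd h3 h4
  rw [h5.gcd_eq_one] at h6
  exact orderOf_eq_one_iff.1 (Nat.dvd_one.1 h6)

theorem prime_pow_dvd_of_le {p n x y : ℕ} (hp : p.Prime) (hx : x ∣ p ^ n) (hy : y ∣ p ^ n) (h : x ≤ y) :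
    x ∣ y := by
  obtain ⟨i, -, rfl⟩ := (Nat.dvd_prime_pow hp).1 hx
  obtain ⟨j, -, rfl⟩ := (Nat.dvd_prime_pow hp).1 hy
  exact pow_dvd_pow p ((Nat.pow_le_pow_iff_right hp.one_lt).1 h)

end Helpers

section Weight

variable {K : Type u} [Group K] [Fintype K]

open Classical in
theorem exists_over (Y : Subgroup K) (hY : ∀ z ∈ Y, ∀ k : K, z * k = k * z) (ω : Y →* ℂˣ) :
    ∃ θ : IrrCharacter K, ∀ z : Y, θ.1 z = ((ω z : ℂˣ) : ℂ) * θ.1 1 := by
  by_contra hcon
  push Not at hcon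
  have h := sum_deg_sq_over Y hY ω
  have h0 : (Finset.univ : Finset (IrrCharacter K)).filter
      (fun θ : IrrCharacter K => ∀ z : Y, θ.1 z = ((ω z : ℂˣ) : ℂ) * θ.1 1) = ∅ := by
    apply Finset.filter_eq_empty_iff.2
    intro θ _ h1
    obtain ⟨z, hz⟩ := hcon θ
    exact hz (h1 z)
  rw [h0, Finset.sum_empty] at h
  exact Subgroup.index_ne_zero_of_finite h.symm

open Classical in
theorem weight_ge (Y : Subgroup K) (hY : ∀ z ∈ Y, ∀ k : K, z * k = k * z) {p m : ℕ} (hp : p.Prime)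
    (hm : Nat.card K = p ^ m) (ω : Y →* ℂˣ) (t : ℕ) (ϑ : IrrCharacter K) (hϑ : deg ϑ = t + 1)
    (θ₀ : IrrCharacter K) (h₀ : ∀ z : Y, θ₀.1 z = ((ω z : ℂˣ) : ℂ) * θ₀.1 1) (h₀t : deg θ₀ ≤ t) :
    (t + 1) ^ 2 ≤ ∑ θ ∈ (Finset.univ : Finset (IrrCharacter K)).filter
      (fun θ : IrrCharacter K => (∀ z : Y, θ.1 z = ((ω z : ℂˣ) : ℂ) * θ.1 1) ∧ deg θ ≤ t), deg θ ^ 2 := by
  have hall := sum_deg_sq_over Y hY ω
  have hsplit := Finset.sum_filter_add_sum_filter_not ((Finset.univ : Finset (IrrCharacter K)).filter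
      (fun θ : IrrCharacter K => ∀ z : Y, θ.1 z = ((ω z : ℂˣ) : ℂ) * θ.1 1)) (fun θ => deg θ ≤ t)
      (fun θ => deg θ ^ 2)
  rw [Finset.filter_filter, Finset.filter_filter, hall] at hsplit
  have hd : ∀ θ : IrrCharacter K, deg θ ∣ p ^ m := fun θ => by
    rw [← hm]; exact Cfsg.Agent.Lib.H7Char.deg_dvd_card θ
  have hYd : Y.index ∣ p ^ m := by
    rw [← hm]; exact Subgroup.index_dvd_card Y
  have ha2 : (t + 1) ^ 2 ∣ Y.index := by
    have h1 : (t + 1) ^ 2 ≤ Y.index := by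
      refine sq_le_index Y ϑ.2 (fun y hy x => ?_) (by rw [apply_one_eq_deg, hϑ])
      have h2 : y * x * y⁻¹ * x⁻¹ = 1 := by
        rw [hY y hy x]
        simp
      rw [h2]
    have h3 : (t + 1) ^ 2 ∣ p ^ (m * 2) := by
      rw [pow_mul, ← hϑ]
      exact pow_dvd_pow_of_dvd (hd ϑ) 2
    have h4 : Y.index ∣ p ^ (m * 2) := by
      rw [pow_mul, pow_two]
      exact Dvd.dvd.mul_right hYd _
    exact prime_pow_dvd_of_le hp h3 h4 h1
  have ht2 : (t + 1) ^ 2 ∣ ∑ θ ∈ (Finset.univ : Finset (IrrCharacter K)).filter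
      (fun θ : IrrCharacter K => (∀ z : Y, θ.1 z = ((ω z : ℂˣ) : ℂ) * θ.1 1) ∧ ¬ deg θ ≤ t), deg θ ^ 2 := by
    refine Finset.dvd_sum fun θ hθ => ?_
    have h1 := (Finset.mem_filter.1 hθ).2.2
    refine pow_dvd_pow_of_dvd ?_ 2
    rw [← hϑ]
    exact prime_pow_dvd_of_le hp (hd ϑ) (hd θ) (by omega)
  have hdvd : (t + 1) ^ 2 ∣ ∑ θ ∈ (Finset.univ : Finset (IrrCharacter K)).filter
      (fun θ : IrrCharacter K => (∀ z : Y, θ.1 z = ((ω z : ℂˣ) : ℂ) * θ.1 1) ∧ deg θ ≤ t), deg θ ^ 2 := by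
    rw [← hsplit] at ha2
    exact (Nat.dvd_add_left ht2).1 ha2
  refine Nat.le_of_dvd ?_ hdvd
  refine lt_of_lt_of_le (pow_pos (deg_pos θ₀) 2) ?_
  exact Finset.single_le_sum (f := fun θ : IrrCharacter K => deg θ ^ 2) (fun _ _ => Nat.zero_le _)
    (Finset.mem_filter.2 ⟨Finset.mem_univ _, h₀, h₀t⟩)

end Weight

section Above

variable {L : Type u} [Group L] [Fintype L] (K Z : Subgroup L) [hK : K.Normal] [hZ : Z.Normal]

/-- Invariance of a linear character of `Z ∩ K` under conjugation by `w`. -/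
def FixOm (w : L) (ω : (Z.subgroupOf K) →* ℂˣ) : Prop :=
  ∀ z z' : Z.subgroupOf K, (((z' : K) : L) = w * ((z : K) : L) * w⁻¹) → ω z' = ω z

/-- `θ` lies over the linear character `ω`. -/
def Over (ω : (Z.subgroupOf K) →* ℂˣ) (θ : K → ℂ) : Prop :=
  ∀ z : Z.subgroupOf K, θ z = ((ω z : ℂˣ) : ℂ) * θ 1

/-- The conjugate of an element of `Z ∩ K`. -/
def mkZ (w : L) (z : Z.subgroupOf K) : Z.subgroupOf K :=
  ⟨⟨w * ((z : K) : L) * w⁻¹, hK.conj_mem _ z.1.2 w⟩,
    Subgroup.mem_subgroupOf.2 (hZ.conj_mem _ (Subgroup.mem_subgroupOf.1 z.2) w)⟩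

variable {K Z}

theorem conj_val_one (θ : K → ℂ) (w : L) : CharNormal.conjFun K θ w 1 = θ 1 := by
  rw [CharNormal.conjFun_apply]
  congr 1
  apply Subtype.ext
  simp

theorem over_conj {w : L} {ω : (Z.subgroupOf K) →* ℂˣ} {θ : K → ℂ} (hw : FixOm K Z w ω)
    (h : Over K Z ω θ) : Over K Z ω (CharNormal.conjFun K θ w) := by
  intro z
  have h1 := h (mkZ K Z w z)
  have h2 := hw z (mkZ K Z w z) rfl
  rw [conj_val_one, ← h2, ← h1]
  rfl

theorem fixOm_mul {a b : L} {ω : (Z.subgroupOf K) →* ℂˣ} (ha : FixOm K Z a ω) (hb : FixOm K Z b ω) :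
    FixOm K Z (a * b) ω := by
  intro z z' h
  have h1 := hb z (mkZ K Z b z) rfl
  have h2 := ha (mkZ K Z b z) z' (by rw [h]; simp [mkZ, mul_assoc])
  rw [h2, h1]

theorem fixOm_one {ω : (Z.subgroupOf K) →* ℂˣ} : FixOm K Z 1 ω := by
  intro z z' h
  have : z' = z := by
    apply Subtype.ext
    apply Subtype.ext
    simpa using h
  rw [this]

theorem fixOm_pow {w : L} {ω : (Z.subgroupOf K) →* ℂˣ} (h : FixOm K Z w ω) (n : ℕ) :
    FixOm K Z (w ^ n) ω := by
  induction n with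
  | zero => simpa using fixOm_one
  | succ n ih =>
    rw [pow_succ]
    exact fixOm_mul ih h

theorem mem_of_fixed {θ : K → ℂ} (hθ : IsIrrCharacter K θ) (hind : IsIrrCharacter L (indFun K θ))
    {w : L} (h : CharNormal.conjFun K θ w = θ) : w ∈ K := by
  classical
  letI : Fintype K := Fintype.ofFinite _
  by_contra hw
  have h1 := CharNormal.card_mul_norm_ind K hθ
  rw [irr_inner_self hind, mul_one] at h1
  have h2 : Nat.card K = Nat.card {g : L // ∀ h : K, θ ⟨g * h * g⁻¹, hK.conj_mem h h.2 g⟩ = θ h} := by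
    exact_mod_cast h1
  let f : Option K → {g : L // ∀ h : K, θ ⟨g * h * g⁻¹, hK.conj_mem h h.2 g⟩ = θ h} := fun o =>
    match o with
    | none => ⟨w, fun k => congrFun h k⟩
    | some k => ⟨k, fun k' => congrFun (CharNormal.conjFun_of_mem K
        (IsCharacter.isClassFunction' (IsIrrCharacter.isCharacter' hθ)) k) k'⟩
  have hf : Function.Injective f := by
    intro a b hab
    have hab' := congrArg Subtype.val hab
    cases a with
    | none =>
      cases b with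
      | none => rfl
      | some b =>
        have h3 : w = (b : L) := hab'
        exact absurd (h3 ▸ b.2) hw
    | some a =>
      cases b with
      | none =>
        have h3 : (a : L) = w := hab'
        exact absurd (h3 ▸ a.2) hw
      | some b =>
        have h3 : (a : L) = (b : L) := hab'
        congr 1
        exact Subtype.ext h3
  have h3 := Nat.card_le_card_of_injective f hf
  rw [Finite.card_option, ← h2] at h3
  omega

theorem ne_of_over {ω : (Z.subgroupOf K) →* ℂˣ} {θ : K → ℂ} (hθ : IsIrrCharacter K θ)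
    (hov : Over K Z ω θ) {z : Z.subgroupOf K} (hz : ω z ≠ 1) : θ z ≠ θ 1 := by
  letI : Fintype K := Fintype.ofFinite _
  rw [hov z]
  intro h2
  have h3 := degree_ne_zero hθ
  have h4 : ((ω z : ℂˣ) : ℂ) = 1 := mul_right_cancel₀ h3 (by rw [h2, one_mul])
  exact hz (Units.ext h4)

theorem exists_ne_one {ω : (Z.subgroupOf K) →* ℂˣ} (hω : ω ≠ 1) : ∃ z, ω z ≠ 1 := by
  by_contra hcon
  push Not at hcon
  exact hω (MonoidHom.ext hcon)

/-- Without fixed points on the constituents, only `K` fixes a nontrivial central character. -/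
theorem mem_of_fixOm (hZc : ∀ z ∈ Z, ∀ k ∈ K, z * k = k * z) {p m : ℕ} (hp : p.Prime)
    (hm : Nat.card K = p ^ m) (hcop : Nat.Coprime K.index p)
    (hirr : ∀ θ : K → ℂ, IsIrrCharacter K θ → (∃ z : Z.subgroupOf K, θ z ≠ θ 1) →
      IsIrrCharacter L (indFun K θ))
    {ω : (Z.subgroupOf K) →* ℂˣ} (hω : ω ≠ 1) {w : L} (hw : FixOm K Z w ω) : w ∈ K := by
  classical
  letI : Fintype K := Fintype.ofFinite _
  by_contra hwK
  have hZc' : ∀ z ∈ Z.subgroupOf K, ∀ k : K, z * k = k * z := fun z hz k =>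
    Subtype.ext (hZc _ (Subgroup.mem_subgroupOf.1 hz) _ k.2)
  let x : L ⧸ K := QuotientGroup.mk w
  have hx1 : x ≠ 1 := fun h => hwK ((QuotientGroup.eq_one_iff w).1 h)
  have hn0 : orderOf x ≠ 0 := (orderOf_pos x).ne'
  have hn1 : orderOf x ≠ 1 := fun h => hx1 (orderOf_eq_one_iff.1 h)
  obtain ⟨r, hr_def⟩ : ∃ r, r = (orderOf x).minFac := ⟨_, rfl⟩
  have hr : r.Prime := hr_def ▸ Nat.minFac_prime hn1
  have hrn : r ∣ orderOf x := hr_def ▸ Nat.minFac_dvd _
  let w' : L := w ^ (orderOf x / r)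
  have hw' : orderOf ((QuotientGroup.mk w' : L ⧸ K)) = r := by
    have h1 : (QuotientGroup.mk w' : L ⧸ K) = x ^ (orderOf x / r) := rfl
    rw [h1]
    exact orderOf_pow_orderOf_div hn0 hrn
  have hw'K : w' ∉ K := by
    intro h
    have h1 : (QuotientGroup.mk w' : L ⧸ K) = 1 := (QuotientGroup.eq_one_iff w').2 h
    rw [h1, orderOf_one] at hw'
    exact hr.one_lt.ne hw'
  have hw'r : w' ^ r ∈ K := by
    rw [← QuotientGroup.eq_one_iff, QuotientGroup.mk_pow, ← hw', pow_orderOf_eq_one]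
  have hrdvd : r ∣ K.index := by
    rw [← hw']
    exact orderOf_dvd_natCard _
  have hfix' : FixOm K Z w' ω := fixOm_pow hw _
  let α := {θ : IrrCharacter K // Over K Z ω θ.1}
  letI : Fintype α := Fintype.ofFinite _
  let σ : α → α := fun θ => ⟨⟨CharNormal.conjFun K θ.1.1 w', CharNormal.isIrr_conjFun K θ.1.2 w'⟩,
    over_conj hfix' θ.2⟩
  have hiter : ∀ (j : ℕ) (θ : α), ((σ^[j]) θ).1.1 = CharNormal.conjFun K θ.1.1 (w' ^ j) := by
    intro j θ
    induction j with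
    | zero => simp [CharNormal.conjFun_one]
    | succ j ih =>
      rw [Function.iterate_succ_apply']
      show CharNormal.conjFun K ((σ^[j]) θ).1.1 w' = _
      rw [ih, pow_succ, CharNormal.conjFun_mul]
  have hσr : σ^[r] = id := by
    funext θ
    apply Subtype.ext
    apply Subtype.ext
    rw [hiter]
    exact CharNormal.conjFun_of_mem K (IsCharacter.isClassFunction' (IsIrrCharacter.isCharacter' θ.1.2))
      ⟨w' ^ r, hw'r⟩
  have hfree : ∀ θ : α, σ θ ≠ θ := by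
    intro θ hθ
    have h1 : CharNormal.conjFun K θ.1.1 w' = θ.1.1 := congrArg (fun y : α => y.1.1) hθ
    obtain ⟨z, hz⟩ := exists_ne_one hω
    exact hw'K (mem_of_fixed θ.1.2 (hirr θ.1.1 θ.1.2 ⟨z, ne_of_over θ.1.2 θ.2 hz⟩) h1)
  have hdeg : ∀ θ : α, deg (σ θ).1 ^ 2 = deg θ.1 ^ 2 := by
    intro θ
    have h2 : ((deg (σ θ).1 : ℕ) : ℂ) = deg θ.1 := by
      rw [← apply_one_eq_deg, ← apply_one_eq_deg]
      exact conj_val_one _ _
    rw [Nat.cast_injective h2]
  have hsum := dvd_sum_of_free (fun θ : α => deg θ.1 ^ 2) σ r hr hσr hfree hdeg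
  have hsum2 : ∑ θ : α, deg θ.1 ^ 2 = (Z.subgroupOf K).index := by
    rw [← sum_deg_sq_over (Z.subgroupOf K) hZc' ω]
    symm
    exact Finset.sum_subtype _ (fun θ => by simp [Over]) (fun θ => deg θ ^ 2)
  rw [hsum2] at hsum
  have h5 : r ∣ p ^ m := by
    rw [← hm]
    exact hsum.trans (Subgroup.index_dvd_card _)
  have h6 : r = p := (Nat.prime_dvd_prime_iff_eq hr hp).1 (hr.dvd_of_dvd_pow h5)
  rw [h6] at hrdvd
  have h7 := Nat.Coprime.coprime_dvd_left hrdvd hcop
  rw [Nat.coprime_self] at h7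
  exact hp.one_lt.ne' h7

theorem ind_triv {θ : K → ℂ} {z : L} (hzZ : z ∈ Z) (hzK : z ∈ K)
    (h : ∀ a : K, (a : L) ∈ Z → θ a = θ 1) : indFun K θ z = indFun K θ 1 := by
  have key : ∀ k : K, (k : L) ∈ Z → indFun K θ (k : L) = (Nat.card K : ℂ)⁻¹ * ∑ x : L, θ 1 := by
    intro k hk
    rw [CharNormal.indFun_coe]
    congr 1
    refine Finset.sum_congr rfl fun x _ => ?_
    rw [CharNormal.conjFun_apply]
    exact h _ (hZ.conj_mem _ hk x)
  have h1 := key ⟨z, hzK⟩ hzZ
  have h2 := key 1 (by simp [Z.one_mem])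
  simpa using h1.trans h2.symm

theorem ind_ne_zero {θ : K → ℂ} (hθ : IsIrrCharacter K θ) : indFun K θ ≠ 0 := by
  letI : Fintype K := Fintype.ofFinite _
  intro h3
  have h4 := congrFun h3 1
  rw [indFun_one] at h4
  have h5 : (K.index : ℂ) ≠ 0 := by exact_mod_cast Subgroup.index_ne_zero_of_finite
  exact mul_ne_zero h5 (degree_ne_zero hθ) h4

theorem triv_of_ind {θ : K → ℂ} (hθ : IsIrrCharacter K θ) {z : K} (h : indFun K θ (z : L) = indFun K θ 1) :
    θ z = θ 1 := by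
  letI : Fintype K := Fintype.ofFinite _
  have hind := isCharacter_indFun K (IsIrrCharacter.isCharacter' hθ)
  have hres : IsCharacter K (fun k : K => indFun K θ (k : L)) := isCharacter_restrict K hind
  refine CharKernel.ker_of_constituent hres hθ ?_ (b := z) (by simpa using h)
  have h1 := frobenius_reciprocity K θ (IsCharacter.isClassFunction' hind)
  have h2 : classInner (indFun K θ) (indFun K θ) ≠ 0 := inner_self_ne_zero (ind_ne_zero hθ)
  intro h3
  apply h2
  rw [h1, ← classInner_conj, h3, map_zero]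

theorem mem_diff_iff {φ : L → ℂ} : φ ∈ inducedIrrAbove K ⊥ \ inducedIrrAbove K Z ↔
    ∃ θ : K → ℂ, IsIrrCharacter K θ ∧ φ = indFun K θ ∧ ∃ z : Z.subgroupOf K, θ z ≠ θ 1 := by
  constructor
  · rintro ⟨⟨θ, h1, h2, -, rfl⟩, h4⟩
    refine ⟨θ, h1, rfl, ?_⟩
    by_contra hcon
    push Not at hcon
    apply h4
    exact ⟨θ, h1, h2, fun a ha => hcon ⟨a, Subgroup.mem_subgroupOf.2 ha⟩, rfl⟩
  · rintro ⟨θ, h1, rfl, z, hz⟩
    refine ⟨⟨θ, h1, ?_, fun a ha => ?_, rfl⟩, ?_⟩
    · rintro rfl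
      exact hz rfl
    · have h2 : a = 1 := by
        apply Subtype.ext
        simpa using ha
      rw [h2]
    · rintro ⟨θ', h2, h3, h4, h5⟩
      apply hz
      apply triv_of_ind h1
      rw [h5]
      exact ind_triv (Subgroup.mem_subgroupOf.1 z.2) z.1.2 h4

theorem diff_eq (hZK : Z ≤ K)
    (hirr : ∀ χ ∈ inducedIrrAbove K ⊥ \ inducedIrrAbove K Z, IsIrrCharacter L χ) :
    inducedIrrAbove K ⊥ \ inducedIrrAbove K Z = {χ | IsIrrCharacter L χ ∧ ∃ z ∈ Z, χ z ≠ χ 1} := by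
  ext χ
  constructor
  · intro h
    refine ⟨hirr χ h, ?_⟩
    obtain ⟨θ, h1, rfl, z, hz⟩ := mem_diff_iff.1 h
    exact ⟨z, Subgroup.mem_subgroupOf.1 z.2, fun h2 => hz (triv_of_ind h1 h2)⟩
  · rintro ⟨hχ, z₀, hz₀, hne⟩
    letI : Fintype K := Fintype.ofFinite _
    obtain ⟨θ, hθ, hin⟩ := CharKernel.exists_constituent_restrict K hχ
    have hin2 : classInner (indFun K θ) χ ≠ 0 := by
      rw [frobenius_reciprocity K θ (IsCharacter.isClassFunction' (IsIrrCharacter.isCharacter' hχ))]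
      intro h
      apply hin
      rw [← classInner_conj, h, map_zero]
    have hnt : ∃ z : Z.subgroupOf K, θ z ≠ θ 1 := by
      by_contra hcon
      push Not at hcon
      apply hne
      refine CharKernel.ker_of_constituent (isCharacter_indFun K (IsIrrCharacter.isCharacter' hθ)) hχ hin2 ?_
      exact ind_triv hz₀ (hZK hz₀) fun a ha => hcon ⟨a, Subgroup.mem_subgroupOf.2 ha⟩
    have hmem : indFun K θ ∈ inducedIrrAbove K ⊥ \ inducedIrrAbove K Z :=
      mem_diff_iff.2 ⟨θ, hθ, rfl, hnt⟩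
    have heq : indFun K θ = χ := by
      by_contra h
      exact hin2 (irr_inner_ne (hirr _ hmem) hχ h)
    rw [← heq]
    exact hmem

theorem diff_conj {φ : L → ℂ} (hφ : φ ∈ inducedIrrAbove K ⊥ \ inducedIrrAbove K Z) :
    conjFun φ ∈ inducedIrrAbove K ⊥ \ inducedIrrAbove K Z := by
  letI : Fintype K := Fintype.ofFinite _
  obtain ⟨θ, h1, rfl, z, hz⟩ := mem_diff_iff.1 hφ
  refine mem_diff_iff.2 ⟨conjFun θ, isIrr_conj h1, conjFun_indFun K θ, z, fun h2 => hz ?_⟩
  exact (starRingEnd ℂ).injective h2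

theorem exists_conj_of_ind_eq {θ θ' : K → ℂ} (hθ : IsIrrCharacter K θ) (hθ' : IsIrrCharacter K θ')
    (h : indFun K θ = indFun K θ') : ∃ x : L, θ = CharNormal.conjFun K θ' x := by
  classical
  letI : Fintype K := Fintype.ofFinite _
  by_contra hcon
  push Not at hcon
  have h1 := CharNormal.classInner_ind_ind K θ θ'
  have h2 : ∀ x : L, classInner θ (CharNormal.conjFun K θ' x) = 0 := fun x =>
    irr_inner_ne hθ (CharNormal.isIrr_conjFun K hθ' x) (hcon x)
  simp only [h2, Finset.sum_const_zero, mul_zero] at h1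
  rw [← h] at h1
  exact inner_self_ne_zero (ind_ne_zero hθ) h1

/-- Two constituents over the same central character with equal induced functions agree. -/
theorem eq_of_ind_eq_over {ω : (Z.subgroupOf K) →* ℂˣ} (hfree : ∀ w : L, FixOm K Z w ω → w ∈ K)
    {θ θ' : K → ℂ} (hθ : IsIrrCharacter K θ) (hθ' : IsIrrCharacter K θ') (hov : Over K Z ω θ)
    (hov' : Over K Z ω θ') (h : indFun K θ = indFun K θ') : θ = θ' := by
  letI : Fintype K := Fintype.ofFinite _
  obtain ⟨x, hx⟩ := exists_conj_of_ind_eq hθ hθ' h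
  have hfix : FixOm K Z x ω := by
    intro z z' hz'
    have h1 : θ 1 = θ' 1 := by rw [hx, conj_val_one]
    have h2 : θ z = θ' z' := by
      rw [hx, CharNormal.conjFun_apply]
      congr 1
      exact Subtype.ext hz'.symm
    rw [hov z, hov' z', ← h1] at h2
    exact (Units.ext (mul_right_cancel₀ (degree_ne_zero hθ) h2)).symm
  have hxK := hfree x hfix
  rw [hx]
  exact CharNormal.conjFun_of_mem K (IsCharacter.isClassFunction' (IsIrrCharacter.isCharacter' hθ'))
    ⟨x, hxK⟩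

/-- Induced functions over opposite central characters in odd order differ. -/
theorem ne_of_ind_eq_over (hodd : Odd (Nat.card L)) (hZc : ∀ z ∈ Z, ∀ k ∈ K, z * k = k * z)
    {ω : (Z.subgroupOf K) →* ℂˣ} (hω : ω ≠ 1) (hfree : ∀ w : L, FixOm K Z w ω → w ∈ K)
    {θ θ' : K → ℂ} (hθ : IsIrrCharacter K θ) (hθ' : IsIrrCharacter K θ') (hov : Over K Z ω θ)
    (hov' : Over K Z ω⁻¹ θ') (h : indFun K θ = indFun K θ') : False := by
  letI : Fintype K := Fintype.ofFinite _
  obtain ⟨w, hw⟩ := exists_conj_of_ind_eq hθ hθ' h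
  have h1 : ∀ z : Z.subgroupOf K, ω (mkZ K Z w z) = (ω z)⁻¹ := by
    intro z
    have h2 : θ 1 = θ' 1 := by rw [hw, conj_val_one]
    have h3 := hov z
    have h4 := hov' (mkZ K Z w z)
    have h5 : θ z = θ' (mkZ K Z w z) := by
      rw [hw]
      rfl
    rw [h5, h4, ← h2] at h3
    have h7 : ω⁻¹ (mkZ K Z w z) = ω z := Units.ext (mul_right_cancel₀ (degree_ne_zero hθ) h3)
    rw [← h7, MonoidHom.inv_apply, inv_inv]
  have hfix : FixOm K Z (w * w) ω := by
    intro z z' hz'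
    have h2 : z' = mkZ K Z w (mkZ K Z w z) := by
      apply Subtype.ext
      apply Subtype.ext
      rw [hz']
      simp [mkZ, mul_assoc]
    rw [h2, h1, h1, inv_inv]
  have hwK : w ∈ K := by
    have h2 := hfree _ hfix
    have h3 : (QuotientGroup.mk w : L ⧸ K) ^ 2 = 1 := by
      rw [pow_two, ← QuotientGroup.mk_mul]
      exact (QuotientGroup.eq_one_iff _).2 h2
    have h4 : (QuotientGroup.mk w : L ⧸ K) ^ (Nat.card (L ⧸ K)) = 1 := pow_card_eq_one'
    have h5 : Odd (Nat.card (L ⧸ K)) := Odd.of_dvd_nat hodd K.index_dvd_card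
    exact (QuotientGroup.eq_one_iff w).1 (eq_one_of_sq h5 h4 h3)
  apply hω
  apply MonoidHom.ext
  intro z
  have h2 : mkZ K Z w z = z := by
    apply Subtype.ext
    apply Subtype.ext
    show w * ((z : K) : L) * w⁻¹ = ((z : K) : L)
    rw [← hZc _ (Subgroup.mem_subgroupOf.1 z.2) w hwK]
    simp
  have h3 := h1 z
  rw [h2] at h3
  have h4 : ω z ^ 2 = 1 := by
    rw [pow_two]
    nth_rewrite 1 [h3]
    simp
  have h5 : ω z ^ (Nat.card (Z.subgroupOf K)) = 1 := by
    rw [← map_pow, pow_card_eq_one', map_one]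
  have h6 : Odd (Nat.card (Z.subgroupOf K)) := Odd.of_dvd_nat hodd
    ((Subgroup.card_subgroup_dvd_card (Z.subgroupOf K)).trans (Subgroup.card_subgroup_dvd_card K))
  simpa using eq_one_of_sq h6 h5 h4

end Above

section Chain

variable {L : Type u} [Group L] [Fintype L] {G : Type v} [Group G] [Fintype G]
  {K Z : Subgroup L} [hK : K.Normal] [hZ : Z.Normal]

theorem exists_mem_diff (hZK : Z ≤ K) (hZ1 : Z ≠ ⊥) (hZc : ∀ z ∈ Z, ∀ k ∈ K, z * k = k * z) :
    ∃ θ : K → ℂ, IsIrrCharacter K θ ∧ ∃ z : Z.subgroupOf K, θ z ≠ θ 1 := by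
  classical
  letI : Fintype K := Fintype.ofFinite _
  have hZc' : ∀ z ∈ Z.subgroupOf K, ∀ k : K, z * k = k * z := fun z hz k =>
    Subtype.ext (hZc _ (Subgroup.mem_subgroupOf.1 hz) _ k.2)
  obtain ⟨z₀, hz₀, hne⟩ : ∃ z ∈ Z, z ≠ 1 := by
    rcases Z.bot_or_exists_ne_one with h | h
    · exact absurd h hZ1
    · exact h
  let z' : Z.subgroupOf K := ⟨⟨z₀, hZK hz₀⟩, Subgroup.mem_subgroupOf.2 hz₀⟩
  have hz' : z' ∉ (⊥ : Subgroup (Z.subgroupOf K)) := by
    intro h
    have h1 : z' = 1 := by simpa using h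
    have h2 : z₀ = 1 := congrArg (fun y : Z.subgroupOf K => ((y : K) : L)) h1
    exact hne h2
  have hc : ∀ a b : Z.subgroupOf K, a * b = b * a := fun a b =>
    Subtype.ext (hZc' a.1 a.2 b.1)
  obtain ⟨ω₀, -, h2⟩ := LinChar.exists_char_quot hc ⊥ hz'
  obtain ⟨θ, hθ⟩ := exists_over (Z.subgroupOf K) hZc' ω₀
  exact ⟨θ.1, θ.2, z', ne_of_over θ.2 hθ h2⟩

/-- The chain of coherent parts over a central subgroup of a group of prime power order. -/
theorem coherent_chain (τ : (L → ℂ) → (G → ℂ)) (R : (L → ℂ) → Finset (G → ℂ))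
    (hS : IsCoherenceSystem (inducedIrrAbove K ⊥) τ R) (hodd : Odd (Nat.card L)) (hZK : Z ≤ K)
    (hZ1 : Z ≠ ⊥) (hZc : ∀ z ∈ Z, ∀ k ∈ K, z * k = k * z) {p m : ℕ} (hp : p.Prime)
    (hm : Nat.card K = p ^ m) (hcop : Nat.Coprime K.index p)
    (hirr : ∀ χ ∈ inducedIrrAbove K ⊥ \ inducedIrrAbove K Z, IsIrrCharacter L χ) :
    IsCoherent (inducedIrrAbove K ⊥ \ inducedIrrAbove K Z) {1}ᶜ τ := by
  classical
  letI : Fintype K := Fintype.ofFinite _
  have hXS : inducedIrrAbove K ⊥ \ inducedIrrAbove K Z ⊆ inducedIrrAbove K ⊥ := Set.diff_subset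
  have hfin : (inducedIrrAbove K ⊥).Finite :=
    finite_of_orthogonal _ hS.orthogonal (fun a ha => cs_ne_zero hS ha)
  have hfinX := hfin.subset hXS
  obtain ⟨F, hFdef⟩ : ∃ F, F = hfinX.toFinset := ⟨_, rfl⟩
  have hF : ∀ φ, φ ∈ F ↔ φ ∈ inducedIrrAbove K ⊥ \ inducedIrrAbove K Z := fun φ => by
    rw [hFdef]
    exact hfinX.mem_toFinset
  have hZc' : ∀ z ∈ Z.subgroupOf K, ∀ k : K, z * k = k * z := fun z hz k =>
    Subtype.ext (hZc _ (Subgroup.mem_subgroupOf.1 hz) _ k.2)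
  have hirr' : ∀ θ : K → ℂ, IsIrrCharacter K θ → (∃ z : Z.subgroupOf K, θ z ≠ θ 1) →
      IsIrrCharacter L (indFun K θ) := fun θ h1 h2 =>
    hirr _ (mem_diff_iff.2 ⟨θ, h1, rfl, h2⟩)
  have he : 0 < K.index := Nat.pos_of_ne_zero Subgroup.index_ne_zero_of_finite
  have hd : ∀ φ ∈ inducedIrrAbove K ⊥, φ 1 = (degN φ : ℂ) := by
    intro φ hφ
    obtain ⟨n, hn⟩ := exists_degree (hS.isCharacter φ hφ)
    rw [degN_eq hn, hn]
  have hn : ∀ φ ∈ inducedIrrAbove K ⊥, classInner φ φ = (normN φ : ℂ) := by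
    intro φ hφ
    obtain ⟨n, -, hn⟩ := cs_norm hS hφ
    rw [normN_eq hn, hn]
  have hdegθ : ∀ θ : IrrCharacter K, degN (indFun K θ.1) = K.index * deg θ := fun θ =>
    degN_eq (by
      rw [indFun_one, apply_one_eq_deg]
      push_cast
      rfl)
  have hXn : ∀ φ ∈ F, normN φ = 1 := fun φ hφ =>
    normN_eq (by
      rw [irr_inner_self (hirr φ ((hF φ).1 hφ))]
      simp)
  have hFshape : ∀ φ ∈ F, ∃ θ : IrrCharacter K, φ = indFun K θ.1 ∧ ∃ z : Z.subgroupOf K, θ.1 z ≠ θ.1 1 := by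
    intro φ hφ
    obtain ⟨θ, h1, h2, h3⟩ := mem_diff_iff.1 ((hF φ).1 hφ)
    exact ⟨⟨θ, h1⟩, h2, h3⟩
  have hFc : ∀ φ ∈ F, conjFun φ ∈ F := fun φ hφ => (hF _).2 (diff_conj ((hF φ).1 hφ))
  have hdc : ∀ φ ∈ F, degN (conjFun φ) = degN φ := by
    intro φ hφ
    have h1 : conjFun φ 1 = φ 1 := cs_conj_one hS (hXS ((hF φ).1 hφ))
    simp only [degN, h1]
  -- a member of minimal degree
  obtain ⟨θ₀, hθ₀, hz₀⟩ := exists_mem_diff hZK hZ1 hZc
  have hF0 : F.Nonempty := ⟨indFun K θ₀, (hF _).2 (mem_diff_iff.2 ⟨θ₀, hθ₀, rfl, hz₀⟩)⟩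
  obtain ⟨φ₁, hφ₁, hmin⟩ := Finset.exists_min_image F degN hF0
  obtain ⟨θ₁, hθ₁, z₁, hz₁⟩ := hFshape φ₁ hφ₁
  obtain ⟨ω₁, hω₁⟩ := exists_central_hom (Z.subgroupOf K) hZc' θ₁.2
  have hω₁1 : ω₁ ≠ 1 := by
    rintro rfl
    apply hz₁
    rw [hω₁ z₁]
    simp
  have hω₁2 : ω₁⁻¹ ≠ 1 := by
    intro h
    apply hω₁1
    apply MonoidHom.ext
    intro z
    have h1 := DFunLike.congr_fun h z
    simpa using h1
  have hfree1 : ∀ w : L, FixOm K Z w ω₁ → w ∈ K := fun w hw =>
    mem_of_fixOm hZc hp hm hcop hirr' hω₁1 hw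
  have hfree2 : ∀ w : L, FixOm K Z w ω₁⁻¹ → w ∈ K := fun w hw =>
    mem_of_fixOm hZc hp hm hcop hirr' hω₁2 hw
  obtain ⟨a₁, ha₁⟩ : ∃ a₁, a₁ = deg θ₁ := ⟨_, rfl⟩
  have hdφ₁ : degN φ₁ = K.index * a₁ := by
    rw [hθ₁, hdegθ, ha₁]
  let XF : ℕ → Finset (L → ℂ) := fun t => F.filter (fun φ => degN φ ≤ K.index * t)
  have hXFc : ∀ t, ∀ φ ∈ XF t, conjFun φ ∈ XF t := by
    intro t φ hφ
    have h1 := Finset.mem_filter.1 hφ
    exact Finset.mem_filter.2 ⟨hFc φ h1.1, by rw [hdc φ h1.1]; exact h1.2⟩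
  have hXFS : ∀ t, (↑(XF t) : Set (L → ℂ)) ⊆ inducedIrrAbove K ⊥ := fun t φ hφ =>
    hXS ((hF φ).1 (Finset.mem_filter.1 hφ).1)
  have hdvdp : ∀ θ : IrrCharacter K, deg θ ∣ p ^ m := fun θ => by
    rw [← hm]
    exact Cfsg.Agent.Lib.H7Char.deg_dvd_card θ
  have hcoh : ∀ t, a₁ ≤ t → IsCoherent (↑(XF t) : Set (L → ℂ)) {1}ᶜ τ := by
    intro t ht
    induction t, ht using Nat.le_induction with
    | base =>
      have hφ₁m : φ₁ ∈ XF a₁ := Finset.mem_filter.2 ⟨hφ₁, hdφ₁.le⟩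
      have hsys := system_mono hS (hXFS a₁) ⟨φ₁, hφ₁m⟩ (fun χ hχ => hXFc a₁ χ hχ)
      apply coherent_of_equal_degrees _ τ R hsys
      have hall : ∀ φ ∈ (↑(XF a₁) : Set (L → ℂ)), degN φ = K.index * a₁ := by
        intro φ hφ
        have h1 := Finset.mem_filter.1 hφ
        have h2 := hmin φ h1.1
        rw [hdφ₁] at h2
        exact le_antisymm h1.2 h2
      intro φ hφ ψ hψ
      rw [hd φ (hXFS a₁ hφ), hd ψ (hXFS a₁ hψ), hall φ hφ, hall ψ hψ]
    | succ t ht ih =>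
      let T : Finset (L → ℂ) := F.filter (fun φ => degN φ = K.index * (t + 1))
      have hU : XF (t + 1) = XF t ∪ T := by
        ext φ
        simp only [XF, T, Finset.mem_filter, Finset.mem_union]
        constructor
        · rintro ⟨h1, h2⟩
          obtain ⟨θ, rfl, -⟩ := hFshape φ h1
          rw [hdegθ] at h2 ⊢
          have h3 : deg θ ≤ t + 1 := Nat.le_of_mul_le_mul_left h2 he
          rcases Nat.lt_or_ge (deg θ) (t + 1) with h4 | h4
          · exact Or.inl ⟨h1, Nat.mul_le_mul_left _ (by omega)⟩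
          · refine Or.inr ⟨h1, ?_⟩
            rw [le_antisymm h3 h4]
        · rintro (⟨h1, h2⟩ | ⟨h1, h2⟩)
          · exact ⟨h1, h2.trans (Nat.mul_le_mul_left _ (by omega))⟩
          · exact ⟨h1, h2.le⟩
      have hφ₁m : φ₁ ∈ XF t := Finset.mem_filter.2 ⟨hφ₁, by
        rw [hdφ₁]
        exact Nat.mul_le_mul_left _ ht⟩
      have hTshape : ∀ χ ∈ T, ∃ θ : IrrCharacter K, χ = indFun K θ.1 ∧ deg θ = t + 1 := by
        intro χ hχ
        have h1 := Finset.mem_filter.1 hχ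
        obtain ⟨θ, rfl, -⟩ := hFshape χ h1.1
        refine ⟨θ, rfl, ?_⟩
        have h2 := h1.2
        rw [hdegθ] at h2
        exact Nat.eq_of_mul_eq_mul_left he h2
      have hU' : (↑(XF (t + 1)) : Set (L → ℂ)) = ↑(XF t ∪ T) := by rw [hU]
      rw [hU']
      refine coherent_extend hS degN normN hd hn T ?_ ?_ φ₁ ?_ _ (XF t) (hXFS t) (hXFc t) ih hφ₁m rfl ?_
      · exact fun φ hφ => hXS ((hF φ).1 (Finset.mem_filter.1 hφ).1)
      · intro φ hφ
        have h1 := Finset.mem_filter.1 hφ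
        exact Finset.mem_filter.2 ⟨hFc φ h1.1, by rw [hdc φ h1.1]; exact h1.2⟩
      · intro χ hχ
        obtain ⟨θ, rfl, h1⟩ := hTshape χ hχ
        rw [hdφ₁, hdegθ, h1]
        refine Nat.mul_dvd_mul_left _ ?_
        rw [← h1, ha₁]
        refine prime_pow_dvd_of_le hp (hdvdp θ₁) (hdvdp θ) ?_
        rw [h1, ← ha₁]
        omega
      · intro χ hχ
        obtain ⟨ϑ, rfl, hϑ⟩ := hTshape χ hχ
        -- the two families
        let A : Finset (IrrCharacter K) := (Finset.univ : Finset (IrrCharacter K)).filter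
          (fun θ : IrrCharacter K => (∀ z : Z.subgroupOf K, θ.1 z = ((ω₁ z : ℂˣ) : ℂ) * θ.1 1) ∧ deg θ ≤ t)
        let B : Finset (IrrCharacter K) := (Finset.univ : Finset (IrrCharacter K)).filter
          (fun θ : IrrCharacter K => (∀ z : Z.subgroupOf K, θ.1 z = ((ω₁⁻¹ z : ℂˣ) : ℂ) * θ.1 1) ∧ deg θ ≤ t)
        have hta : deg θ₁ ≤ t := by rw [← ha₁]; exact ht
        have hWA : (t + 1) ^ 2 ≤ ∑ θ ∈ A, deg θ ^ 2 :=
          weight_ge (Z.subgroupOf K) hZc' hp hm ω₁ t ϑ hϑ θ₁ hω₁ hta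
        -- the conjugate of `θ₁`
        let θ₂ : IrrCharacter K := ⟨conjFun θ₁.1, isIrr_conj θ₁.2⟩
        have hθ₂deg : deg θ₂ = deg θ₁ := by
          have h1 : conjFun θ₁.1 1 = θ₁.1 1 := by
            simp [conjFun, apply_one_eq_deg]
          have h2 : ((deg θ₂ : ℕ) : ℂ) = deg θ₁ := by
            rw [← apply_one_eq_deg, ← apply_one_eq_deg]
            exact h1
          exact Nat.cast_injective h2
        have hθ₂ov : ∀ z : Z.subgroupOf K, θ₂.1 z = ((ω₁⁻¹ z : ℂˣ) : ℂ) * θ₂.1 1 := by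
          intro z
          show conj (θ₁.1 z) = ((ω₁⁻¹ z : ℂˣ) : ℂ) * conj (θ₁.1 1)
          rw [hω₁ z, map_mul, LinChar.conj_char]
        have hWB : (t + 1) ^ 2 ≤ ∑ θ ∈ B, deg θ ^ 2 :=
          weight_ge (Z.subgroupOf K) hZc' hp hm ω₁⁻¹ t ϑ hϑ θ₂ hθ₂ov (by rw [hθ₂deg]; exact hta)
        have hAB : Disjoint A B := by
          rw [Finset.disjoint_left]
          intro θ hθA hθB
          exact ne_of_ind_eq_over hodd hZc hω₁1 hfree1 θ.2 θ.2 (Finset.mem_filter.1 hθA).2.1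
            (Finset.mem_filter.1 hθB).2.1 rfl
        have hinj : Set.InjOn (fun θ : IrrCharacter K => indFun K θ.1) (↑(A ∪ B) : Set (IrrCharacter K)) := by
          intro θ hθ θ' hθ' h
          have h' : indFun K θ.1 = indFun K θ'.1 := h
          apply Subtype.ext
          simp only [Finset.coe_union, Set.mem_union, Finset.mem_coe] at hθ hθ'
          rcases hθ with hθ | hθ <;> rcases hθ' with hθ' | hθ'
          · exact eq_of_ind_eq_over hfree1 θ.2 θ'.2 (Finset.mem_filter.1 hθ).2.1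
              (Finset.mem_filter.1 hθ').2.1 h'
          · exact (ne_of_ind_eq_over hodd hZc hω₁1 hfree1 θ.2 θ'.2 (Finset.mem_filter.1 hθ).2.1
              (Finset.mem_filter.1 hθ').2.1 h').elim
          · refine (ne_of_ind_eq_over hodd hZc hω₁2 hfree2 θ.2 θ'.2 (Finset.mem_filter.1 hθ).2.1 ?_ h').elim
            intro z
            have h5 := (Finset.mem_filter.1 hθ').2.1 z
            simpa only [MonoidHom.inv_apply, inv_inv] using h5
          · exact eq_of_ind_eq_over hfree2 θ.2 θ'.2 (Finset.mem_filter.1 hθ).2.1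
              (Finset.mem_filter.1 hθ').2.1 h'
        have himg : (A ∪ B).image (fun θ : IrrCharacter K => indFun K θ.1) ⊆ XF t := by
          intro φ hφ
          obtain ⟨θ, hθ, rfl⟩ := Finset.mem_image.1 hφ
          have hθ2 : deg θ ≤ t ∧ ∃ z : Z.subgroupOf K, θ.1 z ≠ θ.1 1 := by
            rcases Finset.mem_union.1 hθ with hθ | hθ
            · obtain ⟨h1, h2⟩ := (Finset.mem_filter.1 hθ).2
              obtain ⟨z, hz⟩ := exists_ne_one hω₁1
              exact ⟨h2, z, ne_of_over θ.2 h1 hz⟩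
            · obtain ⟨h1, h2⟩ := (Finset.mem_filter.1 hθ).2
              obtain ⟨z, hz⟩ := exists_ne_one hω₁2
              exact ⟨h2, z, ne_of_over θ.2 h1 hz⟩
          refine Finset.mem_filter.2 ⟨(hF _).2 (mem_diff_iff.2 ⟨θ.1, θ.2, rfl, hθ2.2⟩), ?_⟩
          rw [hdegθ]
          exact Nat.mul_le_mul_left _ hθ2.1
        have hQ : K.index ^ 2 * (2 * (t + 1) ^ 2) ≤ ∑ φ ∈ XF t, degN φ ^ 2 := by
          calc K.index ^ 2 * (2 * (t + 1) ^ 2)
              ≤ K.index ^ 2 * (∑ θ ∈ A, deg θ ^ 2 + ∑ θ ∈ B, deg θ ^ 2) :=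
                Nat.mul_le_mul_left _ (by omega)
            _ = ∑ θ ∈ A ∪ B, degN (indFun K θ.1) ^ 2 := by
                rw [Finset.sum_union hAB, Nat.mul_add, Finset.mul_sum, Finset.mul_sum]
                congr 1
                · refine Finset.sum_congr rfl fun θ _ => ?_
                  rw [hdegθ, mul_pow]
                · refine Finset.sum_congr rfl fun θ _ => ?_
                  rw [hdegθ, mul_pow]
            _ = ∑ φ ∈ (A ∪ B).image (fun θ : IrrCharacter K => indFun K θ.1), degN φ ^ 2 :=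
                (Finset.sum_image (f := fun φ : L → ℂ => degN φ ^ 2) hinj).symm
            _ ≤ ∑ φ ∈ XF t, degN φ ^ 2 := Finset.sum_le_sum_of_subset himg
        have hR : ∑ φ ∈ XF t, ((degN φ : ℝ) ^ 2 / (normN φ : ℝ)) = ((∑ φ ∈ XF t, degN φ ^ 2 : ℕ) : ℝ) := by
          push_cast
          refine Finset.sum_congr rfl fun φ hφ => ?_
          rw [hXn φ (Finset.mem_filter.1 hφ).1]
          simp
        rw [hR, hdφ₁, hdegθ, hϑ]
        have h1 : ((K.index ^ 2 * (2 * (t + 1) ^ 2) : ℕ) : ℝ) ≤ ((∑ φ ∈ XF t, degN φ ^ 2 : ℕ) : ℝ) := by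
          exact_mod_cast hQ
        refine lt_of_lt_of_le ?_ h1
        push_cast
        have heR : (0 : ℝ) < K.index := by exact_mod_cast he
        have htR : (a₁ : ℝ) < (t : ℝ) + 1 := by
          have : a₁ < t + 1 := by omega
          exact_mod_cast this
        have htp : (0 : ℝ) < (t : ℝ) + 1 := by positivity
        have h2 : (0 : ℝ) < 2 * (K.index : ℝ) ^ 2 * ((t : ℝ) + 1) := by positivity
        nlinarith [mul_lt_mul_of_pos_left htR h2]
  -- the end of the chain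
  have hlast : XF (a₁ + Nat.card K) = F := by
    apply Finset.filter_true_of_mem
    intro φ hφ
    obtain ⟨θ, rfl, -⟩ := hFshape φ hφ
    rw [hdegθ]
    refine Nat.mul_le_mul_left _ ?_
    have h1 : deg θ ≤ Nat.card K := Nat.le_of_dvd Nat.card_pos (Cfsg.Agent.Lib.H7Char.deg_dvd_card θ)
    omega
  have hfinal := hcoh _ (Nat.le_add_right a₁ (Nat.card K))
  rw [hlast] at hfinal
  have hcoe : (↑F : Set (L → ℂ)) = inducedIrrAbove K ⊥ \ inducedIrrAbove K Z := by
    ext φ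
    exact hF φ
  rwa [hcoe] at hfinal

end Chain

/-- Both parts of the central coherence statement. -/
theorem coherent_above_central {L : Type u} [Group L] [Fintype L] {G : Type v} [Group G] [Fintype G]
    (K : Subgroup L) [hK : K.Normal] (hsolv : Group.IsSolvable K) (τ : (L → ℂ) → (G → ℂ))
    (R : (L → ℂ) → Finset (G → ℂ)) (hS : IsCoherenceSystem (inducedIrrAbove K ⊥) τ R)
    (hodd : Odd (Nat.card L)) (hnil : Group.IsNilpotent K) (hH₁K : ⁅K, K⁆ < K)
    (hfrob : ∀ k ∈ K, k ∉ ⁅K, K⁆ → ∀ x : L, x * k * x⁻¹ * k⁻¹ ∈ ⁅K, K⁆ → x ∈ K)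
    (Z : Subgroup L) [Z.Normal] (hZ1 : Z ≠ ⊥) (hZK : Z ≤ K) (hZc : ∀ z ∈ Z, ∀ k ∈ K, z * k = k * z)
    (hirr : ∀ χ ∈ inducedIrrAbove K ⊥ \ inducedIrrAbove K Z, IsIrrCharacter L χ) :
    inducedIrrAbove K ⊥ \ inducedIrrAbove K Z = {χ | IsIrrCharacter L χ ∧ ∃ z ∈ Z, χ z ≠ χ 1} ∧
      IsCoherent (inducedIrrAbove K ⊥ \ inducedIrrAbove K Z) {1}ᶜ τ := by
  classical
  refine ⟨diff_eq hZK hirr, ?_⟩
  by_cases hpp : ∃ p m : ℕ, p.Prime ∧ Nat.card K = p ^ m
  · obtain ⟨p, m, hp, hm⟩ := hpp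
    have hcop : Nat.Coprime K.index p := by
      have h1 := index_dvd_relIndex_sub_one (H₁ := ⁅K, K⁆) (N := K) hH₁K.le le_rfl
        (fun x hx y hy => Subgroup.commutator_mem_commutator hx hy) hfrob
      have h2 : ⁅K, K⁆.relIndex K ∣ p ^ m := by
        rw [← hm]
        exact Subgroup.index_dvd_card _
      have h3 : 1 < ⁅K, K⁆.relIndex K := by
        refine lt_of_le_of_ne (relIndex_pos' _ _) fun h => ?_
        exact absurd (Subgroup.relIndex_eq_one.1 h.symm) (not_le_of_gt hH₁K)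
      obtain ⟨j, hj, hj2⟩ := (Nat.dvd_prime_pow hp).1 h2
      rw [hj2] at h1 h3
      have hj0 : j ≠ 0 := by
        rintro rfl
        simp at h3
      rw [Nat.coprime_comm, hp.coprime_iff_not_dvd]
      intro h4
      have h5 : p ∣ p ^ j - 1 := h4.trans h1
      have h6 : p ∣ p ^ j := dvd_pow_self p hj0
      have h7 := Nat.dvd_sub h6 h5
      have h8 : p ^ j - (p ^ j - 1) = 1 := by
        have : 1 ≤ p ^ j := Nat.one_le_pow _ _ hp.pos
        omega
      rw [h8] at h7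
      exact hp.one_lt.ne' (Nat.dvd_one.1 h7)
    exact coherent_chain τ R hS hodd hZK hZ1 hZc hp hm hcop hirr
  · haveI := hnil
    have hnil' : Group.IsNilpotent (↥K ⧸ (⊥ : Subgroup L).subgroupOf K) :=
      nilpotent_of_surjective (QuotientGroup.mk' _) (QuotientGroup.mk'_surjective _)
    have hc := coherent_frobenius_section K hsolv τ R hS hodd ⊥ bot_le hnil' ⁅K, K⁆ (sup_bot_eq _).symm
      hH₁K hfrob (Or.inr (Or.inr (Or.inl (by
        rw [Subgroup.relIndex_bot_left]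
        exact hpp))))
    obtain ⟨θ₀, hθ₀, hz₀⟩ := exists_mem_diff hZK hZ1 hZc
    refine coherent_mono Set.diff_subset ?_ hc
    exact exists_ne_of_system hS Set.diff_subset (φ := indFun K θ₀) (mem_diff_iff.2 ⟨θ₀, hθ₀, rfl, hz₀⟩)
      (fun χ hχ => diff_conj hχ)

end Cfsg.Agent.Lib.CoherenceCent
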