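import Mathlib
import Cfsg.Agent.Lib.SylowCount
import Cfsg.Agent.Lib.H6PGroup

/-!
Frobenius' theorem on the number of subgroups of prime power order (Wielandt's counting proof). (helper6)
-/

set_option autoImplicit false

namespace Cfsg.Agent.Lib.H6Frobenius

open Pointwise

theorem choose_modEq_one (p : ℕ) [hp : Fact p.Prime] (β m : ℕ) (hm : 0 < m) :
    (p ^ β * m - 1).choose (p ^ β - 1) ≡ 1 [MOD p] := by
  induction β with
  | zero => simpa using Nat.ModEq.refl 1
  | succ β ih =>
    have hp1 : 1 < p := hp.out.one_lt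
    have hpos : 0 < p ^ β * m := Nat.mul_pos (pow_pos hp.out.pos _) hm
    have hN : p ^ (β + 1) * m - 1 = p * (p ^ β * m - 1) + (p - 1) := by
      have : p ^ (β + 1) * m = p * (p ^ β * m) := by ring
      rw [this]
      obtain ⟨t, ht⟩ : ∃ t, p ^ β * m = t + 1 := ⟨p ^ β * m - 1, by omega⟩
      rw [ht]
      simp only [Nat.add_sub_cancel]
      have : p * (t + 1) = p * t + p := by ring
      omega
    have hK : p ^ (β + 1) - 1 = p * (p ^ β - 1) + (p - 1) := by
      have hpos2 : 0 < p ^ β := pow_pos hp.out.pos _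
      have : p ^ (β + 1) = p * p ^ β := by ring
      rw [this]
      obtain ⟨t, ht⟩ : ∃ t, p ^ β = t + 1 := ⟨p ^ β - 1, by omega⟩
      rw [ht]
      simp only [Nat.add_sub_cancel]
      have : p * (t + 1) = p * t + p := by ring
      omega
    have h1 := Choose.choose_modEq_choose_mod_mul_choose_div_nat (n := p ^ (β + 1) * m - 1)
      (k := p ^ (β + 1) - 1) (p := p)
    have hlt : p - 1 < p := by omega
    have e1 : (p ^ (β + 1) * m - 1) % p = p - 1 := by
      rw [hN, Nat.mul_add_mod, Nat.mod_eq_of_lt hlt]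
    have e2 : (p ^ (β + 1) - 1) % p = p - 1 := by
      rw [hK, Nat.mul_add_mod, Nat.mod_eq_of_lt hlt]
    have e3 : (p ^ (β + 1) * m - 1) / p = p ^ β * m - 1 := by
      rw [hN, Nat.add_comm, Nat.add_mul_div_left _ _ hp.out.pos, Nat.div_eq_of_lt hlt, zero_add]
    have e4 : (p ^ (β + 1) - 1) / p = p ^ β - 1 := by
      rw [hK, Nat.add_comm, Nat.add_mul_div_left _ _ hp.out.pos, Nat.div_eq_of_lt hlt, zero_add]
    rw [e1, e2, e3, e4, Nat.choose_self, one_mul] at h1
    exact h1.trans ih

variable {G : Type*} [Group G] [Finite G]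

/-- Subsets of size `q` containing the identity. -/
def YY (G : Type*) [Group G] (q : ℕ) := {S : Finset G // S.card = q ∧ (1 : G) ∈ S}

theorem card_YY [DecidableEq G] (q : ℕ) (hq : 0 < q) :
    Nat.card (YY G q) = (Nat.card G - 1).choose (q - 1) := by
  classical
  haveI := Fintype.ofFinite G
  let e : YY G q ≃ (Finset.powersetCard (q - 1) (Finset.univ.erase (1 : G)) : Finset (Finset G)) :=
    { toFun := fun S => ⟨S.1.erase 1, by
        rw [Finset.mem_powersetCard]
        refine ⟨Finset.erase_subset_erase _ (Finset.subset_univ _), ?_⟩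
        rw [Finset.card_erase_of_mem S.2.2, S.2.1]⟩
      invFun := fun T => ⟨insert 1 T.1, by
        have hT := Finset.mem_powersetCard.mp T.2
        have h1 : (1 : G) ∉ T.1 := fun h => by
          have := hT.1 h
          simp at this
        rw [Finset.card_insert_of_notMem h1, hT.2]
        exact ⟨by omega, Finset.mem_insert_self _ _⟩⟩
      left_inv := fun S => by
        apply Subtype.ext
        exact Finset.insert_erase S.2.2
      right_inv := fun T => by
        apply Subtype.ext
        have hT := Finset.mem_powersetCard.mp T.2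
        have h1 : (1 : G) ∉ T.1 := fun h => by
          have := hT.1 h
          simp at this
        exact Finset.erase_insert h1 }
  rw [Nat.card_congr e, Nat.card_eq_fintype_card, Fintype.card_coe, Finset.card_powersetCard,
    Finset.card_erase_of_mem (Finset.mem_univ _), Finset.card_univ, Nat.card_eq_fintype_card]

theorem filter_card [Fintype G] (H : Subgroup G) [DecidablePred (fun x => x ∈ H)] :
    (Finset.univ.filter (fun x => x ∈ H)).card = Nat.card H := by
  rw [Nat.card_eq_fintype_card, Fintype.card_subtype]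

/-- Those which are subgroups. -/
def YY0 (G : Type*) [Group G] (q : ℕ) :=
  {S : YY G q // ∃ H : Subgroup G, ∀ x, x ∈ S.1 ↔ x ∈ H}

theorem card_YY0 (q : ℕ) : Nat.card (YY0 G q) = Nat.card {H : Subgroup G // Nat.card H = q} := by
  classical
  haveI := Fintype.ofFinite G
  let toH : YY0 G q → Subgroup G := fun S => S.2.choose
  have htoH : ∀ S : YY0 G q, ∀ x, x ∈ S.1.1 ↔ x ∈ toH S := fun S => S.2.choose_spec
  have hcard : ∀ S : YY0 G q, Nat.card (toH S) = q := by
    intro S
    have h1 : Nat.card (toH S) = Nat.card (S.1.1 : Finset G) :=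
      Nat.card_congr (Equiv.subtypeEquivRight fun x => (htoH S x).symm)
    rw [h1]
    simp [S.1.2.1]
  let e : YY0 G q ≃ {H : Subgroup G // Nat.card H = q} :=
    { toFun := fun S => ⟨toH S, hcard S⟩
      invFun := fun H => ⟨⟨Finset.univ.filter (fun x => x ∈ H.1), by
          exact ⟨(filter_card H.1).trans H.2, by simp [H.1.one_mem]⟩⟩,
          ⟨H.1, fun x => by simp⟩⟩
      left_inv := fun S => by
        apply Subtype.ext
        apply Subtype.ext
        ext x
        simp [htoH S x]
      right_inv := fun H => by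
        apply Subtype.ext
        ext x
        have := htoH ⟨⟨Finset.univ.filter (fun x => x ∈ H.1), by
          exact ⟨(filter_card H.1).trans H.2, by simp [H.1.one_mem]⟩⟩,
          ⟨H.1, fun x => by simp⟩⟩ x
        simp only [Finset.mem_filter, Finset.mem_univ, true_and] at this
        exact this.symm }
  exact Nat.card_congr e

theorem dvd_card_of_fibers {α β : Type*} [Finite α] (f : α → β) (m : ℕ)
    (h : ∀ b, m ∣ Nat.card {a // f a = b}) : m ∣ Nat.card α := by
  classical
  haveI := Fintype.ofFinite α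
  let β' := Set.range f
  haveI : Finite β' := Set.finite_range f |>.to_subtype
  haveI := Fintype.ofFinite β'
  let f' : α → β' := fun a => ⟨f a, a, rfl⟩
  rw [← Nat.card_congr (Equiv.sigmaFiberEquiv f'), Nat.card_sigma]
  refine Finset.dvd_sum fun b _ => ?_
  have := h b.1
  have e : {a // f' a = b} ≃ {a // f a = b.1} :=
    Equiv.subtypeEquivRight fun a => by
      simp only [f']
      exact Subtype.ext_iff
  rwa [Nat.card_congr e]

/-- Those which are not subgroups. -/
def YY1 (G : Type*) [Group G] (q : ℕ) :=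
  {S : YY G q // ¬ ∃ H : Subgroup G, ∀ x, x ∈ S.1 ↔ x ∈ H}

theorem p_dvd_card_YY1 (p β : ℕ) [hp : Fact p.Prime] :
    p ∣ Nat.card (YY1 G (p ^ β)) := by
  classical
  haveI := Fintype.ofFinite G
  haveI : Finite (YY1 G (p ^ β)) := by
    unfold YY1 YY
    infer_instance
  let f : YY1 G (p ^ β) → MulAction.orbitRel.Quotient G (Finset G) :=
    fun S => Quotient.mk'' S.1.1
  refine dvd_card_of_fibers f p fun b => ?_
  by_cases hb : ∃ S₀, f S₀ = b
  swap
  · have : IsEmpty {a // f a = b} := ⟨fun a => hb ⟨a.1, a.2⟩⟩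
    simp
  obtain ⟨S₀, hS₀⟩ := hb
  set A : Finset G := S₀.1.1 with hA
  have hA1 : (1 : G) ∈ A := S₀.1.2.2
  have hAcard : A.card = p ^ β := S₀.1.2.1
  have hAH : ¬ ∃ H : Subgroup G, ∀ x, x ∈ A ↔ x ∈ H := S₀.2
  -- the map from A to the fibre
  have hmem : ∀ s ∈ A, (1 : G) ∈ s⁻¹ • A := by
    intro s hs
    rw [Finset.mem_inv_smul_finset_iff]
    simpa using hs
  have hnot : ∀ s ∈ A, ¬ ∃ H : Subgroup G, ∀ x, x ∈ s⁻¹ • A ↔ x ∈ H := by
    rintro s hs ⟨H, hH⟩
    apply hAH
    refine ⟨H, fun x => ?_⟩
    have h1 : s⁻¹ ∈ H := by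
      rw [← hH, Finset.mem_inv_smul_finset_iff]
      simpa using hA1
    have h2 : s ∈ H := by simpa using H.inv_mem h1
    rw [← Subgroup.mul_mem_cancel_left H h1, ← hH, Finset.mem_inv_smul_finset_iff]
    simp
  let φ : A → {a // f a = b} := fun s => ⟨⟨⟨s.1⁻¹ • A, by
      rw [Finset.card_smul_finset]; exact hAcard, hmem s.1 s.2⟩, hnot s.1 s.2⟩, by
      rw [← hS₀]
      apply Quotient.sound'
      rw [MulAction.orbitRel_apply]
      exact ⟨s.1⁻¹, rfl⟩⟩
  have hφ : ∀ s : A, (φ s).1.1.1 = s.1⁻¹ • A := fun _ => rfl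
  let T := MulAction.stabilizer G A
  have hφfib : ∀ b' : {a // f a = b}, Nat.card {s // φ s = b'} = Nat.card T := by
    intro b'
    -- b' is φ of something
    obtain ⟨g, hg⟩ : ∃ g : G, g • A = b'.1.1.1 := by
      have h1 : f b'.1 = f S₀ := by rw [b'.2, hS₀]
      have h2 := Quotient.exact' h1
      rw [MulAction.orbitRel_apply] at h2
      obtain ⟨g, hg⟩ := h2
      exact ⟨g, hg⟩
    have h1' : (1 : G) ∈ g • A := by rw [hg]; exact b'.1.1.2.2
    rw [Finset.mem_smul_finset] at h1'
    obtain ⟨s₁, hs₁, hs₁'⟩ := h1'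
    have hg' : g = s₁⁻¹ := by
      have : g * s₁ = 1 := hs₁'
      exact eq_inv_of_mul_eq_one_left this
    subst hg'
    have hiff : ∀ s : A, φ s = b' ↔ s.1 * s₁⁻¹ ∈ T := by
      intro s
      have e1 : φ s = b' ↔ s.1⁻¹ • A = s₁⁻¹ • A := by
        constructor
        · intro h
          have h3 := congrArg (fun x => x.1.1.1) h
          simp only [hφ] at h3
          rw [h3, hg]
        · intro h
          apply Subtype.ext
          apply Subtype.ext
          apply Subtype.ext
          exact h.trans hg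
      rw [e1]
      have e2 : s.1 * s₁⁻¹ ∈ T ↔ (s.1 * s₁⁻¹) • A = A := MulAction.mem_stabilizer_iff
      rw [e2, mul_smul, inv_smul_eq_iff]
      exact eq_comm
    have hTA : ∀ t ∈ T, t * s₁ ∈ A := by
      intro t ht
      have h2 : t • A = A := ht
      have h3 : t • s₁ ∈ t • A := Finset.smul_mem_smul_finset hs₁
      rw [h2] at h3
      exact h3
    let e : {s // φ s = b'} ≃ T :=
      { toFun := fun s => ⟨s.1.1 * s₁⁻¹, (hiff s.1).mp s.2⟩
        invFun := fun t => ⟨⟨t.1 * s₁, hTA t.1 t.2⟩, (hiff _).mpr (by simp)⟩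
        left_inv := fun s => by
          apply Subtype.ext
          apply Subtype.ext
          simp
        right_inv := fun t => by
          apply Subtype.ext
          simp }
    exact Nat.card_congr e
  have hcount := Cfsg.Agent.Lib.SylowCount.card_eq_mul_of_fibers φ (Nat.card T) hφfib
  have hcardA : Nat.card A = p ^ β := by
    rw [Nat.card_eq_fintype_card, Fintype.card_coe, hAcard]
  rw [hcardA] at hcount
  have hdvd : Nat.card {a // f a = b} ∣ p ^ β := ⟨_, hcount⟩
  obtain ⟨j, hj, hj'⟩ := (Nat.dvd_prime_pow hp.out).mp hdvd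
  rcases j with _ | j
  · exfalso
    rw [hj', pow_zero, one_mul] at hcount
    apply hAH
    refine ⟨T, ?_⟩
    have hTsub : (Finset.univ.filter (fun x => x ∈ T)) ⊆ A := by
      intro t ht
      have ht' : t ∈ T := by simpa using ht
      have h2 : t • A = A := ht'
      have h3 : t • (1 : G) ∈ t • A := Finset.smul_mem_smul_finset hA1
      rw [h2] at h3
      simpa using h3
    have hTcard : A.card ≤ (Finset.univ.filter (fun x => x ∈ T)).card := by
      rw [hAcard, filter_card, hcount]
    have hEq := Finset.eq_of_subset_of_card_le hTsub hTcard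
    intro x
    rw [← hEq]
    simp
  · rw [hj']
    exact dvd_pow_self p (Nat.succ_ne_zero j)

/-- Frobenius' theorem: the number of subgroups of order `p ^ β` is `1` mod `p`. -/
theorem card_subgroups_modEq_one (p β : ℕ) [hp : Fact p.Prime] (hdiv : p ^ β ∣ Nat.card G) :
    Nat.card {H : Subgroup G // Nat.card H = p ^ β} ≡ 1 [MOD p] := by
  classical
  haveI := Fintype.ofFinite G
  haveI : Finite (YY G (p ^ β)) := by
    unfold YY
    infer_instance
  have h1 : Nat.card (YY G (p ^ β)) = Nat.card (YY0 G (p ^ β)) + Nat.card (YY1 G (p ^ β)) := by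
    have e := Equiv.sumCompl (fun S : YY G (p ^ β) => ∃ H : Subgroup G, ∀ x, x ∈ S.1 ↔ x ∈ H)
    haveI : Finite (YY0 G (p ^ β)) := by
      unfold YY0
      infer_instance
    haveI : Finite (YY1 G (p ^ β)) := by
      unfold YY1
      infer_instance
    rw [← Nat.card_congr e, Nat.card_sum]
    rfl
  obtain ⟨m, hm⟩ := hdiv
  have hm0 : 0 < m := by
    rcases Nat.eq_zero_or_pos m with rfl | h
    · have : 0 < Nat.card G := Nat.card_pos
      omega
    · exact h
  have h2 := card_YY (G := G) (p ^ β) (pow_pos hp.out.pos _)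
  rw [hm] at h2
  have h3 := choose_modEq_one p β m hm0
  rw [← h2, h1, card_YY0] at h3
  obtain ⟨c, hc⟩ := p_dvd_card_YY1 (G := G) p β
  rw [hc] at h3
  have h4 : Nat.card {H : Subgroup G // Nat.card H = p ^ β} + p * c ≡
      Nat.card {H : Subgroup G // Nat.card H = p ^ β} [MOD p] := by
    simp [Nat.ModEq]
  exact h4.symm.trans h3

/-- The count of normal subgroups of a `p`-group. -/
theorem card_normal_subgroups_modEq_one (p m s : ℕ) [hp : Fact p.Prime] (hG : Nat.card G = p ^ m)
    (hs : s ≤ m) : Nat.card {H : Subgroup G // H.Normal ∧ Nat.card H = p ^ s} ≡ 1 [MOD p] := by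
  classical
  have hPG : IsPGroup p G := IsPGroup.of_card hG
  let X := {H : Subgroup G // Nat.card H = p ^ s}
  have hconj : ∀ (g : G) (H : Subgroup G), Nat.card (H.map (MulAut.conj g).toMonoidHom) = Nat.card H := by
    intro g H
    exact Nat.card_congr (H.equivMapOfInjective _ (MulAut.conj g).injective).toEquiv.symm
  letI : MulAction G X :=
    { smul := fun g H => ⟨H.1.map (MulAut.conj g).toMonoidHom, (hconj g H.1).trans H.2⟩
      one_smul := fun H => by
        apply Subtype.ext
        change H.1.map (MulAut.conj (1 : G)).toMonoidHom = H.1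
        ext x
        simp
      mul_smul := fun a b H => by
        apply Subtype.ext
        change H.1.map (MulAut.conj (a * b)).toMonoidHom =
          (H.1.map (MulAut.conj b).toMonoidHom).map (MulAut.conj a).toMonoidHom
        rw [Subgroup.map_map]
        congr 1
        ext x
        simp [MulAut.conj_apply, mul_assoc] }
  have hsm : ∀ (g : G) (H : X), (g • H).1 = H.1.map (MulAut.conj g).toMonoidHom := fun _ _ => rfl
  have h1 := hPG.card_modEq_card_fixedPoints X
  have h2 : Nat.card X ≡ 1 [MOD p] := by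
    apply card_subgroups_modEq_one
    rw [hG]
    exact pow_dvd_pow p hs
  have e : {H : Subgroup G // H.Normal ∧ Nat.card H = p ^ s} ≃ MulAction.fixedPoints G X :=
    { toFun := fun H => ⟨⟨H.1, H.2.2⟩, fun g => by
        apply Subtype.ext
        rw [hsm]
        haveI := H.2.1
        exact Subgroup.Normal.map_conj_eq H.1 g⟩
      invFun := fun H => ⟨H.1.1, ⟨fun n hn g => by
        have h3 : g • H.1 = H.1 := H.2 g
        have h4 := congrArg Subtype.val h3
        rw [hsm] at h4
        rw [← h4]
        exact ⟨n, hn, rfl⟩⟩, H.1.2⟩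
      left_inv := fun H => rfl
      right_inv := fun H => rfl }
  rw [Nat.card_congr e]
  exact h1.symm.trans h2

end Cfsg.Agent.Lib.H6Frobenius
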