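import Cfsg.Agent.Lib.Coherence
import Cfsg.Agent.Lib.CharNormal
import Cfsg.Agent.Lib.CharKernel
import Cfsg.Agent.Lib.CharInflate
import Cfsg.Agent.Lib.CharLinear
import Cfsg.Agent.Lib.ThompsonFpf
import Cfsg.Agent.Lib.H6Frobenius

/-!
# Coherence for characters induced from a normal subgroup
-/

set_option linter.all false

namespace Cfsg.Agent.Lib.CoherenceInd

open scoped ComplexConjugate commutatorElement
open Cfsg Cfsg.Agent.Lib.CharIrr Cfsg.Agent.Lib.CharOps Cfsg.Agent.Lib.CharGen Cfsg.Agent.Lib.CharIso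
  Cfsg.Agent.Lib.Coherence Cfsg.Agent.Lib.CharAb

universe u v

section Mono

variable {L : Type u} [Group L] [Fintype L] {G : Type v} [Group G] [Fintype G]
  {τ : (L → ℂ) → (G → ℂ)} {R : (L → ℂ) → Finset (G → ℂ)}

theorem iso_mono {E E' : Set (L → ℂ)} (h : E' ⊆ E) (hτ : IsLinearIsometryOn E τ) :
    IsLinearIsometryOn E' τ :=
  ⟨fun a ha b hb => hτ.1 a (h ha) b (h hb), fun a ha n => hτ.2.1 a (h ha) n,
    fun a ha b hb => hτ.2.2.1 a (h ha) b (h hb), fun a ha => hτ.2.2.2 a (h ha)⟩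

theorem zspan_subset {X Y : Set (L → ℂ)} (h : X ⊆ Y) : zspan X ⊆ zspan Y :=
  fun _ ha => zspan_mono h ha

theorem zspanOn_subset {X Y : Set (L → ℂ)} (h : X ⊆ Y) {A : Set L} : zspanOn X A ⊆ zspanOn Y A :=
  fun _ ha => zspanOn_mono h ha

theorem coherent_mono {X Y : Set (L → ℂ)} (h : X ⊆ Y) {A : Set L}
    (hne : ∃ α ∈ zspanOn X A, α ≠ 0) (hY : IsCoherent Y A τ) : IsCoherent X A τ := by
  obtain ⟨-, τ₁, h1, h2⟩ := hY
  exact ⟨hne, τ₁, iso_mono (zspan_subset h) h1, fun α hα => h2 α (zspanOn_mono h hα)⟩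

theorem system_mono {S X : Set (L → ℂ)} (hS : IsCoherenceSystem S τ R) (hX : X ⊆ S)
    (hne : X.Nonempty) (hc : ∀ χ ∈ X, conjFun χ ∈ X) : IsCoherenceSystem X τ R where
  nonempty := hne
  isCharacter := fun χ h => hS.isCharacter χ (hX h)
  conj_mem := hc
  conj_ne := fun χ h => hS.conj_ne χ (hX h)
  isometry := iso_mono (zspanOn_subset hX) hS.isometry
  map_one := fun α h => hS.map_one α (zspanOn_mono hX h)
  orthogonal := fun χ h φ h' => hS.orthogonal χ (hX h) φ (hX h')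
  orthonormal := fun χ h => hS.orthonormal χ (hX h)
  virtual := fun χ h => hS.virtual χ (hX h)
  sum_eq := fun χ h => hS.sum_eq χ (hX h)
  disjoint := fun χ h φ h' => hS.disjoint χ (hX h) φ (hX h')

/-- The nonzero element `φ - conj φ` of a conjugation closed nonempty part of a system. -/
theorem exists_ne_of_system {S X : Set (L → ℂ)} (hS : IsCoherenceSystem S τ R) (hX : X ⊆ S)
    {φ : L → ℂ} (hφ : φ ∈ X) (hc : ∀ χ ∈ X, conjFun χ ∈ X) :
    ∃ α ∈ zspanOn X {1}ᶜ, α ≠ 0 := by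
  refine ⟨φ - conjFun φ, mem_zspanOn_one.2 ⟨(closed_zspan X).sub (zspan_mem hφ) (zspan_mem (hc φ hφ)), ?_⟩,
    sub_ne_zero.2 (hS.conj_ne φ (hX hφ)).symm⟩
  simp [cs_conj_one hS (hX hφ)]

/-- Adding all of a finite conjugation closed set, one pair at a time. -/
theorem coherent_extend {S : Set (L → ℂ)} (hS : IsCoherenceSystem S τ R) (d n : (L → ℂ) → ℕ)
    (hd : ∀ φ ∈ S, φ 1 = (d φ : ℂ)) (hn : ∀ φ ∈ S, classInner φ φ = (n φ : ℂ))
    (T : Finset (L → ℂ)) (hTS : (↑T : Set (L → ℂ)) ⊆ S) (hTc : ∀ χ ∈ T, conjFun χ ∈ T)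
    (χ₁ : L → ℂ) (hdiv : ∀ χ ∈ T, d χ₁ ∣ d χ) :
    ∀ (m : ℕ) (S₀ : Finset (L → ℂ)), (↑S₀ : Set (L → ℂ)) ⊆ S → (∀ φ ∈ S₀, conjFun φ ∈ S₀) →
      IsCoherent (↑S₀ : Set (L → ℂ)) {1}ᶜ τ → χ₁ ∈ S₀ → (T \ S₀).card = m →
      (∀ χ ∈ T, (2 * d χ * d χ₁ : ℝ) < ∑ φ ∈ S₀, ((d φ : ℝ) ^ 2 / (n φ : ℝ))) →
      IsCoherent (↑(S₀ ∪ T) : Set (L → ℂ)) {1}ᶜ τ := by
  classical
  intro m
  induction m using Nat.strong_induction_on with
  | _ m ih =>
    intro S₀ hS₀ hS₀c hcoh hχ₁ hm hineq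
    by_cases hsub : T ⊆ S₀
    · rwa [Finset.union_eq_left.2 hsub]
    obtain ⟨χ, hχT, hχS₀⟩ := Finset.not_subset.1 hsub
    have hχS : χ ∈ S := hTS hχT
    have hχ₂ : conjFun χ ∉ S₀ := fun h => hχS₀ (by simpa [conjFun_conjFun] using hS₀c _ h)
    have hnew := coherent_add_pair S τ R hS d n hd hn S₀ hS₀ hS₀c hcoh χ hχS hχS₀ hχ₂ χ₁ hχ₁
      (hdiv χ hχT) (hineq χ hχT)
    let S₁ : Finset (L → ℂ) := insert χ (insert (conjFun χ) S₀)
    have hcoe : (↑S₁ : Set (L → ℂ)) = ↑S₀ ∪ {χ, conjFun χ} := by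
      ext x
      simp only [S₁, Finset.coe_insert, Set.mem_insert_iff, Set.mem_union, Finset.mem_coe,
        Set.mem_singleton_iff]
      tauto
    have hsubS₀ : S₀ ⊆ S₁ := fun x hx =>
      Finset.mem_insert_of_mem (Finset.mem_insert_of_mem hx)
    have hS₁S : (↑S₁ : Set (L → ℂ)) ⊆ S := by
      rw [hcoe]
      rintro x (hx | hx)
      · exact hS₀ hx
      · rcases hx with rfl | hx
        · exact hχS
        · rw [Set.mem_singleton_iff.1 hx]; exact hS.conj_mem χ hχS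
    have hS₁c : ∀ φ ∈ S₁, conjFun φ ∈ S₁ := by
      intro φ hφ
      simp only [S₁, Finset.mem_insert] at hφ ⊢
      rcases hφ with rfl | rfl | hφ
      · exact Or.inr (Or.inl rfl)
      · exact Or.inl (conjFun_conjFun χ)
      · exact Or.inr (Or.inr (hS₀c φ hφ))
    have hcard : (T \ S₁).card < m := by
      rw [← hm]
      apply Finset.card_lt_card
      refine ⟨Finset.sdiff_subset_sdiff (Finset.Subset.refl _) hsubS₀, fun h => ?_⟩
      have h1 : χ ∈ T \ S₀ := Finset.mem_sdiff.2 ⟨hχT, hχS₀⟩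
      have h2 := h h1
      exact (Finset.mem_sdiff.1 h2).2 (Finset.mem_insert_self _ _)
    have hsum : ∀ χ' ∈ T, (2 * d χ' * d χ₁ : ℝ) < ∑ φ ∈ S₁, ((d φ : ℝ) ^ 2 / (n φ : ℝ)) := by
      intro χ' hχ'
      refine lt_of_lt_of_le (hineq χ' hχ') ?_
      exact Finset.sum_le_sum_of_subset_of_nonneg hsubS₀ fun _ _ _ => by positivity
    have h := ih _ hcard S₁ hS₁S hS₁c (by rw [hcoe]; exact hnew) (hsubS₀ hχ₁) rfl hsum
    have heq : S₁ ∪ T = S₀ ∪ T := by
      ext x
      simp only [S₁, Finset.mem_union, Finset.mem_insert]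
      constructor
      · rintro ((rfl | rfl | h) | h)
        · exact Or.inr hχT
        · exact Or.inr (hTc χ hχT)
        · exact Or.inl h
        · exact Or.inr h
      · rintro (h | h)
        · exact Or.inl (Or.inr (Or.inr h))
        · exact Or.inr h
    rwa [heq] at h

end Mono

section Sq

variable {G : Type u} [Group G] [Fintype G]

open Classical in
/-- The sum of the squared degrees of the irreducible characters with a given normal subgroup in their
kernel is the index of that subgroup. -/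
theorem sum_sq_of_ker (N : Subgroup G) [N.Normal] :
    ∑ χ ∈ (Finset.univ : Finset (IrrCharacter G)).filter
      (fun χ : IrrCharacter G => ∀ n ∈ N, χ.1 n = χ.1 1), χ.1 1 ^ 2 = (N.index : ℂ) := by
  letI : Fintype (G ⧸ N) := Fintype.ofFinite _
  let f : IrrCharacter (G ⧸ N) → IrrCharacter G := fun θ =>
    ⟨fun g => (θ : G ⧸ N → ℂ) (g : G ⧸ N), Cfsg.Agent.Lib.CharInflate.isIrr_inflate N θ.2⟩
  have hfinj : Function.Injective f := by
    intro a b hab
    apply Subtype.ext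
    funext q
    obtain ⟨g, rfl⟩ := QuotientGroup.mk_surjective q
    exact congrFun (congrArg Subtype.val hab) g
  have himg : (Finset.univ : Finset (IrrCharacter G)).filter
      (fun χ : IrrCharacter G => ∀ n ∈ N, χ.1 n = χ.1 1) = Finset.univ.image f := by
    ext χ
    simp only [Finset.mem_filter, Finset.mem_univ, true_and, Finset.mem_image]
    constructor
    · intro h
      obtain ⟨θ, hθ, hθχ⟩ := Cfsg.Agent.Lib.CharInflate.exists_quotient_irr N χ.2 h
      refine ⟨⟨θ, hθ⟩, Subtype.ext ?_⟩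
      funext g
      exact hθχ g
    · rintro ⟨θ, rfl⟩ n hn
      have h1 : ((n : G) : G ⧸ N) = ((1 : G) : G ⧸ N) := by
        rw [QuotientGroup.eq]
        simpa using N.inv_mem hn
      show (θ : G ⧸ N → ℂ) (n : G ⧸ N) = (θ : G ⧸ N → ℂ) ((1 : G) : G ⧸ N)
      rw [h1]
  rw [himg, Finset.sum_image (fun a _ b _ h => hfinj h)]
  have h2 := sum_sq_degree (G := G ⧸ N)
  have h3 : ∀ θ : IrrCharacter (G ⧸ N), ((f θ : IrrCharacter G) : G → ℂ) 1 = (θ : G ⧸ N → ℂ) 1 := fun θ => rfl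
  simp only [h3]
  rw [h2]
  rfl

end Sq

section Schur

/-- If `Y` is central modulo the kernel, then the squared degree is at most the index of `Y`. -/
theorem sq_le_index {X : Type u} [Group X] [Fintype X] (Y : Subgroup X) {ϑ : X → ℂ}
    (hϑ : IsIrrCharacter X ϑ) (hY : ∀ y ∈ Y, ∀ x : X, ϑ (y * x * y⁻¹ * x⁻¹) = ϑ 1) {e : ℕ}
    (he : ϑ 1 = e) : e ^ 2 ≤ Y.index := by
  classical
  have hnorm : ∀ y ∈ Y, ‖ϑ y‖ = e := by
    intro y hy
    obtain ⟨n, ρ, hρ, rfl⟩ := id hϑ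
    haveI := hρ
    have hcomm : ∀ x, ρ y ∘ₗ ρ x = ρ x ∘ₗ ρ y := by
      intro x
      have h1 : ρ (y * x * y⁻¹ * x⁻¹) = LinearMap.id :=
        (Cfsg.Agent.Lib.CharCore.character_eq_finrank_iff ρ _).1 (by
          rw [hY y hy x]; exact Representation.char_one ρ)
      have h2 : y * x = (y * x * y⁻¹ * x⁻¹) * (x * y) := by group
      have h3 : ρ (y * x) = ρ (x * y) := by
        calc ρ (y * x) = ρ ((y * x * y⁻¹ * x⁻¹) * (x * y)) := by rw [← h2]
          _ = ρ (y * x * y⁻¹ * x⁻¹) * ρ (x * y) := map_mul ρ _ _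
          _ = ρ (x * y) := by rw [h1]; rfl
      rw [map_mul, map_mul] at h3
      exact h3
    obtain ⟨c, hc⟩ := Cfsg.Agent.Lib.CharClass.schur_scalar ρ (ρ y) hcomm
    have h4 := (Cfsg.Agent.Lib.CharCore.norm_character_eq_iff ρ y).2 ⟨c, hc⟩
    rw [h4]
    have h5 : ρ.character 1 = (e : ℂ) := he
    rw [Representation.char_one] at h5
    have h6 : Module.finrank ℂ (Fin n → ℂ) = e := by exact_mod_cast h5
    rw [h6]
  have hself := inner_self_eq ϑ
  rw [irr_inner_self hϑ] at hself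
  have hcard : (Nat.card X : ℝ) ≠ 0 := by exact_mod_cast Nat.card_pos.ne'
  have h1 : ∑ g, ‖ϑ g‖ ^ 2 = (Nat.card X : ℝ) := by
    have h2 : ((Nat.card X : ℝ)⁻¹ * ∑ g, ‖ϑ g‖ ^ 2 : ℝ) = 1 := by exact_mod_cast hself.symm
    field_simp at h2
    linarith
  have h3 : ∑ g ∈ Finset.univ.filter (fun g => g ∈ Y), ‖ϑ g‖ ^ 2 = (Nat.card Y : ℝ) * (e : ℝ) ^ 2 := by
    rw [Finset.sum_congr rfl (fun g hg => by rw [hnorm g (Finset.mem_filter.1 hg).2])]
    rw [Finset.sum_const, nsmul_eq_mul]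
    congr 1
    rw [Nat.card_eq_fintype_card, Fintype.card_subtype]
  have h4 : ∑ g ∈ Finset.univ.filter (fun g => g ∈ Y), ‖ϑ g‖ ^ 2 ≤ ∑ g, ‖ϑ g‖ ^ 2 :=
    Finset.sum_le_sum_of_subset_of_nonneg (Finset.filter_subset _ _) fun _ _ _ => by positivity
  rw [h3, h1, ← Subgroup.card_mul_index Y] at h4
  push_cast at h4
  have hY0 : (0 : ℝ) < Nat.card Y := by exact_mod_cast Nat.card_pos
  have h5 : (e : ℝ) ^ 2 ≤ Y.index := le_of_mul_le_mul_left h4 hY0
  exact_mod_cast h5

end Schur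

section Above

variable {L : Type u} [Group L] [Fintype L] (K : Subgroup L) [hK : K.Normal]

theorem above_mono {A B : Subgroup L} (h : A ≤ B) :
    inducedIrrAbove K B ⊆ inducedIrrAbove K A := by
  rintro φ ⟨θ, h1, h2, h3, rfl⟩
  exact ⟨θ, h1, h2, fun a ha => h3 a (h ha), rfl⟩

theorem above_isChar {A : Subgroup L} {φ : L → ℂ} (h : φ ∈ inducedIrrAbove K A) :
    IsCharacter L φ := by
  obtain ⟨θ, h1, -, -, rfl⟩ := h
  exact isCharacter_indFun K (IsIrrCharacter.isCharacter' h1)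

theorem conjFun_indFun (θ : K → ℂ) : conjFun (indFun K θ) = indFun K (conjFun θ) := by
  funext g
  simp only [conjFun, indFun_apply, map_mul, map_inv₀, map_natCast, map_sum]
  congr 1
  refine Finset.sum_congr rfl fun x _ => ?_
  by_cases hx : x⁻¹ * g * x ∈ K
  · rw [extendByZero_of_mem K _ hx, extendByZero_of_mem K _ hx]
    rfl
  · rw [extendByZero_of_not_mem K _ hx, extendByZero_of_not_mem K _ hx]
    simp

theorem above_conj {A : Subgroup L} {φ : L → ℂ} (h : φ ∈ inducedIrrAbove K A) :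
    conjFun φ ∈ inducedIrrAbove K A := by
  letI : Fintype K := Fintype.ofFinite _
  obtain ⟨θ, h1, h2, h3, rfl⟩ := h
  refine ⟨conjFun θ, isIrr_conj h1, ?_, ?_, conjFun_indFun K θ⟩
  · intro h4
    apply h2
    have h5 : conjFun (conjFun θ) = conjFun (fun _ => (1 : ℂ)) := by rw [h4]
    rw [conjFun_conjFun] at h5
    rw [h5]
    funext g
    simp [conjFun]
  · intro a ha
    simp only [conjFun]
    rw [h3 a ha]

/-- Degree and shape of a member. -/
theorem above_degree {A : Subgroup L} {φ : L → ℂ} (h : φ ∈ inducedIrrAbove K A) :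
    ∃ (θ : K → ℂ) (t : ℕ), IsIrrCharacter K θ ∧ θ ≠ (fun _ => 1) ∧
      (∀ a : K, (a : L) ∈ A → θ a = θ 1) ∧ φ = indFun K θ ∧ θ 1 = t ∧ φ 1 = ((K.index * t : ℕ) : ℂ) := by
  letI : Fintype K := Fintype.ofFinite _
  obtain ⟨θ, h1, h2, h3, rfl⟩ := h
  obtain ⟨t, -, ht⟩ := exists_degree_pos h1
  refine ⟨θ, t, h1, h2, h3, rfl, ht, ?_⟩
  rw [indFun_one, ht]
  push_cast
  rfl

end Above

section Expand

variable {L : Type u} [Group L] [Fintype L] {G : Type v} [Group G] [Fintype G]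

theorem famMap_smul' (S : Finset (L → ℂ)) (X : (L → ℂ) → (G → ℂ)) (c : ℂ) (a : L → ℂ) :
    famMap S X (c • a) = c • famMap S X a := by
  simp only [famMap, classInner_smul_left, Finset.smul_sum]
  refine Finset.sum_congr rfl fun ε _ => ?_
  rw [mul_div_assoc, mul_smul]

theorem famMap_sum {ι : Type*} (S : Finset (L → ℂ)) (X : (L → ℂ) → (G → ℂ)) (s : Finset ι)
    (f : ι → L → ℂ) : famMap S X (∑ i ∈ s, f i) = ∑ i ∈ s, famMap S X (f i) := by
  classical
  induction s using Finset.induction_on with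
  | empty => simp [famMap_zero]
  | insert i s hi ih => rw [Finset.sum_insert hi, Finset.sum_insert hi, famMap_add, ih]

/-- Expansion of a combination of members of a finite orthogonal set, evaluated at `1`. -/
theorem value_of_combo {F : Finset (L → ℂ)} (hort : ∀ a ∈ F, ∀ b ∈ F, a ≠ b → classInner a b = 0)
    (hnz : ∀ a ∈ F, a ≠ 0) {ι : Type*} (s : Finset ι) (c : ι → ℂ) (f : ι → L → ℂ)
    (hf : ∀ i ∈ s, f i ∈ F) :
    (∑ i ∈ s, c i • f i) 1 =
      ∑ φ ∈ F, classInner (∑ i ∈ s, c i • f i) φ / classInner φ φ * φ 1 := by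
  have h : famMap F (fun x => x) (∑ i ∈ s, c i • f i) = ∑ i ∈ s, c i • f i := by
    rw [famMap_sum]
    refine Finset.sum_congr rfl fun i hi => ?_
    rw [famMap_smul', famMap_of_mem hort hnz _ (hf i hi)]
  conv_lhs => rw [← h]
  simp only [famMap, Finset.sum_apply, Pi.smul_apply, smul_eq_mul]

end Expand

section Above2

variable {L : Type u} [Group L] [Fintype L] (K : Subgroup L) [hK : K.Normal]

/-- The weighted sum of squared degrees over the characters induced from those with kernel above `A`. -/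
theorem sum_deg_sq_above (A : Subgroup L) [hA : A.Normal] (F : Finset (L → ℂ))
    (hF : ∀ φ, φ ∈ F ↔ φ ∈ inducedIrrAbove K A)
    (hort : ∀ a ∈ F, ∀ b ∈ F, a ≠ b → classInner a b = 0) (hnz : ∀ a ∈ F, a ≠ 0) :
    ∑ φ ∈ F, (φ 1) ^ 2 / classInner φ φ = (K.index : ℂ) * ((A.relIndex K : ℂ) - 1) := by
  classical
  letI : Fintype K := Fintype.ofFinite _
  let one : IrrCharacter K := ⟨fun _ => 1, isIrr_one⟩
  let Θ₁ : Finset (IrrCharacter K) := (Finset.univ : Finset (IrrCharacter K)).filter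
    (fun θ : IrrCharacter K => ∀ n ∈ A.subgroupOf K, θ.1 n = θ.1 1)
  let Θ : Finset (IrrCharacter K) := Θ₁.erase one
  have hmem : ∀ θ : IrrCharacter K, θ ∈ Θ ↔ θ.1 ≠ (fun _ => 1) ∧ ∀ a : K, (a : L) ∈ A → θ.1 a = θ.1 1 := by
    intro θ
    simp only [Θ, Θ₁, Finset.mem_erase, Finset.mem_filter, Finset.mem_univ, true_and, ne_eq,
      Subgroup.mem_subgroupOf, one, Subtype.ext_iff]
  have hone : one ∈ Θ₁ := by
    simp only [Θ₁, one, Finset.mem_filter, Finset.mem_univ, true_and]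
    exact fun _ _ => trivial
  have hsq : ∑ θ ∈ Θ, θ.1 1 ^ 2 = (A.relIndex K : ℂ) - 1 := by
    have h1 := sum_sq_of_ker (A.subgroupOf K)
    have h2 := Finset.add_sum_erase Θ₁ (fun θ : IrrCharacter K => θ.1 1 ^ 2) hone
    have h3 : ∑ θ ∈ Θ₁, θ.1 1 ^ 2 = (A.relIndex K : ℂ) := h1
    rw [h3] at h2
    have h4 : (one.1 1) ^ 2 = 1 := by simp [one]
    simp only [h4] at h2
    rw [← h2]
    ring
  -- the combination
  let f : IrrCharacter K → L → ℂ := fun θ => indFun K θ.1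
  let c : IrrCharacter K → ℂ := fun θ => θ.1 1
  have hfF : ∀ θ ∈ Θ, f θ ∈ F := by
    intro θ hθ
    obtain ⟨h1, h2⟩ := (hmem θ).1 hθ
    exact (hF _).2 ⟨θ.1, θ.2, h1, h2, rfl⟩
  have hval := value_of_combo hort hnz Θ c f hfF
  have hleft : (∑ θ ∈ Θ, c θ • f θ) 1 = (K.index : ℂ) * ((A.relIndex K : ℂ) - 1) := by
    rw [Finset.sum_apply, ← hsq, Finset.mul_sum]
    refine Finset.sum_congr rfl fun θ _ => ?_
    simp only [Pi.smul_apply, smul_eq_mul, c, f]
    rw [indFun_one]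
    ring
  have hinner : ∀ φ ∈ F, classInner (∑ θ ∈ Θ, c θ • f θ) φ = φ 1 := by
    intro φ hφ
    obtain ⟨θ₀, h0, h1, h2, rfl⟩ := (hF φ).1 hφ
    have hin : ∀ x : L, ∑ θ ∈ Θ, c θ * classInner θ.1 (Cfsg.Agent.Lib.CharNormal.conjFun K θ₀ x) = θ₀ 1 := by
      intro x
      have hirrx := Cfsg.Agent.Lib.CharNormal.isIrr_conjFun K h0 x
      let θx : IrrCharacter K := ⟨Cfsg.Agent.Lib.CharNormal.conjFun K θ₀ x, hirrx⟩
      have hx1 : θx.1 1 = θ₀ 1 := by
        show θ₀ _ = θ₀ 1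
        congr 1
        apply Subtype.ext
        simp
      have hxΘ : θx ∈ Θ := by
        refine (hmem θx).2 ⟨?_, ?_⟩
        · intro h3
          apply h1
          have h4 : Cfsg.Agent.Lib.CharNormal.conjFun K (Cfsg.Agent.Lib.CharNormal.conjFun K θ₀ x) x⁻¹
              = Cfsg.Agent.Lib.CharNormal.conjFun K θ₀ (x * x⁻¹) :=
            (Cfsg.Agent.Lib.CharNormal.conjFun_mul K θ₀ x x⁻¹).symm
          rw [mul_inv_cancel, Cfsg.Agent.Lib.CharNormal.conjFun_one] at h4
          rw [← h4]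
          have h5 : Cfsg.Agent.Lib.CharNormal.conjFun K θ₀ x = fun _ => 1 := h3
          rw [h5]
          rfl
        · intro a ha
          rw [hx1]
          show θ₀ _ = θ₀ 1
          apply h2
          exact hA.conj_mem _ ha x
      rw [Finset.sum_eq_single θx]
      · show θx.1 1 * classInner θx.1 θx.1 = θ₀ 1
        rw [irr_inner_self θx.2, hx1, mul_one]
      · intro θ _ hθ
        rw [irr_inner_ne θ.2 hirrx (fun h => hθ (Subtype.ext h)), mul_zero]
      · intro h; exact absurd hxΘ h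
    rw [classInner_sum_left]
    simp only [classInner_smul_left, f, Cfsg.Agent.Lib.CharNormal.classInner_ind_ind]
    have hKc : (Nat.card K : ℂ) ≠ 0 := by exact_mod_cast Nat.card_pos.ne'
    have h3 : ∑ θ ∈ Θ, c θ * ((Nat.card K : ℂ)⁻¹ * ∑ x : L,
        classInner θ.1 (Cfsg.Agent.Lib.CharNormal.conjFun K θ₀ x)) =
        (Nat.card K : ℂ)⁻¹ * ∑ x : L, ∑ θ ∈ Θ, c θ *
          classInner θ.1 (Cfsg.Agent.Lib.CharNormal.conjFun K θ₀ x) := by
      rw [Finset.sum_comm, Finset.mul_sum]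
      refine Finset.sum_congr rfl fun θ _ => ?_
      rw [Finset.mul_sum, Finset.mul_sum, Finset.mul_sum]
      refine Finset.sum_congr rfl fun x _ => ?_
      ring
    rw [h3, Finset.sum_congr rfl (fun x _ => hin x), Finset.sum_const, Finset.card_univ, nsmul_eq_mul,
      indFun_one, ← Nat.card_eq_fintype_card, ← Subgroup.card_mul_index K]
    push_cast
    field_simp
  rw [← hleft, hval]
  refine Finset.sum_congr rfl fun φ hφ => ?_
  rw [hinner φ hφ]
  ring

/-- A nontrivial linear character with kernel above `A`. -/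
theorem exists_linear_above (hsolv : Group.IsSolvable K) (A : Subgroup L) [hA : A.Normal] (hAK : A < K) :
    ∃ l : K → ℂ, IsIrrCharacter K l ∧ l ≠ (fun _ => 1) ∧ l 1 = 1 ∧ ∀ a : K, (a : L) ∈ A → l a = l 1 := by
  classical
  haveI := hsolv
  let N : Subgroup K := A.subgroupOf K
  have hN : N ≠ ⊤ := by
    intro h
    rw [Subgroup.subgroupOf_eq_top] at h
    exact absurd h (not_le_of_gt hAK)
  haveI hNn : N.Normal := Subgroup.normal_subgroupOf
  haveI : Group.IsSolvable (K ⧸ N) := Group.isSolvable_of_surjective (QuotientGroup.mk'_surjective N)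
  haveI : Nontrivial (K ⧸ N) := QuotientGroup.nontrivial_iff.2 hN
  letI : Fintype (K ⧸ N) := Fintype.ofFinite _
  have hc := Group.IsSolvable.commutator_lt_top_of_nontrivial (K ⧸ N)
  have hcard := card_hom_eq_index (G := K ⧸ N)
  have hex : ∃ l : (K ⧸ N) →* ℂˣ, l ≠ 1 := by
    by_contra h
    push Not at h
    haveI : Subsingleton ((K ⧸ N) →* ℂˣ) := ⟨fun a b => by rw [h a, h b]⟩
    rw [Nat.card_of_subsingleton (1 : (K ⧸ N) →* ℂˣ)] at hcard
    exact (ne_of_lt hc) (Subgroup.index_eq_one.1 hcard.symm)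
  obtain ⟨l, hl⟩ := hex
  let f : K →* ℂˣ := l.comp (QuotientGroup.mk' N)
  refine ⟨fun x => ((f x : ℂˣ) : ℂ), isIrrCharacter_of_hom f, ?_, by simp, ?_⟩
  · intro h
    apply hl
    ext x
    have := congrFun h x
    simpa [f] using this
  · intro a ha
    have h1 : (a : K ⧸ N) = 1 := (QuotientGroup.eq_one_iff a).2 ha
    simp [f, h1]

/-- Degree bound from a central section. -/
theorem deg_bound {B C D : Subgroup L} (hBD : B ≤ D) (hDC : D ≤ C) (hCK : C ≤ K)
    (hcent : ∀ x ∈ D, ∀ y ∈ C, x * y * x⁻¹ * y⁻¹ ∈ B) {θ : K → ℂ} (hθ : IsIrrCharacter K θ)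
    (htriv : ∀ a : K, (a : L) ∈ B → θ a = θ 1) {t : ℕ} (ht : θ 1 = t) :
    t ^ 2 ≤ (C.relIndex K) ^ 2 * D.relIndex C := by
  classical
  letI : Fintype K := Fintype.ofFinite _
  let H : Subgroup K := C.subgroupOf K
  letI : Fintype H := Fintype.ofFinite _
  obtain ⟨ϑ, hϑ, hne⟩ := Cfsg.Agent.Lib.CharKernel.exists_constituent_restrict H hθ
  obtain ⟨e, -, he⟩ := exists_degree_pos hϑ
  have h1 := Cfsg.Agent.Lib.CharKernel.degree_le_index_mul H hθ hϑ hne t e ht he
  have hker : ∀ h : H, ((h : K) : L) ∈ B → ϑ h = ϑ 1 := by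
    intro h hb
    apply Cfsg.Agent.Lib.CharKernel.ker_of_constituent
      (isCharacter_restrict H (IsIrrCharacter.isCharacter' hθ)) hϑ hne
    show θ (h : K) = θ ((1 : H) : K)
    rw [htriv _ hb]
    rfl
  have h2 := sq_le_index ((D.subgroupOf K).subgroupOf H) hϑ (fun y hy x => by
    apply hker
    have hy' : (((y : H) : K) : L) ∈ D := hy
    have hx' : (((x : H) : K) : L) ∈ C := x.2
    simpa using hcent _ hy' _ hx') he
  have h3 : ((D.subgroupOf K).subgroupOf H).index = D.relIndex C :=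
    Subgroup.relIndex_subgroupOf hCK
  rw [h3] at h2
  have h4 : H.index = C.relIndex K := rfl
  rw [h4] at h1
  calc t ^ 2 ≤ (C.relIndex K * e) ^ 2 := Nat.pow_le_pow_left h1 2
    _ = (C.relIndex K) ^ 2 * e ^ 2 := by ring
    _ ≤ _ := Nat.mul_le_mul_left _ h2

end Above2

section Main

variable {L : Type u} [Group L] [Fintype L] {G : Type v} [Group G] [Fintype G]
  (K : Subgroup L) [hK : K.Normal]

omit [Fintype L] in
theorem relIndex_pos' [Finite L] (A B : Subgroup L) : 0 < A.relIndex B :=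
  Nat.pos_of_ne_zero (Subgroup.index_ne_zero_of_finite (H := A.subgroupOf B))

omit [Fintype L] in
theorem card_lt' [Finite L] {A B : Subgroup L} (h : A < B) : Nat.card A < Nat.card B :=
  lt_of_le_of_ne (Subgroup.card_le_of_le h.le) fun e => h.ne (Subgroup.eq_of_le_of_card_ge h.le e.ge)

/-- Natural number degree. -/
noncomputable def degN (φ : L → ℂ) : ℕ := ⌊(φ 1).re⌋₊

/-- Natural number norm. -/
noncomputable def normN (φ : L → ℂ) : ℕ := ⌊(classInner φ φ).re⌋₊

omit [Fintype L] in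
theorem degN_eq {φ : L → ℂ} {m : ℕ} (h : φ 1 = m) : degN φ = m := by
  simp [degN, h]

theorem normN_eq {φ : L → ℂ} {m : ℕ} (h : classInner φ φ = m) : normN φ = m := by
  simp [normN, h]

/-- Coherence spreads from `S(A)` to `S(B)` when the degrees in `S(B)` are small. -/
theorem coherent_of_bound (hsolv : Group.IsSolvable K) (τ : (L → ℂ) → (G → ℂ))
    (R : (L → ℂ) → Finset (G → ℂ)) (hS : IsCoherenceSystem (inducedIrrAbove K ⊥) τ R)
    (A B : Subgroup L) [hA : A.Normal] [hB : B.Normal] (hAK : A < K) (hBK : B < K)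
    (hcoh : IsCoherent (inducedIrrAbove K A) {1}ᶜ τ)
    (hbd : ∀ θ : K → ℂ, IsIrrCharacter K θ → (∀ a : K, (a : L) ∈ B → θ a = θ 1) → ∀ t : ℕ, θ 1 = t →
      4 * K.index ^ 2 * t ^ 2 < (A.relIndex K - 1) ^ 2) :
    IsCoherent (inducedIrrAbove K B) {1}ᶜ τ := by
  classical
  have hfin : (inducedIrrAbove K ⊥).Finite :=
    finite_of_orthogonal _ hS.orthogonal (fun a ha => cs_ne_zero hS ha)
  have hAS : inducedIrrAbove K A ⊆ inducedIrrAbove K ⊥ := above_mono K bot_le
  have hBS : inducedIrrAbove K B ⊆ inducedIrrAbove K ⊥ := above_mono K bot_le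
  have hfinA := hfin.subset hAS
  have hfinB := hfin.subset hBS
  have hFA : ∀ φ, φ ∈ hfinA.toFinset ↔ φ ∈ inducedIrrAbove K A := fun φ => hfinA.mem_toFinset
  have hFB : ∀ φ, φ ∈ hfinB.toFinset ↔ φ ∈ inducedIrrAbove K B := fun φ => hfinB.mem_toFinset
  have hd : ∀ φ ∈ inducedIrrAbove K ⊥, φ 1 = (degN φ : ℂ) := by
    intro φ hφ
    obtain ⟨m, hm⟩ := exists_degree (hS.isCharacter φ hφ)
    rw [degN_eq hm, hm]
  have hn : ∀ φ ∈ inducedIrrAbove K ⊥, classInner φ φ = (normN φ : ℂ) := by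
    intro φ hφ
    obtain ⟨m, -, hm⟩ := cs_norm hS hφ
    rw [normN_eq hm, hm]
  obtain ⟨l, hl, hl1, hl2, hl3⟩ := exists_linear_above K hsolv A hAK
  have hχ₁ : indFun K l ∈ hfinA.toFinset := (hFA _).2 ⟨l, hl, hl1, hl3, rfl⟩
  have hdχ₁ : degN (indFun K l) = K.index := degN_eq (by rw [indFun_one, hl2]; simp)
  have hQ : ∑ φ ∈ hfinA.toFinset, ((degN φ : ℝ) ^ 2 / (normN φ : ℝ)) =
      (K.index : ℝ) * ((A.relIndex K : ℝ) - 1) := by
    have h1 := sum_deg_sq_above K A hfinA.toFinset hFA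
      (fun a ha b hb hab => hS.orthogonal a (hAS ((hFA a).1 ha)) b (hAS ((hFA b).1 hb)) hab)
      (fun a ha => cs_ne_zero hS (hAS ((hFA a).1 ha)))
    have h2 : ∑ φ ∈ hfinA.toFinset, (φ 1) ^ 2 / classInner φ φ =
        ((∑ φ ∈ hfinA.toFinset, ((degN φ : ℝ) ^ 2 / (normN φ : ℝ)) : ℝ) : ℂ) := by
      push_cast
      refine Finset.sum_congr rfl fun φ hφ => ?_
      have h3 := hAS ((hFA φ).1 hφ)
      rw [hd φ h3, hn φ h3]
    rw [h2] at h1
    exact_mod_cast h1
  have he : 0 < K.index := Nat.pos_of_ne_zero Subgroup.index_ne_zero_of_finite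
  have hr : 1 ≤ A.relIndex K := relIndex_pos' A K
  have hineq : ∀ χ ∈ hfinB.toFinset, (2 * degN χ * degN (indFun K l) : ℝ) <
      ∑ φ ∈ hfinA.toFinset, ((degN φ : ℝ) ^ 2 / (normN φ : ℝ)) := by
    intro χ hχ
    obtain ⟨θ, t, h1, h2, h3, h4, h5, h6⟩ := above_degree K ((hFB χ).1 hχ)
    have hb := hbd θ h1 h3 t h5
    have h7 : 2 * K.index * t < A.relIndex K - 1 := by
      refine lt_of_pow_lt_pow_left₀ 2 (Nat.zero_le _) ?_
      calc (2 * K.index * t) ^ 2 = 4 * K.index ^ 2 * t ^ 2 := by ring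
        _ < _ := hb
    have h8 : (2 * (K.index : ℝ) * t) < (A.relIndex K : ℝ) - 1 := by
      have h9 : ((A.relIndex K - 1 : ℕ) : ℝ) = (A.relIndex K : ℝ) - 1 := by
        rw [Nat.cast_sub hr]; simp
      rw [← h9]
      exact_mod_cast h7
    rw [hQ, hdχ₁, degN_eq h6]
    push_cast
    have heR : (0 : ℝ) < K.index := by exact_mod_cast he
    nlinarith
  have hdiv : ∀ χ ∈ hfinB.toFinset, degN (indFun K l) ∣ degN χ := by
    intro χ hχ
    obtain ⟨θ, t, h1, h2, h3, h4, h5, h6⟩ := above_degree K ((hFB χ).1 hχ)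
    rw [hdχ₁, degN_eq h6]
    exact Dvd.intro _ rfl
  have hext := coherent_extend hS degN normN hd hn hfinB.toFinset
    (by
      intro x hx
      exact hBS ((hFB x).1 hx))
    (fun χ hχ => (hFB _).2 (above_conj K ((hFB χ).1 hχ)))
    (indFun K l) hdiv _ hfinA.toFinset
    (by
      intro x hx
      exact hAS ((hFA x).1 hx))
    (fun χ hχ => (hFA _).2 (above_conj K ((hFA χ).1 hχ)))
    (by rwa [hfinA.coe_toFinset]) hχ₁ rfl hineq
  obtain ⟨l', hl', hl'1, hl'2, hl'3⟩ := exists_linear_above K hsolv B hBK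
  refine coherent_mono ?_ (exists_ne_of_system hS hBS (φ := indFun K l') ⟨l', hl', hl'1, hl'3, rfl⟩
    (fun χ hχ => above_conj K hχ)) hext
  intro x hx
  simp only [Finset.coe_union, Set.mem_union, Finset.mem_coe]
  exact Or.inr ((hFB x).2 hx)

/-- The statement with a central section. -/
theorem coherent_of_section (hsolv : Group.IsSolvable K) (τ : (L → ℂ) → (G → ℂ))
    (R : (L → ℂ) → Finset (G → ℂ)) (hS : IsCoherenceSystem (inducedIrrAbove K ⊥) τ R)
    (A B C D : Subgroup L) [A.Normal] [B.Normal] [C.Normal] [D.Normal] (hAK : A < K) (hBK : B < K)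
    (hBD : B ≤ D) (hDC : D ≤ C) (hCK : C ≤ K)
    (hcent : ∀ x ∈ D, ∀ y ∈ C, x * y * x⁻¹ * y⁻¹ ∈ B)
    (hA : IsCoherent (inducedIrrAbove K A) {1}ᶜ τ)
    (hlt : 4 * C.index ^ 2 * D.relIndex C < (A.relIndex K - 1) ^ 2) :
    IsCoherent (inducedIrrAbove K B) {1}ᶜ τ := by
  refine coherent_of_bound K hsolv τ R hS A B hAK hBK hA fun θ hθ htriv t ht => ?_
  refine lt_of_le_of_lt ?_ hlt
  have h1 := deg_bound K hBD hDC hCK hcent hθ htriv ht
  rw [← Subgroup.relIndex_mul_index hCK]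
  calc 4 * K.index ^ 2 * t ^ 2 ≤ 4 * K.index ^ 2 * ((C.relIndex K) ^ 2 * D.relIndex C) :=
        Nat.mul_le_mul_left _ h1
    _ = _ := by ring

omit [Fintype L] in
theorem bot_of_le_comm' {P : Type*} [Group P] [Group.IsNilpotent P] (N : Subgroup P) (h : N ≤ ⁅N, ⊤⁆) :
    N = ⊥ := by
  obtain ⟨n, hn⟩ := (Subgroup.nilpotent_iff_lowerCentralSeries (G := P)).mp inferInstance
  have hall : ∀ k, N ≤ Subgroup.lowerCentralSeries (⊤ : Subgroup P) k := by
    intro k
    induction k with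
    | zero => exact le_top
    | succ k ih => exact h.trans (Subgroup.commutator_mono ih le_rfl)
  have := hall n
  rw [hn] at this
  exact le_bot_iff.mp this

omit [Fintype L] in
/-- A nilpotent section: the commutator with the top goes strictly down. -/
theorem comm_sup_lt {H H₁ M : Subgroup L} [hHn : H.Normal] [hH₁n : H₁.Normal] [hMn : M.Normal]
    (hMH₁ : M ≤ H₁) (hH₁H : H₁ ≤ H) [(M.subgroupOf H).Normal]
    (hnil : Group.IsNilpotent (↥H ⧸ M.subgroupOf H)) (hne : H₁ ≠ M) :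
    ⁅H₁, H⁆ ⊔ M < H₁ := by
  have hle : ⁅H₁, H⁆ ⊔ M ≤ H₁ := sup_le (Subgroup.commutator_le_left H₁ H) hMH₁
  refine lt_of_le_of_ne hle fun heq => hne ?_
  haveI := hnil
  let π := QuotientGroup.mk' (M.subgroupOf H)
  let N : Subgroup (↥H ⧸ M.subgroupOf H) := (H₁.subgroupOf H).map π
  have hN : N ≤ ⁅N, ⊤⁆ := by
    rintro _ ⟨x, hx, rfl⟩
    have hx' : (x : L) ∈ ⁅H₁, H⁆ ⊔ M := by
      rw [heq]
      exact hx
    rw [← SetLike.mem_coe, Subgroup.mul_normal] at hx'
    obtain ⟨c, hc, m, hm, hcm⟩ := hx'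
    have hcH : c ∈ H := Subgroup.commutator_le_right H₁ H hc
    have hmH : m ∈ H := hH₁H (hMH₁ hm)
    have hkey : ∀ c ∈ ⁅H₁, H⁆, ∃ hc : c ∈ H, π ⟨c, hc⟩ ∈ ⁅N, (⊤ : Subgroup (↥H ⧸ M.subgroupOf H))⁆ := by
      intro c hc
      rw [← SetLike.mem_coe] at hc
      have hsub : ⁅H₁, H⁆ ≤ (Subgroup.comap π ⁅N, (⊤ : Subgroup (↥H ⧸ M.subgroupOf H))⁆).map H.subtype := by
        rw [Subgroup.commutator_le]
        intro a ha b hb
        refine ⟨⁅(⟨a, hH₁H ha⟩ : H), (⟨b, hb⟩ : H)⁆, ?_, rfl⟩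
        rw [SetLike.mem_coe, Subgroup.mem_comap, map_commutatorElement]
        exact Subgroup.commutator_mem_commutator
          ⟨⟨a, hH₁H ha⟩, Subgroup.mem_subgroupOf.2 ha, rfl⟩ (Subgroup.mem_top _)
      obtain ⟨y, hy, hyc⟩ := hsub hc
      have hyc' : (y : L) = c := hyc
      refine ⟨hyc' ▸ y.2, ?_⟩
      have : (⟨c, hyc' ▸ y.2⟩ : H) = y := Subtype.ext hyc'.symm
      rw [this]
      exact hy
    obtain ⟨hc1, hc2⟩ := hkey c hc
    have hxeq : x = ⟨c, hc1⟩ * ⟨m, hmH⟩ := Subtype.ext hcm.symm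
    have hπm : π ⟨m, hmH⟩ = 1 := (QuotientGroup.eq_one_iff _).2 hm
    rw [hxeq, map_mul, hπm, mul_one]
    exact hc2
  have hbot := bot_of_le_comm' N hN
  refine le_antisymm ?_ hMH₁
  intro x hx
  have h1 : π ⟨x, hH₁H hx⟩ ∈ N := ⟨⟨x, hH₁H hx⟩, hx, rfl⟩
  rw [hbot, Subgroup.mem_bot] at h1
  have h2 : (⟨x, hH₁H hx⟩ : H) ∈ M.subgroupOf H := (QuotientGroup.eq_one_iff _).1 h1
  exact Subgroup.mem_subgroupOf.1 h2

/-- Going down a nilpotent section. -/
theorem coherent_of_nilpotent_section (hsolv : Group.IsSolvable K) (τ : (L → ℂ) → (G → ℂ))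
    (R : (L → ℂ) → Finset (G → ℂ)) (hS : IsCoherenceSystem (inducedIrrAbove K ⊥) τ R)
    (M H : Subgroup L) [hMn : M.Normal] [hHn : H.Normal] (hHK : H ≤ K) [(M.subgroupOf H).Normal]
    (hnil : Group.IsNilpotent (↥H ⧸ M.subgroupOf H)) :
    ∀ (c : ℕ) (H₁ : Subgroup L), Nat.card H₁ = c → H₁.Normal → M ≤ H₁ → H₁ ≤ H →
      IsCoherent (inducedIrrAbove K H₁) {1}ᶜ τ → 4 * K.index ^ 2 + 1 < H₁.relIndex H →
      IsCoherent (inducedIrrAbove K M) {1}ᶜ τ := by
  intro c
  induction c using Nat.strong_induction_on with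
  | _ c ih =>
    intro H₁ hc hH₁n hMH₁ hH₁H hcoh hbig
    by_cases hne : H₁ = M
    · rwa [← hne]
    have hlt := comm_sup_lt (H := H) (H₁ := H₁) (M := M) hMH₁ hH₁H hnil hne
    have hBn : (⁅H₁, H⁆ ⊔ M).Normal := Subgroup.sup_normal _ _
    have hH₁ltH : H₁ < H := by
      refine lt_of_le_of_ne hH₁H fun h => ?_
      rw [h, Subgroup.relIndex_self] at hbig
      omega
    have hH₁K : H₁ < K := lt_of_lt_of_le hH₁ltH hHK
    have hBK : ⁅H₁, H⁆ ⊔ M < K := lt_trans hlt hH₁K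
    have hnew : IsCoherent (inducedIrrAbove K (⁅H₁, H⁆ ⊔ M)) {1}ᶜ τ := by
      refine coherent_of_section K hsolv τ R hS H₁ (⁅H₁, H⁆ ⊔ M) H H₁ hH₁K hBK hlt.le hH₁H hHK ?_ hcoh ?_
      · intro x hx y hy
        have := Subgroup.commutator_mem_commutator hx hy
        exact (le_sup_left : ⁅H₁, H⁆ ≤ ⁅H₁, H⁆ ⊔ M) this
      · rw [← Subgroup.relIndex_mul_index hHK, ← Subgroup.relIndex_mul_relIndex H₁ H K hH₁H hHK]
        generalize H₁.relIndex H = m at hbig
        have hk : 0 < H.relIndex K := relIndex_pos' H K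
        generalize H.relIndex K = k at hk
        generalize K.index = e at hbig
        have hmk : 1 ≤ m * k := Nat.mul_pos (by omega) hk
        zify [hmk]
        have hbig' : (4 * (e : ℤ) ^ 2 + 1) < m := by exact_mod_cast hbig
        have hk' : (1 : ℤ) ≤ k := by exact_mod_cast hk
        have hm2 : (4 * (e : ℤ) ^ 2 + 2) ≤ m := by omega
        have h0 : (0 : ℤ) ≤ (k : ℤ) ^ 2 * m * ((m : ℤ) - (4 * (e : ℤ) ^ 2 + 2)) := by
          apply mul_nonneg (by positivity)
          linarith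
        have h1 : (0 : ℤ) ≤ (m : ℤ) * k * ((k : ℤ) - 1) := by
          apply mul_nonneg (by positivity)
          linarith
        nlinarith
    refine ih _ ?_ (⁅H₁, H⁆ ⊔ M) rfl hBn le_sup_right (hlt.le.trans hH₁H) hnew ?_
    · rw [← hc]
      exact card_lt' hlt
    · refine lt_of_lt_of_le hbig ?_
      exact Nat.le_of_dvd (relIndex_pos' _ _) (Subgroup.relIndex_dvd_of_le_left H hlt.le)

end Main

section Quot

variable {L : Type u} [Group L] [Finite L]

theorem bot_of_le_comm'' {P : Type*} [Group P] [Group.IsNilpotent P] (N : Subgroup P) (h : N ≤ ⁅N, ⊤⁆) :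
    N = ⊥ := by
  obtain ⟨n, hn⟩ := (Subgroup.nilpotent_iff_lowerCentralSeries (G := P)).mp inferInstance
  have hall : ∀ k, N ≤ Subgroup.lowerCentralSeries (⊤ : Subgroup P) k := by
    intro k
    induction k with
    | zero => exact le_top
    | succ k ih => exact h.trans (Subgroup.commutator_mono ih le_rfl)
  have := hall n
  rw [hn] at this
  exact le_bot_iff.mp this

/-- Every prime divisor of the order of a nilpotent group divides the order of its abelianization. -/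
theorem prime_dvd_abelianization {Y : Type*} [Group Y] [Finite Y] [Group.IsNilpotent Y] (r : ℕ)
    (hr : r.Prime) (h : r ∣ Nat.card Y) : r ∣ (commutator Y).index := by
  haveI : Fact r.Prime := ⟨hr⟩
  obtain ⟨P, C, hCn, hcomp⟩ := Cfsg.Agent.Lib.ThompsonFpf.npc_of_nilpotent (N := Y) r
  haveI := hCn
  have hidx : C.index = Nat.card P := by
    have h1 := hcomp.card_mul
    have h2 := C.card_mul_index
    exact Nat.eq_of_mul_eq_mul_left Nat.card_pos (h2.trans h1.symm)
  have hPne : (P : Subgroup Y) ≠ ⊥ := P.ne_bot_of_dvd_card h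
  obtain ⟨k, hk⟩ := IsPGroup.iff_card.1 P.isPGroup'
  have hX : commutator Y ⊔ C ≠ ⊤ := by
    intro hX
    let π := QuotientGroup.mk' C
    have hπ : Function.Surjective π := QuotientGroup.mk'_surjective C
    have hbot : C.map π = ⊥ := by
      rw [Subgroup.map_eq_bot_iff, QuotientGroup.ker_mk']
    have h1 : (⊤ : Subgroup (Y ⧸ C)) ≤ ⁅(⊤ : Subgroup (Y ⧸ C)), ⊤⁆ := by
      have h2 : (commutator Y ⊔ C).map π = ⊤ := by
        rw [hX]; exact Subgroup.map_top_of_surjective π hπ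
      rw [Subgroup.map_sup, hbot, sup_bot_eq, commutator_def, Subgroup.map_commutator,
        Subgroup.map_top_of_surjective π hπ] at h2
      rw [h2]
    haveI : Group.IsNilpotent (Y ⧸ C) := nilpotent_of_surjective π hπ
    have h3 := bot_of_le_comm'' ⊤ h1
    have hC : C = ⊤ := by
      rw [eq_top_iff]
      intro y _
      have : π y ∈ (⊤ : Subgroup (Y ⧸ C)) := Subgroup.mem_top _
      rw [h3, Subgroup.mem_bot] at this
      exact (QuotientGroup.eq_one_iff y).1 this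
    rw [hC, Subgroup.index_top] at hidx
    apply hPne
    exact Subgroup.eq_bot_of_card_eq _ hidx.symm
  have h4 : (commutator Y ⊔ C).index ∣ C.index := Subgroup.index_dvd_of_le le_sup_right
  rw [hidx, hk] at h4
  obtain ⟨j, -, hj⟩ := (Nat.dvd_prime_pow hr).1 h4
  have hj0 : j ≠ 0 := by
    rintro rfl
    rw [pow_zero] at hj
    exact hX (Subgroup.index_eq_one.1 hj)
  have h5 : (commutator Y ⊔ C).index ∣ (commutator Y).index :=
    Subgroup.index_dvd_of_le le_sup_left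
  refine dvd_trans ?_ h5
  rw [hj]
  exact dvd_pow_self r hj0

/-- A nilpotent group with abelianization of prime order is abelian. -/
theorem abelian_of_prime_abelianization {Y : Type*} [Group Y] [Finite Y] [Group.IsNilpotent Y]
    (h : (commutator Y).index.Prime) : commutator Y = ⊥ := by
  classical
  set D := commutator Y with hD
  have hDn : D.Normal := inferInstance
  let E : Subgroup Y := ⁅D, ⊤⁆
  have hEn : E.Normal := Subgroup.commutator_normal _ _
  have hED : E ≤ D := Subgroup.commutator_le_left D ⊤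
  let f : (Y ⧸ E) →* (Y ⧸ D) := QuotientGroup.map E D (MonoidHom.id Y) (by simpa using hED)
  haveI : Fact (Nat.card (Y ⧸ D)).Prime := ⟨h⟩
  haveI : IsCyclic (Y ⧸ D) := isCyclic_of_prime_card rfl
  have hfker : f.ker ≤ Subgroup.center (Y ⧸ E) := by
    intro q hq
    obtain ⟨y, rfl⟩ := QuotientGroup.mk_surjective q
    have h1 : (y : Y ⧸ D) = 1 := hq
    have h2 : y ∈ D := (QuotientGroup.eq_one_iff y).1 h1
    rw [Subgroup.mem_center_iff]
    intro q'
    obtain ⟨z, rfl⟩ := QuotientGroup.mk_surjective q'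
    have h3 : ⁅y, z⁆ ∈ E := Subgroup.commutator_mem_commutator h2 (Subgroup.mem_top z)
    have h4 : ((⁅y, z⁆ : Y) : Y ⧸ E) = 1 := (QuotientGroup.eq_one_iff _).2 h3
    have h5 : ((⁅y, z⁆ : Y) : Y ⧸ E) = ⁅(y : Y ⧸ E), (z : Y ⧸ E)⁆ :=
      map_commutatorElement (QuotientGroup.mk' E) y z
    rw [h5, commutatorElement_eq_one_iff_commute] at h4
    exact h4.symm.eq
  have hcomm := commutative_of_cyclic_center_quotient f hfker
  have hDE : D ≤ E := by
    rw [hD, commutator_def, Subgroup.commutator_le]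
    intro a _ b _
    have h4 : ((⁅a, b⁆ : Y) : Y ⧸ E) = 1 := by
      have h5 : ((⁅a, b⁆ : Y) : Y ⧸ E) = ⁅(a : Y ⧸ E), (b : Y ⧸ E)⁆ :=
        map_commutatorElement (QuotientGroup.mk' E) a b
      rw [h5, commutatorElement_eq_one_iff_commute]
      exact hcomm _ _
    exact (QuotientGroup.eq_one_iff _).1 h4
  exact bot_of_le_comm'' D hDE

/-- The order of the image of a subgroup above `H₁` in the quotient by `H₁`. -/
theorem card_map_mk {H₁ N : Subgroup L} [H₁.Normal] (h : H₁ ≤ N) :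
    Nat.card (N.map (QuotientGroup.mk' H₁)) = H₁.relIndex N := by
  have hπ := QuotientGroup.mk'_surjective H₁
  have h1 : (N.map (QuotientGroup.mk' H₁)).index = N.index :=
    Subgroup.index_map_eq N hπ (by rw [QuotientGroup.ker_mk']; exact h)
  have h2 := (N.map (QuotientGroup.mk' H₁)).card_mul_index
  have h3 := Subgroup.relIndex_mul_index h
  have h4 : Nat.card (L ⧸ H₁) = H₁.index := rfl
  rw [h1, h4, ← h3] at h2
  exact Nat.eq_of_mul_eq_mul_right (Nat.pos_of_ne_zero Subgroup.index_ne_zero_of_finite) h2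

/-- In a section with a semiregular action, the index of the kernel divides the order minus one. -/
theorem index_dvd_relIndex_sub_one {K H₁ N : Subgroup L} [K.Normal] [H₁.Normal] [hNn : N.Normal]
    (hH₁N : H₁ ≤ N) (hNK : N ≤ K) (hcomm : ∀ x ∈ K, ∀ y ∈ K, x * y * x⁻¹ * y⁻¹ ∈ H₁)
    (hfrob : ∀ k ∈ K, k ∉ H₁ → ∀ x : L, x * k * x⁻¹ * k⁻¹ ∈ H₁ → x ∈ K) :
    K.index ∣ H₁.relIndex N - 1 := by
  classical
  let π := QuotientGroup.mk' H₁
  have hπ : Function.Surjective π := QuotientGroup.mk'_surjective H₁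
  have hker : π.ker = H₁ := QuotientGroup.ker_mk' H₁
  let Nb : Subgroup (L ⧸ H₁) := N.map π
  haveI hNbn : Nb.Normal := Subgroup.Normal.map hNn π hπ
  letI : Fintype (L ⧸ H₁) := Fintype.ofFinite _
  let α := {c : L ⧸ H₁ // c ∈ Nb ∧ c ≠ 1}
  have hcardα : Nat.card α + 1 = H₁.relIndex N := by
    rw [← card_map_mk hH₁N]
    let e1 : {b : Nb // b ≠ 1} ≃ α :=
      { toFun := fun b => ⟨b.1.1, b.1.2, fun h => b.2 (Subtype.ext h)⟩
        invFun := fun a => ⟨⟨a.1, a.2.1⟩, fun h => a.2.2 (congrArg Subtype.val h)⟩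
        left_inv := fun b => rfl
        right_inv := fun a => rfl }
    rw [← Nat.card_congr e1, ← Nat.card_congr (Equiv.optionSubtypeNe (1 : Nb)), Finite.card_option]
  have hdvd : K.index ∣ Nat.card α := by
    refine Cfsg.Agent.Lib.H6Frobenius.dvd_card_of_fibers (fun a : α => ConjClasses.mk a.1) K.index fun b => ?_
    by_cases hb : ∃ a : α, ConjClasses.mk a.1 = b
    swap
    · have : IsEmpty {a : α // ConjClasses.mk a.1 = b} := ⟨fun a => hb ⟨a.1, a.2⟩⟩
      simp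
    obtain ⟨c₀, rfl⟩ := hb
    obtain ⟨k, hkN, hk⟩ := c₀.2.1
    have hkK := hNK hkN
    have hk1 : k ∉ H₁ := by
      intro h
      apply c₀.2.2
      rw [← hk]
      exact (QuotientGroup.eq_one_iff k).2 h
    have hcent : Subgroup.centralizer ({c₀.1} : Set (L ⧸ H₁)) = K.map π := by
      ext g
      obtain ⟨x, rfl⟩ := hπ g
      rw [Subgroup.mem_centralizer_singleton_iff, ← hk]
      constructor
      · intro h
        refine ⟨x, hfrob k hkK hk1 x ?_, rfl⟩
        rw [← hker, MonoidHom.mem_ker, map_mul, map_mul, map_mul, map_inv, map_inv, h]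
        group
      · rintro ⟨y, hy, hyx⟩
        rw [← hyx, ← map_mul, ← map_mul]
        have h2 : y * k * y⁻¹ * k⁻¹ ∈ π.ker := by
          rw [hker]
          exact hcomm y hy k hkK
        rw [MonoidHom.mem_ker, map_mul, map_mul, map_mul, map_inv, map_inv] at h2
        rw [map_mul, map_mul]
        calc π y * π k = (π y * π k * (π y)⁻¹ * (π k)⁻¹) * (π k * π y) := by group
          _ = π k * π y := by rw [h2, one_mul]
    have h1 : Nat.card {a : α // ConjClasses.mk a.1 = ConjClasses.mk c₀.1} =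
        Nat.card {x : L ⧸ H₁ // IsConj x c₀.1} := by
      refine Nat.card_congr
        { toFun := fun a => ⟨a.1.1, ConjClasses.mk_eq_mk_iff_isConj.1 a.2⟩
          invFun := fun x => ⟨⟨x.1, ?_, ?_⟩, ConjClasses.mk_eq_mk_iff_isConj.2 x.2⟩
          left_inv := fun a => rfl
          right_inv := fun x => rfl }
      · obtain ⟨u, hu⟩ := isConj_iff.1 x.2.symm
        rw [← hu]
        exact hNbn.conj_mem _ c₀.2.1 u
      · intro h
        have h2 := x.2
        rw [h] at h2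
        exact c₀.2.2 (isConj_one_left.1 h2.symm |>.symm ▸ rfl)
    rw [h1, card_class_eq_index, hcent]
    rw [Subgroup.index_map_eq K hπ (by rw [hker]; exact hH₁N.trans hNK)]
  rw [← hcardα]
  simpa using hdvd

/-- A prime power free section gives a normal subgroup strictly in between. -/
theorem exists_between {K H₁ : Subgroup L} [hKn : K.Normal] [hH₁n : H₁.Normal] (hH₁K : H₁ ≤ K)
    (hcomm : ∀ x ∈ K, ∀ y ∈ K, x * y * x⁻¹ * y⁻¹ ∈ H₁) {p q : ℕ} (hp : p.Prime) (hq : q.Prime)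
    (hpq : p ≠ q) (hpd : p ∣ H₁.relIndex K) (hqd : q ∣ H₁.relIndex K) :
    ∃ N : Subgroup L, N.Normal ∧ H₁ < N ∧ N < K := by
  classical
  let π := QuotientGroup.mk' H₁
  have hπ : Function.Surjective π := QuotientGroup.mk'_surjective H₁
  have hker : π.ker = H₁ := QuotientGroup.ker_mk' H₁
  have hC : ∀ x ∈ K, ∀ y ∈ K, Commute (π x) (π y) := by
    intro x hx y hy
    have h2 : x * y * x⁻¹ * y⁻¹ ∈ π.ker := by
      rw [hker]
      exact hcomm x hx y hy
    rw [MonoidHom.mem_ker, map_mul, map_mul, map_mul, map_inv, map_inv] at h2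
    show π x * π y = π y * π x
    calc π x * π y = (π x * π y * (π x)⁻¹ * (π y)⁻¹) * (π y * π x) := by group
      _ = π y * π x := by rw [h2, one_mul]
  let N : Subgroup L :=
    { carrier := {x | x ∈ K ∧ ∃ k ∈ K, π x = (π k) ^ p}
      mul_mem' := by
        rintro a b ⟨ha, k, hk, hak⟩ ⟨hb, l, hl, hbl⟩
        refine ⟨K.mul_mem ha hb, k * l, K.mul_mem hk hl, ?_⟩
        rw [map_mul, map_mul, hak, hbl, (hC k hk l hl).mul_pow]
      one_mem' := ⟨K.one_mem, 1, K.one_mem, by simp⟩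
      inv_mem' := by
        rintro a ⟨ha, k, hk, hak⟩
        refine ⟨K.inv_mem ha, k⁻¹, K.inv_mem hk, ?_⟩
        rw [map_inv, map_inv, hak, inv_pow] }
  have hNmem : ∀ x, x ∈ N ↔ x ∈ K ∧ ∃ k ∈ K, π x = (π k) ^ p := fun x => Iff.rfl
  have hNn : N.Normal := by
    refine ⟨fun x hx g => ?_⟩
    obtain ⟨hxK, k, hk, hxk⟩ := (hNmem x).1 hx
    refine (hNmem _).2 ⟨hKn.conj_mem x hxK g, g * k * g⁻¹, hKn.conj_mem k hk g, ?_⟩
    rw [map_mul, map_mul, map_mul, map_mul, map_inv, hxk, conj_pow]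
  have hH₁N : H₁ ≤ N := by
    intro h hh
    refine (hNmem h).2 ⟨hH₁K hh, 1, K.one_mem, ?_⟩
    rw [map_one, one_pow]
    exact (QuotientGroup.eq_one_iff h).2 hh
  have hNK : N ≤ K := fun x hx => ((hNmem x).1 hx).1
  have hcard := card_map_mk (L := L) hH₁K
  let Kb : Subgroup (L ⧸ H₁) := K.map π
  have hcardb : Nat.card Kb = H₁.relIndex K := hcard
  haveI hfp : Fact p.Prime := ⟨hp⟩
  haveI hfq : Fact q.Prime := ⟨hq⟩
  refine ⟨N, hNn, lt_of_le_of_ne hH₁N ?_, lt_of_le_of_ne hNK ?_⟩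
  · obtain ⟨a, ha⟩ := exists_prime_orderOf_dvd_card' (G := Kb) q (by rw [hcardb]; exact hqd)
    obtain ⟨_, k, hk, rfl⟩ := a
    intro heq
    have hkp : k ^ p ∈ N := (hNmem _).2 ⟨K.pow_mem hk p, k, hk, by rw [map_pow]⟩
    rw [← heq] at hkp
    have h1 : (π k) ^ p = 1 := by
      rw [← map_pow]
      exact (QuotientGroup.eq_one_iff _).2 hkp
    have h2 : (⟨π k, k, hk, rfl⟩ : Kb) ^ p = 1 := Subtype.ext h1
    have h3 := orderOf_dvd_of_pow_eq_one h2
    rw [ha] at h3
    exact hpq ((Nat.prime_dvd_prime_iff_eq hq hp).1 h3).symm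
  · intro heq
    obtain ⟨b, hb⟩ := exists_prime_orderOf_dvd_card' (G := Kb) p (by rw [hcardb]; exact hpd)
    have hsurj : Function.Surjective (fun a : Kb => a ^ p) := by
      rintro ⟨_, k', hk', rfl⟩
      have h1 : k' ∈ N := by rw [heq]; exact hk'
      obtain ⟨-, k, hk, h2⟩ := (hNmem k').1 h1
      exact ⟨⟨π k, k, hk, rfl⟩, Subtype.ext h2.symm⟩
    have hinj := Finite.injective_iff_surjective.2 hsurj
    have h1 : b ^ p = 1 := by rw [← hb]; exact pow_orderOf_eq_one b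
    have h2 : b = 1 := hinj (by simp [h1])
    rw [h2, orderOf_one] at hb
    exact hp.one_lt.ne hb

end Quot

section Frob

variable {L : Type u} [Group L] [Fintype L] {G : Type v} [Group G] [Fintype G]

omit [Fintype L] in
theorem index_comm_quot [Finite L] {K M : Subgroup L} [hKn : K.Normal] (hMK : M ≤ K) [(M.subgroupOf K).Normal] :
    (commutator (↥K ⧸ M.subgroupOf K)).index = (⁅K, K⁆ ⊔ M).relIndex K := by
  let π := QuotientGroup.mk' (M.subgroupOf K)
  have hπ : Function.Surjective π := QuotientGroup.mk'_surjective _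
  have h1 : commutator (↥K ⧸ M.subgroupOf K) = (commutator K).map π := by
    rw [commutator_def, commutator_def, Subgroup.map_commutator, Subgroup.map_top_of_surjective π hπ]
  have h2 : commutator K ⊔ M.subgroupOf K = (⁅K, K⁆ ⊔ M).subgroupOf K := by
    apply Subgroup.map_injective K.subtype_injective
    have hle : ⁅K, K⁆ ⊔ M ≤ K := sup_le (Subgroup.commutator_le_left K K) hMK
    rw [Subgroup.map_sup, Subgroup.map_subgroupOf_eq_of_le hMK, Subgroup.map_subgroupOf_eq_of_le hle,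
      commutator_def, Subgroup.map_commutator, ← MonoidHom.range_eq_map, Subgroup.range_subtype]
  rw [h1, Subgroup.index_map, MonoidHom.range_eq_top.2 hπ, Subgroup.index_top, mul_one,
    QuotientGroup.ker_mk', h2]
  rfl

omit [Fintype L] in
theorem comm_le_of_bot {K M : Subgroup L} [(M.subgroupOf K).Normal]
    (h : commutator (↥K ⧸ M.subgroupOf K) = ⊥) : ⁅K, K⁆ ≤ M := by
  rw [Subgroup.commutator_le]
  intro a ha b hb
  have h1 : ⁅((⟨a, ha⟩ : K) : ↥K ⧸ M.subgroupOf K), ((⟨b, hb⟩ : K) : ↥K ⧸ M.subgroupOf K)⁆ ∈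
      commutator (↥K ⧸ M.subgroupOf K) :=
    Subgroup.commutator_mem_commutator (Subgroup.mem_top _) (Subgroup.mem_top _)
  rw [h, Subgroup.mem_bot] at h1
  have h2 : ((⁅(⟨a, ha⟩ : K), (⟨b, hb⟩ : K)⁆ : K) : ↥K ⧸ M.subgroupOf K) = 1 := by
    rw [← h1]
    exact map_commutatorElement (QuotientGroup.mk' (M.subgroupOf K)) _ _
  have h3 := (QuotientGroup.eq_one_iff _).1 h2
  exact Subgroup.mem_subgroupOf.1 h3

/-- The Frobenius section theorem. -/
theorem coherent_frobenius_section (K : Subgroup L) [hK : K.Normal] (hsolv : Group.IsSolvable K)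
    (τ : (L → ℂ) → (G → ℂ)) (R : (L → ℂ) → Finset (G → ℂ))
    (hS : IsCoherenceSystem (inducedIrrAbove K ⊥) τ R) (hodd : Odd (Nat.card L)) (M : Subgroup L)
    [hMn : M.Normal] (hMK : M ≤ K) [(M.subgroupOf K).Normal]
    (hnil : Group.IsNilpotent (↥K ⧸ M.subgroupOf K)) (H₁ : Subgroup L) (hH₁ : H₁ = ⁅K, K⁆ ⊔ M)
    (hH₁K : H₁ < K) (hfrob : ∀ k ∈ K, k ∉ H₁ → ∀ x : L, x * k * x⁻¹ * k⁻¹ ∈ H₁ → x ∈ K)
    (hgood : (∃ N : Subgroup L, N.Normal ∧ H₁ < N ∧ N < K) ∨ 4 * K.index ^ 2 + 1 < H₁.relIndex K ∨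
      (¬ ∃ p m : ℕ, p.Prime ∧ M.relIndex K = p ^ m) ∨ ⁅K, K⁆ ≤ M ∨
      (∃ p m : ℕ, p.Prime ∧ M.relIndex K = p ^ m ∧ K.index ∣ p - 1)) :
    IsCoherent (inducedIrrAbove K M) {1}ᶜ τ := by
  classical
  haveI hH₁n : H₁.Normal := by
    rw [hH₁]
    exact Subgroup.sup_normal _ _
  have hcK : ⁅K, K⁆ ≤ H₁ := by
    rw [hH₁]
    exact le_sup_left
  have hMH₁ : M ≤ H₁ := by
    rw [hH₁]
    exact le_sup_right
  have hcomm : ∀ x ∈ K, ∀ y ∈ K, x * y * x⁻¹ * y⁻¹ ∈ H₁ := fun x hx y hy =>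
    hcK (Subgroup.commutator_mem_commutator hx hy)
  -- the linear part is coherent
  have hS₁ : IsCoherent (inducedIrrAbove K H₁) {1}ᶜ τ := by
    obtain ⟨l, hl, hl1, hl2, hl3⟩ := exists_linear_above K hsolv H₁ hH₁K
    have hsys := system_mono hS (above_mono K bot_le) ⟨indFun K l, l, hl, hl1, hl3, rfl⟩
      (fun χ hχ => above_conj K hχ)
    apply coherent_of_equal_degrees _ τ R hsys
    have hdeg : ∀ φ ∈ inducedIrrAbove K H₁, φ 1 = (K.index : ℂ) := by
      intro φ hφ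
      obtain ⟨θ, t, h1, h2, h3, h4, h5, h6⟩ := above_degree K hφ
      have h7 : θ 1 = 1 := by
        apply Cfsg.Agent.Lib.CharLinear.degree_one_of_comm h1
        intro x y
        apply h3
        simpa using hcomm _ x.2 _ y.2
      rw [h6, Nat.cast_mul, ← h5, h7]
      simp
    intro φ hφ ψ hψ
    rw [hdeg φ hφ, hdeg ψ hψ]
  have hbig : 4 * K.index ^ 2 + 1 < H₁.relIndex K → IsCoherent (inducedIrrAbove K M) {1}ᶜ τ :=
    fun h => coherent_of_nilpotent_section K hsolv τ R hS M K le_rfl hnil _ H₁ rfl hH₁n hMH₁ hH₁K.le hS₁ h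
  have heodd : Odd K.index := Odd.of_dvd_nat hodd K.index_dvd_card
  have he0 : 0 < K.index := heodd.pos
  have hcop2 : Nat.Coprime 2 K.index := (Nat.coprime_two_left).2 heodd
  -- an odd number above one congruent to one modulo the index is large
  have hlarge : ∀ a : ℕ, Odd a → 1 < a → K.index ∣ a - 1 → 2 * K.index + 1 ≤ a := by
    intro a ha h1 h2
    have h3 : 2 ∣ a - 1 := by
      obtain ⟨b, rfl⟩ := ha
      simp
    have h4 : 2 * K.index ∣ a - 1 := hcop2.mul_dvd_of_dvd_of_dvd h3 h2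
    have h5 := Nat.le_of_dvd (by omega) h4
    omega
  have hmain : (∃ N : Subgroup L, N.Normal ∧ H₁ < N ∧ N < K) →
      IsCoherent (inducedIrrAbove K M) {1}ᶜ τ := by
    rintro ⟨N, hNn, h1, h2⟩
    haveI := hNn
    apply hbig
    have hea : K.index ∣ H₁.relIndex N - 1 :=
      index_dvd_relIndex_sub_one h1.le h2.le hcomm hfrob
    have hec : K.index ∣ H₁.relIndex K - 1 :=
      index_dvd_relIndex_sub_one hH₁K.le le_rfl hcomm hfrob
    have hab := Subgroup.relIndex_mul_relIndex H₁ N K h1.le h2.le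
    have ha1 : 1 < H₁.relIndex N := by
      refine lt_of_le_of_ne (relIndex_pos' _ _) fun h => ?_
      exact absurd (Subgroup.relIndex_eq_one.1 h.symm) (not_le_of_gt h1)
    have hb1 : 1 < N.relIndex K := by
      refine lt_of_le_of_ne (relIndex_pos' _ _) fun h => ?_
      exact absurd (Subgroup.relIndex_eq_one.1 h.symm) (not_le_of_gt h2)
    have haodd : Odd (H₁.relIndex N) := Odd.of_dvd_nat hodd
      ((Subgroup.index_dvd_card (H₁.subgroupOf N)).trans (Subgroup.card_subgroup_dvd_card N))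
    have hbodd : Odd (N.relIndex K) := Odd.of_dvd_nat hodd
      ((Subgroup.index_dvd_card (N.subgroupOf K)).trans (Subgroup.card_subgroup_dvd_card K))
    rw [← hab] at hec ⊢
    generalize H₁.relIndex N = a at *
    generalize N.relIndex K = b at *
    have heb : K.index ∣ b - 1 := by
      have h3 : a * b - 1 = (a - 1) * b + (b - 1) := by
        obtain ⟨a', rfl⟩ : ∃ a', a = a' + 1 := ⟨a - 1, by omega⟩
        obtain ⟨b', rfl⟩ : ∃ b', b = b' + 1 := ⟨b - 1, by omega⟩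
        simp only [Nat.add_sub_cancel]
        have : (a' + 1) * (b' + 1) = a' * (b' + 1) + b' + 1 := by ring
        rw [this]
        simp
      rw [h3] at hec
      exact (Nat.dvd_add_right (Dvd.dvd.mul_right hea b)).1 hec
    have h4 := hlarge a haodd ha1 hea
    have h5 := hlarge b hbodd hb1 heb
    generalize K.index = e at *
    have h6 : (2 * e + 1) * (2 * e + 1) ≤ a * b := Nat.mul_le_mul h4 h5
    nlinarith
  have hM1 : 1 < M.relIndex K := by
    refine lt_of_le_of_ne (relIndex_pos' _ _) fun h => ?_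
    have h1 := Subgroup.relIndex_eq_one.1 h.symm
    exact absurd (h1.trans hMH₁) (not_le_of_gt hH₁K)
  have hindex := index_comm_quot (K := K) hMK
  rw [← hH₁] at hindex
  haveI := hnil
  rcases hgood with h | h | h | h | h
  · exact hmain h
  · exact hbig h
  · apply hmain
    have hc : Nat.card (↥K ⧸ M.subgroupOf K) = M.relIndex K := rfl
    set c := M.relIndex K with hcdef
    have hp : c.minFac.Prime := Nat.minFac_prime (by omega)
    obtain ⟨q, hq, hqd, hqp⟩ : ∃ q : ℕ, q.Prime ∧ q ∣ c ∧ q ≠ c.minFac := by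
      by_contra hcon
      push Not at hcon
      apply h
      exact ⟨c.minFac, _, hp, Nat.eq_prime_pow_of_unique_prime_dvd (by omega) fun {d} hd hdc => hcon d hd hdc⟩
    have h1 := prime_dvd_abelianization (Y := ↥K ⧸ M.subgroupOf K) c.minFac hp (by
      rw [hc]; exact Nat.minFac_dvd c)
    have h2 := prime_dvd_abelianization (Y := ↥K ⧸ M.subgroupOf K) q hq (by rw [hc]; exact hqd)
    rw [hindex] at h1 h2
    exact exists_between hH₁K.le hcomm hp hq hqp.symm h1 h2
  · have : H₁ = M := by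
      rw [hH₁]
      exact sup_eq_right.2 h
    rwa [← this]
  · obtain ⟨p, m, hp, hm, he⟩ := h
    have hA : H₁.relIndex K ∣ p ^ m := by
      rw [← hm]
      exact Subgroup.relIndex_dvd_of_le_left K hMH₁
    obtain ⟨j, -, hj⟩ := (Nat.dvd_prime_pow hp).1 hA
    have hA1 : H₁.relIndex K ≠ 1 := fun h =>
      absurd (Subgroup.relIndex_eq_one.1 h) (not_le_of_gt hH₁K)
    have hj0 : j ≠ 0 := by
      rintro rfl
      exact hA1 (by simpa using hj)
    have hAodd : Odd (H₁.relIndex K) := Odd.of_dvd_nat hodd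
      ((Subgroup.index_dvd_card (H₁.subgroupOf K)).trans (Subgroup.card_subgroup_dvd_card K))
    have hpodd : Odd p := by
      rw [hj] at hAodd
      exact Odd.of_dvd_nat hAodd (dvd_pow_self p hj0)
    have hp2 := hlarge p hpodd hp.one_lt he
    by_cases hj1 : j = 1
    · have hprime : (commutator (↥K ⧸ M.subgroupOf K)).index.Prime := by
        rw [hindex, hj, hj1, pow_one]
        exact hp
      have hb := abelian_of_prime_abelianization hprime
      have h3 := comm_le_of_bot hb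
      have : H₁ = M := by
        rw [hH₁]
        exact sup_eq_right.2 h3
      rwa [← this]
    · apply hbig
      rw [hj]
      have hj2 : 2 ≤ j := by omega
      have h3 : p ^ 2 ≤ p ^ j := Nat.pow_le_pow_right hp.pos hj2
      refine lt_of_lt_of_le ?_ h3
      generalize K.index = e at *
      have h6 : (2 * e + 1) * (2 * e + 1) ≤ p * p := Nat.mul_le_mul hp2 hp2
      nlinarith

end Frob

end Cfsg.Agent.Lib.CoherenceInd
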