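import Mathlib

set_option autoImplicit false

namespace Cfsg.Agent.Lib.ComplLat

variable {G : Type*} [Group G]

theorem main5901 [Finite G] (T X M : Subgroup G)
    (hTX : T ≤ X)
    (hint : ∀ Y : Subgroup G, T ≤ Y → Y ≤ X → ∃ C : Subgroup G, T ≤ C ∧ C ≤ X ∧ Y ⊔ C = X ∧ Y ⊓ C = T)
    (huniq : ∀ M' : Subgroup G, IsCoatom M' → X ≤ M' → M' = M)
    (H : Subgroup G) (hH : ¬ H ≤ M) (hHT : H ⊓ T = ⊥) :
    ∃ C : Subgroup G, H ⊔ C = ⊤ ∧ H ⊓ C = ⊥ := by
  obtain ⟨C, hTC, hCX, hsup, hinf⟩ := hint ((H ⊓ X) ⊔ T) le_sup_right (sup_le inf_le_right hTX)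
  refine ⟨C, ?_, ?_⟩
  · rcases eq_top_or_exists_le_coatom (H ⊔ C) with h | ⟨M', hM', hle⟩
    · exact h
    · exfalso
      have hXle : X ≤ H ⊔ C := by
        rw [← hsup]
        refine sup_le (sup_le (inf_le_left.trans le_sup_left) (hTC.trans le_sup_right)) le_sup_right
      have := huniq M' hM' (hXle.trans hle)
      subst this
      exact hH (le_sup_left.trans hle)
  · rw [eq_bot_iff, ← hHT]
    intro g hg
    refine ⟨hg.1, ?_⟩
    rw [← hinf]
    exact ⟨Subgroup.mem_sup_left ⟨hg.1, hCX hg.2⟩, hg.2⟩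

/-- Conjugating a complement. -/
theorem complement_of_conj (g : G) (H : Subgroup G)
    (h : ∃ C : Subgroup G, H.map (MulAut.conj g).toMonoidHom ⊔ C = ⊤ ∧ H.map (MulAut.conj g).toMonoidHom ⊓ C = ⊥) :
    ∃ C : Subgroup G, H ⊔ C = ⊤ ∧ H ⊓ C = ⊥ := by
  obtain ⟨C, h1, h2⟩ := h
  have hinj : Function.Injective (MulAut.conj g).toMonoidHom := (MulAut.conj g).injective
  have hsurj : Function.Surjective (MulAut.conj g).toMonoidHom := (MulAut.conj g).surjective
  refine ⟨C.comap (MulAut.conj g).toMonoidHom, ?_, ?_⟩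
  · apply Subgroup.map_injective hinj
    rw [Subgroup.map_sup, Subgroup.map_comap_eq_self_of_surjective hsurj, h1, Subgroup.map_top_of_surjective _ hsurj]
  · apply Subgroup.map_injective hinj
    rw [Subgroup.map_inf _ _ _ hinj, Subgroup.map_comap_eq_self_of_surjective hsurj, h2, Subgroup.map_bot]

/-- Interval `[⊥, X]` from the lattice of `X`. -/
theorem hint_of_complemented (X : Subgroup G) (hK : ComplementedLattice (Subgroup X)) :
    ∀ Y : Subgroup G, ⊥ ≤ Y → Y ≤ X → ∃ C : Subgroup G, ⊥ ≤ C ∧ C ≤ X ∧ Y ⊔ C = X ∧ Y ⊓ C = ⊥ := by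
  intro Y _ hY
  obtain ⟨c, hc⟩ := exists_isCompl (Y.subgroupOf X)
  refine ⟨c.map X.subtype, bot_le, ?_, ?_, ?_⟩
  · rintro _ ⟨x, _, rfl⟩
    exact x.2
  · have h1 := congrArg (Subgroup.map X.subtype) hc.sup_eq_top
    rw [Subgroup.map_sup, Subgroup.map_subgroupOf_eq_of_le hY, ← MonoidHom.range_eq_map, Subgroup.range_subtype] at h1
    exact h1
  · have h1 := congrArg (Subgroup.map X.subtype) hc.inf_eq_bot
    rw [Subgroup.map_inf _ _ _ X.subtype_injective, Subgroup.map_subgroupOf_eq_of_le hY, Subgroup.map_bot] at h1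
    exact h1

/-- Interval `[N, X]` from the lattice of `X/N`. -/
theorem hint_of_quotient (X N : Subgroup G) (hNX : N ≤ X) [(N.subgroupOf X).Normal]
    (hK : ComplementedLattice (Subgroup (X ⧸ N.subgroupOf X))) :
    ∀ Y : Subgroup G, N ≤ Y → Y ≤ X → ∃ C : Subgroup G, N ≤ C ∧ C ≤ X ∧ Y ⊔ C = X ∧ Y ⊓ C = N := by
  intro Y hNY hY
  set q : X →* X ⧸ N.subgroupOf X := QuotientGroup.mk' (N.subgroupOf X) with hq
  have hqs : Function.Surjective q := QuotientGroup.mk'_surjective _
  have hker : q.ker = N.subgroupOf X := QuotientGroup.ker_mk' _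
  obtain ⟨c, hc⟩ := exists_isCompl ((Y.subgroupOf X).map q)
  have hYk : q.ker ≤ Y.subgroupOf X := by
    rw [hker]
    intro x hx
    exact hNY hx
  have h1 : Y.subgroupOf X ⊔ c.comap q = ⊤ := by
    have := Subgroup.comap_sup_eq q ((Y.subgroupOf X).map q) c hqs
    rw [Subgroup.comap_map_eq_self hYk, hc.sup_eq_top, Subgroup.comap_top] at this
    exact this
  have h2 : Y.subgroupOf X ⊓ c.comap q = N.subgroupOf X := by
    have := Subgroup.comap_inf ((Y.subgroupOf X).map q) c q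
    rw [Subgroup.comap_map_eq_self hYk, hc.inf_eq_bot] at this
    rw [← this, MonoidHom.comap_bot]
    exact hker
  refine ⟨(c.comap q).map X.subtype, ?_, ?_, ?_, ?_⟩
  · intro n hn
    refine ⟨⟨n, hNX hn⟩, ?_, rfl⟩
    have : (⟨n, hNX hn⟩ : X) ∈ Y.subgroupOf X ⊓ c.comap q := by
      rw [h2]; exact hn
    exact this.2
  · rintro _ ⟨x, _, rfl⟩
    exact x.2
  · have h3 := congrArg (Subgroup.map X.subtype) h1
    rw [Subgroup.map_sup, Subgroup.map_subgroupOf_eq_of_le hY, ← MonoidHom.range_eq_map, Subgroup.range_subtype] at h3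
    exact h3
  · have h3 := congrArg (Subgroup.map X.subtype) h2
    rw [Subgroup.map_inf _ _ _ X.subtype_injective, Subgroup.map_subgroupOf_eq_of_le hY,
      Subgroup.map_subgroupOf_eq_of_le hNX] at h3
    exact h3

theorem main5902 [Finite G] (X M : Subgroup G)
    (hK : ComplementedLattice (Subgroup X))
    (huniq : ∀ M' : Subgroup G, IsCoatom M' → X ≤ M' → M' = M) :
    (∀ H : Subgroup G, ¬ H ≤ M.normalCore → ∃ C : Subgroup G, H ⊔ C = ⊤ ∧ H ⊓ C = ⊥) ∧
    ComplementedLattice (Subgroup (G ⧸ M.normalCore)) := by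
  have part1 : ∀ H : Subgroup G, ¬ H ≤ M.normalCore → ∃ C : Subgroup G, H ⊔ C = ⊤ ∧ H ⊓ C = ⊥ := by
    intro H hH
    obtain ⟨h, hh, hn⟩ := SetLike.not_le_iff_exists.mp hH
    have hn' : ¬ ∀ b : G, b * h * b⁻¹ ∈ M := hn
    push Not at hn'
    obtain ⟨b, hb⟩ := hn'
    apply complement_of_conj b
    apply main5901 ⊥ X M bot_le (hint_of_complemented X hK) huniq
    · intro hle
      exact hb (hle ⟨h, hh, rfl⟩)
    · exact inf_bot_eq _
  refine ⟨part1, ⟨fun a => ?_⟩⟩
  set q : G →* G ⧸ M.normalCore := QuotientGroup.mk' M.normalCore with hq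
  have hqs : Function.Surjective q := QuotientGroup.mk'_surjective _
  by_cases ha : a = ⊥
  · exact ⟨⊤, by rw [ha]; exact isCompl_bot_top⟩
  · have hle : ¬ a.comap q ≤ M.normalCore := by
      intro hle
      apply ha
      rw [eq_bot_iff]
      intro z hz
      obtain ⟨g, rfl⟩ := hqs z
      have : g ∈ M.normalCore := hle hz
      rw [Subgroup.mem_bot]
      exact (QuotientGroup.eq_one_iff g).mpr this
    obtain ⟨C, h1, h2⟩ := part1 _ hle
    refine ⟨C.map q, IsCompl.of_eq ?_ ?_⟩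
    · rw [eq_bot_iff]
      rintro z ⟨hz1, ⟨c, hc, rfl⟩⟩
      have hc1 : c ∈ a.comap q ⊓ C := ⟨hz1, hc⟩
      rw [h2, Subgroup.mem_bot] at hc1
      rw [hc1, map_one]
      exact Subgroup.one_mem _
    · have h3 := congrArg (Subgroup.map q) h1
      rw [Subgroup.map_sup, Subgroup.map_comap_eq_self_of_surjective hqs,
        Subgroup.map_top_of_surjective _ hqs] at h3
      exact h3

theorem main5903 [Finite G] [IsSimpleGroup G] (X M N : Subgroup G)
    (huniq : ∀ M' : Subgroup G, IsCoatom M' → X ≤ M' → M' = M)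
    (hNX : N ≤ X) (hN : (Nat.card N).Prime) (hcen : ∀ n ∈ N, ∀ m ∈ M, m * n = n * m)
    [(N.subgroupOf X).Normal] (hK : ComplementedLattice (Subgroup (X ⧸ N.subgroupOf X))) :
    ComplementedLattice (Subgroup G) := by
  refine ⟨fun H => ?_⟩
  suffices h : ∃ C : Subgroup G, H ⊔ C = ⊤ ∧ H ⊓ C = ⊥ by
    obtain ⟨C, h1, h2⟩ := h
    exact ⟨C, IsCompl.of_eq h2 h1⟩
  by_cases hex : ∃ g : G, ¬ H.map (MulAut.conj g).toMonoidHom ≤ M ∧
      H.map (MulAut.conj g).toMonoidHom ⊓ N = ⊥
  · obtain ⟨g, h1, h2⟩ := hex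
    apply complement_of_conj g
    exact main5901 N X M hNX (hint_of_quotient X N hNX hK) huniq _ h1 h2
  · push Not at hex
    -- H is normal
    have hprime : ∀ K : Subgroup G, K ⊓ N ≠ ⊥ → N ≤ K := by
      intro K hKN n hn
      rcases Subgroup.bot_or_exists_ne_one (K ⊓ N) with h | ⟨x, hx, hx1⟩
      · exact absurd h hKN
      · haveI : Fact (Nat.card N).Prime := ⟨hN⟩
        have hx1' : (⟨x, hx.2⟩ : N) ≠ 1 := fun h => hx1 (congrArg Subtype.val h)
        obtain ⟨k, hk⟩ := mem_zpowers_of_prime_card (G := N) rfl (g' := ⟨n, hn⟩) hx1'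
        have hn' : n = x ^ k := (congrArg Subtype.val hk).symm
        rw [hn']
        exact K.zpow_mem hx.1 k
    have hNbot : N ≠ ⊥ := by
      rintro rfl
      rw [Subgroup.card_bot] at hN
      exact Nat.not_prime_one hN
    have hcore : N ≤ (Subgroup.normalizer (H : Set G)).normalCore := by
      intro n hn b
      by_cases hle : H.map (MulAut.conj b⁻¹).toMonoidHom ≤ M
      · apply Subgroup.centralizer_le_normalizer
        rw [Subgroup.mem_centralizer_iff]
        intro h hh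
        have hm : b⁻¹ * h * b ∈ M := hle ⟨h, hh, by simp⟩
        have h1 := hcen n hn _ hm
        calc h * (b * n * b⁻¹) = b * ((b⁻¹ * h * b) * n) * b⁻¹ := by group
          _ = b * (n * (b⁻¹ * h * b)) * b⁻¹ := by rw [h1]
          _ = b * n * b⁻¹ * h := by group
      · have h5 := hprime _ (hex b⁻¹ hle) hn
        obtain ⟨h, hh, hh'⟩ := h5
        apply Subgroup.le_normalizer
        have : b * n * b⁻¹ = h := by
          rw [← hh']
          simp only [MulEquiv.toMonoidHom_eq_coe, MonoidHom.coe_coe, MulAut.conj_apply, inv_inv]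
          group
        rw [this]
        exact hh
    have hcore_top : (Subgroup.normalizer (H : Set G)).normalCore = ⊤ := by
      rcases (Subgroup.normalCore_normal (Subgroup.normalizer (H : Set G))).eq_bot_or_eq_top with h | h
      · rw [h] at hcore
        exact absurd (le_bot_iff.mp hcore) hNbot
      · exact h
    have hntop : Subgroup.normalizer (H : Set G) = ⊤ := by
      rw [eq_top_iff, ← hcore_top]
      exact Subgroup.normalCore_le _
    have hHn : H.Normal := Subgroup.normalizer_eq_top_iff.mp hntop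
    rcases hHn.eq_bot_or_eq_top with h | h
    · exact ⟨⊤, by rw [h]; simp, by rw [h]; simp⟩
    · exact ⟨⊥, by rw [h]; simp, by rw [h]; simp⟩

end Cfsg.Agent.Lib.ComplLat
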