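import Cfsg.Agent.Lib.ConjFamily

/-! # Counting the union of the conjugates of a subgroup -/

set_option linter.all false

namespace Cfsg.Agent.Lib.ConjCover

open Cfsg.Agent.Lib.ConjFamily

variable {G : Type*} [Group G] [Finite G]

/-- The union of the conjugates of `M`. -/
def U (M : Subgroup G) : Set G := {x | ∃ g : G, x ∈ cj g M}

theorem one_mem_U (M : Subgroup G) : (1 : G) ∈ U M := ⟨1, Subgroup.one_mem _⟩

theorem card_ne_one {α : Type*} [Finite α] (a : α) : Nat.card {m : α // m ≠ a} = Nat.card α - 1 := by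
  classical
  haveI := Fintype.ofFinite α
  rw [Nat.card_eq_fintype_card, Nat.card_eq_fintype_card, Fintype.card_subtype_compl]
  simp

theorem ncard_U_le (M : Subgroup G) :
    (U M).ncard ≤ 1 + (Subgroup.normalizer (M : Set G)).index * (Nat.card M - 1) := by
  classical
  set N := Subgroup.normalizer (M : Set G) with hN
  let f : (G ⧸ N) × {m : M // m ≠ 1} → G := fun q => q.1.out * (q.2.1 : G) * q.1.out⁻¹
  have hsub : U M ⊆ {1} ∪ f '' Set.univ := by
    rintro x ⟨g, hg⟩
    by_cases hx : x = 1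
    · left; exact hx
    right
    have hy : g⁻¹ * x * g ∈ M := mem_cj.1 hg
    let q : G ⧸ N := (g : G ⧸ N)
    have hq : (q.out : G ⧸ N) = g := QuotientGroup.out_eq' q
    have hn : g⁻¹ * q.out ∈ N := by
      have := QuotientGroup.eq.1 hq.symm
      exact this
    set n := g⁻¹ * q.out with hndef
    have hn' : n⁻¹ ∈ N := N.inv_mem hn
    have hm : n⁻¹ * (g⁻¹ * x * g) * n⁻¹⁻¹ ∈ M := (Subgroup.mem_normalizer_iff.1 hn' _).1 hy
    have hmne : (⟨n⁻¹ * (g⁻¹ * x * g) * n⁻¹⁻¹, hm⟩ : M) ≠ 1 := by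
      intro h
      have h1 : n⁻¹ * (g⁻¹ * x * g) * n⁻¹⁻¹ = 1 := congrArg Subtype.val h
      apply hx
      have h2 : g⁻¹ * x * g = 1 := by
        have : g⁻¹ * x * g = n * (n⁻¹ * (g⁻¹ * x * g) * n⁻¹⁻¹) * n⁻¹ := by group
        rw [this, h1]; group
      have : x = g * (g⁻¹ * x * g) * g⁻¹ := by group
      rw [this, h2]; group
    refine ⟨(q, ⟨⟨_, hm⟩, hmne⟩), Set.mem_univ _, ?_⟩
    show q.out * (n⁻¹ * (g⁻¹ * x * g) * n⁻¹⁻¹) * q.out⁻¹ = x
    rw [hndef]; group
  calc (U M).ncard ≤ ({1} ∪ f '' Set.univ).ncard := Set.ncard_le_ncard hsub (Set.toFinite _)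
    _ ≤ ({1} : Set G).ncard + (f '' Set.univ).ncard := Set.ncard_union_le _ _
    _ ≤ 1 + (f '' Set.univ).ncard := by rw [Set.ncard_singleton]
    _ ≤ 1 + (Set.univ : Set ((G ⧸ N) × {m : M // m ≠ 1})).ncard := by
        gcongr
        exact Set.ncard_image_le (Set.toFinite _)
    _ = 1 + N.index * (Nat.card M - 1) := by
        rw [Set.ncard_univ, Nat.card_prod, card_ne_one]
        rfl

/-- The counting form used for covers: if `M` is a proper subgroup of its normalizer then its
conjugates cover at most about half of the group. -/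
theorem two_mul_ncard_U_le (M : Subgroup G) (h : ¬ Subgroup.normalizer (M : Set G) ≤ M) :
    2 * (U M).ncard + 2 * (Subgroup.normalizer (M : Set G)).index ≤ 2 + Nat.card G := by
  set N := Subgroup.normalizer (M : Set G) with hN
  have h1 := ncard_U_le M
  rw [← hN] at h1
  have hMN : M ≤ N := Subgroup.le_normalizer
  have hMpos : 0 < Nat.card M := Nat.card_pos
  have hidx : N.index * Nat.card N = Nat.card G := Subgroup.index_mul_card N
  -- `|N| ≥ 2 |M|`
  have h2 : 2 * Nat.card M ≤ Nat.card N := by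
    have hd : Nat.card M ∣ Nat.card N := Subgroup.card_dvd_of_le hMN
    obtain ⟨k, hk⟩ := hd
    have hk1 : k ≠ 1 := by
      rintro rfl
      rw [mul_one] at hk
      exact h (le_of_eq (Subgroup.eq_of_le_of_card_ge hMN hk.le).symm)
    have hk0 : k ≠ 0 := by
      rintro rfl
      have : 0 < Nat.card N := Nat.card_pos
      omega
    have : 2 ≤ k := by omega
    rw [hk, mul_comm]
    exact Nat.mul_le_mul_left _ this
  have h3 : N.index * (2 * Nat.card M) ≤ Nat.card G := by
    rw [← hidx]; exact Nat.mul_le_mul_left _ h2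
  have h4 : N.index * (Nat.card M - 1) + N.index = N.index * Nat.card M := by
    rw [← Nat.mul_succ]
    congr 1
    omega
  nlinarith

end Cfsg.Agent.Lib.ConjCover
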