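import Mathlib

/-! Coprime Maschke for abelian groups: an invariant subgroup with a complement has an invariant complement. -/

namespace Cfsg.Agent.Lib.CoprimeMaschke

variable {M : Type*} [CommGroup M] [Finite M] {A : Type*} [Group A] [Fintype A]

theorem exists_invariant_complement (φ : A →* MulAut M) (hcop : (Fintype.card A).Coprime (Nat.card M))
    (U W : Subgroup M) (hU : ∀ a, ∀ u ∈ U, φ a u ∈ U) (h1 : U ⊓ W = ⊥) (h2 : U ⊔ W = ⊤) :
    ∃ W' : Subgroup M, (∀ a, ∀ w ∈ W', φ a w ∈ W') ∧ U ⊓ W' = ⊥ ∧ U ⊔ W' = ⊤ := by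
  classical
  -- the projection onto `U`
  have hdec : ∀ v : M, ∃ u ∈ U, ∃ w ∈ W, u * w = v := by
    intro v
    have : v ∈ U ⊔ W := by rw [h2]; trivial
    exact Subgroup.mem_sup.mp this
  choose π₀ hπU w₀ hw₀ hπ using hdec
  have huniq : ∀ (u u' : M) (w w' : M), u ∈ U → u' ∈ U → w ∈ W → w' ∈ W → u * w = u' * w' → u = u' := by
    intro u u' w w' hu hu' hw hw' h
    have h3 : u' ⁻¹ * u = w' * w⁻¹ := by
      calc u'⁻¹ * u = u'⁻¹ * (u * w) * w⁻¹ := by group
        _ = u'⁻¹ * (u' * w') * w⁻¹ := by rw [h]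
        _ = _ := by group
    have h4 : u'⁻¹ * u ∈ U ⊓ W := by
      refine Subgroup.mem_inf.mpr ⟨U.mul_mem (U.inv_mem hu') hu, ?_⟩
      rw [h3]
      exact W.mul_mem hw' (W.inv_mem hw)
    rw [h1, Subgroup.mem_bot] at h4
    exact (inv_mul_eq_one.mp h4).symm
  have hπmul : ∀ x y, π₀ (x * y) = π₀ x * π₀ y := by
    intro x y
    refine huniq _ _ (w₀ (x * y)) (w₀ x * w₀ y) (hπU _) (U.mul_mem (hπU x) (hπU y)) (hw₀ _)
      (W.mul_mem (hw₀ x) (hw₀ y)) ?_
    rw [hπ]
    calc x * y = (π₀ x * w₀ x) * (π₀ y * w₀ y) := by rw [hπ, hπ]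
      _ = _ := by rw [mul_mul_mul_comm]
  have hπid : ∀ u ∈ U, π₀ u = u := by
    intro u hu
    refine huniq _ _ (w₀ u) 1 (hπU u) hu (hw₀ u) W.one_mem ?_
    rw [hπ, mul_one]
  let f : M →* M :=
    { toFun := fun v => ∏ a : A, φ a (π₀ ((φ a)⁻¹ v))
      map_one' := by
        apply Finset.prod_eq_one
        intro a _
        have : π₀ 1 = 1 := hπid 1 U.one_mem
        rw [map_one, this, map_one]
      map_mul' := by
        intro x y
        rw [← Finset.prod_mul_distrib]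
        refine Finset.prod_congr rfl fun a _ => ?_
        rw [map_mul, hπmul, map_mul] }
  have hf : ∀ v, f v = ∏ a : A, φ a (π₀ ((φ a)⁻¹ v)) := fun v => rfl
  have hfU : ∀ v, f v ∈ U := by
    intro v
    rw [hf]
    exact Subgroup.prod_mem _ fun a _ => hU a _ (hπU _)
  have hfu : ∀ u ∈ U, f u = u ^ Fintype.card A := by
    intro u hu
    rw [hf]
    have : ∀ a ∈ (Finset.univ : Finset A), φ a (π₀ ((φ a)⁻¹ u)) = u := by
      intro a _
      have h3 : (φ a)⁻¹ u = φ a⁻¹ u := by rw [map_inv]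
      have h4 : (φ a)⁻¹ u ∈ U := by
        rw [h3]
        exact hU _ _ hu
      rw [hπid _ h4]
      rw [← MulAut.mul_apply]
      simp
    rw [Finset.prod_congr rfl this]
    simp
  have hfeq : ∀ b v, f (φ b v) = φ b (f v) := by
    intro b v
    rw [hf, hf, map_prod]
    refine Fintype.prod_equiv (Equiv.mulLeft b⁻¹) _ _ fun a => ?_
    have h3 : (φ a)⁻¹ (φ b v) = (φ (b⁻¹ * a))⁻¹ v := by
      rw [map_mul, map_inv]
      simp [mul_inv_rev, MulAut.mul_apply]
    rw [h3]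
    show _ = φ b (φ (b⁻¹ * a) (π₀ ((φ (b⁻¹ * a))⁻¹ v)))
    rw [← MulAut.mul_apply, ← map_mul]
    simp
  have hcop' : (Nat.card M).Coprime (Fintype.card A) := hcop.symm
  have hinj : Function.Injective (fun x : M => x ^ Fintype.card A) := (powCoprime hcop').injective
  refine ⟨f.ker, ?_, ?_, ?_⟩
  · intro a w hw
    rw [MonoidHom.mem_ker] at hw ⊢
    rw [hfeq, hw, map_one]
  · rw [eq_bot_iff]
    intro x hx
    obtain ⟨h3, h4⟩ := Subgroup.mem_inf.mp hx
    rw [MonoidHom.mem_ker, hfu x h3] at h4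
    rw [Subgroup.mem_bot]
    exact hinj (by simpa using h4)
  · rw [eq_top_iff]
    intro v _
    have hU' : (Nat.card U).Coprime (Fintype.card A) :=
      Nat.Coprime.coprime_dvd_left (Subgroup.card_subgroup_dvd_card U) hcop'
    obtain ⟨u, hu⟩ := (powCoprime hU').surjective ⟨f v, hfU v⟩
    have h5 : (u : M) ^ Fintype.card A = f v := congrArg Subtype.val hu
    have h6 : (u : M)⁻¹ * v ∈ f.ker := by
      rw [MonoidHom.mem_ker, map_mul, map_inv, hfu _ u.2, h5]
      simp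
    exact Subgroup.mem_sup.mpr ⟨u, u.2, _, h6, by simp⟩

end Cfsg.Agent.Lib.CoprimeMaschke
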