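import Mathlib
import Cfsg.Agent.Lib.SchurZ2
import Cfsg.Agent.Lib.CoprimeMaschke
import Cfsg.Agent.Lib.CoprimeGen
import Cfsg.Agent.Lib.H6PGroup

/-!
Maximal invariant subgroups under a coprime action.
-/

set_option autoImplicit false
set_option linter.all false

namespace Cfsg.Agent.Lib.CoprimeMaxInv

open scoped Pointwise

/-- A subgroup of an elementary abelian group has a complement. -/
theorem exists_compl_elem {V : Type*} [CommGroup V] [Finite V] {p : ℕ} [hp : Fact p.Prime]
    (hexp : ∀ x : V, x ^ p = 1) (U : Subgroup V) : ∃ W : Subgroup V, U ⊓ W = ⊥ ∧ U ⊔ W = ⊤ := by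
  classical
  have hfin : {W : Subgroup V | U ⊓ W = ⊥}.Finite := Set.toFinite _
  obtain ⟨W, -, hW⟩ := hfin.exists_le_maximal (a := ⊥) (by simp)
  refine ⟨W, hW.prop, ?_⟩
  by_contra hne
  obtain ⟨x, hx⟩ : ∃ x, x ∉ U ⊔ W := by
    by_contra hcon
    push_neg at hcon
    exact hne (eq_top_iff.2 fun y _ => hcon y)
  have hxW : x ∉ W := fun h => hx (Subgroup.mem_sup_right h)
  have hW' : U ⊓ (W ⊔ Subgroup.zpowers x) = ⊥ := by
    rw [eq_bot_iff]
    rintro y ⟨hyU, hyW⟩
    obtain ⟨w, hw, u, ⟨i, rfl⟩, rfl⟩ := Subgroup.mem_sup.1 hyW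
    simp only at hyU ⊢
    by_cases hpi : (p : ℤ) ∣ i
    · obtain ⟨k, rfl⟩ := hpi
      have hone : x ^ ((p : ℤ) * k) = 1 := by rw [zpow_mul, zpow_natCast, hexp, one_zpow]
      rw [hone, mul_one] at hyU ⊢
      have : w ∈ U ⊓ W := ⟨hyU, hw⟩
      rw [hW.prop] at this
      exact this
    · exfalso
      have hcop : IsCoprime (p : ℤ) i := by
        have hprime : Prime (p : ℤ) := Nat.prime_iff_prime_int.1 hp.out
        exact (hprime.irreducible.coprime_iff_not_dvd).2 hpi
      obtain ⟨a, b, hab⟩ := hcop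
      have e : x = (x ^ i) ^ b := by
        have h1 : x ^ (a * (p : ℤ) + b * i) = x := by rw [hab, zpow_one]
        have e1 : x ^ (a * (p : ℤ)) = 1 := by rw [mul_comm, zpow_mul, zpow_natCast, hexp, one_zpow]
        have e2 : x ^ (b * i) = (x ^ i) ^ b := by rw [mul_comm, zpow_mul]
        rw [zpow_add, e1, one_mul, e2] at h1
        exact h1.symm
      apply hx
      rw [e]
      apply Subgroup.zpow_mem
      have h2 : x ^ i = w⁻¹ * (w * x ^ i) := by group
      rw [h2]
      exact (U ⊔ W).mul_mem (Subgroup.mem_sup_right (W.inv_mem hw)) (Subgroup.mem_sup_left hyU)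
  have hle : W ≤ W ⊔ Subgroup.zpowers x := le_sup_left
  have := hW.le_of_ge hW' hle
  exact hxW (this (Subgroup.mem_sup_right (Subgroup.mem_zpowers x)))

variable {A G : Type*} [Group A] [Group G] [MulDistribMulAction A G]

/-- Invariant subgroups. -/
def IsInv (A : Type*) {G : Type*} [Group A] [Group G] [MulDistribMulAction A G]
    (L : Subgroup G) : Prop := ∀ a : A, ∀ x ∈ L, a • x ∈ L

/-- Maximal invariant subgroups. -/
def IsMaxInv (A : Type*) {G : Type*} [Group A] [Group G] [MulDistribMulAction A G]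
    (M : Subgroup G) : Prop :=
  M ≠ ⊤ ∧ (∀ a : A, ∀ x ∈ M, a • x ∈ M) ∧
    ∀ L : Subgroup G, M < L → (∀ a : A, ∀ x ∈ L, a • x ∈ L) → L = ⊤

theorem inv_sup {L₁ L₂ : Subgroup G} (h1 : IsInv A L₁) (h2 : IsInv A L₂) : IsInv A (L₁ ⊔ L₂) := by
  intro a x hx
  have hle : (L₁ ⊔ L₂).map (MulDistribMulAction.toMulAut A G a).toMonoidHom ≤ L₁ ⊔ L₂ := by
    rw [Subgroup.map_sup]
    apply sup_le_sup
    · rintro _ ⟨y, hy, rfl⟩
      exact h1 a y hy
    · rintro _ ⟨y, hy, rfl⟩
      exact h2 a y hy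
  exact hle ⟨x, hx, rfl⟩

theorem frattini_inv : IsInv A (frattini G) := by
  intro a x hx
  have hc : (frattini G).Characteristic := inferInstance
  have h2 := (Subgroup.characteristic_iff_map_le.1 hc) (MulDistribMulAction.toMulAut A G a)
  exact h2 ⟨x, hx, rfl⟩

theorem exists_max [Finite G] {L : Subgroup G} (hL : L ≠ ⊤) (hinv : IsInv A L) :
    ∃ M : Subgroup G, L ≤ M ∧ IsMaxInv A M := by
  classical
  have hfin : {X : Subgroup G | X ≠ ⊤ ∧ IsInv A X}.Finite := Set.toFinite _
  obtain ⟨M, hLM, hM⟩ := hfin.exists_le_maximal (a := L) ⟨hL, hinv⟩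
  refine ⟨M, hLM, hM.prop.1, hM.prop.2, fun X hX hXinv => ?_⟩
  by_contra hne
  exact absurd (hM.le_of_ge ⟨hne, hXinv⟩ hX.le) (not_le_of_gt hX)

/-- An invariant Sylow subgroup under a coprime action. -/
theorem exists_inv_sylow [Finite A] [Finite G] (hcop : (Nat.card A).Coprime (Nat.card G))
    (hsol : Group.IsSolvable A ∨ Group.IsSolvable G) (q : ℕ) [Fact q.Prime] :
    ∃ P : Subgroup G, IsPGroup q P ∧ ¬ q ∣ P.index ∧ IsInv A P := by
  classical
  let φ : A →* MulAut G := MulDistribMulAction.toMulAut A G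
  let S := SemidirectProduct G A φ
  let inl : G →* S := SemidirectProduct.inl
  let inr : A →* S := SemidirectProduct.inr
  have hinl : Function.Injective inl := SemidirectProduct.inl_injective
  have hinr : Function.Injective inr := SemidirectProduct.inr_injective
  let K : Subgroup S := inl.range
  let A' : Subgroup S := inr.range
  haveI : Finite S := Finite.of_equiv _ SemidirectProduct.equivProd.symm
  haveI hKn : K.Normal := by
    have : inl.range = SemidirectProduct.rightHom.ker := SemidirectProduct.range_inl_eq_ker_rightHom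
    show inl.range.Normal
    rw [this]
    infer_instance
  let eK : G ≃* K := MonoidHom.ofInjective hinl
  let eA : A ≃* A' := MonoidHom.ofInjective hinr
  have hcK : Nat.card K = Nat.card G := Nat.card_congr eK.symm.toEquiv
  have hcA : Nat.card A' = Nat.card A := Nat.card_congr eA.symm.toEquiv
  have hAK : A' ≤ Subgroup.normalizer (K : Set S) := by
    rw [Subgroup.normalizer_eq_top K]
    exact le_top
  have hs : Group.IsSolvable K ∨ Group.IsSolvable A' := by
    rcases hsol with h | h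
    · right
      exact Group.isSolvable_of_surjective (f := eA.toMonoidHom) eA.surjective
    · left
      exact Group.isSolvable_of_surjective (f := eK.toMonoidHom) eK.surjective
  obtain ⟨P, hP⟩ := Cfsg.Agent.Lib.SchurZ2.exists_invariant_sylow A' K hAK
    (by rw [hcK, hcA]; exact hcop.symm) hs q
  let P₁ : Subgroup S := (P : Subgroup K).map K.subtype
  let P' : Subgroup G := P₁.comap inl
  have hP₁le : P₁ ≤ inl.range := by
    rintro _ ⟨y, -, rfl⟩
    exact y.2
  have hmapP' : P'.map inl = P₁ := Subgroup.map_comap_eq_self hP₁le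
  have hcardP' : Nat.card P' = Nat.card P := by
    calc Nat.card P' = Nat.card (P'.map inl) := (Subgroup.card_map_of_injective hinl).symm
      _ = Nat.card P₁ := by rw [hmapP']
      _ = Nat.card P := Subgroup.card_map_of_injective K.subtype_injective
  refine ⟨P', ?_, ?_, ?_⟩
  · rw [IsPGroup.iff_card]
    obtain ⟨k, hk⟩ := IsPGroup.iff_card.1 P.isPGroup'
    exact ⟨k, by rw [hcardP']; exact hk⟩
  · have h1 := P.not_dvd_index
    have h2 : P'.index = (P : Subgroup K).index := by
      have e1 := Subgroup.card_mul_index P'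
      have e2 := Subgroup.card_mul_index (P : Subgroup K)
      rw [hcK, ← e1, hcardP'] at e2
      exact (Nat.eq_of_mul_eq_mul_left Nat.card_pos e2).symm
    rwa [h2]
  · intro a x hx
    have h3 : inl x ∈ P₁ := hx
    have h4 := (Subgroup.mem_normalizer_iff.1 (hP (⟨a, rfl⟩ : inr a ∈ A')) (inl x)).1 h3
    show inl (a • x) ∈ P₁
    have h5 : inl (a • x) = inr a * inl x * (inr a)⁻¹ := by
      have := SemidirectProduct.inl_aut (φ := φ) a x
      rw [← map_inv]
      exact this
    rw [h5]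
    exact h4

section Main

variable [Finite A] [Finite G]

theorem sup_frattini_ne_top {M : Subgroup G} (hM : M ≠ ⊤) : M ⊔ frattini G ≠ ⊤ :=
  fun h => hM (frattini_nongenerating h)

/-- Under the hypothesis on the Frattini subgroup, the maximal invariant subgroups are exactly
the Frattini subgroup. -/
theorem maxInv_iff (hF : ∀ L : Subgroup G, frattini G < L → (∀ a : A, ∀ x ∈ L, a • x ∈ L) → L = ⊤)
    (M : Subgroup G) : IsMaxInv A M ↔ (M = frattini G ∧ M ≠ ⊤) := by
  constructor
  · rintro ⟨hne, hinv, hmax⟩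
    have h1 : M ≤ frattini G := by
      by_contra hcon
      have h2 : frattini G < M ⊔ frattini G := by
        refine lt_of_le_of_ne le_sup_right fun h => hcon ?_
        rw [h]
        exact le_sup_left
      exact sup_frattini_ne_top hne (hF _ h2 (inv_sup hinv (frattini_inv)))
    have h3 : frattini G ≠ ⊤ := by
      intro h
      have h4 : M ⊔ frattini G = ⊤ := by rw [h]; simp
      exact sup_frattini_ne_top hne h4
    refine ⟨le_antisymm h1 ?_, hne⟩
    by_contra hcon
    exact h3 (hmax _ (lt_of_le_of_ne h1 fun h => hcon h.ge) frattini_inv)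
  · rintro ⟨rfl, hne⟩
    exact ⟨hne, frattini_inv, hF⟩

/-- The forward direction. -/
theorem forward (hcop : (Nat.card A).Coprime (Nat.card G))
    (hsol : Group.IsSolvable A ∨ Group.IsSolvable G)
    (hconj : ∀ M N : Subgroup G, IsMaxInv A M → IsMaxInv A N →
      ∃ c : G, (∀ a : A, a • c = c) ∧ N = MulAut.conj c • M) :
    (∃ p : ℕ, p.Prime ∧ IsPGroup p G) ∧
      ∀ L : Subgroup G, frattini G < L → (∀ a : A, ∀ x ∈ L, a • x ∈ L) → L = ⊤ := by
  classical
  by_cases hG : Nontrivial G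
  swap
  · rw [not_nontrivial_iff_subsingleton] at hG
    refine ⟨⟨2, Nat.prime_two, ?_⟩, fun L _ _ => Subsingleton.elim _ _⟩
    intro g
    exact ⟨0, Subsingleton.elim _ _⟩
  have hbot : (⊥ : Subgroup G) ≠ ⊤ := bot_ne_top
  have hbinv : IsInv A (⊥ : Subgroup G) := by
    intro a x hx
    rw [Subgroup.mem_bot] at hx ⊢
    rw [hx, smul_one]
  obtain ⟨M₀, -, hM₀⟩ := exists_max (A := A) hbot hbinv
  have hp : ∃ p : ℕ, p.Prime ∧ IsPGroup p G := by
    by_contra hnp
    push_neg at hnp
    apply hM₀.1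
    rw [← Subgroup.index_eq_one]
    by_contra hi
    set q := M₀.index.minFac with hq
    have hqp : q.Prime := Nat.minFac_prime hi
    haveI : Fact q.Prime := ⟨hqp⟩
    have hqd : q ∣ M₀.index := Nat.minFac_dvd _
    obtain ⟨P, hPq, hPi, hPinv⟩ := exists_inv_sylow (A := A) hcop hsol q
    have hPne : P ≠ ⊤ := by
      intro hx
      apply hnp q hqp
      intro g
      obtain ⟨k, hk⟩ := hPq ⟨g, hx ▸ Subgroup.mem_top g⟩
      exact ⟨k, by simpa using congrArg Subtype.val hk⟩
    obtain ⟨M', hPM', hM'⟩ := exists_max hPne hPinv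
    obtain ⟨c, -, hc⟩ := hconj M' M₀ hM' hM₀
    have hcard : Nat.card M₀ = Nat.card M' := by
      rw [hc]
      exact Nat.card_congr (Subgroup.equivSMul _ _).symm.toEquiv
    have hdvd : Nat.card P ∣ Nat.card M₀ := by
      rw [hcard]
      exact Subgroup.card_dvd_of_le hPM'
    obtain ⟨t, ht⟩ := hdvd
    have e1 := Subgroup.card_mul_index P
    have e2 := Subgroup.card_mul_index M₀
    rw [ht, ← e1, mul_assoc] at e2
    have e3 : P.index = t * M₀.index := (Nat.eq_of_mul_eq_mul_left Nat.card_pos e2).symm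
    exact hPi (e3 ▸ Dvd.dvd.mul_left hqd t)
  refine ⟨hp, ?_⟩
  obtain ⟨p, hpp, hpG⟩ := hp
  haveI : Fact p.Prime := ⟨hpp⟩
  intro L hL hLinv
  by_contra hLne
  obtain ⟨M₁, hLM₁, hM₁⟩ := exists_max hLne hLinv
  have hΦM₁ : frattini G ≤ M₁ := hL.le.trans hLM₁
  have hM₁n : M₁.Normal := by
    refine ⟨fun x hx g => ?_⟩
    have h1 : g * x * g⁻¹ * x⁻¹ ∈ M₁ := hΦM₁ (Cfsg.Agent.Lib.H6PGroup.comm_mem_frattini hpG g x)
    have h2 : g * x * g⁻¹ = (g * x * g⁻¹ * x⁻¹) * x := by group
    rw [h2]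
    exact M₁.mul_mem h1 hx
  have huniq : ∀ N : Subgroup G, IsMaxInv A N → N = M₁ := by
    intro N hN
    obtain ⟨c, -, hc⟩ := hconj M₁ N hM₁ hN
    rw [hc]
    ext x
    rw [Subgroup.mem_pointwise_smul_iff_inv_smul_mem]
    simp only [MulAut.smul_def, MulAut.conj_inv_apply]
    constructor
    · intro h
      have := hM₁n.conj_mem _ h c
      simpa [mul_assoc] using this
    · intro h
      exact hM₁n.conj_mem _ h c⁻¹ |> fun h' => by simpa [mul_assoc] using h'
  -- the quotient by the Frattini subgroup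
  let Φ := frattini G
  haveI hΦn : Φ.Normal := inferInstance
  let ρ : A →* MulAut G := MulDistribMulAction.toMulAut A G
  have hρ : ∀ a : A, ∀ n ∈ Φ, ρ a n ∈ Φ := fun a n hn => frattini_inv a n hn
  have hcomm : ∀ x y : G ⧸ Φ, x * y = y * x := by
    intro x y
    induction x using QuotientGroup.induction_on with
    | H x =>
      induction y using QuotientGroup.induction_on with
      | H y =>
        rw [← QuotientGroup.mk_mul, ← QuotientGroup.mk_mul, QuotientGroup.eq]
        have h1 := Cfsg.Agent.Lib.H6PGroup.comm_mem_frattini hpG y⁻¹ x⁻¹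
        have h2 : (x * y)⁻¹ * (y * x) = y⁻¹ * x⁻¹ * y⁻¹⁻¹ * x⁻¹⁻¹ := by group
        rw [h2]
        exact h1
  letI instC : CommGroup (G ⧸ Φ) := { (inferInstance : Group (G ⧸ Φ)) with mul_comm := hcomm }
  let ρ' : A →* MulAut (G ⧸ Φ) := Cfsg.Agent.Lib.CoprimeGen.quotρ ρ Φ hρ
  have hρ' : ∀ (a : A) (x : G), ρ' a (x : G ⧸ Φ) = ((a • x : G) : G ⧸ Φ) := fun a x => rfl
  letI : Fintype A := Fintype.ofFinite A
  have hcop' : (Fintype.card A).Coprime (Nat.card (G ⧸ Φ)) := by
    rw [← Nat.card_eq_fintype_card]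
    have h1 : Nat.card (G ⧸ Φ) ∣ Nat.card G := Subgroup.card_quotient_dvd_card _
    exact Nat.Coprime.coprime_dvd_right h1 hcop
  let mk : G →* G ⧸ Φ := QuotientGroup.mk' Φ
  have hmk : Function.Surjective mk := QuotientGroup.mk'_surjective Φ
  let U : Subgroup (G ⧸ Φ) := M₁.map mk
  have hexp : ∀ x : G ⧸ Φ, x ^ p = 1 := by
    intro x
    induction x using QuotientGroup.induction_on with
    | H x =>
      rw [← QuotientGroup.mk_pow, QuotientGroup.eq_one_iff]
      exact Cfsg.Agent.Lib.H6PGroup.pow_mem_frattini hpG x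
  obtain ⟨W, hW1, hW2⟩ := exists_compl_elem hexp U
  have hU : ∀ a, ∀ u ∈ U, ρ' a u ∈ U := by
    rintro a _ ⟨m, hm, rfl⟩
    exact ⟨a • m, hM₁.2.1 a m hm, rfl⟩
  obtain ⟨W', hW'inv, hW'1, hW'2⟩ :=
    Cfsg.Agent.Lib.CoprimeMaschke.exists_invariant_complement ρ' hcop' U W hU hW1 hW2
  let W₁ : Subgroup G := W'.comap mk
  have hW₁inv : IsInv A W₁ := by
    intro a x hx
    exact hW'inv a _ hx
  have hUnebot : U ≠ ⊥ := by
    intro h
    have h3 : M₁ ≤ Φ := by
      intro m hm
      have h4 : mk m ∈ U := ⟨m, hm, rfl⟩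
      rw [h, Subgroup.mem_bot] at h4
      exact (QuotientGroup.eq_one_iff m).1 h4
    exact absurd (hLM₁.trans h3) (not_le_of_gt hL)
  have hW₁ne : W₁ ≠ ⊤ := by
    intro h
    have hW'top : W' = ⊤ := by
      rw [eq_top_iff]
      intro x _
      obtain ⟨y, rfl⟩ := hmk x
      have : y ∈ W₁ := by rw [h]; trivial
      exact this
    rw [hW'top, inf_top_eq] at hW'1
    exact hUnebot hW'1
  obtain ⟨N₁, hW₁N₁, hN₁⟩ := exists_max hW₁ne hW₁inv
  rw [huniq N₁ hN₁] at hW₁N₁
  have hW'U : W' ≤ U := by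
    intro x hx
    obtain ⟨y, rfl⟩ := hmk x
    exact ⟨y, hW₁N₁ hx, rfl⟩
  have hUtop : U = ⊤ := by
    rw [← hW'2, sup_eq_left.2 hW'U]
  apply hM₁.1
  rw [eq_top_iff]
  intro x _
  have hx : mk x ∈ U := by rw [hUtop]; trivial
  obtain ⟨m, hm, hmx⟩ := hx
  have h5 : m⁻¹ * x ∈ Φ := QuotientGroup.eq.1 hmx
  have h6 : x = m * (m⁻¹ * x) := by group
  rw [h6]
  exact M₁.mul_mem hm (hΦM₁ h5)

end Main

end Cfsg.Agent.Lib.CoprimeMaxInv
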