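import Mathlib

/-! Eigenspaces of elementary abelian subgroups in cross characteristic. -/

set_option autoImplicit false

namespace Cfsg.Agent.Lib.CrossChar

open Matrix

section basic
variable {F : Type*} [Field F] [Fintype F] {K₁ : Type*} [Field K₁] {ι : Type*} [Fintype ι] [DecidableEq ι]

open Classical in
theorem sum_dot {ψ : AddChar F K₁} (hψ : ψ.IsPrimitive) (a : ι → F) :
    (∑ v : ι → F, ψ (a ⬝ᵥ v)) = if a = 0 then ((Fintype.card (ι → F) : ℕ) : K₁) else 0 := by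
  classical
  by_cases ha : a = 0
  · subst ha
    simp
  · rw [if_neg ha]
    obtain ⟨i, hi⟩ := Function.ne_iff.1 ha
    have h := hψ hi
    obtain ⟨x, hx⟩ := AddChar.ne_one_iff.1 h
    have e : a ⬝ᵥ (Pi.single i x) = a i * x := by simp
    have hx' : ψ (a ⬝ᵥ (Pi.single i x)) ≠ 1 := by
      rw [e]; exact hx
    refine eq_zero_of_mul_eq_self_left hx' ?_
    rw [Finset.mul_sum]
    refine Fintype.sum_equiv (Equiv.addLeft (Pi.single i x)) _ _ fun y => ?_
    simp only [Equiv.coe_addLeft]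
    rw [dotProduct_add, AddChar.map_add_eq_mul]

variable {Γ : Type*} [Group Γ] {d : ℕ}

/-- The eigenprojection (up to a scalar) of the character `v ↦ ψ(a·v)`. -/
noncomputable def eig (ψ : AddChar F K₁) (ρ : Γ →* GL (Fin d) K₁) (u : (ι → F) → Γ) (a : ι → F) :
    Matrix (Fin d) (Fin d) K₁ :=
  ∑ v : ι → F, ψ (-(a ⬝ᵥ v)) • ((ρ (u v) : GL (Fin d) K₁) : Matrix (Fin d) (Fin d) K₁)

variable {ψ : AddChar F K₁} {ρ : Γ →* GL (Fin d) K₁} {u : (ι → F) → Γ}

theorem u_zero (hadd : ∀ v w, u (v + w) = u v * u w) : u 0 = 1 := by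
  have h := hadd 0 0
  rw [add_zero] at h
  exact (mul_eq_left.1 h.symm)

theorem mul_eig (hadd : ∀ v w, u (v + w) = u v * u w) (w a : ι → F) :
    ((ρ (u w) : GL (Fin d) K₁) : Matrix (Fin d) (Fin d) K₁) * eig ψ ρ u a = ψ (a ⬝ᵥ w) • eig ψ ρ u a := by
  unfold eig
  rw [Finset.mul_sum, Finset.smul_sum]
  refine Fintype.sum_equiv (Equiv.addLeft w) _ _ fun v => ?_
  simp only [Equiv.coe_addLeft]
  rw [Matrix.mul_smul, smul_smul, ← AddChar.map_add_eq_mul, dotProduct_add, hadd, map_mul, Units.val_mul]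
  congr 2
  ring

open Classical in
theorem eig_mulVec_eq (hψ : ψ.IsPrimitive) (b a : ι → F) (x : Fin d → K₁)
    (hx : ∀ v, ((ρ (u v) : GL (Fin d) K₁) : Matrix (Fin d) (Fin d) K₁) *ᵥ x = ψ (a ⬝ᵥ v) • x) :
    eig ψ ρ u b *ᵥ x = (if a = b then ((Fintype.card (ι → F) : ℕ) : K₁) else 0) • x := by
  classical
  unfold eig
  rw [Matrix.sum_mulVec]
  have h1 : ∀ v : ι → F, (ψ (-(b ⬝ᵥ v)) • ((ρ (u v) : GL (Fin d) K₁) : Matrix (Fin d) (Fin d) K₁)) *ᵥ x =
      ψ ((a - b) ⬝ᵥ v) • x := by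
    intro v
    rw [Matrix.smul_mulVec, hx, smul_smul, ← AddChar.map_add_eq_mul, sub_dotProduct]
    congr 2
    ring
  rw [Finset.sum_congr rfl (fun v _ => h1 v), ← Finset.sum_smul, sum_dot hψ]
  by_cases hab : a = b
  · simp [hab]
  · rw [if_neg (sub_ne_zero.2 hab), if_neg hab]

theorem sum_eig (hψ : ψ.IsPrimitive) (hadd : ∀ v w, u (v + w) = u v * u w) :
    ∑ a : ι → F, eig ψ ρ u a = ((Fintype.card (ι → F) : ℕ) : K₁) • (1 : Matrix (Fin d) (Fin d) K₁) := by
  classical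
  unfold eig
  rw [Finset.sum_comm]
  rw [Finset.sum_congr rfl (g := fun v => (∑ a : ι → F, ψ (a ⬝ᵥ (-v))) •
    ((ρ (u v) : GL (Fin d) K₁) : Matrix (Fin d) (Fin d) K₁))]
  · have h1 : ∀ v : ι → F, (∑ a : ι → F, ψ (a ⬝ᵥ (-v))) = if v = 0 then ((Fintype.card (ι → F) : ℕ) : K₁) else 0 := by
      intro v
      have h2 := sum_dot hψ (-v)
      simp only [neg_eq_zero] at h2
      rw [← h2]
      refine Finset.sum_congr rfl fun a _ => ?_
      rw [dotProduct_comm]
    simp only [h1]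
    rw [Finset.sum_eq_single 0]
    · simp [u_zero hadd]
    · intro v _ hv
      simp [hv]
    · simp
  · intro v _
    rw [← Finset.sum_smul]
    congr 1
    refine Finset.sum_congr rfl fun a _ => ?_
    rw [dotProduct_neg]

/-- The number of occurring characters is at most the degree. -/
theorem card_support_le (hψ : ψ.IsPrimitive) (hadd : ∀ v w, u (v + w) = u v * u w)
    (hq : ((Fintype.card (ι → F) : ℕ) : K₁) ≠ 0) (S : Finset (ι → F)) (hS : ∀ a ∈ S, eig ψ ρ u a ≠ 0) :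
    S.card ≤ d := by
  classical
  have hne : ∀ a : S, ∃ w : Fin d → K₁, eig ψ ρ u (a : ι → F) *ᵥ w ≠ 0 := by
    intro a
    by_contra hcon
    push Not at hcon
    apply hS a a.2
    apply Matrix.toLin'.injective
    ext1 w
    ext i
    simp [hcon]
  choose w hw using hne
  let x : S → Fin d → K₁ := fun a => eig ψ ρ u (a : ι → F) *ᵥ w a
  have hxeig : ∀ (a : S) (v : ι → F), ((ρ (u v) : GL (Fin d) K₁) : Matrix (Fin d) (Fin d) K₁) *ᵥ x a =
      ψ ((a : ι → F) ⬝ᵥ v) • x a := by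
    intro a v
    change ((ρ (u v) : GL (Fin d) K₁) : Matrix (Fin d) (Fin d) K₁) *ᵥ (eig ψ ρ u (a : ι → F) *ᵥ w a) = _
    rw [Matrix.mulVec_mulVec, mul_eig hadd, Matrix.smul_mulVec]
  have hli : LinearIndependent K₁ x := by
    rw [Fintype.linearIndependent_iff]
    intro c hc b
    have h1 := congrArg (fun y => eig ψ ρ u (b : ι → F) *ᵥ y) hc
    simp only [Matrix.mulVec_zero, Matrix.mulVec_sum, Matrix.mulVec_smul] at h1
    have h2 : ∀ a : S, c a • (eig ψ ρ u (b : ι → F) *ᵥ x a) =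
        (if a = b then c a * ((Fintype.card (ι → F) : ℕ) : K₁) else 0) • x a := by
      intro a
      rw [eig_mulVec_eq hψ _ _ _ (hxeig a)]
      by_cases hab : a = b
      · subst hab
        simp [smul_smul]
      · have : (a : ι → F) ≠ b := fun h => hab (Subtype.ext h)
        simp [hab, this]
    rw [Finset.sum_congr rfl (fun a _ => h2 a), Finset.sum_eq_single b] at h1
    · simp only [if_true, smul_eq_zero, mul_eq_zero] at h1
      rcases h1 with (h | h) | h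
      · exact h
      · exact absurd h hq
      · exact absurd h (hw b)
    · intro a _ hab
      simp [hab]
    · simp
  have h := hli.fintype_card_le_finrank
  simpa using h

/-- Conjugation moves the eigenprojections. -/
theorem eig_ne_zero_of_conj {g : Γ} {T : (ι → F) ≃ (ι → F)} (hT : ∀ v, g * u v * g⁻¹ = u (T v))
    {a b : ι → F} (hab : ∀ v, b ⬝ᵥ T v = a ⬝ᵥ v) (ha : eig ψ ρ u a ≠ 0) : eig ψ ρ u b ≠ 0 := by
  intro hb
  apply ha
  have h1 : ((ρ g : GL (Fin d) K₁) : Matrix (Fin d) (Fin d) K₁) * eig ψ ρ u a *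
      ((ρ g⁻¹ : GL (Fin d) K₁) : Matrix (Fin d) (Fin d) K₁) = eig ψ ρ u b := by
    unfold eig
    rw [Finset.mul_sum, Finset.sum_mul]
    refine Fintype.sum_equiv T _ _ fun v => ?_
    rw [Matrix.mul_smul, Matrix.smul_mul, hab, ← hT, map_mul, map_mul, Units.val_mul, Units.val_mul]
  rw [hb] at h1
  have h2 : ((ρ g : GL (Fin d) K₁) : Matrix (Fin d) (Fin d) K₁)⁻¹ * (((ρ g : GL (Fin d) K₁) : Matrix (Fin d) (Fin d) K₁) * eig ψ ρ u a *
      ((ρ g⁻¹ : GL (Fin d) K₁) : Matrix (Fin d) (Fin d) K₁)) * ((ρ g : GL (Fin d) K₁) : Matrix (Fin d) (Fin d) K₁) = eig ψ ρ u a := by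
    have e1 : ((ρ g⁻¹ : GL (Fin d) K₁) : Matrix (Fin d) (Fin d) K₁) * ((ρ g : GL (Fin d) K₁) : Matrix (Fin d) (Fin d) K₁) = 1 := by
      rw [← Units.val_mul, ← map_mul]; simp
    have e2 : (((ρ g : GL (Fin d) K₁) : Matrix (Fin d) (Fin d) K₁))⁻¹ * ((ρ g : GL (Fin d) K₁) : Matrix (Fin d) (Fin d) K₁) = 1 := by
      apply Matrix.nonsing_inv_mul
      exact (Matrix.isUnit_iff_isUnit_det _).1 (ρ g).isUnit
    calc _ = ((((ρ g : GL (Fin d) K₁) : Matrix (Fin d) (Fin d) K₁))⁻¹ * ((ρ g : GL (Fin d) K₁) : Matrix (Fin d) (Fin d) K₁)) * eig ψ ρ u a *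
        (((ρ g⁻¹ : GL (Fin d) K₁) : Matrix (Fin d) (Fin d) K₁) * ((ρ g : GL (Fin d) K₁) : Matrix (Fin d) (Fin d) K₁)) := by
          simp only [mul_assoc]
      _ = _ := by rw [e1, e2, one_mul, mul_one]
  rw [← h2, h1]
  simp

/-- A nontrivially acting `u w` gives a character nontrivial on `w`. -/
theorem exists_eig_ne_zero (hψ : ψ.IsPrimitive) (hadd : ∀ v w, u (v + w) = u v * u w)
    (hq : ((Fintype.card (ι → F) : ℕ) : K₁) ≠ 0) {w : ι → F} (hw : ρ (u w) ≠ 1) :
    ∃ a, eig ψ ρ u a ≠ 0 ∧ a ⬝ᵥ w ≠ 0 := by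
  by_contra hcon
  push Not at hcon
  apply hw
  have h1 : ∀ a : ι → F, ((ρ (u w) : GL (Fin d) K₁) : Matrix (Fin d) (Fin d) K₁) * eig ψ ρ u a = eig ψ ρ u a := by
    intro a
    rw [mul_eig hadd]
    by_cases ha : eig ψ ρ u a = 0
    · simp [ha]
    · rw [hcon a ha]; simp
  have h2 := sum_eig (ρ := ρ) hψ hadd
  have h3 : ((ρ (u w) : GL (Fin d) K₁) : Matrix (Fin d) (Fin d) K₁) * (((Fintype.card (ι → F) : ℕ) : K₁) • (1 : Matrix (Fin d) (Fin d) K₁)) =
      ((Fintype.card (ι → F) : ℕ) : K₁) • (1 : Matrix (Fin d) (Fin d) K₁) := by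
    rw [← h2, Finset.mul_sum]
    exact Finset.sum_congr rfl fun a _ => h1 a
  rw [Matrix.mul_smul, mul_one] at h3
  have h4 := smul_right_injective _ hq h3
  exact Units.ext h4

end basic

section sl
variable {F : Type*} [Field F] {ι : Type*} [Fintype ι] [DecidableEq ι]

/-- Two vectors with the same nonzero coordinate are in one `SL` orbit. -/
theorem sl_move_coord {a b : ι → F} {k : ι} (hk : a k = b k) (h0 : a k ≠ 0) :
    ∃ A : Matrix.SpecialLinearGroup ι F, (A : Matrix ι ι F) *ᵥ a = b := by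
  let y : ι → F := Pi.single k (a k)⁻¹
  let x : ι → F := b - a
  have hyx : y ⬝ᵥ x = 0 := by
    simp [y, x, hk, sub_self]
  have hya : y ⬝ᵥ a = 1 := by
    simp [y, h0]
  refine ⟨⟨1 + vecMulVec x y, ?_⟩, ?_⟩
  · rw [Matrix.vecMulVec_eq Unit, Matrix.det_one_add_replicateCol_mul_replicateRow, hyx, add_zero]
  · change (1 + vecMulVec x y) *ᵥ a = b
    rw [Matrix.add_mulVec, Matrix.one_mulVec, Matrix.vecMulVec_mulVec]
    ext i
    simp [hya, x]

/-- `SL` (in degree at least two) is transitive on nonzero vectors. -/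
theorem sl_transitive (hι : 2 ≤ Fintype.card ι) {a b : ι → F} (ha : a ≠ 0) (hb : b ≠ 0) :
    ∃ A : Matrix.SpecialLinearGroup ι F, (A : Matrix ι ι F) *ᵥ a = b := by
  have key : ∀ {a b : ι → F} {j k : ι}, j ≠ k → a j ≠ 0 → b k ≠ 0 →
      ∃ A : Matrix.SpecialLinearGroup ι F, (A : Matrix ι ι F) *ᵥ a = b := by
    intro a b j k hjk haj hbk
    let c : ι → F := Function.update a k (b k)
    have h1 : c j = a j := Function.update_of_ne hjk _ _
    have h2 : c k = b k := Function.update_self _ _ _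
    obtain ⟨A, hA⟩ := sl_move_coord (a := a) (b := c) (k := j) h1.symm haj
    obtain ⟨B, hB⟩ := sl_move_coord (a := c) (b := b) (k := k) h2 (by rw [h2]; exact hbk)
    refine ⟨B * A, ?_⟩
    rw [Matrix.SpecialLinearGroup.coe_mul, ← Matrix.mulVec_mulVec, hA, hB]
  obtain ⟨j, hj⟩ := Function.ne_iff.1 ha
  obtain ⟨k, hk⟩ := Function.ne_iff.1 hb
  by_cases hjk : j = k
  · subst hjk
    obtain ⟨i, hi⟩ : ∃ i, i ≠ j := by
      have : Nontrivial ι := Fintype.one_lt_card_iff_nontrivial.1 (by omega)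
      exact exists_ne j
    obtain ⟨A, hA⟩ := key (a := a) (b := Pi.single i 1) hi.symm hj (by simp)
    obtain ⟨B, hB⟩ := key (a := Pi.single i 1) (b := b) hi (by simp) hk
    refine ⟨B * A, ?_⟩
    rw [Matrix.SpecialLinearGroup.coe_mul, ← Matrix.mulVec_mulVec, hA, hB]
  · exact key hjk hj hk

variable (F ι) in
/-- A column vector as a matrix. -/
def colM (v : ι → F) : Matrix ι Unit F := Matrix.of fun i _ => v i

/-- The elementary abelian subgroup in `SL(ι ⊕ 1)`. -/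
def uB (v : ι → F) : Matrix.SpecialLinearGroup (ι ⊕ Unit) F :=
  ⟨Matrix.fromBlocks 1 (colM F ι v) 0 1, by simp [Matrix.det_fromBlocks_zero₂₁]⟩

/-- The opposite elementary abelian subgroup. -/
def lB (v : ι → F) : Matrix.SpecialLinearGroup (ι ⊕ Unit) F :=
  ⟨Matrix.fromBlocks 1 0 (colM F ι v).transpose 1, by simp [Matrix.det_fromBlocks_zero₁₂]⟩

/-- The Levi factor in `SL(ι ⊕ 1)`. -/
def gB (A : Matrix.SpecialLinearGroup ι F) : Matrix.SpecialLinearGroup (ι ⊕ Unit) F :=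
  ⟨Matrix.fromBlocks (A : Matrix ι ι F) 0 0 1, by simp [Matrix.det_fromBlocks_zero₂₁]⟩

theorem uB_add (v w : ι → F) : uB (v + w) = uB v * uB w := by
  apply Subtype.ext
  change Matrix.fromBlocks 1 (colM F ι (v + w)) 0 1 =
    Matrix.fromBlocks 1 (colM F ι v) 0 1 * Matrix.fromBlocks 1 (colM F ι w) 0 1
  rw [Matrix.fromBlocks_multiply]
  simp only [Matrix.one_mul, Matrix.mul_one, Matrix.zero_mul, Matrix.mul_zero, add_zero, zero_add]
  congr 1
  ext i j
  simp [colM, add_comm]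

theorem gB_mul_uB (A : Matrix.SpecialLinearGroup ι F) (v : ι → F) :
    gB A * uB v * (gB A)⁻¹ = uB ((A : Matrix ι ι F) *ᵥ v) := by
  rw [mul_inv_eq_iff_eq_mul]
  apply Subtype.ext
  change Matrix.fromBlocks (A : Matrix ι ι F) 0 0 1 * Matrix.fromBlocks 1 (colM F ι v) 0 1 =
    Matrix.fromBlocks 1 (colM F ι ((A : Matrix ι ι F) *ᵥ v)) 0 1 * Matrix.fromBlocks (A : Matrix ι ι F) 0 0 1
  rw [Matrix.fromBlocks_multiply, Matrix.fromBlocks_multiply]
  simp only [Matrix.one_mul, Matrix.mul_one, Matrix.zero_mul, Matrix.mul_zero, add_zero, zero_add]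
  congr 1

theorem uB_not_comm (v w : ι → F) (h : w ⬝ᵥ v ≠ 0) : uB v * lB w ≠ lB w * uB v := by
  intro hc
  have h1 := congrArg (fun M : Matrix.SpecialLinearGroup (ι ⊕ Unit) F =>
    (M : Matrix (ι ⊕ Unit) (ι ⊕ Unit) F) (Sum.inr ()) (Sum.inr ())) hc
  change ((Matrix.fromBlocks 1 (colM F ι v) 0 1 * Matrix.fromBlocks 1 0 (colM F ι w).transpose 1 : Matrix (ι ⊕ Unit) (ι ⊕ Unit) F)) (Sum.inr ()) (Sum.inr ()) =
    ((Matrix.fromBlocks 1 0 (colM F ι w).transpose 1 * Matrix.fromBlocks 1 (colM F ι v) 0 1 : Matrix (ι ⊕ Unit) (ι ⊕ Unit) F)) (Sum.inr ()) (Sum.inr ()) at h1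
  rw [Matrix.fromBlocks_multiply, Matrix.fromBlocks_multiply] at h1
  simp only [Matrix.one_mul, Matrix.mul_one, Matrix.zero_mul, Matrix.mul_zero, add_zero, zero_add, Matrix.fromBlocks_apply₂₂] at h1
  have h2 : ((colM F ι w).transpose * colM F ι v) () () = w ⬝ᵥ v := by
    simp [colM, Matrix.mul_apply, dotProduct]
  simp only [Matrix.add_apply, h2] at h1
  apply h
  have h3 : (1 : Matrix Unit Unit F) () () = 1 := by simp
  simp only [h3] at h1
  linear_combination -h1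

end sl

section bound

variable {F : Type*} [Field F] [Fintype F] {K₁ : Type*} [Field K₁] {ι : Type*} [Fintype ι] [DecidableEq ι]

/-- The block form of the cross characteristic bound. -/
theorem sl_bound {ψ : AddChar F K₁} (hψ : ψ.IsPrimitive) (hι : 2 ≤ Fintype.card ι)
    (hq : ((Fintype.card (ι → F) : ℕ) : K₁) ≠ 0) {d : ℕ}
    (ρ : Matrix.SpecialLinearGroup (ι ⊕ Unit) F →* GL (Fin d) K₁)
    (hker : ∀ x, ρ x = 1 → x ∈ Subgroup.center _) :
    Fintype.card (ι → F) - 1 ≤ d := by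
  classical
  have hadd : ∀ v w : ι → F, uB v * uB w = uB (v + w) := fun v w => (uB_add v w).symm
  have hne : Nonempty ι := Fintype.card_pos_iff.1 (by omega)
  obtain ⟨i₀⟩ := hne
  let v₀ : ι → F := Pi.single i₀ 1
  have hv₀ : ρ (uB v₀) ≠ 1 := by
    intro h
    have h1 := hker _ h
    have h2 := Subgroup.mem_center_iff.1 h1 (lB v₀)
    refine uB_not_comm v₀ v₀ ?_ h2.symm
    simp [v₀]
  obtain ⟨a, ha, hav⟩ := exists_eig_ne_zero (ρ := ρ) (u := uB) hψ (fun v w => uB_add v w) hq hv₀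
  have ha0 : a ≠ 0 := by
    rintro rfl
    simp at hav
  have hall : ∀ b : ι → F, b ≠ 0 → eig ψ ρ uB b ≠ 0 := by
    intro b hb
    obtain ⟨B, hB⟩ := sl_transitive hι hb ha0
    let A : Matrix.SpecialLinearGroup ι F := ⟨(B : Matrix ι ι F).transpose, by simp⟩
    let T : (ι → F) ≃ (ι → F) :=
      { toFun := fun v => (A : Matrix ι ι F) *ᵥ v
        invFun := fun v => ((A⁻¹ : Matrix.SpecialLinearGroup ι F) : Matrix ι ι F) *ᵥ v
        left_inv := fun v => by
          change ((A⁻¹ : Matrix.SpecialLinearGroup ι F) : Matrix ι ι F) *ᵥ ((A : Matrix ι ι F) *ᵥ v) = v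
          rw [Matrix.mulVec_mulVec, ← Matrix.SpecialLinearGroup.coe_mul]
          simp
        right_inv := fun v => by
          change (A : Matrix ι ι F) *ᵥ (((A⁻¹ : Matrix.SpecialLinearGroup ι F) : Matrix ι ι F) *ᵥ v) = v
          rw [Matrix.mulVec_mulVec, ← Matrix.SpecialLinearGroup.coe_mul]
          simp }
    refine eig_ne_zero_of_conj (g := gB A) (T := T) (a := a) (b := b) (fun v => gB_mul_uB A v) ?_ ha
    intro v
    change b ⬝ᵥ ((B : Matrix ι ι F).transpose *ᵥ v) = a ⬝ᵥ v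
    rw [Matrix.dotProduct_mulVec, Matrix.vecMul_transpose, hB]
  have h := card_support_le (ρ := ρ) (u := uB) hψ (fun v w => uB_add v w) hq
    (Finset.univ.erase (0 : ι → F)) (fun b hb => hall b (Finset.ne_of_mem_erase hb))
  rw [Finset.card_erase_of_mem (Finset.mem_univ _), Finset.card_univ] at h
  exact h

/-- Transport of `SL` along a bijection of the index set. -/
def slReindex {m n : Type*} [Fintype m] [Fintype n] [DecidableEq m] [DecidableEq n] (e : m ≃ n) :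
    Matrix.SpecialLinearGroup m F →* Matrix.SpecialLinearGroup n F where
  toFun A := ⟨Matrix.reindex e e (A : Matrix m m F), by
    rw [Matrix.det_reindex_self]; exact A.2⟩
  map_one' := by
    apply Subtype.ext
    simp
  map_mul' A B := by
    apply Subtype.ext
    change Matrix.reindex e e ((A : Matrix m m F) * (B : Matrix m m F)) =
      Matrix.reindex e e (A : Matrix m m F) * Matrix.reindex e e (B : Matrix m m F)
    simp [Matrix.reindex_apply, Matrix.submatrix_mul_equiv]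

theorem slReindex_injective {m n : Type*} [Fintype m] [Fintype n] [DecidableEq m] [DecidableEq n] (e : m ≃ n) :
    Function.Injective (slReindex (F := F) e) := by
  intro A B h
  have h1 := congrArg (fun X : Matrix.SpecialLinearGroup n F => (X : Matrix n n F)) h
  apply Subtype.ext
  exact (Matrix.reindex e e).injective h1

end bound

section sp
variable {F : Type*} [Field F] {l : Type*} [Fintype l] [DecidableEq l]

theorem upper_mem {S : Matrix l l F} (hS : Sᵀ = S) :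
    Matrix.fromBlocks 1 S 0 1 ∈ Matrix.symplecticGroup l F := by
  rw [SymplecticGroup.mem_iff]
  unfold J
  rw [fromBlocks_transpose, fromBlocks_multiply, fromBlocks_multiply]
  simp [hS]

theorem levi_mem {M N : Matrix l l F} (h : M * Nᵀ = 1) :
    Matrix.fromBlocks M 0 0 N ∈ Matrix.symplecticGroup l F := by
  have h' : N * Mᵀ = 1 := by
    have := congrArg Matrix.transpose h
    simpa [Matrix.transpose_mul] using this
  rw [SymplecticGroup.mem_iff]
  unfold J
  rw [fromBlocks_transpose, fromBlocks_multiply, fromBlocks_multiply]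
  simp [h, h']

/-- The symmetric matrix supported on one row and column. -/
def Sv (i₀ : l) (v : l → F) : Matrix l l F :=
  vecMulVec (Pi.single i₀ 1) v + vecMulVec v (Pi.single i₀ 1) -
    (v i₀) • vecMulVec (Pi.single i₀ 1) (Pi.single i₀ 1)

theorem Sv_transpose (i₀ : l) (v : l → F) : (Sv i₀ v)ᵀ = Sv i₀ v := by
  simp only [Sv, transpose_sub, transpose_add, transpose_smul, transpose_vecMulVec]
  rw [add_comm]

theorem Sv_add (i₀ : l) (v w : l → F) : Sv i₀ (v + w) = Sv i₀ v + Sv i₀ w := by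
  simp only [Sv, add_vecMulVec, vecMulVec_add, Pi.add_apply, add_smul]
  abel

theorem Sv_apply (i₀ j : l) (v : l → F) : Sv i₀ v i₀ j = v j := by
  by_cases hj : j = i₀
  · subst hj
    simp [Sv, vecMulVec_apply]
  · simp [Sv, vecMulVec_apply, hj]

/-- The abelian subgroup of `Sp` attached to one row. -/
def spU (i₀ : l) (v : l → F) : Matrix.symplecticGroup l F :=
  ⟨Matrix.fromBlocks 1 (Sv i₀ v) 0 1, upper_mem (Sv_transpose i₀ v)⟩

/-- A Levi element of `Sp`. -/
def spL {M N : Matrix l l F} (h : M * Nᵀ = 1) : Matrix.symplecticGroup l F :=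
  ⟨Matrix.fromBlocks M 0 0 N, levi_mem h⟩

theorem spU_add (i₀ : l) (v w : l → F) : spU i₀ (v + w) = spU i₀ v * spU i₀ w := by
  apply Subtype.ext
  change Matrix.fromBlocks 1 (Sv i₀ (v + w)) 0 1 =
    Matrix.fromBlocks 1 (Sv i₀ v) 0 1 * Matrix.fromBlocks 1 (Sv i₀ w) 0 1
  rw [Matrix.fromBlocks_multiply, Sv_add]
  simp only [Matrix.one_mul, Matrix.mul_one, Matrix.zero_mul, Matrix.mul_zero, add_zero, zero_add]
  rw [add_comm]

theorem spU_injective (i₀ : l) : Function.Injective (spU (F := F) i₀) := by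
  intro v w h
  have h1 := congrArg (fun X : Matrix.symplecticGroup l F => (X : Matrix (l ⊕ l) (l ⊕ l) F)) h
  change Matrix.fromBlocks 1 (Sv i₀ v) 0 1 = Matrix.fromBlocks 1 (Sv i₀ w) 0 1 at h1
  have h2 := (Matrix.fromBlocks_inj.1 h1).2.1
  funext j
  rw [← Sv_apply i₀ j v, ← Sv_apply i₀ j w, h2]

theorem spL_conj {M N : Matrix l l F} (h : M * Nᵀ = 1) {i₀ : l} {v v' : l → F}
    (hv : M * Sv i₀ v * Mᵀ = Sv i₀ v') : spL h * spU i₀ v * (spL h)⁻¹ = spU i₀ v' := by
  rw [mul_inv_eq_iff_eq_mul]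
  apply Subtype.ext
  change Matrix.fromBlocks M 0 0 N * Matrix.fromBlocks 1 (Sv i₀ v) 0 1 =
    Matrix.fromBlocks 1 (Sv i₀ v') 0 1 * Matrix.fromBlocks M 0 0 N
  rw [Matrix.fromBlocks_multiply, Matrix.fromBlocks_multiply]
  simp only [Matrix.one_mul, Matrix.mul_one, Matrix.zero_mul, Matrix.mul_zero, add_zero, zero_add]
  have h1 : Nᵀ * M = 1 := mul_eq_one_comm.1 h
  have h2 : Mᵀ * N = 1 := by
    have := congrArg Matrix.transpose h1
    simpa [Matrix.transpose_mul] using this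
  have h3 : M * Sv i₀ v = Sv i₀ v' * N := by
    rw [← hv, Matrix.mul_assoc, Matrix.mul_assoc, h2, Matrix.mul_one]
  rw [h3]

/-- The Levi matrices used to move the characters. -/
def MM (i₀ : l) (y : l → F) : Matrix l l F := 1 + vecMulVec (Pi.single i₀ 1) y

/-- The contragredient of `MM`. -/
def NN (i₀ : l) (y : l → F) (t : F) : Matrix l l F := 1 - t⁻¹ • vecMulVec y (Pi.single i₀ 1)

theorem MM_mul_NN {i₀ : l} {y : l → F} {t : F} (ht : t ≠ 0) (hy : y i₀ = t - 1) :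
    MM i₀ y * (NN i₀ y t)ᵀ = 1 := by
  have h1 : (NN i₀ y t)ᵀ = 1 - t⁻¹ • vecMulVec (Pi.single i₀ 1) y := by
    simp [NN, transpose_sub, transpose_smul, transpose_vecMulVec]
  rw [h1]
  unfold MM
  have h2 : vecMulVec (Pi.single i₀ 1 : l → F) y * vecMulVec (Pi.single i₀ 1 : l → F) y =
      (t - 1) • vecMulVec (Pi.single i₀ 1 : l → F) y := by
    rw [Matrix.vecMulVec_mul_vecMulVec]
    simp [hy]
  have h3 : (1 + vecMulVec (Pi.single i₀ 1 : l → F) y) * (1 - t⁻¹ • vecMulVec (Pi.single i₀ 1 : l → F) y) =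
      1 + vecMulVec (Pi.single i₀ 1 : l → F) y - t⁻¹ • vecMulVec (Pi.single i₀ 1 : l → F) y
        - t⁻¹ • (vecMulVec (Pi.single i₀ 1 : l → F) y * vecMulVec (Pi.single i₀ 1 : l → F) y) := by
    rw [mul_sub, mul_one, add_mul, one_mul, Matrix.mul_smul]
    abel
  rw [h3, h2, smul_smul]
  have h4 : t⁻¹ * (t - 1) = 1 - t⁻¹ := by
    field_simp
  rw [h4, sub_smul, one_smul]
  abel

/-- The linear map induced on the abelian subgroup. -/
def TT (i₀ : l) (y : l → F) (t : F) (v : l → F) : l → F :=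
  t • v + (2 * t * (y ⬝ᵥ v) + t * (1 - t) * v i₀) • Pi.single i₀ 1

theorem mul_vv_mul (M : Matrix l l F) (x z : l → F) : M * vecMulVec x z * Mᵀ = vecMulVec (M *ᵥ x) (M *ᵥ z) := by
  rw [Matrix.mul_vecMulVec, Matrix.vecMulVec_mul, Matrix.vecMul_transpose]

theorem MM_conj {i₀ : l} {y : l → F} {t : F} (hy : y i₀ = t - 1) (v : l → F) :
    MM i₀ y * Sv i₀ v * (MM i₀ y)ᵀ = Sv i₀ (TT i₀ y t v) := by
  have h1 : MM i₀ y *ᵥ (Pi.single i₀ 1 : l → F) = t • (Pi.single i₀ 1 : l → F) := by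
    unfold MM
    rw [Matrix.add_mulVec, Matrix.one_mulVec, Matrix.vecMulVec_mulVec]
    ext i
    by_cases hi : i = i₀
    · subst hi
      simp [hy]
    · simp [hi]
  have h2 : MM i₀ y *ᵥ v = v + (y ⬝ᵥ v) • (Pi.single i₀ 1 : l → F) := by
    unfold MM
    rw [Matrix.add_mulVec, Matrix.one_mulVec, Matrix.vecMulVec_mulVec]
    ext i
    simp [mul_comm]
  have h3 : MM i₀ y * Sv i₀ v * (MM i₀ y)ᵀ =
      vecMulVec (MM i₀ y *ᵥ (Pi.single i₀ 1 : l → F)) (MM i₀ y *ᵥ v) +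
      vecMulVec (MM i₀ y *ᵥ v) (MM i₀ y *ᵥ (Pi.single i₀ 1 : l → F)) -
      (v i₀) • vecMulVec (MM i₀ y *ᵥ (Pi.single i₀ 1 : l → F)) (MM i₀ y *ᵥ (Pi.single i₀ 1 : l → F)) := by
    rw [← mul_vv_mul, ← mul_vv_mul, ← mul_vv_mul]
    unfold Sv
    simp only [Matrix.mul_add, Matrix.add_mul, Matrix.mul_sub, Matrix.sub_mul, Matrix.mul_smul, Matrix.smul_mul]
  rw [h3, h1, h2]
  ext i j
  have e1 : TT i₀ y t v i₀ = t * v i₀ + (2 * t * (y ⬝ᵥ v) + t * (1 - t) * v i₀) := by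
    simp [TT]
  simp only [Sv, e1]
  simp only [Matrix.sub_apply, Matrix.add_apply, Matrix.smul_apply, vecMulVec_apply, Pi.smul_apply, Pi.add_apply, smul_eq_mul, TT]
  ring

theorem TT_dot {i₀ : l} {y a a' : l → F} {t : F} (ht : t ≠ 0) (h0 : a' i₀ ≠ 0) (h2 : (2 : F) ≠ 0)
    (hy : y = (2 * t * a' i₀)⁻¹ • (a - t • a' - (t * (1 - t) * a' i₀) • Pi.single i₀ 1)) (v : l → F) :
    a' ⬝ᵥ TT i₀ y t v = a ⬝ᵥ v := by
  have h1 : (2 * t * a' i₀) * (y ⬝ᵥ v) = a ⬝ᵥ v - t * (a' ⬝ᵥ v) - t * (1 - t) * a' i₀ * v i₀ := by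
    rw [hy, smul_dotProduct, smul_eq_mul, ← mul_assoc, mul_inv_cancel₀ (mul_ne_zero (mul_ne_zero h2 ht) h0), one_mul]
    rw [sub_dotProduct, sub_dotProduct, smul_dotProduct, smul_dotProduct]
    simp
  unfold TT
  rw [dotProduct_add, dotProduct_smul, dotProduct_smul]
  simp only [smul_eq_mul]
  have h3 : a' ⬝ᵥ (Pi.single i₀ 1 : l → F) = a' i₀ := by simp
  rw [h3]
  linear_combination h1

theorem y_apply {i₀ : l} {y a a' : l → F} {t : F} (ht : t ≠ 0) (h0 : a' i₀ ≠ 0) (h2 : (2 : F) ≠ 0)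
    (hy : y = (2 * t * a' i₀)⁻¹ • (a - t • a' - (t * (1 - t) * a' i₀) • Pi.single i₀ 1))
    (ha : a i₀ = t ^ 2 * a' i₀) : y i₀ = t - 1 := by
  rw [hy]
  simp only [Pi.smul_apply, Pi.sub_apply, smul_eq_mul, Pi.single_eq_same, mul_one, ha]
  field_simp
  ring

end sp

section spbound
variable {F : Type*} [Field F] [Fintype F] {K₁ : Type*} [Field K₁] {l : Type*} [Fintype l] [DecidableEq l]
variable {ψ : AddChar F K₁} {d : ℕ}

theorem eig_move (i₀ : l) (ρ : Matrix.symplecticGroup l F →* GL (Fin d) K₁)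
    {a a' : l → F} {t : F} (ht : t ≠ 0) (h0 : a' i₀ ≠ 0) (h2 : (2 : F) ≠ 0)
    (ha : a i₀ = t ^ 2 * a' i₀) (hne : eig ψ ρ (spU i₀) a ≠ 0) : eig ψ ρ (spU i₀) a' ≠ 0 := by
  obtain ⟨y, hy⟩ : ∃ y : l → F, y = (2 * t * a' i₀)⁻¹ • (a - t • a' - (t * (1 - t) * a' i₀) • Pi.single i₀ 1) :=
    ⟨_, rfl⟩
  have hy0 := y_apply ht h0 h2 hy ha
  have hMN := MM_mul_NN ht hy0
  have hconj : ∀ v, spL hMN * spU i₀ v * (spL hMN)⁻¹ = spU i₀ (TT i₀ y t v) := fun v =>
    spL_conj hMN (MM_conj hy0 v)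
  have hinj : Function.Injective (TT i₀ y t) := by
    intro v w h
    apply spU_injective i₀
    have h1 := hconj v
    have h3 := hconj w
    rw [h] at h1
    rw [← h3] at h1
    exact mul_left_cancel (mul_right_cancel h1)
  let T : (l → F) ≃ (l → F) := Equiv.ofBijective _ (Finite.injective_iff_bijective.1 hinj)
  exact eig_ne_zero_of_conj (g := spL hMN) (T := T) (a := a) (b := a') hconj (fun v => TT_dot ht h0 h2 hy v) hne

/-- The cross characteristic bound for symplectic groups. -/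
theorem sp_bound (hψ : ψ.IsPrimitive) (hF2 : (2 : F) ≠ 0) (i₀ : l)
    (hq : ((Fintype.card (l → F) : ℕ) : K₁) ≠ 0)
    (ρ : Matrix.symplecticGroup l F →* GL (Fin d) K₁)
    (hker : ∀ x, ρ x = 1 → x ∈ Subgroup.center _) :
    (Fintype.card F - 1) * Fintype.card ({j // j ≠ i₀} → F) ≤ 2 * d := by
  classical
  let v₀ : l → F := Pi.single i₀ 1
  have hv₀ : ρ (spU i₀ v₀) ≠ 1 := by
    intro h
    have h1 := hker _ h
    have h2 := Subgroup.mem_center_iff.1 h1 (SymplecticGroup.symJ l F)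
    have h3 := congrArg (fun X : Matrix.symplecticGroup l F =>
      (X : Matrix (l ⊕ l) (l ⊕ l) F) (Sum.inl i₀) (Sum.inl i₀)) h2
    change ((Matrix.fromBlocks 0 (-1) 1 0 * Matrix.fromBlocks 1 (Sv i₀ v₀) 0 1 : Matrix (l ⊕ l) (l ⊕ l) F)) (Sum.inl i₀) (Sum.inl i₀) =
      ((Matrix.fromBlocks 1 (Sv i₀ v₀) 0 1 * Matrix.fromBlocks 0 (-1) 1 0 : Matrix (l ⊕ l) (l ⊕ l) F)) (Sum.inl i₀) (Sum.inl i₀) at h3
    rw [Matrix.fromBlocks_multiply, Matrix.fromBlocks_multiply] at h3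
    simp only [Matrix.one_mul, Matrix.mul_one, Matrix.zero_mul, Matrix.mul_zero, add_zero, zero_add, Matrix.fromBlocks_apply₁₁] at h3
    rw [Sv_apply] at h3
    simp [v₀] at h3
  obtain ⟨a, ha, hav⟩ := exists_eig_ne_zero (ρ := ρ) (u := spU i₀) hψ (fun v w => spU_add i₀ v w) hq hv₀
  have hc : a i₀ ≠ 0 := by
    intro h
    apply hav
    simp [v₀, h]
  let D : Finset F := (Finset.univ.filter (fun t : F => t ≠ 0)).image (fun t => a i₀ * (t ^ 2)⁻¹)
  have hD : Fintype.card F - 1 ≤ 2 * D.card := by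
    have h1 := Finset.card_le_mul_card_image (f := fun t : F => a i₀ * (t ^ 2)⁻¹)
      (Finset.univ.filter (fun t : F => t ≠ 0)) 2 (by
        intro x hx
        obtain ⟨t₀, ht₀, rfl⟩ := Finset.mem_image.1 hx
        have ht₀' : t₀ ≠ 0 := (Finset.mem_filter.1 ht₀).2
        have hsub : ((Finset.univ.filter (fun t : F => t ≠ 0)).filter
            (fun t => a i₀ * (t ^ 2)⁻¹ = a i₀ * (t₀ ^ 2)⁻¹)) ⊆ {t₀, -t₀} := by
          intro t ht
          have ht' := Finset.mem_filter.1 ht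
          have h2 := mul_left_cancel₀ hc ht'.2
          have h3 : t ^ 2 = t₀ ^ 2 := inv_injective h2
          have h4 := sq_eq_sq_iff_eq_or_eq_neg.1 h3
          simpa using h4
        exact (Finset.card_le_card hsub).trans Finset.card_le_two)
    have h2 : (Finset.univ.filter (fun t : F => t ≠ 0)).card = Fintype.card F - 1 := by
      rw [Finset.filter_ne', Finset.card_erase_of_mem (Finset.mem_univ _), Finset.card_univ]
    rw [h2] at h1
    exact h1
  let E := Equiv.funSplitAt i₀ F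
  let Sset : Finset (l → F) := (D ×ˢ (Finset.univ : Finset ({j // j ≠ i₀} → F))).map E.symm.toEmbedding
  have hS : ∀ b ∈ Sset, eig ψ ρ (spU i₀) b ≠ 0 := by
    intro b hb
    obtain ⟨p, hp, rfl⟩ := Finset.mem_map.1 hb
    have hp1 : p.1 ∈ D := (Finset.mem_product.1 hp).1
    obtain ⟨t, ht, ht'⟩ := Finset.mem_image.1 hp1
    have ht0 : t ≠ 0 := (Finset.mem_filter.1 ht).2
    have h1 : (E.symm.toEmbedding p) i₀ = p.1 := by
      have := congrArg Prod.fst (E.apply_symm_apply p)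
      exact this
    refine eig_move i₀ ρ (a := a) (t := t) ht0 ?_ hF2 ?_ ha
    · rw [h1, ← ht']
      exact mul_ne_zero hc (inv_ne_zero (pow_ne_zero 2 ht0))
    · rw [h1, ← ht']
      field_simp
  have h := card_support_le (ρ := ρ) (u := spU i₀) hψ (fun v w => spU_add i₀ v w) hq Sset hS
  have hcard : Sset.card = D.card * Fintype.card ({j // j ≠ i₀} → F) := by
    simp [Sset]
  rw [hcard] at h
  calc (Fintype.card F - 1) * Fintype.card ({j // j ≠ i₀} → F)
      ≤ (2 * D.card) * Fintype.card ({j // j ≠ i₀} → F) := Nat.mul_le_mul_right _ hD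
    _ = 2 * (D.card * Fintype.card ({j // j ≠ i₀} → F)) := by ring
    _ ≤ 2 * d := Nat.mul_le_mul_left _ h

end spbound

end Cfsg.Agent.Lib.CrossChar
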