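import Mathlib

/-! Faithful modules of extraspecial groups: the dimension bound. -/

set_option autoImplicit false

namespace Cfsg.Agent.Lib.ESBound

open Module

section rep
variable {K : Type*} [Field K] {W : Type*} [AddCommGroup W] [Module K W] [FiniteDimensional K W]
variable {E : Type*} [Group E] [Finite E] {p : ℕ} {z : E}

theorem rep_dim [Nontrivial W] (L : E →* Module.End K W) {η : K} (hη : ∀ k : ℕ, η ^ k = 1 → p ∣ k)
    (hz : L z = η • (1 : Module.End K W)) (hzp : z ^ p = 1)
    (hcomm : ∀ h x : E, ∃ k : ℕ, h * x * h⁻¹ * x⁻¹ = z ^ k) :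
    Nat.card (E ⧸ Subgroup.center E) ≤ finrank K W ^ 2 := by
  classical
  have hu : ∀ x : E, L x * L x⁻¹ = 1 := fun x => by rw [← map_mul]; simp
  have hu' : ∀ x : E, L x⁻¹ * L x = 1 := fun x => by rw [← map_mul]; simp
  have hne : ∀ x : E, L x ≠ 0 := by
    intro x h0
    have h1 := hu x
    rw [h0, zero_mul] at h1
    exact zero_ne_one h1
  have hzk : ∀ k : ℕ, L (z ^ k) = η ^ k • (1 : Module.End K W) := by
    intro k
    rw [map_pow, hz, smul_pow, one_pow]
  have hs : ∀ h x : E, ∃ s : K, L (h * x * h⁻¹) = s • L x := by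
    intro h x
    obtain ⟨k, hk⟩ := hcomm h x
    refine ⟨η ^ k, ?_⟩
    have : h * x * h⁻¹ = z ^ k * x := by rw [← hk]; group
    rw [this, map_mul, hzk, smul_mul_assoc, one_mul]
  choose s hs using hs
  have hcancel : ∀ (x : E) (a b : K), a • L x = b • L x → a = b := by
    intro x a b hab
    by_contra hne'
    have h1 : (a - b) • L x = 0 := by rw [sub_smul, hab, sub_self]
    rcases smul_eq_zero.1 h1 with h2 | h2
    · exact hne' (sub_eq_zero.1 h2)
    · exact hne x h2
  let chi : E → (E →* K) := fun x =>
    { toFun := fun h => s h x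
      map_one' := by
        apply hcancel x
        rw [← hs, one_smul]
        simp
      map_mul' := by
        intro h₁ h₂
        apply hcancel x
        rw [← hs, mul_smul]
        have e : h₁ * h₂ * x * (h₁ * h₂)⁻¹ = h₁ * (h₂ * x * h₂⁻¹) * h₁⁻¹ := by group
        rw [e, map_mul, map_mul, hs h₂ x, mul_smul_comm, smul_mul_assoc, ← map_mul, ← map_mul, hs h₁ x,
          smul_comm] }
  have hchi : ∀ h x : E, chi x h = s h x := fun _ _ => rfl
  -- distinct cosets give distinct characters
  let out : (E ⧸ Subgroup.center E) → E := Quotient.out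
  have hout : ∀ c, (out c : E ⧸ Subgroup.center E) = c := fun c => Quotient.out_eq' c
  have hinj : Function.Injective (fun c : E ⧸ Subgroup.center E => chi (out c)) := by
    intro c c' hcc
    by_contra hne'
    have hnc : (out c)⁻¹ * out c' ∉ Subgroup.center E := by
      intro hmem
      apply hne'
      rw [← hout c, ← hout c']
      exact QuotientGroup.eq.2 hmem
    rw [Subgroup.mem_center_iff] at hnc
    push Not at hnc
    obtain ⟨h, hh⟩ := hnc
    set x := out c with hx
    set y := out c' with hy
    set u := x⁻¹ * y with hu_def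
    have heq : s h x = s h y := by
      have := DFunLike.congr_fun hcc h
      exact this
    -- `L (h u h⁻¹) = L u`
    have h1 : L (h * x * h⁻¹) * L (h * u * h⁻¹) = L (h * y * h⁻¹) := by
      rw [← map_mul]
      congr 1
      rw [hu_def]
      group
    rw [hs h x, hs h y, ← heq, smul_mul_assoc] at h1
    have hsne : s h x ≠ 0 := by
      intro h0
      have h2 := hs h x
      rw [h0, zero_smul] at h2
      exact hne _ h2
    have h2 : L x * L (h * u * h⁻¹) = L y := smul_right_injective _ hsne h1
    have h3 : L (h * u * h⁻¹) = L u := by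
      calc L (h * u * h⁻¹) = L x⁻¹ * (L x * L (h * u * h⁻¹)) := by rw [← mul_assoc (L x⁻¹), hu', one_mul]
        _ = L x⁻¹ * L y := by rw [h2]
        _ = L u := by rw [hu_def, map_mul]
    obtain ⟨k, hk⟩ := hcomm h u
    have h4 : L (z ^ k) = 1 := by
      rw [← hk, map_mul, h3, hu]
    rw [hzk] at h4
    have h5 : η ^ k = 1 := by
      by_contra hne5
      have h6 : (η ^ k - 1) • (1 : Module.End K W) = 0 := by rw [sub_smul, h4, one_smul, sub_self]
      rcases smul_eq_zero.1 h6 with h7 | h7
      · exact hne5 (sub_eq_zero.1 h7)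
      · exact one_ne_zero h7
    obtain ⟨m, rfl⟩ := hη k h5
    rw [pow_mul, hzp, one_pow] at hk
    apply hh
    have e2 : h * u * h⁻¹ = u := by
      have := hk
      rwa [mul_inv_eq_one] at this
    rw [mul_inv_eq_iff_eq_mul] at e2
    exact e2
  have hli : LinearIndependent K (fun c => L (out c)) := by
    rw [linearIndependent_iff']
    intro t g hg i hi
    by_contra hgi
    obtain ⟨φ, hφ⟩ : ∃ φ : Module.Dual K (Module.End K W), φ (L (out i)) ≠ 0 := by
      by_contra hcon
      push Not at hcon
      exact hne _ ((Module.forall_dual_apply_eq_zero_iff K _).1 hcon)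
    have hchar := (linearIndependent_monoidHom E K).comp _ hinj
    rw [linearIndependent_iff'] at hchar
    have h := hchar t (fun j => g j * φ (L (out j))) ?_ i hi
    · rcases mul_eq_zero.1 h with h | h
      · exact hgi h
      · exact hφ h
    · funext h'
      have h0 : ∑ j ∈ t, g j • (L h' * L (out j) * L h'⁻¹) = 0 := by
        have : L h' * (∑ j ∈ t, g j • L (out j)) * L h'⁻¹ = 0 := by rw [hg]; simp
        rw [Finset.mul_sum, Finset.sum_mul] at this
        rw [← this]
        apply Finset.sum_congr rfl
        intros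
        rw [mul_smul_comm, smul_mul_assoc]
      have h1 : ∑ j ∈ t, (g j * s h' (out j)) • L (out j) = 0 := by
        rw [← h0]
        apply Finset.sum_congr rfl
        intro j _
        rw [mul_smul, ← hs, map_mul, map_mul]
      have h2 := congrArg φ h1
      rw [map_sum, map_zero] at h2
      simp only [map_smul, smul_eq_mul] at h2
      rw [Finset.sum_apply, Pi.zero_apply, ← h2]
      apply Finset.sum_congr rfl
      intro j _
      simp only [Function.comp, Pi.smul_apply, smul_eq_mul]
      change g j * φ (L (out j)) * s h' (out j) = _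
      ring
  haveI : Fintype (E ⧸ Subgroup.center E) := Fintype.ofFinite _
  have hc := hli.fintype_card_le_finrank
  rw [Nat.card_eq_fintype_card, pow_two]
  refine hc.trans (le_of_eq ?_)
  exact Module.finrank_linearMap K K W W

end rep

section eig
variable {K : Type*} [Field K] {V : Type*} [AddCommGroup V] [Module K V] [FiniteDimensional K V]

theorem sum_eigenspace_le {n : ℕ} (f : Module.End K V) (μ : Fin n → K) (hμ : Function.Injective μ) :
    ∑ i, finrank K (Module.End.eigenspace f (μ i)) ≤ finrank K V := by
  classical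
  have hind : iSupIndep (fun i => Module.End.eigenspace f (μ i)) :=
    (Module.End.eigenspaces_iSupIndep f).comp hμ
  have h1 := hind.dfinsupp_lsum_injective
  have h2 := LinearMap.finrank_le_finrank_of_injective h1
  rwa [← Module.finrank_directSum K (fun i => Module.End.eigenspace f (μ i))]

theorem exists_eig_ne_one [IsAlgClosed K] {p : ℕ} (hp : (p : K) ≠ 0) (Z : Module.End K V) (hZ : Z ≠ 1)
    (hZp : Z ^ p = 1) :
    ∃ (μ : K) (v : V), v ≠ 0 ∧ μ ≠ 1 ∧ μ ^ p = 1 ∧ Z v = μ • v := by
  classical
  let Y : Submodule K V := LinearMap.range (Z - 1)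
  have hY : ∀ y ∈ Y, Z y ∈ Y := by
    rintro _ ⟨w, rfl⟩
    refine ⟨Z w, ?_⟩
    simp [LinearMap.sub_apply]
  have hYne : Nontrivial Y := by
    rw [Submodule.nontrivial_iff_ne_bot]
    intro h0
    apply hZ
    rw [LinearMap.range_eq_bot] at h0
    exact sub_eq_zero.1 h0
  obtain ⟨c, hc⟩ := Module.End.exists_eigenvalue (Z.restrict hY)
  obtain ⟨u, hu⟩ := hc.exists_hasEigenvector
  have hu0 : (u : V) ≠ 0 := fun h => hu.2 (Subtype.ext h)
  have hZu : Z u = c • (u : V) := by
    have := congrArg Subtype.val hu.apply_eq_smul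
    simpa using this
  have hpow : ∀ k : ℕ, (Z ^ k) (u : V) = c ^ k • (u : V) := by
    intro k
    induction k with
    | zero => simp
    | succ k ih =>
      rw [pow_succ, Module.End.mul_apply, hZu, map_smul, ih, smul_smul, pow_succ, mul_comm]
  refine ⟨c, u, hu0, ?_, ?_, hZu⟩
  · rintro rfl
    obtain ⟨w, hw⟩ := u.2
    have hw' : Z w = w + (u : V) := by
      rw [← hw]
      simp [LinearMap.sub_apply]
    have hZu' : Z u = (u : V) := by rw [hZu, one_smul]
    have hk : ∀ k : ℕ, (Z ^ k) w = w + (k : K) • (u : V) := by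
      intro k
      induction k with
      | zero => simp
      | succ k ih =>
        rw [pow_succ', Module.End.mul_apply, ih, map_add, map_smul, hw', hZu']
        push_cast
        rw [add_smul, one_smul]
        abel
    have h := hk p
    rw [hZp] at h
    simp only [Module.End.one_apply] at h
    have h' : (p : K) • (u : V) = 0 := by
      have := h
      exact (add_eq_left.1 this.symm)
    rcases smul_eq_zero.1 h' with h1 | h1
    · exact hp h1
    · exact hu0 h1
  · have h := hpow p
    rw [hZp] at h
    simp only [Module.End.one_apply] at h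
    by_contra hne
    have h1 : (c ^ p - 1) • (u : V) = 0 := by
      rw [sub_smul, ← h, one_smul, sub_self]
    rcases smul_eq_zero.1 h1 with h2 | h2
    · exact hne (sub_eq_zero.1 h2)
    · exact hu0 h2

/-- Restriction of a representation to an eigenspace of a central element. -/
noncomputable def restrictHom {E : Type*} [Group E] (T : E →* Module.End K V) (z : E) (hz : ∀ g, g * z = z * g)
    (η : K) : E →* Module.End K (Module.End.eigenspace (T z) η) where
  toFun g := (T g).restrict (by
    intro v hv
    rw [Module.End.mem_eigenspace_iff] at hv ⊢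
    have h := congrArg (fun f => f v) (congrArg T (hz g))
    simp only [map_mul, Module.End.mul_apply] at h
    rw [← h, hv, map_smul])
  map_one' := by
    ext v
    simp
  map_mul' := by
    intro g h
    ext v
    simp

end eig

section main
variable {r p : ℕ} [hr : Fact r.Prime] [hp : Fact p.Prime]
variable {E : Type*} [Group E] [Finite E] {d : ℕ}

/-- The linear representation over the algebraic closure of a matrix representation over `ZMod r`. -/
noncomputable def TT (M : E →* Matrix (Fin d) (Fin d) (ZMod r)) :
    E →* Module.End (AlgebraicClosure (ZMod r)) (Fin d → AlgebraicClosure (ZMod r)) :=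
  (Matrix.toLinAlgEquiv' (R := AlgebraicClosure (ZMod r)) (n := Fin d)).toAlgHom.toRingHom.toMonoidHom.comp
    ((algebraMap (ZMod r) (AlgebraicClosure (ZMod r))).mapMatrix.toMonoidHom.comp M)

theorem TT_apply (M : E →* Matrix (Fin d) (Fin d) (ZMod r)) (g : E) (v : Fin d → AlgebraicClosure (ZMod r))
    (i : Fin d) : TT M g v i = ∑ j, algebraMap (ZMod r) (AlgebraicClosure (ZMod r)) (M g i j) * v j := by
  simp [TT, Matrix.toLinAlgEquiv'_apply, Matrix.mulVec, dotProduct]

theorem TT_inj (M : E →* Matrix (Fin d) (Fin d) (ZMod r)) (hM : Function.Injective M) :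
    Function.Injective (TT M) := by
  intro g h hgh
  apply hM
  have h1 : ((algebraMap (ZMod r) (AlgebraicClosure (ZMod r))).mapMatrix (M g)) =
      ((algebraMap (ZMod r) (AlgebraicClosure (ZMod r))).mapMatrix (M h)) :=
    (Matrix.toLinAlgEquiv' (R := AlgebraicClosure (ZMod r)) (n := Fin d)).injective hgh
  ext i j
  have h2 := congrFun (congrFun h1 i) j
  exact (algebraMap (ZMod r) (AlgebraicClosure (ZMod r))).injective h2

theorem frob (M : E →* Matrix (Fin d) (Fin d) (ZMod r)) (g : E) (η : AlgebraicClosure (ZMod r))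
    (v : Fin d → AlgebraicClosure (ZMod r)) (hv : TT M g v = η • v) :
    TT M g (fun i => v i ^ r) = η ^ r • (fun i => v i ^ r) := by
  funext i
  rw [TT_apply]
  have h := congrFun hv i
  rw [TT_apply] at h
  simp only [Pi.smul_apply, smul_eq_mul] at h ⊢
  rw [← mul_pow, ← h, sum_pow_char]
  apply Finset.sum_congr rfl
  intro j _
  rw [mul_pow, ← map_pow, ZMod.pow_card]

theorem core (M : E →* Matrix (Fin d) (Fin d) (ZMod r)) (hM : Function.Injective M) (hpr : p ≠ r)
    {z : E} (hz1 : z ≠ 1) (hzp : z ^ p = 1) (hzc : ∀ g, g * z = z * g)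
    (hcomm : ∀ h x : E, ∃ k : ℕ, h * x * h⁻¹ * x⁻¹ = z ^ k)
    {n a : ℕ} (hmin : ∀ k : ℕ, 1 ≤ k → p ∣ r ^ k - 1 → n ≤ k)
    (ha : a ^ 2 ≤ Nat.card (E ⧸ Subgroup.center E)) : n * a ≤ d := by
  classical
  set K := AlgebraicClosure (ZMod r) with hK
  haveI : CharP K r := inferInstance
  have hpK : (p : K) ≠ 0 := by
    intro h0
    rw [CharP.cast_eq_zero_iff K r p] at h0
    exact hpr ((Nat.prime_dvd_prime_iff_eq hr.out hp.out).1 h0).symm
  set T := TT (r := r) M with hT
  have hZne : T z ≠ 1 := by
    intro h0
    apply hz1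
    apply TT_inj M hM
    rw [map_one]
    exact h0
  have hZp : (T z) ^ p = 1 := by
    rw [← map_pow, hzp, map_one]
  obtain ⟨μ, v, hv0, hμ1, hμp, hv⟩ := exists_eig_ne_one hpK (T z) hZne hZp
  -- the conjugates
  let η : ℕ → K := fun i => μ ^ (r ^ i)
  have hord : orderOf μ = p := orderOf_eq_prime hμp hμ1
  have hηk : ∀ i k : ℕ, η i ^ k = 1 → p ∣ k := by
    intro i k h
    have h1 : μ ^ (r ^ i * k) = 1 := by rw [pow_mul]; exact h
    have h2 := orderOf_dvd_of_pow_eq_one h1
    rw [hord] at h2
    have hcop : Nat.Coprime p (r ^ i) :=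
      Nat.Coprime.pow_right _ ((Nat.coprime_primes hp.out hr.out).2 hpr)
    exact hcop.dvd_of_dvd_mul_left h2
  have hne : ∀ i : ℕ, ∃ w : Fin d → K, w ≠ 0 ∧ T z w = η i • w := by
    intro i
    induction i with
    | zero =>
      refine ⟨v, hv0, ?_⟩
      simpa [η] using hv
    | succ i ih =>
      obtain ⟨w, hw0, hw⟩ := ih
      refine ⟨fun j => w j ^ r, ?_, ?_⟩
      · intro h0
        apply hw0
        funext j
        have := congrFun h0 j
        simpa [hr.out.ne_zero] using this
      · have := frob M z (η i) w hw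
        have e : η (i + 1) = η i ^ r := by
          simp only [η]
          rw [← pow_mul, pow_succ]
        rw [e]
        exact this
  have hinj : Function.Injective (fun i : Fin n => η (i : ℕ)) := by
    have key : ∀ i j : ℕ, i < j → j < n → η i ≠ η j := by
      intro i j hij hjn he
      have h1 : μ ^ (r ^ i) = μ ^ (r ^ j) := he
      have h2 : r ^ j = r ^ i * r ^ (j - i) := by
        rw [← pow_add]
        congr 1
        omega
      have hr1 : 1 ≤ r ^ (j - i) := Nat.one_le_pow _ _ hr.out.pos
      have h0 : μ ≠ 0 := by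
        rintro rfl
        rw [zero_pow hp.out.ne_zero] at hμp
        exact zero_ne_one hμp
      have h5 : r ^ i ≤ r ^ j := Nat.pow_le_pow_right hr.out.pos hij.le
      have h6 : r ^ i * (r ^ (j - i) - 1) = r ^ j - r ^ i := by
        rw [Nat.mul_sub, mul_one, ← h2]
      have h3 : μ ^ (r ^ j - r ^ i) = 1 := by
        have h9 : μ ^ (r ^ j) = μ ^ (r ^ j - r ^ i) * μ ^ (r ^ i) := by
          rw [← pow_add, Nat.sub_add_cancel h5]
        rw [h9] at h1
        have hne9 := pow_ne_zero (r ^ i) h0
        exact (mul_right_cancel₀ hne9 (by rw [one_mul]; exact h1.symm))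
      have h4 : p ∣ r ^ i * (r ^ (j - i) - 1) := by
        rw [h6, ← hord]
        exact orderOf_dvd_of_pow_eq_one h3
      have hcop : Nat.Coprime p (r ^ i) :=
        Nat.Coprime.pow_right _ ((Nat.coprime_primes hp.out hr.out).2 hpr)
      have h7 := hcop.dvd_of_dvd_mul_left h4
      have h8 := hmin (j - i) (by omega) h7
      omega
    intro i j hij
    by_contra hne'
    have hne'' : (i : ℕ) ≠ j := fun h => hne' (Fin.ext h)
    rcases lt_or_gt_of_ne hne'' with h | h
    · exact key _ _ h j.2 hij
    · exact key _ _ h i.2 hij.symm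
  have hdim : ∀ i : ℕ, a ≤ finrank K (Module.End.eigenspace (T z) (η i)) := by
    intro i
    haveI : Nontrivial (Module.End.eigenspace (T z) (η i)) := by
      obtain ⟨w, hw0, hw⟩ := hne i
      refine ⟨⟨⟨w, Module.End.mem_eigenspace_iff.2 hw⟩, 0, fun h => hw0 (congrArg Subtype.val h)⟩⟩
    have h := rep_dim (restrictHom T z hzc (η i)) (hηk i) (by
      ext w
      have := Module.End.mem_eigenspace_iff.1 w.2
      simp [restrictHom, this]) hzp hcomm
    exact (Nat.pow_le_pow_iff_left (by norm_num)).1 (ha.trans h)
  have hsum := sum_eigenspace_le (T z) (fun i : Fin n => η (i : ℕ)) hinj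
  have h1 : ∑ _i : Fin n, a ≤ ∑ i : Fin n, finrank K (Module.End.eigenspace (T z) (η (i : ℕ))) :=
    Finset.sum_le_sum fun i _ => hdim i
  rw [Finset.sum_const, Finset.card_univ, Fintype.card_fin, smul_eq_mul] at h1
  have h2 : finrank K (Fin d → K) = d := by simp
  rw [h2] at hsum
  exact h1.trans hsum

omit hp [Finite E] in
theorem exists_rep {A : Type*} [AddCommGroup A] [Finite A] [Module (ZMod r) A]
    (ρ : E →* Module.End (ZMod r) A) (hρ : Function.Injective ρ) :
    ∃ (d : ℕ) (M : E →* Matrix (Fin d) (Fin d) (ZMod r)), Function.Injective M ∧ Nat.card A = r ^ d := by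
  haveI : Module.Finite (ZMod r) A := Module.Finite.of_finite
  refine ⟨Module.finrank (ZMod r) A,
    (LinearMap.toMatrixAlgEquiv (Module.finBasis (ZMod r) A)).toAlgHom.toRingHom.toMonoidHom.comp ρ, ?_, ?_⟩
  · intro g h hgh
    exact hρ ((LinearMap.toMatrixAlgEquiv (Module.finBasis (ZMod r) A)).injective hgh)
  · rw [Module.natCard_eq_pow_finrank (K := ZMod r), Nat.card_zmod]

omit hp [Finite E] in
theorem exists_rep2 {B : Type*} [AddCommGroup B] [Finite B] [Module (ZMod r) B]
    (c : E →* AddMonoid.End B) (hc : Function.Injective c) :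
    ∃ (d : ℕ) (M : E →* Matrix (Fin d) (Fin d) (ZMod r)), Function.Injective M ∧ Nat.card B = r ^ d := by
  let ρ₀ : E → Module.End (ZMod r) B := fun g => AddMonoidHom.toZModLinearMap r (c g)
  have h0 : ∀ (g : E) (x : B), ρ₀ g x = c g x := by
    intro g x
    rfl
  let ρ : E →* Module.End (ZMod r) B :=
    { toFun := ρ₀
      map_one' := by
        apply LinearMap.ext
        intro x
        rw [h0, map_one]
        rfl
      map_mul' := by
        intro g h
        apply LinearMap.ext
        intro x
        rw [h0, Module.End.mul_apply, h0, h0, map_mul]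
        rfl }
  have hρ : Function.Injective ρ := by
    intro g h hgh
    apply hc
    ext x
    have h1 : ρ₀ g x = ρ₀ h x := LinearMap.congr_fun hgh _
    rwa [h0, h0] at h1
  exact exists_rep ρ hρ

omit hp [Finite E] in
theorem exists_rep'' {B : Type*} [AddCommGroup B] [Finite B] (hB : ∀ x : B, r • x = 0)
    (c : E →* AddMonoid.End B) (hc : Function.Injective c) :
    ∃ (d : ℕ) (M : E →* Matrix (Fin d) (Fin d) (ZMod r)), Function.Injective M ∧ Nat.card B = r ^ d := by
  letI : Module (ZMod r) B := AddCommGroup.zmodModule hB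
  exact exists_rep2 c hc

omit hp [Finite E] in
theorem exists_rep' {A : Type*} [CommGroup A] [Finite A] (hA : ∀ a : A, a ^ r = 1)
    (c : E →* MulAut A) (hc : Function.Injective c) :
    ∃ (d : ℕ) (M : E →* Matrix (Fin d) (Fin d) (ZMod r)), Function.Injective M ∧ Nat.card A = r ^ d := by
  let c' : E →* AddMonoid.End (Additive A) :=
    { toFun := fun g => MonoidHom.toAdditive (c g).toMonoidHom
      map_one' := by
        ext x
        rw [map_one]
        rfl
      map_mul' := by
        intro g h
        ext x
        rw [map_mul]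
        rfl }
  have hc' : Function.Injective c' := by
    intro g h hgh
    apply hc
    ext x
    have h1 := congrArg (fun f : AddMonoid.End (Additive A) => Additive.toMul (f (Additive.ofMul x))) hgh
    exact h1
  exact exists_rep'' (B := Additive A) (fun x => by
    apply Additive.toMul.injective
    simpa using hA x.toMul) c' hc'

end main

end Cfsg.Agent.Lib.ESBound
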