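/-
Symmetric groups acting on even weight vectors modulo the all one vector.
-/
import Mathlib
import Cfsg.Agent.Lib.QuadRefl

set_option autoImplicit false
set_option linter.all false

open scoped MatrixGroups Matrix
open Cfsg Cfsg.Geo Finset
open Cfsg.Agent.Lib.Transvection Cfsg.Agent.Lib.LinAlgAux Cfsg.Agent.Lib.QuadBase
open Cfsg.Agent.Lib.QuadSiegel Cfsg.Agent.Lib.QuadRefl

namespace Cfsg.Agent.Lib.EvenWeight

section Transfer

variable {ι : Type} [Fintype ι] [DecidableEq ι] {F K : Type*} [Field F] [Field K]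

/-- The isomorphism of general linear groups from a ring isomorphism. -/
noncomputable def glEquiv (e : F ≃+* K) : GL ι F ≃* GL ι K :=
  Units.mapEquiv (RingEquiv.mapMatrix e).toMulEquiv

theorem glEquiv_val (e : F ≃+* K) (g : GL ι F) :
    ((glEquiv e g : GL ι K) : Matrix ι ι K) = (g : Matrix ι ι F).map e := rfl

theorem glEquiv_mulVec (e : F ≃+* K) (g : GL ι F) (v : ι → F) :
    ((glEquiv e g : GL ι K) : Matrix ι ι K) *ᵥ (fun i => e (v i)) =
      fun i => e (((g : Matrix ι ι F) *ᵥ v) i) := by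
  funext i
  simp only [glEquiv_val, Matrix.mulVec, dotProduct, Matrix.map_apply, map_sum, map_mul]

/-- Isometry groups of forms that correspond under a ring isomorphism. -/
noncomputable def isomEquiv (e : F ≃+* K) {Q : (ι → F) → F} {Q' : (ι → K) → K}
    (h : ∀ v, Q' (fun i => e (v i)) = e (Q v)) :
    isometryGroup F Q ≃* isometryGroup K Q' :=
  MulEquiv.subgroupMap (glEquiv e) _ |>.trans (MulEquiv.subgroupCongr (by
    ext g
    constructor
    · rintro ⟨g₀, hg₀, rfl⟩
      have hg₀' := mem_isometryGroup_iff.1 hg₀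
      refine mem_isometryGroup_iff.2 fun w => ?_
      obtain ⟨v, rfl⟩ : ∃ v : ι → F, w = fun i => e (v i) :=
        ⟨fun i => e.symm (w i), by simp⟩
      change Q' (((glEquiv e g₀ : GL ι K) : Matrix ι ι K) *ᵥ (fun i => e (v i))) = _
      rw [glEquiv_mulVec, h, h, hg₀']
    · intro hg
      have hg' := mem_isometryGroup_iff.1 hg
      refine ⟨(glEquiv e).symm g, mem_isometryGroup_iff.2 fun v => ?_, by simp⟩
      apply e.injective
      rw [← h, ← h, ← glEquiv_mulVec, MulEquiv.apply_symm_apply, hg']))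

end Transfer

section Frame

variable {Ω β : Type} [Fintype Ω] [DecidableEq Ω] [Fintype β] [DecidableEq β]

/-- The dot product. -/
def dotP (x y : Ω → ZMod 2) : ZMod 2 := ∑ i, x i * y i

theorem dotP_add_left (x x' y : Ω → ZMod 2) : dotP (x + x') y = dotP x y + dotP x' y := by
  simp only [dotP, Pi.add_apply, add_mul, Finset.sum_add_distrib]

theorem dotP_smul_left (c : ZMod 2) (x y : Ω → ZMod 2) : dotP (c • x) y = c * dotP x y := by
  simp only [dotP, Pi.smul_apply, smul_eq_mul, mul_assoc, Finset.mul_sum]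

/-- The action on vectors. -/
def permV (π : Equiv.Perm Ω) (y : Ω → ZMod 2) : Ω → ZMod 2 := fun i => y (π⁻¹ i)

@[simp] theorem permV_apply (π : Equiv.Perm Ω) (y : Ω → ZMod 2) (i : Ω) : permV π y i = y (π⁻¹ i) := rfl

theorem permV_mul (π ρ : Equiv.Perm Ω) (y : Ω → ZMod 2) : permV (π * ρ) y = permV π (permV ρ y) := by
  funext i
  simp [permV]

theorem permV_one (y : Ω → ZMod 2) : permV (1 : Equiv.Perm Ω) y = y := by
  funext i
  simp [permV]

theorem sum_permV (π : Equiv.Perm Ω) (y : Ω → ZMod 2) : ∑ i, permV π y i = ∑ i, y i :=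
  Equiv.sum_comp π⁻¹ y

theorem dotP_permV (π : Equiv.Perm Ω) (x y : Ω → ZMod 2) : dotP (permV π x) (permV π y) = dotP x y :=
  Equiv.sum_comp π⁻¹ (fun i => x i * y i)

theorem permV_const (π : Equiv.Perm Ω) (c : ZMod 2) : permV π (fun _ => c) = fun _ => c := rfl

/-- A pair of dual families of even vectors. -/
structure Frame (A D : β → Ω → ZMod 2) : Prop where
  dual : ∀ b c, dotP (A c) (D b) = if b = c then 1 else 0
  sumA : ∀ c, ∑ i, A c i = 0
  sumD : ∀ b, ∑ i, D b i = 0
  ker : ∀ y : Ω → ZMod 2, ∑ i, y i = 0 → (∀ b, dotP y (D b) = 0) → y = 0 ∨ y = 1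

variable (A D : β → Ω → ZMod 2)

/-- Coordinates. -/
def tauL : (Ω → ZMod 2) →ₗ[ZMod 2] (β → ZMod 2) where
  toFun y b := dotP y (D b)
  map_add' x y := by
    funext b
    exact dotP_add_left x y (D b)
  map_smul' c x := by
    funext b
    exact dotP_smul_left c x (D b)

@[simp] theorem tauL_apply (y : Ω → ZMod 2) (b : β) : tauL D y b = dotP y (D b) := rfl

/-- The section. -/
def sigL : (β → ZMod 2) →ₗ[ZMod 2] (Ω → ZMod 2) where
  toFun v := ∑ c, v c • A c
  map_add' x y := by
    simp only [Pi.add_apply, add_smul, Finset.sum_add_distrib]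
  map_smul' c x := by
    simp only [Pi.smul_apply, smul_eq_mul, RingHom.id_apply, Finset.smul_sum, mul_smul]

@[simp] theorem sigL_apply (v : β → ZMod 2) : sigL A v = ∑ c, v c • A c := rfl

/-- The permutation as a linear map. -/
def permL (π : Equiv.Perm Ω) : (Ω → ZMod 2) →ₗ[ZMod 2] (Ω → ZMod 2) where
  toFun := permV π
  map_add' x y := rfl
  map_smul' c x := rfl

@[simp] theorem permL_apply (π : Equiv.Perm Ω) (y : Ω → ZMod 2) : permL π y = permV π y := rfl

/-- The matrix action. -/
def actL (π : Equiv.Perm Ω) : (β → ZMod 2) →ₗ[ZMod 2] (β → ZMod 2) :=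
  tauL D ∘ₗ permL π ∘ₗ sigL A

theorem actL_apply (π : Equiv.Perm Ω) (v : β → ZMod 2) :
    actL A D π v = tauL D (permV π (sigL A v)) := rfl

variable {A D}

theorem dotP_sum_left {κ : Type} (s : Finset κ) (f : κ → Ω → ZMod 2) (y : Ω → ZMod 2) :
    dotP (∑ k ∈ s, f k) y = ∑ k ∈ s, dotP (f k) y := by
  classical
  induction s using Finset.induction_on with
  | empty =>
    simp [dotP]
  | insert a s ha ih =>
    rw [Finset.sum_insert ha, Finset.sum_insert ha, dotP_add_left, ih]

theorem tau_sig (hF : Frame A D) (v : β → ZMod 2) : tauL D (sigL A v) = v := by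
  funext b
  rw [tauL_apply, sigL_apply, dotP_sum_left]
  simp only [dotP_smul_left, hF.dual]
  simp

theorem sum_sig (hF : Frame A D) (v : β → ZMod 2) : ∑ i, sigL A v i = 0 := by
  rw [sigL_apply]
  have : ∀ i, (∑ c, v c • A c) i = ∑ c, v c * A c i := by
    intro i
    rw [Finset.sum_apply]
    rfl
  simp only [this]
  rw [Finset.sum_comm]
  apply Finset.sum_eq_zero
  intro c _
  rw [← Finset.mul_sum, hF.sumA, mul_zero]

theorem tau_one (hF : Frame A D) : tauL D (1 : Ω → ZMod 2) = 0 := by
  funext b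
  rw [tauL_apply]
  simp only [dotP, Pi.one_apply, one_mul]
  exact hF.sumD b

theorem sig_tau (hF : Frame A D) {y : Ω → ZMod 2} (hy : ∑ i, y i = 0) :
    sigL A (tauL D y) = y ∨ sigL A (tauL D y) = y + 1 := by
  have h1 := hF.ker (sigL A (tauL D y) - y) (by
      simp only [Pi.sub_apply, Finset.sum_sub_distrib]
      rw [sum_sig hF, hy, sub_zero]) (by
      intro b
      have := congrFun (tau_sig hF (tauL D y)) b
      rw [tauL_apply] at this
      have h3 : dotP (sigL A (tauL D y) - y) (D b) = dotP (sigL A (tauL D y)) (D b) - dotP y (D b) := by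
        simp only [dotP, Pi.sub_apply, sub_mul, Finset.sum_sub_distrib]
      rw [h3, this, tauL_apply, sub_self])
  rcases h1 with h1 | h1
  · left
    exact sub_eq_zero.1 h1
  · right
    rw [← h1]
    abel

theorem permV_add (π : Equiv.Perm Ω) (x y : Ω → ZMod 2) : permV π (x + y) = permV π x + permV π y := rfl

theorem permV_oneV (π : Equiv.Perm Ω) : permV π (1 : Ω → ZMod 2) = 1 := rfl

theorem act_tau (hF : Frame A D) (π : Equiv.Perm Ω) {y : Ω → ZMod 2} (hy : ∑ i, y i = 0) :
    actL A D π (tauL D y) = tauL D (permV π y) := by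
  rw [actL_apply A D]
  rcases sig_tau hF hy with h | h
  · rw [h]
  · rw [h, permV_add, permV_oneV, map_add, tau_one hF, add_zero]

theorem act_mul (hF : Frame A D) (π ρ : Equiv.Perm Ω) (v : β → ZMod 2) :
    actL A D (π * ρ) v = actL A D π (actL A D ρ v) := by
  rw [actL_apply A D ρ, act_tau hF π (by rw [sum_permV, sum_sig hF]), actL_apply A D, permV_mul]

theorem act_one (hF : Frame A D) (v : β → ZMod 2) : actL A D 1 v = v := by
  rw [actL_apply A D, permV_one, tau_sig hF]

/-- The matrix of a permutation. -/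
noncomputable def actG (hF : Frame A D) (π : Equiv.Perm Ω) : GL β (ZMod 2) :=
  glOfLin (actL A D π) (actL A D π⁻¹)
    (LinearMap.ext fun v => by
      rw [LinearMap.comp_apply, ← act_mul hF, mul_inv_cancel, act_one hF, LinearMap.id_apply])
    (LinearMap.ext fun v => by
      rw [LinearMap.comp_apply, ← act_mul hF, inv_mul_cancel, act_one hF, LinearMap.id_apply])

theorem actG_mulVec (hF : Frame A D) (π : Equiv.Perm Ω) (v : β → ZMod 2) :
    ((actG hF π : GL β (ZMod 2)) : Matrix β β (ZMod 2)) *ᵥ v = actL A D π v := by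
  unfold actG
  exact glOfLin_mulVec _ _ _ _ v

/-- The homomorphism to the general linear group. -/
noncomputable def homG (hF : Frame A D) : Equiv.Perm Ω →* GL β (ZMod 2) where
  toFun π := actG hF π
  map_one' := by
    apply gl_ext_mulVec
    intro v
    rw [actG_mulVec, act_one hF]
    simp
  map_mul' π ρ := by
    apply gl_ext_mulVec
    intro v
    rw [gl_mul_mulVec, actG_mulVec, actG_mulVec, actG_mulVec, act_mul hF]

theorem homG_mulVec (hF : Frame A D) (π : Equiv.Perm Ω) (v : β → ZMod 2) :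
    ((homG hF π : GL β (ZMod 2)) : Matrix β β (ZMod 2)) *ᵥ v = actL A D π v :=
  actG_mulVec hF π v

/-- The vector `e_i + e_j`. -/
def pairV (i j : Ω) : Ω → ZMod 2 := Pi.single i 1 + Pi.single j 1

theorem sum_pairV (i j : Ω) : ∑ l, pairV i j l = 0 := by
  simp only [pairV, Pi.add_apply, Finset.sum_add_distrib, Finset.sum_pi_single', Finset.mem_univ, if_true]
  decide

theorem permV_pairV (π : Equiv.Perm Ω) (i j : Ω) : permV π (pairV i j) = pairV (π i) (π j) := by
  funext l
  simp only [permV_apply, pairV, Pi.add_apply, Pi.single_apply]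
  have h1 : (π⁻¹ l = i) ↔ (l = π i) := by
    rw [Equiv.Perm.inv_eq_iff_eq]
  have h2 : (π⁻¹ l = j) ↔ (l = π j) := by
    rw [Equiv.Perm.inv_eq_iff_eq]
  simp only [h1, h2]

theorem homG_injective (hF : Frame A D) (hN : 5 ≤ Fintype.card Ω) :
    Function.Injective (homG hF) := by
  rw [injective_iff_map_eq_one]
  intro π hπ
  have hact : ∀ v, actL A D π v = v := by
    intro v
    rw [← homG_mulVec hF, hπ]
    simp
  have key : ∀ i j, i ≠ j → π i = i ∨ π i = j := by
    intro i j hij
    have h1 : tauL D (pairV (π i) (π j)) = tauL D (pairV i j) := by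
      rw [← permV_pairV, ← act_tau hF π (sum_pairV i j), hact]
    have h2 := hF.ker (pairV (π i) (π j) - pairV i j) (by
        simp only [Pi.sub_apply, Finset.sum_sub_distrib, sum_pairV]
        simp) (by
        intro b
        have h3 := congrFun h1 b
        simp only [tauL_apply] at h3
        have h4 : dotP (pairV (π i) (π j) - pairV i j) (D b) = dotP (pairV (π i) (π j)) (D b) - dotP (pairV i j) (D b) := by
          simp only [dotP, Pi.sub_apply, sub_mul, Finset.sum_sub_distrib]
        rw [h4, h3, sub_self])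
    rcases h2 with h2 | h2
    · have h3 := sub_eq_zero.1 h2
      have h4 := congrFun h3 (π i)
      have hne : π i ≠ π j := fun h => hij (π.injective h)
      simp only [pairV, Pi.add_apply, Pi.single_apply, if_true, if_neg hne] at h4
      by_contra hcon
      push Not at hcon
      rw [if_neg hcon.1, if_neg hcon.2] at h4
      simp at h4
    · exfalso
      -- a point outside the support
      have hcard : ({i, j, π i, π j} : Finset Ω).card < (univ : Finset Ω).card := by
        have h5 : ({i, j, π i, π j} : Finset Ω).card ≤ 4 := Finset.card_le_four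
        rw [card_univ]
        omega
      obtain ⟨l, -, hl⟩ := Finset.exists_mem_notMem_of_card_lt_card hcard
      simp only [mem_insert, mem_singleton, not_or] at hl
      have h6 := congrFun h2 l
      simp only [pairV, Pi.sub_apply, Pi.add_apply, Pi.single_apply, Pi.one_apply] at h6
      rw [if_neg hl.2.2.1, if_neg hl.2.2.2, if_neg hl.1, if_neg hl.2.1] at h6
      simp at h6
  refine Equiv.ext fun i => ?_
  change π i = i
  -- two other points
  by_contra hne
  have hcard : ({i, π i} : Finset Ω).card < (univ : Finset Ω).card := by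
    have h5 : ({i, π i} : Finset Ω).card ≤ 2 := Finset.card_le_two
    rw [card_univ]
    omega
  obtain ⟨l, -, hl⟩ := Finset.exists_mem_notMem_of_card_lt_card hcard
  simp only [mem_insert, mem_singleton, not_or] at hl
  rcases key i l (Ne.symm hl.1) with h | h
  · exact hne h
  · exact hl.2 h.symm

/-- The weight form. -/
def wtQ (y : Ω → ZMod 2) : ZMod 2 :=
  (((univ.filter fun i => y i ≠ 0).card / 2 : ℕ) : ZMod 2)

theorem wtQ_permV (π : Equiv.Perm Ω) (y : Ω → ZMod 2) : wtQ (permV π y) = wtQ y := by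
  unfold wtQ
  congr 2
  apply Finset.card_bij (fun i _ => π⁻¹ i)
  · intro i hi
    rw [Finset.mem_filter] at *
    exact ⟨Finset.mem_univ _, hi.2⟩
  · intro i _ j _ h
    exact π⁻¹.injective h
  · intro j hj
    rw [Finset.mem_filter] at hj
    refine ⟨π j, ?_, by simp⟩
    rw [Finset.mem_filter]
    refine ⟨Finset.mem_univ _, ?_⟩
    simpa using hj.2

theorem permV_swap {i j : Ω} (hij : i ≠ j) (y : Ω → ZMod 2) :
    permV (Equiv.swap i j) y = y + dotP y (pairV i j) • pairV i j := by
  have hdot : dotP y (pairV i j) = y i + y j := by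
    simp only [dotP, pairV, Pi.add_apply, mul_add, Finset.sum_add_distrib]
    simp [Pi.single_apply]
  have h2 : ∀ x : ZMod 2, x + x = 0 := by decide
  rw [hdot]
  funext l
  simp only [permV_apply, Equiv.swap_inv, Pi.add_apply, Pi.smul_apply, smul_eq_mul, pairV, Pi.single_apply]
  by_cases h1 : l = i
  · subst h1
    rw [Equiv.swap_apply_left, if_pos rfl, if_neg hij]
    linear_combination - h2 (y l)
  · by_cases h3 : l = j
    · subst h3
      rw [Equiv.swap_apply_right, if_neg (Ne.symm hij), if_pos rfl]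
      linear_combination - h2 (y l)
    · rw [Equiv.swap_apply_of_ne_of_ne h1 h3, if_neg h1, if_neg h3]
      ring

section Refl

variable {Q : (β → ZMod 2) → ZMod 2} (hQ : IsNondegenerateQuadraticForm Q)

theorem homG_isom (hF : Frame A D) {Qw : (Ω → ZMod 2) → ZMod 2}
    (hQw : ∀ y, ∑ i, y i = 0 → Q (tauL D y) = Qw y) (hinv : ∀ π y, Qw (permV π y) = Qw y)
    (π : Equiv.Perm Ω) : QIsom Q (homG hF π) := by
  intro v
  rw [homG_mulVec, actL_apply A D, hQw _ (by rw [sum_permV, sum_sig hF]), hinv,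
    ← hQw _ (sum_sig hF v), tau_sig hF]

theorem homG_swap (hF : Frame A D)
    (hpol : ∀ u y, ∑ i, y i = 0 → dotP (sigL A u) y = QuadraticMap.polar Q u (tauL D y))
    {i j : Ω} (hij : i ≠ j) (hv : Q (tauL D (pairV i j)) ≠ 0) :
    homG hF (Equiv.swap i j) = rf hQ (tauL D (pairV i j)) := by
  apply gl_ext_mulVec
  intro u
  have h1 : ∀ x : ZMod 2, x ≠ 0 → x = 1 := by decide
  have h2 : ∀ x : ZMod 2, - x = x := by decide
  rw [homG_mulVec, actL_apply A D, permV_swap hij, map_add, map_smul, tau_sig hF, hpol _ _ (sum_pairV i j),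
    rf_mulVec hQ hv, h1 _ hv, div_one, sub_eq_add_neg, ← neg_smul, h2]

theorem homG_surj (hF : Frame A D) {Qw : (Ω → ZMod 2) → ZMod 2}
    (hpol : ∀ u y, ∑ i, y i = 0 → dotP (sigL A u) y = QuadraticMap.polar Q u (tauL D y))
    (hall : ∀ v, Q v ≠ 0 → ∃ i j, i ≠ j ∧ tauL D (pairV i j) = v)
    {g : GL β (ZMod 2)} (hg : g ∈ rfG hQ) : ∃ π, homG hF π = g := by
  have hle : rfG hQ ≤ (homG hF).range := by
    refine (Subgroup.closure_le _).2 ?_
    rintro _ ⟨a, ha, rfl⟩
    obtain ⟨i, j, hij, rfl⟩ := hall a ha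
    exact ⟨Equiv.swap i j, homG_swap hQ hF hpol hij ha⟩
  exact hle hg

/-- The final isomorphism. -/
theorem exists_equiv (hF : Frame A D) (hN : 5 ≤ Fintype.card Ω) {Qw : (Ω → ZMod 2) → ZMod 2}
    (hQw : ∀ y, ∑ i, y i = 0 → Q (tauL D y) = Qw y) (hinv : ∀ π y, Qw (permV π y) = Qw y)
    (hpol : ∀ u y, ∑ i, y i = 0 → dotP (sigL A u) y = QuadraticMap.polar Q u (tauL D y))
    (hall : ∀ v, Q v ≠ 0 → ∃ i j, i ≠ j ∧ tauL D (pairV i j) = v)
    (hgen : ∀ g : GL β (ZMod 2), QIsom Q g → g ∈ rfG hQ) :
    Nonempty (isometryGroup (ZMod 2) Q ≃* Equiv.Perm Ω) := by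
  let f : Equiv.Perm Ω →* isometryGroup (ZMod 2) Q :=
    (homG hF).codRestrict _ (fun π => mem_isometryGroup_iff.2 (homG_isom hF hQw hinv π))
  have hbij : Function.Bijective f := by
    constructor
    · intro x y hxy
      exact homG_injective hF hN (congrArg Subtype.val hxy)
    · rintro ⟨g, hg⟩
      obtain ⟨π, hπ⟩ := homG_surj (Qw := Qw) hQ hF hpol hall (hgen g (mem_isometryGroup_iff.1 hg))
      exact ⟨π, Subtype.ext hπ⟩
  exact ⟨(MulEquiv.ofBijective f hbij).symm⟩

end Refl

end Frame

end Cfsg.Agent.Lib.EvenWeight
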