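import Mathlib
import Cfsg.Agent.Lib.H5Basic
import Cfsg.Agent.Lib.H6PGroup
import Cfsg.Prelude.Def_Transfer
import Cfsg.Prelude.Def_TwoFusion

/-!
The centre of an extraspecial Sylow subgroup of order `p³` and exponent `p²` (`p` odd) is strongly
closed.
-/

set_option autoImplicit false
set_option linter.unusedVariables false
set_option linter.style.haveILetI false
set_option linter.unusedSectionVars false

namespace Cfsg.Agent.Lib.ExtraCenterClosed

open Cfsg
open scoped commutatorElement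

variable {G : Type*} [Group G]

/-- The class two power formula. -/
theorem mul_pow_class_two (x y c : G) (hc : y * x = c * (x * y)) (hcx : Commute c x) (hcy : Commute c y)
    (n : ℕ) : (x * y) ^ n = x ^ n * y ^ n * c ^ (n.choose 2) := by
  have hyn : ∀ m : ℕ, y ^ m * x = c ^ m * (x * y ^ m) := by
    intro m
    induction m with
    | zero => simp
    | succ m ih =>
      rw [pow_succ, mul_assoc, hc, ← mul_assoc, ← mul_assoc, (hcy.pow_right m).symm.eq, mul_assoc,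
        mul_assoc, ← mul_assoc (y ^ m), ih]
      calc c * (c ^ m * (x * y ^ m) * y) = (c * c ^ m) * (x * (y ^ m * y)) := by
            simp only [mul_assoc]
        _ = c ^ m * c * (x * (y ^ m * y)) := by rw [((Commute.refl c).pow_right m).eq]
        _ = c ^ (m + 1) * (x * (y ^ m * y)) := by rw [pow_succ]
  induction n with
  | zero => simp
  | succ n ih =>
    have hch : (n + 1).choose 2 = n + n.choose 2 := by
      rw [Nat.choose_succ_succ' n 1, Nat.choose_one_right]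
    rw [pow_succ, ih, hch, pow_add c]
    have hcC : Commute (c ^ n.choose 2) (x * y) := (hcx.mul_right hcy).pow_left _
    calc x ^ n * y ^ n * c ^ n.choose 2 * (x * y)
        = x ^ n * y ^ n * ((x * y) * c ^ n.choose 2) := by rw [mul_assoc (x ^ n * y ^ n), hcC.eq]
      _ = x ^ n * (y ^ n * x) * y * c ^ n.choose 2 := by simp only [mul_assoc]
      _ = x ^ n * (c ^ n * (x * y ^ n)) * y * c ^ n.choose 2 := by rw [hyn]
      _ = (x ^ n * c ^ n) * (x * y ^ n * y) * c ^ n.choose 2 := by simp only [mul_assoc]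
      _ = (c ^ n * x ^ n) * (x * y ^ n * y) * c ^ n.choose 2 := by
          rw [((hcx.pow_left n).pow_right n).eq]
      _ = x ^ (n + 1) * y ^ (n + 1) * (c ^ n * c ^ n.choose 2) := by
          have h1 : Commute (c ^ n) (x ^ n * (x * y ^ n * y)) :=
            ((hcx.pow_left n).pow_right n).mul_right
              (((hcx.pow_left n).mul_right (hcy.pow_left n |>.pow_right n)).mul_right (hcy.pow_left n))
          calc (c ^ n * x ^ n) * (x * y ^ n * y) * c ^ n.choose 2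
              = (c ^ n * (x ^ n * (x * y ^ n * y))) * c ^ n.choose 2 := by simp only [mul_assoc]
            _ = ((x ^ n * (x * y ^ n * y)) * c ^ n) * c ^ n.choose 2 := by rw [h1.eq]
            _ = _ := by
              rw [pow_succ x, pow_succ y]
              simp only [mul_assoc]

section core

variable [Finite G] {p : ℕ} [Fact p.Prime]

theorem core (hp : p ≠ 2) (P : Sylow p G) (Z₀ : Subgroup G) (hZP : Z₀ ≤ (P : Subgroup G))
    (hzc : ∀ w ∈ Z₀, ∀ x ∈ (P : Subgroup G), w * x = x * w)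
    (hZcard : Nat.card Z₀ = p)
    (hcomm : ∀ x ∈ (P : Subgroup G), ∀ y ∈ (P : Subgroup G), x * y * x⁻¹ * y⁻¹ ∈ Z₀)
    (hpow : ∀ x ∈ (P : Subgroup G), x ^ p ∈ Z₀)
    (hcent : ∀ x ∈ (P : Subgroup G), (∀ y ∈ (P : Subgroup G), x * y = y * x) → x ∈ Z₀)
    (hcard : Nat.card (P : Subgroup G) = p ^ 3)
    (y : G) (hyP : y ∈ (P : Subgroup G)) (hy : y ^ p ≠ 1)
    (z : G) (hz : z ∈ Z₀) (g : G) (ha : g * z * g⁻¹ ∈ (P : Subgroup G)) :
    g * z * g⁻¹ ∈ Z₀ := by
  classical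
  have hpp : p.Prime := Fact.out
  by_contra haZ
  set a := g * z * g⁻¹ with hadef
  have hz1 : z ≠ 1 := by
    rintro rfl
    apply haZ
    rw [hadef]
    simp [Z₀.one_mem]
  have hZpow : ∀ w ∈ Z₀, w ^ p = 1 := by
    intro w hw
    have h3 : (⟨w, hw⟩ : Z₀) ^ Nat.card Z₀ = 1 := pow_card_eq_one'
    rw [hZcard] at h3
    exact congrArg Subtype.val h3
  have hgen : ∀ w₀ ∈ Z₀, w₀ ≠ 1 → ∀ w ∈ Z₀, ∃ i : ℕ, w = w₀ ^ i := by
    intro w₀ hw₀ hne w hw
    have ho : orderOf w₀ = p := orderOf_eq_prime (hZpow w₀ hw₀) hne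
    have hle : Subgroup.zpowers w₀ ≤ Z₀ := (Subgroup.zpowers_le).2 hw₀
    have heq : Subgroup.zpowers w₀ = Z₀ := by
      apply Subgroup.eq_of_le_of_card_ge hle
      rw [Nat.card_zpowers, ho, hZcard]
    rw [← heq] at hw
    rw [← mem_powers_iff_mem_zpowers] at hw
    obtain ⟨i, hi⟩ := hw
    exact ⟨i, hi.symm⟩
  have hzp : z ^ p = 1 := hZpow z hz
  have hzo : orderOf z = p := orderOf_eq_prime hzp hz1
  have hzcP : ∀ x ∈ (P : Subgroup G), Commute x z := fun x hx => (hzc z hz x hx).symm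
  -- the power map
  have hpowhom : ∀ x ∈ (P : Subgroup G), ∀ x' ∈ (P : Subgroup G), (x * x') ^ p = x ^ p * x' ^ p := by
    intro x hx x' hx'
    let c := x' * x * x'⁻¹ * x⁻¹
    have hcZ : c ∈ Z₀ := hcomm x' hx' x hx
    have hc : x' * x = c * (x * x') := by
      simp only [c]
      group
    have h1 := mul_pow_class_two x x' c hc (hzc c hcZ x hx) (hzc c hcZ x' hx') p
    rw [h1]
    have hodd : p ∣ p.choose 2 := by
      apply hpp.dvd_choose_self (by norm_num)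
      have := hpp.two_le
      omega
    obtain ⟨e, he⟩ := hodd
    rw [he, pow_mul, hZpow c hcZ, one_pow, mul_one]
  let A : Subgroup G :=
    { carrier := {x | x ∈ (P : Subgroup G) ∧ x ^ p = 1}
      one_mem' := ⟨Subgroup.one_mem _, one_pow _⟩
      mul_mem' := by
        rintro x x' ⟨hx, hx1⟩ ⟨hx', hx1'⟩
        exact ⟨Subgroup.mul_mem _ hx hx', by rw [hpowhom x hx x' hx', hx1, hx1', one_mul]⟩
      inv_mem' := by
        rintro x ⟨hx, hx1⟩
        exact ⟨Subgroup.inv_mem _ hx, by rw [inv_pow, hx1, inv_one]⟩ }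
  have hAmem : ∀ x, x ∈ A ↔ x ∈ (P : Subgroup G) ∧ x ^ p = 1 := fun x => Iff.rfl
  have hAP : A ≤ (P : Subgroup G) := fun x hx => hx.1
  have hZA : Z₀ ≤ A := fun w hw => ⟨hZP hw, hZpow w hw⟩
  -- order of `A`
  have hAcard : Nat.card A = p ^ 2 := by
    let φ : (P : Subgroup G) →* (P : Subgroup G) :=
      { toFun := fun x => x ^ p
        map_one' := one_pow _
        map_mul' := fun x x' => Subtype.ext (by
          simpa using hpowhom x x.2 x' x'.2) }
    have hφ : ∀ x, φ x = x ^ p := fun x => rfl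
    have h1 : Nat.card φ.ker * Nat.card φ.range = p ^ 3 := by
      rw [← Subgroup.index_ker, Subgroup.card_mul_index, hcard]
    have h2 : Nat.card φ.range = p := by
      have hle' : Nat.card φ.range ≤ Nat.card Z₀ := by
        apply Nat.card_le_card_of_injective (fun x : φ.range => (⟨(x : (P : Subgroup G)), by
          obtain ⟨x', hx'⟩ := x.2
          rw [← hx', hφ]
          exact hpow _ x'.2⟩ : Z₀))
        intro u v huv
        have := congrArg Subtype.val huv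
        exact Subtype.ext (Subtype.ext this)
      have hle : Nat.card φ.range ≤ p := hle'.trans hZcard.le
      have hd : Nat.card φ.range ∣ p ^ 3 := ⟨_, by rw [← h1, mul_comm]⟩
      obtain ⟨i, hi, hie⟩ := (Nat.dvd_prime_pow hpp).1 hd
      have hne : Nat.card φ.range ≠ 1 := by
        intro h
        have h3 : φ ⟨y, hyP⟩ ∈ φ.range := ⟨_, rfl⟩
        have : Subsingleton φ.range := (Nat.card_eq_one_iff_unique.1 h).1
        have h4 := Subsingleton.elim (⟨_, h3⟩ : φ.range) 1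
        have h5 := congrArg (fun x : φ.range => ((x : (P : Subgroup G)) : G)) h4
        have h6 : ((φ ⟨y, hyP⟩ : (P : Subgroup G)) : G) = 1 := h5
        exact hy h6
      rcases i with _ | _ | i
      · rw [pow_zero] at hie
        exact absurd hie hne
      · rw [hie]; exact pow_one p
      · exfalso
        rw [hie] at hle
        have h7 : p ^ 1 < p ^ (i + 1 + 1) := Nat.pow_lt_pow_right hpp.one_lt (by omega)
        rw [pow_one] at h7
        omega
    have h3 : Nat.card φ.ker = p ^ 2 := by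
      rw [h2] at h1
      have : Nat.card φ.ker * p = p ^ 2 * p := by rw [h1]; ring
      exact Nat.eq_of_mul_eq_mul_right hpp.pos this
    rw [← h3]
    apply Nat.card_congr
    exact
      { toFun := fun x => ⟨⟨x.1, x.2.1⟩, by
          rw [MonoidHom.mem_ker]
          exact Subtype.ext x.2.2⟩
        invFun := fun x => ⟨x.1.1, x.1.2, by
          have h4 := MonoidHom.mem_ker.1 x.2
          have := congrArg Subtype.val h4
          simpa [hφ] using this⟩
        left_inv := fun x => rfl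
        right_inv := fun x => rfl }
  have haA : a ∈ A := by
    refine ⟨ha, ?_⟩
    rw [hadef, conj_pow, hzp]
    simp
  have hAcomm : ∀ v ∈ A, ∀ w ∈ A, v * w = w * v := by
    intro v hv w hw
    have := IsPGroup.commutative_of_card_eq_prime_sq (p := p) hAcard ⟨v, hv⟩ ⟨w, hw⟩
    exact congrArg Subtype.val this
  -- conjugating `A` into `P`, sending `a` to `z`
  let K₀ : Subgroup G := Subgroup.centralizer {z}
  have hK₀ : ∀ u : G, u ∈ K₀ ↔ Commute u z := fun u =>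
    Subgroup.mem_centralizer_singleton_iff.trans ⟨fun h => h, fun h => h⟩
  have hPK₀ : (P : Subgroup G) ≤ K₀ := fun x hx => (hK₀ x).2 (hzcP x hx)
  have hAK₀ : ∀ v ∈ A, g⁻¹ * v * g ∈ K₀ := by
    intro v hv
    rw [hK₀]
    have h1 := hAcomm v hv a haA
    have h2 : (g⁻¹ * v * g) * z = g⁻¹ * (v * a) * g := by
      rw [hadef]; group
    have h3 : z * (g⁻¹ * v * g) = g⁻¹ * (a * v) * g := by
      rw [hadef]; group
    change (g⁻¹ * v * g) * z = z * (g⁻¹ * v * g)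
    rw [h2, h3, h1]
  let A' : Subgroup K₀ :=
    { carrier := {u | g * (u : G) * g⁻¹ ∈ A}
      one_mem' := by
        change g * ((1 : K₀) : G) * g⁻¹ ∈ A
        simp [A.one_mem]
      mul_mem' := by
        intro u v hu hv
        change g * ((u * v : K₀) : G) * g⁻¹ ∈ A
        have : g * ((u * v : K₀) : G) * g⁻¹ = (g * (u : G) * g⁻¹) * (g * (v : G) * g⁻¹) := by
          simp only [Subgroup.coe_mul]
          group
        rw [this]
        exact A.mul_mem hu hv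
      inv_mem' := by
        intro u hu
        change g * ((u⁻¹ : K₀) : G) * g⁻¹ ∈ A
        have : g * ((u⁻¹ : K₀) : G) * g⁻¹ = (g * (u : G) * g⁻¹)⁻¹ := by
          simp only [Subgroup.coe_inv]
          group
        rw [this]
        exact A.inv_mem hu }
  have hA'p : IsPGroup p A' := by
    intro u
    have hu : g * ((u : K₀) : G) * g⁻¹ ∈ A := u.2
    refine ⟨1, ?_⟩
    apply Subtype.ext
    apply Subtype.ext
    have h1 := hu.2
    rw [conj_pow] at h1
    have h2 : ((u : K₀) : G) ^ p = 1 := by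
      have e : ((u : K₀) : G) ^ p = g⁻¹ * (g * ((u : K₀) : G) ^ p * g⁻¹) * g := by group
      rw [e, h1]
      group
    simpa using h2
  obtain ⟨S₀, hS₀⟩ := hA'p.exists_le_sylow
  obtain ⟨c, hc⟩ := MulAction.exists_smul_eq K₀ S₀ (P.subtype hPK₀)
  let h : G := (c : G) * g⁻¹
  have hhaz : h * a * h⁻¹ = z := by
    have h1 : Commute (c : G) z := (hK₀ _).1 c.2
    have : h * a * h⁻¹ = (c : G) * z * (c : G)⁻¹ := by
      simp only [h, hadef]
      group
    rw [this, h1.eq]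
    group
  have hhA : ∀ v ∈ A, h * v * h⁻¹ ∈ A := by
    intro v hv
    have hu : g⁻¹ * v * g ∈ K₀ := hAK₀ v hv
    have hmem : (⟨g⁻¹ * v * g, hu⟩ : K₀) ∈ A' := by
      change g * (g⁻¹ * v * g) * g⁻¹ ∈ A
      have : g * (g⁻¹ * v * g) * g⁻¹ = v := by group
      rwa [this]
    have h1 := Cfsg.Agent.Lib.H5Basic.conj_mem_smul_sylow S₀ c _ (hS₀ hmem)
    rw [hc, Sylow.coe_subtype, Subgroup.mem_subgroupOf] at h1
    have h2 : h * v * h⁻¹ = ((c * ⟨g⁻¹ * v * g, hu⟩ * c⁻¹ : K₀) : G) := by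
      simp only [h, Subgroup.coe_mul, Subgroup.coe_inv]
      group
    rw [h2]
    refine ⟨h1, ?_⟩
    rw [← h2, conj_pow, hv.2]
    simp
  have hhAeq : A.map (MulAut.conj h).toMonoidHom = A := by
    apply Subgroup.eq_of_le_of_card_ge
    · rintro _ ⟨v, hv, rfl⟩
      exact hhA v hv
    · rw [Subgroup.card_map_of_injective (MulAut.conj h).injective]
  have hhAi : ∀ v ∈ A, h⁻¹ * v * h ∈ A := by
    intro v hv
    rw [← hhAeq] at hv
    obtain ⟨w, hw, rfl⟩ := hv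
    have : h⁻¹ * ((MulAut.conj h).toMonoidHom w) * h = w := by
      change h⁻¹ * (h * w * h⁻¹) * h = w
      group
    rwa [this]
  -- generator facts
  have hyZ := hgen (y ^ p) (hpow y hyP) hy
  have hrep : ∀ x ∈ (P : Subgroup G), ∃ (l : ℕ), ∃ v ∈ A, x = y ^ l * v := by
    intro x hx
    obtain ⟨l, hl⟩ := hyZ (x ^ p) (hpow x hx)
    refine ⟨l, (y ^ l)⁻¹ * x, ⟨Subgroup.mul_mem _ (Subgroup.inv_mem _ (Subgroup.pow_mem _ hyP l)) hx, ?_⟩, by group⟩
    rw [hpowhom _ (Subgroup.inv_mem _ (Subgroup.pow_mem _ hyP l)) x hx, hl, inv_pow, ← pow_mul, ← pow_mul,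
      mul_comm l p]
    simp
  have hcentA : ∀ v ∈ A, y * v = v * y → v ∈ Z₀ := by
    intro v hv hyv
    apply hcent v hv.1
    intro x hx
    obtain ⟨l, w, hw, rfl⟩ := hrep x hx
    have h1 : Commute v (y ^ l) := (Commute.pow_right (Commute.symm hyv) l)
    have h2 := hAcomm v hv w hw
    calc v * (y ^ l * w) = (v * y ^ l) * w := by group
      _ = y ^ l * (v * w) := by rw [h1.eq]; group
      _ = y ^ l * w * v := by rw [h2]; group
  have hcomA : ∀ v ∈ A, ∃ i : ℕ, y * v * y⁻¹ = v * z ^ i := by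
    intro v hv
    have h1 := hcomm v⁻¹ (Subgroup.inv_mem _ hv.1) y hyP
    obtain ⟨i, hi⟩ := hgen z hz hz1 _ h1
    refine ⟨i, ?_⟩
    rw [← hi]
    group
  obtain ⟨α, hα⟩ := hcomA a haA
  have hαp : ¬ p ∣ α := by
    intro hd
    obtain ⟨e, rfl⟩ := hd
    rw [pow_mul, hzp, one_pow, mul_one, mul_inv_eq_iff_eq_mul] at hα
    exact haZ (hcentA a haA hα)
  set b := h * z * h⁻¹ with hb
  have hbA : b ∈ A := hhA z (hZA hz)
  obtain ⟨γ, hγ⟩ := hcomA b hbA
  have hzh : h⁻¹ * z * h = a := by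
    rw [← hhaz]
    group
  have hγp : ¬ p ∣ γ := by
    intro hd
    obtain ⟨e, rfl⟩ := hd
    rw [pow_mul, hzp, one_pow, mul_one, mul_inv_eq_iff_eq_mul] at hγ
    have hbZ := hcentA b hbA hγ
    obtain ⟨i, hi⟩ := hgen z hz hz1 b hbZ
    have h1 : z = a ^ i := by
      have h2 : h⁻¹ * b * h = z := by
        rw [hb]; group
      rw [hi] at h2
      have h3 : h⁻¹ * z ^ i * h = (h⁻¹ * z * h) ^ i := by
        have := conj_pow (a := h⁻¹) (b := z) (i := i)
        simpa using this.symm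
      rw [← h2, h3, hzh]
    have hap : a ^ p = 1 := haA.2
    have hpi : ¬ p ∣ i := by
      intro hd
      obtain ⟨e, rfl⟩ := hd
      rw [pow_mul, hap, one_pow] at h1
      exact hz1 h1
    obtain ⟨i', _, hi'⟩ := Nat.exists_mul_mod_eq_one_of_coprime
      ((Nat.Prime.coprime_iff_not_dvd hpp).2 hpi).symm hpp.one_lt
    have h2 : a = z ^ i' := by
      have h3 := pow_eq_pow_mod (i * i') hap
      rw [hi', pow_one] at h3
      rw [h1, ← pow_mul, h3]
    apply haZ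
    rw [h2]
    exact Z₀.pow_mem hz i'
  obtain ⟨y₂, hy₂⟩ : ∃ y₂, y₂ = h⁻¹ * y * h := ⟨_, rfl⟩
  have hyz : y * z * y⁻¹ = z := by
    rw [(hzcP y hyP).eq]
    group
  have hy₂a : y₂ * a * y₂⁻¹ = a := by
    have e : y₂ * a * y₂⁻¹ = h⁻¹ * (y * (h * a * h⁻¹) * y⁻¹) * h := by
      rw [hy₂]; group
    rw [e, hhaz, hyz, hzh]
  have hy₂z : y₂ * z * y₂⁻¹ = z * a ^ γ := by
    have e : y₂ * z * y₂⁻¹ = h⁻¹ * (y * b * y⁻¹) * h := by
      rw [hy₂, hb]; group
    rw [e, hγ]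
    have e2 : h⁻¹ * (b * z ^ γ) * h = (h⁻¹ * b * h) * (h⁻¹ * z ^ γ * h) := by group
    have h3 : h⁻¹ * z ^ γ * h = (h⁻¹ * z * h) ^ γ := by
      have := conj_pow (a := h⁻¹) (b := z) (i := γ)
      simpa using this.symm
    have h4 : h⁻¹ * b * h = z := by
      rw [hb]; group
    rw [e2, h3, h4, hzh]
  have hcop : (γ * α).Coprime p := by
    apply Nat.Coprime.mul_left
    · exact ((Nat.Prime.coprime_iff_not_dvd hpp).2 hγp).symm
    · exact ((Nat.Prime.coprime_iff_not_dvd hpp).2 hαp).symm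
  obtain ⟨k₁, _, hk₁⟩ := Nat.exists_mul_mod_eq_one_of_coprime hcop hpp.one_lt
  obtain ⟨k, hk⟩ : ∃ k, k = k₁ * (p - 1) := ⟨_, rfl⟩
  obtain ⟨κ, hκ⟩ : ∃ κ, κ = k * γ := ⟨_, rfl⟩
  have hE : (κ * α) % p = p - 1 := by
    have e : κ * α = ((γ * α) * k₁) * (p - 1) := by
      rw [hκ, hk]; ring
    rw [e, Nat.mul_mod, hk₁, one_mul, Nat.mod_mod]
    exact Nat.mod_eq_of_lt (by have := hpp.pos; omega)
  have hinvpow : ∀ v : G, v ^ p = 1 → v ^ (κ * α) = v⁻¹ := by
    intro v hv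
    rw [pow_eq_pow_mod (κ * α) hv, hE]
    rw [eq_inv_iff_mul_eq_one, ← pow_succ, Nat.sub_add_cancel hpp.pos, hv]
  have haz : Commute a z := hzcP a ha
  have hapow : a ^ p = 1 := haA.2
  have hyk_a : y₂ ^ k * a * (y₂ ^ k)⁻¹ = a := by
    have h1 : Commute y₂ a := by
      rw [mul_inv_eq_iff_eq_mul] at hy₂a
      exact hy₂a
    rw [(h1.pow_left k).eq]
    group
  have hyk_z : ∀ m : ℕ, y₂ ^ m * z * (y₂ ^ m)⁻¹ = z * a ^ (m * γ) := by
    intro m
    induction m with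
    | zero => simp
    | succ m ih =>
      have e : y₂ ^ (m + 1) * z * (y₂ ^ (m + 1))⁻¹ = y₂ * (y₂ ^ m * z * (y₂ ^ m)⁻¹) * y₂⁻¹ := by
        rw [pow_succ']; group
      rw [e, ih]
      have e2 : y₂ * (z * a ^ (m * γ)) * y₂⁻¹ = (y₂ * z * y₂⁻¹) * (y₂ * a ^ (m * γ) * y₂⁻¹) := by group
      rw [e2, ← conj_pow, hy₂z, hy₂a, mul_assoc, ← pow_add]
      congr 2
      ring
  obtain ⟨w, hw⟩ : ∃ w, w = y * y₂ ^ k * y := ⟨_, rfl⟩
  have hzκ : (z ^ α) ^ κ = z⁻¹ := by
    rw [← pow_mul, mul_comm, hinvpow z hzp]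
  have haκ : (a ^ κ) ^ α = a⁻¹ := by
    rw [← pow_mul, hinvpow a hapow]
  have hw_z : w * z * w⁻¹ = a ^ κ := by
    have e : w * z * w⁻¹ = y * (y₂ ^ k * (y * z * y⁻¹) * (y₂ ^ k)⁻¹) * y⁻¹ := by
      rw [hw]; group
    rw [e, hyz, hyk_z k, ← hκ]
    have e2 : y * (z * a ^ κ) * y⁻¹ = (y * z * y⁻¹) * (y * a ^ κ * y⁻¹) := by group
    rw [e2, ← conj_pow, hyz, hα]
    have hc : Commute a (z ^ α) := haz.pow_right α
    rw [hc.mul_pow, hzκ]
    have hc2 : Commute z (a ^ κ) := (haz.pow_left κ).symm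
    rw [← mul_assoc, hc2.eq]
    group
  have hw_a : w * a * w⁻¹ = z ^ α := by
    have e : w * a * w⁻¹ = y * (y₂ ^ k * (y * a * y⁻¹) * (y₂ ^ k)⁻¹) * y⁻¹ := by
      rw [hw]; group
    rw [e, hα]
    have e2 : y₂ ^ k * (a * z ^ α) * (y₂ ^ k)⁻¹ =
        (y₂ ^ k * a * (y₂ ^ k)⁻¹) * (y₂ ^ k * z ^ α * (y₂ ^ k)⁻¹) := by group
    rw [e2, ← conj_pow, hyk_a, hyk_z k, ← hκ]
    have hc : Commute z (a ^ κ) := (haz.pow_left κ).symm
    rw [hc.mul_pow, haκ]
    have e3 : a * (z ^ α * a⁻¹) = z ^ α := by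
      have h1 : Commute a (z ^ α) := haz.pow_right α
      rw [← mul_assoc, h1.eq]
      group
    rw [e3, ← conj_pow, hyz]
  obtain ⟨u, hu⟩ : ∃ u, u = w * w := ⟨_, rfl⟩
  have hu_z : u * z * u⁻¹ = z⁻¹ := by
    have e : u * z * u⁻¹ = w * (w * z * w⁻¹) * w⁻¹ := by
      rw [hu]; group
    rw [e, hw_z, ← conj_pow, hw_a, hzκ]
  have hu_a : u * a * u⁻¹ = a⁻¹ := by
    have e : u * a * u⁻¹ = w * (w * a * w⁻¹) * w⁻¹ := by
      rw [hu]; group
    rw [e, hw_a, ← conj_pow, hw_z, haκ]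
  -- `u` inverts `A`
  let B : Subgroup G :=
    { carrier := {v | v ∈ A ∧ u * v * u⁻¹ = v⁻¹}
      one_mem' := ⟨A.one_mem, by simp⟩
      mul_mem' := by
        rintro v v' ⟨hv, hv1⟩ ⟨hv', hv1'⟩
        refine ⟨A.mul_mem hv hv', ?_⟩
        have e : u * (v * v') * u⁻¹ = (u * v * u⁻¹) * (u * v' * u⁻¹) := by group
        rw [e, hv1, hv1', mul_inv_rev]
        exact hAcomm _ (A.inv_mem hv) _ (A.inv_mem hv')
      inv_mem' := by
        rintro v ⟨hv, hv1⟩
        refine ⟨A.inv_mem hv, ?_⟩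
        have e : u * v⁻¹ * u⁻¹ = (u * v * u⁻¹)⁻¹ := by group
        rw [e, hv1] }
  have hzB : z ∈ B := ⟨hZA hz, hu_z⟩
  have haB : a ∈ B := ⟨haA, hu_a⟩
  have hZB : Z₀ ≤ B := by
    intro v hv
    obtain ⟨i, rfl⟩ := hgen z hz hz1 v hv
    exact B.pow_mem hzB i
  have hBA : B ≤ A := fun v hv => hv.1
  have hBeq : B = A := by
    apply Subgroup.eq_of_le_of_card_ge hBA
    have h1 : Nat.card Z₀ ∣ Nat.card B := Subgroup.card_dvd_of_le hZB
    have h2 : Nat.card B ∣ Nat.card A := Subgroup.card_dvd_of_le hBA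
    rw [hAcard] at h2 ⊢
    rw [hZcard] at h1
    obtain ⟨j, hj, hje⟩ := (Nat.dvd_prime_pow hpp).1 h2
    interval_cases j
    · rw [pow_zero] at hje
      rw [hje] at h1
      exact absurd (Nat.dvd_one.1 h1) hpp.one_lt.ne'
    · exfalso
      apply haZ
      have : Z₀ = B := by
        apply Subgroup.eq_of_le_of_card_ge hZB
        rw [hje, hZcard, pow_one]
      rw [this]
      exact haB
    · exact hje.ge
  have hinvA : ∀ v ∈ A, u * v * u⁻¹ = v⁻¹ := by
    intro v hv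
    rw [← hBeq] at hv
    exact hv.2
  have huinv : ∀ v ∈ A, u⁻¹ * v * u = v⁻¹ := by
    intro v hv
    have h1 := hinvA v⁻¹ (A.inv_mem hv)
    rw [inv_inv] at h1
    calc u⁻¹ * v * u = u⁻¹ * (u * v⁻¹ * u⁻¹) * u := by rw [h1]
      _ = v⁻¹ := by group
  have hPA : ∀ x ∈ (P : Subgroup G), ∀ v ∈ A, x * v * x⁻¹ ∈ A := by
    intro x hx v hv
    refine ⟨Subgroup.mul_mem _ (Subgroup.mul_mem _ hx hv.1) (Subgroup.inv_mem _ hx), ?_⟩
    rw [conj_pow, hv.2]
    simp
  let K : Subgroup G :=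
    { carrier := {l | ∃ x ∈ (P : Subgroup G), ∀ v ∈ A, l * v * l⁻¹ = x * v * x⁻¹}
      one_mem' := ⟨1, Subgroup.one_mem _, fun v _ => rfl⟩
      mul_mem' := by
        rintro l l' ⟨x, hx, h1⟩ ⟨x', hx', h2⟩
        refine ⟨x * x', Subgroup.mul_mem _ hx hx', fun v hv => ?_⟩
        have e : l * l' * v * (l * l')⁻¹ = l * (l' * v * l'⁻¹) * l⁻¹ := by group
        rw [e, h2 v hv, h1 _ (hPA x' hx' v hv)]
        group
      inv_mem' := by
        rintro l ⟨x, hx, h1⟩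
        refine ⟨x⁻¹, Subgroup.inv_mem _ hx, fun v hv => ?_⟩
        have hv' : x⁻¹ * v * x ∈ A := by
          have := hPA x⁻¹ (Subgroup.inv_mem _ hx) v hv
          simpa using this
        have h2 := h1 _ hv'
        have e : x * (x⁻¹ * v * x) * x⁻¹ = v := by group
        rw [e] at h2
        rw [inv_inv, inv_inv]
        calc l⁻¹ * v * l = l⁻¹ * (l * (x⁻¹ * v * x) * l⁻¹) * l := by rw [h2]
          _ = x⁻¹ * v * x := by group }
  have hPK : (P : Subgroup G) ≤ K := fun x hx => ⟨x, hx, fun v _ => rfl⟩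
  have hQK : ((u • P : Sylow p G) : Subgroup G) ≤ K := by
    intro x' hx'
    have hx := Cfsg.Agent.Lib.H5Basic.mem_of_mem_smul_sylow P u x' hx'
    refine ⟨u⁻¹ * x' * u, hx, fun v hv => ?_⟩
    have e : x' * v * x'⁻¹ = u * ((u⁻¹ * x' * u) * (u⁻¹ * v * u) * (u⁻¹ * x' * u)⁻¹) * u⁻¹ := by group
    rw [e, huinv v hv, hinvA _ (hPA _ hx _ (A.inv_mem hv))]
    group
  obtain ⟨l, hl⟩ := MulAction.exists_smul_eq K ((u • P : Sylow p G).subtype hQK) (P.subtype hPK)
  have hlP : ∀ x ∈ (P : Subgroup G), (l : G) * (u * x * u⁻¹) * (l : G)⁻¹ ∈ (P : Subgroup G) := by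
    intro x hx
    have hm : u * x * u⁻¹ ∈ ((u • P : Sylow p G) : Subgroup G) :=
      Cfsg.Agent.Lib.H5Basic.conj_mem_smul_sylow P u x hx
    have hm2 : (⟨u * x * u⁻¹, hQK hm⟩ : K) ∈ (((u • P : Sylow p G).subtype hQK : Sylow p K) : Subgroup K) := by
      rw [Sylow.coe_subtype, Subgroup.mem_subgroupOf]
      exact hm
    have h1 := Cfsg.Agent.Lib.H5Basic.conj_mem_smul_sylow _ l _ hm2
    rw [hl, Sylow.coe_subtype, Subgroup.mem_subgroupOf] at h1
    exact h1
  obtain ⟨x₀, hx₀, hx₀v⟩ := l.2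
  obtain ⟨u', hu'⟩ : ∃ u', u' = x₀⁻¹ * (l : G) * u := ⟨_, rfl⟩
  have hu'P : ∀ x ∈ (P : Subgroup G), u' * x * u'⁻¹ ∈ (P : Subgroup G) := by
    intro x hx
    have e : u' * x * u'⁻¹ = x₀⁻¹ * ((l : G) * (u * x * u⁻¹) * (l : G)⁻¹) * x₀ := by
      rw [hu']; group
    rw [e]
    exact Subgroup.mul_mem _ (Subgroup.mul_mem _ (Subgroup.inv_mem _ hx₀) (hlP x hx)) hx₀
  have hu'A : ∀ v ∈ A, u' * v * u'⁻¹ = v⁻¹ := by
    intro v hv
    have e : u' * v * u'⁻¹ = x₀⁻¹ * ((l : G) * (u * v * u⁻¹) * (l : G)⁻¹) * x₀ := by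
      rw [hu']; group
    rw [e, hinvA v hv, hx₀v _ (A.inv_mem hv)]
    group
  -- the final contradiction
  obtain ⟨lm, b', hb', hy'⟩ := hrep _ (hu'P y hyP)
  have hyp : y ^ p ∈ A := hZA (hpow y hyP)
  have h1 : (y ^ p) ^ (lm + 1) = 1 := by
    have h2 : (u' * y * u'⁻¹) ^ p = (y ^ p)⁻¹ := by
      rw [conj_pow, hu'A _ hyp]
    rw [hy', hpowhom _ (Subgroup.pow_mem _ hyP lm) _ hb'.1, hb'.2, mul_one, ← pow_mul, mul_comm,
      pow_mul] at h2
    rw [pow_succ, h2]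
    group
  have hypo : orderOf (y ^ p) = p := orderOf_eq_prime (hZpow _ (hpow y hyP)) hy
  have hd1 : p ∣ lm + 1 := by
    rw [← hypo]
    exact orderOf_dvd_of_pow_eq_one h1
  have hyl : ∀ m : ℕ, y ^ m * a * (y ^ m)⁻¹ = a * z ^ (α * m) := by
    intro m
    induction m with
    | zero => simp
    | succ m ih =>
      have e : y ^ (m + 1) * a * (y ^ (m + 1))⁻¹ = y * (y ^ m * a * (y ^ m)⁻¹) * y⁻¹ := by
        rw [pow_succ']; group
      rw [e, ih]
      have e2 : y * (a * z ^ (α * m)) * y⁻¹ = (y * a * y⁻¹) * (y * z ^ (α * m) * y⁻¹) := by group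
      rw [e2, ← conj_pow, hα, hyz, mul_assoc, ← pow_add]
      congr 2
      ring
  have h2 : z ^ (α * lm) = z ^ α := by
    have hA1 : u' * (y * a * y⁻¹) * u'⁻¹ = (u' * y * u'⁻¹) * (u' * a * u'⁻¹) * (u' * y * u'⁻¹)⁻¹ := by group
    rw [hα, hy', hu'A a haA] at hA1
    have hA2 : u' * (a * z ^ α) * u'⁻¹ = (u' * a * u'⁻¹) * (u' * z * u'⁻¹) ^ α := by
      rw [conj_pow]; group
    rw [hA2, hu'A a haA, hu'A z (hZA hz)] at hA1
    have hA3 : (y ^ lm * b') * a⁻¹ * (y ^ lm * b')⁻¹ = (y ^ lm * a * (y ^ lm)⁻¹)⁻¹ := by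
      have hbc := hAcomm b' hb' a⁻¹ (A.inv_mem haA)
      calc (y ^ lm * b') * a⁻¹ * (y ^ lm * b')⁻¹ = y ^ lm * (b' * a⁻¹) * b'⁻¹ * (y ^ lm)⁻¹ := by group
        _ = y ^ lm * (a⁻¹ * b') * b'⁻¹ * (y ^ lm)⁻¹ := by rw [hbc]
        _ = _ := by group
    rw [hA3, hyl lm] at hA1
    have hc : Commute (a⁻¹) ((z⁻¹) ^ α) := (haz.inv_left).inv_right.pow_right α
    have hA4 : z ^ (α * lm) = z ^ α := by
      have e1 : (a * z ^ (α * lm))⁻¹ = a⁻¹ * (z ^ (α * lm))⁻¹ := by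
        rw [mul_inv_rev]
        exact ((haz.pow_right _).inv_inv).symm.eq
      rw [e1, mul_right_inj, inv_pow] at hA1
      exact (inv_injective hA1).symm
    exact hA4
  have h3 : α * lm ≡ α * 1 [MOD p] := by
    have h4 := pow_inj_mod.1 h2
    rw [hzo] at h4
    rw [mul_one]
    exact h4
  have h4 : lm ≡ 1 [MOD p] :=
    Nat.ModEq.cancel_left_of_coprime (by
      rw [Nat.gcd_comm]
      exact ((Nat.Prime.coprime_iff_not_dvd hpp).2 hαp).symm) h3
  have h5 : lm + 1 ≡ 1 + 1 [MOD p] := h4.add_right 1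
  have h6 : p ∣ 2 := (Nat.modEq_zero_iff_dvd.1 (h5.symm.trans (Nat.modEq_zero_iff_dvd.2 hd1)))
  exact hp ((Nat.prime_dvd_prime_iff_eq hpp Nat.prime_two).1 h6)

end core

theorem main_closed {G : Type*} [Group G] [Finite G] {p : ℕ} [Fact p.Prime] (hp : p ≠ 2) (P : Sylow p G)
    (hE : Cfsg.IsExtraspecial p ↥P) (hcard : Nat.card P = p ^ 3) (hexp : Monoid.exponent ↥P = p ^ 2) :
    Cfsg.IsStronglyClosed ((Subgroup.center ↥P).map (P : Subgroup G).subtype) (P : Subgroup G) := by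
  classical
  have hpp : p.Prime := Fact.out
  obtain ⟨⟨hpg, hfr, hco⟩, hcen⟩ := hE
  set Z₀ : Subgroup G := (Subgroup.center ↥P).map (P : Subgroup G).subtype with hZ₀
  have hZP : Z₀ ≤ (P : Subgroup G) := Subgroup.map_subtype_le _
  have hmem : ∀ x : ↥P, x ∈ Subgroup.center ↥P → (x : G) ∈ Z₀ := fun x hx => ⟨x, hx, rfl⟩
  refine ⟨hZP, fun z hz g hg => ?_⟩
  obtain ⟨y, hy⟩ : ∃ y : ↥P, y ^ p ≠ 1 := by
    by_contra hcon
    push Not at hcon
    have h1 := Monoid.exponent_dvd_of_forall_pow_eq_one hcon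
    rw [hexp] at h1
    have h2 := Nat.le_of_dvd hpp.pos h1
    have h3 : p ^ 1 < p ^ 2 := Nat.pow_lt_pow_right hpp.one_lt (by norm_num)
    rw [pow_one] at h3
    omega
  refine core hp P Z₀ hZP ?_ ?_ ?_ ?_ ?_ hcard y y.2 ?_ z hz g hg
  · rintro _ ⟨w, hw, rfl⟩ x hx
    have := Subgroup.mem_center_iff.1 hw ⟨x, hx⟩
    exact (congrArg Subtype.val this).symm
  · rw [hZ₀, Subgroup.card_map_of_injective (P : Subgroup G).subtype_injective]
    exact hcen
  · intro x hx x' hx'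
    have h1 : ⁅(⟨x, hx⟩ : ↥P), (⟨x', hx'⟩ : ↥P)⁆ ∈ commutator ↥P :=
      Subgroup.commutator_mem_commutator (Subgroup.mem_top _) (Subgroup.mem_top _)
    rw [hco] at h1
    exact hmem _ h1
  · intro x hx
    have h1 := Cfsg.Agent.Lib.H6PGroup.pow_mem_frattini hpg (⟨x, hx⟩ : ↥P)
    rw [hfr] at h1
    exact hmem _ h1
  · intro x hx hc
    apply hmem ⟨x, hx⟩
    rw [Subgroup.mem_center_iff]
    intro w
    exact Subtype.ext (hc w w.2).symm
  · intro h
    apply hy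
    exact Subtype.ext h

end Cfsg.Agent.Lib.ExtraCenterClosed
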