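import Mathlib
import Cfsg.Prelude.Def_Transfer
import Cfsg.Agent.Lib.BrauerSection
import Cfsg.Agent.Lib.CharAb
import Cfsg.Agent.Lib.CharLinear

/-!
# Characters of extraspecial groups
-/

set_option autoImplicit false
set_option linter.style.haveILetI false
set_option linter.unusedSectionVars false
set_option linter.unusedVariables false

namespace Cfsg.Agent.Lib.ExtraChar

open scoped ComplexConjugate commutatorElement
open Module Cfsg Cfsg.Agent.Lib.CharOps Cfsg.Agent.Lib.CharIrr Cfsg.Agent.Lib.CharGen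
  Cfsg.Agent.Lib.BrauerSection Cfsg.Agent.Lib.CharAb Cfsg.Agent.Lib.CharLinear

universe u

variable {P : Type u} [Group P]

/-- Vanishing off the centre. -/
theorem vanish_off_center {p : ℕ} [Fact p.Prime] (hZ : Nat.card (Subgroup.center P) = p)
    (hcomm : commutator P ≤ Subgroup.center P)
    {f : P → ℂ} (hf : IsClassFunction P f) (w : P → ℂ)
    (hw : ∀ x z, z ∈ Subgroup.center P → f (x * z) = f x * w z)
    (hw1 : w 1 = 1) (hwm : ∀ x ∈ Subgroup.center P, ∀ y ∈ Subgroup.center P, w (x * y) = w x * w y)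
    {a : P} (ha : a ∈ Subgroup.center P) (hwa : w a ≠ 1) {x : P} (hx : x ∉ Subgroup.center P) : f x = 0 := by
  classical
  have hex : ∃ g : P, g * x ≠ x * g := by
    by_contra h
    push Not at h
    exact hx (Subgroup.mem_center_iff.2 h)
  obtain ⟨g, hg⟩ := hex
  set c : P := x⁻¹ * g * x * g⁻¹ with hc
  have hcm : c ∈ Subgroup.center P := by
    apply hcomm
    have h1 : ⁅x⁻¹, g⁆ ∈ commutator P := by
      rw [commutator_def]
      exact Subgroup.commutator_mem_commutator (Subgroup.mem_top _) (Subgroup.mem_top _)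
    have h2 : ⁅x⁻¹, g⁆ = c := by
      rw [commutatorElement_def, hc]; group
    rwa [h2] at h1
  have hc1 : c ≠ 1 := by
    intro h
    apply hg
    have h2 : x⁻¹ * g * x = g := by
      rw [hc, mul_inv_eq_one] at h
      exact h
    calc g * x = x * (x⁻¹ * g * x) := by group
      _ = x * g := by rw [h2]
  have hwc : w c ≠ 1 := by
    intro h
    apply hwa
    have hc1' : (⟨c, hcm⟩ : Subgroup.center P) ≠ 1 := fun h => hc1 (congrArg Subtype.val h)
    obtain ⟨k, hk⟩ := mem_powers_of_prime_card hZ hc1' (g' := ⟨a, ha⟩)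
    have hk' : c ^ k = a := congrArg Subtype.val hk
    rw [← hk']
    clear hk hk'
    induction k with
    | zero => simpa using hw1
    | succ k ih =>
      rw [pow_succ, hwm _ (Subgroup.pow_mem _ hcm k) _ hcm, ih, h, one_mul]
  have h1 : g * x * g⁻¹ = x * c := by
    rw [hc]; group
  have h2 : f (x * c) = f x := by
    rw [← h1]
    exact hf x g
  rw [hw x c hcm] at h2
  have h3 : f x * (w c - 1) = 0 := by
    rw [mul_sub, h2]; ring
  rcases mul_eq_zero.1 h3 with h4 | h4
  · exact h4
  · exact absurd (sub_eq_zero.1 h4) hwc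

variable [Fintype P]

theorem sum_of_vanish [DecidablePred (· ∈ Subgroup.center P)] {f : P → ℂ} (hf : ∀ x, x ∉ Subgroup.center P → f x = 0) (F : ℂ → ℂ) (hF : F 0 = 0) :
    ∑ x : P, F (f x) = ∑ z ∈ Finset.univ.filter (· ∈ Subgroup.center P), F (f z) := by
  classical
  rw [Finset.sum_filter_of_ne]
  intro x _ hx
  by_contra h
  exact hx (by rw [hf x h, hF])

/-- For irreducible characters of a group with centre of prime order and derived group inside the centre. -/
theorem irr_dichotomy {p : ℕ} [Fact p.Prime] (hZ : Nat.card (Subgroup.center P) = p)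
    (hcomm : commutator P = Subgroup.center P) {χ : P → ℂ} (hχ : IsIrrCharacter P χ) :
    χ 1 = 1 ∨ ((∀ x, x ∉ Subgroup.center P → χ x = 0) ∧ (χ 1) ^ 2 * (p : ℂ) = (Nat.card P : ℂ)) := by
  classical
  by_cases hker : ∀ z ∈ Subgroup.center P, χ z = χ 1
  · left
    apply degree_one_of_comm hχ
    intro x y
    apply hker
    rw [← hcomm, commutator_def]
    have : x * y * x⁻¹ * y⁻¹ = ⁅x, y⁆ := rfl
    rw [this]
    exact Subgroup.commutator_mem_commutator (Subgroup.mem_top _) (Subgroup.mem_top _)
  · right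
    push Not at hker
    obtain ⟨a, ha, haχ⟩ := hker
    have h0 : χ 1 ≠ 0 := degree_ne_zero hχ
    have hcl := IsCharacter.isClassFunction' (IsIrrCharacter.isCharacter' hχ)
    set w : P → ℂ := fun z => χ z / χ 1 with hw
    have hwm : ∀ x ∈ Subgroup.center P, ∀ y ∈ Subgroup.center P, w (x * y) = w x * w y := by
      intro x hx y hy
      simp only [hw]
      rw [irr_apply_mul_central hχ hy x]
      ring
    have hvan : ∀ x, x ∉ Subgroup.center P → χ x = 0 := by
      intro x hx
      refine vanish_off_center hZ hcomm.le hcl w (fun x z hz => ?_) (div_self h0) hwm ha ?_ hx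
      · exact irr_apply_mul_central hχ hz x
      · intro h
        apply haχ
        rw [hw] at h
        simp only at h
        rw [div_eq_one_iff_eq h0] at h
        exact h
    refine ⟨hvan, ?_⟩
    -- central values have absolute value `χ 1`
    have hnorm : ∀ z ∈ Subgroup.center P, χ z * conj (χ z) = χ 1 ^ 2 := by
      intro z hz
      have h1 : w z ^ orderOf z = 1 := by
        have : ∀ k : ℕ, w (z ^ k) = w z ^ k := by
          intro k
          induction k with
          | zero => simp [hw, h0]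
          | succ k ih => rw [pow_succ, hwm _ (Subgroup.pow_mem _ hz k) _ hz, ih, pow_succ]
        rw [← this, pow_orderOf_eq_one]
        simp [hw, h0]
      have h2 : ‖w z‖ = 1 := Complex.norm_eq_one_of_pow_eq_one h1 (orderOf_pos z).ne'
      have h3 : w z * conj (w z) = 1 := by
        rw [Complex.mul_conj, Complex.normSq_eq_norm_sq, h2]; simp
      have h4 : χ z = w z * χ 1 := by
        simp only [hw]; field_simp
      obtain ⟨d, hd⟩ := exists_degree (IsIrrCharacter.isCharacter' hχ)
      have h5 : conj (χ 1) = χ 1 := by rw [hd]; simp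
      rw [h4, map_mul, h5]
      calc w z * χ 1 * (conj (w z) * χ 1) = (w z * conj (w z)) * χ 1 ^ 2 := by ring
        _ = _ := by rw [h3, one_mul]
    have hin := classInner_irr hχ hχ
    rw [if_pos rfl, classInner] at hin
    have hs : ∑ x : P, χ x * conj (χ x) = ∑ z ∈ Finset.univ.filter (· ∈ Subgroup.center P), χ z * conj (χ z) :=
      sum_of_vanish hvan (fun t => t * conj t) (by simp)
    rw [hs, Finset.sum_congr rfl (fun z hz => hnorm z (Finset.mem_filter.1 hz).2), Finset.sum_const,
      nsmul_eq_mul] at hin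
    have hcard : (Finset.univ.filter (· ∈ Subgroup.center P)).card = p := by
      rw [← hZ, Nat.card_eq_fintype_card, Fintype.card_subtype]
    rw [hcard] at hin
    have hP : (Nat.card P : ℂ) ≠ 0 := by
      exact_mod_cast Nat.card_pos.ne'
    field_simp at hin
    rw [mul_comm]
    exact hin

theorem commutator_index (p n : ℕ) [hp : Fact p.Prime] (hP : IsExtraspecial p P)
    (hcard : Nat.card P = p ^ (2 * n + 1)) : (commutator P).index = p ^ (2 * n) := by
  have h1 : (commutator P).index * p = p ^ (2 * n + 1) := by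
    rw [hP.1.2.2, ← hcard, ← hP.2, mul_comm]
    exact Subgroup.card_mul_index _
  rw [pow_succ] at h1
  exact Nat.eq_of_mul_eq_mul_right hp.out.pos h1

theorem n_pos (p n : ℕ) [hp : Fact p.Prime] (hP : IsExtraspecial p P)
    (hcard : Nat.card P = p ^ (2 * n + 1)) : 0 < n := by
  by_contra h
  have hn : n = 0 := by omega
  subst hn
  simp only [mul_zero, zero_add, pow_one] at hcard
  have h1 : Subgroup.center P = ⊤ := by
    apply Subgroup.eq_top_of_card_eq
    rw [hP.2, hcard]
  have h2 : commutator P = ⊥ := by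
    haveI : IsMulCommutative P := by
      refine ⟨⟨fun a b => ?_⟩⟩
      have : a ∈ Subgroup.center P := by rw [h1]; trivial
      exact (Subgroup.mem_center_iff.1 this b).symm
    rw [commutator_def, Subgroup.commutator_eq_bot_iff_le_centralizer]
    intro x _ y _
    exact mul_comm' y x
  have h3 := hP.1.2.2
  rw [h2] at h3
  have h4 := hP.2
  rw [← h3] at h4
  simp at h4
  exact hp.out.one_lt.ne h4

/-- Degrees of an extraspecial group. -/
theorem extraspecial_degrees (p n : ℕ) [hp : Fact p.Prime] (hP : IsExtraspecial p P)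
    (hcard : Nat.card P = p ^ (2 * n + 1)) :
    (∀ χ : IrrCharacter P, (χ : P → ℂ) 1 = 1 ∨ (χ : P → ℂ) 1 = (p : ℂ) ^ n) ∧
      Nat.card {χ : IrrCharacter P // (χ : P → ℂ) 1 = (p : ℂ) ^ n} = p - 1 := by
  classical
  have hdeg : ∀ χ : IrrCharacter P, deg χ = 1 ∨ deg χ = p ^ n := by
    intro χ
    rcases irr_dichotomy hP.2 hP.1.2.2 χ.2 with h | ⟨-, h⟩
    · left
      have := apply_one_eq_deg χ
      rw [h] at this
      exact_mod_cast this.symm
    · right
      rw [apply_one_eq_deg χ, hcard] at h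
      have h1 : deg χ ^ 2 * p = p ^ (2 * n + 1) := by exact_mod_cast h
      rw [pow_succ] at h1
      have h2 : deg χ ^ 2 = p ^ (2 * n) := Nat.eq_of_mul_eq_mul_right hp.out.pos h1
      have h3 : p ^ (2 * n) = (p ^ n) ^ 2 := by rw [← pow_mul, mul_comm]
      rw [h3] at h2
      exact (Nat.pow_left_injective (n := 2) (by norm_num)) h2
  have hiff1 : ∀ χ : IrrCharacter P, (χ : P → ℂ) 1 = 1 ↔ deg χ = 1 := by
    intro χ
    rw [apply_one_eq_deg]
    norm_cast
  have hiff2 : ∀ χ : IrrCharacter P, (χ : P → ℂ) 1 = (p : ℂ) ^ n ↔ deg χ = p ^ n := by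
    intro χ
    rw [apply_one_eq_deg]
    norm_cast
  refine ⟨fun χ => (hdeg χ).imp (hiff1 χ).2 (hiff2 χ).2, ?_⟩
  have hn := n_pos p n hP hcard
  have hpn : p ^ n ≠ 1 := by
    have := Nat.one_lt_pow hn.ne' hp.out.one_lt
    omega
  letI : Fintype (IrrCharacter P) := Fintype.ofFinite _
  have hlin := card_linear (G := P)
  rw [commutator_index p n hP hcard] at hlin
  have hsum := sum_deg_sq (G := P)
  have hsplit : ∑ χ : IrrCharacter P, deg χ ^ 2 =
      Nat.card {χ : IrrCharacter P // (χ : P → ℂ) 1 = 1} +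
        Nat.card {χ : IrrCharacter P // (χ : P → ℂ) 1 = (p : ℂ) ^ n} * p ^ (2 * n) := by
    have h1 : ∀ χ : IrrCharacter P, deg χ ^ 2 = (if (χ : P → ℂ) 1 = 1 then 1 else 0) +
        (if (χ : P → ℂ) 1 = (p : ℂ) ^ n then p ^ (2 * n) else 0) := by
      intro χ
      rcases hdeg χ with h | h
      · rw [if_pos ((hiff1 χ).2 h), if_neg (fun h' => hpn (((hiff2 χ).1 h').symm.trans h)), h]
        simp
      · rw [if_neg (fun h' => hpn (h.symm.trans ((hiff1 χ).1 h'))), if_pos ((hiff2 χ).2 h), h]
        rw [← pow_mul, mul_comm]; simp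
    rw [Finset.sum_congr rfl (fun χ _ => h1 χ), Finset.sum_add_distrib, Finset.sum_boole,
      Finset.sum_ite, Finset.sum_const_zero, add_zero, Finset.sum_const, smul_eq_mul]
    rw [Nat.card_eq_fintype_card, Nat.card_eq_fintype_card, Fintype.card_subtype, Fintype.card_subtype]
    simp
  rw [hsplit, hlin, hcard] at hsum
  have h3 : p ^ (2 * n + 1) = p ^ (2 * n) * (p - 1) + p ^ (2 * n) := by
    have h4 : 1 ≤ p := hp.out.one_lt.le
    obtain ⟨q, rfl⟩ : ∃ q, p = q + 1 := ⟨p - 1, by omega⟩
    rw [Nat.add_sub_cancel, pow_succ, mul_add, mul_one]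
  rw [h3] at hsum
  have h5 : Nat.card {χ : IrrCharacter P // (χ : P → ℂ) 1 = (p : ℂ) ^ n} * p ^ (2 * n) = (p - 1) * p ^ (2 * n) := by
    nlinarith
  exact Nat.eq_of_mul_eq_mul_right (pow_pos hp.out.pos _) h5

/-- Induction from an abelian subgroup of order `p^(n+1)`. -/
theorem ind_irr (p n : ℕ) [hp : Fact p.Prime] (hP : IsExtraspecial p P)
    (hcard : Nat.card P = p ^ (2 * n + 1)) (A : Subgroup P) (hA : Nat.card A = p ^ (n + 1))
    (lam : A → ℂ) (hlam : IsCharacter A lam ∧ lam 1 = 1)
    (hZ : ∃ a : A, (a : P) ∈ Subgroup.center P ∧ lam a ≠ 1) :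
    IsIrrCharacter P (indFun A lam) ∧ ∀ x : P, x ∉ Subgroup.center P → indFun A lam x = 0 := by
  classical
  obtain ⟨⟨a, ha⟩, haZ, hane⟩ := hZ
  simp only at haZ hane
  letI : Fintype A := Fintype.ofFinite _
  have ha1 : (⟨a, haZ⟩ : Subgroup.center P) ≠ 1 := by
    intro h
    apply hane
    have : (⟨a, ha⟩ : A) = 1 := Subtype.ext (congrArg (fun t : Subgroup.center P => (t : P)) h)
    rw [this]; exact hlam.2
  have hZA : Subgroup.center P ≤ A := by
    intro z hz
    obtain ⟨k, hk⟩ := mem_powers_of_prime_card hP.2 ha1 (g' := ⟨z, hz⟩)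
    have hk' : a ^ k = z := congrArg Subtype.val hk
    rw [← hk']
    exact Subgroup.pow_mem _ ha k
  have hmul := degree_one_mul hlam.1 hlam.2
  have hcl := IsCharacter.isClassFunction' hlam.1
  set w : P → ℂ := extendByZero A lam with hw
  have hwa : ∀ z (hz : z ∈ A), w z = lam ⟨z, hz⟩ := fun z hz => extendByZero_of_mem A lam hz
  have hwm : ∀ x ∈ Subgroup.center P, ∀ y ∈ Subgroup.center P, w (x * y) = w x * w y := by
    intro x hx y hy
    rw [hwa _ (A.mul_mem (hZA hx) (hZA hy)), hwa _ (hZA hx), hwa _ (hZA hy), ← hmul]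
    rfl
  have hw1 : w 1 = 1 := by
    rw [hwa 1 (one_mem _)]
    exact hlam.2
  have hshift : ∀ x z, z ∈ Subgroup.center P → w (x * z) = w x * w z := by
    intro x z hz
    by_cases hx : x ∈ A
    · rw [hwa _ (A.mul_mem hx (hZA hz)), hwa _ hx, hwa _ (hZA hz), ← hmul]
      rfl
    · have h1 : x * z ∉ A := fun h => hx (by
        have := A.mul_mem h (A.inv_mem (hZA hz))
        simpa using this)
      rw [hw, extendByZero_of_not_mem _ _ h1, extendByZero_of_not_mem _ _ hx, zero_mul]
  have hind : ∀ x z, z ∈ Subgroup.center P → indFun A lam (x * z) = indFun A lam x * w z := by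
    intro x z hz
    rw [indFun_apply, indFun_apply, mul_assoc, Finset.sum_mul]
    congr 1
    refine Finset.sum_congr rfl fun t _ => ?_
    have h1 : t⁻¹ * (x * z) * t = (t⁻¹ * x * t) * z := by
      have := (Subgroup.mem_center_iff.1 hz) t
      calc t⁻¹ * (x * z) * t = t⁻¹ * x * (z * t) := by group
        _ = t⁻¹ * x * (t * z) := by rw [this]
        _ = _ := by group
    rw [h1]
    exact hshift _ _ hz
  have hvan : ∀ x : P, x ∉ Subgroup.center P → indFun A lam x = 0 := by
    intro x hx
    exact vanish_off_center hP.2 hP.1.2.2.le (indFun_isClassFunction A lam) w hind hw1 hwm haZ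
      (by rw [hwa a ha]; exact hane) hx
  refine ⟨?_, hvan⟩
  apply isIrr_of_norm_one (isCharacter_indFun A hlam.1)
  have hval : ∀ z ∈ Subgroup.center P, indFun A lam z = ((Nat.card P : ℂ) / (Nat.card A : ℂ)) * w z := by
    intro z hz
    rw [indFun_apply]
    have h1 : ∀ t : P, t⁻¹ * z * t = z := by
      intro t
      have := (Subgroup.mem_center_iff.1 hz) t
      calc t⁻¹ * z * t = t⁻¹ * (z * t) := by group
        _ = t⁻¹ * (t * z) := by rw [this]
        _ = z := by group
    simp only [h1, Finset.sum_const, Finset.card_univ, nsmul_eq_mul]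
    rw [Nat.card_eq_fintype_card (α := P)]
    change _ * (_ * w z) = _
    ring
  have hnormw : ∀ z ∈ Subgroup.center P, w z * conj (w z) = 1 := by
    intro z hz
    rw [hwa z (hZA hz), Complex.mul_conj, Complex.normSq_eq_norm_sq,
      norm_eq_one_of_linear hlam.1 hlam.2]
    simp
  rw [classInner]
  have hs : ∑ x : P, indFun A lam x * conj (indFun A lam x) =
      ∑ z ∈ Finset.univ.filter (· ∈ Subgroup.center P), indFun A lam z * conj (indFun A lam z) :=
    sum_of_vanish hvan (fun t => t * conj t) (by simp)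
  have hval2 : ∀ z ∈ Finset.univ.filter (· ∈ Subgroup.center P),
      indFun A lam z * conj (indFun A lam z) = ((p : ℂ) ^ n) ^ 2 := by
    intro z hz
    have hz' := (Finset.mem_filter.1 hz).2
    have hquot : (Nat.card P : ℂ) / (Nat.card A : ℂ) = (p : ℂ) ^ n := by
      rw [hcard, hA]
      have hp0 : (p : ℂ) ≠ 0 := by exact_mod_cast hp.out.ne_zero
      push_cast
      field_simp
      ring
    rw [hval z hz', hquot, map_mul, map_pow, Complex.conj_natCast]
    calc (p : ℂ) ^ n * w z * ((p : ℂ) ^ n * conj (w z)) = ((p : ℂ) ^ n) ^ 2 * (w z * conj (w z)) := by ring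
      _ = _ := by rw [hnormw z hz', mul_one]
  rw [hs, Finset.sum_congr rfl hval2, Finset.sum_const, nsmul_eq_mul]
  have hcardZ : (Finset.univ.filter (· ∈ Subgroup.center P)).card = p := by
    rw [← hP.2, Nat.card_eq_fintype_card, Fintype.card_subtype]
  rw [hcardZ, hcard]
  have hp0 : (p : ℂ) ≠ 0 := by exact_mod_cast hp.out.ne_zero
  push_cast
  field_simp
  ring

end Cfsg.Agent.Lib.ExtraChar
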