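import Mathlib
import Cfsg.Agent.Lib.ExtraClass
import Cfsg.Agent.Lib.ExtraModel
import Cfsg.Agent.Lib.CoprimeAct
import Cfsg.Agent.Lib.H6Regular
import Cfsg.Agent.Lib.FrattiniExt
import Cfsg.Agent.Lib.QuadSiegel

/-! Extraspecial 2-groups: coordinates, and the outer automorphism group as an isometry group. -/

set_option autoImplicit false
set_option linter.all false

namespace Cfsg.Agent.Lib.ExtraOut

open Cfsg.Agent.Lib.ExtraPlus Cfsg.Agent.Lib.ExtraIso2 Cfsg.Agent.Lib.ExtraClass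
open Cfsg.Agent.Lib.ExtraIso (zp zp_zero zp_one zp_add zp_comm zp_map zp_coe)
open scoped commutatorElement

universe u

/-- Coordinates of an extraspecial 2-group. -/
structure Pres {E : Type*} [Group E] (z : E) {V : Type*} [AddCommGroup V] (Q : V → ZMod 2) (π : E → V) : Prop where
  hmul : ∀ g h, π (g * h) = π g + π h
  hsurj : Function.Surjective π
  hker : ∀ g, π g = 0 ↔ g = 1 ∨ g = z
  hsq : ∀ g, g * g = zp z (Q (π g))

theorem Pres.transport {E : Type*} [Group E] {z : E} {V V' : Type*} [AddCommGroup V] [AddCommGroup V']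
    {Q : V → ZMod 2} {π : E → V} (hP : Pres z Q π) (e : V ≃+ V') {Q' : V' → ZMod 2} (he : ∀ v, Q' (e v) = Q v) :
    Pres z Q' (fun g => e (π g)) where
  hmul g h := by rw [hP.hmul, map_add]
  hsurj v := by
    obtain ⟨g, hg⟩ := hP.hsurj (e.symm v)
    exact ⟨g, by simp [hg]⟩
  hker g := by
    rw [map_eq_zero_iff e e.injective]
    exact hP.hker g
  hsq g := by rw [he]; exact hP.hsq g

theorem Pres.extend {E : Type*} [Group E] {z : E} (h : ES' z) {a b : E} (hab : cc a b = z) {α β : ZMod 2}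
    (haa : a * a = zp z α) (hbb : b * b = zp z β) {V0 : Type*} [AddCommGroup V0] {Q0 : V0 → ZMod 2}
    {π0 : E0 a b → V0} (hP : Pres (⟨z, z_mem_E0 h a b⟩ : E0 a b) Q0 π0) :
    ∃ π1 : E → ZMod 2 × ZMod 2 × V0,
      Pres z (fun w => α * w.1 * w.1 + β * w.2.1 * w.2.1 + w.2.1 * w.1 + Q0 w.2.2) π1 := by
  let Θ := Equiv.ofBijective _ (Th_bij h hab)
  let π1 : E → ZMod 2 × ZMod 2 × V0 := fun g => ((Θ.symm g).1, (Θ.symm g).2.1, π0 (Θ.symm g).2.2)
  have hπ : ∀ x y m, π1 (Th a b (x, y, m)) = (x, y, π0 m) := by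
    intro x y m
    have : Θ.symm (Th a b (x, y, m)) = (x, y, m) := Θ.symm_apply_apply _
    simp only [π1, this]
  have hsurjT : ∀ g : E, ∃ x y m, g = Th a b (x, y, m) := by
    intro g
    obtain ⟨⟨x, y, m⟩, hu⟩ := (Th_bij h hab).2 g
    exact ⟨x, y, m, hu.symm⟩
  have h00 : ∀ m : E0 a b, Th a b (0, 0, m) = m := by
    intro m
    simp [Th, zp_zero]
  have hzero : ∀ c : ZMod 2, π0 ⟨zp z c, zp_mem_E0 h a b c⟩ = 0 := by
    intro c
    rw [hP.hker]
    rcases zp_mem h c with h1 | h1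
    · left
      exact Subtype.ext h1
    · right
      exact Subtype.ext h1
  refine ⟨π1, ⟨?_, ?_, ?_, ?_⟩⟩
  · intro g g'
    obtain ⟨x, y, m, rfl⟩ := hsurjT g
    obtain ⟨x', y', m', rfl⟩ := hsurjT g'
    rw [Th_mul h hab haa hbb, hπ, hπ, hπ, hP.hmul, hP.hmul, hzero, zero_add]
    rfl
  · rintro ⟨x, y, v⟩
    obtain ⟨m, rfl⟩ := hP.hsurj v
    exact ⟨_, hπ x y m⟩
  · intro g
    constructor
    · intro hg
      obtain ⟨x, y, m, rfl⟩ := hsurjT g
      rw [hπ] at hg
      have h1 : x = 0 := congrArg Prod.fst hg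
      have h2 : y = 0 := congrArg (fun w => w.2.1) hg
      have h3 : π0 m = 0 := congrArg (fun w => w.2.2) hg
      subst h1 h2
      rw [h00]
      rcases (hP.hker m).1 h3 with rfl | rfl
      · left; rfl
      · right; rfl
    · rintro (h1 | h1)
      · have e1 : (1 : E) = Th a b (0, 0, 1) := by rw [h00]; rfl
        rw [h1, e1, hπ, (hP.hker 1).2 (Or.inl rfl)]
        rfl
      · have e1 : z = Th a b (0, 0, ⟨z, z_mem_E0 h a b⟩) := by rw [h00]
        rw [h1, e1, hπ, (hP.hker _).2 (Or.inr rfl)]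
        rfl
  · intro g
    obtain ⟨x, y, m, rfl⟩ := hsurjT g
    rw [Th_mul h hab haa hbb, hπ]
    have e2 : ∀ t : ZMod 2, t + t = 0 := by decide
    rw [e2, e2, h00]
    have h5 : ((m : E) * (m : E)) = zp z (Q0 (π0 m)) := by
      have := congrArg Subtype.val (hP.hsq m)
      rw [zp_coe] at this
      exact this
    simp only [Subgroup.coe_mul, mul_assoc]
    rw [h5, ← zp_add (zz2 h)]
    have e3 : cx α β x y x y = α * (x * x) + β * (y * y) + y * x := by
      unfold cx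
      ring
    rw [e3]

/-! ### Index manipulations -/

/-- Splitting off a hyperbolic pair. -/
def eP (n : ℕ) : (ZMod 2 × ZMod 2 × (Fin n ⊕ Fin n → ZMod 2)) ≃+ (Fin (n + 1) ⊕ Fin (n + 1) → ZMod 2) where
  toFun w := Sum.elim (Fin.cons w.1 (fun i => w.2.2 (.inl i))) (Fin.cons w.2.1 (fun i => w.2.2 (.inr i)))
  invFun v := (v (.inl 0), v (.inr 0), Sum.elim (fun i => v (.inl i.succ)) (fun i => v (.inr i.succ)))
  left_inv := by
    rintro ⟨x, y, v⟩
    simp only [Sum.elim_inl, Sum.elim_inr, Fin.cons_zero, Fin.cons_succ]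
    congr 2
    funext s
    cases s <;> rfl
  right_inv := by
    intro v
    funext s
    cases s with
    | inl i => refine Fin.cases ?_ (fun j => ?_) i <;> simp
    | inr i => refine Fin.cases ?_ (fun j => ?_) i <;> simp
  map_add' := by
    rintro ⟨x, y, v⟩ ⟨x', y', v'⟩
    funext s
    cases s with
    | inl i => refine Fin.cases ?_ (fun j => ?_) i <;> simp
    | inr i => refine Fin.cases ?_ (fun j => ?_) i <;> simp

theorem Q_eP (n : ℕ) (w : ZMod 2 × ZMod 2 × (Fin n ⊕ Fin n → ZMod 2)) :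
    Cfsg.quadFormPlus (n + 1) (ZMod 2) (eP n w) =
      0 * w.1 * w.1 + 0 * w.2.1 * w.2.1 + w.2.1 * w.1 + Cfsg.quadFormPlus n (ZMod 2) w.2.2 := by
  obtain ⟨x, y, v⟩ := w
  simp only [Cfsg.quadFormPlus, eP, AddEquiv.coe_mk, Equiv.coe_fn_mk, Fin.sum_univ_succ, Sum.elim_inl, Sum.elim_inr,
    Fin.cons_zero, Fin.cons_succ]
  ring

/-- Splitting off a hyperbolic pair in the elliptic form. -/
def eM (n : ℕ) : (ZMod 2 × ZMod 2 × ((Fin n ⊕ Fin n) ⊕ Fin 2 → ZMod 2)) ≃+ ((Fin (n + 1) ⊕ Fin (n + 1)) ⊕ Fin 2 → ZMod 2) where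
  toFun w := Sum.elim (Sum.elim (Fin.cons w.1 (fun i => w.2.2 (.inl (.inl i)))) (Fin.cons w.2.1 (fun i => w.2.2 (.inl (.inr i)))))
    (fun i => w.2.2 (.inr i))
  invFun v := (v (.inl (.inl 0)), v (.inl (.inr 0)), Sum.elim (Sum.elim (fun i => v (.inl (.inl i.succ))) (fun i => v (.inl (.inr i.succ))))
    (fun i => v (.inr i)))
  left_inv := by
    rintro ⟨x, y, v⟩
    simp only [Sum.elim_inl, Sum.elim_inr, Fin.cons_zero, Fin.cons_succ]
    congr 2
    funext s
    rcases s with (s | s) | s <;> rfl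
  right_inv := by
    intro v
    funext s
    rcases s with (i | i) | i
    · refine Fin.cases ?_ (fun j => ?_) i <;> simp
    · refine Fin.cases ?_ (fun j => ?_) i <;> simp
    · simp
  map_add' := by
    rintro ⟨x, y, v⟩ ⟨x', y', v'⟩
    funext s
    rcases s with (i | i) | i
    · refine Fin.cases ?_ (fun j => ?_) i <;> simp
    · refine Fin.cases ?_ (fun j => ?_) i <;> simp
    · simp

theorem Q_eM (n : ℕ) (w : ZMod 2 × ZMod 2 × ((Fin n ⊕ Fin n) ⊕ Fin 2 → ZMod 2)) :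
    Cfsg.quadFormMinus (n + 1) (ZMod 2) 1 1 (eM n w) =
      0 * w.1 * w.1 + 0 * w.2.1 * w.2.1 + w.2.1 * w.1 + Cfsg.quadFormMinus n (ZMod 2) 1 1 w.2.2 := by
  obtain ⟨x, y, v⟩ := w
  simp only [Cfsg.quadFormMinus, eM, AddEquiv.coe_mk, Equiv.coe_fn_mk, Fin.sum_univ_succ, Sum.elim_inl, Sum.elim_inr,
    Fin.cons_zero, Fin.cons_succ]
  ring

/-- The elliptic plane. -/
def eB : (ZMod 2 × ZMod 2 × (Fin 0 ⊕ Fin 0 → ZMod 2)) ≃+ ((Fin 0 ⊕ Fin 0) ⊕ Fin 2 → ZMod 2) where
  toFun w := Sum.elim (fun s => w.2.2 s) ![w.1, w.2.1]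
  invFun v := (v (.inr 0), v (.inr 1), fun s => v (.inl s))
  left_inv := by
    rintro ⟨x, y, v⟩
    simp
  right_inv := by
    intro v
    funext s
    rcases s with s | i
    · simp
    · fin_cases i <;> simp
  map_add' := by
    rintro ⟨x, y, v⟩ ⟨x', y', v'⟩
    funext s
    rcases s with s | i
    · simp
    · fin_cases i <;> simp

theorem Q_eB (w : ZMod 2 × ZMod 2 × (Fin 0 ⊕ Fin 0 → ZMod 2)) :
    Cfsg.quadFormMinus 0 (ZMod 2) 1 1 (eB w) =
      1 * w.1 * w.1 + 1 * w.2.1 * w.2.1 + w.2.1 * w.1 + Cfsg.quadFormPlus 0 (ZMod 2) w.2.2 := by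
  obtain ⟨x, y, v⟩ := w
  simp only [Cfsg.quadFormMinus, Cfsg.quadFormPlus, eB, AddEquiv.coe_mk, Equiv.coe_fn_mk, Sum.elim_inr]
  simp
  have : ∀ x y : ZMod 2, x + x * y + y = x * x + y * y + y * x := by decide
  exact this x y

/-- The trivial case. -/
theorem pres_base {E : Type*} [Group E] [Finite E] {z : E} (h : ES' z) (hc : Nat.card E = 2) :
    Pres z (Cfsg.quadFormPlus 0 (ZMod 2)) (fun _ : E => (0 : Fin 0 ⊕ Fin 0 → ZMod 2)) where
  hmul g g' := by simp
  hsurj v := ⟨1, by funext s; cases s <;> exact Fin.elim0 ‹_›⟩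
  hker g := by
    simp only [true_iff]
    obtain ⟨c, rfl⟩ := (bij_of_two h hc).2 g
    exact zp_mem h c
  hsq g := by
    have h0 : Cfsg.quadFormPlus 0 (ZMod 2) (0 : Fin 0 ⊕ Fin 0 → ZMod 2) = 0 := by simp [Cfsg.quadFormPlus]
    rw [h0, zp_zero]
    obtain ⟨c, rfl⟩ := (bij_of_two h hc).2 g
    rcases zp_mem h c with h1 | h1
    · rw [h1, one_mul]
    · rw [h1, h.hzz]

theorem TT00' : TT 0 0 = 2 := by decide

/-- Coordinates of plus type. -/
theorem pres_plus : ∀ (n : ℕ) {E : Type u} [Group E] [Fintype E] {z : E}, ES' z → Fintype.card E = 2 ^ (2 * n + 1) →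
    0 < (∑ x : E, ss x) → ∃ π : E → (Fin n ⊕ Fin n → ZMod 2), Pres z (Cfsg.quadFormPlus n (ZMod 2)) π := by
  intro n
  induction n with
  | zero =>
    intro E _ _ z h hc hT
    exact ⟨_, pres_base h (by rw [Nat.card_eq_fintype_card, hc]; rfl)⟩
  | succ n ih =>
    intro E _ _ z h hc hT
    classical
    have hP : PP z := by
      by_contra hP
      have h2n : 2 * (n + 1) + 1 = 2 * n + 3 := by ring
      rcases card_no_P h hP with ⟨h1, -⟩ | ⟨-, h2⟩
      · rw [hc, h2n] at h1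
        have : 2 ^ (2 * n + 3) = 8 * 2 ^ (2 * n) := by ring
        have h3 : 0 < 2 ^ (2 * n) := by positivity
        omega
      · rw [h2] at hT
        norm_num at hT
    obtain ⟨a, b, hab, ha, hb⟩ := exists_pair h hP
    haveI : Fintype (E0 a b) := Fintype.ofFinite _
    have haa : a * a = zp z (0 : ZMod 2) := by rw [ha, zp_zero]
    have hbb : b * b = zp z (0 : ZMod 2) := by rw [hb, zp_zero]
    have hs := sum_E h hab haa hbb
    rw [TT00'] at hs
    have hcE := card_E h hab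
    rw [Nat.card_eq_fintype_card, Nat.card_eq_fintype_card, hc] at hcE
    have hc0 : Fintype.card (E0 a b) = 2 ^ (2 * n + 1) := by
      have : 2 ^ (2 * (n + 1) + 1) = 2 * (2 * 2 ^ (2 * n + 1)) := by ring
      omega
    obtain ⟨π0, hπ0⟩ := ih (es_E0 h hab) hc0 (by linarith)
    obtain ⟨π1, hπ1⟩ := Pres.extend h hab haa hbb hπ0
    exact ⟨_, hπ1.transport (eP n) (Q_eP n)⟩

/-- Coordinates of minus type. -/
theorem pres_minus : ∀ (n : ℕ) {E : Type u} [Group E] [Fintype E] {z : E}, ES' z → Fintype.card E = 2 ^ (2 * (n + 1) + 1) →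
    (∑ x : E, ss x) < 0 → ∃ π : E → ((Fin n ⊕ Fin n) ⊕ Fin 2 → ZMod 2), Pres z (Cfsg.quadFormMinus n (ZMod 2) 1 1) π := by
  intro n
  induction n with
  | zero =>
    intro E _ _ z h hc hT
    classical
    have hc8 : Fintype.card E = 8 := by rw [hc]; rfl
    have hs4 : (∑ x : E, ss x) = -4 := by
      rcases sum_val h 1 (by rw [hc8]; rfl) with h1 | h1
      · rw [h1] at hT
        norm_num at hT
      · rw [h1]
        norm_num
    have hP := no_P_of_eight h hc8 hs4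
    obtain ⟨a, b, hab, ha, hb⟩ := exists_q8 h hP hc8
    haveI : Fintype (E0 a b) := Fintype.ofFinite _
    have haa : a * a = zp z (1 : ZMod 2) := by rw [ha, zp_one]
    have hbb : b * b = zp z (1 : ZMod 2) := by rw [hb, zp_one]
    have hcE := card_E h hab
    have hc0 : Nat.card (E0 a b) = 2 := by
      rw [Nat.card_eq_fintype_card, hc8] at hcE
      omega
    have hπ0 := pres_base (es_E0 h hab) hc0
    obtain ⟨π1, hπ1⟩ := Pres.extend h hab haa hbb hπ0
    exact ⟨_, hπ1.transport eB Q_eB⟩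
  | succ n ih =>
    intro E _ _ z h hc hT
    classical
    have hP : PP z := by
      by_contra hP
      have h2n : 2 * (n + 1 + 1) + 1 = 2 * n + 5 := by ring
      have h5 : 2 ^ (2 * n + 5) = 32 * 2 ^ (2 * n) := by ring
      have h3 : 0 < 2 ^ (2 * n) := by positivity
      rcases card_no_P h hP with ⟨h1, -⟩ | ⟨h1, -⟩
      · rw [hc, h2n] at h1
        omega
      · rw [hc, h2n] at h1
        omega
    obtain ⟨a, b, hab, ha, hb⟩ := exists_pair h hP
    haveI : Fintype (E0 a b) := Fintype.ofFinite _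
    have haa : a * a = zp z (0 : ZMod 2) := by rw [ha, zp_zero]
    have hbb : b * b = zp z (0 : ZMod 2) := by rw [hb, zp_zero]
    have hs := sum_E h hab haa hbb
    rw [TT00'] at hs
    have hcE := card_E h hab
    rw [Nat.card_eq_fintype_card, Nat.card_eq_fintype_card, hc] at hcE
    have hc0 : Fintype.card (E0 a b) = 2 ^ (2 * (n + 1) + 1) := by
      have : 2 ^ (2 * (n + 1 + 1) + 1) = 2 * (2 * 2 ^ (2 * (n + 1) + 1)) := by ring
      omega
    obtain ⟨π0, hπ0⟩ := ih (es_E0 h hab) hc0 (by linarith)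
    obtain ⟨π1, hπ1⟩ := Pres.extend h hab haa hbb hπ0
    exact ⟨_, hπ1.transport (eM n) (Q_eM n)⟩

end Cfsg.Agent.Lib.ExtraOut
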