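/-
`O⁻₄(2) ≅ S₅`.
-/
import Mathlib
import Cfsg.Agent.Lib.EvenWeight

set_option autoImplicit false
set_option linter.all false
set_option maxRecDepth 100000

open scoped MatrixGroups Matrix
open Cfsg Cfsg.Geo Finset
open Cfsg.Agent.Lib.QuadSiegel Cfsg.Agent.Lib.QuadRefl Cfsg.Agent.Lib.QuadBase
open Cfsg.Agent.Lib.EvenWeight

namespace Cfsg.Agent.Lib.OrthS5

abbrev B := (Fin 1 ⊕ Fin 1) ⊕ Fin 2

/-- The first family. -/
def A : B → Fin 5 → ZMod 2
  | .inl (.inl _) => ![1, 1, 1, 1, 0]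
  | .inl (.inr _) => ![1, 1, 1, 0, 1]
  | .inr 0 => ![1, 1, 0, 0, 0]
  | .inr 1 => ![0, 1, 1, 0, 0]

/-- The dual family. -/
def D : B → Fin 5 → ZMod 2
  | .inl (.inl _) => ![1, 1, 1, 0, 1]
  | .inl (.inr _) => ![1, 1, 1, 1, 0]
  | .inr 0 => ![0, 1, 1, 0, 0]
  | .inr 1 => ![1, 1, 0, 0, 0]

abbrev Q₀ : (B → ZMod 2) → ZMod 2 := quadFormMinus 1 (ZMod 2) 1 1

theorem frame : Frame A D where
  dual := by decide +kernel
  sumA := by decide +kernel
  sumD := by decide +kernel
  ker := by decide +kernel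

theorem hQw : ∀ y : Fin 5 → ZMod 2, ∑ i, y i = 0 → Q₀ (tauL D y) = wtQ y := by
  decide +kernel

theorem hall : ∀ v : B → ZMod 2, Q₀ v ≠ 0 → ∃ i j : Fin 5, i ≠ j ∧ tauL D (pairV i j) = v := by
  decide +kernel

theorem hnd : ∀ v : B → ZMod 2, v ≠ 0 →
    (∃ x, QuadraticMap.polar Q₀ x v ≠ 0) ∧ (∃ x, QuadraticMap.polar Q₀ v x ≠ 0) := by
  decide +kernel

theorem hQ : IsNondegenerateQuadraticForm Q₀ := by
  refine ⟨by decide +kernel, ⟨by decide +kernel, by decide +kernel, by decide +kernel, by decide +kernel⟩, ?_⟩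
  intro v hv
  exact hnd v hv

theorem hpol : ∀ (u : B → ZMod 2) (y : Fin 5 → ZMod 2),
    dotP (sigL A u) y = QuadraticMap.polar Q₀ u (tauL D y) := by
  decide +kernel

set_option synthInstance.maxSize 1000 in
set_option synthInstance.maxHeartbeats 200000 in
theorem hsing : ∀ a b : B → ZMod 2, Q₀ a = 0 → Q₀ b = 0 → QuadraticMap.polar Q₀ a b = 0 →
    a = 0 ∨ b = 0 ∨ a = b := by
  decide +kernel

theorem hgen (g : GL B (ZMod 2)) (hg : QIsom Q₀ g) : g ∈ rfG hQ := by
  have hle : genG hQ ≤ rfG hQ := by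
    refine (Subgroup.closure_le _).2 ?_
    rintro s (⟨a, b, h1, h2, rfl⟩ | ⟨a, rfl⟩)
    · by_cases hb : Q₀ b = 0
      · rcases hsing a b h1 hb h2 with h | h | h
        · rw [h, sg_zero_left]
          exact Subgroup.one_mem _
        · rw [h, sg_zero_right hQ h1]
          exact Subgroup.one_mem _
        · subst h
          have : sg hQ a a = 1 := by
            apply Cfsg.Agent.Lib.Transvection.gl_ext_mulVec
            intro x
            rw [sg_mulVec hQ h1 h2, h1]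
            simp
          rw [this]
          exact Subgroup.one_mem _
      · exact sg_nonsing_mem hQ h1 h2 hb
    · exact rf_mem_rfG hQ a
  exact hle (isom_mem_genG hQ hg)

theorem main : Nonempty (isometryGroup (ZMod 2) Q₀ ≃* Equiv.Perm (Fin 5)) :=
  exists_equiv hQ frame (by simp) hQw (fun π y => wtQ_permV π y) (fun u y _ => hpol u y) hall hgen

theorem result_gen {F : Type*} [Field F] [Fintype F] (hF : Fintype.card F = 2) :
    Nonempty (isometryGroup F (quadFormMinus 1 F 1 1) ≃* Equiv.Perm (Fin 5)) := by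
  obtain ⟨e₀⟩ := main
  let e : F ≃+* ZMod 2 := (ZMod.ringEquivOfPrime F Nat.prime_two hF).symm
  exact ⟨(isomEquiv e (fun v => by simp [quadFormMinus, map_sum])).trans e₀⟩

end Cfsg.Agent.Lib.OrthS5
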