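import Mathlib
import Cfsg.Agent.Lib.ExtraOut
import Cfsg.Agent.Lib.OrthS5

/-! The outer automorphism group of an extraspecial 2-group is the isometry group of its form. -/

set_option autoImplicit false
set_option linter.all false

namespace Cfsg.Agent.Lib.ExtraOut

open Cfsg.Agent.Lib.ExtraPlus Cfsg.Agent.Lib.ExtraIso2 Cfsg.Agent.Lib.ExtraClass
open Cfsg.Agent.Lib.ExtraIso (zp zp_zero zp_one zp_add zp_comm zp_map zp_coe)
open scoped commutatorElement
open Matrix

universe u

/-- A hyperplane complementary to a central element. -/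
theorem exists_hyperplane {G : Type*} [Group G] [Finite G] {w0 w1 : G} (h0 : w0 * w0 = 1)
    (hw0c : ∀ g, w0 * g = g * w0) (hw1c : ∀ g, w1 * g = g * w1) (h1 : w1 * w1 = 1) (hne1 : w1 ≠ 1) (hne0 : w1 ≠ w0)
    (hcc : ∀ a b : G, cc a b = 1 ∨ cc a b = w0) (hsq : ∀ a : G, a * a = 1 ∨ a * a = w0)
    (hex : ∃ a b : G, cc a b = w0) :
    ∃ M : Subgroup G, w0 ∈ M ∧ w1 ∉ M ∧ ∀ g, g ∈ M ∨ g * w1 ∈ M := by
  classical
  haveI : Fact (Nat.Prime 2) := ⟨Nat.prime_two⟩
  let N : Subgroup G :=
    { carrier := {g | g = 1 ∨ g = w0}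
      one_mem' := Or.inl rfl
      mul_mem' := by
        rintro a b (rfl | rfl) (rfl | rfl)
        · left; simp
        · right; simp
        · right; simp
        · left; exact h0
      inv_mem' := by
        rintro a (rfl | rfl)
        · left; simp
        · right; exact inv_eq_of_mul_eq_one_left h0 }
  have hNmem : ∀ g, g ∈ N ↔ g = 1 ∨ g = w0 := fun g => Iff.rfl
  haveI hNn : N.Normal := by
    refine ⟨fun n hn g => ?_⟩
    rcases (hNmem n).1 hn with rfl | rfl
    · rw [hNmem]; left; simp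
    · rw [hNmem]; right; rw [← hw0c g]; simp
  have hfr : frattini G ≤ N := by
    apply Cfsg.Agent.Lib.CoprimeAct.frattini_le_of_elementary (p := 2)
    · intro a b
      exact hcc a b
    · intro a
      rw [sq]
      exact hsq a
  have hw1 : w1 ∉ frattini G := by
    intro hmem
    rcases (hNmem _).1 (hfr hmem) with h2 | h2
    · exact hne1 h2
    · exact hne0 h2
  rw [Cfsg.Agent.Lib.FrattiniExt.mem_frattini_iff] at hw1
  push Not at hw1
  obtain ⟨M, hcoat, hM⟩ := hw1
  have hP : IsPGroup 2 G := by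
    intro g
    refine ⟨2, ?_⟩
    have h4 : g ^ 2 ^ 2 = (g * g) * (g * g) := by
      norm_num [pow_succ, mul_assoc]
    rw [h4]
    rcases hsq g with h2 | h2
    · rw [h2, one_mul]
    · rw [h2, h0]
  have hw0 : w0 ∈ M := by
    obtain ⟨a, b, hab⟩ := hex
    have h2 : ⁅a, b⁆ ∈ commutator G := Subgroup.commutator_mem_commutator (Subgroup.mem_top a) (Subgroup.mem_top b)
    have h3 := Cfsg.Agent.Lib.H6Regular.commutator_le_frattini hP h2
    rw [Cfsg.Agent.Lib.FrattiniExt.mem_frattini_iff] at h3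
    have h4 := h3 M hcoat
    rw [commutatorElement_def] at h4
    have : cc a b = a * b * a⁻¹ * b⁻¹ := rfl
    rwa [← this, hab] at h4
  refine ⟨M, hw0, hM, ?_⟩
  have hinv1 : w1⁻¹ = w1 := inv_eq_of_mul_eq_one_left h1
  let T : Subgroup G :=
    { carrier := {g | g ∈ M ∨ g * w1 ∈ M}
      one_mem' := Or.inl M.one_mem
      mul_mem' := by
        rintro a b (ha | ha) (hb | hb)
        · left; exact M.mul_mem ha hb
        · right
          rw [mul_assoc]
          exact M.mul_mem ha hb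
        · right
          have : a * b * w1 = a * w1 * b := by rw [mul_assoc, mul_assoc, hw1c b]
          rw [this]
          exact M.mul_mem ha hb
        · left
          have : a * b = a * w1 * (b * w1) := by
            calc a * b = a * (w1 * w1) * b := by rw [h1, mul_one]
              _ = a * w1 * (w1 * b) := by simp only [mul_assoc]
              _ = a * w1 * (b * w1) := by rw [hw1c b]
          rw [this]
          exact M.mul_mem ha hb
      inv_mem' := by
        rintro a (ha | ha)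
        · left; exact M.inv_mem ha
        · right
          have h2 := M.inv_mem ha
          rw [_root_.mul_inv_rev, hinv1, hw1c] at h2
          exact h2 }
  have hT : T = ⊤ := by
    apply hcoat.2
    constructor
    · intro g hg
      exact Or.inl hg
    · intro hle
      have h3 : w1 ∈ T := Or.inr (by rw [h1]; exact M.one_mem)
      exact hM (hle h3)
  intro g
  have : g ∈ T := by rw [hT]; trivial
  exact this

section basics

variable {E : Type u} [Group E] {z : E} {V : Type*} [AddCommGroup V] {Q : V → ZMod 2} {π : E → V}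

namespace Pres

theorem map_one' (hP : Pres z Q π) : π 1 = 0 := (hP.hker 1).2 (Or.inl rfl)
theorem map_z (hP : Pres z Q π) : π z = 0 := (hP.hker z).2 (Or.inr rfl)
theorem map_inv' (hP : Pres z Q π) (g : E) : π g⁻¹ = - π g := by
  have := hP.hmul g⁻¹ g
  rw [inv_mul_cancel, hP.map_one'] at this
  exact eq_neg_of_add_eq_zero_left this.symm

theorem eq_iff (hP : Pres z Q π) (g g' : E) : π g = π g' ↔ g = g' ∨ g = z * g' := by
  constructor
  · intro h
    have h1 : π (g * g'⁻¹) = 0 := by rw [hP.hmul, hP.map_inv', h, add_neg_cancel]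
    rcases (hP.hker _).1 h1 with h2 | h2
    · left
      exact mul_inv_eq_one.1 h2
    · right
      exact mul_inv_eq_iff_eq_mul.1 h2
  · rintro (rfl | rfl)
    · rfl
    · rw [hP.hmul, hP.map_z, zero_add]

/-- The polar form. -/
def pol (Q : V → ZMod 2) (a b : V) : ZMod 2 := Q (a + b) + Q a + Q b

theorem two' (t : ZMod 2) : t + t = 0 := by
  revert t
  decide

theorem cc_pol (h : ES' z) (hP : Pres z Q π) (x y : E) : cc x y = zp z (pol Q (π x) (π y)) := by
  obtain ⟨c, hc⟩ := exists_zp h (h.cc_val x y)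
  have h1 := h.square_mul x y
  rw [hP.hsq (x * y), hP.hsq x, hP.hsq y, hc, hP.hmul, ← zp_add (zz2 h), ← zp_add (zz2 h)] at h1
  have h2 := zp_inj2 h h1
  rw [hc]
  congr 1
  unfold pol
  rw [h2]
  linear_combination (-1 : ZMod 2) * two' (Q (π x)) + (-1 : ZMod 2) * two' (Q (π y))

theorem pol_symm (a b : V) : pol Q a b = pol Q b a := by
  unfold pol
  rw [add_comm a b]
  ring

theorem pol_add_right (h : ES' z) (hP : Pres z Q π) (a b c : V) : pol Q a (b + c) = pol Q a b + pol Q a c := by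
  obtain ⟨x, rfl⟩ := hP.hsurj a
  obtain ⟨y, rfl⟩ := hP.hsurj b
  obtain ⟨w, rfl⟩ := hP.hsurj c
  have h1 := h.cc_mul x y w
  rw [hP.cc_pol h, hP.cc_pol h, hP.cc_pol h, hP.hmul, ← zp_add (zz2 h)] at h1
  exact zp_inj2 h h1

theorem pol_add_left (h : ES' z) (hP : Pres z Q π) (a b c : V) : pol Q (a + b) c = pol Q a c + pol Q b c := by
  rw [pol_symm, hP.pol_add_right h, pol_symm c a, pol_symm c b]

theorem pol_self_char (h : ES' z) (hP : Pres z Q π) (a : V) : a + a = 0 := by
  obtain ⟨x, rfl⟩ := hP.hsurj a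
  rw [← hP.hmul, hP.hker]
  exact h.hsq x

theorem eq_of_pol (h : ES' z) (hP : Pres z Q π) {a : V} (ha : ∀ b, pol Q a b = 0) : a = 0 := by
  obtain ⟨k, rfl⟩ := hP.hsurj a
  rw [hP.hker]
  apply h.hcenter
  intro g
  have h1 := hP.cc_pol h k g
  rw [ha, zp_zero] at h1
  exact comm_of_cc h1

theorem sigma_z (h : ES' z) (σ : E ≃* E) : σ z = z := by
  have h1 : ∀ g, σ z * g = g * σ z := by
    intro g
    obtain ⟨g', rfl⟩ := σ.surjective g
    rw [← map_mul, ← map_mul, h.hcen]
  rcases h.hcenter _ h1 with h2 | h2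
  · exact absurd ((map_eq_one_iff σ σ.injective).1 h2) h.hz1
  · exact h2

theorem pi_congr (h : ES' z) (hP : Pres z Q π) (σ : E ≃* E) {g g' : E} (hg : π g = π g') : π (σ g) = π (σ g') := by
  rcases (hP.eq_iff g g').1 hg with rfl | rfl
  · rfl
  · rw [map_mul, sigma_z h, hP.hmul, hP.map_z, zero_add]

theorem pol_preserved {L : V →+ V} (hLQ : ∀ v, Q (L v) = Q v) (a b : V) : pol Q (L a) (L b) = pol Q a b := by
  unfold pol
  rw [← map_add, hLQ, hLQ, hLQ]

/-- Isometries lift to automorphisms. -/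
theorem exists_lift [Finite E] (h : ES' z) (hP : Pres z Q π) (hna : ∃ a b : E, a * b ≠ b * a) (L : V →+ V)
    (hLinj : Function.Injective L) (hLQ : ∀ v, Q (L v) = Q v) : ∃ σ : E ≃* E, ∀ g, π (σ g) = L (π g) := by
  classical
  let Gp : Subgroup (E × E) :=
    { carrier := {x | L (π x.1) = π x.2}
      one_mem' := by
        show L (π 1) = π 1
        rw [hP.map_one', map_zero]
      mul_mem' := by
        intro a b ha hb
        show L (π (a.1 * b.1)) = π (a.2 * b.2)
        rw [hP.hmul, hP.hmul, map_add, ha.out, hb.out]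
      inv_mem' := by
        intro a ha
        show L (π (a.1⁻¹)) = π (a.2⁻¹)
        rw [hP.map_inv', hP.map_inv', map_neg, ha.out] }
  have hGp : ∀ x, x ∈ Gp ↔ L (π x.1) = π x.2 := fun x => Iff.rfl
  let w0 : Gp := ⟨(z, z), by rw [hGp]; simp [hP.map_z]⟩
  let w1 : Gp := ⟨(z, 1), by rw [hGp]; simp [hP.map_z, hP.map_one']⟩
  have hccG : ∀ a b : Gp, (cc a b : Gp) = 1 ∨ (cc a b : Gp) = w0 := by
    intro a b
    have e1 : (cc a b : Gp).1.1 = zp z (pol Q (π a.1.1) (π b.1.1)) := hP.cc_pol h a.1.1 b.1.1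
    have e2 : (cc a b : Gp).1.2 = zp z (pol Q (π a.1.1) (π b.1.1)) := by
      have := hP.cc_pol h a.1.2 b.1.2
      rw [← (hGp _).1 a.2, ← (hGp _).1 b.2, pol_preserved hLQ] at this
      exact this
    rcases zp_mem h (pol Q (π a.1.1) (π b.1.1)) with h1 | h1
    · left
      apply Subtype.ext
      apply Prod.ext
      · rw [e1, h1]; rfl
      · rw [e2, h1]; rfl
    · right
      apply Subtype.ext
      apply Prod.ext
      · rw [e1, h1]
      · rw [e2, h1]
  have hsqG : ∀ a : Gp, a * a = 1 ∨ a * a = w0 := by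
    intro a
    have e1 : (a * a : Gp).1.1 = zp z (Q (π a.1.1)) := hP.hsq a.1.1
    have e2 : (a * a : Gp).1.2 = zp z (Q (π a.1.1)) := by
      have := hP.hsq a.1.2
      rw [← (hGp _).1 a.2, hLQ] at this
      exact this
    rcases zp_mem h (Q (π a.1.1)) with h1 | h1
    · left
      apply Subtype.ext
      apply Prod.ext
      · rw [e1, h1]; rfl
      · rw [e2, h1]; rfl
    · right
      apply Subtype.ext
      apply Prod.ext
      · rw [e1, h1]
      · rw [e2, h1]
  have hex : ∃ a b : Gp, cc a b = w0 := by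
    obtain ⟨a, b, hab⟩ := hna
    obtain ⟨a', ha'⟩ := hP.hsurj (L (π a))
    obtain ⟨b', hb'⟩ := hP.hsurj (L (π b))
    refine ⟨⟨(a, a'), ha'.symm⟩, ⟨(b, b'), hb'.symm⟩, ?_⟩
    rcases hccG ⟨(a, a'), ha'.symm⟩ ⟨(b, b'), hb'.symm⟩ with h1 | h1
    · exfalso
      apply hab
      have h2 : cc a b = 1 := congrArg (fun x : Gp => x.1.1) h1
      exact comm_of_cc h2
    · exact h1
  obtain ⟨M, hw0, hw1, hM⟩ := exists_hyperplane (G := Gp) (w0 := w0) (w1 := w1)
    (Subtype.ext (Prod.ext h.hzz h.hzz))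
    (fun g => Subtype.ext (Prod.ext (h.hcen _) (h.hcen _)))
    (fun g => Subtype.ext (Prod.ext (h.hcen _) (by simp [w1])))
    (Subtype.ext (Prod.ext h.hzz (by simp [w1])))
    (fun e => h.hz1 (congrArg (fun x : Gp => x.1.1) e))
    (fun e => h.hz1 (congrArg (fun x : Gp => x.1.2) e).symm)
    hccG hsqG hex
  -- the element `(1, z)`
  let w2 : Gp := ⟨(1, z), by rw [hGp]; simp [hP.map_z, hP.map_one']⟩
  have hw2 : w2 ∉ M := by
    intro h2
    apply hw1
    have : w1 = w0 * w2 := by
      apply Subtype.ext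
      apply Prod.ext
      · show z = z * 1
        simp
      · show (1 : E) = z * z
        exact h.hzz.symm
    rw [this]
    exact M.mul_mem hw0 h2
  have hex' : ∀ u : E, ∃ u' : E, ∃ hu : L (π u) = π u', (⟨(u, u'), hu⟩ : Gp) ∈ M := by
    intro u
    obtain ⟨u', hu'⟩ := hP.hsurj (L (π u))
    rcases hM ⟨(u, u'), hu'.symm⟩ with h1 | h1
    · exact ⟨u', hu'.symm, h1⟩
    · have h3 : L (π u) = π (u' * z) := by
        rw [hP.hmul, hP.map_z, add_zero, hu']
      refine ⟨u' * z, h3, ?_⟩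
      have : (⟨(u, u' * z), h3⟩ : Gp) = ⟨(u, u'), hu'.symm⟩ * w1 * w0 := by
        apply Subtype.ext
        apply Prod.ext
        · show u = u * z * z
          rw [mul_assoc, h.hzz, mul_one]
        · show u' * z = u' * 1 * z
          rw [mul_one]
      rw [this]
      exact M.mul_mem h1 hw0
  have huniq : ∀ u u' u'' : E, ∀ (hu : L (π u) = π u') (hu' : L (π u) = π u''), (⟨(u, u'), hu⟩ : Gp) ∈ M →
      (⟨(u, u''), hu'⟩ : Gp) ∈ M → u' = u'' := by
    intro u u' u'' hu hu' h1 h2
    have h3 := M.mul_mem (M.inv_mem h1) h2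
    rcases (hP.eq_iff u'' u').1 (hu'.symm.trans hu) with h4 | h4
    · exact h4.symm
    · exfalso
      apply hw2
      have : w2 = (⟨(u, u'), hu⟩ : Gp)⁻¹ * ⟨(u, u''), hu'⟩ := by
        apply Subtype.ext
        apply Prod.ext
        · show (1 : E) = u⁻¹ * u
          simp
        · show z = u'⁻¹ * u''
          rw [h4, h.hcen]
          simp
      rw [this]
      exact h3
  choose f hf hfM using hex'
  have fmul : ∀ u v, f (u * v) = f u * f v := by
    intro u v
    have h1 : L (π (u * v)) = π (f u * f v) := by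
      rw [hP.hmul, hP.hmul, map_add, hf, hf]
    apply huniq (u * v) _ _ (hf (u * v)) h1 (hfM _)
    have := M.mul_mem (hfM u) (hfM v)
    exact this
  let φ : E →* E := MonoidHom.mk' f fmul
  have hφinj : Function.Injective φ := by
    rw [injective_iff_map_eq_one]
    intro u hu
    have hu' : f u = 1 := hu
    have h1 : L (π u) = π 1 := by rw [← hu']; exact hf u
    rw [hP.map_one'] at h1
    have h2 : π u = 0 := hLinj (by rw [h1, map_zero])
    rcases (hP.hker u).1 h2 with h3 | h3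
    · exact h3
    · exfalso
      apply hw1
      have e3 := hfM u
      have : (⟨(u, f u), hf u⟩ : Gp) = w1 := by
        apply Subtype.ext
        apply Prod.ext
        · exact h3
        · exact hu'
      rwa [this] at e3
  have hφbij : Function.Bijective φ := Finite.injective_iff_bijective.1 hφinj
  refine ⟨MulEquiv.ofBijective φ hφbij, ?_⟩
  intro g
  exact (hf g).symm

end Pres

end basics

section theta

variable {E : Type u} [Group E] {z : E} {ι : Type} [Fintype ι] [DecidableEq ι] {Q : (ι → ZMod 2) → ZMod 2}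
  {π : E → (ι → ZMod 2)}

open Pres

/-- The linear map induced by an automorphism. -/
noncomputable def Lσ (h : ES' z) (hP : Pres z Q π) (σ : E ≃* E) : (ι → ZMod 2) →+ (ι → ZMod 2) :=
  AddMonoidHom.mk' (fun v => π (σ (Function.surjInv hP.hsurj v))) (by
    intro v w
    have h1 : π (Function.surjInv hP.hsurj (v + w)) =
        π (Function.surjInv hP.hsurj v * Function.surjInv hP.hsurj w) := by
      rw [hP.hmul, Function.surjInv_eq hP.hsurj, Function.surjInv_eq hP.hsurj, Function.surjInv_eq hP.hsurj]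
    show π (σ (Function.surjInv hP.hsurj (v + w))) = _
    rw [pi_congr h hP σ h1, map_mul, hP.hmul])

theorem Lσ_pi (h : ES' z) (hP : Pres z Q π) (σ : E ≃* E) (g : E) : Lσ h hP σ (π g) = π (σ g) := by
  show π (σ (Function.surjInv hP.hsurj (π g))) = _
  apply pi_congr h hP
  rw [Function.surjInv_eq hP.hsurj]

/-- The matrix of an automorphism. -/
noncomputable def Mσ (h : ES' z) (hP : Pres z Q π) (σ : E ≃* E) : Matrix ι ι (ZMod 2) :=
  LinearMap.toMatrix' ((Lσ h hP σ).toZModLinearMap 2)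

theorem Mσ_mulVec (h : ES' z) (hP : Pres z Q π) (σ : E ≃* E) (v : ι → ZMod 2) : Mσ h hP σ *ᵥ v = Lσ h hP σ v := by
  unfold Mσ
  rw [LinearMap.toMatrix'_mulVec]
  rfl

theorem Mσ_pi (h : ES' z) (hP : Pres z Q π) (σ : E ≃* E) (g : E) : Mσ h hP σ *ᵥ π g = π (σ g) := by
  rw [Mσ_mulVec, Lσ_pi]

theorem Q_σ (h : ES' z) (hP : Pres z Q π) (σ : E ≃* E) (g : E) : Q (π (σ g)) = Q (π g) := by
  apply zp_inj2 h
  rw [← hP.hsq, ← map_mul, hP.hsq, ]
  have := zp_map σ.toMonoidHom z (Q (π g))
  rw [MulEquiv.coe_toMonoidHom, sigma_z h] at this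
  exact this

/-- The homomorphism to the matrices. -/
noncomputable def Θ0 (h : ES' z) (hP : Pres z Q π) : MulAut E →* Matrix ι ι (ZMod 2) where
  toFun σ := Mσ h hP σ
  map_one' := by
    apply Matrix.ext_iff_mulVec.2
    intro v
    obtain ⟨g, rfl⟩ := hP.hsurj v
    rw [Mσ_pi, Matrix.one_mulVec]
    rfl
  map_mul' σ τ := by
    apply Matrix.ext_iff_mulVec.2
    intro v
    obtain ⟨g, rfl⟩ := hP.hsurj v
    rw [Mσ_pi, ← Matrix.mulVec_mulVec, Mσ_pi, Mσ_pi]
    rfl

theorem Θ0_apply (h : ES' z) (hP : Pres z Q π) (σ : MulAut E) (g : E) : Θ0 h hP σ *ᵥ π g = π (σ g) := Mσ_pi h hP σ g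

theorem Θ0_mem (h : ES' z) (hP : Pres z Q π) (σ : MulAut E) :
    (Θ0 h hP).toHomUnits σ ∈ Cfsg.isometryGroup (ZMod 2) Q := by
  intro u w
  show Q (Θ0 h hP σ *ᵥ u) = Q u
  obtain ⟨g, rfl⟩ := hP.hsurj u
  rw [Θ0_apply, Q_σ h hP]

/-- The homomorphism to the isometry group. -/
noncomputable def Θ (h : ES' z) (hP : Pres z Q π) : MulAut E →* Cfsg.isometryGroup (ZMod 2) Q :=
  (Θ0 h hP).toHomUnits.codRestrict _ (Θ0_mem h hP)

theorem Θ_val (h : ES' z) (hP : Pres z Q π) (σ : MulAut E) :
    (((Θ h hP σ : Cfsg.isometryGroup (ZMod 2) Q) : Matrix.GeneralLinearGroup ι (ZMod 2)) : Matrix ι ι (ZMod 2)) = Θ0 h hP σ := rfl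

theorem Θ_surj [Finite E] (h : ES' z) (hP : Pres z Q π) (hna : ∃ a b : E, a * b ≠ b * a) :
    Function.Surjective (Θ h hP) := by
  rintro ⟨g, hg⟩
  let L : (ι → ZMod 2) →+ (ι → ZMod 2) := AddMonoidHom.mk' (fun v => (g : Matrix ι ι (ZMod 2)) *ᵥ v) (Matrix.mulVec_add _)
  have hLinj : Function.Injective L := by
    intro v w hvw
    have h1 : ((g⁻¹ : Matrix.GeneralLinearGroup ι (ZMod 2)) : Matrix ι ι (ZMod 2)) *ᵥ ((g : Matrix ι ι (ZMod 2)) *ᵥ v) =
        ((g⁻¹ : Matrix.GeneralLinearGroup ι (ZMod 2)) : Matrix ι ι (ZMod 2)) *ᵥ ((g : Matrix ι ι (ZMod 2)) *ᵥ w) :=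
      congrArg _ hvw
    simpa [Matrix.mulVec_mulVec, ← Matrix.GeneralLinearGroup.coe_mul] using h1
  have hLQ : ∀ v, Q (L v) = Q v := fun v => hg v 0
  obtain ⟨σ, hσ⟩ := exists_lift h hP hna L hLinj hLQ
  refine ⟨σ, ?_⟩
  apply Subtype.ext
  apply Units.ext
  show Θ0 h hP σ = (g : Matrix ι ι (ZMod 2))
  apply Matrix.ext_iff_mulVec.2
  intro v
  obtain ⟨k, rfl⟩ := hP.hsurj v
  rw [Θ0_apply]
  exact hσ k

/-- Riesz representation for the polar form. -/
theorem exists_riesz (h : ES' z) (hP : Pres z Q π) (φ : (ι → ZMod 2) →+ ZMod 2) :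
    ∃ a, ∀ b, pol Q a b = φ b := by
  classical
  let F : (ι → ZMod 2) → ((ι → ZMod 2) →ₗ[ZMod 2] ZMod 2) := fun a =>
    (AddMonoidHom.mk' (pol Q a) (hP.pol_add_right h a)).toZModLinearMap 2
  have hF : ∀ a b, F a b = pol Q a b := fun a b => rfl
  have hinj : Function.Injective F := by
    intro a a' haa
    have h1 : a + a' = 0 := by
      apply hP.eq_of_pol h
      intro b
      rw [hP.pol_add_left h, ← hF, ← hF, haa]
      exact two' _
    have h2 := hP.pol_self_char h a'
    calc a = (a + a') + a' := by rw [add_assoc, h2, add_zero]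
      _ = a' := by rw [h1, zero_add]
  have e : ((ι → ZMod 2) →ₗ[ZMod 2] ZMod 2) ≃ₗ[ZMod 2] (ι → ZMod 2) := (Pi.basisFun (ZMod 2) ι).dualBasis.equivFun
  have := Finite.of_equiv _ e.symm.toEquiv
  have hbij := hinj.bijective_of_nat_card_le (le_of_eq (Nat.card_congr e.toEquiv))
  obtain ⟨a, ha⟩ := hbij.2 (φ.toZModLinearMap 2)
  refine ⟨a, fun b => ?_⟩
  rw [← hF, ha]
  rfl

theorem Θ_ker (h : ES' z) (hP : Pres z Q π) : Cfsg.Inn E = (Θ h hP).ker := by
  classical
  apply le_antisymm
  · rintro _ ⟨k, rfl⟩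
    rw [MonoidHom.mem_ker]
    apply Subtype.ext
    apply Units.ext
    show Θ0 h hP (MulAut.conj k) = 1
    apply Matrix.ext_iff_mulVec.2
    intro v
    obtain ⟨g, rfl⟩ := hP.hsurj v
    rw [Θ0_apply, Matrix.one_mulVec, MulAut.conj_apply, hP.hmul, hP.hmul, hP.map_inv', add_comm (π k), add_assoc, add_neg_cancel, add_zero]
  · intro σ hσ
    rw [MonoidHom.mem_ker] at hσ
    have hM : Θ0 h hP σ = 1 := by
      have := congrArg (fun x : Cfsg.isometryGroup (ZMod 2) Q => ((x : Matrix.GeneralLinearGroup ι (ZMod 2)) : Matrix ι ι (ZMod 2))) hσ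
      exact this
    have hπ : ∀ g, π (σ g) = π g := by
      intro g
      rw [← Θ0_apply h hP, hM, Matrix.one_mulVec]
    -- the defect
    have hc : ∀ g : E, ∃ c : ZMod 2, σ g = g * zp z c := by
      intro g
      rcases (hP.eq_iff (σ g) g).1 (hπ g) with h1 | h1
      · exact ⟨0, by rw [h1, zp_zero, mul_one]⟩
      · exact ⟨1, by rw [h1, zp_one, h.hcen]⟩
    choose c hc using hc
    have hcuniq : ∀ g d, σ g = g * zp z d → c g = d := by
      intro g d hd
      rw [hc g] at hd
      exact zp_inj2 h (mul_left_cancel hd)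
    have hcen' : ∀ (d : ZMod 2) (g : E), zp z d * g = g * zp z d := fun d g => zz_cen h d g
    have hcmul : ∀ g k, c (g * k) = c g + c k := by
      intro g k
      apply hcuniq
      rw [map_mul, hc g, hc k, zp_add (zz2 h)]
      calc g * zp z (c g) * (k * zp z (c k)) = g * (zp z (c g) * k) * zp z (c k) := by simp only [mul_assoc]
        _ = g * (k * zp z (c g)) * zp z (c k) := by rw [hcen']
        _ = _ := by simp only [mul_assoc]
    have hcz : c z = 0 := by
      apply hcuniq
      rw [sigma_z h, zp_zero, mul_one]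
    have hc1 : c 1 = 0 := by
      apply hcuniq
      rw [map_one, zp_zero, mul_one]
    have hcongr : ∀ g k, π g = π k → c g = c k := by
      intro g k hgk
      rcases (hP.eq_iff g k).1 hgk with rfl | rfl
      · rfl
      · rw [hcmul, hcz, zero_add]
    let φ : (ι → ZMod 2) →+ ZMod 2 := AddMonoidHom.mk' (fun v => c (Function.surjInv hP.hsurj v)) (by
      intro v w
      rw [← hcmul]
      apply hcongr
      rw [hP.hmul, Function.surjInv_eq hP.hsurj, Function.surjInv_eq hP.hsurj, Function.surjInv_eq hP.hsurj])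
    have hφ : ∀ g, φ (π g) = c g := by
      intro g
      apply hcongr
      rw [Function.surjInv_eq hP.hsurj]
    obtain ⟨a, ha⟩ := exists_riesz h hP φ
    obtain ⟨k, rfl⟩ := hP.hsurj a
    refine ⟨k, ?_⟩
    apply MulEquiv.ext
    intro g
    rw [MulAut.conj_apply, hc g, ← hφ, ← ha, ← hP.cc_pol h]
    have hcentral : cc k g * g = g * cc k g := by
      rcases h.cc_val k g with e | e
      · rw [e, one_mul, mul_one]
      · rw [e, h.hcen]
    rw [← hcentral]
    unfold cc
    group

/-- The main isomorphism. -/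
theorem out_iso [Finite E] (h : ES' z) (hP : Pres z Q π) (hna : ∃ a b : E, a * b ≠ b * a) :
    Nonempty (Cfsg.Out E ≃* Cfsg.isometryGroup (ZMod 2) Q) :=
  ⟨(QuotientGroup.quotientMulEquivOfEq (Θ_ker h hP)).trans
    (QuotientGroup.quotientKerEquivOfSurjective (Θ h hP) (Θ_surj h hP hna))⟩

end theta

/-- Non-commutativity of extraspecial groups. -/
theorem exists_noncomm {E : Type*} [Group E] (hE : Cfsg.IsExtraspecial 2 E) : ∃ a b : E, a * b ≠ b * a := by
  by_contra hcon
  push Not at hcon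
  obtain ⟨⟨-, -, hcomm⟩, hZ⟩ := hE
  have hbot : commutator E = ⊥ := by
    unfold _root_.commutator
    rw [Subgroup.commutator_eq_bot_iff_le_centralizer]
    intro x _
    rw [Subgroup.mem_centralizer_iff]
    intro y _
    exact hcon y x
  rw [hbot] at hcomm
  rw [← hcomm] at hZ
  simp at hZ

/-- The outer automorphism groups. -/
theorem main_out {E : Type u} [Group E] [Finite E] (hE : Cfsg.IsExtraspecial 2 E) (n : ℕ) (hn : 1 ≤ n)
    (hcard : Nat.card E = 2 ^ (2 * n + 1)) :
    ((∃ A : Subgroup E, Cfsg.IsElementaryAbelian 2 A ∧ Nat.card ↥A = 2 ^ (n + 1)) →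
      Nonempty (Cfsg.Out E ≃* Cfsg.isometryGroup (ZMod 2) (Cfsg.quadFormPlus n (ZMod 2)))) ∧
    ((¬ ∃ A : Subgroup E, Cfsg.IsElementaryAbelian 2 A ∧ Nat.card ↥A = 2 ^ (n + 1)) →
      Nonempty (Cfsg.Out E ≃* Cfsg.isometryGroup (ZMod 2) (Cfsg.quadFormMinus (n - 1) (ZMod 2) 1 1))) := by
  classical
  haveI : Fintype E := Fintype.ofFinite _
  obtain ⟨z, hz⟩ := exists_data hE
  have hcE : Fintype.card E = 2 ^ (2 * n + 1) := by rw [← Nat.card_eq_fintype_card, hcard]
  have hna := exists_noncomm hE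
  constructor
  · rintro ⟨A, ⟨hA1, hA2⟩, hA3⟩
    have hgv := hz.gauss_value n hcE A (fun a ha b hb => congrArg Subtype.val (hA1.is_comm.comm ⟨a, ha⟩ ⟨b, hb⟩))
      (fun a ha => by rw [← sq]; exact hA2 a ha) hA3
    obtain ⟨π, hπ⟩ := pres_plus n hz hcE (by rw [hgv]; positivity)
    exact out_iso hz hπ hna
  · intro hno
    have hneg : (∑ x : E, ss x) < 0 := by
      by_contra hpos
      push Not at hpos
      apply hno
      obtain ⟨A0, hc1, hc2, hA⟩ := exists_abelian _ hz rfl
      rcases sum_val hz n hcE with hs | hs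
      · rcases hA with ⟨-, h3⟩ | ⟨h3, -⟩
        · refine ⟨A0, ⟨⟨⟨fun a b => Subtype.ext (hc1 _ a.2 _ b.2)⟩⟩, fun a ha => by rw [sq]; exact hc2 a ha⟩, ?_⟩
          rw [hs] at h3
          exact_mod_cast h3
        · linarith
      · rw [hs] at hpos
        have : (0 : ℤ) < 2 ^ (n + 1) := by positivity
        linarith
    obtain ⟨m, rfl⟩ : ∃ m, n = m + 1 := ⟨n - 1, by omega⟩
    obtain ⟨π, hπ⟩ := pres_minus m hz hcE hneg
    exact out_iso hz hπ hna

/-- The group of order 32 of minus type. -/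
theorem main_32 {P : Type u} [Group P] [Finite P] (hex : Cfsg.IsExtraspecial 2 P) (h32 : Nat.card P = 32)
    (hminus : ∀ A : Subgroup P, Cfsg.IsElementaryAbelian 2 A → Nat.card ↥A ≤ 4)
    [(MulAut.conj : P →* MulAut P).range.Normal] :
    Nat.card ↥(MulAut.conj : P →* MulAut P).range = 16 ∧ Nat.card (MulAut P) = 1920 ∧
      Nonempty ((MulAut P ⧸ (MulAut.conj : P →* MulAut P).range) ≃* Equiv.Perm (Fin 5)) := by
  classical
  have hno : ¬ ∃ A : Subgroup P, Cfsg.IsElementaryAbelian 2 A ∧ Nat.card ↥A = 2 ^ (2 + 1) := by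
    rintro ⟨A, h1, h2⟩
    have := hminus A h1
    rw [h2] at this
    norm_num at this
  obtain ⟨e1⟩ := (main_out hex 2 (by norm_num) (by rw [h32]; rfl)).2 hno
  obtain ⟨e2⟩ := Cfsg.Agent.Lib.OrthS5.main
  have e3 : (MulAut P ⧸ (MulAut.conj : P →* MulAut P).range) ≃* Equiv.Perm (Fin 5) := e1.trans e2
  have hr : Nat.card ↥(MulAut.conj : P →* MulAut P).range = 16 := by
    have hker : (MulAut.conj : P →* MulAut P).ker = Subgroup.center P := by
      ext x
      rw [MonoidHom.mem_ker, Subgroup.mem_center_iff]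
      constructor
      · intro h y
        have := congrArg (fun f : MulAut P => f y) h
        simp only [MulAut.conj_apply, MulAut.one_apply] at this
        exact (mul_inv_eq_iff_eq_mul.1 this).symm
      · intro h
        apply MulEquiv.ext
        intro y
        simp only [MulAut.conj_apply, MulAut.one_apply]
        rw [← h y]
        group
    have h1 := Subgroup.card_mul_index (MulAut.conj : P →* MulAut P).ker
    rw [Subgroup.index_ker, hker, hex.2, h32] at h1
    omega
  refine ⟨hr, ?_, ⟨e3⟩⟩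
  have h2 := Subgroup.card_mul_index (MulAut.conj : P →* MulAut P).range
  rw [Subgroup.index_eq_card, Nat.card_congr e3.toEquiv, hr] at h2
  rw [← h2, Nat.card_perm]
  simp
  decide

end Cfsg.Agent.Lib.ExtraOut
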