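import Cfsg.Agent.Lib.FusionNormal
import Cfsg.Agent.Lib.FusionBasic
import Cfsg.Prelude.Def_FusionComponents

/-!
A normal subsystem of a constrained system is constrained: the intersection of the core with the
underlying group of the subsystem is normal and centric in the subsystem.
-/

set_option autoImplicit false

namespace Cfsg.Agent.Lib.FusionConstrainedSub

open Cfsg Cfsg.FusionSystem Cfsg.Agent.Lib.FusionNormal Cfsg.Agent.Lib.FusionBasic
  Cfsg.Agent.Lib.FusionSat Cfsg.Agent.Lib.FusionAut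

variable {Ω : Type*} [Group Ω] {S T : Subgroup Ω} {p : ℕ} [Fact p.Prime]

theorem fix_of_pow_fix' {H X : Type*} [Group H] [MulAction H X] {γ : H} {y : X} {a b : ℕ}
    (ha : γ ^ a • y = y) (hb : γ ^ b • y = y) (hab : a.Coprime b) : γ • y = y := by
  have h1 : γ ^ a ∈ MulAction.stabilizer H y := ha
  have h2 : γ ^ b ∈ MulAction.stabilizer H y := hb
  have h3 : γ = (γ ^ a) ^ (Nat.gcdA a b) * (γ ^ b) ^ (Nat.gcdB a b) := by
    rw [← zpow_natCast, ← zpow_natCast, ← zpow_mul, ← zpow_mul, ← zpow_add, ← Nat.gcd_eq_gcd_ab,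
      hab.gcd_eq_one]
    simp
  have h4 : γ ∈ MulAction.stabilizer H y := by
    rw [h3]
    exact Subgroup.mul_mem _ (Subgroup.zpow_mem _ h1 _) (Subgroup.zpow_mem _ h2 _)
  exact h4

/-- A normal subgroup lies in every centric radical subgroup. -/
theorem IsNormal.le_of_centric_radical [Finite S] (hS : IsPGroup p S) {F : FusionSystem S}
    {Q U : Subgroup Ω} (hQ : F.IsNormal Q) (hUc : F.IsCentric U) (hUr : F.IsRadical p U) : Q ≤ U := by
  obtain ⟨n, Qs, h0, hl, hm, hn, hc⟩ := IsNormal.exists_chain hS hQ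
  exact le_of_central_chain hS hUc hUr (IsNormal.stronglyClosed hQ) n Qs h0 hl hm hc
    fun i => StronglyClosed.weaklyClosed (IsNormal.stronglyClosed (hn _))

theorem stronglyClosed_inf {F : FusionSystem S} {A B : Subgroup Ω} (hA : F.StronglyClosed A)
    (hB : F.StronglyClosed B) : F.StronglyClosed (A ⊓ B) :=
  ⟨inf_le_left.trans hA.1, fun R hR φ hφ x =>
    ⟨hA.2 R (hR.trans inf_le_left) φ hφ x, hB.2 R (hR.trans inf_le_right) φ hφ x⟩⟩

/-- A strongly closed subgroup of the big system cuts a strongly closed subgroup of a subsystem. -/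
theorem stronglyClosed_sub {F : FusionSystem S} {E : FusionSystem T} (hEF : E.IsSubsystemOf F)
    {A : Subgroup Ω} (hA : F.StronglyClosed A) : E.StronglyClosed (A ⊓ T) :=
  ⟨inf_le_right, fun R hR φ hφ x =>
    ⟨hA.2 R (hR.trans inf_le_left) φ (hEF R hφ) x, (E.le_of_mem hφ).2 x⟩⟩

/-- The key point: the centralizer of `Q ∩ T` in `T` lies in every centric radical subgroup. -/
theorem le_of_stab_centralizer [Finite S] (hS : IsPGroup p S) {F : FusionSystem S} {Q U M : Subgroup Ω}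
    (hTs : F.StronglyClosed T) (hQs : F.StronglyClosed Q) (hQc : ∀ x ∈ S, x ∈ Subgroup.centralizer (Q : Set Ω) → x ∈ Q)
    (hMs : F.StronglyClosed M) (hMT : M ≤ T) (hMc : ∀ m ∈ M, ∀ r ∈ Q ⊓ T, m * r = r * m)
    (hUc : F.IsCentric U) (hUr : F.IsRadical p U) (hQU : Q ≤ U) : M ≤ U := by
  have hUS := hUc.1
  haveI hfinU : Finite U := finite_of_le hUS
  have hUp : IsPGroup p U := hS.to_le hUS
  have hpp : p.Prime := Fact.out
  have hRs := stronglyClosed_inf hQs hTs
  let C' : ℕ → Subgroup U := fun t =>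
    if t = 0 then ⊥ else if t = 1 then (Q ⊓ T).subgroupOf U else Q.subgroupOf U
  have hC0 : C' 0 = ⊥ := if_pos rfl
  have hC1 : C' 1 = (Q ⊓ T).subgroupOf U := by
    show (if (1 : ℕ) = 0 then _ else _) = _
    rw [if_neg (by omega), if_pos rfl]
  have hC2 : C' 2 = Q.subgroupOf U := by
    show (if (2 : ℕ) = 0 then _ else _) = _
    rw [if_neg (by omega), if_neg (by omega)]
  have hC'mono : ∀ i < 2, C' i ≤ C' (i + 1) := by
    intro i hi
    obtain rfl | rfl : i = 0 ∨ i = 1 := by omega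
    · rw [hC0]
      exact bot_le
    · rw [hC1, hC2]
      exact Subgroup.comap_mono inf_le_left
  let B : ℕ → Subgroup U := fun t => if t = 0 then T.subgroupOf U else ⊤
  have hB0 : B 0 = T.subgroupOf U := if_pos rfl
  have hB1 : B 1 = ⊤ := if_neg (by omega)
  have hC'inv : ∀ t, t ≤ 2 → ∀ α ∈ F.autGroup U, ∀ x ∈ C' t, α x ∈ C' t := by
    intro t ht α hα x hx
    obtain rfl | rfl | rfl : t = 0 ∨ t = 1 ∨ t = 2 := by omega
    · rw [hC0] at hx ⊢
      rw [Subgroup.mem_bot] at hx ⊢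
      rw [hx, map_one]
    · rw [hC1] at hx ⊢
      exact StronglyClosed.map_autGroup_mem hRs hUS hα x hx
    · rw [hC2] at hx ⊢
      exact StronglyClosed.map_autGroup_mem hQs hUS hα x hx
  refine le_of_stab hS hUc hUr hMs.1 (StronglyClosed.le_normalizer hMs) 1 B ?_ hB1 ?_
    (stabSubmonoid C' 2 hC'mono) ?_ ?_ ?_
  · intro i hi
    obtain rfl : i = 0 := by omega
    rw [hB1]
    exact le_top
  · intro i hi α hα x hx
    obtain rfl | rfl : i = 0 ∨ i = 1 := by omega
    · rw [hB0] at hx ⊢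
      exact StronglyClosed.map_autGroup_mem hTs hUS hα x hx
    · rw [hB1]
      trivial
  · intro α hα β hβ i hi y hy
    have hz : α⁻¹ y ∈ C' (i + 1) :=
      hC'inv (i + 1) (by omega) α⁻¹ (Subgroup.inv_mem _ hα) y hy
    have hb := hβ i hi _ hz
    have hαb := hC'inv i (by omega) α hα _ hb
    have e : y⁻¹ * (α * β * α⁻¹) y = α ((α⁻¹ y)⁻¹ * β (α⁻¹ y)) := by
      simp [MulAut.mul_apply]
    rw [e]
    exact hαb
  · intro β hβA hβ _
    haveI : Finite (MulAut U) := mulAut_finite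
    obtain ⟨a, c, hc1, hc2⟩ := Nat.exists_eq_pow_mul_and_not_dvd (orderOf_pos β).ne' p hpp.ne_one
    have hcop0 : c.Coprime p := ((Nat.Prime.coprime_iff_not_dvd hpp).mpr hc1).symm
    refine ⟨a, fun b _ => ?_⟩
    set γ := β ^ (p ^ a) with hγ
    have hγord : orderOf γ = c := by
      rw [hγ, orderOf_pow' _ (pow_ne_zero _ hpp.ne_zero), hc2]
      rw [Nat.gcd_eq_right (Dvd.intro _ rfl)]
      exact Nat.mul_div_cancel_left _ (pow_pos hpp.pos _)
    have hγA : γ ∈ F.autGroup U := Subgroup.pow_mem _ hβA _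
    have hγst : γ ∈ stabSubmonoid C' 2 hC'mono := Submonoid.pow_mem _ hβ _
    have hγord' : (orderOf γ).Coprime p := hγord ▸ hcop0
    obtain ⟨k', hk'⟩ := pow_fix_of_chain hUp γ C' 2 hC'mono hγst 0 (by
      intro y hy
      rw [hC0, Subgroup.mem_bot] at hy
      rw [hy, map_one])
    have hfixQ : ∀ y ∈ Q.subgroupOf U, γ y = y := by
      intro y hy
      have h1 : (γ ^ (p ^ k')) • y = y := hk' y (by rw [hC2]; exact hy)
      have h2 : (γ ^ (orderOf γ)) • y = y := by
        rw [pow_orderOf_eq_one, one_smul]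
      exact fix_of_pow_fix' h2 h1 (Nat.Coprime.pow_right _ hγord')
    have hst : ∀ y ∈ (⊤ : Subgroup U), y⁻¹ * γ y ∈ Q.subgroupOf U := by
      intro y _
      rw [Subgroup.mem_subgroupOf]
      apply hQc _ (hUS (U.mul_mem (U.inv_mem y.2) (γ y).2))
      rw [Subgroup.mem_centralizer_iff]
      intro q hq
      have hqU : q ∈ U := hQU hq
      -- conjugating `q` by `y` stays in `Q`
      have hyq : (y : Ω) * q * (y : Ω)⁻¹ ∈ Q :=
        (Subgroup.mem_normalizer_iff.mp (StronglyClosed.le_normalizer hQs (hUS y.2)) q).mp hq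
      have h3 : γ (y * ⟨q, hqU⟩ * y⁻¹) = y * ⟨q, hqU⟩ * y⁻¹ :=
        hfixQ (y * ⟨q, hqU⟩ * y⁻¹) hyq
      have h4 : γ ⟨q, hqU⟩ = ⟨q, hqU⟩ := hfixQ ⟨q, hqU⟩ hq
      rw [map_mul, map_mul, map_inv, h4] at h3
      have h5 := congrArg Subtype.val h3
      have h6 : ((γ y : U) : Ω) * q * ((γ y : U) : Ω)⁻¹ = (y : Ω) * q * (y : Ω)⁻¹ := h5
      show q * ((y : Ω)⁻¹ * ((γ y : U) : Ω)) = (y : Ω)⁻¹ * ((γ y : U) : Ω) * q
      have h7 : ((γ y : U) : Ω) * q = (y : Ω) * q * (y : Ω)⁻¹ * ((γ y : U) : Ω) := by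
        rw [← h6]; group
      calc q * ((y : Ω)⁻¹ * ((γ y : U) : Ω))
          = (y : Ω)⁻¹ * ((y : Ω) * q * (y : Ω)⁻¹ * ((γ y : U) : Ω)) := by group
        _ = (y : Ω)⁻¹ * (((γ y : U) : Ω) * q) := by rw [h7]
        _ = _ := by group
    obtain ⟨m, hm⟩ := pow_fix_of_stab hUp γ le_top hst 0 (by
      intro y hy
      simpa using hfixQ y hy)
    have h1 : (γ ^ (p ^ m)) • b = b := hm b trivial
    have h2 : (γ ^ (orderOf γ)) • b = b := by
      rw [pow_orderOf_eq_one, one_smul]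
    exact fix_of_pow_fix' h2 h1 (Nat.Coprime.pow_right _ hγord')
  · intro r hr hrn
    constructor
    · intro i hi y hy
      have e : ((y⁻¹ * conjAut U ⟨r, hrn⟩ y : ↥U) : Ω) = (y : Ω)⁻¹ * (r * y * r⁻¹) := rfl
      obtain rfl | rfl : i = 0 ∨ i = 1 := by omega
      · rw [hC1] at hy
        rw [hC0, Subgroup.mem_bot]
        apply Subtype.ext
        show (y : Ω)⁻¹ * (r * y * r⁻¹) = 1
        rw [hMc r hr y hy]
        group
      · rw [hC2] at hy
        rw [hC1, Subgroup.mem_subgroupOf, e]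
        have hy' : (y : Ω) ∈ Q := hy
        have hrT : r ∈ T := hMT hr
        have hrS : r ∈ S := hTs.1 hrT
        constructor
        · have h1 := (Subgroup.mem_normalizer_iff.mp (StronglyClosed.le_normalizer hQs hrS) y).mp hy'
          exact Q.mul_mem (Q.inv_mem hy') h1
        · have hyS : (y : Ω)⁻¹ ∈ S := S.inv_mem (hUS y.2)
          have h1 := (Subgroup.mem_normalizer_iff.mp (StronglyClosed.le_normalizer hTs hyS) r).mp hrT
          rw [inv_inv] at h1
          have h2 : (y : Ω)⁻¹ * (r * y * r⁻¹) = ((y : Ω)⁻¹ * r * y) * r⁻¹ := by group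
          rw [h2]
          exact T.mul_mem h1 (T.inv_mem hrT)
    · intro i hi y _
      obtain rfl : i = 0 := by omega
      rw [hB0, Subgroup.mem_subgroupOf]
      have e : ((y⁻¹ * conjAut U ⟨r, hrn⟩ y : ↥U) : Ω) = ((y : Ω)⁻¹ * r * y) * r⁻¹ := by
        show (y : Ω)⁻¹ * (r * y * r⁻¹) = _
        group
      rw [e]
      have hrT : r ∈ T := hMT hr
      have hyS : (y : Ω)⁻¹ ∈ S := S.inv_mem (hUS y.2)
      have h1 := (Subgroup.mem_normalizer_iff.mp (StronglyClosed.le_normalizer hTs hyS) r).mp hrT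
      rw [inv_inv] at h1
      exact T.mul_mem h1 (T.inv_mem hrT)

/-- A normal subsystem of a constrained system is constrained. -/
theorem isConstrained_of_isNormalIn [Finite S] (hS : IsPGroup p S) {F : FusionSystem S}
    (hF : F.IsConstrained p) {E : FusionSystem T} (hE : E.IsNormalIn F p) : E.IsConstrained p := by
  obtain ⟨hsat, Q₀, hQ₀n, hQ₀c⟩ := hF
  have hEsat := hE.1.1
  have hinv := hE.1.2.2
  have hsub := hinv.1
  have hTs := hinv.2.1
  have hTS : T ≤ S := hTs.1
  haveI : Finite T := finite_of_le hTS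
  have hTp : IsPGroup p T := hS.to_le hTS
  set Q := F.core with hQdef
  have hQn : F.IsNormal Q := isNormal_core F
  have hQ₀Q : Q₀ ≤ Q := IsNormal.le_core hQ₀n
  have hQs := IsNormal.stronglyClosed hQn
  have hQc : ∀ x ∈ S, x ∈ Subgroup.centralizer (Q : Set Ω) → x ∈ Q := by
    intro x hxS hx
    apply hQ₀Q
    have h1 : F.IsConj Q₀ Q₀ := isConj_refl F hQ₀c.1
    apply hQ₀c.2 Q₀ h1
    exact ⟨hxS, Subgroup.centralizer_le (by exact_mod_cast hQ₀Q) hx⟩
  set R := Q ⊓ T with hRdef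
  have hRs : F.StronglyClosed R := stronglyClosed_inf hQs hTs
  have hRsE : E.StronglyClosed R := stronglyClosed_sub hsub hQs
  obtain ⟨n, Qs, h0, hl, hm, hn, hc⟩ := IsNormal.exists_chain hS hQn
  have hRnE : E.IsNormal R := by
    refine isNormal_of_stronglyClosed_of_le hTp hEsat hRsE fun U hUc hUr => ?_
    refine le_of_central_chain hTp hUc hUr hRsE n (fun i => Qs i ⊓ T) ?_ ?_ ?_ ?_ ?_
    · show Qs 0 ⊓ T = ⊥
      rw [h0, bot_inf_eq]
    · show Qs _ ⊓ T = _
      rw [hl]
    · intro i j hij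
      exact inf_le_inf_right _ (hm hij)
    · intro i
      rw [Subgroup.commutator_le]
      intro a ha b hb
      refine ⟨hc i (Subgroup.commutator_mem_commutator ha.1 hb.1), ?_⟩
      rw [commutatorElement_def]
      exact T.mul_mem (T.mul_mem (T.mul_mem ha.2 hb.2) (T.inv_mem ha.2)) (T.inv_mem hb.2)
    · intro i
      exact StronglyClosed.weaklyClosed (stronglyClosed_sub hsub (IsNormal.stronglyClosed (hn _)))
  have hRnF : F.IsNormal R := isNormal_of_stronglyClosed_of_le hS hsat hRs fun U hUc hUr =>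
    inf_le_left.trans (IsNormal.le_of_centric_radical hS hQn hUc hUr)
  -- the centralizer of `R` in `T`
  set M := T ⊓ Subgroup.centralizer (R : Set Ω) with hMdef
  have hMs : F.StronglyClosed M := by
    refine ⟨inf_le_left.trans hTS, fun U' hU' φ hφ x => ?_⟩
    refine ⟨hTs.2 U' (hU'.trans inf_le_left) φ hφ x, Subgroup.mem_centralizer_iff.mpr ?_⟩
    intro r hr
    obtain ⟨ψ, hψ, he, hmap⟩ := hRnF.2 U' φ hφ
    obtain ⟨⟨r', hr'⟩, hr'R, e⟩ := hmap.ge hr
    have hr'R' : r' ∈ R := hr'R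
    have hcomm : (x : Ω) * r' = r' * x :=
      (Subgroup.mem_centralizer_iff.mp (hU' x.2).2 r' hr'R').symm
    have h1 : (Subgroup.inclusion le_sup_left x : ↥(U' ⊔ R)) * ⟨r', hr'⟩ =
        ⟨r', hr'⟩ * Subgroup.inclusion le_sup_left x := Subtype.ext hcomm
    have h2 := congrArg ψ h1
    rw [map_mul, map_mul, he, e] at h2
    exact h2.symm
  have hMnF : F.IsNormal M := isNormal_of_stronglyClosed_of_le hS hsat hMs fun U hUc hUr =>
    le_of_stab_centralizer hS hTs hQs hQc hMs inf_le_left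
      (fun m hm r hr => (Subgroup.mem_centralizer_iff.mp hm.2 r hr).symm) hUc hUr
      (IsNormal.le_of_centric_radical hS hQn hUc hUr)
  have hMQ : M ≤ Q := IsNormal.le_core hMnF
  refine ⟨hEsat, R, hRnE, inf_le_right, ?_⟩
  rintro R' ⟨φ, hφ, rfl⟩
  have hr : φ.range = R := (StronglyClosed.weaklyClosed (IsNormal.stronglyClosed hRnE)).2 φ hφ
  rw [hr]
  intro x hx
  exact ⟨hMQ ⟨hx.1, hx.2⟩, hx.1⟩

/-- A subnormal subsystem of a constrained system is constrained. -/
theorem isConstrained_of_isSubnormalIn {E : FusionSystem T} {F : FusionSystem S} {q : ℕ}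
    (h : E.IsSubnormalIn F q) :
    ∀ [Fact q.Prime] [Finite S], IsPGroup q S → F.IsConstrained q → E.IsConstrained q := by
  induction h with
  | refl F p =>
    intro _ _ _ h
    exact h
  | step _ hDF ih =>
    intro _ _ hS hF
    have hUS := hDF.1.2.2.2.1.1
    haveI := finite_of_le hUS
    exact ih (hS.to_le hUS) (isConstrained_of_isNormalIn hS hF hDF)

end Cfsg.Agent.Lib.FusionConstrainedSub
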