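import Cfsg.Agent.Lib.FusionPIdx
import Cfsg.Agent.Lib.FusionQuot

/-!
The hyperfocal subgroup of a factor system, and the action of the hyperfocal subgroup on a strongly
closed subgroup.
-/

set_option autoImplicit false
set_option linter.all false

namespace Cfsg.Agent.Lib.FusionHypQuot

open Cfsg Cfsg.FusionSystem Cfsg.Agent.Lib.FusionBasic Cfsg.Agent.Lib.FusionAut
  Cfsg.Agent.Lib.FusionSat Cfsg.Agent.Lib.FusionAlperin Cfsg.Agent.Lib.FusionNormal
  Cfsg.Agent.Lib.FusionHyp Cfsg.Agent.Lib.FusionStrong Cfsg.Agent.Lib.PResidual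
  Cfsg.Agent.Lib.FusionPIdx Cfsg.Agent.Lib.FusionQuot Cfsg.Agent.Lib.FusionFactor

variable {Ω : Type*} [Group Ω] {S : Subgroup Ω} {p : ℕ} [Fact p.Prime]

/-- Testing the hyperfocal subgroup on automorphisms of order prime to `p`. -/
theorem hyp_le_of_coprime {F : FusionSystem S} (K : Subgroup Ω)
    (h : ∀ (P : Subgroup Ω), P ≤ S → ∀ ρ : F.autGroup P, Nat.Coprime (orderOf ρ) p →
      ∀ x : P, (x : Ω)⁻¹ * ((ρ.1 x : P) : Ω) ∈ K) : F.hyperfocalSubgroup p ≤ K := by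
  unfold hyperfocalSubgroup
  rw [Subgroup.closure_le]
  rintro _ ⟨P, α, x, hP, hα, rfl⟩
  unfold pResidual at hα
  revert x
  induction hα using Subgroup.closure_induction with
  | mem g hg =>
    intro x
    exact h P hP g hg x
  | one =>
    intro x
    show (x : Ω)⁻¹ * (x : Ω) ∈ K
    rw [inv_mul_cancel]
    exact one_mem _
  | mul a b _ _ ha hb =>
    intro x
    have e : (x : Ω)⁻¹ * (((a * b).1 x : P) : Ω) =
        ((x : Ω)⁻¹ * ((b.1 x : P) : Ω)) * (((b.1 x : P) : Ω)⁻¹ * ((a.1 (b.1 x) : P) : Ω)) := by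
      show (x : Ω)⁻¹ * ((a.1 (b.1 x) : P) : Ω) = _
      group
    rw [e]
    exact mul_mem (hb x) (ha _)
  | inv a _ ha =>
    intro x
    have h1 := ha (a⁻¹.1 x)
    have e2 : a.1 (a⁻¹.1 x) = x := by
      show a.1 (a.1.symm x) = x
      simp
    rw [e2] at h1
    have h2 := inv_mem h1
    have e3 : (((a⁻¹.1 x : P) : Ω)⁻¹ * (x : Ω))⁻¹ = (x : Ω)⁻¹ * ((a⁻¹.1 x : P) : Ω) := by group
    rw [e3] at h2
    exact h2

section Factor

variable {Ω' : Type*} [Group Ω'] {S' : Subgroup Ω'}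

/-- `hyp(F/T) = T hyp(F)/T`. -/
theorem hyp_factor [Finite S] (hS : IsPGroup p S) {F : FusionSystem S} (hF : F.IsSaturated p)
    {T : Subgroup Ω} (hT : F.StronglyClosed T) {θ : S →* Ω'} {E : FusionSystem S'}
    (hE : F.IsFactorSystem T θ E) :
    E.hyperfocalSubgroup p = ((F.hyperfocalSubgroup p).subgroupOf S).map θ := by
  have hmor := isSurjectiveMorphism_of_factor hS hF hT hE
  obtain ⟨hle, hker, hrange, hhom⟩ := hE
  apply le_antisymm
  · -- generators of `hyp(E)`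
    refine hyp_le_of_coprime _ fun P' hP' ρ' hρ' y => ?_
    have hmem := (mem_autGroup_iff E hP').1 ρ'.2
    obtain ⟨-, φ, hφ, hPS, hφS, hP₁, eφ⟩ := (hhom P' _).1 hmem
    have hval : ∀ x : preimageAlong θ P', φ x ∈ preimageAlong θ P' := by
      intro x
      refine (mem_preimageAlong θ P' _).2 ⟨hφS x, ?_⟩
      rw [← eφ x]
      exact (ρ'.1 _).2
    have hr : φ.range = preimageAlong θ P' := by
      haveI : Finite (preimageAlong θ P') := finite_of_le hPS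
      refine Subgroup.eq_of_le_of_card_ge ?_ (card_range_eq F hφ).ge
      rintro _ ⟨x, rfl⟩
      exact hval x
    let π : preimageAlong θ P' →* P' :=
      MonoidHom.codRestrict (θ.comp (Subgroup.inclusion hPS)) P' hP₁
    have hπ : Function.Surjective π := by
      rintro ⟨y, hy⟩
      have hy2 : y ∈ θ.range := by
        rw [hrange]
        exact hP' hy
      obtain ⟨s, rfl⟩ := hy2
      refine ⟨⟨s, (mem_preimageAlong θ P' _).2 ⟨s.2, hy⟩⟩, rfl⟩
    have hTP : T ≤ preimageAlong θ P' := by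
      intro t ht
      have htS := hle ht
      refine (mem_preimageAlong θ P' _).2 ⟨htS, ?_⟩
      rw [(hker ⟨t, htS⟩).2 ht]
      exact one_mem _
    have hkerπ : ∀ x : preimageAlong θ P', π x = 1 ↔ (x : Ω) ∈ T := by
      intro x
      rw [← hker ⟨x, hPS x.2⟩]
      constructor
      · intro h
        exact congrArg Subtype.val h
      · intro h
        exact Subtype.ext h
    have hpres : ∀ β ∈ F.autGroup (preimageAlong θ P'), ∀ x : preimageAlong θ P', (x : Ω) ∈ T → ((β x : preimageAlong θ P') : Ω) ∈ T := by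
      intro β hβ x hx
      have hm := restrict_mem F ((mem_autGroup_iff F hPS).1 hβ) hTP
      exact hT.2 T le_rfl _ hm ⟨x, hx⟩
    have hA : ∀ β ∈ F.autGroup (preimageAlong θ P'), ∀ x, π x = 1 ↔ π (β x) = 1 := by
      intro β hβ x
      rw [hkerπ, hkerπ]
      constructor
      · exact hpres β hβ x
      · intro h
        have := hpres β⁻¹ (inv_mem hβ) (β x) h
        have e2 : β⁻¹ (β x) = x := by
          show β.symm (β x) = x
          simp
        rwa [e2] at this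
    let R := inducedAutHom π hπ (F.autGroup (preimageAlong θ P')) hA
    let b : F.autGroup (preimageAlong θ P') := ⟨isoOfRange hφ hr, isoOfRange_mem_autGroup hφ hr⟩
    have hRb : R b = ρ'.1 := by
      ext y
      obtain ⟨x, rfl⟩ := hπ y
      have h1 := inducedAutHom_apply π hπ (F.autGroup (preimageAlong θ P')) hA b x
      have h2 := eφ x
      show ((R b (π x) : P') : Ω') = _
      rw [h1]
      exact h2.symm
    have hcop : (orderOf (⟨ρ'.1, ⟨b, hRb⟩⟩ : R.range)).Coprime p := by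
      have e1 : orderOf (⟨ρ'.1, ⟨b, hRb⟩⟩ : R.range) = orderOf ρ'.1 := Subgroup.orderOf_mk _ _
      have e2 : orderOf ρ'.1 = orderOf ρ' := Subgroup.orderOf_coe ρ'
      rw [e1, e2]
      exact hρ'
    haveI : Finite ↥(preimageAlong θ P') := finite_of_le hPS
    haveI : Finite (MulAut ↥(preimageAlong θ P')) := mulAut_finite
    obtain ⟨a, ha, hfa⟩ := exists_coprime_lift R.rangeRestrict R.rangeRestrict_surjective hcop
    have hRa : R a = ρ'.1 := congrArg Subtype.val hfa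
    obtain ⟨x, rfl⟩ := hπ y
    have h1 := inducedAutHom_apply π hπ (F.autGroup (preimageAlong θ P')) hA a x
    have h3 : ((ρ'.1 (π x) : P') : Ω') = ((π (a.1 x) : P') : Ω') := by
      rw [← hRa]
      exact congrArg Subtype.val h1
    rw [h3]
    have h4 := mem_hyp_of_residual (p := p) hPS a (mem_pResidual_of_coprime ha) x
    refine ⟨⟨_, hPS (mul_mem (inv_mem x.2) (a.1 x).2)⟩, Subgroup.mem_subgroupOf.2 h4, ?_⟩
    have e5 : (⟨(x : Ω)⁻¹ * ((a.1 x : preimageAlong θ P') : Ω), hPS (mul_mem (inv_mem x.2) (a.1 x).2)⟩ : S) =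
        (Subgroup.inclusion hPS x)⁻¹ * Subgroup.inclusion hPS (a.1 x) := rfl
    rw [e5, map_mul, map_inv]
    rfl
  · -- generators of `hyp(F)`
    have hK : F.hyperfocalSubgroup p ≤ ((E.hyperfocalSubgroup p).comap θ).map S.subtype := by
      refine hyp_le_of_coprime _ fun P hP ρ hρ x => ?_
      have hm := (mem_autGroup_iff F hP).1 ρ.2
      obtain ⟨φ', hφ', hP₁, hφS, hP', eφ'⟩ := hmor.1.2 P _ hm
      have hr : φ'.range = imageAlong θ P := by
        ext y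
        constructor
        · rintro ⟨⟨y, hy⟩, rfl⟩
          obtain ⟨z, hz, rfl⟩ := hy
          have e1 := eφ' ⟨z, hz⟩
          have e2 : φ' ⟨θ z, ⟨z, hz, rfl⟩⟩ = θ ⟨((ρ.1 ⟨z, hz⟩ : P) : Ω), hP (ρ.1 _).2⟩ := e1
          rw [e2]
          exact ⟨_, (ρ.1 ⟨z, hz⟩).2, rfl⟩
        · rintro ⟨z, hz, rfl⟩
          let w : P := ρ.1.symm ⟨z, hz⟩
          refine ⟨⟨θ ⟨w, hP w.2⟩, ⟨_, w.2, rfl⟩⟩, ?_⟩
          have e1 := eφ' w
          have e2 : ρ.1 w = ⟨z, hz⟩ := by simp [w]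
          have e3 : φ' ⟨θ ⟨w, hP w.2⟩, ⟨_, w.2, rfl⟩⟩ = θ ⟨((ρ.1 w : P) : Ω), hP (ρ.1 w).2⟩ := e1
          rw [e3]
          congr 1
          exact Subtype.ext (by have h0 := congrArg Subtype.val e2; exact h0)
      let r : MulAut (imageAlong θ P) := isoOfRange hφ' hr
      have hrmem : r ∈ E.autGroup (imageAlong θ P) := isoOfRange_mem_autGroup hφ' hr
      have hpow : ∀ (n : ℕ) (z : P), (((r ^ n) ⟨θ ⟨z, hP z.2⟩, ⟨_, z.2, rfl⟩⟩ : imageAlong θ P) : Ω') =
          θ ⟨(((ρ.1 ^ n) z : P) : Ω), hP ((ρ.1 ^ n) z).2⟩ := by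
        intro n
        induction n with
        | zero =>
          intro z
          rfl
        | succ n ih =>
          intro z
          rw [pow_succ', pow_succ']
          have h1 := ih z
          have h2 : (r ^ n) ⟨θ ⟨z, hP z.2⟩, ⟨_, z.2, rfl⟩⟩ =
              ⟨θ ⟨((ρ.1 ^ n) z : P), hP ((ρ.1 ^ n) z).2⟩, ⟨_, ((ρ.1 ^ n) z).2, rfl⟩⟩ := Subtype.ext h1
          show ((r ((r ^ n) ⟨θ ⟨z, hP z.2⟩, ⟨_, z.2, rfl⟩⟩) : imageAlong θ P) : Ω') = _
          rw [h2]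
          exact eφ' _
      have hord : orderOf r ∣ orderOf ρ := by
        apply orderOf_dvd_of_pow_eq_one
        ext ⟨y, hy⟩
        obtain ⟨z, hz, rfl⟩ := hy
        have h1 := hpow (orderOf ρ) ⟨z, hz⟩
        have h2 : ρ.1 ^ orderOf ρ = 1 := by
          have := pow_orderOf_eq_one ρ
          exact congrArg Subtype.val this
        rw [h2] at h1
        exact h1
      have hcop : (orderOf (⟨r, hrmem⟩ : E.autGroup (imageAlong θ P))).Coprime p := by
        rw [Subgroup.orderOf_mk]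
        exact Nat.Coprime.coprime_dvd_left hord hρ
      have hP'S : imageAlong θ P ≤ S' := by
        rintro _ ⟨z, -, rfl⟩
        rw [← hrange]
        exact ⟨z, rfl⟩
      have h4 := mem_hyp_of_residual (p := p) hP'S ⟨r, hrmem⟩ (mem_pResidual_of_coprime hcop)
        ⟨θ ⟨x, hP x.2⟩, ⟨_, x.2, rfl⟩⟩
      refine ⟨⟨_, S.mul_mem (S.inv_mem (hP x.2)) (hP (ρ.1 x).2)⟩, ?_, rfl⟩
      refine Subgroup.mem_comap.2 ?_
      have e5 : (⟨(x : Ω)⁻¹ * ((ρ.1 x : P) : Ω), S.mul_mem (S.inv_mem (hP x.2)) (hP (ρ.1 x).2)⟩ : S) =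
          (⟨x, hP x.2⟩ : S)⁻¹ * ⟨(ρ.1 x : P), hP (ρ.1 x).2⟩ := rfl
      rw [e5, map_mul, map_inv]
      have e6 := eφ' x
      have e7 : ((r ⟨θ ⟨x, hP x.2⟩, ⟨_, x.2, rfl⟩⟩ : imageAlong θ P) : Ω') =
          θ ⟨(ρ.1 x : P), hP (ρ.1 x).2⟩ := e6
      rw [← e7]
      exact h4
    rintro _ ⟨⟨x, hxS⟩, hx, rfl⟩
    obtain ⟨⟨y, hy⟩, hy2, rfl⟩ := hK hx
    exact hy2

end Factor

/-- Every automorphism of order prime to `p` lifts modulo `T` to `P ⊔ T`, with order prime to `p`. -/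
theorem exists_coprime_ext [Finite S] (hS : IsPGroup p S) {F : FusionSystem S} (hF : F.IsSaturated p)
    {T : Subgroup Ω} (hT : F.StronglyClosed T) {P : Subgroup Ω} (hP : P ≤ S) (ρ : F.autGroup P)
    (hρ : Nat.Coprime (orderOf ρ) p) :
    ∃ a : F.autGroup (P ⊔ T), Nat.Coprime (orderOf a) p ∧
      ∀ x : P, ((a.1 (Subgroup.inclusion le_sup_left x) : ↥(P ⊔ T)) : Ω)⁻¹ * ((ρ.1 x : P) : Ω) ∈ T := by
  have hTS : T ≤ S := hT.1
  have hTn := StronglyClosed.le_normalizer hT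
  have hVS : P ⊔ T ≤ S := sup_le hP hTS
  haveI hfinV : Finite ↥(P ⊔ T) := finite_of_le hVS
  haveI hfinAV : Finite (MulAut ↥(P ⊔ T)) := mulAut_finite
  have hm := (mem_autGroup_iff F hP).1 ρ.2
  obtain ⟨ψ, hψ, hc⟩ := Cfsg.Agent.Lib.FusionPuig.extMod hS hF hT hm
  have hval : ∀ v, ψ v ∈ P ⊔ T := by
    refine sup_values_mem ψ (fun x hx => ?_) (fun x hx => ?_)
    · have h1 := hc ⟨x, hx⟩
      have h2 : ((ρ.1 ⟨x, hx⟩ : P) : Ω) ∈ P ⊔ T := Subgroup.mem_sup_left (ρ.1 ⟨x, hx⟩).2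
      have h3 := Subgroup.mul_mem _ h2 (Subgroup.inv_mem _ (Subgroup.mem_sup_right h1 : _ ∈ P ⊔ T))
      have e : ((ρ.1 ⟨x, hx⟩ : P) : Ω) * ((ψ (Subgroup.inclusion le_sup_left ⟨x, hx⟩))⁻¹ *
          (P.subtype.comp ρ.1.toMonoidHom) ⟨x, hx⟩)⁻¹ = ψ (Subgroup.inclusion le_sup_left ⟨x, hx⟩) := by
        show ((ρ.1 ⟨x, hx⟩ : P) : Ω) * ((ψ (Subgroup.inclusion le_sup_left ⟨x, hx⟩))⁻¹ *
          ((ρ.1 ⟨x, hx⟩ : P) : Ω))⁻¹ = _
        group
      rw [e] at h3
      exact h3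
    · exact Subgroup.mem_sup_right
        (Cfsg.Agent.Lib.FusionPuig.map_mem_of_le hT le_sup_right hψ ⟨x, Subgroup.mem_sup_right hx⟩ hx)
  have hr : ψ.range = P ⊔ T := by
    refine Subgroup.eq_of_le_of_card_ge ?_ (card_range_eq F hψ).ge
    rintro _ ⟨x, rfl⟩
    exact hval x
  let b : F.autGroup (P ⊔ T) := ⟨isoOfRange hψ hr, isoOfRange_mem_autGroup hψ hr⟩
  haveI hNor : (T.subgroupOf (P ⊔ T)).Normal := by
    refine ⟨fun n hn g => ?_⟩
    have h1 := (Subgroup.mem_normalizer_iff.1 (hTn (hVS g.2)) n).1 (Subgroup.mem_subgroupOf.1 hn)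
    exact Subgroup.mem_subgroupOf.2 h1
  let π := QuotientGroup.mk' (T.subgroupOf (P ⊔ T))
  have hπ : Function.Surjective π := QuotientGroup.mk'_surjective _
  have hkerπ : ∀ v : ↥(P ⊔ T), π v = 1 ↔ (v : Ω) ∈ T := by
    intro v
    have : π v = 1 ↔ v ∈ T.subgroupOf (P ⊔ T) := QuotientGroup.eq_one_iff v
    rw [this, Subgroup.mem_subgroupOf]
  have hpres : ∀ β ∈ F.autGroup (P ⊔ T), ∀ v : ↥(P ⊔ T), (v : Ω) ∈ T → ((β v : ↥(P ⊔ T)) : Ω) ∈ T := by
    intro β hβ v hv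
    exact Cfsg.Agent.Lib.FusionPuig.map_mem_of_le hT le_sup_right ((mem_autGroup_iff F hVS).1 hβ) v hv
  have hA : ∀ β ∈ F.autGroup (P ⊔ T), ∀ v, π v = 1 ↔ π (β v) = 1 := by
    intro β hβ v
    rw [hkerπ, hkerπ]
    constructor
    · exact hpres β hβ v
    · intro h
      have := hpres β⁻¹ (inv_mem hβ) (β v) h
      have e2 : β⁻¹ (β v) = v := by
        show β.symm (β v) = v
        simp
      rwa [e2] at this
  let R := inducedAutHom π hπ (F.autGroup (P ⊔ T)) hA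
  have hstep : ∀ z : P, R b (π (Subgroup.inclusion le_sup_left z)) = π (Subgroup.inclusion le_sup_left (ρ.1 z)) := by
    intro z
    rw [inducedAutHom_apply π hπ (F.autGroup (P ⊔ T)) hA b]
    apply QuotientGroup.eq.2
    exact Subgroup.mem_subgroupOf.2 (hc z)
  have hpow : ∀ (n : ℕ) (z : P), ((R b) ^ n) (π (Subgroup.inclusion le_sup_left z)) =
      π (Subgroup.inclusion le_sup_left ((ρ.1 ^ n) z)) := by
    intro n
    induction n with
    | zero =>
      intro z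
      rfl
    | succ n ih =>
      intro z
      rw [pow_succ', pow_succ']
      show R b ((R b ^ n) (π (Subgroup.inclusion le_sup_left z))) = _
      rw [ih z, hstep]
      rfl
  have hord : orderOf (R b) ∣ orderOf ρ := by
    apply orderOf_dvd_of_pow_eq_one
    have h1 : ρ.1 ^ orderOf ρ = 1 := congrArg Subtype.val (pow_orderOf_eq_one ρ)
    have h2 : ((R b ^ orderOf ρ : MulAut _).toMonoidHom).comp π = π := by
      refine sup_hom_ext (fun x hx => ?_) (fun x hx => ?_)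
      · have h3 := hpow (orderOf ρ) ⟨x, hx⟩
        rw [h1] at h3
        exact h3
      · have h3 : π ⟨x, Subgroup.mem_sup_right hx⟩ = 1 := (hkerπ _).2 hx
        show (R b ^ orderOf ρ) (π ⟨x, Subgroup.mem_sup_right hx⟩) = π ⟨x, Subgroup.mem_sup_right hx⟩
        rw [h3, map_one]
    ext y
    obtain ⟨v, rfl⟩ := hπ y
    have h3 := DFunLike.congr_fun h2 v
    exact h3
  have hcop : (orderOf (⟨R b, ⟨b, rfl⟩⟩ : R.range)).Coprime p := by
    have e1 : orderOf (⟨R b, ⟨b, rfl⟩⟩ : R.range) = orderOf (R b) := Subgroup.orderOf_mk _ _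
    rw [e1]
    exact Nat.Coprime.coprime_dvd_left hord hρ
  obtain ⟨a, ha, hfa⟩ := exists_coprime_lift R.rangeRestrict R.rangeRestrict_surjective hcop
  have hRa : R a = R b := congrArg Subtype.val hfa
  refine ⟨a, ha, fun x => ?_⟩
  have h1 := inducedAutHom_apply π hπ (F.autGroup (P ⊔ T)) hA a (Subgroup.inclusion le_sup_left x)
  have h2 : R a (π (Subgroup.inclusion le_sup_left x)) = π (Subgroup.inclusion le_sup_left (ρ.1 x)) := by
    rw [hRa, hstep]
  have h3 : π (a.1 (Subgroup.inclusion le_sup_left x)) = π (Subgroup.inclusion le_sup_left (ρ.1 x)) := by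
    rw [← h2]
    exact h1.symm
  have h4 := QuotientGroup.eq.1 h3
  exact Subgroup.mem_subgroupOf.1 h4

/-- The hyperfocal subgroup acts on a strongly closed subgroup through `O^p(Aut_F(T)) Inn(T)`. -/
theorem hyp_acts [Finite S] (hS : IsPGroup p S) {F : FusionSystem S} (hF : F.IsSaturated p)
    {T : Subgroup Ω} (hT : F.StronglyClosed T) :
    ∀ x ∈ F.hyperfocalSubgroup p, ∃ α ∈ ((pResidual p ↥(F.autGroup T)).map (F.autGroup T).subtype ⊔ Inn ↥T :
      Subgroup (MulAut ↥T)), ∀ t : ↥T, ((α t : ↥T) : Ω) = x * (t : Ω) * x⁻¹ := by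
  have hTS : T ≤ S := hT.1
  have hTn := StronglyClosed.le_normalizer hT
  have hK : F.hyperfocalSubgroup p ≤ ((((pResidual p ↥(F.autGroup T)).map (F.autGroup T).subtype ⊔ Inn ↥T :
      Subgroup (MulAut ↥T))).comap (conjAut T)).map (Subgroup.normalizer (T : Set Ω)).subtype := by
    refine hyp_le_of_coprime _ fun P hP ρ hρ x => ?_
    obtain ⟨a, ha, hc⟩ := exists_coprime_ext hS hF hT hP ρ hρ
    have hVS : P ⊔ T ≤ S := sup_le hP hTS
    have hinvV : ∀ (ρ : F.autGroup (P ⊔ T)) (x : T),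
        ((ρ.1 (Subgroup.inclusion le_sup_right x) : ↥(P ⊔ T)) : Ω) ∈ T := by
      intro ρ x
      exact Cfsg.Agent.Lib.FusionPuig.map_mem_of_le hT le_sup_right ((mem_autGroup_iff F hVS).1 ρ.2) _ x.2
    let γ := resHom hVS (le_sup_right : T ≤ P ⊔ T) hinvV a
    have hγ : γ ∈ pResidual p (F.autGroup T) := pResidual_map_mem _ (mem_pResidual_of_coprime ha)
    have hγB : γ.1 ∈ ((pResidual p ↥(F.autGroup T)).map (F.autGroup T).subtype ⊔ Inn ↥T : Subgroup (MulAut ↥T)) :=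
      Subgroup.mem_sup_left ⟨γ, hγ, rfl⟩
    have hxS : (x : Ω) ∈ S := hP x.2
    have hρS : ((ρ.1 x : P) : Ω) ∈ S := hP (ρ.1 x).2
    let lx : MulAut T := conjAut T ⟨x, hTn hxS⟩
    have hlx : lx ∈ F.autGroup T := autInducedBy_le_autGroup F hTS (conjAut_mem_autInducedBy hxS)
    have h1 : lx⁻¹ * γ.1 * lx ∈ ((pResidual p ↥(F.autGroup T)).map (F.autGroup T).subtype ⊔ Inn ↥T : Subgroup (MulAut ↥T)) := by
      refine Subgroup.mem_sup_left ⟨(⟨lx, hlx⟩ : F.autGroup T)⁻¹ * γ * ((⟨lx, hlx⟩ : F.autGroup T)⁻¹)⁻¹,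
        (pResidual_normal p (F.autGroup T)).conj_mem γ hγ _, ?_⟩
      show lx⁻¹ * γ.1 * (lx⁻¹)⁻¹ = _
      rw [inv_inv]
    have hX : (x : Ω) ∈ P ⊔ T := Subgroup.mem_sup_left x.2
    let ax : Ω := ((a.1 (Subgroup.inclusion le_sup_left x) : ↥(P ⊔ T)) : Ω)
    have ht' : ax⁻¹ * ((ρ.1 x : P) : Ω) ∈ T := hc x
    let lt : MulAut T := MulAut.conj (⟨ax⁻¹ * ((ρ.1 x : P) : Ω), ht'⟩ : T)
    have hlt : lt ∈ ((pResidual p ↥(F.autGroup T)).map (F.autGroup T).subtype ⊔ Inn ↥T : Subgroup (MulAut ↥T)) :=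
      Subgroup.mem_sup_right ⟨_, rfl⟩
    have hwN : (x : Ω)⁻¹ * ((ρ.1 x : P) : Ω) ∈ Subgroup.normalizer (T : Set Ω) :=
      hTn (S.mul_mem (S.inv_mem hxS) hρS)
    refine ⟨⟨_, hwN⟩, ?_, rfl⟩
    refine Subgroup.mem_comap.2 ?_
    have hid : conjAut T ⟨_, hwN⟩ = (lx⁻¹ * γ.1 * lx) * γ.1⁻¹ * lt := by
      ext u
      set e : T := γ.1⁻¹ (lt u) with he
      have h2 : γ.1 e = lt u := by
        rw [he]
        show γ.1 (γ.1.symm _) = _
        simp
      have h3 : ((a.1 (Subgroup.inclusion le_sup_right e) : ↥(P ⊔ T)) : Ω) = ((lt u : T) : Ω) := by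
        rw [← h2]
        rfl
      have h4 : ((lt u : T) : Ω) = ax⁻¹ * ((ρ.1 x : P) : Ω) * u * (ax⁻¹ * ((ρ.1 x : P) : Ω))⁻¹ := rfl
      have h5 : Subgroup.inclusion le_sup_right (lx e) =
          Subgroup.inclusion le_sup_left x * Subgroup.inclusion le_sup_right e *
            (Subgroup.inclusion le_sup_left x)⁻¹ := by
        apply Subtype.ext
        exact conjAut_apply T ⟨x, hTn hxS⟩ e
      have h6 : ((γ.1 (lx e) : T) : Ω) = ax * ((lt u : T) : Ω) * ax⁻¹ := by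
        show ((a.1 (Subgroup.inclusion le_sup_right (lx e)) : ↥(P ⊔ T)) : Ω) = _
        rw [h5, map_mul, map_mul, map_inv]
        show _ * ((a.1 (Subgroup.inclusion le_sup_right e) : ↥(P ⊔ T)) : Ω) * _ = _
        rw [h3]
        rfl
      have h7 : ∀ z : T, ((lx⁻¹ z : T) : Ω) = (x : Ω)⁻¹ * z * x := by
        intro z
        have e1 : lx⁻¹ = conjAut T (⟨x, hTn hxS⟩⁻¹) := (map_inv (conjAut T) _).symm
        rw [e1]
        have := conjAut_apply T (⟨x, hTn hxS⟩⁻¹) z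
        rw [this]
        show (x : Ω)⁻¹ * z * ((x : Ω)⁻¹)⁻¹ = _
        rw [inv_inv]
      show (((conjAut T ⟨_, hwN⟩) u : T) : Ω) = ((lx⁻¹ (γ.1 (lx e)) : T) : Ω)
      rw [conjAut_apply, h7, h6, h4]
      group
    rw [hid]
    exact Subgroup.mul_mem _ (Subgroup.mul_mem _ h1 (Subgroup.inv_mem _ hγB)) hlt
  intro x hx
  obtain ⟨⟨y, hy⟩, hyB, rfl⟩ := hK hx
  exact ⟨conjAut T ⟨y, hy⟩, hyB, fun t => conjAut_apply T ⟨y, hy⟩ t⟩

end Cfsg.Agent.Lib.FusionHypQuot
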