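import Cfsg.Agent.Lib.FusionHyp
import Cfsg.Agent.Lib.FusionStrong

/-!
Subsystems of `p`-power index: the Alperin principle with residuals, uniqueness, invariance, the
Frattini condition and the extension condition.
-/

set_option autoImplicit false
set_option linter.all false

namespace Cfsg.Agent.Lib.FusionPIdx

open Cfsg Cfsg.FusionSystem Cfsg.Agent.Lib.FusionBasic Cfsg.Agent.Lib.FusionAut
  Cfsg.Agent.Lib.FusionSat Cfsg.Agent.Lib.FusionAlperin Cfsg.Agent.Lib.FusionNormal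
  Cfsg.Agent.Lib.FusionHyp Cfsg.Agent.Lib.FusionStrong Cfsg.Agent.Lib.PResidual

variable {Ω : Type*} [Group Ω] {p : ℕ} [Fact p.Prime]

/-- The Alperin principle with `O^p`. -/
theorem pred_of_residual {T : Subgroup Ω} [Finite T] (hT : IsPGroup p T) {E : FusionSystem T}
    (hE : E.IsSaturated p) (Pr : ∀ {R : Subgroup Ω}, (R →* Ω) → Prop)
    (hconj : ∀ {R : Subgroup Ω} {g : Ω}, R ≤ T → g ∈ T → Pr (conjHom R g))
    (hcomp : ∀ {P Q : Subgroup Ω} {φ : P →* Ω} {ψ : Q →* Ω}, φ ∈ E.Hom P → ψ ∈ E.Hom Q →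
      (h : ∀ x : P, φ x ∈ Q) → Pr φ → Pr ψ → Pr (ψ.comp (φ.codRestrict Q h)))
    (hinv : ∀ {P : Subgroup Ω} {φ : P →* Ω}, φ ∈ E.Hom P → Pr φ → ∀ ψ ∈ E.Hom φ.range,
      (∀ x : P, ψ ⟨φ x, ⟨x, rfl⟩⟩ = (x : Ω)) → Pr ψ)
    (hres : ∀ (Q : Subgroup Ω), Q ≤ T → ∀ ρ : E.autGroup Q, ρ ∈ pResidual p (E.autGroup Q) →
      Pr (Q.subtype.comp ρ.1.toMonoidHom))
    {P : Subgroup Ω} {φ : P →* Ω} (hφ : φ ∈ E.Hom P) : Pr φ := by
  refine alperin_pred hT hE Pr hconj hcomp hinv ?_ hφ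
  intro P hP α hα
  have hPS : P ≤ T := by
    rcases hP with rfl | h
    · exact le_rfl
    · exact h.1.1
  haveI hfinP : Finite P := finite_of_le hPS
  have hA : E.IsFullyAutomized p P := by
    rcases hP with rfl | h
    · exact IsSaturated.fullyAutomized_self hE
    · exact (IsSaturated.fullyNormalized hT hE h.2.1).1
  obtain ⟨ρ, c, s, hρ, hs, hcs, e⟩ := autGroup_decomp hA hα
  have h1 : Pr (conjHom P s) := hconj hPS hs
  have h2 := hres P hPS ρ hρ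
  have hmem1 : conjHom P s ∈ E.Hom P := E.conj_mem hPS hs
  have hmem2 : P.subtype.comp ρ.1.toMonoidHom ∈ E.Hom P := (mem_autGroup_iff E hPS).1 ρ.2
  have hv : ∀ x : P, conjHom P s x ∈ P := fun x => by
    rw [show conjHom P s x = ((c x : P) : Ω) from (hcs x).symm]
    exact (c x).2
  have h3 := hcomp hmem1 hmem2 hv h1 h2
  have e2 : P.subtype.comp α.toMonoidHom =
      (P.subtype.comp ρ.1.toMonoidHom).comp ((conjHom P s).codRestrict P hv) := by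
    ext x
    rw [e]
    show ((ρ.1 (c x) : P) : Ω) = ((ρ.1 ⟨conjHom P s x, hv x⟩ : P) : Ω)
    congr 2
    exact Subtype.ext (hcs x)
  rw [e2]
  exact h3

/-- A saturated system lies in every fusion system containing its `O^p(Aut)`s. -/
theorem hom_subset_of_residual {T U : Subgroup Ω} [Finite T] (hT : IsPGroup p T) {E : FusionSystem T}
    (hE : E.IsSaturated p) (E' : FusionSystem U) (hTU : T ≤ U)
    (hres : ∀ (Q : Subgroup Ω), Q ≤ T → ∀ ρ : E.autGroup Q, ρ ∈ pResidual p (E.autGroup Q) →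
      ρ.1 ∈ E'.autGroup Q) (P : Subgroup Ω) : E.Hom P ⊆ E'.Hom P := by
  intro φ hφ
  refine pred_of_residual hT hE (fun {R} φ => φ ∈ E'.Hom R) ?_ ?_ ?_ ?_ hφ
  · intro R g hR hg
    exact E'.conj_mem (hR.trans hTU) (hTU hg)
  · intro P Q φ ψ _ _ h h1 h2
    exact E'.comp_mem h1 h2 h
  · intro P φ _ h1 ψ _ e
    obtain ⟨ψ', hψ', e'⟩ := E'.inv_mem h1
    refine hom_of_eq hψ' ?_
    rintro ⟨_, x, rfl⟩
    rw [e x, e' x]
  · intro Q hQ ρ hρ
    exact (mem_autGroup_iff E' (hQ.trans hTU)).1 (hres Q hQ ρ hρ)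

/-- Subsystem inclusions on `Aut`. -/
theorem autGroup_le_of_subsystem {T S : Subgroup Ω} {E : FusionSystem T} {F : FusionSystem S}
    (hEF : E.IsSubsystemOf F) {Q : Subgroup Ω} (hQ : Q ≤ T) (hTS : T ≤ S) :
    E.autGroup Q ≤ F.autGroup Q := by
  intro α hα
  rw [mem_autGroup_iff E hQ] at hα
  rw [mem_autGroup_iff F (hQ.trans hTS)]
  exact hEF _ hα

theorem residual_of_subsystem {T S : Subgroup Ω} {E : FusionSystem T} {F : FusionSystem S}
    (hEF : E.IsSubsystemOf F) {Q : Subgroup Ω} (hQ : Q ≤ T) (hTS : T ≤ S) (ρ : E.autGroup Q)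
    (hρ : ρ ∈ pResidual p (E.autGroup Q)) :
    ρ.1 ∈ (pResidual p (F.autGroup Q)).map (F.autGroup Q).subtype := by
  have h := autGroup_le_of_subsystem hEF hQ hTS
  exact ⟨Subgroup.inclusion h ρ, pResidual_map_mem _ hρ, rfl⟩

/-- A saturated subsystem of `F` lies in every system containing the `O^p(Aut_F)`s on a bigger group. -/
theorem subsystem_of_index {T S U : Subgroup Ω} [Finite T] (hT : IsPGroup p T) {E : FusionSystem T}
    {F : FusionSystem S} (hE : E.IsSaturated p) (hEF : E.IsSubsystemOf F) (hTS : T ≤ S)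
    (F₀ : FusionSystem U) (hTU : T ≤ U)
    (hidx : ∀ P : Subgroup Ω, P ≤ U → (pResidual p (F.autGroup P)).map (F.autGroup P).subtype ≤ F₀.autGroup P) :
    E.IsSubsystemOf F₀ := by
  intro P
  refine hom_subset_of_residual hT hE F₀ hTU (fun Q hQ ρ hρ => ?_) P
  exact hidx Q (hQ.trans hTU) (residual_of_subsystem hEF hQ hTS ρ hρ)

/-- The image of a subgroup under an automorphism of `T`. -/
abbrev img {T : Subgroup Ω} (α : MulAut T) (P : Subgroup Ω) : Subgroup Ω :=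
  (P.subgroupOf T).map (T.subtype.comp α.toMonoidHom)

theorem mem_img {T : Subgroup Ω} {α : MulAut T} {P : Subgroup Ω} {y : Ω} :
    y ∈ img α P ↔ ∃ t : T, (t : Ω) ∈ P ∧ ((α t : T) : Ω) = y := by
  constructor
  · rintro ⟨t, ht, rfl⟩
    exact ⟨t, Subgroup.mem_subgroupOf.1 ht, rfl⟩
  · rintro ⟨t, ht, rfl⟩
    exact ⟨t, Subgroup.mem_subgroupOf.2 ht, rfl⟩

theorem img_le {T : Subgroup Ω} (α : MulAut T) (P : Subgroup Ω) : img α P ≤ T := by
  intro y hy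
  obtain ⟨t, -, rfl⟩ := mem_img.1 hy
  exact (α t).2

/-- Invariance of the subsystem under `Aut_F(T)`. -/
def InvT {S T : Subgroup Ω} (F : FusionSystem S) (E : FusionSystem T) : Prop :=
  ∀ (P : Subgroup Ω) (hPT : P ≤ T) (φ : P →* Ω), φ ∈ E.Hom P → ∀ α ∈ F.autGroup T,
    ∃ χ ∈ E.Hom ((P.subgroupOf T).map (T.subtype.comp α.toMonoidHom)),
      ∀ (x : P) (hφx : φ x ∈ T)
        (hαx : ((α ⟨x, hPT x.2⟩ : T) : Ω) ∈ (P.subgroupOf T).map (T.subtype.comp α.toMonoidHom)),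
        χ ⟨(α ⟨x, hPT x.2⟩ : T), hαx⟩ = ((α ⟨φ x, hφx⟩ : T) : Ω)

/-- Invariance for saturated subsystems containing the `O^p(Aut_F)`. -/
theorem invT_of_index {S T : Subgroup Ω} [Finite T] (hT : IsPGroup p T) {E : FusionSystem T}
    {F : FusionSystem S} (hE : E.IsSaturated p) (hEF : E.IsSubsystemOf F) (hTS : T ≤ S)
    (hidx : ∀ P : Subgroup Ω, P ≤ T → (pResidual p (F.autGroup P)).map (F.autGroup P).subtype ≤ E.autGroup P) :
    InvT F E := by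
  intro P hPT φ hφ α hα
  have hmain := pred_of_residual hT hE (fun {R} φ => ∀ hRT : R ≤ T, ∀ α ∈ F.autGroup T,
      ∃ χ ∈ E.Hom ((R.subgroupOf T).map (T.subtype.comp α.toMonoidHom)),
        ∀ (x : R) (hφx : φ x ∈ T)
          (hαx : ((α ⟨x, hRT x.2⟩ : T) : Ω) ∈ (R.subgroupOf T).map (T.subtype.comp α.toMonoidHom)),
          χ ⟨(α ⟨x, hRT x.2⟩ : T), hαx⟩ = ((α ⟨φ x, hφx⟩ : T) : Ω)) ?_ ?_ ?_ ?_ hφ
  · exact hmain hPT α hα
  · -- conjugation
    intro R g hR hg hRT α hα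
    refine ⟨conjHom _ ((α ⟨g, hg⟩ : T) : Ω), E.conj_mem (img_le α R) (α ⟨g, hg⟩).2, fun x hφx hαx => ?_⟩
    show ((α ⟨g, hg⟩ : T) : Ω) * ((α ⟨x, hRT x.2⟩ : T) : Ω) * ((α ⟨g, hg⟩ : T) : Ω)⁻¹ = _
    have e : (⟨conjHom R g x, hφx⟩ : T) = ⟨g, hg⟩ * ⟨x, hRT x.2⟩ * ⟨g, hg⟩⁻¹ := rfl
    rw [e, map_mul, map_mul, map_inv]
    rfl
  · -- composition
    intro P Q φ ψ hφ hψ h h1 h2 hPT α hα
    have hQT : Q ≤ T := source_le E hψ
    obtain ⟨χ₁, hχ₁, e₁⟩ := h1 hPT α hα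
    obtain ⟨χ₂, hχ₂, e₂⟩ := h2 hQT α hα
    have hφT : ∀ x : P, φ x ∈ T := fun x => map_mem_S E hφ x
    have hψT : ∀ x : Q, ψ x ∈ T := fun x => map_mem_S E hψ x
    have hval : ∀ y : (P.subgroupOf T).map (T.subtype.comp α.toMonoidHom),
        χ₁ y ∈ (Q.subgroupOf T).map (T.subtype.comp α.toMonoidHom) := by
      rintro ⟨y, hy⟩
      obtain ⟨t, ht, rfl⟩ := mem_img.1 hy
      have e := e₁ ⟨t, ht⟩ (hφT _) hy
      have e' : χ₁ ⟨_, hy⟩ = ((α ⟨φ ⟨t, ht⟩, hφT _⟩ : T) : Ω) := e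
      rw [e']
      exact mem_img.2 ⟨_, h _, rfl⟩
    obtain ⟨χ, hχ, eχ⟩ := exists_comp E hχ₁ hχ₂ hval
    refine ⟨χ, hχ, fun x hφx hαx => ?_⟩
    rw [eχ]
    have e3 := e₁ x (hφT x) hαx
    have hm : ((α ⟨φ x, hφT x⟩ : T) : Ω) ∈ (Q.subgroupOf T).map (T.subtype.comp α.toMonoidHom) :=
      mem_img.2 ⟨_, h _, rfl⟩
    have e4 : (⟨χ₁ ⟨_, hαx⟩, hval ⟨_, hαx⟩⟩ : ↥((Q.subgroupOf T).map (T.subtype.comp α.toMonoidHom))) =
        ⟨_, hm⟩ := Subtype.ext e3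
    rw [e4]
    exact e₂ ⟨φ x, h x⟩ (hψT _) hm
  · -- inverse
    intro P φ hφ h1 ψ hψ e hRT α hα
    have hPT : P ≤ T := source_le E hφ
    have hφT : ∀ x : P, φ x ∈ T := fun x => map_mem_S E hφ x
    obtain ⟨χ, hχ, eχ⟩ := h1 hPT α hα
    have hr : χ.range = (φ.range.subgroupOf T).map (T.subtype.comp α.toMonoidHom) := by
      ext y
      constructor
      · rintro ⟨⟨z, hz⟩, rfl⟩
        obtain ⟨t, ht, rfl⟩ := mem_img.1 hz
        have e' : χ ⟨_, hz⟩ = ((α ⟨φ ⟨t, ht⟩, hφT _⟩ : T) : Ω) := eχ ⟨t, ht⟩ (hφT _) hz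
        rw [e']
        exact mem_img.2 ⟨_, ⟨_, rfl⟩, rfl⟩
      · intro hy
        obtain ⟨t, ⟨x, hx⟩, rfl⟩ := mem_img.1 hy
        have hm : ((α ⟨x, hPT x.2⟩ : T) : Ω) ∈ (P.subgroupOf T).map (T.subtype.comp α.toMonoidHom) :=
          mem_img.2 ⟨_, x.2, rfl⟩
        refine ⟨⟨_, hm⟩, ?_⟩
        rw [eχ x (hφT x) hm]
        have : (⟨φ x, hφT x⟩ : T) = t := Subtype.ext hx
        rw [this]
    obtain ⟨ι, hι, h11, h12, h13⟩ := exists_inverse E hχ hr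
    refine ⟨ι, hι, ?_⟩
    rintro ⟨y, ⟨x, rfl⟩⟩ hφx hαx
    have hm : ((α ⟨x, hPT x.2⟩ : T) : Ω) ∈ (P.subgroupOf T).map (T.subtype.comp α.toMonoidHom) :=
      mem_img.2 ⟨_, x.2, rfl⟩
    have e1 := eχ x (hφT x) hm
    have h2 := h11 ⟨_, hm⟩ (by rw [← hr]; exact ⟨_, rfl⟩)
    have e2 : (⟨χ ⟨_, hm⟩, (by rw [← hr]; exact ⟨_, rfl⟩)⟩ :
        ↥((φ.range.subgroupOf T).map (T.subtype.comp α.toMonoidHom))) = ⟨_, hαx⟩ := Subtype.ext e1
    rw [e2] at h2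
    rw [h2]
    have e3 : (⟨ψ ⟨φ x, ⟨x, rfl⟩⟩, hφx⟩ : T) = ⟨x, hPT x.2⟩ := Subtype.ext (e x)
    rw [e3]
  · -- residual elements
    intro Q hQ ρ hρ hRT α hα
    let θ : Q →* Ω := (T.subtype.comp α.toMonoidHom).comp (Subgroup.inclusion hQ)
    have hθ : θ ∈ F.Hom Q := restrict_mem F ((mem_autGroup_iff F hTS).1 hα) hQ
    have hr : θ.range = (Q.subgroupOf T).map (T.subtype.comp α.toMonoidHom) := by
      ext y
      constructor
      · rintro ⟨x, rfl⟩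
        exact mem_img.2 ⟨⟨x, hQ x.2⟩, x.2, rfl⟩
      · intro hy
        obtain ⟨t, ht, rfl⟩ := mem_img.1 hy
        exact ⟨⟨t, ht⟩, rfl⟩
    have hle := autGroup_le_of_subsystem hEF hQ hTS
    let ρ' : F.autGroup Q := Subgroup.inclusion hle ρ
    have hρ' : ρ' ∈ pResidual p (F.autGroup Q) := pResidual_map_mem _ hρ
    let ρ'' := autGroupCongr hθ hr ρ'
    have hρ'' : ρ'' ∈ pResidual p (F.autGroup _) := pResidual_map_mem _ hρ'
    have hmem : (ρ'' : MulAut _) ∈ E.autGroup _ := hidx _ (img_le α Q) ⟨ρ'', hρ'', rfl⟩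
    have hmem2 := (mem_autGroup_iff E (img_le α Q)).1 hmem
    refine ⟨_, hmem2, fun x hφx hαx => ?_⟩
    have h1 := autGroupCongr_apply hθ hr ρ' x hαx
    have h2 := congrArg Subtype.val h1
    exact h2

section Frattini

variable {S T : Subgroup Ω} {F : FusionSystem S} {E : FusionSystem T}

theorem InvT.conj (h : InvT F E) {P Y : Subgroup Ω} (hPT : P ≤ T) {φ : P →* Ω}
    (hφ : φ ∈ E.Hom P) (hφT : ∀ x : P, φ x ∈ T) {α : MulAut T} (hα : α ∈ F.autGroup T)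
    (hY : ∀ y, y ∈ Y ↔ ∃ x : P, ((α ⟨x, hPT x.2⟩ : T) : Ω) = y) :
    ∃ χ ∈ E.Hom Y, ∀ (x : P) (hx : ((α ⟨x, hPT x.2⟩ : T) : Ω) ∈ Y),
      χ ⟨((α ⟨x, hPT x.2⟩ : T) : Ω), hx⟩ = ((α ⟨φ x, hφT x⟩ : T) : Ω) := by
  have e : Y = (P.subgroupOf T).map (T.subtype.comp α.toMonoidHom) := by
    ext y
    rw [hY, mem_img]
    constructor
    · rintro ⟨x, rfl⟩
      exact ⟨⟨x, hPT x.2⟩, x.2, rfl⟩
    · rintro ⟨t, ht, rfl⟩
      exact ⟨⟨t, ht⟩, rfl⟩
  subst e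
  obtain ⟨χ, hχ, eχ⟩ := h P hPT φ hφ α hα
  exact ⟨χ, hχ, fun x hx => eχ x (hφT x) hx⟩

theorem fr_comp (hT : T ≤ S) (hstr : InvT F E) {P Q : Subgroup Ω}
    {φ : P →* Ω} {ψ χ : _} (hv : ∀ x : P, φ x ∈ Q) (he : ∀ x : P, χ x = (ψ : Q →* Ω) ⟨φ x, hv x⟩)
    (h₁ : Fr F E φ) (h₂ : Fr F E ψ) : Fr F E (χ : P →* Ω) := by
  obtain ⟨α, hα, φ₀, h₀, eφ⟩ := h₁
  obtain ⟨β, hβ, ψ₀, hψ₀, eψ⟩ := h₂
  have hQT : Q ≤ T := source_le E hψ₀
  have hφ₀T : ∀ x : P, φ₀ x ∈ T := fun x => map_mem_S E h₀ x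
  have hψ₀T : ∀ x : Q, ψ₀ x ∈ T := fun x => map_mem_S E hψ₀ x
  obtain ⟨χ', hχ', eχ'⟩ := hstr Q hQT ψ₀ hψ₀ α⁻¹ (inv_mem hα)
  have hφ₀Y : ∀ x : P, φ₀ x ∈ (Q.subgroupOf T).map (T.subtype.comp (α⁻¹).toMonoidHom) := by
    intro x
    refine ⟨α ⟨φ₀ x, hφ₀T x⟩, ?_, ?_⟩
    · show ((α ⟨φ₀ x, hφ₀T x⟩ : T) : Ω) ∈ Q
      rw [← eφ x (hφ₀T x)]
      exact hv x
    · show ((α⁻¹ (α ⟨φ₀ x, hφ₀T x⟩) : T) : Ω) = φ₀ x
      simp
  obtain ⟨φ₁, hφ₁, eφ₁⟩ := exists_comp E h₀ hχ' hφ₀Y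
  refine ⟨β * α, mul_mem hβ hα, φ₁, hφ₁, fun x hx => ?_⟩
  set y : Q := ⟨φ x, hv x⟩ with hy
  have h1 : ψ₀ y = ((α ⟨φ₁ x, hx⟩ : T) : Ω) := by
    have hY : ((α⁻¹ ⟨y, hQT y.2⟩ : T) : Ω) ∈ (Q.subgroupOf T).map (T.subtype.comp (α⁻¹).toMonoidHom) :=
      ⟨Subgroup.inclusion hQT y, y.2, rfl⟩
    have h2 := eχ' y (hψ₀T y) hY
    have h3 : ((α⁻¹ ⟨y, hQT y.2⟩ : T) : Ω) = φ₀ x := by
      show ((α⁻¹ ⟨φ x, hQT (hv x)⟩ : T) : Ω) = φ₀ x
      have : (⟨φ x, hQT (hv x)⟩ : T) = α ⟨φ₀ x, hφ₀T x⟩ := Subtype.ext (eφ x (hφ₀T x))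
      rw [this]
      simp
    have h4 : φ₁ x = ((α⁻¹ ⟨ψ₀ y, hψ₀T y⟩ : T) : Ω) := by
      rw [eφ₁, ← h2]
      congr 1
      exact Subtype.ext h3.symm
    have h5 : (⟨φ₁ x, hx⟩ : T) = α⁻¹ ⟨ψ₀ y, hψ₀T y⟩ := Subtype.ext h4
    rw [h5]
    simp
  rw [he]
  rw [eψ y (hψ₀T y)]
  show ((β ⟨ψ₀ y, hψ₀T y⟩ : T) : Ω) = ((β (α ⟨φ₁ x, hx⟩) : T) : Ω)
  congr 2
  exact Subtype.ext h1

theorem fr_inv (hT : T ≤ S) (hstr : InvT F E) {P Q : Subgroup Ω}
    {φ : P →* Ω} (hr : φ.range = Q) {θ : Q →* Ω}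
    (hθ : ∀ (x : P) (h : φ x ∈ Q), θ ⟨φ x, h⟩ = (x : Ω)) (h : Fr F E φ) : Fr F E θ := by
  obtain ⟨α, hα, φ₀, h₀, eφ⟩ := h
  have hPT : P ≤ T := source_le E h₀
  have hφ₀T : ∀ x : P, φ₀ x ∈ T := fun x => map_mem_S E h₀ x
  obtain ⟨τ, hτ, hτ1, hτ2, hτ3⟩ := exists_inverse E h₀ rfl
  have hRT : φ₀.range ≤ T := range_le E h₀
  have hτT : ∀ z : φ₀.range, τ z ∈ T := fun z => hPT (hτ2 z)
  have hY : ∀ y, y ∈ Q ↔ ∃ x : φ₀.range, ((α ⟨x, hRT x.2⟩ : T) : Ω) = y := by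
    intro y
    constructor
    · intro hy
      rw [← hr] at hy
      obtain ⟨x, rfl⟩ := hy
      refine ⟨⟨φ₀ x, ⟨x, rfl⟩⟩, ?_⟩
      exact (eφ x (hφ₀T x)).symm
    · rintro ⟨⟨_, ⟨x, rfl⟩⟩, rfl⟩
      rw [← hr]
      refine ⟨x, ?_⟩
      exact eφ x (hφ₀T x)
  obtain ⟨χ, hχ, eχ⟩ := InvT.conj hstr hRT hτ hτT hα hY
  refine ⟨α⁻¹, inv_mem hα, χ, hχ, fun y hy => ?_⟩
  have hyQ : (y : Ω) ∈ φ.range := by
    rw [hr]
    exact y.2
  obtain ⟨x, hx⟩ := hyQ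
  have hyY : ((α ⟨φ₀ x, hRT ⟨x, rfl⟩⟩ : T) : Ω) ∈ Q :=
    (hY _).mpr ⟨⟨φ₀ x, ⟨x, rfl⟩⟩, rfl⟩
  have h1 := eχ ⟨φ₀ x, ⟨x, rfl⟩⟩ hyY
  have e1 : ((α ⟨φ₀ x, hRT ⟨x, rfl⟩⟩ : T) : Ω) = y := by
    rw [← hx]
    exact (eφ x (hφ₀T x)).symm
  have h2 : χ y = ((α ⟨x, hPT x.2⟩ : T) : Ω) := by
    have e2 : (⟨_, hyY⟩ : Q) = y := Subtype.ext e1
    rw [e2] at h1
    rw [h1]
    congr 2
    exact Subtype.ext (hτ1 x _)
  have h3 : (⟨χ y, hy⟩ : T) = α ⟨x, hPT x.2⟩ := Subtype.ext h2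
  rw [h3]
  have h4 : θ y = (x : Ω) := by
    have e3 : (⟨φ x, by rw [← hr]; exact ⟨x, rfl⟩⟩ : Q) = y := Subtype.ext hx
    rw [← e3]
    exact hθ x _
  rw [h4]
  simp

/-- Restriction of automorphisms to an invariant subgroup. -/
noncomputable def resHom [Finite S] {F : FusionSystem S} {R W : Subgroup Ω} (hRS : R ≤ S) (hWR : W ≤ R)
    (hinv : ∀ (ρ : F.autGroup R) (x : W), ((ρ.1 (Subgroup.inclusion hWR x) : R) : Ω) ∈ W) :
    F.autGroup R →* F.autGroup W where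
  toFun ρ := by
    have hm : (R.subtype.comp ρ.1.toMonoidHom).comp (Subgroup.inclusion hWR) ∈ F.Hom W :=
      restrict_mem F ((mem_autGroup_iff F hRS).1 ρ.2) hWR
    have hr : ((R.subtype.comp ρ.1.toMonoidHom).comp (Subgroup.inclusion hWR)).range = W := by
      haveI : Finite W := finite_of_le (hWR.trans hRS)
      refine Subgroup.eq_of_le_of_card_ge ?_ (card_range_eq F hm).ge
      rintro _ ⟨x, rfl⟩
      exact hinv ρ x
    exact ⟨isoOfRange hm hr, isoOfRange_mem_autGroup hm hr⟩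
  map_one' := by
    apply Subtype.ext
    ext x
    rfl
  map_mul' a b := by
    apply Subtype.ext
    ext x
    rfl

theorem resHom_apply [Finite S] {F : FusionSystem S} {R W : Subgroup Ω} (hRS : R ≤ S) (hWR : W ≤ R)
    (hinv : ∀ (ρ : F.autGroup R) (x : W), ((ρ.1 (Subgroup.inclusion hWR x) : R) : Ω) ∈ W)
    (ρ : F.autGroup R) (x : W) :
    (((resHom hRS hWR hinv ρ).1 x : W) : Ω) = ((ρ.1 (Subgroup.inclusion hWR x) : R) : Ω) := rfl

/-- The Frattini condition for a saturated subsystem containing the `O^p(Aut_F)`. -/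
theorem frattini_of_index [Finite S] (hS : IsPGroup p S) (hF : F.IsSaturated p) (hT : F.StronglyClosed T)
    (hinvT : InvT F E)
    (hidx : ∀ P : Subgroup Ω, P ≤ T → (pResidual p (F.autGroup P)).map (F.autGroup P).subtype ≤ E.autGroup P)
    {P : Subgroup Ω} (hPT : P ≤ T) {φ : P →* Ω} (hφ : φ ∈ F.Hom P) : Fr F E φ := by
  have hTS : T ≤ S := hT.1
  haveI hfinT : Finite T := finite_of_le hTS
  have hTn := StronglyClosed.le_normalizer hT
  have hmain := alperin_pred hS hF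
    (fun {R} (ψ : R →* Ω) => Fr F E (ψ.comp (Subgroup.inclusion (inf_le_left : R ⊓ T ≤ R))))
    ?_ ?_ ?_ ?_ hφ
  · obtain ⟨α, hα, φ₀, h₀, e⟩ := hmain
    have hle : P ≤ P ⊓ T := le_inf le_rfl hPT
    refine ⟨α, hα, φ₀.comp (Subgroup.inclusion hle), restrict_mem E h₀ hle, fun x hx => ?_⟩
    exact e ⟨x, x.2, hPT x.2⟩ hx
  · -- conjugation
    intro R g hR hg
    refine Fr.of_aut (inf_le_right : R ⊓ T ≤ T) (α := conjAut T ⟨g, hTn hg⟩)
      (autInducedBy_le_autGroup F hTS (conjAut_mem_autInducedBy hg)) (fun x => ?_)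
    exact (conjAut_apply T ⟨g, hTn hg⟩ ⟨x, x.2.2⟩).symm
  · -- composition
    intro P Q φ ψ hφ hψ h h1 h2
    have hv : ∀ x : ↥(P ⊓ T), (φ.comp (Subgroup.inclusion (inf_le_left : P ⊓ T ≤ P))) x ∈ Q ⊓ T := by
      intro x
      refine ⟨h _, ?_⟩
      exact hT.2 (P ⊓ T) inf_le_right _ (restrict_mem F hφ inf_le_left) x
    exact fr_comp hTS hinvT hv (fun x => rfl) h1 h2
  · -- inverse
    intro P φ hφ h1 ψ hψ e
    have hr : (φ.comp (Subgroup.inclusion (inf_le_left : P ⊓ T ≤ P))).range = φ.range ⊓ T := by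
      ext y
      constructor
      · rintro ⟨x, rfl⟩
        exact ⟨⟨_, rfl⟩, hT.2 (P ⊓ T) inf_le_right _ (restrict_mem F hφ inf_le_left) x⟩
      · rintro ⟨⟨x, rfl⟩, hy⟩
        have h2 := hT.2 (φ.range ⊓ T) inf_le_right _ (restrict_mem F hψ inf_le_left)
          ⟨φ x, ⟨x, rfl⟩, hy⟩
        have h3 : (ψ.comp (Subgroup.inclusion (inf_le_left : φ.range ⊓ T ≤ φ.range)))
            ⟨φ x, ⟨x, rfl⟩, hy⟩ = x := e x
        rw [h3] at h2
        exact ⟨⟨x, x.2, h2⟩, rfl⟩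
    refine fr_inv hTS hinvT hr (fun x h => ?_) h1
    exact e ⟨x, x.2.1⟩
  · -- automorphisms
    intro R hR β hβ
    have hRS : R ≤ S := by
      rcases hR with rfl | h
      · exact le_rfl
      · exact h.1.1
    haveI hfinR : Finite R := finite_of_le hRS
    have hA : F.IsFullyAutomized p R := by
      rcases hR with rfl | h
      · exact IsSaturated.fullyAutomized_self hF
      · exact (IsSaturated.fullyNormalized hS hF h.2.1).1
    obtain ⟨ρ, c, s, hρ, hs, hcs, e⟩ := autGroup_decomp hA hβ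
    have hWR : R ⊓ T ≤ R := inf_le_left
    have hinv : ∀ (ρ : F.autGroup R) (x : ↥(R ⊓ T)), ((ρ.1 (Subgroup.inclusion hWR x) : R) : Ω) ∈ R ⊓ T := by
      intro ρ x
      refine ⟨(ρ.1 _).2, ?_⟩
      have hm := restrict_mem F ((mem_autGroup_iff F hRS).1 ρ.2) hWR
      exact hT.2 (R ⊓ T) inf_le_right _ hm x
    let r := resHom hRS hWR hinv ρ
    have hr : r ∈ pResidual p (F.autGroup (R ⊓ T)) := pResidual_map_mem _ hρ
    have hrE : (r : MulAut _) ∈ E.autGroup (R ⊓ T) := hidx _ inf_le_right ⟨r, hr, rfl⟩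
    have hrE' := (mem_autGroup_iff E inf_le_right).1 hrE
    have h1 : Fr F E ((R.subtype.comp ρ.1.toMonoidHom).comp (Subgroup.inclusion hWR)) :=
      Fr.of_E (hom_of_eq hrE' fun x => rfl)
    have h2 : Fr F E ((conjHom R s).comp (Subgroup.inclusion hWR)) := by
      have hn : s ∈ Subgroup.normalizer (T : Set Ω) := hTn hs
      refine Fr.of_aut (inf_le_right : R ⊓ T ≤ T) (α := conjAut T ⟨s, hn⟩)
        (autInducedBy_le_autGroup F hTS (conjAut_mem_autInducedBy hs)) (fun x => ?_)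
      exact (conjAut_apply T ⟨s, hn⟩ ⟨x, x.2.2⟩).symm
    have hv : ∀ x : ↥(R ⊓ T), ((conjHom R s).comp (Subgroup.inclusion hWR)) x ∈ R ⊓ T := by
      intro x
      have h3 : ((conjHom R s).comp (Subgroup.inclusion hWR)) x = ((c (Subgroup.inclusion hWR x) : R) : Ω) :=
        (hcs _).symm
      have hm : (conjHom R s).comp (Subgroup.inclusion hWR) ∈ F.Hom (R ⊓ T) :=
        restrict_mem F (F.conj_mem hRS hs) hWR
      refine ⟨?_, hT.2 (R ⊓ T) inf_le_right _ hm x⟩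
      rw [h3]
      exact (c _).2
    refine fr_comp hTS hinvT hv (fun x => ?_) h2 h1
    rw [e]
    show ((ρ.1 (c (Subgroup.inclusion hWR x)) : R) : Ω) = ((ρ.1 ⟨_, (hv x).1⟩ : R) : Ω)
    congr 2
    exact Subtype.ext (hcs _)

/-- Automorphisms of `T ⊔ C_S(T)` restricting to automorphisms of `T` preserve `C_S(T)`. -/
theorem centralizer_pres {V : Subgroup Ω} {β : MulAut V} {α : MulAut T} (hTV : T ≤ V) (hVS : V ≤ S)
    (he : ∀ x : T, ((β (Subgroup.inclusion hTV x) : V) : Ω) = ((α x : T) : Ω)) {c : V}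
    (hc : (c : Ω) ∈ centralizerIn S T) : ((β c : V) : Ω) ∈ centralizerIn S T := by
  refine ⟨hVS (β c).2, ?_⟩
  show _ ∈ Subgroup.centralizer (T : Set Ω)
  rw [Subgroup.mem_centralizer_iff]
  intro t ht
  obtain ⟨x, hx⟩ := α.surjective ⟨t, ht⟩
  have ht' : t = ((β (Subgroup.inclusion hTV x) : V) : Ω) := by
    rw [he, hx]
  rw [ht']
  have h1 : (Subgroup.inclusion hTV x) * c = c * (Subgroup.inclusion hTV x) := by
    apply Subtype.ext
    exact Subgroup.mem_centralizer_iff.1 hc.2 _ x.2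
  have h2 := congrArg (fun z => ((β z : V) : Ω)) h1
  simpa using h2

/-- Elements of `Aut(T)` with good extensions. -/
def goodExt (F : FusionSystem S) (T : Subgroup Ω) (hTS : T ≤ S) : Subgroup (MulAut T) where
  carrier := {α | ∃ β ∈ F.autGroup (T ⊔ centralizerIn S T),
      (∀ x : T, ((β (Subgroup.inclusion le_sup_left x) : ↥(T ⊔ centralizerIn S T)) : Ω) = ((α x : T) : Ω)) ∧
      ∀ c : ↥(T ⊔ centralizerIn S T), (c : Ω) ∈ centralizerIn S T →
        (c : Ω)⁻¹ * ((β c : ↥(T ⊔ centralizerIn S T)) : Ω) ∈ T ⊓ Subgroup.centralizer (T : Set Ω)}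
  one_mem' := by
    refine ⟨1, one_mem _, fun x => rfl, fun c _ => ?_⟩
    have : (c : Ω)⁻¹ * (((1 : MulAut _) c : ↥(T ⊔ centralizerIn S T)) : Ω) = 1 := by
      show (c : Ω)⁻¹ * (c : Ω) = 1
      group
    rw [this]
    exact one_mem _
  mul_mem' := by
    rintro a b ⟨β₁, h₁, e₁, c₁⟩ ⟨β₂, h₂, e₂, c₂⟩
    refine ⟨β₁ * β₂, mul_mem h₁ h₂, fun x => ?_, fun c hc => ?_⟩
    · show ((β₁ (β₂ (Subgroup.inclusion le_sup_left x)) : ↥(T ⊔ centralizerIn S T)) : Ω) = ((a (b x) : T) : Ω)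
      have e : β₂ (Subgroup.inclusion le_sup_left x) = Subgroup.inclusion le_sup_left (b x) :=
        Subtype.ext (e₂ x)
      rw [e, e₁]
    · have h3 := c₂ c hc
      have h4 := centralizer_pres le_sup_left (sup_le hTS inf_le_left) e₂ hc
      have h5 := c₁ (β₂ c) h4
      have e : (c : Ω)⁻¹ * (((β₁ * β₂) c : ↥(T ⊔ centralizerIn S T)) : Ω) =
          ((c : Ω)⁻¹ * ((β₂ c : ↥(T ⊔ centralizerIn S T)) : Ω)) *
          (((β₂ c : ↥(T ⊔ centralizerIn S T)) : Ω)⁻¹ * ((β₁ (β₂ c) : ↥(T ⊔ centralizerIn S T)) : Ω)) := by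
        show (c : Ω)⁻¹ * ((β₁ (β₂ c) : ↥(T ⊔ centralizerIn S T)) : Ω) = _
        group
      rw [e]
      exact mul_mem h3 h5
  inv_mem' := by
    rintro a ⟨β, h, e, c₁⟩
    have e' : ∀ x : T, ((β⁻¹ (Subgroup.inclusion le_sup_left x) : ↥(T ⊔ centralizerIn S T)) : Ω) =
        ((a⁻¹ x : T) : Ω) := by
      intro x
      have h1 : β (Subgroup.inclusion le_sup_left (a⁻¹ x)) = Subgroup.inclusion le_sup_left x := by
        apply Subtype.ext
        rw [e]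
        show ((a (a⁻¹ x) : T) : Ω) = _
        simp
      have h2 : β⁻¹ (Subgroup.inclusion le_sup_left x) = Subgroup.inclusion le_sup_left (a⁻¹ x) := by
        rw [← h1]
        show β.symm (β _) = _
        simp
      rw [h2]
      rfl
    refine ⟨β⁻¹, inv_mem h, e', fun c hc => ?_⟩
    have h4 := centralizer_pres le_sup_left (sup_le hTS inf_le_left) e' hc
    have h5 := c₁ (β⁻¹ c) h4
    have e2 : β (β⁻¹ c) = c := by
      show β (β.symm c) = c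
      simp
    rw [e2] at h5
    have h6 := inv_mem h5
    have e3 : (((β⁻¹ c : ↥(T ⊔ centralizerIn S T)) : Ω)⁻¹ * (c : Ω))⁻¹ =
        (c : Ω)⁻¹ * ((β⁻¹ c : ↥(T ⊔ centralizerIn S T)) : Ω) := by
      group
    rwa [e3] at h6

/-- The extension condition. -/
theorem extension_of_index [Finite S] (hS : IsPGroup p S) (hF : F.IsSaturated p) (hT : F.StronglyClosed T)
    (hhyp : F.hyperfocalSubgroup p ≤ T) (hE : E.IsSaturated p) (hEF : E.IsSubsystemOf F)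
    {α : MulAut T} (hα : α ∈ E.autGroup T) : α ∈ goodExt F T hT.1 := by
  have hTS : T ≤ S := hT.1
  haveI hfinT : Finite T := finite_of_le hTS
  haveI hfinA : Finite (MulAut T) := mulAut_finite
  have hTp : IsPGroup p T := hS.to_le hTS
  have hVS : T ⊔ centralizerIn S T ≤ S := sup_le hTS inf_le_left
  haveI hfinV : Finite ↥(T ⊔ centralizerIn S T) := finite_of_le hVS
  haveI hfinAV : Finite (MulAut ↥(T ⊔ centralizerIn S T)) := mulAut_finite
  have hinvV : ∀ (ρ : F.autGroup (T ⊔ centralizerIn S T)) (x : T),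
      ((ρ.1 (Subgroup.inclusion le_sup_left x) : ↥(T ⊔ centralizerIn S T)) : Ω) ∈ T := by
    intro ρ x
    have hm := restrict_mem F ((mem_autGroup_iff F hVS).1 ρ.2) (le_sup_left : T ≤ T ⊔ centralizerIn S T)
    exact hT.2 T le_rfl _ hm x
  have hstep : ∀ ρ : E.autGroup T, Nat.Coprime (orderOf ρ) p → ρ.1 ∈ goodExt F T hTS := by
    intro ρ hρ
    have hle := autGroup_le_of_subsystem hEF (le_refl T) hTS
    let α₀ : MulAut T := ρ.1
    have hα₀F : α₀ ∈ F.autGroup T := hle ρ.2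
    have hfn : F.IsFullyNormalized T := ⟨hTS, fun Q hQ => by
      obtain ⟨φ, hφ, rfl⟩ := hQ
      rw [(StronglyClosed.weaklyClosed hT).2 φ hφ]⟩
    obtain ⟨-, hrec⟩ := IsSaturated.fullyNormalized hS hF hfn
    have hφ : T.subtype.comp α₀.toMonoidHom ∈ F.Hom T := (mem_autGroup_iff F hTS).1 hα₀F
    have hr : (T.subtype.comp α₀.toMonoidHom).range = T := by
      ext y
      constructor
      · rintro ⟨x, rfl⟩
        exact (α₀ x).2
      · intro hy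
        refine ⟨α₀.symm ⟨y, hy⟩, ?_⟩
        show ((α₀ (α₀.symm ⟨y, hy⟩) : T) : Ω) = y
        simp
    obtain ⟨ψ, hψ, eψ⟩ := hrec.2 T _ hφ hr
    have hext : T ⊔ centralizerIn S T ≤ extender S T (T.subtype.comp α₀.toMonoidHom) :=
      sup_le (le_extender hTS _ (map_mem_S F hφ)) (centralizerIn_le_extender S T _)
    let ψ' : ↥(T ⊔ centralizerIn S T) →* Ω := ψ.comp (Subgroup.inclusion hext)
    have hψ' : ψ' ∈ F.Hom (T ⊔ centralizerIn S T) := restrict_mem F hψ hext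
    have hψT : ∀ (x : T), ψ' (Subgroup.inclusion le_sup_left x) = ((α₀ x : T) : Ω) := by
      intro x
      exact eψ x x.2 (hext (Subgroup.mem_sup_left x.2))
    have hval : ∀ x, ψ' x ∈ T ⊔ centralizerIn S T := by
      refine sup_values_mem ψ' (fun x hx => ?_) (fun x hx => ?_)
      · have := hψT ⟨x, hx⟩
        have e2 : (⟨x, Subgroup.mem_sup_left hx⟩ : ↥(T ⊔ centralizerIn S T)) =
            Subgroup.inclusion le_sup_left (⟨x, hx⟩ : T) := rfl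
        rw [e2, this]
        exact Subgroup.mem_sup_left (α₀ _).2
      · refine Subgroup.mem_sup_right ⟨map_mem_S F hψ' _, ?_⟩
        show _ ∈ Subgroup.centralizer (T : Set Ω)
        rw [Subgroup.mem_centralizer_iff]
        intro t ht
        obtain ⟨u, hu⟩ := α₀.surjective ⟨t, ht⟩
        have ht' : t = ψ' (Subgroup.inclusion le_sup_left u) := by
          rw [hψT, hu]
        rw [ht', ← map_mul, ← map_mul]
        congr 1
        apply Subtype.ext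
        exact Subgroup.mem_centralizer_iff.1 hx.2 _ u.2
    have hrange : ψ'.range = T ⊔ centralizerIn S T := by
      refine Subgroup.eq_of_le_of_card_ge ?_ (card_range_eq F hψ').ge
      rintro _ ⟨x, rfl⟩
      exact hval x
    let b : F.autGroup (T ⊔ centralizerIn S T) := ⟨isoOfRange hψ' hrange, isoOfRange_mem_autGroup hψ' hrange⟩
    let r := resHom (F := F) hVS (le_sup_left : T ≤ T ⊔ centralizerIn S T) hinvV
    have hrb : r b = Subgroup.inclusion hle ρ := by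
      apply Subtype.ext
      ext x
      exact hψT x
    obtain ⟨y, z, e, hcm, hy, ⟨k, hk⟩, hyb, hzb⟩ := exists_decomp (p := p) b
    have hrz : r z = 1 := by
      have h1 : orderOf (r z) ∣ p ^ k := by
        rw [← hk]
        exact orderOf_map_dvd r z
      have h2 : r z ∈ Subgroup.zpowers (r b) := by
        obtain ⟨n, hn⟩ := hzb
        exact ⟨n, by rw [← hn, map_zpow]⟩
      have h3 : orderOf (r z) ∣ orderOf (r b) := orderOf_dvd_of_mem_zpowers h2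
      have h4 : orderOf (r b) = orderOf ρ := by
        rw [hrb]
        exact orderOf_injective _ (Subgroup.inclusion_injective hle) ρ
      rw [h4] at h3
      have h5 : (orderOf (r z)).Coprime (p ^ k) :=
        Nat.Coprime.coprime_dvd_left h3 (Nat.Coprime.pow_right k hρ)
      have h6 := Nat.Coprime.eq_one_of_dvd h5 h1
      exact orderOf_eq_one_iff.1 h6
    have hry : r y = Subgroup.inclusion hle ρ := by
      rw [← hrb, e, map_mul, hrz, mul_one]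
    have hye : ∀ x : T, ((y.1 (Subgroup.inclusion le_sup_left x) : ↥(T ⊔ centralizerIn S T)) : Ω) =
        ((ρ.1 x : T) : Ω) := by
      intro x
      have h1 := congrArg (fun u : F.autGroup T => ((u.1 x : T) : Ω)) hry
      exact h1
    refine ⟨y.1, y.2, hye, fun c hc => ?_⟩
    refine ⟨hhyp (mem_hyp_of_residual hVS y (mem_pResidual_of_coprime hy) c), ?_⟩
    have h2 := centralizer_pres (β := y.1) (α := ρ.1) le_sup_left hVS hye hc
    have hc' : (c : Ω) ∈ Subgroup.centralizer (T : Set Ω) := hc.2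
    have h2' : ((y.1 c : ↥(T ⊔ centralizerIn S T)) : Ω) ∈ Subgroup.centralizer (T : Set Ω) := h2.2
    exact Subgroup.mul_mem _ (Subgroup.inv_mem _ hc') h2'
  obtain ⟨ρ, c, s, hρ, hs, hcs, e⟩ := autGroup_decomp (IsSaturated.fullyAutomized_self hE) hα
  have hres : pResidual p (E.autGroup T) ≤ (goodExt F T hTS).comap (E.autGroup T).subtype := by
    unfold pResidual
    rw [Subgroup.closure_le]
    intro g hg
    exact hstep g hg
  have h1 : ρ.1 ∈ goodExt F T hTS := hres hρ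
  have h2 : c ∈ goodExt F T hTS := by
    have hsV : s ∈ T ⊔ centralizerIn S T := Subgroup.mem_sup_left hs
    have hsN : s ∈ Subgroup.normalizer ((T ⊔ centralizerIn S T : Subgroup Ω) : Set Ω) :=
      Subgroup.le_normalizer hsV
    refine ⟨conjAut _ ⟨s, hsN⟩, autInducedBy_le_autGroup F hVS (conjAut_mem_autInducedBy (hTS hs)),
      fun x => ?_, fun c₀ hc₀ => ?_⟩
    · rw [hcs]
      exact conjAut_apply _ ⟨s, hsN⟩ _
    · have h3 : ((conjAut _ ⟨s, hsN⟩ c₀ : ↥(T ⊔ centralizerIn S T)) : Ω) = s * c₀ * s⁻¹ :=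
        conjAut_apply _ ⟨s, hsN⟩ _
      rw [h3]
      have h4 : (c₀ : Ω) * s = s * c₀ := (Subgroup.mem_centralizer_iff.1 hc₀.2 s hs).symm
      have h5 : s * (c₀ : Ω) * s⁻¹ = c₀ := by
        rw [← h4, mul_inv_cancel_right]
      rw [h5, inv_mul_cancel]
      exact one_mem _
  rw [e]
  exact mul_mem h1 h2

/-- A saturated subsystem of `p`-power index is normal, once `T` is strongly closed. -/
theorem isNormalIn_of_index [Finite S] (hS : IsPGroup p S) (hF : F.IsSaturated p) (hT : F.StronglyClosed T)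
    (hE : E.IsSaturated p) (hidx : E.HasPPowerIndexIn F p) : E.IsNormalIn F p := by
  have hTS : T ≤ S := hT.1
  haveI hfinT : Finite T := finite_of_le hTS
  have hTp : IsPGroup p T := hS.to_le hTS
  have hinvT : InvT F E := invT_of_index hTp hE hidx.1 hTS hidx.2.2
  refine ⟨⟨hE, hF, hidx.1, hT, hinvT, fun P hPT φ hφ => frattini_of_index hS hF hT hinvT hidx.2.2 hPT hφ⟩, ?_⟩
  intro α hα
  exact extension_of_index hS hF hT hidx.2.1 hE hidx.1 hα

end Frattini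

end Cfsg.Agent.Lib.FusionPIdx
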