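import Mathlib
import Cfsg.Agent.Lib.SylowIn

/-!
A group acting on an abelian group with a Sylow subgroup acting with bounded nilpotency: a high
power of a vector fixed by the Sylow subgroup is fixed by every conjugate of the Sylow subgroup.
-/

set_option autoImplicit false

namespace Cfsg.Agent.Lib.PowerFixed

open Polynomial
open scoped Pointwise

/-- The binomial expansion at a prime, with the leading behaviour of the cofactor. -/
theorem exists_cofactor {p : ℕ} (hp : p.Prime) :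
    ∃ r : ℤ[X], (1 + X : ℤ[X]) ^ p = X ^ p + 1 + (p : ℤ[X]) * X * (1 + X * r) := by
  obtain ⟨r, hr⟩ := exists_add_pow_prime_eq hp (X : ℤ[X]) 1
  have h1 : ((X + 1 : ℤ[X]) ^ p).coeff 1 = (p.choose 1 : ℤ[X]).coeff 0 := by
    rw [coeff_X_add_one_pow]
    simp
  have h2 : (X ^ p + 1 ^ p + (p : ℤ[X]) * X * 1 * r : ℤ[X]).coeff 1 = (p : ℤ) * r.coeff 0 := by
    have hp2 := hp.two_le
    have e : (X ^ p + 1 ^ p + (p : ℤ[X]) * X * 1 * r : ℤ[X]) = X ^ p + 1 + C (p : ℤ) * (r * X) := by
      simp only [one_pow, mul_one, map_natCast]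
      ring
    rw [e, coeff_add, coeff_add, coeff_C_mul, coeff_mul_X, coeff_X_pow, coeff_one]
    rw [if_neg (by omega), if_neg (by omega)]
    simp
  rw [hr, h2] at h1
  have h3 : (p : ℤ) * r.coeff 0 = (p : ℤ) := by
    rw [h1]
    simp
  have h4 : r.coeff 0 = 1 := by
    have hp0 : (p : ℤ) ≠ 0 := by exact_mod_cast hp.ne_zero
    exact mul_left_cancel₀ hp0 (by rw [h3, mul_one])
  obtain ⟨s, hs⟩ : X ∣ r - 1 := by
    rw [X_dvd_iff]
    simp [h4]
  refine ⟨s, ?_⟩
  have hr' : r = 1 + X * s := by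
    rw [← hs]
    ring
  rw [add_comm (1 : ℤ[X]) X, hr, ← hr']
  simp only [one_pow, mul_one]

/-- The computation in a commutative ring. -/
theorem comm_pow {R : Type*} [CommRing R] {p : ℕ} (hp : p.Prime) (n : ℕ) (u : R)
    (h1 : (1 + u) ^ p = 1) (h2 : u ^ (n * (p - 1) + 1) = 0) : (p : R) ^ n * u = 0 := by
  obtain ⟨r, hr⟩ := exists_cofactor hp
  have hr' := congrArg (aeval u) hr
  simp only [map_pow, map_add, map_one, aeval_X, map_mul, map_natCast] at hr'
  set g₁ : R := aeval u r with hg₁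
  rw [h1] at hr'
  have hrel : (p : R) * u * (1 + u * g₁) = - u ^ p := by
    linear_combination -hr'
  have hnil : IsNilpotent (u * g₁) := by
    have hu : IsNilpotent u := ⟨_, h2⟩
    exact (Commute.all u g₁).isNilpotent_mul_right hu
  have hunit : IsUnit (1 + u * g₁) := hnil.isUnit_one_add
  have hp1 : 1 ≤ p := hp.one_lt.le
  have key : ∀ k : ℕ, (p : R) ^ k * u * (1 + u * g₁) ^ k = (-1) ^ k * u ^ (k * (p - 1) + 1) := by
    intro k
    induction k with
    | zero => simp
    | succ k ih =>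
      have e1 : (k + 1) * (p - 1) + 1 = k * (p - 1) + p := by
        rw [add_mul, one_mul, add_assoc, Nat.sub_add_cancel hp1]
      have e2 : k * (p - 1) + 1 + (p - 1) = k * (p - 1) + p := by
        rw [add_assoc, add_comm 1, Nat.sub_add_cancel hp1]
      rw [e1, pow_add u, pow_succ ((-1 : R)), pow_succ ((p : R)), pow_succ (1 + u * g₁)]
      have : (p : R) ^ k * (p : R) * u * ((1 + u * g₁) ^ k * (1 + u * g₁))
          = ((p : R) ^ k * (1 + u * g₁) ^ k) * ((p : R) * u * (1 + u * g₁)) := by ring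
      rw [this, hrel]
      have h3 : (p : R) ^ k * (1 + u * g₁) ^ k * u = (-1) ^ k * u ^ (k * (p - 1) + 1) := by
        rw [← ih]
        ring
      have h4 : u ^ (k * (p - 1) + 1) = u ^ (k * (p - 1)) * u := pow_succ _ _
      have h5 : (p : R) ^ k * (1 + u * g₁) ^ k * u = (-1) ^ k * (u ^ (k * (p - 1)) * u) := by
        rw [h3, h4]
      -- cancel nothing: compute directly when `k = 0`-style is unnecessary
      have hpu : u ^ p = u ^ (p - 1) * u := by
        rw [← pow_succ, Nat.sub_add_cancel hp1]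
      rw [hpu]
      linear_combination (-(u ^ (p - 1))) * h5
  have hk := key n
  rw [h2, mul_zero] at hk
  exact (hunit.pow n).mul_left_eq_zero.mp hk

/-- The computation on a single vector. -/
theorem fixed_pow {M : Type*} [AddCommGroup M] {p : ℕ} (hp : p.Prime) (n : ℕ)
    (τ : AddMonoid.End M) (h : (τ - 1) ^ (n * (p - 1) + 1) = 0) (y : M) (hy : (τ ^ p) y = y) :
    τ (p ^ n • y) = p ^ n • y := by
  set u : AddMonoid.End M := τ - 1 with hu
  let Φ : ℤ[X] →ₐ[ℤ] AddMonoid.End M := aeval u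
  let I : Ideal ℤ[X] :=
    { carrier := {f | Φ f y = 0}
      add_mem' := by
        intro a b ha hb
        have ha' : Φ a y = 0 := ha
        have hb' : Φ b y = 0 := hb
        show Φ (a + b) y = 0
        rw [map_add]
        show Φ a y + Φ b y = 0
        rw [ha', hb', add_zero]
      zero_mem' := by
        show Φ 0 y = 0
        rw [map_zero]
        rfl
      smul_mem' := by
        intro c f hf
        have hf' : Φ f y = 0 := hf
        show Φ (c * f) y = 0
        rw [map_mul]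
        show Φ c (Φ f y) = 0
        rw [hf', map_zero] }
  have hmem : ∀ f : ℤ[X], Ideal.Quotient.mk I f = 0 ↔ Φ f y = 0 := fun f => Ideal.Quotient.eq_zero_iff_mem
  have hΦX : Φ X = u := aeval_X u
  have hτ : (1 : AddMonoid.End M) + u = τ := by
    rw [hu]
    abel
  have h1 : (1 + Ideal.Quotient.mk I X) ^ p = 1 := by
    have : Ideal.Quotient.mk I ((1 + X) ^ p - 1) = 0 := by
      rw [hmem, map_sub, map_pow, map_add, map_one, hΦX, hτ]
      show (τ ^ p) y - (1 : AddMonoid.End M) y = 0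
      rw [hy]
      show y - y = 0
      exact sub_self y
    rw [map_sub, map_pow, map_add, map_one, sub_eq_zero] at this
    exact this
  have h2 : (Ideal.Quotient.mk I X) ^ (n * (p - 1) + 1) = 0 := by
    rw [← map_pow, hmem, map_pow, hΦX, h]
    rfl
  have h3 := comm_pow hp n _ h1 h2
  have h4 : Ideal.Quotient.mk I ((p : ℤ[X]) ^ n * X) = 0 := by
    rw [map_mul, map_pow, map_natCast]
    exact h3
  rw [hmem, map_mul, map_pow, map_natCast, hΦX] at h4
  have h5 : (((p : AddMonoid.End M) ^ n) * u) y = 0 := h4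
  have h6 : (((p ^ n : ℕ) : AddMonoid.End M) * u) y = (p ^ n) • (u y) := by
    show ((p ^ n : ℕ) : AddMonoid.End M) (u y) = _
    rw [AddMonoid.End.natCast_apply]
  have h7 : u y = τ y - y := rfl
  rw [← Nat.cast_pow, h6, h7, smul_sub, sub_eq_zero] at h5
  rw [map_nsmul]
  exact h5

section action

variable {p : ℕ}

/-- Outside a subgroup of a `p`-group there is an element whose `p`-th power lies in the subgroup. -/
theorem exists_pow_mem {A : Type*} [Group A] {T Q : Subgroup A} (hT : IsPGroup p T) {x : A}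
    (hxT : x ∈ T) (hxQ : x ∉ Q) : ∃ t ∈ T, t ∉ Q ∧ t ^ p ∈ Q := by
  classical
  obtain ⟨k, hk⟩ := hT ⟨x, hxT⟩
  have hk' : x ^ p ^ k = 1 := congrArg Subtype.val hk
  have hex : ∃ k : ℕ, x ^ p ^ k ∈ Q := ⟨k, hk' ▸ Q.one_mem⟩
  let m := Nat.find hex
  have hm : x ^ p ^ m ∈ Q := Nat.find_spec hex
  have hm0 : m ≠ 0 := by
    intro h0
    rw [h0] at hm
    simp at hm
    exact hxQ hm
  obtain ⟨j, hj⟩ := Nat.exists_eq_succ_of_ne_zero hm0
  have hj' : m = j + 1 := hj
  refine ⟨x ^ p ^ j, T.pow_mem hxT _, ?_, ?_⟩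
  · exact Nat.find_min hex (m := j) (by omega)
  · rw [← pow_mul, ← pow_succ, ← hj']
    exact hm

/-- The action on a vector, written multiplicatively. -/
theorem fixed_pow_mul [hp : Fact p.Prime] {W : Type*} [CommGroup W] (n : ℕ) (τ : MulAut W)
    (hnil : ∀ w : W, (fun x => τ x * x⁻¹)^[n * (p - 1) + 1] w = 1) (y : W) (hy : (τ ^ p) y = y) :
    τ (y ^ p ^ n) = y ^ p ^ n := by
  let τ' : AddMonoid.End (Additive W) := (τ.toMonoidHom).toAdditive
  have h1 : ∀ (k : ℕ) (w : W), ((τ' - 1) ^ k) (Additive.ofMul w) =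
      Additive.ofMul ((fun x => τ x * x⁻¹)^[k] w) := by
    intro k
    induction k with
    | zero =>
      intro w
      rfl
    | succ k ih =>
      intro w
      rw [pow_succ, Function.iterate_succ_apply]
      show ((τ' - 1) ^ k) ((τ' - 1) (Additive.ofMul w)) = _
      have e : (τ' - 1) (Additive.ofMul w) = Additive.ofMul (τ w * w⁻¹) := by
        show τ' (Additive.ofMul w) - Additive.ofMul w = _
        rw [ofMul_mul, ofMul_inv, sub_eq_add_neg]
        rfl
      rw [e, ih]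
  have h2 : ∀ (k : ℕ) (w : W), (τ' ^ k) (Additive.ofMul w) = Additive.ofMul ((τ ^ k) w) := by
    intro k
    induction k with
    | zero =>
      intro w
      rfl
    | succ k ih =>
      intro w
      rw [pow_succ, pow_succ]
      show (τ' ^ k) (τ' (Additive.ofMul w)) = _
      have e : τ' (Additive.ofMul w) = Additive.ofMul (τ w) := rfl
      rw [e, ih]
      rfl
  have h3 : (τ' - 1) ^ (n * (p - 1) + 1) = 0 := by
    ext w
    have := h1 (n * (p - 1) + 1) (Additive.toMul w)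
    rw [ofMul_toMul, hnil, ofMul_one] at this
    exact this
  have h4 : (τ' ^ p) (Additive.ofMul y) = Additive.ofMul y := by
    rw [h2, hy]
  have h5 := fixed_pow hp.out n τ' h3 _ h4
  have h6 : τ' (p ^ n • Additive.ofMul y) = Additive.ofMul (τ (y ^ p ^ n)) := by
    rw [← ofMul_pow]
    rfl
  rw [h6, ← ofMul_pow] at h5
  exact Additive.ofMul.injective h5

/-- The main lemma: a high power of a vector fixed by a Sylow subgroup is fixed by that Sylow subgroup
after moving by any group element. -/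
theorem power_fixed [hp : Fact p.Prime] {A W : Type*} [Group A] [Finite A] [CommGroup W] (ρ : A →* MulAut W)
    (T : Sylow p A) (n : ℕ)
    (hnil : ∀ t ∈ T, ∀ w : W, (fun x => ρ t x * x⁻¹)^[n * (p - 1) + 1] w = 1)
    (z : W) (hz : ∀ t ∈ T, ρ t z = z) (g : A) :
    ∀ t ∈ T, ρ t (ρ g (z ^ p ^ n)) = ρ g (z ^ p ^ n) := by
  set y' : W := ρ g (z ^ p ^ n) with hy'
  have hmulapp : ∀ (a b : A) (w : W), ρ (a * b) w = ρ a (ρ b w) := fun a b w => by
    rw [map_mul]
    rfl
  have honeapp : ∀ w : W, ρ 1 w = w := fun w => by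
    rw [map_one]
    rfl
  have hinvapp : ∀ (a : A) (w : W), ρ a w = w → ρ a⁻¹ w = w := by
    intro a w h
    have := hmulapp a⁻¹ a w
    rw [h, inv_mul_cancel, honeapp] at this
    exact this.symm
  let N : Subgroup A :=
    { carrier := {a | ρ a y' = y'}
      mul_mem' := by
        intro a b ha hb
        have ha' : ρ a y' = y' := ha
        have hb' : ρ b y' = y' := hb
        show ρ (a * b) y' = y'
        rw [hmulapp, hb', ha']
      one_mem' := honeapp y'
      inv_mem' := fun {a} ha => hinvapp a y' ha }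
  have hNmem : ∀ a : A, a ∈ N ↔ ρ a y' = y' := fun a => Iff.rfl
  let T₁ : Sylow p A := g • T
  have hT₁ : ∀ x : A, x ∈ T₁ ↔ g⁻¹ * x * g ∈ T := by
    intro x
    have e : x ∈ (T₁ : Subgroup A) ↔ x ∈ (MulAut.conj g) • (T : Subgroup A) := by
      rw [Sylow.coe_subgroup_smul]
    rw [show x ∈ T₁ ↔ x ∈ (T₁ : Subgroup A) from Iff.rfl, e,
      Subgroup.mem_pointwise_smul_iff_inv_smul_mem]
    show (MulAut.conj g)⁻¹ • x ∈ (T : Subgroup A) ↔ _
    have : (MulAut.conj g)⁻¹ • x = g⁻¹ * x * g := by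
      rw [← map_inv, MulAut.smul_def, MulAut.conj_apply, inv_inv]
    rw [this]
    rfl
  have hzp : ∀ t ∈ T, ρ t (z ^ p ^ n) = z ^ p ^ n := fun t ht => by
    rw [map_pow, hz t ht]
  have hT₁N : (T₁ : Subgroup A) ≤ N := by
    intro x hx
    have h1 : g⁻¹ * x * g ∈ T := (hT₁ x).mp hx
    have e : x * g = g * (g⁻¹ * x * g) := by group
    show ρ x y' = y'
    rw [hy', ← hmulapp, e, hmulapp, hzp _ h1]
  -- the intersection with `N`
  have hQ : IsPGroup p ↥(((T : Subgroup A) ⊓ N).subgroupOf N) := by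
    have h1 : IsPGroup p ↥((T : Subgroup A) ⊓ N) := T.isPGroup'.to_le inf_le_left
    exact h1.comap_of_injective N.subtype (Subgroup.subtype_injective _)
  obtain ⟨h, hh⟩ := SylowIn.exists_conj_mem_sylow (T₁.subtype hT₁N) hQ
  have hh' : ∀ x ∈ (T : Subgroup A) ⊓ N, (h : A) * x * (h : A)⁻¹ ∈ T₁ := by
    intro x hx
    have hxN : x ∈ N := hx.2
    have h1 := hh ⟨x, hxN⟩ (Subgroup.mem_subgroupOf.mpr hx)
    have h1' : _ ∈ ((T₁.subtype hT₁N : Sylow p N) : Subgroup N) := h1
    rw [Sylow.coe_subtype] at h1'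
    exact h1'
  set y₂ : W := ρ ((h : A)⁻¹ * g) z with hy₂
  have hy₂p : y₂ ^ p ^ n = y' := by
    rw [hy₂, ← map_pow, hmulapp]
    exact hinvapp _ _ h.2
  have hfix : ∀ x ∈ (T : Subgroup A) ⊓ N, ρ x y₂ = y₂ := by
    intro x hx
    have h1 := (hT₁ _).mp (hh' x hx)
    have e : x * ((h : A)⁻¹ * g) = ((h : A)⁻¹ * g) * (g⁻¹ * ((h : A) * x * (h : A)⁻¹) * g) := by group
    rw [hy₂, ← hmulapp, e, hmulapp, hz _ h1]
  intro t₀ ht₀
  by_contra hne
  have ht₀Q : t₀ ∉ (T : Subgroup A) ⊓ N := fun h' => hne h'.2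
  obtain ⟨t, htT, htQ, htp⟩ := exists_pow_mem T.isPGroup' ht₀ ht₀Q
  have h3 := fixed_pow_mul n (ρ t) (hnil t htT) y₂ (by
    rw [← map_pow]
    exact hfix _ htp)
  rw [hy₂p] at h3
  exact htQ ⟨htT, h3⟩

/-- The Frattini form of the main lemma. -/
theorem frattini_power [hp : Fact p.Prime] {A W : Type*} [Group A] [Finite A] [CommGroup W]
    (ρ : A →* MulAut W) (T : Sylow p A) (n : ℕ)
    (hnil : ∀ t ∈ T, ∀ w : W, (fun x => ρ t x * x⁻¹)^[n * (p - 1) + 1] w = 1)
    (z : W) (hz : ∀ t ∈ T, ρ t z = z) (α : A) :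
    ∃ ν : A, (∀ t ∈ T, ν * t * ν⁻¹ ∈ T) ∧ ρ α (z ^ p ^ n) = ρ ν (z ^ p ^ n) := by
  have hmulapp : ∀ (a b : A) (w : W), ρ (a * b) w = ρ a (ρ b w) := fun a b w => by
    rw [map_mul]
    rfl
  have honeapp : ∀ w : W, ρ 1 w = w := fun w => by
    rw [map_one]
    rfl
  set v : W := z ^ p ^ n with hv
  let D : Subgroup A :=
    { carrier := {a | ∀ g : A, ρ a (ρ g v) = ρ g v}
      mul_mem' := by
        intro a b ha hb g
        rw [hmulapp, hb g, ha g]
      one_mem' := fun g => honeapp _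
      inv_mem' := by
        intro a ha g
        have h := ha g
        have h2 := hmulapp a⁻¹ a (ρ g v)
        rw [h, inv_mul_cancel, honeapp] at h2
        exact h2.symm }
  have hDmem : ∀ a : A, a ∈ D ↔ ∀ g : A, ρ a (ρ g v) = ρ g v := fun a => Iff.rfl
  have hTD : (T : Subgroup A) ≤ D := fun t ht g => power_fixed ρ T n hnil z hz g t ht
  have hDn : D.Normal := by
    refine ⟨fun a ha b g => ?_⟩
    have e : ρ (b * a * b⁻¹) (ρ g v) = ρ b (ρ a (ρ (b⁻¹ * g) v)) := by
      rw [hmulapp, hmulapp, ← hmulapp b⁻¹ g]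
    rw [e, ha, ← hmulapp]
    congr 2
    group
  -- conjugate the Sylow subgroup back
  let T' : Subgroup A := (T : Subgroup A).map (MulAut.conj α).toMonoidHom
  have hT'D : T' ≤ D := by
    rintro _ ⟨t, ht, rfl⟩
    exact hDn.conj_mem t (hTD ht) α
  have hT'p : IsPGroup p ↥(T'.subgroupOf D) := by
    have h1 : IsPGroup p ↥T' := SylowIn.isPGroup_map_conj T.isPGroup' α
    exact h1.comap_of_injective D.subtype (Subgroup.subtype_injective _)
  obtain ⟨k, hk⟩ := SylowIn.exists_conj_mem_sylow (T.subtype hTD) hT'p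
  have hk' : ∀ t ∈ T, (k : A) * (α * t * α⁻¹) * (k : A)⁻¹ ∈ T := by
    intro t ht
    have hm : α * t * α⁻¹ ∈ T' := ⟨t, ht, rfl⟩
    have h1 := hk ⟨_, hT'D hm⟩ (Subgroup.mem_subgroupOf.mpr hm)
    have h1' : _ ∈ ((T.subtype hTD : Sylow p D) : Subgroup D) := h1
    rw [Sylow.coe_subtype] at h1'
    exact h1'
  refine ⟨(k : A) * α, fun t ht => ?_, ?_⟩
  · have e : (k : A) * α * t * ((k : A) * α)⁻¹ = (k : A) * (α * t * α⁻¹) * (k : A)⁻¹ := by group
    rw [e]
    exact hk' t ht
  · have h1 : (((k : A) * α)⁻¹ * α) ∈ D := by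
      have e : ((k : A) * α)⁻¹ * α = α⁻¹ * (k : A)⁻¹ * α := by group
      rw [e]
      have := hDn.conj_mem _ (D.inv_mem k.2) α⁻¹
      rwa [inv_inv] at this
    have h2 := h1 1
    rw [honeapp] at h2
    have e : α = ((k : A) * α) * (((k : A) * α)⁻¹ * α) := by group
    calc ρ α v = ρ (((k : A) * α) * (((k : A) * α)⁻¹ * α)) v := by rw [← e]
      _ = ρ ((k : A) * α) (ρ (((k : A) * α)⁻¹ * α) v) := hmulapp _ _ _
      _ = ρ ((k : A) * α) v := by rw [h2]

end action

end Cfsg.Agent.Lib.PowerFixed
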