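import Cfsg.Agent.Lib.FusionNormal
import Cfsg.Agent.Lib.PowerFixed
import Cfsg.Prelude.Def_PLocal

/-!
Powers of central elements of `S` in a saturated fusion system when the class of `S` is small.
-/

set_option autoImplicit false

namespace Cfsg.Agent.Lib.FusionPower

open Cfsg Cfsg.FusionSystem Cfsg.Agent.Lib.FusionBasic Cfsg.Agent.Lib.FusionAut
  Cfsg.Agent.Lib.FusionSat Cfsg.Agent.Lib.FusionAlperin Cfsg.Agent.Lib.FusionNormal
  Cfsg.Agent.Lib.PowerFixed

variable {Ω : Type*} [Group Ω] {S : Subgroup Ω} {p : ℕ}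

/-- The action of the automorphism group on the centre. -/
def centerAct (X : Type*) [Group X] : MulAut X →* MulAut (Subgroup.center X) :=
  MonoidHom.mk' (fun α =>
    { toFun := fun z => ⟨α z, by
        rw [Subgroup.mem_center_iff]
        intro g
        have h := Subgroup.mem_center_iff.mp z.2 (α.symm g)
        have h2 := congrArg α h
        simpa using h2⟩
      invFun := fun z => ⟨α.symm z, by
        rw [Subgroup.mem_center_iff]
        intro g
        have h := Subgroup.mem_center_iff.mp z.2 (α g)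
        have h2 := congrArg α.symm h
        simpa using h2⟩
      left_inv := fun z => Subtype.ext (α.symm_apply_apply _)
      right_inv := fun z => Subtype.ext (α.apply_symm_apply _)
      map_mul' := fun a b => Subtype.ext (by simp) })
    (fun a b => by
      ext z
      rfl)

@[simp] theorem centerAct_apply {X : Type*} [Group X] (α : MulAut X) (z : Subgroup.center X) :
    ((centerAct X α z : Subgroup.center X) : X) = α z := rfl

/-- The maps of `F` respecting `V` on large sources. -/
def goodSystem [Finite S] (F : FusionSystem S) (V : Subgroup Ω)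
    (hV : ∀ g ∈ S, ∀ x ∈ S, (g * x * g⁻¹ ∈ V ↔ x ∈ V)) (k : ℕ) : FusionSystem S where
  Hom Q := {φ | φ ∈ F.Hom Q ∧ (Nat.card S ≤ Nat.card Q + k → ∀ x : Q, ((x : Ω) ∈ V ↔ φ x ∈ V))}
  le_of_mem h := F.le_of_mem h.1
  injective_of_mem h := F.injective_of_mem h.1
  conj_mem {P g} hP hg := ⟨F.conj_mem hP hg, fun _ x => (hV g hg x (hP x.2)).symm⟩
  comp_mem {P Q φ ψ} hφ hψ h := by
    refine ⟨F.comp_mem hφ.1 hψ.1 h, fun hc x => ?_⟩
    have hQS : Q ≤ S := F.le_of_mem hψ.1 |>.1
    have hfQ : Finite Q := finite_of_le hQS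
    have hcard : Nat.card P ≤ Nat.card Q := by
      refine Nat.card_le_card_of_injective (φ.codRestrict Q h) ?_
      intro a b hab
      exact F.injective_of_mem hφ.1 (congrArg Subtype.val hab)
    rw [hφ.2 hc x]
    exact hψ.2 (by omega) ⟨φ x, h x⟩
  inv_mem {P φ} hφ := by
    obtain ⟨ψ, hψ, he⟩ := F.inv_mem hφ.1
    refine ⟨ψ, ⟨hψ, fun hc y => ?_⟩, he⟩
    obtain ⟨⟨_, x, rfl⟩, rfl⟩ : ∃ y' : φ.range, y' = y := ⟨y, rfl⟩
    rw [card_range_eq F hφ.1] at hc
    rw [he x]
    exact (hφ.2 hc x).symm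

/-- A step of the exponent bound along the upper central series. -/
theorem pow_mem_upperCentralSeries {G : Type*} [Group G] (e : ℕ) (he : ∀ z ∈ Subgroup.center G, z ^ e = 1) :
    ∀ (i : ℕ) (x : G), x ∈ Subgroup.upperCentralSeries G (i + 1) →
      x ^ e ∈ Subgroup.upperCentralSeries G i := by
  open scoped commutatorElement in
  intro i
  induction i with
  | zero =>
    intro x hx
    have hx' : x ∈ Subgroup.upperCentralSeries G 1 := hx
    rw [Subgroup.upperCentralSeries_one] at hx'
    rw [Subgroup.upperCentralSeries_zero, Subgroup.mem_bot]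
    exact he x hx'
  | succ i ih =>
    intro x hx
    rw [Subgroup.mem_upperCentralSeries_succ_iff]
    intro y
    set Zi := Subgroup.upperCentralSeries G i with hZi
    have hcomm : x * y * x⁻¹ * y⁻¹ ∈ Subgroup.upperCentralSeries G (i + 1) := by
      have := Subgroup.mem_upperCentralSeries_succ_iff.mp hx y
      rwa [commutatorElement_def] at this
    have hcentral : ∀ g : G, (x * y * x⁻¹ * y⁻¹) * g * (x * y * x⁻¹ * y⁻¹)⁻¹ * g⁻¹ ∈ Zi := by
      intro g
      have := Subgroup.mem_upperCentralSeries_succ_iff.mp hcomm g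
      rwa [commutatorElement_def] at this
    set a := x * y * x⁻¹ * y⁻¹ with ha
    let π := QuotientGroup.mk' Zi
    have hπ : ∀ g : G, π a * π g = π g * π a := by
      intro g
      have h1 : π (a * g * a⁻¹ * g⁻¹) = 1 := (QuotientGroup.eq_one_iff _).mpr (hcentral g)
      simp only [map_mul, map_inv] at h1
      have h2 : π a * π g = π a * π g * (π a)⁻¹ * (π g)⁻¹ * (π g * π a) := by group
      rw [h2, h1, one_mul]
    have hxy : π x * π y = π a * π y * π x := by
      rw [ha]
      simp only [map_mul, map_inv]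
      group
    have hk : ∀ k : ℕ, π (x ^ k) * π y = π a ^ k * π y * π (x ^ k) := by
      intro k
      induction k with
      | zero => simp
      | succ k ihk =>
        have e1 : π (x ^ (k + 1)) = π (x ^ k) * π x := by rw [pow_succ, map_mul]
        rw [e1]
        calc π (x ^ k) * π x * π y = π (x ^ k) * (π x * π y) := by group
          _ = π (x ^ k) * (π a * π y * π x) := by rw [hxy]
          _ = (π (x ^ k) * π a) * π y * π x := by group
          _ = (π a * π (x ^ k)) * π y * π x := by rw [hπ]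
          _ = π a * (π (x ^ k) * π y) * π x := by group
          _ = π a * (π a ^ k * π y * π (x ^ k)) * π x := by rw [ihk]
          _ = π a ^ (k + 1) * π y * (π (x ^ k) * π x) := by
            rw [pow_succ']
            group
    have hae : a ^ e ∈ Zi := ih a hcomm
    have h1 : π (a ^ e) = 1 := (QuotientGroup.eq_one_iff _).mpr hae
    have h2 : π (x ^ e) * π y = π y * π (x ^ e) := by
      rw [hk e, ← map_pow, h1, one_mul]
    rw [commutatorElement_def, ← QuotientGroup.eq_one_iff (N := Zi)]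
    show π (x ^ e * y * (x ^ e)⁻¹ * y⁻¹) = 1
    simp only [map_mul, map_inv]
    rw [h2]
    group

/-- The exponent bound from the exponent of the centre. -/
theorem pow_eq_one_of_center {G : Type*} [Group G] (e c : ℕ) (he : ∀ z ∈ Subgroup.center G, z ^ e = 1)
    (hc : Subgroup.upperCentralSeries G c = ⊤) (x : G) : x ^ (e ^ c) = 1 := by
  have key : ∀ k : ℕ, ∀ x ∈ Subgroup.upperCentralSeries G k, x ^ (e ^ k) = 1 := by
    intro k
    induction k with
    | zero =>
      intro x hx
      rw [Subgroup.upperCentralSeries_zero, Subgroup.mem_bot] at hx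
      simp [hx]
    | succ k ih =>
      intro x hx
      rw [pow_succ', pow_mul]
      exact ih _ (pow_mem_upperCentralSeries e he k x hx)
  exact key c x (hc ▸ Subgroup.mem_top x)

section main

variable [Fact p.Prime]

/-- The centre as a commutative group. -/
@[reducible] def centerComm (X : Type*) [Group X] : CommGroup (Subgroup.center X) :=
  { (inferInstance : Group (Subgroup.center X)) with
    mul_comm := fun a b => Subtype.ext (Subgroup.mem_center_iff.mp b.2 a) }

/-- Commutators with an element of `S` descend the lower central series. -/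
theorem iterate_mem_lcs {P : Subgroup Ω} (hPS : P ≤ S) {α : MulAut P} {g : Ω} (hg : g ∈ S)
    (hα : ∀ x : P, ((α x : P) : Ω) = g * x * g⁻¹) (w : Subgroup.center P) (k : ℕ) :
    (((fun x => centerAct P α x * x⁻¹)^[k] w : Subgroup.center P) : P).1 ∈
      S.lowerCentralSeries k := by
  open scoped commutatorElement in
  induction k with
  | zero => exact hPS (w : P).2
  | succ k ih =>
    rw [Function.iterate_succ_apply']
    set u : Subgroup.center P := (fun x => centerAct P α x * x⁻¹)^[k] w with hu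
    have e1 : (((centerAct P α u : Subgroup.center P) : P) : Ω) = g * ((u : P) : Ω) * g⁻¹ := hα u
    have e2 : ((((centerAct P α u * u⁻¹ : Subgroup.center P) : P)) : Ω) =
        (((centerAct P α u : Subgroup.center P) : P) : Ω) * ((u : P) : Ω)⁻¹ := rfl
    have e3 : g * ((u : P) : Ω) * g⁻¹ * ((u : P) : Ω)⁻¹ = ⁅((u : P) : Ω), g⁆⁻¹ := by
      rw [commutatorElement_def]
      group
    show ((((centerAct P α u * u⁻¹ : Subgroup.center P) : P)) : Ω) ∈ _
    rw [e2, e1, e3]
    exact inv_mem (Subgroup.commutator_mem_commutator ih hg)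

/-- The key step: on a centric fully normalized proper subgroup, an automorphism acts on `z ^ p ^ n`
like a map extending to the normalizer. -/
theorem aut_power_step [Finite S] (hS : IsPGroup p S) {F : FusionSystem S} (hF : F.IsSaturated p)
    (n : ℕ) (hcl : S.lowerCentralSeries (n * (p - 1) + 1) = ⊥) {P : Subgroup Ω} (hPS : P ≤ S)
    (hPc : F.IsCentric P) (hPn : F.IsFullyNormalized P) {α : MulAut P} (hα : α ∈ F.autGroup P)
    {z : Ω} (hz : z ∈ S ⊓ Subgroup.centralizer (S : Set Ω)) :
    ∃ ψ ∈ F.Hom (normalizerIn S P), ∀ (h₁ : z ^ p ^ n ∈ P) (h₂ : z ^ p ^ n ∈ normalizerIn S P),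
      ((α ⟨z ^ p ^ n, h₁⟩ : P) : Ω) = ψ ⟨z ^ p ^ n, h₂⟩ := by
  classical
  have hfinP : Finite P := finite_of_le hPS
  have hfinA : Finite (MulAut P) := mulAut_finite
  obtain ⟨⟨-, R, hR⟩, hrec⟩ := IsSaturated.fullyNormalized hS hF hPn
  have hzS : z ∈ S := hz.1
  have hzc : ∀ s ∈ S, s * z = z * s := fun s hs => (Subgroup.mem_centralizer_iff.mp hz.2) s hs
  have hzP : z ∈ P := hPc.2 P (isConj_refl F hPS) ⟨hzS, Subgroup.mem_centralizer_iff.mpr
    fun s hs => hzc s (hPS hs)⟩
  let zc : Subgroup.center P := ⟨⟨z, hzP⟩, Subgroup.mem_center_iff.mpr fun g =>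
    Subtype.ext (hzc g (hPS g.2))⟩
  let _ : CommGroup (Subgroup.center P) := centerComm P
  let ρ : ↥(F.autGroup P) →* MulAut (Subgroup.center P) :=
    (centerAct P).comp (F.autGroup P).subtype
  have hRmem : ∀ t : ↥(F.autGroup P), t ∈ R → ∃ g ∈ S, ∀ x : P, (((t : MulAut P) x : P) : Ω) = g * x * g⁻¹ := by
    intro t ht
    have h1 : t ∈ (R : Subgroup ↥(F.autGroup P)) := ht
    rw [hR] at h1
    exact mem_autInducedBy_iff.mp h1
  have hnil : ∀ t ∈ R, ∀ w : Subgroup.center P,
      (fun x => ρ t x * x⁻¹)^[n * (p - 1) + 1] w = 1 := by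
    intro t ht w
    obtain ⟨g, hg, hact⟩ := hRmem t ht
    have h1 := iterate_mem_lcs hPS hg hact w (n * (p - 1) + 1)
    rw [hcl, Subgroup.mem_bot] at h1
    exact Subtype.ext (Subtype.ext h1)
  have hzfix : ∀ t ∈ R, ρ t zc = zc := by
    intro t ht
    obtain ⟨g, hg, hact⟩ := hRmem t ht
    refine Subtype.ext (Subtype.ext ?_)
    show (((t : MulAut P) ⟨z, hzP⟩ : P) : Ω) = z
    rw [hact, show ((⟨z, hzP⟩ : P) : Ω) = z from rfl, hzc g hg]
    group
  obtain ⟨ν, hνR, he⟩ := frattini_power ρ R n hnil zc hzfix ⟨α, hα⟩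
  have hν' : P.subtype.comp (ν : MulAut P).toMonoidHom ∈ F.Hom P :=
    (mem_autGroup_iff F hPS).mp ν.2
  have hle : normalizerIn S P ≤ extender S P (P.subtype.comp (ν : MulAut P).toMonoidHom) := by
    intro g hg
    refine Subgroup.subset_closure ⟨hg.1, hg.2, ?_⟩
    let c : MulAut P := conjAut P ⟨g, hg.2⟩
    have hcI : c ∈ autInducedBy S P := conjAut_mem_autInducedBy hg.1
    have hcA : c ∈ F.autGroup P := autInducedBy_le_autGroup F hPS hcI
    have hcR : (⟨c, hcA⟩ : ↥(F.autGroup P)) ∈ R := by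
      show _ ∈ (R : Subgroup ↥(F.autGroup P))
      rw [hR]
      exact hcI
    obtain ⟨h, hh, hact⟩ := hRmem _ (hνR _ hcR)
    refine ⟨h, hh, fun x hx => ?_⟩
    have h1 := hact (ν.1 x)
    have e1 : (((ν * ⟨c, hcA⟩ * ν⁻¹ : ↥(F.autGroup P)) : MulAut P) (ν.1 x) : P) = ν.1 (c x) := by
      show ν.1 (c (ν.1⁻¹ (ν.1 x))) = ν.1 (c x)
      simp
    rw [e1] at h1
    have e2 : c x = ⟨g * x * g⁻¹, hx⟩ := Subtype.ext (conjAut_apply P ⟨g, hg.2⟩ x)
    rw [e2] at h1
    exact h1
  obtain ⟨ψ, hψ, heψ⟩ := hrec.2 P _ hν' (range_subtype_comp _)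
  refine ⟨ψ.comp (Subgroup.inclusion hle), restrict_mem F hψ hle, fun h₁ h₂ => ?_⟩
  have h3 := heψ (z ^ p ^ n) h₁ (hle h₂)
  have h4 : (ψ.comp (Subgroup.inclusion hle)) ⟨z ^ p ^ n, h₂⟩ = ψ ⟨z ^ p ^ n, hle h₂⟩ := rfl
  rw [h4, h3]
  have h5 := congrArg (fun w : Subgroup.center P => ((w : P) : Ω)) he
  have hzp : ((zc ^ p ^ n : Subgroup.center P) : P) = ⟨z ^ p ^ n, h₁⟩ := rfl
  have h6 : ((ρ ⟨α, hα⟩ (zc ^ p ^ n) : Subgroup.center P) : P) = α ⟨z ^ p ^ n, h₁⟩ := by
    show α ((zc ^ p ^ n : Subgroup.center P) : P) = _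
    rw [hzp]
  have h7 : ((ρ ν (zc ^ p ^ n) : Subgroup.center P) : P) = (ν : MulAut P) ⟨z ^ p ^ n, h₁⟩ := by
    show (ν : MulAut P) ((zc ^ p ^ n : Subgroup.center P) : P) = _
    rw [hzp]
  change ((ρ ⟨α, hα⟩ (zc ^ p ^ n) : Subgroup.center P) : P).1 =
    ((ρ ν (zc ^ p ^ n) : Subgroup.center P) : P).1 at h5
  rw [h6, h7] at h5
  exact h5

/-- The theorem: the subgroup generated by the `p ^ n`-th powers of the centre is normal. -/
theorem isNormal_powerClosure [Finite S] (hS : IsPGroup p S) {F : FusionSystem S} (hF : F.IsSaturated p)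
    (n : ℕ) (hcl : S.lowerCentralSeries (n * (p - 1) + 1) = ⊥) :
    F.IsNormal (powerClosure p n (S ⊓ Subgroup.centralizer (S : Set Ω))) := by
  set Z : Subgroup Ω := S ⊓ Subgroup.centralizer (S : Set Ω) with hZ
  set V : Subgroup Ω := powerClosure p n Z with hVdef
  have hVZ : V ≤ Z := by
    rw [hVdef, powerClosure, Subgroup.closure_le]
    rintro _ ⟨x, hx, rfl⟩
    exact Z.pow_mem hx _
  have hZc : ∀ x ∈ Z, ∀ s ∈ S, s * x = x * s := fun x hx s hs =>
    (Subgroup.mem_centralizer_iff.mp hx.2) s hs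
  have hV : ∀ g ∈ S, ∀ x ∈ S, (g * x * g⁻¹ ∈ V ↔ x ∈ V) := by
    intro g hg x hx
    constructor
    · intro h
      have h1 := hZc _ (hVZ h) g hg
      have h2 : g * (g * x * g⁻¹) = g * x := by
        rw [h1]
        group
      have e : g * x * g⁻¹ = x := mul_left_cancel h2
      rwa [e] at h
    · intro h
      have e : g * x * g⁻¹ = x := by
        rw [hZc x (hVZ h) g hg]
        group
      rwa [e]
  have hVgen : ∀ z ∈ Z, z ^ p ^ n ∈ V := fun z hz => Subgroup.subset_closure ⟨z, hz, rfl⟩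
  have hVS : V ≤ S := hVZ.trans inf_le_left
  -- action on `V` of an automorphism, from the action on the generators
  have hact : ∀ {P : Subgroup Ω} (hVP : V ≤ P) (β : MulAut P),
      (∀ z ∈ Z, ∀ h : z ^ p ^ n ∈ P, ((β ⟨z ^ p ^ n, h⟩ : P) : Ω) ∈ V) →
      ∀ x : P, (x : Ω) ∈ V → ((β x : P) : Ω) ∈ V := by
    intro P hVP β hgen x hx
    have key : ∀ y (hy : y ∈ V), ((β ⟨y, hVP hy⟩ : P) : Ω) ∈ V := by
      intro y hy
      induction hy using Subgroup.closure_induction with
      | mem y hy =>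
        obtain ⟨z, hz, rfl⟩ := hy
        exact hgen z hz _
      | one =>
        have : (⟨1, hVP V.one_mem⟩ : P) = 1 := rfl
        rw [this, map_one]
        exact V.one_mem
      | mul a b ha hb iha ihb =>
        have : (⟨a * b, hVP (V.mul_mem ha hb)⟩ : P) = ⟨a, hVP ha⟩ * ⟨b, hVP hb⟩ := rfl
        rw [this, map_mul]
        exact V.mul_mem iha ihb
      | inv a ha iha =>
        have : (⟨a⁻¹, hVP (V.inv_mem ha)⟩ : P) = ⟨a, hVP ha⟩⁻¹ := rfl
        rw [this, map_inv]
        exact V.inv_mem iha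
    exact key x hx
  have main : ∀ k : ℕ, ∀ (Q : Subgroup Ω) (φ : Q →* Ω), φ ∈ F.Hom Q → Nat.card S ≤ Nat.card Q + k →
      ∀ x : Q, ((x : Ω) ∈ V ↔ φ x ∈ V) := by
    have step : ∀ k : ℕ,
        (∀ (Q : Subgroup Ω) (φ : Q →* Ω), φ ∈ F.Hom Q → Nat.card S < Nat.card Q + k →
          ∀ x : Q, ((x : Ω) ∈ V ↔ φ x ∈ V)) →
        ∀ (Q : Subgroup Ω) (φ : Q →* Ω), φ ∈ F.Hom Q → Nat.card S ≤ Nat.card Q + k →
          ∀ x : Q, ((x : Ω) ∈ V ↔ φ x ∈ V) := by
      intro k hIH Q φ hφ hc
      let E : FusionSystem S := goodSystem F V hV k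
      have hE : ∀ P : Subgroup Ω, (P = S ∨ F.IsEssential p P) → F.autGroup P ≤ E.autGroup P := by
        intro P hP α hα
        have hPS : P ≤ S := by
          rcases hP with rfl | h
          · exact le_rfl
          · exact h.1.1
        have hfinP : Finite P := finite_of_le hPS
        have hfwd : ∀ β ∈ F.autGroup P, Nat.card S ≤ Nat.card P + k →
            ∀ x : P, (x : Ω) ∈ V → ((β x : P) : Ω) ∈ V := by
          intro β hβ hcP
          by_cases hPeq : P = S
          · subst hPeq
            have hVP : V ≤ P := hVS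
            refine hact hVP β fun z hz h => ?_
            have hzP : z ∈ P := hz.1
            have e : (⟨z ^ p ^ n, h⟩ : P) = (⟨z, hzP⟩ : P) ^ p ^ n := rfl
            rw [e, map_pow]
            refine hVgen _ ⟨(β ⟨z, hzP⟩).2, Subgroup.mem_centralizer_iff.mpr fun s hs => ?_⟩
            have hcomm := (Subgroup.mem_centralizer_iff.mp hz.2)
              ((β.symm ⟨s, hs⟩ : P) : Ω) (β.symm ⟨s, hs⟩).2
            have h2 : β.symm ⟨s, hs⟩ * ⟨z, hzP⟩ = ⟨z, hzP⟩ * β.symm ⟨s, hs⟩ := Subtype.ext hcomm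
            have h3 := congrArg β h2
            simp only [map_mul, MulEquiv.apply_symm_apply] at h3
            exact congrArg Subtype.val h3
          · have hess : F.IsEssential p P := hP.resolve_left hPeq
            have hPlt : P < S := lt_of_le_of_ne hPS hPeq
            have hVP : V ≤ P := by
              refine hVZ.trans fun z hz => hess.1.2 P (isConj_refl F hPS) ⟨hz.1, ?_⟩
              exact Subgroup.mem_centralizer_iff.mpr fun s hs =>
                (Subgroup.mem_centralizer_iff.mp hz.2) s (hPS hs)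
            refine hact hVP β fun z hz h => ?_
            obtain ⟨ψ, hψ, heq⟩ := aut_power_step hS hF n hcl hPS hess.1 hess.2.1 hβ hz
            have hNlt := lt_normalizerIn hS hPlt
            have hfinN : Finite (normalizerIn S P) := finite_of_le inf_le_left
            have hcardlt : Nat.card P < Nat.card (normalizerIn S P) :=
              lt_of_not_ge fun hge => hNlt.ne (Subgroup.eq_of_le_of_card_ge hNlt.le hge)
            have hm : z ^ p ^ n ∈ normalizerIn S P := hNlt.le h
            rw [heq h hm]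
            exact (hIH _ ψ hψ (by omega) ⟨_, hm⟩).mp (hVgen z hz)
        rw [mem_autGroup_iff E hPS]
        refine ⟨(mem_autGroup_iff F hPS).mp hα, fun hcP x => ⟨hfwd α hα hcP x, fun hx => ?_⟩⟩
        have h1 := hfwd α⁻¹ (inv_mem hα) hcP (α x) hx
        have e : ((α⁻¹ (α x) : P) : Ω) = x := by simp
        rwa [e] at h1
      have h := alperin hS hF E hE Q hφ
      exact h.2 hc
    intro k
    induction k with
    | zero =>
      refine step 0 fun Q φ hφ hc => ?_
      have hQS : Q ≤ S := (F.le_of_mem hφ).1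
      have := Subgroup.card_le_of_le hQS
      omega
    | succ k ih =>
      refine step (k + 1) fun Q φ hφ hc => ?_
      exact ih Q φ hφ (by omega)
  refine isNormal_of_stronglyClosed_of_le hS hF ⟨hVS, fun R hR φ hφ x => ?_⟩ fun P hPc _ => ?_
  · exact (main (Nat.card S) R φ hφ (by omega) x).mp (hR x.2)
  · refine hVZ.trans fun z hz => hPc.2 P (isConj_refl F hPc.1) ⟨hz.1, ?_⟩
    exact Subgroup.mem_centralizer_iff.mpr fun s hs =>
      (Subgroup.mem_centralizer_iff.mp hz.2) s (hPc.1 hs)

end main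

end Cfsg.Agent.Lib.FusionPower
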