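import Cfsg.Agent.Lib.FusionHypQuot
import Cfsg.Prelude.Def_FusionReduction

/-!
Residual limits: uniqueness, the hyperfocal subgroup of a subsystem of `p`-power index.
-/

set_option autoImplicit false
set_option linter.all false

namespace Cfsg.Agent.Lib.FusionResLim

open Cfsg Cfsg.FusionSystem Cfsg.Agent.Lib.FusionBasic Cfsg.Agent.Lib.FusionAut
  Cfsg.Agent.Lib.FusionSat Cfsg.Agent.Lib.FusionAlperin Cfsg.Agent.Lib.FusionNormal
  Cfsg.Agent.Lib.FusionHyp Cfsg.Agent.Lib.FusionStrong Cfsg.Agent.Lib.PResidual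
  Cfsg.Agent.Lib.FusionPIdx Cfsg.Agent.Lib.FusionHypQuot

variable {Ω : Type*} [Group Ω] {p : ℕ}

theorem coprime_hyp_aux {A : Type*} [Group A] [Finite A] [hp : Fact p.Prime] (hA : IsPGroup p A) (ρ : MulAut A)
    (hρ : (orderOf ρ).Coprime p) (P₀ N : Subgroup A) (hn : ∀ z ∈ P₀, ∀ n ∈ N, z * n * z⁻¹ ∈ N)
    (h1 : ∀ x : A, x⁻¹ * ρ x ∈ P₀) (h2 : ∀ z ∈ P₀, z⁻¹ * ρ z ∈ N) (x : A) : x⁻¹ * ρ x ∈ N := by
  obtain ⟨y, hy⟩ : ∃ y, y = x⁻¹ * ρ x := ⟨_, rfl⟩
  rw [← hy]
  have hyP : y ∈ P₀ := hy ▸ h1 x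
  have hk : ∀ k : ℕ, (ρ ^ k) y ∈ P₀ ∧ y⁻¹ * (ρ ^ k) y ∈ N := by
    intro k
    induction k with
    | zero =>
      refine ⟨by simpa using hyP, ?_⟩
      have : y⁻¹ * (ρ ^ 0) y = 1 := by simp
      rw [this]
      exact one_mem _
    | succ k ih =>
      have e : (ρ ^ (k+1)) y = ρ ((ρ ^ k) y) := by rw [pow_succ']; rfl
      rw [e]
      have h3 := h1 ((ρ ^ k) y)
      have h4 := h2 _ ih.1
      constructor
      · have e1 : ρ ((ρ ^ k) y) = (ρ ^ k) y * (((ρ ^ k) y)⁻¹ * ρ ((ρ ^ k) y)) := by group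
        rw [e1]
        exact P₀.mul_mem ih.1 h3
      · have e1 : y⁻¹ * ρ ((ρ ^ k) y) = (y⁻¹ * (ρ ^ k) y) * (((ρ ^ k) y)⁻¹ * ρ ((ρ ^ k) y)) := by group
        rw [e1]
        exact N.mul_mem ih.2 h4
  have hm : ∀ k : ℕ, (y ^ k)⁻¹ * (x⁻¹ * (ρ ^ k) x) ∈ N := by
    intro k
    induction k with
    | zero =>
      have : (y ^ 0)⁻¹ * (x⁻¹ * (ρ ^ 0) x) = 1 := by simp
      rw [this]
      exact one_mem _
    | succ k ih =>
      have e : (ρ ^ (k+1)) x = (ρ ^ k) (ρ x) := by rw [pow_succ]; rfl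
      have e2 : ρ x = x * y := by rw [hy]; group
      rw [e, e2, map_mul]
      have e3 : (y ^ (k+1))⁻¹ * (x⁻¹ * ((ρ ^ k) x * (ρ ^ k) y)) =
          (y⁻¹ * ((y ^ k)⁻¹ * (x⁻¹ * (ρ ^ k) x)) * y⁻¹⁻¹) * (y⁻¹ * (ρ ^ k) y) := by
        rw [pow_succ]; group
      rw [e3]
      exact N.mul_mem (hn y⁻¹ (P₀.inv_mem hyP) _ ih) (hk k).2
  have h5 := hm (orderOf ρ)
  rw [pow_orderOf_eq_one] at h5
  have h6 : y ^ orderOf ρ ∈ N := by
    have e : (y ^ orderOf ρ)⁻¹ * (x⁻¹ * (1 : MulAut A) x) = (y ^ orderOf ρ)⁻¹ := by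
      show (y ^ orderOf ρ)⁻¹ * (x⁻¹ * x) = _
      group
    rw [e] at h5
    simpa using N.inv_mem h5
  obtain ⟨k, hk⟩ := hA y
  have hc : (orderOf ρ).Coprime (orderOf y) :=
    Nat.Coprime.coprime_dvd_right (orderOf_dvd_of_pow_eq_one hk) (Nat.Coprime.pow_right k hρ)
  obtain ⟨m, hm⟩ := exists_pow_eq_self_of_coprime hc
  rw [← hm]
  exact N.pow_mem h6 m

theorem hyp_le_of_subsystem [Fact p.Prime] {T S : Subgroup Ω} {E : FusionSystem T} {F : FusionSystem S}
    (hEF : E.IsSubsystemOf F) (hTS : T ≤ S) : E.hyperfocalSubgroup p ≤ F.hyperfocalSubgroup p := by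
  unfold hyperfocalSubgroup
  rw [Subgroup.closure_le]
  rintro _ ⟨P, α, x, hP, hα, rfl⟩
  obtain ⟨β, hβ, hβe⟩ := residual_of_subsystem hEF hP hTS α hα
  refine Subgroup.subset_closure ⟨P, β, x, hP.trans hTS, hβ, ?_⟩
  have e : (β : MulAut P) = α.1 := hβe
  rw [e]

theorem hyp_eq_of_index [Fact p.Prime] {T S : Subgroup Ω} [Finite S] (hS : IsPGroup p S) {E : FusionSystem T}
    {F : FusionSystem S} (hE : E.IsSaturated p) (hT : F.StronglyClosed T) (hidx : E.HasPPowerIndexIn F p) :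
    E.hyperfocalSubgroup p = F.hyperfocalSubgroup p := by
  have hTS := hT.1
  haveI hfT : Finite T := finite_of_le hTS
  refine le_antisymm (hyp_le_of_subsystem hidx.1 hTS) ?_
  refine hyp_le_of_coprime _ fun P hP ρ hρ x => ?_
  haveI hfP : Finite P := finite_of_le hP
  have hWP : P ⊓ T ≤ P := inf_le_left
  have hinv : ∀ (σ : F.autGroup P) (w : ↥(P ⊓ T)), ((σ.1 (Subgroup.inclusion hWP w) : P) : Ω) ∈ P ⊓ T := by
    intro σ w
    refine ⟨(σ.1 _).2, ?_⟩
    have hm := restrict_mem F ((mem_autGroup_iff F hP).1 σ.2) hWP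
    exact hT.2 (P ⊓ T) inf_le_right _ hm w
  have hstr := hyp_stronglyClosed (hS.to_le hTS) hE
  have hnorm := StronglyClosed.le_normalizer hstr
  have key : ((x⁻¹ * ρ.1 x : P) : Ω) ∈ E.hyperfocalSubgroup p := by
    have := coprime_hyp_aux (A := P) (hS.to_le hP) ρ.1 (by rwa [Subgroup.orderOf_coe]) (T.subgroupOf P)
      ((E.hyperfocalSubgroup p).subgroupOf P) ?_ ?_ ?_ x
    · exact this
    · intro z hz n hn
      have hz' : (z : Ω) ∈ T := hz
      have hn' : (n : Ω) ∈ E.hyperfocalSubgroup p := hn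
      have h1 := (Subgroup.mem_normalizer_iff.1 (hnorm hz')) _ |>.1 hn'
      exact h1
    · intro y
      have h1 := mem_hyp_of_residual hP ρ (Subgroup.subset_closure hρ) y
      exact hidx.2.1 h1
    · intro z hz
      have hz' : (z : Ω) ∈ T := hz
      let r := resHom hP hWP hinv ρ
      have hord : (orderOf r).Coprime p :=
        Nat.Coprime.coprime_dvd_left (orderOf_map_dvd _ ρ) hρ
      have hr : r ∈ pResidual p (F.autGroup (P ⊓ T)) := Subgroup.subset_closure hord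
      have hrE : (r : MulAut _) ∈ E.autGroup (P ⊓ T) := hidx.2.2 _ inf_le_right ⟨r, hr, rfl⟩
      have hord2 : (orderOf (⟨r.1, hrE⟩ : E.autGroup (P ⊓ T))).Coprime p := by
        have e1 : orderOf (⟨r.1, hrE⟩ : E.autGroup (P ⊓ T)) = orderOf r.1 := Subgroup.orderOf_mk _ _
        have e2 : orderOf r.1 = orderOf r := Subgroup.orderOf_coe r
        rw [e1, e2]
        exact hord
      have h3 := mem_hyp_of_residual (inf_le_right : P ⊓ T ≤ T) (⟨r.1, hrE⟩ : E.autGroup (P ⊓ T))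
        (Subgroup.subset_closure hord2) ⟨(z : Ω), z.2, hz'⟩
      exact h3
  exact key

theorem residual_map_le [Fact p.Prime] {T S Q : Subgroup Ω} {E : FusionSystem T} {F : FusionSystem S}
    (h : (pResidual p (F.autGroup Q)).map (F.autGroup Q).subtype ≤ E.autGroup Q) :
    (pResidual p (F.autGroup Q)).map (F.autGroup Q).subtype ≤
      (pResidual p (E.autGroup Q)).map (E.autGroup Q).subtype := by
  rw [Subgroup.map_le_iff_le_comap]
  refine (Subgroup.closure_le _).2 ?_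
  intro σ hσ
  have hσ' : (orderOf σ).Coprime p := hσ
  have hm : σ.1 ∈ E.autGroup Q := h ⟨σ, Subgroup.subset_closure hσ', rfl⟩
  refine ⟨⟨σ.1, hm⟩, Subgroup.subset_closure ?_, rfl⟩
  have e1 : orderOf (⟨σ.1, hm⟩ : E.autGroup Q) = orderOf σ.1 := Subgroup.orderOf_mk _ _
  have e2 : orderOf σ.1 = orderOf σ := Subgroup.orderOf_coe σ
  show (orderOf (⟨σ.1, hm⟩ : E.autGroup Q)).Coprime p
  rw [e1, e2]
  exact hσ'

theorem residual_map_mono [Fact p.Prime] {T S Q : Subgroup Ω} {E : FusionSystem T} {F : FusionSystem S}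
    (hEF : E.IsSubsystemOf F) (hQ : Q ≤ T) (hTS : T ≤ S) :
    (pResidual p (E.autGroup Q)).map (E.autGroup Q).subtype ≤
      (pResidual p (F.autGroup Q)).map (F.autGroup Q).subtype := by
  rintro _ ⟨ρ, hρ, rfl⟩
  exact residual_of_subsystem hEF hQ hTS ρ hρ

theorem ext_hom {U : Subgroup Ω} {X Y : FusionSystem U} (h : ∀ P, X.Hom P = Y.Hom P) : X = Y := by
  cases X
  cases Y
  congr
  funext P
  exact h P

theorem pprime_unique {U : Subgroup Ω} {X X₁ X₂ : FusionSystem U} (h₁ : X.IsPPrimeResidual p X₁)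
    (h₂ : X.IsPPrimeResidual p X₂) : X₁ = X₂ :=
  ext_hom fun P => Set.Subset.antisymm (h₁.2.2 X₂ h₂.1 h₂.2.1 P) (h₂.2.2 X₁ h₁.1 h₁.2.1 P)

theorem exists_next {T S : Subgroup Ω} {A : FusionSystem T} {F : FusionSystem S} {p : ℕ}
    (h : IsResidualLimitOf A F p) :
    ∃ (W : Subgroup Ω) (X X' : FusionSystem W), W = F.hyperfocalSubgroup p ∧ X.IsSaturated p ∧
      X.HasPPowerIndexIn F p ∧ X.IsPPrimeResidual p X' ∧ IsResidualLimitOf A X' p := by
  induction h with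
  | stable F p h1 h2 =>
    exact ⟨_, F, F, h1.symm, h2.1, ⟨fun _ => Set.Subset.rfl, h1.le, fun P _ => Subgroup.map_subtype_le _⟩,
      h2, .stable F p h1 h2⟩
  | step F p D D' hD hD' hlim _ => exact ⟨_, D, D', rfl, hD.1, hD.2, hD', hlim⟩

theorem stable_step [Fact p.Prime] {S W : Subgroup Ω} [Finite S] (hS : IsPGroup p S) {F : FusionSystem S}
    (e : W = S) (hFF : F.IsPPrimeResidual p F) (D D' : FusionSystem W) (hD : D.HasPPowerIndexIn F p)
    (hD' : D.IsPPrimeResidual p D') :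
    (∀ P, D'.Hom P = F.Hom P) ∧ D'.hyperfocalSubgroup p = F.hyperfocalSubgroup p ∧ D'.IsPPrimeResidual p D' := by
  subst e
  have hDF : D = F := ext_hom fun P => Set.Subset.antisymm (hD.1 P)
    (subsystem_of_index hS hFF.1 (fun _ => Set.Subset.rfl) le_rfl D le_rfl hD.2.2 P)
  subst hDF
  have : D' = D := pprime_unique hD' hFF
  subst this
  exact ⟨fun _ => rfl, rfl, hFF⟩

theorem stable_lim {T S : Subgroup Ω} {A : FusionSystem T} {F : FusionSystem S} {p : ℕ}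
    (h : IsResidualLimitOf A F p) :
    ∀ [Fact p.Prime] [Finite S], IsPGroup p S → F.hyperfocalSubgroup p = S → F.IsPPrimeResidual p F →
      ∀ P, A.Hom P = F.Hom P := by
  induction h with
  | stable F p h1 h2 =>
    intro _ _ _ _ _ P
    rfl
  | step F p D D' hD hD' hlim ih =>
    intro _ _ hS e hFF P
    obtain ⟨h1, h2, h3⟩ := stable_step hS e hFF D D' hD.2 hD'
    haveI : Finite (F.hyperfocalSubgroup p) := finite_of_le (hyp_le F)
    rw [ih (hS.to_le (hyp_le F)) h2 h3 P, h1 P]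

theorem lim_unique {T S : Subgroup Ω} {A : FusionSystem T} {F : FusionSystem S} {p : ℕ}
    (h : IsResidualLimitOf A F p) :
    ∀ [Fact p.Prime] [Finite S], IsPGroup p S → ∀ {V : Subgroup Ω} {B : FusionSystem V},
      IsResidualLimitOf B F p → ∀ P, A.Hom P = B.Hom P := by
  induction h with
  | stable F p h1 h2 =>
    intro _ _ hS V B hB P
    exact (stable_lim hB hS h1 h2 P).symm
  | step F p D D' hD hD' hlim ih =>
    intro _ _ hS V B hB P
    obtain ⟨W, X, X', rfl, hX, hXi, hX', hXl⟩ := exists_next hB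
    haveI : Finite (F.hyperfocalSubgroup p) := finite_of_le (hyp_le F)
    have hHp : IsPGroup p (F.hyperfocalSubgroup p) := hS.to_le (hyp_le F)
    have hXD : X = D := ext_hom fun Q => Set.Subset.antisymm
      (subsystem_of_index hHp hX hXi.1 (hyp_le F) D le_rfl hD.2.2.2 Q)
      (subsystem_of_index hHp hD.1 hD.2.1 (hyp_le F) X le_rfl hXi.2.2 Q)
    subst hXD
    have : X' = D' := pprime_unique hX' hD'
    subst this
    exact ih hHp hXl P

/-- A normal subsystem of `p`-power index has the same residual limits. -/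
theorem lim_of_index [Fact p.Prime] {S T U V : Subgroup Ω} [Finite S] (hS : IsPGroup p S) {F : FusionSystem S}
    (hF : F.IsSaturated p) {E : FusionSystem T} (hE : E.IsSaturated p) (hT : F.StronglyClosed T)
    (hidx : E.HasPPowerIndexIn F p) (Finf : FusionSystem U) (hFinf : IsResidualLimitOf Finf F p)
    (Einf : FusionSystem V) (hEinf : IsResidualLimitOf Einf E p) : ∀ P, Finf.Hom P = Einf.Hom P := by
  have hTS := hT.1
  haveI hfT : Finite T := finite_of_le hTS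
  have hh := hyp_eq_of_index hS hE hT hidx
  obtain ⟨W₁, X₁, X₁', e₁, hX₁, hX₁i, hX₁', hX₁l⟩ := exists_next hFinf
  obtain ⟨W₂, X₂, X₂', e₂, hX₂, hX₂i, hX₂', hX₂l⟩ := exists_next hEinf
  have e : W₁ = W₂ := by rw [e₁, e₂, hh]
  subst e
  have hW₁S : W₁ ≤ S := e₁ ▸ hyp_le F
  have hW₁T : W₁ ≤ T := e₂ ▸ hyp_le E
  haveI : Finite W₁ := finite_of_le hW₁S
  have hWp : IsPGroup p W₁ := hS.to_le hW₁S
  have hXX : X₁ = X₂ := ext_hom fun Q => Set.Subset.antisymm
    (subsystem_of_index hWp hX₁ hX₁i.1 hW₁S X₂ le_rfl (fun R hR =>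
      (residual_map_le (hidx.2.2 R (hR.trans hW₁T))).trans (hX₂i.2.2 R hR)) Q)
    (subsystem_of_index hWp hX₂ hX₂i.1 hW₁T X₁ le_rfl (fun R hR =>
      (residual_map_mono hidx.1 (hR.trans hW₁T) hTS).trans (hX₁i.2.2 R hR)) Q)
  subst hXX
  have : X₁' = X₂' := pprime_unique hX₁' hX₂'
  subst this
  exact lim_unique hX₁l hWp hX₂l

end Cfsg.Agent.Lib.FusionResLim
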