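/-
Elements of order four in `SL₂(q)`, `q` odd, and involutions of `PSL₂(q)`.
-/
import Mathlib
import Cfsg.Agent.Lib.GL2Conj
import Cfsg.Agent.Lib.GL2Sylow
import Cfsg.Agent.Lib.H2Basic

set_option autoImplicit false
set_option linter.all false

open scoped MatrixGroups Matrix
open Finset
open Cfsg.Agent.Lib.MkSL Cfsg.Agent.Lib.GL2Conj

namespace Cfsg.Agent.Lib.PSL2Inv

variable {F : Type*} [Field F]

/-- The element `-1`. -/
def mO : SL(2, F) := mkSL (-1) 0 0 (-1) (by ring)

/-- The element `w`. -/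
def wS : SL(2, F) := cS 0

theorem mO_mul_mO : (mO : SL(2, F)) * mO = 1 := by
  apply ext2 <;> simp [mO, mul_ij]

theorem mO_central (g : SL(2, F)) : mO * g = g * mO := by
  apply ext2 <;> simp [mO, mul_ij]

theorem mO_ne_one (h2 : (2 : F) ≠ 0) : (mO : SL(2, F)) ≠ 1 := by
  intro h
  have h1 := congrArg (fun x : SL(2, F) => x 0 0) h
  simp [mO] at h1
  apply h2
  linear_combination -h1

theorem sq_eq_mO_iff (h2 : (2 : F) ≠ 0) (g : SL(2, F)) : g * g = mO ↔ g 0 0 + g 1 1 = 0 := by
  have hd := det2 g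
  constructor
  · intro h
    have h00 := congrArg (fun x : SL(2, F) => x 0 0) h
    have h01 := congrArg (fun x : SL(2, F) => x 0 1) h
    have h10 := congrArg (fun x : SL(2, F) => x 1 0) h
    have h11 := congrArg (fun x : SL(2, F) => x 1 1) h
    simp only [mul_ij, mO, mkSL_00, mkSL_01, mkSL_10, mkSL_11] at h00 h01 h10 h11
    by_contra ht
    have h3 : g 0 1 = 0 := by
      have : (g 0 0 + g 1 1) * g 0 1 = 0 := by linear_combination h01
      exact (mul_eq_zero.1 this).resolve_left ht
    have h4 : g 1 0 = 0 := by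
      have : (g 0 0 + g 1 1) * g 1 0 = 0 := by linear_combination h10
      exact (mul_eq_zero.1 this).resolve_left ht
    rw [h3, zero_mul, add_zero] at h00
    rw [h3, zero_mul, sub_zero] at hd
    apply ht
    have h5 : g 0 0 ≠ 0 := by
      intro h6
      rw [h6, zero_mul] at hd
      exact zero_ne_one hd
    have h6 : g 0 0 * (g 0 0 + g 1 1) = 0 := by
      linear_combination h00 + hd
    exact (mul_eq_zero.1 h6).resolve_left h5
  · intro ht
    have h1 : g 1 1 = - g 0 0 := by linear_combination ht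
    rw [h1] at hd
    apply ext2 <;> simp only [mul_ij, mO, mkSL_00, mkSL_01, mkSL_10, mkSL_11, h1]
    · linear_combination -hd
    · ring
    · ring
    · linear_combination -hd

theorem sq_eq_one (h2 : (2 : F) ≠ 0) {g : SL(2, F)} (h : g * g = 1) : g = 1 ∨ g = mO := by
  have hd := det2 g
  have h00 : (g * g) 0 0 = 1 := by rw [h]; simp
  have h01 : (g * g) 0 1 = 0 := by rw [h]; simp
  have h10 : (g * g) 1 0 = 0 := by rw [h]; simp
  have h11 : (g * g) 1 1 = 1 := by rw [h]; simp
  simp only [mul_ij] at h00 h01 h10 h11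
  have ht : g 0 0 + g 1 1 ≠ 0 := by
    intro ht
    have := (sq_eq_mO_iff h2 g).2 ht
    rw [h] at this
    exact mO_ne_one h2 this.symm
  have h3 : g 0 1 = 0 := by
    have : (g 0 0 + g 1 1) * g 0 1 = 0 := by linear_combination h01
    exact (mul_eq_zero.1 this).resolve_left ht
  have h4 : g 1 0 = 0 := by
    have : (g 0 0 + g 1 1) * g 1 0 = 0 := by linear_combination h10
    exact (mul_eq_zero.1 this).resolve_left ht
  rw [h3, zero_mul, add_zero] at h00
  rw [h3, zero_mul, sub_zero] at hd
  have h5 : g 0 0 = g 1 1 := by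
    have h6 : g 0 0 ≠ 0 := by
      intro h7
      rw [h7, zero_mul] at hd
      exact zero_ne_one hd
    apply mul_left_cancel₀ h6
    rw [hd]
    exact h00
  rcases (mul_self_eq_one_iff.1 h00) with h7 | h7
  · left
    apply ext2
    · simpa using h7
    · simpa using h3
    · simpa using h4
    · rw [← h5, h7]
      simp
  · right
    apply ext2
    · simpa [mO] using h7
    · simpa [mO] using h3
    · simpa [mO] using h4
    · rw [← h5, h7]
      simp [mO]

theorem wS_sq (h2 : (2 : F) ≠ 0) : (wS : SL(2, F)) * wS = mO := by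
  rw [sq_eq_mO_iff h2]
  simp [wS, cS]

theorem inv_eq_of_sq {a : SL(2, F)} (ha : a * a = mO) : a⁻¹ = mO * a := by
  rw [inv_eq_iff_mul_eq_one, ← mul_assoc, ← mO_central, mul_assoc, ha, mO_mul_mO]

section Finite

variable [Fintype F] (hodd : Odd (Fintype.card F))

include hodd in
theorem isConj_w {a : SL(2, F)} (ha : a * a = mO) : IsConj wS a := by
  have h2 := two_ne_zero_of_odd hodd
  have ht := (sq_eq_mO_iff h2 a).1 ha
  have hns : ¬ IsScalar a := by
    rintro ⟨h3, h4, h5⟩
    have hd := det2 a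
    rw [h3, zero_mul, sub_zero, h5] at hd
    have h6 : (2 : F) * a 1 1 = 0 := by
      rw [h5] at ht
      linear_combination ht
    have h7 := (mul_eq_zero.1 h6).resolve_left h2
    rw [h7, mul_zero] at hd
    exact zero_ne_one hd
  have := isConj_cS_of_surj a hns (fun δ => by
    rw [ht]
    exact norm_surj_odd hodd 0 δ (by
      intro h
      have h4 : (4 : F) = 2 * 2 := by norm_num
      rw [h4] at h
      have h5 : (2 : F) * 2 ≠ 0 := mul_ne_zero h2 h2
      apply h5
      rw [← h]
      simp))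
  rw [ht] at this
  exact this

include hodd in
theorem isConj_of_sq {a b : SL(2, F)} (ha : a * a = mO) (hb : b * b = mO) : IsConj a b :=
  (isConj_w hodd ha).symm.trans (isConj_w hodd hb)

theorem sq_of_isConj {a b : SL(2, F)} (ha : a * a = mO) (h : IsConj a b) : b * b = mO := by
  obtain ⟨c, rfl⟩ := isConj_iff.1 h
  calc c * a * c⁻¹ * (c * a * c⁻¹) = c * (a * a) * c⁻¹ := by group
    _ = mO := by rw [ha, ← mO_central]; simp

include hodd in
/-- The equation `x² = -1`. -/
theorem card_roots [DecidableEq F] {q : ℕ} (hF : Fintype.card F = q) :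
    (q % 4 = 1 → (univ.filter fun x : F => x * x = -1).card = 2) ∧
    (q % 4 = 3 → (univ.filter fun x : F => x * x = -1).card = 0) := by
  have hF2 : ringChar F ≠ 2 := by
    intro h
    have h1 := FiniteField.even_card_of_char_two h
    rw [hF] at h1
    have hodd' := hodd
    rw [hF] at hodd'
    rcases hodd' with ⟨k, hk⟩
    omega
  have h := quadraticChar_card_sqrts hF2 (-1 : F)
  have e : ({x : F | x ^ 2 = -1}.toFinset : Finset F) = univ.filter fun x : F => x * x = -1 := by
    ext x
    simp [sq]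
  rw [e] at h
  have h1 : (-1 : F) ≠ 0 := neg_ne_zero.2 one_ne_zero
  have h4 := FiniteField.isSquare_neg_one_iff (F := F)
  rw [hF] at h4
  constructor
  · intro hq
    have : quadraticChar F (-1) = 1 := by
      rw [quadraticChar_one_iff_isSquare h1, h4]
      omega
    rw [this] at h
    exact_mod_cast h
  · intro hq
    have : quadraticChar F (-1) = -1 := by
      rw [quadraticChar_neg_one_iff_not_isSquare, h4]
      omega
    rw [this] at h
    simpa using h

/-- Count of the triples. -/
theorem card_triples [DecidableEq F] :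
    (univ.filter fun t : F × F × F => t.1 * t.1 + t.2.1 * t.2.2 = -1).card =
      Fintype.card F * (Fintype.card F - 1) + Fintype.card F * (univ.filter fun x : F => x * x = -1).card := by
  rw [Finset.card_filter, Fintype.sum_prod_type]
  have key : ∀ x : F, (∑ y : F × F, if (x, y).1 * (x, y).1 + (x, y).2.1 * (x, y).2.2 = -1 then 1 else 0) =
      (Fintype.card F - 1) + Fintype.card F * (if x * x = -1 then 1 else 0) := by
    intro x
    rw [Fintype.sum_prod_type, ← Finset.add_sum_erase _ _ (mem_univ (0 : F))]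
    have h1 : (∑ z : F, if x * x + 0 * z = -1 then 1 else 0) = Fintype.card F * (if x * x = -1 then 1 else 0) := by
      simp only [zero_mul, add_zero]
      rw [Finset.sum_const, card_univ, smul_eq_mul]
    have h2 : ∀ y ∈ (univ : Finset F).erase 0, (∑ z : F, if x * x + y * z = -1 then 1 else 0) = 1 := by
      intro y hy
      have hy0 : y ≠ 0 := (mem_erase.1 hy).1
      rw [Finset.sum_eq_single ((-1 - x * x) / y)]
      · rw [if_pos]
        field_simp
        ring
      · intro z _ hz
        rw [if_neg]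
        intro h
        apply hz
        field_simp
        linear_combination h
      · simp
    simp only at h1 ⊢
    rw [h1, Finset.sum_congr rfl h2, Finset.sum_const, card_erase_of_mem (mem_univ _), card_univ, smul_eq_mul,
      mul_one, add_comm]
  simp only [key]
  rw [Finset.sum_add_distrib, Finset.sum_const, card_univ, smul_eq_mul, ← Finset.mul_sum, Finset.card_filter]

/-- The set of square roots of `-1` as triples. -/
def sqEquiv (h2 : (2 : F) ≠ 0) : {a : SL(2, F) // a * a = mO} ≃
    {t : F × F × F // t.1 * t.1 + t.2.1 * t.2.2 = -1} where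
  toFun a := ⟨(a.1 0 0, a.1 0 1, a.1 1 0), by
    have ht := (sq_eq_mO_iff h2 a.1).1 a.2
    have hd := det2 a.1
    have h1 : a.1 1 1 = - a.1 0 0 := by linear_combination ht
    rw [h1] at hd
    show a.1 0 0 * a.1 0 0 + a.1 0 1 * a.1 1 0 = -1
    linear_combination -hd⟩
  invFun t := ⟨mkSL t.1.1 t.1.2.1 t.1.2.2 (-t.1.1) (by
      have := t.2
      linear_combination -this), by
    rw [sq_eq_mO_iff h2]
    simp⟩
  left_inv a := by
    apply Subtype.ext
    have ht := (sq_eq_mO_iff h2 a.1).1 a.2
    have h1 : a.1 1 1 = - a.1 0 0 := by linear_combination ht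
    apply ext2 <;> simp [h1]
  right_inv t := by
    apply Subtype.ext
    rfl

include hodd in
theorem card_sq [DecidableEq F] :
    Nat.card {a : SL(2, F) // a * a = mO} = Fintype.card F * (Fintype.card F - 1) +
      Fintype.card F * (univ.filter fun x : F => x * x = -1).card := by
  rw [Nat.card_congr (sqEquiv (two_ne_zero_of_odd hodd)), Nat.card_eq_fintype_card, Fintype.card_subtype]
  exact card_triples

include hodd in
theorem card_sq_mul_centralizer {a : SL(2, F)} (ha : a * a = mO) :
    Nat.card {b : SL(2, F) // b * b = mO} * Nat.card (Subgroup.centralizer ({a} : Set (SL(2, F)))) =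
      Nat.card (SL(2, F)) := by
  rw [← card_class_mul_centralizer a]
  congr 1
  apply Nat.card_congr
  apply Equiv.subtypeEquivRight
  intro b
  rw [ConjClasses.mem_carrier_iff_mk_eq, ConjClasses.mk_eq_mk_iff_isConj]
  exact ⟨fun hb => (isConj_of_sq hodd hb ha), fun h => sq_of_isConj ha h.symm⟩

include hodd in
theorem card_sl [DecidableEq F] {q : ℕ} (hF : Fintype.card F = q) :
    Nat.card (SL(2, F)) = q * ((q - 1) * (q + 1)) := by
  obtain ⟨p, hp⟩ := CharP.exists F
  haveI : Fact p.Prime := ⟨CharP.char_is_prime F p⟩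
  rw [← hF]
  exact Cfsg.Agent.Lib.GL2Sylow.card_SL₂ (F := F)

include hodd in
theorem card_centralizer_one {q : ℕ} (hF : Fintype.card F = q) (hq : q % 4 = 1) {a : SL(2, F)} (ha : a * a = mO) :
    Nat.card (Subgroup.centralizer ({a} : Set (SL(2, F)))) = q - 1 := by
  classical
  have h1 := card_sq_mul_centralizer hodd ha
  rw [card_sq hodd, (card_roots hodd hF).1 hq, card_sl hodd hF, hF] at h1
  have hq1 : 1 ≤ q := by omega
  obtain ⟨t, rfl⟩ : ∃ t, q = t + 1 := ⟨q - 1, by omega⟩
  simp only [Nat.add_sub_cancel] at h1 ⊢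
  have h2 : (t + 1) * (t + 1 + 1) ≠ 0 := by positivity
  apply Nat.eq_of_mul_eq_mul_left (Nat.pos_of_ne_zero h2)
  calc _ = ((t + 1) * t + (t + 1) * 2) * Nat.card (Subgroup.centralizer ({a} : Set (SL(2, F)))) := by ring
    _ = _ := h1
    _ = _ := by ring

include hodd in
theorem card_centralizer_three {q : ℕ} (hF : Fintype.card F = q) (hq : q % 4 = 3) {a : SL(2, F)} (ha : a * a = mO) :
    Nat.card (Subgroup.centralizer ({a} : Set (SL(2, F)))) = q + 1 := by
  classical
  have h1 := card_sq_mul_centralizer hodd ha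
  rw [card_sq hodd, (card_roots hodd hF).2 hq, card_sl hodd hF, hF] at h1
  have hq1 : 1 ≤ q := by omega
  obtain ⟨t, rfl⟩ : ∃ t, q = t + 1 := ⟨q - 1, by omega⟩
  have ht : 0 < t := by omega
  simp only [Nat.add_sub_cancel] at h1 ⊢
  have h2 : (t + 1) * t ≠ 0 := by positivity
  apply Nat.eq_of_mul_eq_mul_left (Nat.pos_of_ne_zero h2)
  calc _ = ((t + 1) * t + (t + 1) * 0) * Nat.card (Subgroup.centralizer ({a} : Set (SL(2, F)))) := by ring
    _ = _ := h1
    _ = _ := by ring

include hodd in
theorem exists_gen (A : Subgroup (SL(2, F))) (hA : Nat.card A = 4) :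
    ∃ a : SL(2, F), a * a = mO ∧ A = Subgroup.zpowers a := by
  classical
  have h2 := two_ne_zero_of_odd hodd
  obtain ⟨a, haA, ha1, ham⟩ : ∃ a ∈ A, a ≠ 1 ∧ a ≠ mO := by
    by_contra hcon
    push Not at hcon
    have h1 := Cfsg.Agent.Lib.H2Basic.card_subgroup_le_of_subset A ({1, mO} : Finset (SL(2, F)))
      (fun g hg => by
        by_cases hg1 : g = 1
        · simp [hg1]
        · simp [hcon g hg hg1])
    have h3 := Finset.card_le_two (a := (1 : SL(2, F))) (b := mO)
    omega
  have h4 : a ^ 4 = 1 := by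
    have := pow_card_eq_one' (x := (⟨a, haA⟩ : A))
    rw [hA] at this
    exact congrArg Subtype.val this
  have h5 : (a * a) * (a * a) = 1 := by
    rw [← h4, show (4 : ℕ) = 2 + 2 from rfl, pow_add, sq]
  have h6 : a * a = mO := by
    rcases sq_eq_one h2 h5 with h | h
    · rcases sq_eq_one h2 h with h | h
      · exact absurd h ha1
      · exact absurd h ham
    · exact h
  refine ⟨a, h6, ?_⟩
  have h7 : orderOf a = 2 ^ (1 + 1) := by
    apply orderOf_eq_prime_pow
    · rw [pow_one, sq, h6]
      exact mO_ne_one h2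
    · simpa using h4
  symm
  apply Subgroup.eq_of_le_of_card_ge
  · rw [Subgroup.zpowers_le]
    exact haA
  · rw [Nat.card_zpowers, h7, hA]
    norm_num

theorem map_conj_zpowers (a g : SL(2, F)) :
    (Subgroup.zpowers a).map (MulAut.conj g).toMonoidHom = Subgroup.zpowers (g * a * g⁻¹) := by
  rw [MonoidHom.map_zpowers]
  rfl

include hodd in
theorem exists_conj_of_card (A B : Subgroup (SL(2, F))) (hA : Nat.card A = 4) (hB : Nat.card B = 4) :
    ∃ g : SL(2, F), B = A.map (MulAut.conj g).toMonoidHom := by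
  obtain ⟨a, ha, rfl⟩ := exists_gen hodd A hA
  obtain ⟨b, hb, rfl⟩ := exists_gen hodd B hB
  obtain ⟨g, rfl⟩ := isConj_iff.1 (isConj_of_sq hodd ha hb)
  exact ⟨g, (map_conj_zpowers a g).symm⟩

theorem mem_zpowers_cases {a x : SL(2, F)} (ha : a * a = mO) (hx : x ∈ Subgroup.zpowers a) :
    x = 1 ∨ x = a ∨ x = mO ∨ x = a⁻¹ := by
  obtain ⟨k, rfl⟩ := Subgroup.mem_zpowers_iff.1 hx
  have h4 : a ^ (4 : ℤ) = 1 := by
    have : a ^ (4 : ℤ) = (a * a) * (a * a) := by
      rw [show (4 : ℤ) = 2 + 2 from rfl, zpow_add, zpow_two]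
    rw [this, ha, mO_mul_mO]
  have h5 : k = 4 * (k / 4) + k % 4 := (Int.mul_ediv_add_emod k 4).symm
  have h6 : a ^ k = a ^ (k % 4) := by
    conv_lhs => rw [h5]
    rw [zpow_add, zpow_mul, h4, one_zpow, one_mul]
  rw [h6]
  have h7 : 0 ≤ k % 4 := Int.emod_nonneg _ (by norm_num)
  have h8 : k % 4 < 4 := Int.emod_lt_of_pos _ (by norm_num)
  have h9 : a ^ (3 : ℤ) = a⁻¹ := by
    rw [← mul_left_inj a]
    simp only [inv_mul_cancel]
    rw [← h4]
    group
  have h10 : a ^ (2 : ℤ) = mO := by
    rw [← ha, zpow_two]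
  interval_cases (k % 4)
  · left; simp
  · right; left; simp
  · right; right; left; exact h10
  · right; right; right; exact h9

include hodd in
theorem mem_normalizer_zpowers {a : SL(2, F)} (ha : a * a = mO) (g : SL(2, F)) :
    g ∈ Subgroup.normalizer ((Subgroup.zpowers a : Subgroup (SL(2, F))) : Set (SL(2, F))) ↔
      g * a * g⁻¹ = a ∨ g * a * g⁻¹ = a⁻¹ := by
  have h2 := two_ne_zero_of_odd hodd
  have hm := mO_ne_one h2 (F := F)
  constructor
  · intro hg
    have h1 := (Subgroup.mem_normalizer_iff.1 hg a).1 (Subgroup.mem_zpowers a)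
    have h3 : (g * a * g⁻¹) * (g * a * g⁻¹) = mO := sq_of_isConj ha (isConj_iff.2 ⟨g, rfl⟩)
    rcases mem_zpowers_cases ha h1 with h | h | h | h
    · rw [h, one_mul] at h3
      exact absurd h3.symm hm
    · exact Or.inl h
    · rw [h, mO_mul_mO] at h3
      exact absurd h3.symm hm
    · exact Or.inr h
  · intro h
    apply Cfsg.Agent.Lib.H2Basic.mem_normalizer_of_map_conj_eq
    rw [map_conj_zpowers]
    rcases h with h | h
    · rw [h]
    · rw [h, Subgroup.zpowers_inv]

/-- A general counting lemma for the normalizer of a cyclic subgroup `⟨a⟩` with `a` conjugate to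
its inverse. -/
theorem card_normalizer_aux {G : Type*} [Group G] [Finite G] (a t : G) (N : Subgroup G)
    (hN : ∀ g, g ∈ N ↔ g * a * g⁻¹ = a ∨ g * a * g⁻¹ = a⁻¹) (ht : t * a * t⁻¹ = a⁻¹) (hne : a ≠ a⁻¹) :
    Nat.card N = 2 * Nat.card (Subgroup.centralizer ({a} : Set G)) := by
  classical
  have hc : ∀ c : G, c ∈ Subgroup.centralizer ({a} : Set G) ↔ c * a * c⁻¹ = a := by
    intro c
    rw [Subgroup.mem_centralizer_singleton_iff, mul_inv_eq_iff_eq_mul]
  have key := Cfsg.Agent.Lib.SylowCount.card_eq_mul_of_fibers (fun g : N => decide (g.1 * a * g.1⁻¹ = a))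
    (Nat.card (Subgroup.centralizer ({a} : Set G))) (by
      intro b
      cases b
      · refine Nat.card_congr ⟨fun g => ⟨t⁻¹ * g.1.1, ?_⟩, fun c => ⟨⟨t * c.1, ?_⟩, ?_⟩, ?_, ?_⟩
        · rw [hc]
          have h1 : g.1.1 * a * g.1.1⁻¹ = a⁻¹ := by
            rcases (hN _).1 g.1.2 with h | h
            · have := g.2
              simp [h] at this
            · exact h
          calc t⁻¹ * g.1.1 * a * (t⁻¹ * g.1.1)⁻¹ = t⁻¹ * (g.1.1 * a * g.1.1⁻¹) * t := by group
            _ = t⁻¹ * (t * a * t⁻¹) * t := by rw [h1, ht]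
            _ = a := by group
        · have h1 := (hc c.1).1 c.2
          rw [hN]
          right
          calc t * c.1 * a * (t * c.1)⁻¹ = t * (c.1 * a * c.1⁻¹) * t⁻¹ := by group
            _ = a⁻¹ := by rw [h1, ht]
        · have h1 := (hc c.1).1 c.2
          have : t * c.1 * a * (t * c.1)⁻¹ = a⁻¹ := by
            calc t * c.1 * a * (t * c.1)⁻¹ = t * (c.1 * a * c.1⁻¹) * t⁻¹ := by group
              _ = a⁻¹ := by rw [h1, ht]
          simp only [this, decide_eq_false_iff_not]
          exact fun h => hne h.symm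
        · intro g
          apply Subtype.ext
          apply Subtype.ext
          simp
        · intro c
          apply Subtype.ext
          simp
      · refine Nat.card_congr ⟨fun g => ⟨g.1.1, ?_⟩, fun c => ⟨⟨c.1, ?_⟩, ?_⟩, ?_, ?_⟩
        · rw [hc]
          simpa using g.2
        · rw [hN]
          exact Or.inl ((hc c.1).1 c.2)
        · simpa using (hc c.1).1 c.2
        · intro g
          rfl
        · intro c
          rfl)
  rw [key, Nat.card_eq_fintype_card, Fintype.card_bool]

include hodd in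
theorem card_normalizer_zpowers {a : SL(2, F)} (ha : a * a = mO) :
    Nat.card (Subgroup.normalizer ((Subgroup.zpowers a : Subgroup (SL(2, F))) : Set (SL(2, F)))) =
      2 * Nat.card (Subgroup.centralizer ({a} : Set (SL(2, F)))) := by
  have h2 := two_ne_zero_of_odd hodd
  have hm := mO_ne_one h2 (F := F)
  have hinv : a⁻¹ * a⁻¹ = mO := by
    rw [← mul_inv_rev, ha]
    exact inv_eq_of_mul_eq_one_left mO_mul_mO
  obtain ⟨t, ht⟩ := isConj_iff.1 (isConj_of_sq hodd ha hinv)
  refine card_normalizer_aux a t _ (mem_normalizer_zpowers hodd ha) ht ?_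
  intro h
  apply hm
  rw [← ha]
  nth_rw 1 [h]
  simp

/-! ### The projective group. -/

theorem mem_center_iff' (h2 : (2 : F) ≠ 0) (g : SL(2, F)) : g ∈ Subgroup.center (SL(2, F)) ↔ g = 1 ∨ g = mO := by
  constructor
  · intro hg
    obtain ⟨r, hr, hrg⟩ := Matrix.SpecialLinearGroup.mem_center_iff.1 hg
    have h1 : r * r = 1 := by simpa [sq] using hr
    rcases mul_self_eq_one_iff.1 h1 with h | h
    · left
      subst h
      apply Subtype.ext
      rw [← hrg]
      simp
    · right
      subst h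
      apply ext2 <;> simp [← hrg, mO]
  · rintro (rfl | rfl)
    · exact Subgroup.one_mem _
    · rw [Subgroup.mem_center_iff]
      intro g
      exact (mO_central g).symm

/-- The quotient map. -/
abbrev mkP : SL(2, F) →* Matrix.ProjectiveSpecialLinearGroup (Fin 2) F := QuotientGroup.mk' _

theorem mkP_surjective : Function.Surjective (mkP : SL(2, F) →* _) := QuotientGroup.mk'_surjective _

theorem mkP_eq_one (h2 : (2 : F) ≠ 0) (g : SL(2, F)) : mkP g = 1 ↔ g = 1 ∨ g = mO := by
  rw [← mem_center_iff' h2, QuotientGroup.mk'_apply, QuotientGroup.eq_one_iff]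

theorem mkP_eq (h2 : (2 : F) ≠ 0) (g h : SL(2, F)) : mkP g = mkP h ↔ g = h ∨ g = mO * h := by
  have e : mkP g = mkP h ↔ mkP (g * h⁻¹) = 1 := by
    rw [map_mul, map_inv, mul_inv_eq_one]
  rw [e, mkP_eq_one h2, mul_inv_eq_one, mul_inv_eq_iff_eq_mul]

theorem exists_lift_of_order_two (h2 : (2 : F) ≠ 0) (x : Matrix.ProjectiveSpecialLinearGroup (Fin 2) F)
    (hx : orderOf x = 2) : ∃ g : SL(2, F), mkP g = x ∧ g * g = mO := by
  obtain ⟨g, rfl⟩ := mkP_surjective x
  refine ⟨g, rfl, ?_⟩
  have h1 : mkP g ^ 2 = 1 := by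
    have := pow_orderOf_eq_one (mkP g)
    rwa [hx] at this
  have h3 : mkP g ≠ 1 := by
    intro h
    rw [h, orderOf_one] at hx
    omega
  rw [sq, ← map_mul, mkP_eq_one h2] at h1
  rcases h1 with h | h
  · exfalso
    apply h3
    rw [mkP_eq_one h2]
    exact sq_eq_one h2 h
  · exact h

theorem orderOf_mkP (h2 : (2 : F) ≠ 0) {g : SL(2, F)} (hg : g * g = mO) : orderOf (mkP g) = 2 := by
  have h1 : mkP g ^ 2 = 1 := by
    rw [sq, ← map_mul, hg, mkP_eq_one h2]
    exact Or.inr rfl
  have h3 : mkP g ≠ 1 := by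
    rw [Ne, mkP_eq_one h2]
    rintro (rfl | rfl)
    · simp only [mul_one] at hg
      exact mO_ne_one h2 hg.symm
    · rw [mO_mul_mO] at hg
      exact mO_ne_one h2 hg.symm
  exact orderOf_eq_prime (p := 2) h1 h3

include hodd in
theorem isConj_of_order_two (x y : Matrix.ProjectiveSpecialLinearGroup (Fin 2) F)
    (hx : orderOf x = 2) (hy : orderOf y = 2) : IsConj x y := by
  have h2 := two_ne_zero_of_odd hodd
  obtain ⟨g, rfl, hg⟩ := exists_lift_of_order_two h2 x hx
  obtain ⟨h, rfl, hh⟩ := exists_lift_of_order_two h2 y hy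
  exact MonoidHom.map_isConj mkP (isConj_of_sq hodd hg hh)

end Finite

end Cfsg.Agent.Lib.PSL2Inv
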