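/-
Subfield subgroups of `PSL₂`.
-/
import Mathlib
import Cfsg.Agent.Lib.PSL2Inv
import Cfsg.Agent.Lib.SLn

set_option autoImplicit false
set_option linter.all false

open scoped MatrixGroups Matrix
open Finset Matrix
open Cfsg.Agent.Lib.MkSL Cfsg.Agent.Lib.GL2Conj

namespace Cfsg.Agent.Lib.SubfieldPSL

section General

variable {F K : Type*} [Field F] [Field K]

theorem map_mem_center (φ : K →+* F) (g : SL(2, K)) :
    SpecialLinearGroup.map φ g ∈ Subgroup.center (SL(2, F)) ↔ g ∈ Subgroup.center (SL(2, K)) := by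
  constructor
  · intro h
    obtain ⟨r, hr, hrg⟩ := Matrix.SpecialLinearGroup.mem_center_iff.1 h
    have h00 := congrFun (congrFun hrg 0) 0
    have h01 := congrFun (congrFun hrg 0) 1
    have h10 := congrFun (congrFun hrg 1) 0
    have h11 := congrFun (congrFun hrg 1) 1
    simp [Matrix.scalar_apply, Matrix.diagonal_apply] at h00 h01 h10 h11
    have h3 : g 0 1 = 0 := by
      have := h01.symm
      simpa using this
    have h4 : g 1 0 = 0 := by
      have := h10.symm
      simpa using this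
    have h5 : g 0 0 = g 1 1 := φ.injective (by rw [← h00, ← h11])
    rw [Matrix.SpecialLinearGroup.mem_center_iff]
    refine ⟨g 0 0, ?_, ?_⟩
    · have hd := det2 g
      rw [h3, zero_mul, sub_zero, ← h5] at hd
      rw [Fintype.card_fin, sq, hd]
    · ext i j
      fin_cases i <;> fin_cases j <;> simp [Matrix.scalar_apply, Matrix.diagonal_apply, h3, h4, h5]
  · intro h
    obtain ⟨r, hr, hrg⟩ := Matrix.SpecialLinearGroup.mem_center_iff.1 h
    rw [Matrix.SpecialLinearGroup.mem_center_iff]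
    refine ⟨φ r, by rw [← map_pow, hr, map_one], ?_⟩
    ext i j
    have := congrFun (congrFun hrg i) j
    simp only [Matrix.scalar_apply, Matrix.diagonal_apply] at this
    simp only [SpecialLinearGroup.map_apply_coe, RingHom.mapMatrix_apply, Matrix.map_apply, ← this,
      Matrix.scalar_apply, Matrix.diagonal_apply]
    split_ifs <;> simp

/-- The map on projective groups. -/
noncomputable def pslMap (φ : K →+* F) : PSL(2, K) →* PSL(2, F) :=
  QuotientGroup.lift (Subgroup.center (SL(2, K)))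
    ((QuotientGroup.mk' (Subgroup.center (SL(2, F)))).comp (SpecialLinearGroup.map φ)) (by
      intro g hg
      rw [MonoidHom.mem_ker, MonoidHom.comp_apply, QuotientGroup.mk'_apply, QuotientGroup.eq_one_iff]
      exact (map_mem_center φ g).2 hg)

theorem pslMap_mk (φ : K →+* F) (g : SL(2, K)) :
    pslMap φ (QuotientGroup.mk g) = QuotientGroup.mk (SpecialLinearGroup.map φ g) := rfl

theorem pslMap_injective (φ : K →+* F) : Function.Injective (pslMap φ) := by
  rw [injective_iff_map_eq_one]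
  intro x
  induction x using QuotientGroup.induction_on with
  | H g =>
    rw [pslMap_mk, QuotientGroup.eq_one_iff, map_mem_center, ← QuotientGroup.eq_one_iff]
    exact id

end General

section Exists

variable {F K : Type*} [Field F] [Fintype F] [Field K] [Fintype K]

theorem exists_ringHom {m : ℕ} (hm : 1 ≤ m) (hK : Fintype.card K ^ m = Fintype.card F) : Nonempty (K →+* F) := by
  obtain ⟨p, hp⟩ := CharP.exists K
  haveI hpp : Fact p.Prime := ⟨CharP.char_is_prime K p⟩
  obtain ⟨r, hr⟩ := CharP.exists F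
  haveI hrp : Fact r.Prime := ⟨CharP.char_is_prime F r⟩
  letI : Algebra (ZMod p) K := ZMod.algebra K p
  letI : Algebra (ZMod r) F := ZMod.algebra F r
  have h1 : p ^ Module.finrank (ZMod p) K = Fintype.card K := FiniteField.pow_finrank_eq_card p K
  have h2 : r ^ Module.finrank (ZMod r) F = Fintype.card F := FiniteField.pow_finrank_eq_card r F
  have hfr : Module.finrank (ZMod r) F ≠ 0 := by
    intro h
    rw [h, pow_zero] at h2
    have := Fintype.one_lt_card (α := F)
    omega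
  have hrp' : r = p := by
    have h3 : r ∣ p ^ (Module.finrank (ZMod p) K * m) := by
      rw [pow_mul, h1, hK, ← h2]
      exact dvd_pow_self _ hfr
    exact (Nat.prime_dvd_prime_iff_eq hrp.out hpp.out).1 (hrp.out.dvd_of_dvd_pow h3)
  subst hrp'
  have h4 : Module.finrank (ZMod r) F = Module.finrank (ZMod r) K * m := by
    apply Nat.pow_right_injective hpp.out.two_le
    show r ^ _ = r ^ _
    rw [h2, pow_mul, h1, hK]
  obtain ⟨f⟩ := FiniteField.nonempty_algHom_of_finrank_dvd (F := ZMod r) (K := K) (L := F) ⟨m, h4⟩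
  exact ⟨f.toRingHom⟩

end Exists

section PGL

variable {F K : Type*} [Field F] [Field K]

/-- The projective representative. -/
noncomputable def Em (φ : K →+* F) (s : Kˣ → F) (hs : ∀ d, s d * s d = φ d) (g : GL (Fin 2) K) : SL(2, F) :=
  mkSL ((s (Matrix.GeneralLinearGroup.det g))⁻¹ * φ (g 0 0)) ((s (Matrix.GeneralLinearGroup.det g))⁻¹ * φ (g 0 1))
    ((s (Matrix.GeneralLinearGroup.det g))⁻¹ * φ (g 1 0)) ((s (Matrix.GeneralLinearGroup.det g))⁻¹ * φ (g 1 1)) (by
      have h1 := hs (Matrix.GeneralLinearGroup.det g)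
      have h2 : s (Matrix.GeneralLinearGroup.det g) ≠ 0 := by
        intro h
        rw [h, zero_mul] at h1
        exact (map_ne_zero φ).2 (Units.ne_zero _) h1.symm
      have h3 : ((Matrix.GeneralLinearGroup.det g : Kˣ) : K) = g 0 0 * g 1 1 - g 0 1 * g 1 0 := by
        rw [Matrix.GeneralLinearGroup.val_det_apply, Matrix.det_fin_two]
      rw [h3] at h1
      simp only [map_sub, map_mul] at h1
      field_simp
      linear_combination -h1)

theorem Em_00 (φ : K →+* F) (s : Kˣ → F) (hs : ∀ d, s d * s d = φ d) (g : GL (Fin 2) K) :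
    Em φ s hs g 0 0 = (s (Matrix.GeneralLinearGroup.det g))⁻¹ * φ (g 0 0) := rfl
theorem Em_01 (φ : K →+* F) (s : Kˣ → F) (hs : ∀ d, s d * s d = φ d) (g : GL (Fin 2) K) :
    Em φ s hs g 0 1 = (s (Matrix.GeneralLinearGroup.det g))⁻¹ * φ (g 0 1) := rfl
theorem Em_10 (φ : K →+* F) (s : Kˣ → F) (hs : ∀ d, s d * s d = φ d) (g : GL (Fin 2) K) :
    Em φ s hs g 1 0 = (s (Matrix.GeneralLinearGroup.det g))⁻¹ * φ (g 1 0) := rfl
theorem Em_11 (φ : K →+* F) (s : Kˣ → F) (hs : ∀ d, s d * s d = φ d) (g : GL (Fin 2) K) :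
    Em φ s hs g 1 1 = (s (Matrix.GeneralLinearGroup.det g))⁻¹ * φ (g 1 1) := rfl

theorem s_ne (φ : K →+* F) (s : Kˣ → F) (hs : ∀ d, s d * s d = φ d) (d : Kˣ) : s d ≠ 0 := by
  intro h
  have h1 := hs d
  rw [h, zero_mul] at h1
  exact (map_ne_zero φ).2 (Units.ne_zero _) h1.symm

theorem gl_mul_ij (g h : GL (Fin 2) K) (i j : Fin 2) : (g * h) i j = g i 0 * h 0 j + g i 1 * h 1 j := by
  simp [Matrix.mul_apply, Fin.sum_univ_two]

theorem Em_mul (φ : K →+* F) (s : Kˣ → F) (hs : ∀ d, s d * s d = φ d) (g h : GL (Fin 2) K) :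
    Em φ s hs (g * h) = Em φ s hs g * Em φ s hs h ∨
    Em φ s hs (g * h) = Cfsg.Agent.Lib.PSL2Inv.mO * (Em φ s hs g * Em φ s hs h) := by
  set dg := Matrix.GeneralLinearGroup.det g with hdg
  set dh := Matrix.GeneralLinearGroup.det h with hdh
  have hd : Matrix.GeneralLinearGroup.det (g * h) = dg * dh := map_mul _ _ _
  have h1 := hs dg
  have h2 := hs dh
  have h3 := hs (dg * dh)
  have n1 := s_ne φ s hs dg
  have n2 := s_ne φ s hs dh
  have n3 := s_ne φ s hs (dg * dh)
  have h4 : (s (dg * dh)) * s (dg * dh) = (s dg * s dh) * (s dg * s dh) := by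
    rw [h3, Units.val_mul, map_mul, ← h1, ← h2]
    ring
  rcases mul_self_eq_mul_self_iff.1 h4 with h5 | h5
  · left
    apply ext2 <;> simp only [mul_ij, Em_00, Em_01, Em_10, Em_11, hd, h5, gl_mul_ij, map_add, map_mul] <;>
      simp only [← hdg, ← hdh] <;> field_simp
  · right
    apply ext2 <;> simp only [mul_ij, Em_00, Em_01, Em_10, Em_11, hd, h5, gl_mul_ij, map_add, map_mul,
      Cfsg.Agent.Lib.PSL2Inv.mO, mkSL_00, mkSL_01, mkSL_10, mkSL_11] <;>
      simp only [← hdg, ← hdh] <;> field_simp <;> ring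

/-- The homomorphism from `GL₂(K)`. -/
noncomputable def psi [Fintype F] (h2 : (2 : F) ≠ 0) (φ : K →+* F) (s : Kˣ → F) (hs : ∀ d, s d * s d = φ d) :
    GL (Fin 2) K →* PSL(2, F) :=
  MonoidHom.mk' (fun g => QuotientGroup.mk (Em φ s hs g)) (by
    intro g h
    have : (QuotientGroup.mk (Em φ s hs (g * h)) : PSL(2, F)) =
        Cfsg.Agent.Lib.PSL2Inv.mkP (Em φ s hs (g * h)) := rfl
    rw [this]
    have e2 : (QuotientGroup.mk (Em φ s hs g) : PSL(2, F)) * QuotientGroup.mk (Em φ s hs h) =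
        Cfsg.Agent.Lib.PSL2Inv.mkP (Em φ s hs g * Em φ s hs h) := rfl
    rw [e2, Cfsg.Agent.Lib.PSL2Inv.mkP_eq h2]
    exact Em_mul φ s hs g h)

theorem psi_apply [Fintype F] (h2 : (2 : F) ≠ 0) (φ : K →+* F) (s : Kˣ → F) (hs : ∀ d, s d * s d = φ d)
    (g : GL (Fin 2) K) : psi h2 φ s hs g = Cfsg.Agent.Lib.PSL2Inv.mkP (Em φ s hs g) := rfl

theorem psi_eq_one [Fintype F] (h2 : (2 : F) ≠ 0) (φ : K →+* F) (s : Kˣ → F) (hs : ∀ d, s d * s d = φ d)
    (g : GL (Fin 2) K) : psi h2 φ s hs g = 1 ↔ g ∈ Subgroup.center (GL (Fin 2) K) := by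
  rw [psi_apply, Cfsg.Agent.Lib.PSL2Inv.mkP_eq_one h2]
  have hn := s_ne φ s hs (Matrix.GeneralLinearGroup.det g)
  have hinv := inv_ne_zero hn
  constructor
  · intro h
    have h3 : Em φ s hs g 0 1 = 0 ∧ Em φ s hs g 1 0 = 0 ∧ Em φ s hs g 0 0 = Em φ s hs g 1 1 := by
      rcases h with h | h <;> rw [h] <;> simp [Cfsg.Agent.Lib.PSL2Inv.mO]
    obtain ⟨h4, h5, h6⟩ := h3
    rw [Em_01] at h4
    rw [Em_10] at h5
    rw [Em_00, Em_11] at h6
    have h7 : g 0 1 = 0 := by
      have := (mul_eq_zero.1 h4).resolve_left hinv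
      simpa using this
    have h8 : g 1 0 = 0 := by
      have := (mul_eq_zero.1 h5).resolve_left hinv
      simpa using this
    have h9 : g 0 0 = g 1 1 := φ.injective (mul_left_cancel₀ hinv h6)
    have h10 : g 0 0 ≠ 0 := by
      intro h0
      have := (Matrix.GeneralLinearGroup.det g).ne_zero
      rw [Matrix.GeneralLinearGroup.val_det_apply, Matrix.det_fin_two, h7, ← h9, h0] at this
      simp at this
    rw [Matrix.GeneralLinearGroup.center_eq_range_scalar]
    refine ⟨Units.mk0 _ h10, ?_⟩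
    ext i j
    fin_cases i <;> fin_cases j <;> simp [h7, h8, h9, Matrix.GeneralLinearGroup.coe_scalar]
  · intro h
    rw [Matrix.GeneralLinearGroup.center_eq_range_scalar] at h
    obtain ⟨u, hu⟩ := h
    have h7 : g 0 1 = 0 := by
      rw [← hu]
      simp [Matrix.GeneralLinearGroup.coe_scalar]
    have h8 : g 1 0 = 0 := by
      rw [← hu]
      simp [Matrix.GeneralLinearGroup.coe_scalar]
    have h9 : g 0 0 = g 1 1 := by
      rw [← hu]
      simp [Matrix.GeneralLinearGroup.coe_scalar]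
    have hd := det2 (Em φ s hs g)
    rw [Em_00, Em_01, Em_10, Em_11, h7, h8, ← h9] at hd
    simp only [map_zero, mul_zero, sub_zero] at hd
    rcases mul_self_eq_one_iff.1 hd with h1 | h1
    · left
      apply ext2 <;> simp [Em_00, Em_01, Em_10, Em_11, h7, h8, ← h9, h1]
    · right
      apply ext2 <;> simp [Em_00, Em_01, Em_10, Em_11, h7, h8, ← h9, h1, Cfsg.Agent.Lib.PSL2Inv.mO]

/-- The injective map from `PGL₂(K)`. -/
noncomputable def pglMap [Fintype F] (h2 : (2 : F) ≠ 0) (φ : K →+* F) (s : Kˣ → F) (hs : ∀ d, s d * s d = φ d) :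
    Matrix.ProjGenLinGroup (Fin 2) K →* PSL(2, F) :=
  QuotientGroup.lift (Subgroup.center (GL (Fin 2) K)) (psi h2 φ s hs) (by
    intro g hg
    rw [MonoidHom.mem_ker]
    exact (psi_eq_one h2 φ s hs g).2 hg)

theorem pglMap_injective [Fintype F] (h2 : (2 : F) ≠ 0) (φ : K →+* F) (s : Kˣ → F) (hs : ∀ d, s d * s d = φ d) :
    Function.Injective (pglMap h2 φ s hs) := by
  rw [injective_iff_map_eq_one]
  intro x
  induction x using Matrix.ProjGenLinGroup.induction_on with
  | mk g =>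
    intro h
    rw [Matrix.ProjGenLinGroup.mk_eq_one]
    exact (psi_eq_one h2 φ s hs g).1 h

end PGL

section Main

variable {F K : Type*} [Field F] [Fintype F] [Field K] [Fintype K]

theorem exists_odd_sum (x : ℕ) (hx : x % 2 = 1) (m : ℕ) : ∃ S : ℕ, S % 2 = m % 2 ∧ x ^ m = S * (x - 1) + 1 := by
  induction m with
  | zero => exact ⟨0, rfl, by simp⟩
  | succ m ih =>
    obtain ⟨S, h1, h2⟩ := ih
    refine ⟨x * S + 1, ?_, ?_⟩
    · have : (x * S + 1) % 2 = ((x % 2) * (S % 2) + 1) % 2 := by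
        simp [Nat.add_mod, Nat.mul_mod]
      rw [this, hx, h1]
      omega
    · obtain ⟨t, rfl⟩ : ∃ t, x = t + 1 := ⟨x - 1, by omega⟩
      rw [pow_succ, h2]
      simp only [Nat.add_sub_cancel]
      ring

theorem no_embed_odd {k q m c : ℕ} (hk : k % 2 = 1) (hk3 : 3 ≤ k) (hq : k ^ m = q) (hm : m % 2 = 1)
    (h : k * ((k - 1) * (k + 1)) * c * 2 = q * ((q - 1) * (q + 1))) : False := by
  obtain ⟨S, h1, h2⟩ := exists_odd_sum (k ^ 2) (by rw [sq, Nat.mul_mod, hk]) m
  have hq2 : q ^ 2 = S * (k ^ 2 - 1) + 1 := by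
    rw [← hq, ← pow_mul, mul_comm, pow_mul]
    exact h2
  obtain ⟨t, rfl⟩ : ∃ t, k = t + 1 := ⟨k - 1, by omega⟩
  have hq1 : 1 ≤ q := by
    rw [← hq]
    exact Nat.one_le_pow _ _ (by omega)
  obtain ⟨r, rfl⟩ : ∃ r, q = r + 1 := ⟨q - 1, by omega⟩
  simp only [Nat.add_sub_cancel] at h hq2 ⊢
  have e1 : (t + 1) ^ 2 - 1 = t * (t + 1 + 1) := by
    have : (t + 1) ^ 2 = t * (t + 1 + 1) + 1 := by ring
    rw [this]
    simp
  rw [e1] at hq2
  have e2 : r * (r + 1 + 1) = S * (t * (t + 1 + 1)) := by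
    have : (r + 1) ^ 2 = r * (r + 1 + 1) + 1 := by ring
    rw [this] at hq2
    omega
  have ht : 0 < t * (t + 1 + 1) := by
    have : 0 < t := by omega
    positivity
  have e3 : (t + 1) * c * 2 = (r + 1) * S := by
    apply Nat.eq_of_mul_eq_mul_right ht
    calc (t + 1) * c * 2 * (t * (t + 1 + 1)) = (t + 1) * (t * (t + 1 + 1)) * c * 2 := by ring
      _ = (r + 1) * (r * (r + 1 + 1)) := h
      _ = (r + 1) * S * (t * (t + 1 + 1)) := by rw [e2]; ring
  have hqodd : (r + 1) % 2 = 1 := by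
    rw [← hq, Nat.pow_mod, hk]
    simp
  have : ((r + 1) * S) % 2 = 1 := by
    rw [Nat.mul_mod, hqodd, h1, hm]
  rw [← e3] at this
  omega

theorem exists_squares {m : ℕ} (φ : K →+* F) (hm : Even m) (hq : Fintype.card K ^ m = Fintype.card F)
    (hodd : Odd (Fintype.card F)) (d : Kˣ) : IsSquare (φ d) := by
  have hF2 : ringChar F ≠ 2 := by
    intro h
    have h1 := FiniteField.even_card_of_char_two h
    rcases hodd with ⟨j, hj⟩
    omega
  have hk : Fintype.card K % 2 = 1 := by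
    by_contra hk
    have h3 : m ≠ 0 := by
      rintro rfl
      have := Fintype.one_lt_card (α := F)
      simp only [pow_zero] at hq
      omega
    have h4 : 2 ∣ Fintype.card K := by omega
    have h5 : 2 ∣ Fintype.card F := by
      rw [← hq]
      exact dvd_pow h4 h3
    rcases hodd with ⟨j, hj⟩
    omega
  rw [FiniteField.isSquare_iff hF2 ((map_ne_zero φ).2 (Units.ne_zero _))]
  obtain ⟨j, rfl⟩ := hm
  obtain ⟨S, h1, h2⟩ := exists_odd_sum (Fintype.card K ^ 2) (by rw [sq, Nat.mul_mod, hk]) j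
  have hk1 : 1 ≤ Fintype.card K := by omega
  obtain ⟨t, ht⟩ : ∃ t, Fintype.card K = 2 * t + 1 := ⟨Fintype.card K / 2, by omega⟩
  have h3 : Fintype.card F / 2 = 2 * t * (t + 1) * S := by
    have e : Fintype.card F = (Fintype.card K ^ 2) ^ j := by
      rw [← hq, ← pow_mul]
      congr 1
      ring
    rw [e, h2, ht]
    have : (2 * t + 1) ^ 2 - 1 = 2 * (2 * t * (t + 1)) := by
      have : (2 * t + 1) ^ 2 = 2 * (2 * t * (t + 1)) + 1 := by ring
      rw [this]
      simp
    rw [this]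
    have : S * (2 * (2 * t * (t + 1))) + 1 = 2 * (2 * t * (t + 1) * S) + 1 := by ring
    rw [this]
    omega
  rw [h3, ← map_pow]
  have h4 : ((d : K)) ^ (2 * t) = 1 := by
    have := FiniteField.pow_card_sub_one_eq_one (d : K) (Units.ne_zero _)
    rwa [ht, Nat.add_sub_cancel] at this
  rw [mul_assoc, pow_mul, h4]
  simp

end Main

end Cfsg.Agent.Lib.SubfieldPSL
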