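/-
Polyhedral subgroups of `PSL₂(q)`.
-/
import Mathlib
import Cfsg.Agent.Lib.QuatTables
import Cfsg.Agent.Lib.SubfieldPSL
import Cfsg.Agent.Lib.F4Model
import Cfsg.Agent.Lib.SLn
import Cfsg.Agent.S0252

set_option autoImplicit false
set_option linter.all false
set_option maxRecDepth 100000

open scoped MatrixGroups Matrix
open Cfsg.Agent.Lib.MkSL Cfsg.Agent.Lib.GL2Conj Cfsg.Agent.Lib.PSL2Inv Cfsg.Agent.Lib.QuatFrame
  Cfsg.Agent.Lib.QuatTables Cfsg.Agent.Lib.SubfieldPSL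

namespace Cfsg.Agent.Lib.PSL2Sub

variable {F : Type*} [Field F] [Fintype F]

theorem card_psl_mul : Nat.gcd 2 (Fintype.card F - 1) * Nat.card (PSL(2, F)) =
    Fintype.card F * ((Fintype.card F - 1) * (Fintype.card F + 1)) := by
  have c4 := Cfsg.Agent.Lib.GL2Sylow.card_SL₂ (F := F)
  have c5 := Cfsg.Agent.Lib.SLn.card_SL_eq_center_mul (ι := Fin 2) (F := F)
  rw [Fintype.card_fin] at c5
  rw [← c5, c4]

theorem two_mul_card_psl (hodd : Odd (Fintype.card F)) :
    2 * Nat.card (PSL(2, F)) = Fintype.card F * ((Fintype.card F - 1) * (Fintype.card F + 1)) := by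
  have h6 : Nat.gcd 2 (Fintype.card F - 1) = 2 := by
    apply Nat.gcd_eq_left
    rcases hodd with ⟨k, hk⟩
    rw [hk]
    simp
  rw [← card_psl_mul, h6]

theorem dvd_card_psl {G : Type*} [Group G] (H : Subgroup (PSL(2, F))) (e : H ≃* G) :
    Nat.card G ∣ Nat.card (PSL(2, F)) := by
  rw [← Nat.card_congr e.toEquiv]
  exact Subgroup.card_subgroup_dvd_card H

theorem ringChar_ne_two_of_odd (hodd : Odd (Fintype.card F)) : ringChar F ≠ 2 := by
  intro h
  have h1 := FiniteField.even_card_of_char_two h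
  rcases hodd with ⟨j, hj⟩
  omega

theorem key5 : ∀ x y : ZMod 5, (y = 1 ∨ y = -1) → (x = 0 ∨ x = 1 ∨ x = 4) → ∃ r : ZMod 5, y * x = r * r := by decide

theorem isSquare_five (hodd : Odd (Fintype.card F)) (h5 : Fintype.card F % 5 = 0 ∨ Fintype.card F % 5 = 1 ∨ Fintype.card F % 5 = 4) :
    ∃ s : F, s * s = ((5 : ℤ) : F) := by
  haveI : Fact (Nat.Prime 5) := ⟨by norm_num⟩
  have h := (FiniteField.isSquare_odd_prime_iff (ringChar_ne_two_of_odd hodd) (p := 5) (by norm_num)).2 (by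
    rw [Ne, quadraticChar_neg_one_iff_not_isSquare, not_not]
    refine key5 _ _ ?_ ?_
    · have h1 : Fintype.card F % 2 = 1 := Nat.odd_iff.1 hodd
      have h4 : Fintype.card F % 4 = 1 ∨ Fintype.card F % 4 = 3 := by omega
      rcases h4 with h4 | h4
      · left
        rw [ZMod.χ₄_nat_one_mod_four h4]
        simp
      · right
        rw [ZMod.χ₄_nat_three_mod_four h4]
        simp
    · have e : ((Fintype.card F : ℕ) : ZMod 5) = ((Fintype.card F % 5 : ℕ) : ZMod 5) := by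
        rw [ZMod.natCast_mod]
      rw [e]
      rcases h5 with h | h | h <;> rw [h]
      · left
        rfl
      · right; left
        rfl
      · right; right
        rfl)
  obtain ⟨s, hs⟩ := h
  exact ⟨s, by rw [← hs]; norm_cast⟩

theorem isSquare_two' (h : Fintype.card F % 8 ≠ 3 ∧ Fintype.card F % 8 ≠ 5) : ∃ s : F, s * s = ((2 : ℤ) : F) := by
  obtain ⟨s, hs⟩ := FiniteField.isSquare_two_iff.2 h
  exact ⟨s, by rw [← hs]; norm_cast⟩

theorem exists_a4_odd (hodd : Odd (Fintype.card F)) :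
    ∃ H : Subgroup (PSL(2, F)), Nonempty (H ≃* alternatingGroup (Fin 4)) := by
  have h2 := two_ne_zero_of_odd hodd
  exact exists_embedding hodd (0 : F) 0 2 (by simp) (by simpa using h2) L_a4 a4_norm a4_mul a4_ne

theorem exists_s4_odd (hodd : Odd (Fintype.card F)) (h : Fintype.card F % 8 ≠ 3 ∧ Fintype.card F % 8 ≠ 5) :
    ∃ H : Subgroup (PSL(2, F)), Nonempty (H ≃* Equiv.Perm (Fin 4)) := by
  have h2 := two_ne_zero_of_odd hodd
  obtain ⟨s, hs⟩ := isSquare_two' h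
  exact exists_embedding hodd s 2 2 hs (by simpa using h2) L_s4 s4_norm s4_mul s4_ne

theorem exists_a5_odd (hodd : Odd (Fintype.card F))
    (h5 : Fintype.card F % 5 = 0 ∨ Fintype.card F % 5 = 1 ∨ Fintype.card F % 5 = 4) :
    ∃ H : Subgroup (PSL(2, F)), Nonempty (H ≃* alternatingGroup (Fin 5)) := by
  have h2 := two_ne_zero_of_odd hodd
  have h4 : (((4 : ℤ) : F)) ≠ 0 := by
    have : ((4 : ℤ) : F) = 2 * 2 := by norm_num
    rw [this]
    exact mul_ne_zero h2 h2
  obtain ⟨s, hs⟩ := isSquare_five hodd h5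
  exact exists_embedding hodd s 5 4 hs h4 L_a5 a5_norm a5_mul a5_ne

/-- Even characteristic: the field with four elements. -/
theorem exists_a5_even {n : ℕ} (hF : Fintype.card F = 2 ^ n) (hn : Even n) (hn0 : n ≠ 0) :
    ∃ H : Subgroup (PSL(2, F)), Nonempty (H ≃* alternatingGroup (Fin 5)) := by
  obtain ⟨j, rfl⟩ := hn
  have hK : Fintype.card Cfsg.Agent.Lib.F4Model.K4 ^ j = Fintype.card F := by
    rw [Cfsg.Agent.Lib.F4Model.K4.card_eq, hF, ← two_mul, pow_mul]
    norm_num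
  obtain ⟨φ⟩ := exists_ringHom (by omega : 1 ≤ j) hK
  obtain ⟨e⟩ := Cfsg.Agent.S0252.result (F := Cfsg.Agent.Lib.F4Model.K4) Cfsg.Agent.Lib.F4Model.K4.card_eq
  exact ⟨(pslMap φ).range, ⟨(MonoidHom.ofInjective (pslMap_injective φ)).symm.trans e⟩⟩

/-- The embedding of `A₄` in `A₅`. -/
theorem exists_a4_le_a5 : ∃ f : alternatingGroup (Fin 4) →* alternatingGroup (Fin 5), Function.Injective f := by
  classical
  let p : Fin 5 → Prop := fun x => x ≠ 4
  have hc : Fintype.card (Fin 4) = Fintype.card {x : Fin 5 // p x} := by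
    decide
  let e : Fin 4 ≃ {x : Fin 5 // p x} := Fintype.equivOfCardEq hc
  let f : Equiv.Perm (Fin 4) →* Equiv.Perm (Fin 5) := Equiv.Perm.extendDomainHom e
  have hf : Function.Injective f := Equiv.Perm.extendDomainHom_injective e
  have hs : ∀ g, Equiv.Perm.sign (f g) = Equiv.Perm.sign g := fun g => Equiv.Perm.sign_extendDomain g e
  refine ⟨(f.comp (alternatingGroup (Fin 4)).subtype).codRestrict (alternatingGroup (Fin 5)) ?_, ?_⟩
  · intro g
    rw [Equiv.Perm.mem_alternatingGroup]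
    show Equiv.Perm.sign (f g.1) = 1
    rw [hs]
    exact g.2
  · intro g h hgh
    have := congrArg Subtype.val hgh
    exact Subtype.ext (hf this)

section Two

omit [Fintype F] in
theorem center_trivial [CharP F 2] (g : SL(2, F)) (h : g ∈ Subgroup.center (SL(2, F))) : g = 1 := by
  obtain ⟨r, hr, hrg⟩ := Matrix.SpecialLinearGroup.mem_center_iff.1 h
  have h1 : r = 1 := by
    have h2 : (r - 1) * (r - 1) = 0 := by
      have h3 : (2 : F) = 0 := CharTwo.two_eq_zero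
      rw [Fintype.card_fin] at hr
      linear_combination hr - r * h3 + h3
    exact sub_eq_zero.1 (mul_self_eq_zero.1 h2)
  subst h1
  apply Subtype.ext
  rw [← hrg]
  simp

omit [Fintype F] in
theorem mk_injective [CharP F 2] : Function.Injective (mkP : SL(2, F) →* PSL(2, F)) := by
  rw [injective_iff_map_eq_one]
  intro g hg
  apply center_trivial
  rwa [QuotientGroup.mk'_apply, QuotientGroup.eq_one_iff] at hg

theorem sq_eq_one_of_pow_four [CharP F 2] {g : SL(2, F)} (h : g ^ 4 = 1) : g * g = 1 := by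
  have h2 : (2 : F) = 0 := CharTwo.two_eq_zero
  have hd := det2 g
  have hu := unip_of_pow (p := 2) ((g * g : SL(2, F)) : Matrix (Fin 2) (Fin 2) F) (by
    rw [← Matrix.SpecialLinearGroup.coe_pow, ← sq, ← pow_mul]
    show ((g ^ 4 : SL(2, F)) : Matrix (Fin 2) (Fin 2) F) = 1
    rw [h]
    rfl)
  have h1 := hu.1
  have h3 : (g 0 0 + g 1 1) * (g 0 0 + g 1 1) = 0 := by
    have e0 : ((g * g : SL(2, F)) : Matrix (Fin 2) (Fin 2) F) 0 0 = g 0 0 * g 0 0 + g 0 1 * g 1 0 := mul_ij g g 0 0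
    have e1 : ((g * g : SL(2, F)) : Matrix (Fin 2) (Fin 2) F) 1 1 = g 1 0 * g 0 1 + g 1 1 * g 1 1 := mul_ij g g 1 1
    rw [e0, e1] at h1
    linear_combination h1 + 2 * hd + 2 * h2
  have h4 : g 0 0 + g 1 1 = 0 := mul_self_eq_zero.1 h3
  have h5 : g 1 1 = g 0 0 := by
    have := (CharTwo.add_eq_zero (R := F)).1 h4
    exact this.symm
  rw [h5] at hd
  apply ext2 <;> simp only [mul_ij]
  · show _ = (1 : F)
    linear_combination hd + g 0 1 * g 1 0 * h2
  · show _ = (0 : F)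
    linear_combination g 0 1 * h4
  · show _ = (0 : F)
    linear_combination g 1 0 * h4
  · show _ = (1 : F)
    rw [h5]
    linear_combination hd + g 0 1 * g 1 0 * h2

theorem no_order_four [CharP F 2] (x : PSL(2, F)) : orderOf x ≠ 4 := by
  intro h
  obtain ⟨g, rfl⟩ := mkP_surjective x
  have h1 : mkP g ^ 4 = 1 := by
    have := pow_orderOf_eq_one (mkP g)
    rwa [h] at this
  rw [← map_pow] at h1
  have h2 : g ^ 4 = 1 := mk_injective (by rw [h1, map_one])
  have h3 := sq_eq_one_of_pow_four h2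
  have h4 : mkP g ^ 2 = 1 := by
    rw [sq, ← map_mul, h3, map_one]
  have := orderOf_dvd_of_pow_eq_one h4
  rw [h] at this
  omega

theorem no_config_aux [CharP F 2] {T V₂ : SL(2, F)} {β : F} (hβ : β ≠ 0) (hV₂ : V₂ ≠ 1)
    (hcomm : V₂ * tS 1 β (mul_one 1) = tS 1 β (mul_one 1) * V₂)
    (hT : T * tS 1 β (mul_one 1) = V₂ * T) (hT3 : T * T * T = 1) (hT1 : T ≠ 1)
    (hq : Nat.Coprime 3 (Fintype.card F - 1)) : False := by
  have h2 : (2 : F) = 0 := CharTwo.two_eq_zero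
  have hc := (mem_centralizer_tS (mul_one (1 : F)) hβ V₂).1 (Subgroup.mem_centralizer_singleton_iff.2 hcomm)
  obtain ⟨h10, h3⟩ := hc
  have hd := det2 V₂
  rw [h10, mul_zero, sub_zero, ← h3] at hd
  have h4 : V₂ 0 0 = 1 := by
    have h5 : (V₂ 0 0 - 1) * (V₂ 0 0 - 1) = 0 := by
      linear_combination hd - (V₂ 0 0) * h2 + h2
    exact sub_eq_zero.1 (mul_self_eq_zero.1 h5)
  have h5 : V₂ 1 1 = 1 := by rw [← h3, h4]
  have h6 : V₂ 0 1 ≠ 0 := by
    intro h
    apply hV₂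
    apply ext2 <;> simp [h, h10, h4, h5]
  have e00 := congrArg (fun m : SL(2, F) => m 0 0) hT
  simp only [mul_ij, tS, mkSL_00, mkSL_01, mkSL_10, mkSL_11, h4] at e00
  have h7 : T 1 0 = 0 := by
    have : V₂ 0 1 * T 1 0 = 0 := by linear_combination -e00
    exact (mul_eq_zero.1 this).resolve_left h6
  have e3 := congrArg (fun m : SL(2, F) => m 0 0) hT3
  simp only [mul_ij, h7] at e3
  have e3' : T 0 0 ^ 3 = 1 := by
    have : (1 : SL(2, F)) 0 0 = (1 : F) := by simp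
    rw [this] at e3
    linear_combination e3
  have hdT := det2 T
  rw [h7, mul_zero, sub_zero] at hdT
  have ha : T 0 0 ≠ 0 := left_ne_zero_of_mul_eq_one hdT
  have e4 := FiniteField.pow_card_sub_one_eq_one (T 0 0) ha
  have e5 := pow_gcd_eq_one.2 ⟨e3', e4⟩
  rw [hq.gcd_eq_one, pow_one] at e5
  have e6 : T 1 1 = 1 := by
    rw [e5, one_mul] at hdT
    exact hdT
  have e7 : T * T = 1 := by
    apply ext2 <;> simp only [mul_ij, h7, e5, e6]
    · simp
    · show _ = (0 : F)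
      linear_combination T 0 1 * h2
    · simp
    · simp
  apply hT1
  rw [e7, one_mul] at hT3
  exact hT3

theorem no_config [CharP F 2] {T V₁ V₂ : SL(2, F)} (hV₁ : V₁ ≠ 1) (hV₁2 : V₁ * V₁ = 1) (hV₂ : V₂ ≠ 1)
    (hcomm : V₂ * V₁ = V₁ * V₂) (hT : T * V₁ = V₂ * T) (hT3 : T * T * T = 1) (hT1 : T ≠ 1)
    (hq : Nat.Coprime 3 (Fintype.card F - 1)) : False := by
  haveI : Fact (Nat.Prime 2) := ⟨Nat.prime_two⟩
  have ho : orderOf V₁ = 2 := orderOf_eq_prime (by rw [sq]; exact hV₁2) hV₁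
  obtain ⟨β, hβ, hc⟩ := exists_tS_of_order V₁ ho
  obtain ⟨P, hP⟩ := isConj_iff.1 hc
  subst hP
  set t := tS 1 β (mul_one (1 : F)) with ht
  refine no_config_aux (T := P⁻¹ * T * P) (V₂ := P⁻¹ * V₂ * P) hβ ?_ ?_ ?_ ?_ ?_ hq
  · intro h
    apply hV₂
    have : V₂ = P * (P⁻¹ * V₂ * P) * P⁻¹ := by group
    rw [this, h]
    group
  · calc P⁻¹ * V₂ * P * t = P⁻¹ * (V₂ * (P * t * P⁻¹)) * P := by group
      _ = P⁻¹ * ((P * t * P⁻¹) * V₂) * P := by rw [hcomm]
      _ = t * (P⁻¹ * V₂ * P) := by group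
  · calc P⁻¹ * T * P * t = P⁻¹ * (T * (P * t * P⁻¹)) * P := by group
      _ = P⁻¹ * (V₂ * T) * P := by rw [hT]
      _ = P⁻¹ * V₂ * P * (P⁻¹ * T * P) := by group
  · calc P⁻¹ * T * P * (P⁻¹ * T * P) * (P⁻¹ * T * P) = P⁻¹ * (T * T * T) * P := by group
      _ = 1 := by rw [hT3]; group
  · intro h
    apply hT1
    have : T = P * (P⁻¹ * T * P) * P⁻¹ := by group
    rw [this, h]
    group

/-- The three elements of `A₄`. -/
theorem exists_a4_elements : ∃ t v₁ v₂ : alternatingGroup (Fin 4), v₁ ≠ 1 ∧ v₁ * v₁ = 1 ∧ v₂ ≠ 1 ∧ v₂ * v₁ = v₁ * v₂ ∧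
    t * v₁ = v₂ * t ∧ t * t * t = 1 ∧ t ≠ 1 := by
  refine ⟨⟨Equiv.swap 0 1 * Equiv.swap 1 2, Equiv.Perm.mem_alternatingGroup.2 (by decide)⟩,
    ⟨Equiv.swap 0 1 * Equiv.swap 2 3, Equiv.Perm.mem_alternatingGroup.2 (by decide)⟩,
    ⟨Equiv.swap 0 3 * Equiv.swap 1 2, Equiv.Perm.mem_alternatingGroup.2 (by decide)⟩, ?_⟩
  decide

theorem no_a4_two [CharP F 2] (hq : Nat.Coprime 3 (Fintype.card F - 1)) (H : Subgroup (PSL(2, F)))
    (e : H ≃* alternatingGroup (Fin 4)) : False := by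
  obtain ⟨t, v₁, v₂, h1, h2, h3, h4, h5, h6, h7⟩ := exists_a4_elements
  let ψ : alternatingGroup (Fin 4) →* PSL(2, F) := H.subtype.comp e.symm.toMonoidHom
  have hψ : Function.Injective ψ := H.subtype_injective.comp e.symm.injective
  obtain ⟨T, hT⟩ := mkP_surjective (ψ t)
  obtain ⟨V₁, hV₁⟩ := mkP_surjective (ψ v₁)
  obtain ⟨V₂, hV₂⟩ := mkP_surjective (ψ v₂)
  have inj := mk_injective (F := F)
  refine no_config (T := T) (V₁ := V₁) (V₂ := V₂) ?_ ?_ ?_ ?_ ?_ ?_ ?_ hq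
  · intro h
    apply h1
    apply hψ
    rw [← hV₁, h, map_one, map_one]
  · apply inj
    rw [map_mul, hV₁, ← map_mul, h2, map_one, map_one]
  · intro h
    apply h3
    apply hψ
    rw [← hV₂, h, map_one, map_one]
  · apply inj
    rw [map_mul, map_mul, hV₁, hV₂, ← map_mul, ← map_mul, h4]
  · apply inj
    rw [map_mul, map_mul, hV₁, hV₂, hT, ← map_mul, ← map_mul, h5]
  · apply inj
    rw [map_mul, map_mul, hT, ← map_mul, ← map_mul, h6, map_one, map_one]
  · intro h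
    apply h7
    apply hψ
    rw [← hT, h, map_one, map_one]

end Two

end Cfsg.Agent.Lib.PSL2Sub
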