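import Mathlib
import Cfsg.Agent.Lib.SuzukiLie
import Cfsg.Agent.Lib.PSL2Sub
import Cfsg.Agent.Lib.MkSL
import Cfsg.Agent.Lib.Transvection
import Cfsg.Agent.S0280

/-! Sections of `GL₅(2)` of type `L₂(2ⁿ)`, `Sz`, `U₃(2ⁿ)`. -/

set_option autoImplicit false
set_option linter.all false

namespace Cfsg.Agent.Lib.GL5Sec

open scoped Matrix MatrixGroups
open Cfsg.Agent.Lib.MkSL

theorem card_dvd_of_free {C Y : Type*} [Group C] [Fintype C] [Fintype Y] [MulAction C Y]
    (h : ∀ (c : C) (y : Y), c • y = y → c = 1) : Fintype.card C ∣ Fintype.card Y := by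
  classical
  have hb := MulAction.sum_card_fixedBy_eq_card_orbits_mul_card_group C Y
  rw [Finset.sum_eq_single (1 : C)] at hb
  · have h1 : Fintype.card (MulAction.fixedBy Y (1 : C)) = Fintype.card Y := by
      apply Fintype.card_congr
      exact Equiv.subtypeUnivEquiv (fun y => by simp)
    rw [h1] at hb
    rw [hb]
    exact Dvd.intro_left _ rfl
  · intro c _ hc
    rw [Fintype.card_eq_zero_iff]
    constructor
    rintro ⟨y, hy⟩
    exact hc (h c y hy)
  · simp

theorem nine_dvd {V : Type*} [Fintype V] (f : Equiv.Perm V) (hf : f ^ 9 = 1) (hne : f ^ 3 ≠ 1) :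
    9 ∣ Nat.card {v : V // (f ^ 3) v ≠ v} := by
  classical
  have hord : orderOf f = 9 := by
    apply orderOf_eq_of_pow_and_pow_div_prime (by norm_num) hf
    intro p hp hd
    have hd' : p ∣ 3 ^ 2 := by
      norm_num
      exact hd
    have : p = 3 := (Nat.prime_dvd_prime_iff_eq hp Nat.prime_three).1 (hp.dvd_of_dvd_pow hd')
    subst this
    simpa using hne
  let C : Subgroup (Equiv.Perm V) := Subgroup.zpowers f
  have hCcomm : ∀ c ∈ C, c * f ^ 3 = f ^ 3 * c := by
    intro c hc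
    obtain ⟨k, rfl⟩ := hc
    show f ^ k * f ^ 3 = f ^ 3 * f ^ k
    exact (Commute.zpow_left (Commute.pow_right (Commute.refl f) 3) k).eq
  letI : MulAction C {v : V // (f ^ 3) v ≠ v} :=
    { smul := fun c v => ⟨(c : Equiv.Perm V) v.1, by
        intro e
        apply v.2
        apply (c : Equiv.Perm V).injective
        have h1 := congrArg (fun g : Equiv.Perm V => g v.1) (hCcomm c c.2)
        simp only [Equiv.Perm.mul_apply] at h1
        rw [h1]
        exact e⟩
      one_smul := fun v => Subtype.ext rfl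
      mul_smul := fun c c' v => Subtype.ext rfl }
  haveI : Fintype C := Fintype.ofFinite C
  have hfree : ∀ (c : C) (v : {v : V // (f ^ 3) v ≠ v}), c • v = v → c = 1 := by
    rintro ⟨c, hc⟩ ⟨v, hv⟩ e
    have e1 : c v = v := congrArg Subtype.val e
    have hc' : c ∈ Submonoid.powers f := by
      rw [mem_powers_iff_mem_zpowers]
      exact hc
    obtain ⟨k, rfl⟩ := hc'
    have hpow : ∀ n : ℕ, ((f ^ k) ^ n) v = v := by
      intro n
      induction n with
      | zero => rfl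
      | succ n ih => rw [pow_succ, Equiv.Perm.mul_apply, e1, ih]
    have hg : (f ^ (Nat.gcd k 9)) v = v := by
      have hgen : f ^ (Nat.gcd k 9) ∈ Subgroup.zpowers (f ^ k) := by
        have h9z : f ^ (9 : ℤ) = 1 := by exact_mod_cast hf
        have : (f ^ k) ^ (Nat.gcdA k 9) = f ^ (Nat.gcd k 9 : ℤ) := by
          calc (f ^ k) ^ (Nat.gcdA k 9) = f ^ ((k : ℤ) * Nat.gcdA k 9) := by
                rw [zpow_mul, zpow_natCast]
            _ = f ^ ((k : ℤ) * Nat.gcdA k 9 + 9 * Nat.gcdB k 9) := by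
                rw [zpow_add, zpow_mul f 9, h9z, one_zpow, mul_one]
            _ = f ^ (Nat.gcd k 9 : ℤ) := by
                congr 1
                rw [Nat.gcd_eq_gcd_ab]
                norm_cast
        refine ⟨Nat.gcdA k 9, ?_⟩
        simpa using this
      have hmem : f ^ (Nat.gcd k 9) ∈ Submonoid.powers (f ^ k) := by
        rw [mem_powers_iff_mem_zpowers]
        exact hgen
      obtain ⟨n, hn⟩ := hmem
      rw [← hn]
      exact hpow n
    have hd : Nat.gcd k 9 ∣ 9 := Nat.gcd_dvd_right _ _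
    have hcases : Nat.gcd k 9 = 1 ∨ Nat.gcd k 9 = 3 ∨ Nat.gcd k 9 = 9 := by
      generalize Nat.gcd k 9 = g at hd
      have hle : g ≤ 9 := Nat.le_of_dvd (by norm_num) hd
      interval_cases g <;> omega
    rcases hcases with h1 | h1 | h1
    · rw [h1, pow_one] at hg
      exfalso
      apply hv
      rw [pow_succ, pow_two, Equiv.Perm.mul_apply, Equiv.Perm.mul_apply, hg, hg, hg]
    · rw [h1] at hg
      exact absurd hg hv
    · apply Subtype.ext
      show f ^ k = 1
      have : 9 ∣ k := h1 ▸ Nat.gcd_dvd_left k 9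
      obtain ⟨r, rfl⟩ := this
      rw [pow_mul, hf, one_pow]
  have hdvd := card_dvd_of_free hfree
  have hCc : Fintype.card C = 9 := by
    rw [← Nat.card_eq_fintype_card]
    show Nat.card (Subgroup.zpowers f) = 9
    rw [Nat.card_zpowers, hord]
  rw [hCc] at hdvd
  rwa [Nat.card_eq_fintype_card]

/-- No element of order `9` in `GL₅(2)`. -/
theorem pow3_of_pow9 (y : GL (Fin 5) (ZMod 2)) (h : y ^ 9 = 1) : y ^ 3 = 1 := by
  classical
  by_contra hne
  let f : Equiv.Perm (Fin 5 → ZMod 2) :=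
    { toFun := fun v => (y : Matrix (Fin 5) (Fin 5) (ZMod 2)) *ᵥ v
      invFun := fun v => ((y⁻¹ : GL (Fin 5) (ZMod 2)) : Matrix (Fin 5) (Fin 5) (ZMod 2)) *ᵥ v
      left_inv := by
        intro v
        show ((y⁻¹ : GL (Fin 5) (ZMod 2)) : Matrix (Fin 5) (Fin 5) (ZMod 2)) *ᵥ
          ((y : Matrix (Fin 5) (Fin 5) (ZMod 2)) *ᵥ v) = v
        rw [Matrix.mulVec_mulVec, ← Units.val_mul, inv_mul_cancel, Units.val_one, Matrix.one_mulVec]
      right_inv := by
        intro v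
        show (y : Matrix (Fin 5) (Fin 5) (ZMod 2)) *ᵥ
          (((y⁻¹ : GL (Fin 5) (ZMod 2)) : Matrix (Fin 5) (Fin 5) (ZMod 2)) *ᵥ v) = v
        rw [Matrix.mulVec_mulVec, ← Units.val_mul, mul_inv_cancel, Units.val_one, Matrix.one_mulVec] }
  have hfn : ∀ (n : ℕ) (v : Fin 5 → ZMod 2),
      (f ^ n) v = ((y ^ n : GL (Fin 5) (ZMod 2)) : Matrix (Fin 5) (Fin 5) (ZMod 2)) *ᵥ v := by
    intro n v
    induction n with
    | zero => simp
    | succ n ih =>
      rw [pow_succ', Equiv.Perm.mul_apply, ih, pow_succ', Units.val_mul, ← Matrix.mulVec_mulVec]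
      rfl
  have hf9 : f ^ 9 = 1 := by
    ext1 v
    rw [hfn, h]
    simp
  have hf3 : f ^ 3 ≠ 1 := by
    intro e
    apply hne
    apply Cfsg.Agent.Lib.Transvection.gl_ext_mulVec
    intro x
    rw [← hfn, e]
    simp
  have hdvd := nine_dvd f hf9 hf3
  let W : AddSubgroup (Fin 5 → ZMod 2) :=
    { carrier := {v | (f ^ 3) v = v}
      add_mem' := by
        intro a b ha hb
        show (f ^ 3) (a + b) = a + b
        have ha' : (f ^ 3) a = a := ha
        have hb' : (f ^ 3) b = b := hb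
        rw [hfn] at ha' hb' ⊢
        rw [Matrix.mulVec_add, ha', hb']
      zero_mem' := by
        show (f ^ 3) 0 = 0
        rw [hfn, Matrix.mulVec_zero]
      neg_mem' := by
        intro a ha
        show (f ^ 3) (-a) = -a
        have ha' : (f ^ 3) a = a := ha
        rw [hfn] at ha' ⊢
        rw [Matrix.mulVec_neg, ha'] }
  have hVc : Nat.card (Fin 5 → ZMod 2) = 32 := by
    simp [Nat.card_eq_fintype_card, ZMod.card]
  have hWd : Nat.card W ∣ 32 := by
    rw [← hVc]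
    exact AddSubgroup.card_addSubgroup_dvd_card W
  have hsum : Nat.card {v : Fin 5 → ZMod 2 // (f ^ 3) v ≠ v} + Nat.card W = 32 := by
    have h1 : Nat.card W = Nat.card {v : Fin 5 → ZMod 2 // (f ^ 3) v = v} :=
      Nat.card_congr (Equiv.subtypeEquivRight (fun v => Iff.rfl))
    have h2 := Nat.card_congr (Equiv.sumCompl (fun v : Fin 5 → ZMod 2 => (f ^ 3) v = v))
    rw [Nat.card_sum, hVc] at h2
    have h3 : Nat.card {v : Fin 5 → ZMod 2 // (f ^ 3) v ≠ v} = Nat.card {v : Fin 5 → ZMod 2 // ¬ (f ^ 3) v = v} := rfl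
    rw [h1, h3]
    omega
  have hY0 : Nat.card {v : Fin 5 → ZMod 2 // (f ^ 3) v ≠ v} = 0 := by
    generalize Nat.card {v : Fin 5 → ZMod 2 // (f ^ 3) v ≠ v} = a at hsum hdvd ⊢
    generalize Nat.card W = b at hsum hWd
    have hle : b ≤ 32 := Nat.le_of_dvd (by norm_num) hWd
    obtain ⟨t, ht⟩ := hdvd
    have hWc : b = 1 ∨ b = 2 ∨ b = 4 ∨ b = 8 ∨ b = 16 ∨ b = 32 := by
      clear hsum
      interval_cases b <;> first | omega | (exfalso; revert hWd; decide)
    omega
  rw [Nat.card_eq_zero] at hY0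
  rcases hY0 with hY0 | hY0
  · apply hf3
    ext1 v
    by_contra hv
    exact hY0.false ⟨v, hv⟩
  · exact (not_finite_iff_infinite.2 hY0) inferInstance

/-- An element of order nine in `PSL₂(8)`. -/
theorem exists_order9 {F : Type*} [Field F] [Fintype F] (hF : Fintype.card F = 8) :
    ∃ x : PSL(2, F), orderOf x = 9 := by
  classical
  haveI : CharP F 2 := Cfsg.Agent.Lib.Suzuki.charTwo (m := 1) (by rw [hF]; norm_num)
  have h2 : (2 : F) = 0 := CharTwo.two_eq_zero
  obtain ⟨a, ha⟩ : ∃ a : F, a ∉ ({0, 1} : Finset F) := by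
    by_contra hc
    push Not at hc
    have : (Finset.univ : Finset F) ⊆ {0, 1} := fun x _ => hc x
    have h3 := Finset.card_le_card this
    have h4 : ({0, 1} : Finset F).card ≤ 2 := Finset.card_le_two
    rw [Finset.card_univ, hF] at h3
    omega
  simp only [Finset.mem_insert, Finset.mem_singleton, not_or] at ha
  have h8 : a ^ 8 = a := by
    have := FiniteField.pow_card a
    rwa [hF] at this
  have hprod : a * (a + 1) * ((a ^ 3 + a + 1) * (a ^ 3 + a ^ 2 + 1)) = 0 := by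
    linear_combination h8 + (a + a ^ 7 + a ^ 6 + 2 * a ^ 5 + 2 * a ^ 4 + a ^ 3 + a ^ 2) * h2
  have ha1 : a + 1 ≠ 0 := by
    intro e
    apply ha.2
    linear_combination e - h2
  obtain ⟨τ, hτ⟩ : ∃ τ : F, τ ^ 3 + τ + 1 = 0 := by
    have h3 := mul_eq_zero.1 hprod
    rcases h3 with h3 | h3
    · exact absurd h3 (mul_ne_zero ha.1 ha1)
    · rcases mul_eq_zero.1 h3 with h4 | h4
      · exact ⟨a, h4⟩
      · exact ⟨a + 1, by linear_combination h4 + (a ^ 2 + 2 * a + 1) * h2⟩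
  have hτ3 : τ ^ 3 = τ + 1 := by linear_combination hτ - (τ + 1) * h2
  have hτ4 : τ ^ 4 = τ ^ 2 + τ := by linear_combination τ * hτ3
  have hτ1 : 1 + τ ^ 2 ≠ 0 := by
    intro e
    have h5 : (τ + 1) ^ 2 = 0 := by linear_combination e + τ * h2
    have h6 : τ = 1 := by
      have := pow_eq_zero_iff (two_ne_zero) |>.1 h5
      linear_combination this - h2
    rw [h6] at hτ
    have : (1 : F) = 0 := by linear_combination hτ - h2
    exact one_ne_zero this
  let A : SL(2, F) := mkSL 0 1 1 τ (by linear_combination -h2)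
  let B : SL(2, F) := mkSL τ (1 + τ ^ 2) (1 + τ ^ 2) (1 + τ) (by
    linear_combination (- τ ^ 2 - 1) * h2 - hτ4)
  have hA3 : A ^ 3 = B := by
    rw [pow_succ, pow_two]
    simp only [A, B, mkSL_mul]
    apply mkSL_eq
    · ring
    · ring
    · ring
    · linear_combination hτ3 + τ * h2
  have hB3 : B ^ 3 = 1 := by
    rw [pow_succ, pow_two, ← mkSL_one]
    simp only [B, mkSL_mul]
    apply mkSL_eq
    · linear_combination (4 + τ + 3 * τ ^ 2) * hτ + (-2 - τ - τ ^ 2) * h2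
    · linear_combination (2 + 5 * τ + τ ^ 3) * hτ + (-2 * τ + τ ^ 2) * h2
    · linear_combination (2 + 5 * τ + τ ^ 3) * hτ + (-2 * τ + τ ^ 2) * h2
    · linear_combination (4 + 2 * τ + 3 * τ ^ 2) * hτ + (-1 + τ ^ 2) * h2
  have hA9 : A ^ 9 = 1 := by
    rw [show 9 = 3 * 3 by norm_num, pow_mul, hA3, hB3]
  refine ⟨(QuotientGroup.mk A : PSL(2, F)), ?_⟩
  apply orderOf_eq_of_pow_and_pow_div_prime (by norm_num)
  · rw [← QuotientGroup.mk_pow, hA9]
    rfl
  · intro p hp hd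
    have : p = 3 := by
      have hd' : p ∣ 3 ^ 2 := by
        norm_num
        exact hd
      exact (Nat.prime_dvd_prime_iff_eq hp Nat.prime_three).1 (hp.dvd_of_dvd_pow hd')
    subst this
    show (QuotientGroup.mk A : PSL(2, F)) ^ 3 ≠ 1
    rw [← QuotientGroup.mk_pow, hA3]
    exact mk_ne_one _ hτ1

theorem card_GL5 : Nat.card (GL (Fin 5) (ZMod 2)) = 9999360 := by
  rw [Matrix.card_GL_field]
  simp [ZMod.card, Fin.prod_univ_succ]

section Main

variable {H : Subgroup (GL (Fin 5) (ZMod 2))} {K : Subgroup ↥H} [K.Normal]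

theorem card_dvd : Nat.card (↥H ⧸ K) ∣ 9999360 := by
  rw [← card_GL5]
  exact (Subgroup.card_quotient_dvd_card K).trans (Subgroup.card_subgroup_dvd_card H)

theorem no_nine (x : ↥H ⧸ K) : orderOf x ≠ 9 := by
  intro hx
  obtain ⟨h, rfl⟩ := QuotientGroup.mk_surjective x
  have h1 : orderOf (QuotientGroup.mk h : ↥H ⧸ K) ∣ orderOf h := orderOf_map_dvd (QuotientGroup.mk' K) h
  rw [hx, ← Subgroup.orderOf_coe] at h1
  have hpos : orderOf (h : GL (Fin 5) (ZMod 2)) ≠ 0 := (orderOf_pos _).ne'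
  have h2 := orderOf_pow_orderOf_div hpos h1
  have h3 : ((h : GL (Fin 5) (ZMod 2)) ^ (orderOf (h : GL (Fin 5) (ZMod 2)) / 9)) ^ 9 = 1 := by
    conv_lhs => rw [← h2]
    rw [h2]
    have := pow_orderOf_eq_one ((h : GL (Fin 5) (ZMod 2)) ^ (orderOf (h : GL (Fin 5) (ZMod 2)) / 9))
    rwa [h2] at this
  have h4 := pow3_of_pow9 _ h3
  have h5 := orderOf_dvd_of_pow_eq_one h4
  rw [h2] at h5
  omega

theorem psl_case (n : ℕ) (F : Type) [Field F] [Fintype F] (hn : 2 ≤ n) (hF : Fintype.card F = 2 ^ n)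
    (e : ↥H ⧸ K ≃* Matrix.ProjectiveSpecialLinearGroup (Fin 2) F) : n = 2 := by
  by_contra hn2
  have hc := Cfsg.Agent.Lib.PSL2Sub.card_psl_mul (F := F)
  have hd : Nat.card (Matrix.ProjectiveSpecialLinearGroup (Fin 2) F) ∣ 9999360 := by
    rw [← Nat.card_congr e.toEquiv]
    exact card_dvd
  have hg : Nat.gcd 2 (2 ^ n - 1) = 1 := by
    have h1 : Odd (2 ^ n - 1) := by
      apply Nat.Even.sub_odd
      · exact Nat.one_le_two_pow
      · exact (even_two).pow_of_ne_zero (by omega)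
      · exact odd_one
    exact (Nat.coprime_two_left.2 h1)
  rw [hF, hg, one_mul] at hc
  rw [hc] at hd
  by_cases hn3 : n = 3
  · subst hn3
    obtain ⟨x, hx⟩ := exists_order9 (F := F) (by rw [hF]; norm_num)
    apply no_nine (H := H) (K := K) (e.symm x)
    rw [MulEquiv.orderOf_eq, hx]
  by_cases hn10 : n ≤ 10
  · interval_cases n <;> first | omega | (revert hd; norm_num)
  · have h1 : 2 ^ 11 ∣ 2 ^ n := Nat.pow_dvd_pow 2 (by omega)
    have h2 : 2 ^ 11 ∣ 9999360 := h1.trans ((Dvd.intro _ rfl).trans hd)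
    revert h2
    norm_num

theorem sz_case (m : ℕ) (F : Type) [Field F] [Fintype F] (hm : 1 ≤ m) (hF : Fintype.card F = 2 ^ (2 * m + 1))
    (e : ↥H ⧸ K ≃* ↥(Cfsg.Lie.Sz F (2 ^ (m + 1)))) : False := by
  haveI := Cfsg.Agent.Lib.Suzuki.charTwo hF
  have e2 := Nat.card_congr (Cfsg.Agent.Lib.Suzuki.szIso (Cfsg.Agent.Lib.Suzuki.sqProp hF)
    (Cfsg.Agent.Lib.Suzuki.four_le hm) (Cfsg.Agent.Lib.Suzuki.s_lt hm hF)).toEquiv
  obtain ⟨h1, -⟩ := Cfsg.Agent.Lib.Suzuki.card_Sz_split (F := F) hm hF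
  have hd : Nat.card (↥(Cfsg.Lie.Sz F (2 ^ (m + 1)))) ∣ 9999360 := by
    rw [← Nat.card_congr e.toEquiv]
    exact card_dvd
  rw [← e2, h1] at hd
  by_cases hm2 : m ≤ 2
  · interval_cases m <;> (revert hd; norm_num)
  · have h3 : 2 ^ 11 ∣ 2 ^ (2 * (2 * m + 1)) := Nat.pow_dvd_pow 2 (by omega)
    have h2 : 2 ^ 11 ∣ 9999360 := h3.trans ((Dvd.intro _ rfl).trans hd)
    revert h2
    norm_num

theorem psu_case (n : ℕ) (F : Type) [Field F] [Fintype F] (hn : 2 ≤ n) (hF : Fintype.card F = 4 ^ n)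
    (e : ↥H ⧸ K ≃* Cfsg.PSU 3 F (2 ^ n)) : False := by
  have hF' : Fintype.card F = (2 ^ n) ^ 2 := by
    rw [hF, ← pow_mul, mul_comm, pow_mul]
    norm_num
  have h := Cfsg.Agent.S0280.result (q := 2 ^ n) hF' 3 (by omega)
  have hd : Nat.card (Cfsg.PSU 3 F (2 ^ n)) ∣ 9999360 := by
    rw [← Nat.card_congr e.toEquiv]
    exact card_dvd
  simp only [Finset.prod_range_succ, Finset.prod_range_zero, one_mul] at h
  generalize hc : Nat.card (Cfsg.PSU 3 F (2 ^ n)) = c at h hd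
  by_cases hn4 : n ≤ 3
  · interval_cases n
    · norm_num at h
      have hc' : c = 62400 := by omega
      rw [hc'] at hd
      revert hd
      norm_num
    · norm_num at h
      have hc' : c = 5515776 := by omega
      rw [hc'] at hd
      revert hd
      norm_num
  · exfalso
    have h1 : 2 ^ 11 ∣ (2 ^ n) ^ (3 * (3 - 1) / 2) := by
      have h6 : 3 * (3 - 1) / 2 = 3 := by norm_num
      rw [h6, ← pow_mul]
      exact Nat.pow_dvd_pow 2 (by omega)
    have h2 : 2 ^ 11 ∣ Nat.gcd 3 (2 ^ n + 1) * ((2 ^ n + 1) * c) := by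
      rw [h]
      exact Dvd.dvd.mul_right h1 _
    have hodd : Odd (2 ^ n + 1) := (even_two.pow_of_ne_zero (by omega)).add_one
    have hcop1 : Nat.Coprime (2 ^ 11) (2 ^ n + 1) := by
      apply Nat.Coprime.pow_left
      exact Nat.coprime_two_left.2 hodd
    have hcop2 : Nat.Coprime (2 ^ 11) (Nat.gcd 3 (2 ^ n + 1)) := by
      apply Nat.Coprime.coprime_dvd_right (Nat.gcd_dvd_left 3 _)
      norm_num
    have h3 := hcop2.dvd_of_dvd_mul_left h2
    have h4 := hcop1.dvd_of_dvd_mul_left h3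
    have h5 := h4.trans hd
    revert h5
    norm_num

theorem main (hX : (∃ (n : ℕ) (F : Type) (_ : Field F) (_ : Fintype F), 2 ≤ n ∧ Fintype.card F = 2 ^ n ∧
        Nonempty (↥H ⧸ K ≃* Matrix.ProjectiveSpecialLinearGroup (Fin 2) F)) ∨
      (∃ (m : ℕ) (F : Type) (_ : Field F) (_ : Fintype F), 1 ≤ m ∧ Fintype.card F = 2 ^ (2 * m + 1) ∧
        Nonempty (↥H ⧸ K ≃* ↥(Cfsg.Lie.Sz F (2 ^ (m + 1))))) ∨
      (∃ (n : ℕ) (F : Type) (_ : Field F) (_ : Fintype F), 2 ≤ n ∧ Fintype.card F = 4 ^ n ∧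
        Nonempty (↥H ⧸ K ≃* Cfsg.PSU 3 F (2 ^ n)))) :
    ∃ (F : Type) (_ : Field F) (_ : Fintype F), Fintype.card F = 4 ∧
      Nonempty (↥H ⧸ K ≃* Matrix.ProjectiveSpecialLinearGroup (Fin 2) F) := by
  rcases hX with ⟨n, F, _, _, hn, hF, ⟨e⟩⟩ | ⟨m, F, _, _, hm, hF, ⟨e⟩⟩ | ⟨n, F, _, _, hn, hF, ⟨e⟩⟩
  · have := psl_case n F hn hF e
    subst this
    exact ⟨F, _, _, by rw [hF]; norm_num, ⟨e⟩⟩
  · exact (sz_case m F hm hF e).elim
  · exact (psu_case n F hn hF e).elim

end Main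

end Cfsg.Agent.Lib.GL5Sec
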