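import Mathlib

/-!
# Element orders in `GL_n(q)`: exponent bound, Singer cycles, regular unipotent elements
-/

namespace Cfsg.Agent.Lib.GLOrders

open Polynomial Matrix

section exp
variable {F : Type*} [Field F] [Fintype F]

/-- An irreducible polynomial with non-zero constant term divides `X ^ T - 1` as soon as
`q ^ deg f - 1` divides `T`. -/
theorem irr_dvd (f : F[X]) (hf : Irreducible f) (h0 : f.coeff 0 ≠ 0) (T : ℕ)
    (hT : Fintype.card F ^ f.natDegree - 1 ∣ T) : f ∣ X ^ T - 1 := by
  classical
  haveI : Fact (Irreducible f) := ⟨hf⟩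
  let K := AdjoinRoot f
  have hfin : Module.Finite F K := (AdjoinRoot.powerBasis hf.ne_zero).finite
  have hrank : Module.finrank F K = f.natDegree := by
    rw [(AdjoinRoot.powerBasis hf.ne_zero).finrank]
    exact AdjoinRoot.powerBasis_dim hf.ne_zero
  haveI : Finite K := Module.finite_of_finite F
  haveI : Fintype K := Fintype.ofFinite K
  have hcard : Fintype.card K = Fintype.card F ^ f.natDegree := by
    rw [← Nat.card_eq_fintype_card, Module.natCard_eq_pow_finrank (K := F), hrank, Nat.card_eq_fintype_card]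
  have hd : 1 ≤ f.natDegree := hf.natDegree_pos
  have hα : AdjoinRoot.root f ≠ 0 := by
    intro h
    rw [← AdjoinRoot.mk_X, AdjoinRoot.mk_eq_zero] at h
    obtain ⟨r, hr⟩ := h
    have h1 : (X : F[X]).coeff 0 = f.coeff 0 * r.coeff 0 := by
      rw [hr, mul_coeff_zero]
    rw [coeff_X_zero] at h1
    have hr0 : r ≠ 0 := by
      rintro rfl
      simp at hr
    have h2 := congrArg natDegree hr
    rw [natDegree_X, natDegree_mul hf.ne_zero hr0] at h2
    have h3 : r.natDegree = 0 := by omega
    rw [eq_C_of_natDegree_eq_zero h3] at hr0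
    have h4 : r.coeff 0 ≠ 0 := by
      intro h; rw [h] at hr0; simp at hr0
    exact (mul_ne_zero h0 h4) h1.symm
  have h1 : AdjoinRoot.root f ^ (Fintype.card F ^ f.natDegree - 1) = 1 := by
    rw [← hcard]
    exact FiniteField.pow_card_sub_one_eq_one _ hα
  obtain ⟨c, rfl⟩ := hT
  rw [← AdjoinRoot.mk_eq_zero, map_sub, map_pow, AdjoinRoot.mk_X, map_one, pow_mul, h1, one_pow, sub_self]

/-- If every irreducible factor of `p` divides `Q`, then `p ∣ Q ^ deg p`. -/
theorem dvd_pow_of_factors (Q : F[X]) : ∀ (m : ℕ) (p : F[X]), p ≠ 0 → p.natDegree ≤ m →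
    (∀ f, Irreducible f → f ∣ p → f ∣ Q) → p ∣ Q ^ m := by
  intro m
  induction m with
  | zero =>
    intro p hp hd _
    rw [pow_zero]
    rw [eq_C_of_natDegree_eq_zero (by omega : p.natDegree = 0)] at hp ⊢
    have : p.coeff 0 ≠ 0 := fun h => by simp [h] at hp
    exact (isUnit_C.2 (isUnit_iff_ne_zero.2 this)).dvd
  | succ m ih =>
    intro p hp hd hf
    by_cases hu : IsUnit p
    · exact hu.dvd
    obtain ⟨f, hf1, hf2⟩ := WfDvdMonoid.exists_irreducible_factor hu hp
    obtain ⟨r, rfl⟩ := hf2
    have hr0 : r ≠ 0 := right_ne_zero_of_mul hp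
    have hd1 : r.natDegree ≤ m := by
      rw [natDegree_mul hf1.ne_zero hr0] at hd
      have := hf1.natDegree_pos
      omega
    have h1 := ih r hr0 hd1 (fun g hg hgr => hf g hg (hgr.trans (dvd_mul_left _ _)))
    rw [pow_succ']
    exact mul_dvd_mul (hf f hf1 (dvd_mul_right _ _)) h1

/-- The exponent bound for `GL_n(q)`. -/
theorem pow_eq_one_of_exp (p : ℕ) [Fact p.Prime] [CharP F p] {n : ℕ} (hn : 1 ≤ n)
    (g : Matrix (Fin n) (Fin n) F) (hg : g.det ≠ 0) (T a : ℕ)
    (hT : ∀ d, 1 ≤ d → d ≤ n → Fintype.card F ^ d - 1 ∣ T) (ha : n ≤ p ^ a) :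
    g ^ (p ^ a * T) = 1 := by
  classical
  haveI : Nonempty (Fin n) := ⟨⟨0, hn⟩⟩
  have hmonic : g.charpoly.Monic := charpoly_monic g
  have hdeg : g.charpoly.natDegree = n := by
    rw [charpoly_natDegree_eq_dim, Fintype.card_fin]
  have hdvd : g.charpoly ∣ (X ^ T - 1 : F[X]) ^ n := by
    apply dvd_pow_of_factors _ n _ hmonic.ne_zero hdeg.le
    intro f hf hfp
    have h0 : f.coeff 0 ≠ 0 := by
      intro h
      obtain ⟨r, hr⟩ := hfp
      have h1 : g.charpoly.coeff 0 = f.coeff 0 * r.coeff 0 := by
        rw [hr, mul_coeff_zero]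
      rw [h, zero_mul, coeff_zero_eq_eval_zero] at h1
      have h2 : g.det = 0 := by
        have h3 := Matrix.det_eq_sign_charpoly_coeff g
        rw [coeff_zero_eq_eval_zero, h1, mul_zero] at h3
        exact h3
      exact hg h2
    apply irr_dvd f hf h0
    apply hT
    · exact hf.natDegree_pos
    · have := natDegree_le_of_dvd hfp hmonic.ne_zero
      omega
  have h1 : (g ^ T - 1) ^ n = 0 := by
    obtain ⟨r, hr⟩ := hdvd
    have h2 := congrArg (aeval g) hr
    rw [map_mul, Matrix.aeval_self_charpoly, zero_mul] at h2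
    simpa using h2
  have h2 : (g ^ T - 1) ^ (p ^ a) = 0 := by
    obtain ⟨k, hk⟩ := Nat.exists_eq_add_of_le ha
    rw [hk, pow_add, h1, zero_mul]
  haveI : CharP (Matrix (Fin n) (Fin n) F) p := Matrix.charP p
  have h3 := sub_pow_char_pow_of_commute (p := p) (n := a) (Commute.one_right (g ^ T))
  rw [h2, one_pow] at h3
  have h4 := sub_eq_zero.1 h3.symm
  rw [mul_comm, pow_mul]
  exact h4

end exp

section unip
variable {F : Type*} [Field F]

/-- The shift matrix. -/
def shift (n : ℕ) (F : Type*) [Field F] : Matrix (Fin n) (Fin n) F :=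
  Matrix.of fun i j => if (j : ℕ) = i + 1 then 1 else 0

theorem shift_pow (n k : ℕ) : (shift n F) ^ k = Matrix.of fun (i j : Fin n) => if (j : ℕ) = i + k then 1 else 0 := by
  induction k with
  | zero =>
    ext i j
    simp [Matrix.one_apply, Fin.ext_iff, eq_comm]
  | succ k ih =>
    rw [pow_succ, ih]
    ext i j
    rw [Matrix.mul_apply]
    by_cases h : (i : ℕ) + k < n
    · rw [Finset.sum_eq_single (⟨i + k, h⟩ : Fin n)]
      · simp [shift, add_assoc]
      · intro b _ hb
        have : (b : ℕ) ≠ i + k := fun h' => hb (Fin.ext h')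
        simp [this]
      · simp
    · rw [Finset.sum_eq_zero]
      · have : ¬ ((j : ℕ) = i + (k + 1)) := by
          have := j.2
          omega
        simp [this]
      · intro b _
        have : ¬ ((b : ℕ) = i + k) := by
          have := b.2
          omega
        simp [this]

/-- The regular unipotent element. -/
def runip (n : ℕ) (F : Type*) [Field F] : SpecialLinearGroup (Fin n) F :=
  ⟨1 + shift n F, by
    rw [Matrix.det_of_upperTriangular]
    · simp [shift]
    · intro i j hij
      have h : (j : ℕ) < i := hij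
      have : ¬ ((j : ℕ) = i + 1) := by omega
      have hne : i ≠ j := by
        intro h'
        rw [h'] at h
        exact lt_irrefl _ h
      simp [shift, this, Matrix.one_apply, hne]⟩

theorem runip_order (p : ℕ) [hp : Fact p.Prime] [CharP F p] (n : ℕ) (hn : 2 ≤ n) :
    orderOf (runip n F) = p ^ Nat.clog p n := by
  have h1 : 1 ≤ Nat.clog p n := Nat.clog_pos hp.out.one_lt hn
  obtain ⟨a, ha⟩ : ∃ a, Nat.clog p n = a + 1 := ⟨Nat.clog p n - 1, by omega⟩
  have hlt : p ^ a < n := by
    have := Nat.pow_pred_clog_lt_self hp.out.one_lt (by omega : 1 < n)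
    rwa [ha] at this
  have hle : n ≤ p ^ (a + 1) := by
    have := Nat.le_pow_clog hp.out.one_lt n
    rwa [ha] at this
  haveI : Nonempty (Fin n) := ⟨⟨0, by omega⟩⟩
  haveI : CharP (Matrix (Fin n) (Fin n) F) p := Matrix.charP p
  have hpow : ∀ k, ((runip n F) ^ (p ^ k)).1 = 1 + (shift n F) ^ (p ^ k) := by
    intro k
    refine (Matrix.SpecialLinearGroup.coe_pow (runip n F) (p ^ k)).trans ?_
    show (1 + shift n F) ^ (p ^ k) = _
    rw [add_pow_char_pow_of_commute p k (Commute.one_left _), one_pow]
  rw [ha]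
  apply orderOf_eq_prime_pow
  · intro h
    have h2 := hpow a
    rw [h] at h2
    have h3 : (shift n F) ^ (p ^ a) = 0 := by
      have h4 : (1 : Matrix (Fin n) (Fin n) F) = 1 + (shift n F) ^ (p ^ a) := h2
      simpa using h4.symm
    have h5 := congrFun (congrFun h3 ⟨0, by omega⟩) ⟨p ^ a, hlt⟩
    rw [shift_pow] at h5
    simp at h5
  · apply Subtype.ext
    rw [hpow (a + 1), shift_pow]
    show _ = (1 : Matrix (Fin n) (Fin n) F)
    have : (Matrix.of fun (i j : Fin n) => if (j : ℕ) = i + p ^ (a + 1) then (1 : F) else 0) = 0 := by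
      ext i j
      have : ¬ ((j : ℕ) = i + p ^ (a + 1)) := by
        have := j.2
        omega
      simp [this]
    rw [this, add_zero]

end unip

section singer
variable {F : Type*} [Field F] [Fintype F]

/-- A unit in a commutative `F`-algebra of dimension `n` gives an element of `GL_n(F)` of the same order. -/
theorem exists_gl_of_unit {V : Type*} [CommRing V] [Algebra F V] [Module.Finite F V] {n : ℕ}
    (h : Module.finrank F V = n) (u : Vˣ) : ∃ g : GL (Fin n) F, orderOf g = orderOf u := by
  classical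
  haveI : Module.Free F V := Module.Free.of_divisionRing F V
  let b := Module.finBasisOfFinrankEq F V h
  let φ : V →ₐ[F] Matrix (Fin n) (Fin n) F :=
    ((LinearMap.toMatrixAlgEquiv b).toAlgHom).comp (Algebra.lmul F V)
  have hφ : Function.Injective φ := by
    intro x y hxy
    have h1 : Algebra.lmul F V x = Algebra.lmul F V y := (LinearMap.toMatrixAlgEquiv b).injective hxy
    have h2 := congrArg (fun f : Module.End F V => f 1) h1
    simpa using h2
  let ψ : Vˣ →* GL (Fin n) F := Units.map (φ : V →* Matrix (Fin n) (Fin n) F)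
  have hψ : Function.Injective ψ := Units.map_injective hφ
  exact ⟨ψ u, orderOf_injective ψ hψ u⟩

/-- Singer cycles. -/
theorem exists_gl_singer (p : ℕ) [Fact p.Prime] [CharP F p] {n : ℕ} (hn : n ≠ 0) :
    ∃ g : GL (Fin n) F, orderOf g = Fintype.card F ^ n - 1 := by
  classical
  haveI : NeZero n := ⟨hn⟩
  let K := FiniteField.Extension F p n
  haveI : Fintype K := Fintype.ofFinite K
  obtain ⟨u, hu⟩ := IsCyclic.exists_generator (α := Kˣ)
  obtain ⟨g, hg⟩ := exists_gl_of_unit (F := F) (FiniteField.finrank_extension F p n) u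
  refine ⟨g, ?_⟩
  rw [hg, orderOf_eq_card_of_forall_mem_zpowers hu, Nat.card_eq_fintype_card, Fintype.card_units,
    ← Nat.card_eq_fintype_card, FiniteField.natCard_extension, Nat.card_eq_fintype_card]

/-- Two Singer blocks. -/
theorem exists_gl_pair (p : ℕ) [Fact p.Prime] [CharP F p] {d e n : ℕ} (hd : d ≠ 0) (he : e ≠ 0) (hn : d + e = n) :
    ∃ g : GL (Fin n) F, Fintype.card F ^ d - 1 ∣ orderOf g ∧ Fintype.card F ^ e - 1 ∣ orderOf g := by
  classical
  haveI : NeZero d := ⟨hd⟩
  haveI : NeZero e := ⟨he⟩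
  let K := FiniteField.Extension F p d
  let L := FiniteField.Extension F p e
  haveI : Fintype K := Fintype.ofFinite K
  haveI : Fintype L := Fintype.ofFinite L
  obtain ⟨a, ha⟩ := IsCyclic.exists_generator (α := Kˣ)
  obtain ⟨b, hb⟩ := IsCyclic.exists_generator (α := Lˣ)
  let u : (K × L)ˣ := MulEquiv.prodUnits.symm (a, b)
  have hrank : Module.finrank F (K × L) = n := by
    rw [Module.finrank_prod, FiniteField.finrank_extension, FiniteField.finrank_extension, hn]
  obtain ⟨g, hg⟩ := exists_gl_of_unit (F := F) hrank u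
  refine ⟨g, ?_, ?_⟩
  · rw [hg]
    have h1 : orderOf a ∣ orderOf u := by
      have : Units.map (RingHom.fst K L : K × L →* K) u = a := by
        ext; rfl
      rw [← this]
      exact orderOf_map_dvd _ _
    rw [orderOf_eq_card_of_forall_mem_zpowers ha, Nat.card_eq_fintype_card, Fintype.card_units,
      ← Nat.card_eq_fintype_card, FiniteField.natCard_extension, Nat.card_eq_fintype_card] at h1
    exact h1
  · rw [hg]
    have h1 : orderOf b ∣ orderOf u := by
      have : Units.map (RingHom.snd K L : K × L →* L) u = b := by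
        ext; rfl
      rw [← this]
      exact orderOf_map_dvd _ _
    rw [orderOf_eq_card_of_forall_mem_zpowers hb, Nat.card_eq_fintype_card, Fintype.card_units,
      ← Nat.card_eq_fintype_card, FiniteField.natCard_extension, Nat.card_eq_fintype_card] at h1
    exact h1

end singer

end Cfsg.Agent.Lib.GLOrders
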