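import Mathlib
import Cfsg.Prelude.Def_Sporadic_a
import Cfsg.Prelude.Def_SporadicCombinatorics
import Cfsg.Agent.Lib.GolaySimple
import Cfsg.Agent.Lib.GolaySLPData

/-!
# Straight-line programs in the group of the code; generation of `M24`
-/

set_option autoImplicit false
set_option linter.style.haveILetI false
set_option linter.constructorNameAsVariable false

open scoped Pointwise

namespace Cfsg.Agent.Lib.GolaySLP

open Cfsg Cfsg.Agent.Lib.GolayCode Cfsg.Agent.Lib.GolayFacts Cfsg.Agent.Lib.GolayPerm
  Cfsg.Agent.Lib.GolayChain Cfsg.Agent.Lib.GolayTrans Cfsg.Agent.Lib.GolayOrbit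
  Cfsg.Agent.Lib.GolayKit Cfsg.Agent.Lib.GolayDecomp Cfsg.Agent.Lib.GolaySimple
  Cfsg.Agent.Lib.GolaySLPData

/-- Strict map of a list through another. -/
def mapS {α : Sort*} (π : List ℕ) : List ℕ → (List ℕ → α) → α
  | [], k => k []
  | r :: ρ, k => forceNat (img π r) fun v => mapS π ρ fun l => k (v :: l)

theorem mapS_eq {α : Sort*} (π ρ : List ℕ) (k : List ℕ → α) : mapS π ρ k = k (ρ.map (img π)) := by
  induction ρ generalizing k with
  | nil => rfl
  | cons r ρ ih =>
    rw [mapS, forceNat_eq, ih]
    rfl

/-- Running a straight-line program: each instruction multiplies two stack entries. -/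
def slpRun {α : Sort*} : List (ℕ × ℕ) → List (List ℕ) → (List (List ℕ) → α) → α
  | [], acc, k => k acc
  | s :: l, acc, k =>
    match lookupG acc s.1, lookupG acc s.2 with
    | some a, some b => mapS a b fun c => slpRun l (c :: acc) k
    | _, _ => slpRun l acc k

/-- Equality of lists of numbers. -/
def listEq : List ℕ → List ℕ → Bool
  | [], [] => true
  | a :: l, b :: m => Nat.beq a b && listEq l m
  | _, _ => false

theorem eq_of_listEq {a b : List ℕ} (h : listEq a b = true) : a = b := by
  induction a generalizing b with
  | nil =>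
    cases b with
    | nil => rfl
    | cons _ _ => simp [listEq] at h
  | cons x a ih =>
    cases b with
    | nil => simp [listEq] at h
    | cons y b =>
      simp only [listEq, Bool.and_eq_true] at h
      rw [Nat.eq_of_beq_eq_true h.1, ih h.2]

/-- Membership. -/
def memL (t : List ℕ) : List (List ℕ) → Bool
  | [] => false
  | a :: l => listEq t a || memL t l

theorem mem_of_memL {t : List ℕ} {l : List (List ℕ)} (h : memL t l = true) : t ∈ l := by
  induction l with
  | nil => simp [memL] at h
  | cons a l ih =>
    simp only [memL, Bool.or_eq_true] at h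
    rcases h with h | h
    · rw [eq_of_listEq h]; exact List.mem_cons_self
    · exact List.mem_cons_of_mem _ (ih h)

/-- The invariant of stack entries. -/
structure StackOK (K : Subgroup (Equiv.Perm GolayPt)) (x : List ℕ) : Prop where
  len : x.length = 24
  good : Good x
  mem : toPerm x ∈ K

theorem img_map (a b : List ℕ) (hb : b.length = 24) {i : ℕ} (hi : i < 24) :
    img (b.map (img a)) i = img a (img b i) := by
  have h1 : i < (b.map (img a)).length := by simpa [hb] using hi
  have h2 : i < b.length := by omega
  simp [img, List.getD_eq_getElem?_getD, h2]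

theorem permFun_map {a b : List ℕ} (hb : StackOK ⊤ b) (p : GolayPt) :
    permFun (b.map (img a)) p = permFun a (permFun b p) := by
  simp only [permFun]
  rw [img_map a b hb.len (ptIdx_lt p), ptIdx_idxPt (hb.good.rng _ (ptIdx_lt p))]

theorem stackOK_top {K : Subgroup (Equiv.Perm GolayPt)} {x : List ℕ} (h : StackOK K x) : StackOK ⊤ x :=
  ⟨h.len, h.good, Subgroup.mem_top _⟩

theorem stackOK_map {K : Subgroup (Equiv.Perm GolayPt)} {a b : List ℕ} (ha : StackOK K a) (hb : StackOK K b) :
    StackOK K (b.map (img a)) := by
  have hb' := stackOK_top hb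
  have hgood : Good (b.map (img a)) :=
    { surj := by
        have : permFun (b.map (img a)) = permFun a ∘ permFun b := by
          funext p
          exact permFun_map hb' p
        rw [this]
        exact ha.good.surj.comp hb.good.surj
      rng := fun i hi => by
        rw [img_map a b hb.len hi]
        exact ha.good.rng _ (hb.good.rng i hi) }
  refine ⟨by simp [hb.len], hgood, ?_⟩
  have : toPerm (b.map (img a)) = toPerm a * toPerm b := by
    ext1 p
    rw [Equiv.Perm.mul_apply, toPerm_apply_good hgood, toPerm_apply_good ha.good,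
      toPerm_apply_good hb.good, permFun_map hb']
  rw [this]
  exact mul_mem ha.mem hb.mem

/-- Soundness: every entry of the final stack is good and in the subgroup. -/
theorem slpRun_sound {K : Subgroup (Equiv.Perm GolayPt)} {α : Sort*} (l : List (ℕ × ℕ)) (acc : List (List ℕ))
    (k : List (List ℕ) → α) (h : ∀ x ∈ acc, StackOK K x) :
    ∃ acc', slpRun l acc k = k acc' ∧ ∀ x ∈ acc', StackOK K x := by
  induction l generalizing acc with
  | nil => exact ⟨acc, rfl, h⟩
  | cons s l ih =>
    rw [slpRun]
    split
    · rename_i a b ha hb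
      rw [mapS_eq]
      apply ih
      intro x hx
      rcases List.mem_cons.mp hx with rfl | hx
      · exact stackOK_map (h _ (mem_of_lookupG ha)) (h _ (mem_of_lookupG hb))
      · exact h x hx
    · exact ih acc h

/-- Targets in the final stack lie in the subgroup. -/
theorem mem_of_slpRun {K : Subgroup (Equiv.Perm GolayPt)} (l : List (ℕ × ℕ)) (acc : List (List ℕ))
    (h : ∀ x ∈ acc, StackOK K x) (targets : List (List ℕ))
    (hchk : slpRun l acc (fun s => targets.all fun t => memL t s) = true) :
    ∀ t ∈ targets, toPerm t ∈ K := by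
  obtain ⟨acc', h1, h2⟩ := slpRun_sound (K := K) l acc (fun s => targets.all fun t => memL t s) h
  rw [h1, List.all_eq_true] at hchk
  intro t ht
  exact (h2 t (mem_of_memL (hchk t ht))).mem

/-! ### Generation of `M24` -/

/-- All the transversal elements. -/
def allLev : List (List ℕ) := lev 0 ++ lev 1 ++ lev 2 ++ lev 3 ++ lev 4 ++ lev 5 ++ lev 6

theorem slp_check : slpRun slpM24 [genD, genC, genA] (fun s => allLev.all fun t => memL t s) = true := by
  decide +kernel

theorem stackOK_of_isAut {K : Subgroup (Equiv.Perm GolayPt)} {x : List ℕ} (h : isAut x = true)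
    (hl : x.length = 24) (hK : toPerm x ∈ K) : StackOK K x :=
  ⟨hl, good_of_isAut h, hK⟩

/-- Three permutations generate `M24`. -/
theorem M24_le_closure (K : Subgroup (Equiv.Perm GolayPt)) (hA : toPerm genA ∈ K) (hC : toPerm genC ∈ K)
    (hD : toPerm genD ∈ K) : M24 ≤ K := by
  have h0 : ∀ x ∈ [genD, genC, genA], StackOK K x := by
    intro x hx
    simp only [List.mem_cons, List.not_mem_nil, or_false] at hx
    rcases hx with rfl | rfl | rfl
    · exact stackOK_of_isAut (gens3_isAut _ (by simp [gens3])) rfl hD
    · exact stackOK_of_isAut (gens3_isAut _ (by simp [gens3])) rfl hC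
    · exact stackOK_of_isAut (gens3_isAut _ (by simp [gens3])) rfl hA
  have h1 := mem_of_slpRun slpM24 _ h0 allLev slp_check
  apply G_le_of_levels 0 (by norm_num) K
  intro i _ hi t ht
  apply h1
  have : lev i ⊆ allLev := by
    simp only [allLev]
    interval_cases i <;> simp [List.subset_def] <;> tauto
  exact this ht

end Cfsg.Agent.Lib.GolaySLP
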