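import Mathlib

/-!
Ree's inequality for permutations with product one, by the linear algebra of the permutation module.
-/

set_option autoImplicit false
set_option linter.style.haveILetI false

namespace Cfsg.Agent.Lib.ReeCount

open Module LinearMap

variable {Ω : Type*} [Fintype Ω] [DecidableEq Ω]

/-- The left action on functions. -/
def act (g : Equiv.Perm Ω) : (Ω → ℚ) →ₗ[ℚ] (Ω → ℚ) := LinearMap.funLeft ℚ ℚ (g⁻¹ : Equiv.Perm Ω)

@[simp] theorem act_apply (g : Equiv.Perm Ω) (f : Ω → ℚ) (a : Ω) : act g f a = f (g⁻¹ a) := rfl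

theorem act_mul (g h : Equiv.Perm Ω) (f : Ω → ℚ) : act (g * h) f = act g (act h f) := by
  funext a
  simp [mul_inv_rev]

theorem act_one (f : Ω → ℚ) : act (1 : Equiv.Perm Ω) f = f := by
  funext a
  simp

/-- The defect of a permutation. -/
def dft (g : Equiv.Perm Ω) : (Ω → ℚ) →ₗ[ℚ] (Ω → ℚ) := act g - LinearMap.id

@[simp] theorem dft_apply (g : Equiv.Perm Ω) (f : Ω → ℚ) : dft g f = act g f - f := rfl

/-- The standard form. -/
def dot : (Ω → ℚ) →ₗ[ℚ] (Ω → ℚ) →ₗ[ℚ] ℚ :=
  LinearMap.mk₂ ℚ (fun w u => ∑ a, w a * u a)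
    (fun a b c => by simp [add_mul, Finset.sum_add_distrib])
    (fun r a b => by simp [mul_assoc, Finset.mul_sum])
    (fun a b c => by simp [mul_add, Finset.sum_add_distrib])
    (fun r a b => by simp [Finset.mul_sum, mul_left_comm])

@[simp] theorem dot_apply (w u : Ω → ℚ) : dot w u = ∑ a, w a * u a := rfl

theorem dot_act (g : Equiv.Perm Ω) (w u : Ω → ℚ) : dot w (act g u) = dot (fun a => w (g a)) u := by
  simp only [dot_apply, act_apply]
  rw [← Equiv.sum_comp g]
  simp

theorem fix_of_perp {g : Equiv.Perm Ω} {w : Ω → ℚ} (h : ∀ v, dot w (dft g v) = 0) : dft g w = 0 := by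
  have key : ∀ b, w (g b) = w b := by
    intro b
    have h1 := h (Pi.single b 1)
    rw [dft_apply, map_sub, dot_act] at h1
    simp only [dot_apply] at h1
    have h2 : ∀ c : Ω → ℚ, ∑ a, c a * (Pi.single b 1 : Ω → ℚ) a = c b := by
      intro c
      rw [Finset.sum_eq_single b]
      · simp
      · intro a _ hab
        simp [Pi.single_apply, hab]
      · simp
    rw [h2, h2] at h1
    linarith
  funext a
  simp only [dft_apply, Pi.sub_apply, act_apply, Pi.zero_apply]
  have h9 := key (g⁻¹ a)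
  have h10 : g (g⁻¹ a) = a := by simp
  rw [h10] at h9
  linarith

theorem act_eq_of_dft {g : Equiv.Perm Ω} {w : Ω → ℚ} (h : dft g w = 0) : act g w = w :=
  sub_eq_zero.mp h

theorem comp_eq_of_dft {g : Equiv.Perm Ω} {w : Ω → ℚ} (h : dft g w = 0) (a : Ω) : w (g a) = w a := by
  have h1 := congrFun (act_eq_of_dft h) (g a)
  simpa using h1.symm

/-- Ree's inequality in linear form. -/
theorem ree_ineq (x y z : Equiv.Perm Ω) (h : x * y * z = 1) :
    2 * Fintype.card Ω ≤ 2 * finrank ℚ ↥(ker (dft x) ⊓ ker (dft y)) +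
      finrank ℚ ↥(range (dft x)) + finrank ℚ ↥(range (dft y)) + finrank ℚ ↥(range (dft z)) := by
  set A := range (dft x) with hA
  set B := range (dft y) with hB
  set C := range (dft z) with hC
  set Inv := ker (dft x) ⊓ ker (dft y) with hInv
  let δ : (Ω → ℚ) →ₗ[ℚ] A × (B × C) :=
    LinearMap.prod (dft x).rangeRestrict (LinearMap.prod (dft y).rangeRestrict (dft z).rangeRestrict)
  let σ : A × (B × C) →ₗ[ℚ] (Ω → ℚ) :=
    A.subtype.coprod (((act x) ∘ₗ B.subtype).coprod ((act (x * y)) ∘ₗ C.subtype))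
  have hσ : ∀ a : A, ∀ b : B, ∀ c : C, σ (a, b, c) = (a : Ω → ℚ) + act x b + act (x * y) c := by
    intro a b c
    simp [σ, add_assoc]
  have hσδ : ∀ v, σ (δ v) = 0 := by
    intro v
    have h1 : δ v = (⟨dft x v, ⟨v, rfl⟩⟩, ⟨dft y v, ⟨v, rfl⟩⟩, ⟨dft z v, ⟨v, rfl⟩⟩) := rfl
    rw [h1, hσ]
    simp only [dft_apply, map_sub]
    rw [← act_mul, ← act_mul, h, act_one]
    abel
  have h1 : finrank ℚ ↥(range δ) ≤ finrank ℚ ↥(ker σ) := by
    apply Submodule.finrank_mono
    rintro _ ⟨v, rfl⟩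
    exact hσδ v
  have h2 : finrank ℚ ↥(ker δ) ≤ finrank ℚ ↥Inv := by
    apply Submodule.finrank_mono
    intro v hv
    have hv' : δ v = 0 := hv
    have h3 : dft x v = 0 := congrArg (fun t : A × (B × C) => (t.1 : Ω → ℚ)) hv'
    have h4 : dft y v = 0 := congrArg (fun t : A × (B × C) => (t.2.1 : Ω → ℚ)) hv'
    exact ⟨h3, h4⟩
  have h3 := LinearMap.finrank_range_add_finrank_ker δ
  have h4 := LinearMap.finrank_range_add_finrank_ker σ
  rw [Module.finrank_fintype_fun_eq_card] at h3
  rw [Module.finrank_prod, Module.finrank_prod] at h4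
  set W := range σ with hW
  let τ : (Ω → ℚ) →ₗ[ℚ] (W →ₗ[ℚ] ℚ) := (dot (Ω := Ω)).compl₂ W.subtype
  have h5 : finrank ℚ ↥(ker τ) ≤ finrank ℚ ↥Inv := by
    apply Submodule.finrank_mono
    intro w hw
    have hw' : ∀ u (hu : u ∈ W), dot w u = 0 := by
      intro u hu
      have h6 : τ w = 0 := hw
      exact congrArg (fun f : W →ₗ[ℚ] ℚ => f ⟨u, hu⟩) h6
    have hx : dft x w = 0 := by
      apply fix_of_perp
      intro v
      apply hw'
      refine ⟨(⟨dft x v, ⟨v, rfl⟩⟩, 0, 0), ?_⟩
      rw [hσ]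
      simp
    have hy : dft y w = 0 := by
      apply fix_of_perp
      intro v
      have h6 := hw' (act x (dft y v)) ⟨(0, ⟨dft y v, ⟨v, rfl⟩⟩, 0), by rw [hσ]; simp⟩
      rw [dot_act] at h6
      have h7 : (fun a => w (x a)) = w := funext (comp_eq_of_dft hx)
      rwa [h7] at h6
    exact ⟨hx, hy⟩
  have h6 : finrank ℚ ↥(range τ) ≤ finrank ℚ ↥W := by
    have h7 := Submodule.finrank_le (range τ)
    rwa [Subspace.dual_finrank_eq] at h7
  have h7 := LinearMap.finrank_range_add_finrank_ker τ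
  rw [Module.finrank_fintype_fun_eq_card] at h7
  omega

/-- The number of cycles of a permutation, linearly. -/
theorem rank_add_cyc (g : Equiv.Perm Ω) :
    finrank ℚ ↥(range (dft g)) + finrank ℚ ↥(ker (dft g)) = Fintype.card Ω := by
  have h := LinearMap.finrank_range_add_finrank_ker (dft g)
  rwa [Module.finrank_fintype_fun_eq_card] at h

/-- Orbits of `⟨g⟩` give invariant functions. -/
theorem orbits_le_cyc (g : Equiv.Perm Ω) :
    Nat.card (MulAction.orbitRel.Quotient (Subgroup.zpowers g) Ω) ≤ finrank ℚ ↥(ker (dft g)) := by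
  classical
  let Q := MulAction.orbitRel.Quotient (Subgroup.zpowers g) Ω
  haveI : Fintype Q := Fintype.ofFinite Q
  let mk : Ω → Q := Quotient.mk (MulAction.orbitRel (Subgroup.zpowers g) Ω)
  have hmk : Function.Surjective mk := Quotient.mk_surjective
  let L : (Q → ℚ) →ₗ[ℚ] (Ω → ℚ) := LinearMap.funLeft ℚ ℚ mk
  have hL : Function.Injective L := LinearMap.funLeft_injective_of_surjective ℚ ℚ mk hmk
  have h1 : finrank ℚ ↥(range L) = Fintype.card Q := by
    rw [LinearMap.finrank_range_of_inj hL, Module.finrank_fintype_fun_eq_card]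
  have h2 : range L ≤ ker (dft g) := by
    rintro _ ⟨f, rfl⟩
    show dft g (L f) = 0
    funext a
    simp only [dft_apply, Pi.sub_apply, act_apply, Pi.zero_apply]
    have h3 : mk (g⁻¹ a) = mk a := by
      apply Quotient.sound
      exact ⟨⟨g⁻¹, inv_mem (Subgroup.mem_zpowers g)⟩, rfl⟩
    show f (mk (g⁻¹ a)) - f (mk a) = 0
    rw [h3, sub_self]
  have h3 := Submodule.finrank_mono h2
  rw [h1] at h3
  rwa [Nat.card_eq_fintype_card]

/-- Burnside counting for a cyclic group. -/
theorem orbits_count (g : Equiv.Perm Ω) :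
    Fintype.card Ω + (orderOf g - 1) * (Finset.univ.filter fun a => g a = a).card ≤
      orderOf g * Nat.card (MulAction.orbitRel.Quotient (Subgroup.zpowers g) Ω) := by
  classical
  let Z := Subgroup.zpowers g
  haveI : Fintype Z := Fintype.ofFinite Z
  let Q := MulAction.orbitRel.Quotient Z Ω
  haveI : Fintype Q := Fintype.ofFinite Q
  haveI : ∀ a : Z, Fintype (MulAction.fixedBy Ω a) := fun a => Fintype.ofFinite _
  have hb := MulAction.sum_card_fixedBy_eq_card_orbits_mul_card_group Z Ω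
  have hcard : Fintype.card Z = orderOf g := by
    rw [← Nat.card_eq_fintype_card, Nat.card_zpowers]
  set f := (Finset.univ.filter fun a => g a = a).card with hf
  have hfix : ∀ a : Z, f ≤ Fintype.card (MulAction.fixedBy Ω a) := by
    rintro ⟨a, ha⟩
    obtain ⟨i, rfl⟩ := Subgroup.mem_zpowers_iff.mp ha
    rw [← Set.toFinset_card, hf]
    apply Finset.card_le_card
    intro b hb'
    have hb2 : g b = b := (Finset.mem_filter.mp hb').2
    rw [Set.mem_toFinset, MulAction.mem_fixedBy]
    show (g ^ i) • b = b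
    rw [Equiv.Perm.smul_def]
    exact Equiv.Perm.zpow_apply_eq_self_of_apply_eq_self hb2 i
  have hone : Fintype.card (MulAction.fixedBy Ω (1 : Z)) = Fintype.card Ω := by
    rw [← Nat.card_eq_fintype_card, ← Nat.card_eq_fintype_card]
    apply Nat.card_congr
    refine ⟨fun x => x.1, fun x => ⟨x, ?_⟩, fun x => rfl, fun x => rfl⟩
    simp [MulAction.mem_fixedBy]
  have hsum : Fintype.card Ω + (orderOf g - 1) * f ≤ ∑ a : Z, Fintype.card (MulAction.fixedBy Ω a) := by
    rw [← Finset.add_sum_erase _ _ (Finset.mem_univ (1 : Z)), hone]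
    apply Nat.add_le_add_left
    have h1 : ((Finset.univ : Finset Z).erase 1).card = orderOf g - 1 := by
      rw [Finset.card_erase_of_mem (Finset.mem_univ _), Finset.card_univ, hcard]
    rw [← h1, ← smul_eq_mul]
    exact Finset.card_nsmul_le_sum _ _ _ fun a _ => hfix a
  have h9 := hsum
  rw [hb, hcard] at h9
  rw [Nat.card_eq_fintype_card, mul_comm (orderOf g) _]
  exact h9

end Cfsg.Agent.Lib.ReeCount
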