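import Cfsg.Agent.Lib.GolayGenM23Data
import Cfsg.Agent.Lib.GolaySLP
import Cfsg.Agent.Lib.GolayMathieuFus
import Cfsg.Agent.Lib.GolayInvol
import Cfsg.Agent.Lib.GolayOrder3
import Cfsg.Agent.Lib.ReeCount

/-!
Generation of the Mathieu group on 23 points by pairs of elements of prime orders.
-/

set_option autoImplicit false
set_option linter.style.haveILetI false
set_option linter.constructorNameAsVariable false

open scoped Pointwise

namespace Cfsg.Agent.Lib.GolayGenM23

open Cfsg Cfsg.Agent.Lib.GolayCode Cfsg.Agent.Lib.GolayFacts Cfsg.Agent.Lib.GolayPerm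
  Cfsg.Agent.Lib.GolayChain Cfsg.Agent.Lib.GolayDecomp Cfsg.Agent.Lib.GolayTrans
  Cfsg.Agent.Lib.GolayFix Cfsg.Agent.Lib.GolayOrbit Cfsg.Agent.Lib.GolaySLP
  Cfsg.Agent.Lib.GolaySimple Cfsg.Agent.Lib.GolayMathieuFus Cfsg.Agent.Lib.GolayGenM23Data
  Cfsg.Agent.Lib.ReeCount

/-! ### Two generators -/

/-- The transversals of the levels above the first. -/
def levs16 : List (List ℕ) := lev 1 ++ lev 2 ++ lev 3 ++ lev 4 ++ lev 5 ++ lev 6

theorem slpAB_check : slpRun slpAB [genD, genA] (fun s => levs16.all fun t => memL t s) = true := by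
  decide +kernel

theorem G1_le_of_gens (K : Subgroup (Equiv.Perm GolayPt)) (hA : toPerm genA ∈ K)
    (hD : toPerm genD ∈ K) : G 1 ≤ K := by
  have h0 : ∀ x ∈ [genD, genA], StackOK K x := by
    intro x hx
    simp only [List.mem_cons, List.not_mem_nil, or_false] at hx
    rcases hx with rfl | rfl
    · exact stackOK_of_isAut (gens3_isAut _ (by simp [gens3])) rfl hD
    · exact stackOK_of_isAut (gens3_isAut _ (by simp [gens3])) rfl hA
  have h1 := mem_of_slpRun slpAB _ h0 levs16 slpAB_check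
  apply G_le_of_levels 1 (by norm_num) K
  intro i hi1 hi t ht
  apply h1
  have : lev i ⊆ levs16 := by
    simp only [levs16]
    interval_cases i <;> simp [List.subset_def] <;> tauto
  exact this ht

/-- The check of a certificate. -/
def certOK (c : TCert) : Bool :=
  isAut c.x && isAut c.y && isAut (compL c.x c.y) && (img c.x 23 == 23) && (img c.y 23 == 23) &&
    orderChk c.p c.x && orderChk c.q c.y && orderChk c.r (compL c.x c.y) &&
    slpRun c.prog [c.y, c.x] (fun s => [genA, genD].all fun t => memL t s)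

theorem allCerts_ok : allCerts.all certOK = true := by
  decide +kernel

theorem mem_G1_of_fix {t : List ℕ} (ha : isAut t = true) (h : img t 23 = 23) : toPerm t ∈ Spor.M23 := by
  rw [M23_eq, mem_G]
  refine ⟨toPerm_mem_M24 ha, fun j hj => ?_⟩
  have hj0 : j = 0 := by omega
  subst hj0
  have hb : bs 0 = 23 := rfl
  rw [hb, toPerm_idxPt (isAut_valid ha) (by norm_num), h]

/-- A certificate yields a generating triple. -/
theorem exists_of_cert {c : TCert} (h : certOK c = true) (hp : c.p.Prime) (hq : c.q.Prime) (hr : c.r.Prime) :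
    ∃ x y z : Spor.M23, orderOf x = c.p ∧ orderOf y = c.q ∧ orderOf z = c.r ∧ x * y * z = 1 ∧
      Subgroup.closure {x, y} = ⊤ := by
  simp only [certOK, Bool.and_eq_true, beq_iff_eq] at h
  obtain ⟨⟨⟨⟨⟨⟨⟨⟨hax, hay⟩, haxy⟩, hx23⟩, hy23⟩, hox⟩, hoy⟩, hoxy⟩, hslp⟩ := h
  have hgx := good_of_isAut hax
  have hgy := good_of_isAut hay
  let X : Spor.M23 := ⟨toPerm c.x, mem_G1_of_fix hax hx23⟩
  let Y : Spor.M23 := ⟨toPerm c.y, mem_G1_of_fix hay hy23⟩
  refine ⟨X, Y, (X * Y)⁻¹, ?_, ?_, ?_, by group, ?_⟩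
  · rw [← orderOf_toPerm hax hp hox]
    exact Subgroup.orderOf_mk _ _
  · rw [← orderOf_toPerm hay hq hoy]
    exact Subgroup.orderOf_mk _ _
  · rw [orderOf_inv, ← orderOf_toPerm haxy hr hoxy, toPerm_compL hgx hgy]
    exact Subgroup.orderOf_mk _ _
  · rw [Subgroup.eq_top_iff']
    intro g
    let K : Subgroup (Equiv.Perm GolayPt) := Subgroup.closure {toPerm c.x, toPerm c.y}
    have hxK : toPerm c.x ∈ K := Subgroup.subset_closure (by simp)
    have hyK : toPerm c.y ∈ K := Subgroup.subset_closure (by simp)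
    have h0 : ∀ t ∈ [c.y, c.x], StackOK K t := by
      intro t ht
      simp only [List.mem_cons, List.not_mem_nil, or_false] at ht
      rcases ht with rfl | rfl
      · exact stackOK_of_isAut hay (length_of_valid (isAut_valid hay)) hyK
      · exact stackOK_of_isAut hax (length_of_valid (isAut_valid hax)) hxK
    have h1 := mem_of_slpRun c.prog _ h0 [genA, genD] hslp
    have hle := G1_le_of_gens K (h1 _ (by simp)) (h1 _ (by simp))
    have hg : (g : Equiv.Perm GolayPt) ∈ K := by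
      apply hle
      rw [← M23_eq]
      exact g.2
    have hmap : K = (Subgroup.closure ({X, Y} : Set Spor.M23)).map Spor.M23.subtype := by
      rw [MonoidHom.map_closure, Set.image_pair]
      rfl
    rw [hmap] at hg
    obtain ⟨u, hu, he⟩ := hg
    have : u = g := Subtype.ext he
    exact this ▸ hu

/-- The list of relevant primes. -/
def L6 : List ℕ := [2, 3, 5, 7, 11, 23]

/-- The exceptional triples. -/
def Exc (p q r : ℕ) : Prop :=
  (p = 2 ∧ q = 3) ∨ (p = 2 ∧ q = 5 ∧ r = 5) ∨ (p = 2 ∧ q = 5 ∧ r = 7) ∨ (p = 3 ∧ q = 3 ∧ r ≤ 7)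

instance (p q r : ℕ) : Decidable (Exc p q r) := by
  unfold Exc
  infer_instance

theorem certs_cover : ∀ p ∈ L6, ∀ q ∈ L6, ∀ r ∈ L6, p ≤ q → q ≤ r → ¬ (p = 2 ∧ q = 2) → ¬ Exc p q r →
    ∃ c ∈ allCerts, c.p = p ∧ c.q = q ∧ c.r = r := by
  have : ∀ p ∈ L6, ∀ q ∈ L6, ∀ r ∈ L6, p ≤ q → q ≤ r → ¬ (p = 2 ∧ q = 2) → ¬ Exc p q r →
      allCerts.any (fun c => c.p == p && c.q == q && c.r == r) = true := by
    decide +kernel
  intro p hp q hq r hr h1 h2 h3 h4
  have h5 := this p hp q hq r hr h1 h2 h3 h4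
  obtain ⟨c, hc, he⟩ := List.any_eq_true.mp h5
  simp only [Bool.and_eq_true, beq_iff_eq] at he
  exact ⟨c, hc, he.1.1, he.1.2, he.2⟩

/-- The positive direction. -/
theorem exists_triple {p q r : ℕ} (hp : p.Prime) (hq : q.Prime) (hr : r.Prime)
    (hp6 : p ∈ L6) (hq6 : q ∈ L6) (hr6 : r ∈ L6) (h1 : p ≤ q) (h2 : q ≤ r) (h3 : ¬ (p = 2 ∧ q = 2))
    (h4 : ¬ Exc p q r) :
    ∃ x y z : Spor.M23, orderOf x = p ∧ orderOf y = q ∧ orderOf z = r ∧ x * y * z = 1 ∧
      Subgroup.closure {x, y} = ⊤ := by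
  obtain ⟨c, hc, rfl, rfl, rfl⟩ := certs_cover p hp6 q hq6 r hr6 h1 h2 h3 h4
  exact exists_of_cert (List.all_eq_true.mp allCerts_ok c hc) hp hq hr

/-! ### Ree's inequality in `M23` -/

/-- Lower bounds for the number of cycles. -/
def cyc6 : ℕ → ℕ
  | 2 => 16
  | 3 => 12
  | 5 => 8
  | 7 => 6
  | 11 => 4
  | 23 => 2
  | _ => 0

/-- The number of fixed points. -/
def fix6 : ℕ → ℕ
  | 2 => 8
  | 3 => 6
  | 5 => 4
  | 7 => 3
  | 11 => 2
  | 23 => 1
  | _ => 0

theorem fix_of_order {g : Equiv.Perm GolayPt} (hg : g ∈ Spor.M23) {p : ℕ} (hp6 : p ∈ L6)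
    (ho : orderOf g = p) : fix6 p ≤ (fixF g).card := by
  have hm : g ∈ M24 := hg.1
  have hn : g none = none := hg.2
  have hpos : 0 < (fixF g).card := Finset.card_pos.mpr ⟨none, mem_fixF.mpr hn⟩
  simp only [L6, List.mem_cons, List.not_mem_nil, or_false] at hp6
  rcases hp6 with rfl | rfl | rfl | rfl | rfl | rfl
  · rcases Cfsg.Agent.Lib.GolayInvol.invol_classify hm ho with ⟨h0, -⟩ | ⟨h8, -⟩
    · omega
    · exact h8.ge
  · exact (Cfsg.Agent.Lib.GolayOrder3.card_fix3 hm ho hn).ge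
  · exact (card_fix5 hm ho).ge
  · exact (card_fix7 hm ho).ge
  · exact (card_fix11 hm ho).ge
  · exact (card_fix23 hm ho).ge

theorem cyc_of_order {g : Equiv.Perm GolayPt} (hg : g ∈ Spor.M23) {p : ℕ} (hp6 : p ∈ L6)
    (ho : orderOf g = p) : cyc6 p ≤ Module.finrank ℚ ↥(LinearMap.ker (dft g)) := by
  have h1 := fix_of_order hg hp6 ho
  have h2 := orbits_count g
  have h3 := orbits_le_cyc g
  have h4 : (Finset.univ.filter fun a => g a = a).card = (fixF g).card := rfl
  have h5 : Fintype.card GolayPt = 24 := by decide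
  rw [h4, ho, h5] at h2
  have h6 : p * (fix6 p + 0) ≤ p * (fix6 p + 0) := le_refl _
  simp only [L6, List.mem_cons, List.not_mem_nil, or_false] at hp6
  rcases hp6 with rfl | rfl | rfl | rfl | rfl | rfl <;> simp only [cyc6, fix6] at h1 ⊢ <;> omega

/-- An invariant function of `M23` has at most two values. -/
theorem finrank_inv_le {x y : Equiv.Perm GolayPt}
    (hK : G 1 ≤ Subgroup.closure {x, y}) :
    Module.finrank ℚ ↥(LinearMap.ker (dft x) ⊓ LinearMap.ker (dft y)) ≤ 2 := by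
  set Inv := LinearMap.ker (dft x) ⊓ LinearMap.ker (dft y) with hInv
  let e : ↥Inv →ₗ[ℚ] (Fin 2 → ℚ) :=
    { toFun := fun v i => (v : GolayPt → ℚ) (if i = 0 then none else some 0)
      map_add' := fun a b => by
        funext i
        rfl
      map_smul' := fun r a => by
        funext i
        rfl }
  have hinv : ∀ v ∈ Inv, ∀ g ∈ Subgroup.closure ({x, y} : Set (Equiv.Perm GolayPt)), ∀ a, v (g a) = v a := by
    intro v hv g hg
    induction hg using Subgroup.closure_induction with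
    | mem u hu =>
      rcases hu with rfl | rfl
      · exact comp_eq_of_dft hv.1
      · exact comp_eq_of_dft hv.2
    | one => simp
    | mul a b _ _ ha hb =>
      intro c
      rw [Equiv.Perm.mul_apply, ha, hb]
    | inv a _ ha =>
      intro c
      have := ha (a⁻¹ c)
      rw [show a (a⁻¹ c) = c by simp] at this
      exact this.symm
  have he : Function.Injective e := by
    rw [← LinearMap.ker_eq_bot, LinearMap.ker_eq_bot']
    rintro ⟨v, hv⟩ h0
    have h1 : v none = 0 := congrFun h0 0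
    have h2 : v (some 0) = 0 := congrFun h0 1
    apply Subtype.ext
    funext a
    show v a = 0
    rcases a with _ | b
    · exact h1
    · obtain ⟨g, hg, hg1, hg2⟩ := exists_map_pair (p := none) (q := some 0) (r := none) (s := some b)
        (by simp) (by simp)
      have hgG : g ∈ G 1 := by
        rw [mem_G]
        refine ⟨hg, fun j hj => ?_⟩
        have hj0 : j = 0 := by omega
        subst hj0
        exact hg1
      have h3 := hinv v hv g (hK hgG) (some 0)
      rw [hg2, h2] at h3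
      exact h3
  have := LinearMap.finrank_le_finrank_of_injective he
  simpa using this

/-- The negative direction. -/
theorem no_triple {p q r : ℕ} (hp6 : p ∈ L6) (hq6 : q ∈ L6) (hr6 : r ∈ L6)
    (hc : 28 < cyc6 p + cyc6 q + cyc6 r) (x y z : Spor.M23) (hx : orderOf x = p) (hy : orderOf y = q)
    (hz : orderOf z = r) (hxyz : x * y * z = 1) (hcl : Subgroup.closure {x, y} = ⊤) : False := by
  have hK : G 1 ≤ Subgroup.closure ({(x : Equiv.Perm GolayPt), (y : Equiv.Perm GolayPt)} : Set (Equiv.Perm GolayPt)) := by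
    intro g hg
    have hg' : g ∈ Spor.M23 := by
      rw [M23_eq]
      exact hg
    have h1 : (⟨g, hg'⟩ : Spor.M23) ∈ Subgroup.closure ({x, y} : Set Spor.M23) := by
      rw [hcl]
      exact Subgroup.mem_top _
    have h2 := Subgroup.mem_map_of_mem Spor.M23.subtype h1
    rw [MonoidHom.map_closure, Set.image_pair] at h2
    exact h2
  have h1 := finrank_inv_le hK
  have h2 : (x : Equiv.Perm GolayPt) * y * z = 1 := by
    have := congrArg (fun t : Spor.M23 => (t : Equiv.Perm GolayPt)) hxyz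
    simpa using this
  have h3 := ree_ineq (x : Equiv.Perm GolayPt) y z h2
  have h4 := rank_add_cyc (x : Equiv.Perm GolayPt)
  have h5 := rank_add_cyc (y : Equiv.Perm GolayPt)
  have h6 := rank_add_cyc (z : Equiv.Perm GolayPt)
  have h7 : Fintype.card GolayPt = 24 := by decide
  rw [h7] at h3 h4 h5 h6
  have h8 := cyc_of_order x.2 hp6 (by rw [← hx]; exact Subgroup.orderOf_coe x)
  have h9 := cyc_of_order y.2 hq6 (by rw [← hy]; exact Subgroup.orderOf_coe y)
  have h10 := cyc_of_order z.2 hr6 (by rw [← hz]; exact Subgroup.orderOf_coe z)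
  omega

theorem exc_bound : ∀ p ∈ L6, ∀ q ∈ L6, ∀ r ∈ L6, Exc p q r → 28 < cyc6 p + cyc6 q + cyc6 r := by
  decide +kernel

theorem mem_L6_of_dvd {p : ℕ} (hp : p.Prime) (h : p ∣ 10200960) : p ∈ L6 := by
  have h1 : (10200960 : ℕ) = 2 ^ 7 * (3 ^ 2 * (5 * (7 * (11 * 23)))) := by norm_num
  rw [h1] at h
  have e : ∀ q : ℕ, q.Prime → p ∣ q → p = q := fun q hq hd => (Nat.prime_dvd_prime_iff_eq hp hq).mp hd
  simp only [L6, List.mem_cons, List.not_mem_nil, or_false]
  rcases (Nat.Prime.dvd_mul hp).mp h with h | h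
  · exact Or.inl (e 2 Nat.prime_two (hp.dvd_of_dvd_pow h))
  rcases (Nat.Prime.dvd_mul hp).mp h with h | h
  · exact Or.inr (Or.inl (e 3 Nat.prime_three (hp.dvd_of_dvd_pow h)))
  rcases (Nat.Prime.dvd_mul hp).mp h with h | h
  · exact Or.inr (Or.inr (Or.inl (e 5 (by norm_num) h)))
  rcases (Nat.Prime.dvd_mul hp).mp h with h | h
  · exact Or.inr (Or.inr (Or.inr (Or.inl (e 7 (by norm_num) h))))
  rcases (Nat.Prime.dvd_mul hp).mp h with h | h
  · exact Or.inr (Or.inr (Or.inr (Or.inr (Or.inl (e 11 (by norm_num) h)))))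
  · exact Or.inr (Or.inr (Or.inr (Or.inr (Or.inr (e 23 (by norm_num) h)))))

/-- The classification of prime triples generating `M23`. -/
theorem main (p q r : ℕ) (hp : p.Prime) (hq : q.Prime) (hr : r.Prime) (hpq : p ≤ q) (hqr : q ≤ r)
    (hp2 : ¬ (p = 2 ∧ q = 2)) (hdvd : p ∣ 10200960 ∧ q ∣ 10200960 ∧ r ∣ 10200960) :
    (∃ x y z : Spor.M23, orderOf x = p ∧ orderOf y = q ∧ orderOf z = r ∧ x * y * z = 1 ∧
        Subgroup.closure {x, y} = ⊤) ↔
      ¬ ((p = 2 ∧ q = 3) ∨ (p = 2 ∧ q = 5 ∧ r = 5) ∨ (p = 2 ∧ q = 5 ∧ r = 7) ∨ (p = 3 ∧ q = 3 ∧ r ≤ 7)) := by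
  have hp6 := mem_L6_of_dvd hp hdvd.1
  have hq6 := mem_L6_of_dvd hq hdvd.2.1
  have hr6 := mem_L6_of_dvd hr hdvd.2.2
  constructor
  · rintro ⟨x, y, z, hx, hy, hz, hxyz, hcl⟩ hex
    exact no_triple hp6 hq6 hr6 (exc_bound p hp6 q hq6 r hr6 hex) x y z hx hy hz hxyz hcl
  · intro hex
    exact exists_triple hp hq hr hp6 hq6 hr6 hpq hqr hp2 hex

end Cfsg.Agent.Lib.GolayGenM23
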