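import Mathlib
import Cfsg.Agent.Lib.H5Basic

/-! Strongly `p`-embedded subgroups in the classical sense. -/

set_option autoImplicit false
set_option linter.unusedSectionVars false

namespace Cfsg.Agent.Lib.H5Strong

open Cfsg.Agent.Lib.H5Basic

variable {G : Type*} [Group G] [Finite G] {p : ℕ} [Fact p.Prime]

/-- A nontrivial `p`-subgroup inside `H` and `H^k` forces `k ∈ H`. -/
theorem mem_of_le_of_le {H T : Subgroup G}
    (hse : ∀ g : G, g ∉ H → ¬ p ∣ Nat.card ↥(H ⊓ H.map (MulAut.conj g).toMonoidHom))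
    (hTp : IsPGroup p T) (hne : T ≠ ⊥) (hTH : T ≤ H) {k : G}
    (hTk : T ≤ H.map (MulAut.conj k).toMonoidHom) : k ∈ H := by
  by_contra hk
  apply hse k hk
  exact (dvd_card_of_isPGroup hTp hne).trans (Subgroup.card_dvd_of_le (le_inf hTH hTk))

/-- The normalizer of a nontrivial `p`-subgroup of `H` lies in `H`. -/
theorem normalizer_le {H T : Subgroup G}
    (hse : ∀ g : G, g ∉ H → ¬ p ∣ Nat.card ↥(H ⊓ H.map (MulAut.conj g).toMonoidHom))
    (hTp : IsPGroup p T) (hne : T ≠ ⊥) (hTH : T ≤ H) :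
    Subgroup.normalizer (T : Set G) ≤ H := by
  intro k hk
  apply mem_of_le_of_le hse hTp hne hTH
  intro t ht
  have h1 : k⁻¹ * t * k ∈ T := by
    have := (Subgroup.mem_normalizer_iff.1 (Subgroup.inv_mem _ hk) t).1 ht
    simpa using this
  exact ⟨k⁻¹ * t * k, hTH h1, by simp [MulAut.conj_apply, mul_assoc]⟩

/-- `H` contains a Sylow `p`-subgroup of `G`. -/
theorem exists_sylow_le {H : Subgroup G} (hp : p ∣ Nat.card H)
    (hse : ∀ g : G, g ∉ H → ¬ p ∣ Nat.card ↥(H ⊓ H.map (MulAut.conj g).toMonoidHom)) :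
    ∃ P : Sylow p G, (P : Subgroup G) ≤ H := by
  classical
  obtain ⟨y, hy⟩ := exists_prime_orderOf_dvd_card' (G := H) p hp
  have hz : IsPGroup p (Subgroup.zpowers y) := by
    rw [IsPGroup.iff_card, Nat.card_zpowers, hy]
    exact ⟨1, (pow_one p).symm⟩
  obtain ⟨Q, hQ⟩ := hz.exists_le_sylow
  have hyQ : y ∈ (Q : Subgroup H) := hQ (Subgroup.mem_zpowers y)
  set Q₀ : Subgroup G := (Q : Subgroup H).map H.subtype with hQ₀
  have hQ₀p : IsPGroup p Q₀ := Q.isPGroup'.map _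
  have hQ₀H : Q₀ ≤ H := by
    rintro _ ⟨x, -, rfl⟩
    exact x.2
  have hQ₀ne : Q₀ ≠ ⊥ := by
    intro hb
    have h1 : (y : G) ∈ Q₀ := ⟨y, hyQ, rfl⟩
    rw [hb, Subgroup.mem_bot] at h1
    have h2 : y = 1 := Subtype.ext h1
    rw [h2, orderOf_one] at hy
    exact (Fact.out : p.Prime).one_lt.ne hy
  obtain ⟨P, hP⟩ := hQ₀p.exists_le_sylow
  refine ⟨P, ?_⟩
  by_cases he : Q₀ = (P : Subgroup G)
  · rw [← he]; exact hQ₀H
  exfalso
  obtain ⟨x, hxP, hxQ, hxN⟩ := exists_mem_normalizer_of_lt P.isPGroup' hP he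
  have hxH : x ∈ H := normalizer_le hse hQ₀p hQ₀ne hQ₀H hxN
  -- a larger `p`-subgroup of `H`
  set R : Subgroup G := Q₀ ⊔ Subgroup.zpowers x with hR
  have hRP : R ≤ (P : Subgroup G) := sup_le hP (by rw [Subgroup.zpowers_le]; exact hxP)
  have hRH : R ≤ H := sup_le hQ₀H (by rw [Subgroup.zpowers_le]; exact hxH)
  have hRp : IsPGroup p R := P.isPGroup'.to_le hRP
  have hR' : IsPGroup p (R.subgroupOf H) := hRp.comap_of_injective H.subtype H.subtype_injective
  have hle : (Q : Subgroup H) ≤ R.subgroupOf H := by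
    intro a ha
    exact Subgroup.mem_sup_left (⟨a, ha, rfl⟩ : (a : G) ∈ Q₀)
  have heq := Q.is_maximal' hR' hle
  apply hxQ
  have hxR : (⟨x, hxH⟩ : H) ∈ R.subgroupOf H := Subgroup.mem_sup_right (Subgroup.mem_zpowers x)
  rw [heq] at hxR
  exact ⟨_, hxR, rfl⟩

end Cfsg.Agent.Lib.H5Strong
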