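import Mathlib
import Cfsg.Agent.Lib.Dihedral

/-!
# Subgroups of dihedral two-groups
-/

set_option autoImplicit false
set_option linter.all false

namespace Cfsg.Agent.Lib.H6DihSub

open Subgroup DihedralGroup

theorem two_mul_zmod {n : ℕ} (j : ZMod (2 ^ n)) (h : 2 * j = 0) :
    j = 0 ∨ j = ((2 ^ (n - 1) : ℕ) : ZMod (2 ^ n)) := by
  cases n with
  | zero =>
    left
    exact (inferInstance : Subsingleton (ZMod 1)).elim _ _
  | succ m =>
    have : NeZero (2 ^ (m + 1)) := ⟨by positivity⟩
    have hv := ZMod.val_lt j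
    have h1 : ((2 * j.val : ℕ) : ZMod (2 ^ (m + 1))) = 0 := by
      push_cast
      rw [ZMod.natCast_zmod_val]
      exact h
    rw [ZMod.natCast_eq_zero_iff] at h1
    have h2 : 2 ^ m ∣ j.val := by
      have h1' : 2 * 2 ^ m ∣ 2 * j.val := by
        rw [← pow_succ']
        exact h1
      exact Nat.dvd_of_mul_dvd_mul_left (by norm_num) h1'
    obtain ⟨c, hc⟩ := h2
    have hc2 : c < 2 := by
      have h3 : 0 < 2 ^ m := by positivity
      rw [hc, pow_succ] at hv
      exact Nat.lt_of_mul_lt_mul_left hv
    interval_cases c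
    · left
      have h4 : j.val = 0 := by simpa using hc
      exact (ZMod.val_eq_zero j).1 h4
    · right
      simp only [Nat.add_sub_cancel]
      rw [← ZMod.natCast_zmod_val j, hc, mul_one]

theorem cent_sr {n : ℕ} (i : ZMod (2 ^ n)) (y : DihedralGroup (2 ^ n))
    (h : y * sr i = sr i * y) :
    y = r 0 ∨ y = r ((2 ^ (n - 1) : ℕ) : ZMod (2 ^ n)) ∨ y = sr i ∨
      y = sr (i + ((2 ^ (n - 1) : ℕ) : ZMod (2 ^ n))) := by
  cases y with
  | r j =>
    simp only [r_mul_sr, sr_mul_r, sr.injEq] at h
    have h1 : 2 * j = 0 := by linear_combination - h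
    rcases two_mul_zmod j h1 with h2 | h2
    · left; rw [h2]
    · right; left; rw [h2]
  | sr j =>
    simp only [sr_mul_sr, r.injEq] at h
    have h1 : 2 * (j - i) = 0 := by linear_combination - h
    rcases two_mul_zmod _ h1 with h2 | h2
    · right; right; left
      have : j = i := by linear_combination h2
      rw [this]
    · right; right; right
      have : j = i + ((2 ^ (n - 1) : ℕ) : ZMod (2 ^ n)) := by linear_combination h2
      rw [this]

theorem comm_of_sq {T : Type*} [Group T] (K : Subgroup T) (hK2 : ∀ k ∈ K, k ^ 2 = 1) {a b : T}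
    (ha : a ∈ K) (hb : b ∈ K) : a * b = b * a := by
  have h1 := hK2 _ (K.mul_mem ha hb)
  have h2 := hK2 _ ha
  have h3 := hK2 _ hb
  rw [pow_two] at h1 h2 h3
  calc a * b = a * (a * b * (a * b)) * b := by rw [h1]; group
    _ = (a * a) * b * a * (b * b) := by group
    _ = b * a := by rw [h2, h3]; group

theorem ncard_pair_le' {T : Type*} (a b : T) : ({a, b} : Set T).ncard ≤ 2 :=
  (Set.ncard_insert_le a {b}).trans (by rw [Set.ncard_singleton])

/-- Elementary abelian subgroups of order four of a dihedral two-group are self-centralizing. -/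
theorem klein_mem {n : ℕ} (K : Subgroup (DihedralGroup (2 ^ n))) (hK : Nat.card K = 4)
    (hK2 : ∀ k ∈ K, k ^ 2 = 1) (y : DihedralGroup (2 ^ n)) (hy : ∀ k ∈ K, y * k = k * y) : y ∈ K := by
  have : NeZero (2 ^ n) := ⟨by positivity⟩
  obtain ⟨z, hz⟩ : ∃ z : ZMod (2 ^ n), z = ((2 ^ (n - 1) : ℕ) : ZMod (2 ^ n)) := ⟨_, rfl⟩
  -- a reflection in K
  have h1 : ∃ i, sr i ∈ K := by
    by_contra hno
    push Not at hno
    have hsub : (K : Set (DihedralGroup (2 ^ n))) ⊆ {r 0, r z} := by
      intro k hk
      have hk2 := hK2 k hk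
      cases k with
      | r j =>
        rw [pow_two, r_mul_r, ← r_zero, r.injEq] at hk2
        have h2 : 2 * j = 0 := by linear_combination hk2
        rcases two_mul_zmod j h2 with h3 | h3
        · left; rw [h3]
        · right; rw [h3, hz]; rfl
      | sr j => exact absurd hk (hno j)
    have h3 := Set.ncard_le_ncard hsub (Set.toFinite _)
    rw [← Nat.card_coe_set_eq] at h3
    have h4 : ({r 0, r z} : Set (DihedralGroup (2 ^ n))).ncard ≤ 2 := ncard_pair_le' _ _
    change Nat.card K ≤ _ at h3
    omega
  obtain ⟨i, hi⟩ := h1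
  have hsub : (K : Set (DihedralGroup (2 ^ n))) ⊆ {r 0, r z, sr i, sr (i + z)} := by
    intro k hk
    have h3 := cent_sr i k (comm_of_sq K hK2 hk hi)
    rw [← hz] at h3
    exact h3
  have h5 : ({r 0, r z, sr i, sr (i + z)} : Set (DihedralGroup (2 ^ n))).ncard ≤ 4 := by
    refine (Set.ncard_insert_le _ _).trans ?_
    have := Set.ncard_insert_le (r z) ({sr i, sr (i + z)} : Set (DihedralGroup (2 ^ n)))
    have h6 : ({sr i, sr (i + z)} : Set (DihedralGroup (2 ^ n))).ncard ≤ 2 := ncard_pair_le' _ _
    omega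
  have heq : (K : Set (DihedralGroup (2 ^ n))) = {r 0, r z, sr i, sr (i + z)} := by
    refine Set.eq_of_subset_of_ncard_le hsub ?_ (Set.toFinite _)
    rw [← Nat.card_coe_set_eq (K : Set (DihedralGroup (2 ^ n)))]
    change _ ≤ Nat.card K
    omega
  have h7 := cent_sr i y (hy _ hi)
  rw [← hz] at h7
  have h8 : y ∈ (K : Set (DihedralGroup (2 ^ n))) := by
    rw [heq]
    exact h7
  exact h8

/-- Klein subgroup from two commuting involutions. -/
theorem exists_klein {T : Type*} [Group T] (a b : T) (ha2 : a ^ 2 = 1) (hb2 : b ^ 2 = 1)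
    (hab : a * b = b * a) (ha1 : a ≠ 1) (hb1 : b ≠ 1) (hne : a ≠ b) :
    ∃ K : Subgroup T, a ∈ K ∧ b ∈ K ∧ Nat.card K = 4 ∧ ∀ k ∈ K, k ^ 2 = 1 := by
  classical
  have ha3 : a * a = 1 := by rw [← pow_two]; exact ha2
  have hb3 : b * b = 1 := by rw [← pow_two]; exact hb2
  have hai : a⁻¹ = a := inv_eq_of_mul_eq_one_left ha3
  have hbi : b⁻¹ = b := inv_eq_of_mul_eq_one_left hb3
  have hba : b * a = a * b := hab.symm
  have h1 : a * (a * b) = b := by rw [← mul_assoc, ha3, one_mul]
  have h2 : b * (a * b) = a := by rw [← mul_assoc, hba, mul_assoc, hb3, mul_one]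
  have h3 : a * b * a = b := by rw [mul_assoc, hba, ← mul_assoc, ha3, one_mul]
  have h4 : a * b * b = a := by rw [mul_assoc, hb3, mul_one]
  have h5 : a * b * (a * b) = 1 := by
    rw [← mul_assoc, h3, hb3]
  let K : Subgroup T :=
    { carrier := {1, a, b, a * b}
      one_mem' := by simp
      mul_mem' := by
        intro x y hx hy
        simp only [Set.mem_insert_iff, Set.mem_singleton_iff] at hx hy ⊢
        rcases hx with rfl | rfl | rfl | rfl <;> rcases hy with rfl | rfl | rfl | rfl <;>
          simp [ha3, hb3, hba, h1, h2, h3, h4, h5]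
      inv_mem' := by
        intro x hx
        simp only [Set.mem_insert_iff, Set.mem_singleton_iff] at hx ⊢
        rcases hx with rfl | rfl | rfl | rfl
        · simp
        · simp [hai]
        · simp [hbi]
        · right; right; right
          rw [mul_inv_rev, hai, hbi, hba] }
  refine ⟨K, ?_, ?_, ?_, ?_⟩
  · show a ∈ ({1, a, b, a * b} : Set T)
    simp
  · show b ∈ ({1, a, b, a * b} : Set T)
    simp
  · have hset : (K : Set T) = (({1, a, b, a * b} : Finset T) : Set T) := by
      ext x
      show x ∈ ({1, a, b, a * b} : Set T) ↔ _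
      simp
    show Nat.card (K : Set T) = 4
    rw [Nat.card_coe_set_eq, hset, Set.ncard_coe_finset]
    have hab1 : a * b ≠ 1 := by
      intro h
      apply hne
      have := eq_inv_of_mul_eq_one_left h
      rwa [hbi] at this
    have haab : a ≠ a * b := by
      intro h
      apply hb1
      exact (mul_eq_left.1 h.symm)
    have hbab : b ≠ a * b := by
      intro h
      apply ha1
      exact (mul_eq_right.1 h.symm)
    rw [Finset.card_insert_of_notMem (by simp [ha1.symm, hb1.symm, hab1.symm]),
      Finset.card_insert_of_notMem (by simp [hne, haab]),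
      Finset.card_insert_of_notMem (by simp [hbab]), Finset.card_singleton]
  · intro k hk
    have hk' : k ∈ ({1, a, b, a * b} : Set T) := hk
    simp only [Set.mem_insert_iff, Set.mem_singleton_iff] at hk'
    rcases hk' with rfl | rfl | rfl | rfl
    · simp
    · exact ha2
    · exact hb2
    · rw [pow_two]; exact h5

/-- Classification of the subgroups of a dihedral two-group. -/
theorem dihedral_subgroup {n : ℕ} (S : Subgroup (DihedralGroup (2 ^ n))) :
    IsCyclic S ∨ ∃ k, 1 ≤ k ∧ Nonempty (S ≃* DihedralGroup (2 ^ k)) := by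
  have : NeZero (2 ^ n) := ⟨by positivity⟩
  let A : Subgroup (DihedralGroup (2 ^ n)) := zpowers (r 1)
  have hA : ∀ j, r j ∈ A := by
    intro j
    refine ⟨(j.val : ℤ), ?_⟩
    show (r 1 : DihedralGroup (2 ^ n)) ^ (j.val : ℤ) = _
    rw [r_one_zpow]
    simp
  have hA' : ∀ j, sr j ∉ A := by
    rintro j ⟨k, hk⟩
    have : (r 1 : DihedralGroup (2 ^ n)) ^ k = sr j := hk
    rw [r_one_zpow] at this
    exact absurd this (by simp)
  have hAcard : Nat.card A = 2 ^ n := by
    rw [Nat.card_zpowers, orderOf_r_one]
  by_cases hSA : S ≤ A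
  · left
    exact isCyclic_of_injective (Subgroup.inclusion hSA) (Subgroup.inclusion_injective hSA)
  · obtain ⟨y, hyS, hyA⟩ := SetLike.not_le_iff_exists.1 hSA
    obtain ⟨i, rfl⟩ : ∃ i, y = sr i := by
      cases y with
      | r j => exact absurd (hA j) hyA
      | sr j => exact ⟨j, rfl⟩
    let R : Subgroup S := A.subgroupOf S
    let f : R →* A := (S.subtype.comp R.subtype).codRestrict A (fun x => x.2)
    have hf : Function.Injective f := by
      intro u v huv
      apply Subtype.ext
      apply Subtype.ext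
      have := congrArg Subtype.val huv
      exact this
    have hRcyc : IsCyclic R := isCyclic_of_injective f hf
    obtain ⟨d, hd⟩ : ∃ d, d = Nat.card R := ⟨_, rfl⟩
    have hddvd : d ∣ 2 ^ n := by
      have h1 := Subgroup.card_dvd_of_injective f hf
      rw [hAcard] at h1
      rw [hd]
      exact h1
    obtain ⟨m, -, hm⟩ := (Nat.dvd_prime_pow Nat.prime_two).1 hddvd
    obtain ⟨⟨a, haR⟩, hgen⟩ := hRcyc.exists_generator
    have hord : orderOf a = d := by
      have h1 : orderOf (⟨a, haR⟩ : R) = Nat.card R := orderOf_eq_card_of_forall_mem_zpowers hgen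
      rw [Subgroup.orderOf_mk] at h1
      rw [hd, h1]
    let s : S := ⟨sr i, hyS⟩
    have hidx : R.index = 2 := by
      rw [Subgroup.index_eq_two_iff]
      refine ⟨s, ?_⟩
      rintro ⟨b, hb⟩
      have key : ∀ u : S, u ∈ R ↔ (u : DihedralGroup (2 ^ n)) ∈ A := fun u => Iff.rfl
      rw [key, key]
      cases b with
      | r j =>
        right
        refine ⟨hA j, ?_⟩
        show ¬ (r j * sr i ∈ A)
        rw [r_mul_sr]
        exact hA' _
      | sr j =>
        left
        refine ⟨?_, hA' j⟩
        show (sr j * sr i ∈ A)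
        rw [sr_mul_sr]
        exact hA _
    have hScard : Nat.card S = 2 * d := by
      have := R.card_mul_index
      rw [hidx, ← hd] at this
      rw [← this, mul_comm]
    have : NeZero d := ⟨by rw [hm]; positivity⟩
    have hnon : Nonempty (S ≃* DihedralGroup d) := by
      refine Cfsg.Agent.Lib.Dihedral.nonempty_mulEquiv_dihedral d a s hord ?_ ?_ ?_ hScard
      · apply Subtype.ext
        show (sr i : DihedralGroup (2 ^ n)) ^ 2 = 1
        rw [pow_two, sr_mul_self]
      · apply Subtype.ext
        have haA : ((a : S) : DihedralGroup (2 ^ n)) ∈ A := haR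
        show sr i * (a : DihedralGroup (2 ^ n)) * (sr i)⁻¹ = ((a : DihedralGroup (2 ^ n)))⁻¹
        rcases hac : (a : DihedralGroup (2 ^ n)) with j | j
        · rw [inv_sr, sr_mul_r, sr_mul_sr, inv_r]
          congr 1
          ring
        · rw [hac] at haA
          exact absurd haA (hA' j)
      · intro hmem
        have h1 : s ∈ R := by
          have h2 : zpowers a ≤ R := by
            rw [zpowers_le]
            exact haR
          exact h2 hmem
        exact hA' i h1
    rw [hm] at hnon
    rcases Nat.eq_zero_or_pos m with rfl | hmpos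
    · left
      obtain ⟨e⟩ := hnon
      have hc : Nat.card S = 2 := by
        rw [hScard, hm]; simp
      have : Fact (Nat.Prime (Nat.card S)) := ⟨by rw [hc]; exact Nat.prime_two⟩
      exact isCyclic_of_prime_card rfl
    · right
      exact ⟨m, hmpos, hnon⟩

end Cfsg.Agent.Lib.H6DihSub
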