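import Mathlib

/-! Split extensions of a linear group by copies of its natural module in characteristic two:
the prime graph does not change when all elements with a nonzero fixed vector are `2`-elements. -/

set_option autoImplicit false

namespace Cfsg.Agent.Lib.H6Ext

open Matrix

variable (F : Type*) [Field F] (d : ℕ)

/-- `n` copies of the natural module, as a multiplicative group. -/
abbrev V (n : ℕ) := Multiplicative (Fin n → Fin d → F)

variable {F d}

variable {Γ : Type*} [Group Γ] (ρ : Γ →* GL (Fin d) F)

/-- The action on `n` copies of the natural module. -/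
def act (n : ℕ) : Γ →* MulAut (V F d n) where
  toFun g :=
    { toFun := fun v => Multiplicative.ofAdd
        (fun i => (ρ g : Matrix (Fin d) (Fin d) F) *ᵥ (Multiplicative.toAdd v i))
      invFun := fun v => Multiplicative.ofAdd
        (fun i => (ρ g⁻¹ : Matrix (Fin d) (Fin d) F) *ᵥ (Multiplicative.toAdd v i))
      left_inv := by
        intro v
        apply Multiplicative.toAdd.injective
        funext i
        have h1 : (ρ g⁻¹ : Matrix (Fin d) (Fin d) F) * (ρ g : Matrix (Fin d) (Fin d) F) = 1 := by
          rw [← Units.val_mul, ← map_mul, inv_mul_cancel, map_one, Units.val_one]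
        show (ρ g⁻¹ : Matrix (Fin d) (Fin d) F) *ᵥ
          ((ρ g : Matrix (Fin d) (Fin d) F) *ᵥ (Multiplicative.toAdd v i)) = Multiplicative.toAdd v i
        rw [Matrix.mulVec_mulVec, h1, Matrix.one_mulVec]
      right_inv := by
        intro v
        apply Multiplicative.toAdd.injective
        funext i
        have h1 : (ρ g : Matrix (Fin d) (Fin d) F) * (ρ g⁻¹ : Matrix (Fin d) (Fin d) F) = 1 := by
          rw [← Units.val_mul, ← map_mul, mul_inv_cancel, map_one, Units.val_one]
        show (ρ g : Matrix (Fin d) (Fin d) F) *ᵥ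
          ((ρ g⁻¹ : Matrix (Fin d) (Fin d) F) *ᵥ (Multiplicative.toAdd v i)) = Multiplicative.toAdd v i
        rw [Matrix.mulVec_mulVec, h1, Matrix.one_mulVec]
      map_mul' := by
        intro v w
        apply Multiplicative.toAdd.injective
        funext i
        simp [Matrix.mulVec_add] }
  map_one' := by
    apply MulEquiv.ext
    intro v
    apply Multiplicative.toAdd.injective
    funext i
    show (ρ 1 : Matrix (Fin d) (Fin d) F) *ᵥ (Multiplicative.toAdd v i) = Multiplicative.toAdd v i
    rw [map_one, Units.val_one, Matrix.one_mulVec]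
  map_mul' := by
    intro g h
    apply MulEquiv.ext
    intro v
    apply Multiplicative.toAdd.injective
    funext i
    show (ρ (g * h) : Matrix (Fin d) (Fin d) F) *ᵥ (Multiplicative.toAdd v i) =
      (ρ g : Matrix (Fin d) (Fin d) F) *ᵥ ((ρ h : Matrix (Fin d) (Fin d) F) *ᵥ (Multiplicative.toAdd v i))
    rw [Matrix.mulVec_mulVec, map_mul, Units.val_mul]

/-- The split extension. -/
abbrev K (n : ℕ) := SemidirectProduct (V F d n) Γ (act ρ n)

instance instFiniteK [Finite F] [Finite Γ] (n : ℕ) : Finite (K ρ n) :=
  Finite.of_equiv (V F d n × Γ) SemidirectProduct.equivProd.symm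

lemma act_apply (n : ℕ) (g : Γ) (v : V F d n) (i : Fin n) :
    Multiplicative.toAdd ((act ρ n g) v) i =
      (ρ g : Matrix (Fin d) (Fin d) F) *ᵥ (Multiplicative.toAdd v i) := rfl

lemma card_K_eq (n : ℕ) : Nat.card (K ρ n) = Nat.card (V F d n) * Nat.card Γ := by
  rw [Nat.card_congr SemidirectProduct.equivProd, Nat.card_prod]

lemma exists_order_K_of_ {n : ℕ} {m : ℕ} (g : Γ) (h : orderOf g = m) :
    ∃ x : K ρ n, orderOf x = m :=
  ⟨SemidirectProduct.inr g, by
    rw [orderOf_injective _ SemidirectProduct.inr_injective, h]⟩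

variable [CharP F 2]

lemma v_mul_self {n : ℕ} (v : V F d n) : v * v = 1 := by
  apply Multiplicative.toAdd.injective
  funext i j
  show Multiplicative.toAdd v i j + Multiplicative.toAdd v i j = 0
  exact CharTwo.add_self_eq_zero _

lemma sq_of_right_one {n : ℕ} (x : K ρ n) (hx : x.right = 1) : x ^ 2 = 1 := by
  rw [pow_two]
  apply SemidirectProduct.ext
  · rw [SemidirectProduct.mul_left, hx, map_one]
    exact v_mul_self _
  · rw [SemidirectProduct.mul_right, hx]
    exact mul_one 1

variable {ρ}

/-- Every element of prime-product order in the extension produces one in the group. -/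
theorem exists_order_of_K {n : ℕ} (hfix : ∀ (g : Γ) (x : Fin d → F), x ≠ 0 →
      (ρ g : Matrix (Fin d) (Fin d) F) *ᵥ x = x → ∃ k : ℕ, g ^ (2 ^ k) = 1)
    (p q : ℕ) (hp : p.Prime) (hq : q.Prime) (hpq : p ≠ q)
    (h : K ρ n) (ho : orderOf h = p * q) : ∃ g : Γ, orderOf g = p * q := by
  set g : Γ := h.right with hg
  have hm : orderOf g ∣ p * q := by
    rw [← ho]
    exact orderOf_map_dvd (SemidirectProduct.rightHom : K ρ n →* Γ) h
  have hright : (h ^ orderOf g).right = 1 := by
    have : (SemidirectProduct.rightHom : K ρ n →* Γ) (h ^ orderOf g) = g ^ orderOf g := by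
      rw [map_pow]
      rfl
    rw [pow_orderOf_eq_one] at this
    exact this
  have hsq := sq_of_right_one ρ _ hright
  have h2 : p * q ∣ orderOf g * 2 := by
    rw [← ho]
    apply orderOf_dvd_of_pow_eq_one
    rw [pow_mul]
    exact hsq
  -- the fixed vector argument
  have key : ∀ r s : ℕ, r.Prime → s.Prime → r ≠ s → orderOf g = r → r * s = p * q → False := by
    intro r s hr hs hrs hgr hrsq
    have h3 : r * s ∣ r * 2 := by
      rw [hrsq, ← hgr]
      exact h2
    have hs2 : s ∣ 2 := Nat.dvd_of_mul_dvd_mul_left hr.pos h3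
    have hs2' : s = 2 := (Nat.prime_dvd_prime_iff_eq hs Nat.prime_two).mp hs2
    have hr2 : r ≠ 2 := by rw [← hs2']; exact hrs
    -- `y = h ^ r` is nontrivial
    have hy : h ^ r ≠ 1 := by
      intro hy
      have : p * q ∣ r := by
        rw [← ho]
        exact orderOf_dvd_of_pow_eq_one hy
      rw [← hrsq] at this
      have := Nat.le_of_dvd hr.pos this
      have := hs.two_le
      nlinarith [hr.pos]
    have hyr : (h ^ r).right = 1 := by
      rw [← hgr]
      exact hright
    have hcomm : h * h ^ r = h ^ r * h := (Commute.pow_right (Commute.refl h) r).eq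
    have hfix' : act ρ n g (h ^ r).left = (h ^ r).left := by
      have := congrArg SemidirectProduct.left hcomm
      rw [SemidirectProduct.mul_left, SemidirectProduct.mul_left, hyr, map_one] at this
      have h4 : h.left * (act ρ n g) (h ^ r).left = (h ^ r).left * h.left := this
      rw [mul_comm (h ^ r).left] at h4
      exact mul_left_cancel h4
    have hne : (h ^ r).left ≠ 1 := by
      intro h0
      apply hy
      apply SemidirectProduct.ext
      · rw [h0]; rfl
      · rw [hyr]; rfl
    -- some component is nonzero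
    have : ∃ i, Multiplicative.toAdd (h ^ r).left i ≠ 0 := by
      by_contra hall
      push_neg at hall
      apply hne
      apply Multiplicative.toAdd.injective
      funext i
      exact hall i
    obtain ⟨i, hi⟩ := this
    have hfi : (ρ g : Matrix (Fin d) (Fin d) F) *ᵥ (Multiplicative.toAdd (h ^ r).left i) =
        Multiplicative.toAdd (h ^ r).left i := by
      rw [← act_apply, hfix']
    obtain ⟨k, hk⟩ := hfix g _ hi hfi
    have : r ∣ 2 ^ k := by
      rw [← hgr]
      exact orderOf_dvd_of_pow_eq_one hk
    exact hr2 ((Nat.prime_dvd_prime_iff_eq hr Nat.prime_two).mp (hr.dvd_of_dvd_pow this))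
  -- divisors of `p * q`
  have hcases : orderOf g = 1 ∨ orderOf g = p ∨ orderOf g = q ∨ orderOf g = p * q := by
    rcases (Nat.dvd_mul).mp hm with ⟨a, b, ha, hb, hab⟩
    rcases (Nat.dvd_prime hp).mp ha with rfl | rfl <;>
      rcases (Nat.dvd_prime hq).mp hb with rfl | rfl
    · left; simpa using hab.symm
    · right; right; left; simpa using hab.symm
    · right; left; simpa using hab.symm
    · right; right; right; exact hab.symm
  rcases hcases with h1 | h1 | h1 | h1
  · exfalso
    rw [h1] at h2
    have h5 : p * q ≤ 2 := Nat.le_of_dvd (by norm_num) (by simpa using h2)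
    have := hp.two_le
    have := hq.two_le
    have hne : p * q ≠ 4 := by
      intro h4
      have : p = 2 ∧ q = 2 := by
        have hp2 : p ≤ 2 := by nlinarith
        have hq2 : q ≤ 2 := by nlinarith
        constructor <;> omega
      omega
    nlinarith
  · exact (key p q hp hq hpq h1 rfl).elim
  · exact (key q p hq hp hpq.symm h1 (mul_comm _ _)).elim
  · exact ⟨g, h1⟩

omit [CharP F 2] in
variable (ρ) in
lemma lt_card_K [Finite F] [Finite Γ] (hd : 1 ≤ d) (n : ℕ) : n < Nat.card (K ρ n) := by
  rw [card_K_eq]
  have h1 : Nat.card (V F d n) = (Nat.card F ^ d) ^ n := by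
    rw [Nat.card_congr (Multiplicative.toAdd : V F d n ≃ _)]
    simp [Nat.card_fun]
  have h2 : 2 ≤ Nat.card F := Finite.one_lt_card
  have h2' : 2 ≤ Nat.card F ^ d := h2.trans (Nat.le_self_pow (by omega) _)
  have h3 : 2 ^ n ≤ (Nat.card F ^ d) ^ n := Nat.pow_le_pow_left h2' n
  have h4 : n < 2 ^ n := Nat.lt_two_pow_self
  have h5 : 0 < Nat.card Γ := Nat.card_pos
  rw [h1]
  nlinarith

lemma prime_dvd_card_V [Finite F] {n : ℕ} {p : ℕ} (hp : p.Prime) (h : p ∣ Nat.card (V F d n)) :
    p = 2 := by
  haveI := Fact.mk hp
  obtain ⟨x, hx⟩ := exists_prime_orderOf_dvd_card' p h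
  have : p ∣ 2 := by
    rw [← hx]
    apply orderOf_dvd_of_pow_eq_one
    rw [pow_two]
    exact v_mul_self x
  exact (Nat.prime_dvd_prime_iff_eq hp Nat.prime_two).mp this

variable (ρ) in
theorem prime_dvd_K_iff [Finite F] [Finite Γ] {n : ℕ} {p : ℕ} (hp : p.Prime)
    (h2 : 2 ∣ Nat.card Γ) : p ∣ Nat.card (K ρ n) ↔ p ∣ Nat.card Γ := by
  rw [card_K_eq]
  constructor
  · intro h
    rcases (Nat.Prime.dvd_mul hp).mp h with h | h
    · rw [prime_dvd_card_V hp h]
      exact h2
    · exact h
  · intro h
    exact h.mul_left _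

/-- Transport of a finite group to a group in the lowest universe. -/
theorem exists_small (K' : Type*) [Group K'] [Finite K'] :
    ∃ (H : Type) (_ : Group H) (_ : Fintype H), Nonempty (H ≃* K') := by
  let e : K' ≃ Fin (Nat.card K') := Finite.equivFin K'
  letI : Group (Fin (Nat.card K')) := e.symm.group
  exact ⟨Fin (Nat.card K'), inferInstance, inferInstance, ⟨e.symm.mulEquiv⟩⟩

end Cfsg.Agent.Lib.H6Ext
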