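import Mathlib
import Cfsg.Agent.Lib.H6Basic

/-!
Iterated commutators with the whole group (helper6).
-/

set_option autoImplicit false
set_option linter.all false

namespace Cfsg.Agent.Lib.H6ItC

open Subgroup

variable {G : Type*} [Group G]

def itC (A : Subgroup G) (j : ℕ) : Subgroup G := (fun X : Subgroup G => ⁅X, (⊤ : Subgroup G)⁆)^[j] A

theorem itC_zero (A : Subgroup G) : itC A 0 = A := rfl

theorem itC_succ (A : Subgroup G) (j : ℕ) : itC A (j + 1) = ⁅itC A j, (⊤ : Subgroup G)⁆ :=
  Function.iterate_succ_apply' _ _ _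

theorem itC_succ' (A : Subgroup G) (j : ℕ) : itC A (j + 1) = itC ⁅A, (⊤ : Subgroup G)⁆ j :=
  Function.iterate_succ_apply _ _ _

theorem itC_normal (A : Subgroup G) [A.Normal] (j : ℕ) : (itC A j).Normal := by
  induction j with
  | zero => rw [itC_zero]; infer_instance
  | succ j ih => rw [itC_succ]; infer_instance

theorem itC_le (A : Subgroup G) [A.Normal] (j : ℕ) : itC A (j + 1) ≤ itC A j := by
  rw [itC_succ]
  haveI := itC_normal A j
  exact Subgroup.commutator_le_left _ _

theorem itC_anti (A : Subgroup G) [A.Normal] {j k : ℕ} (h : j ≤ k) : itC A k ≤ itC A j := by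
  induction k, h using Nat.le_induction with
  | base => exact le_rfl
  | succ k _ ih => exact (itC_le A k).trans ih

theorem key (m : ℕ) : ∀ (A : Subgroup G) [A.Normal],
    ⁅A, (⊤ : Subgroup G).lowerCentralSeries m⁆ ≤ itC A (m + 1) := by
  induction m with
  | zero =>
    intro A _
    rw [itC_succ, itC_zero]
    exact le_rfl
  | succ m ih =>
    intro A _
    haveI := itC_normal A (m + 2)
    rw [Subgroup.lowerCentralSeries_succ, Subgroup.commutator_comm]
    refine Cfsg.Agent.Lib.H6Basic.three_subgroups ⊤ A _ _ ?_ ?_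
    · rw [Subgroup.commutator_comm ⊤ A]
      have h := ih ⁅A, (⊤ : Subgroup G)⁆
      rw [← itC_succ'] at h
      exact h
    · rw [itC_succ]
      exact Subgroup.commutator_mono (ih A) le_rfl

theorem no_fix [Group.IsNilpotent G] (X : Subgroup G) (h : ⁅X, (⊤ : Subgroup G)⁆ = X) : X = ⊥ := by
  have h1 : ∀ k, X ≤ (⊤ : Subgroup G).lowerCentralSeries k := by
    intro k
    induction k with
    | zero => exact le_top
    | succ k ih =>
      rw [← h, Subgroup.lowerCentralSeries_succ]
      exact Subgroup.commutator_mono ih le_rfl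
  obtain ⟨n, hn⟩ := (Subgroup.nilpotent_iff_lowerCentralSeries (G := G)).mp inferInstance
  have := h1 n
  rw [hn] at this
  exact le_bot_iff.mp this

theorem lcs_normal (N : Subgroup G) [N.Normal] (k : ℕ) : (N.lowerCentralSeries k).Normal := by
  induction k with
  | zero => rw [Subgroup.lowerCentralSeries_zero]; infer_instance
  | succ k ih => rw [Subgroup.lowerCentralSeries_succ]; infer_instance



end Cfsg.Agent.Lib.H6ItC
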