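import Mathlib
import Cfsg.Agent.Lib.PNilpB
import Cfsg.Agent.Lib.SylowIdx
import Cfsg.Agent.Lib.SylowIn
import Cfsg.Agent.Lib.SecTransfer
import Cfsg.Agent.Lib.PResidual
import Cfsg.Agent.Lib.PNilp
import Cfsg.Agent.Lib.H6PiPart
import Cfsg.Agent.Lib.H6Hughes

/-!
# Counting conjugacy classes of `π`-elements (generalizing S3895 to primes with odd `p'`-elements)
-/

set_option autoImplicit false
set_option linter.all false
open Cfsg

namespace Cfsg.Agent.Lib.H6KPi

open Cfsg Cfsg.Agent.Lib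

variable {p : ℕ} [hp : Fact p.Prime]

theorem conj_pow_inv' {G : Type*} [Group G] (w a : G) (i : ℕ) (h : w * a * w⁻¹ = a) :
    w ^ i * a * (w ^ i)⁻¹ = a := by
  induction i with
  | zero => simp
  | succ i IH =>
    have : w ^ (i + 1) * a * (w ^ (i + 1))⁻¹ = w * (w ^ i * a * (w ^ i)⁻¹) * w⁻¹ := by
      rw [pow_succ']; group
    rw [this, IH, h]

/-- The counting inequality. -/
theorem count_le {G : Type*} [Group G] [Finite G] [Fintype G] [DecidableEq G] [DecidableEq (ConjClasses G)]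
    (R : Subgroup G) [DecidablePred (· ∈ R)] (hR : IsPGroup p R)
    (Q : Subgroup G) (hQR : Q ≤ R) (y q : G) (hy : Odd (orderOf y)) (hy2 : (orderOf y).Coprime p) (hyQ : ∀ a ∈ Q, y * a * y⁻¹ ∈ Q)
    (hq : q ∈ Q) (hyq : y * q * y⁻¹ ≠ q)
    (hC : ∀ z ∈ Subgroup.centralizer (Q : Set G), (∃ k : ℕ, z ^ p ^ k = 1) →
      ∃ c ∈ Subgroup.centralizer (Q : Set G), c * z * c⁻¹ ∈ R) :
    2 * ((Finset.univ.filter (· ∈ R)).image (ConjClasses.mk : G → ConjClasses G)).card ≤
      (Finset.univ.filter (· ∈ R)).card := by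
  classical
  set Rf : Finset G := Finset.univ.filter (· ∈ R) with hRf
  set S : Finset (ConjClasses G) := Rf.image ConjClasses.mk with hS
  have hRmem : ∀ x, x ∈ Rf ↔ x ∈ R := by intro x; simp [hRf]
  let Ff : Finset G := Rf.filter (fun x => ∀ z ∈ R, IsConj x z → z = x)
  have hFmem : ∀ x, x ∈ Ff ↔ x ∈ R ∧ ∀ z ∈ R, IsConj x z → z = x := by
    intro x; simp [Ff, hRmem]
  -- `y⁻¹` also normalizes `Q`
  have hyk : ∀ k : ℕ, ∀ a ∈ Q, y ^ k * a * (y ^ k)⁻¹ ∈ Q := by
    intro k
    induction k with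
    | zero => intro a ha; simpa using ha
    | succ k IH =>
      intro a ha
      have : y ^ (k + 1) * a * (y ^ (k + 1))⁻¹ = y * (y ^ k * a * (y ^ k)⁻¹) * y⁻¹ := by
        rw [pow_succ']; group
      rw [this]
      exact hyQ _ (IH a ha)
  have hyinv : ∀ a ∈ Q, y⁻¹ * a * y ∈ Q := by
    intro a ha
    have hp := orderOf_pos y
    have h1 : y ^ (orderOf y - 1) = y⁻¹ := by
      rw [eq_inv_iff_mul_eq_one, ← pow_succ]
      rw [Nat.sub_add_cancel hp, pow_orderOf_eq_one]
    have := hyk (orderOf y - 1) a ha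
    rw [h1, inv_inv] at this
    exact this
  have hF2 : ∀ x ∈ R, ∃ k : ℕ, x ^ p ^ k = 1 := by
    intro x hx
    obtain ⟨k, hk⟩ := hR ⟨x, hx⟩
    exact ⟨k, congrArg Subtype.val hk⟩
  have hFc : ∀ x ∈ Ff, ∀ p ∈ R, p * x * p⁻¹ = x := by
    intro x hx p hp
    obtain ⟨hxR, hxF⟩ := (hFmem x).mp hx
    exact hxF _ (R.mul_mem (R.mul_mem hp hxR) (R.inv_mem hp)) (isConj_iff.mpr ⟨p, rfl⟩)
  -- the element `w`
  have hw : ∀ x ∈ Ff, ∃ w : G, w * x * w⁻¹ = x ∧ ∀ a ∈ Q, w * a * w⁻¹ = y * a * y⁻¹ := by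
    intro x hx
    obtain ⟨hxR, hxF⟩ := (hFmem x).mp hx
    have h1 : y * x * y⁻¹ ∈ Subgroup.centralizer (Q : Set G) := by
      rw [Subgroup.mem_centralizer_iff]
      intro a ha
      have ha' := hyinv a ha
      have h2 := hFc x hx _ (hQR ha')
      calc a * (y * x * y⁻¹) = y * ((y⁻¹ * a * y) * x) * y⁻¹ := by group
        _ = y * (((y⁻¹ * a * y) * x * (y⁻¹ * a * y)⁻¹) * (y⁻¹ * a * y)) * y⁻¹ := by group
        _ = y * (x * (y⁻¹ * a * y)) * y⁻¹ := by rw [h2]
        _ = (y * x * y⁻¹) * a := by group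
    have h2 : ∃ k : ℕ, (y * x * y⁻¹) ^ p ^ k = 1 := by
      obtain ⟨k, hk⟩ := hF2 x hxR
      refine ⟨k, ?_⟩
      rw [conj_pow, hk]
      group
    obtain ⟨c, hc, hcR⟩ := hC _ h1 h2
    refine ⟨c * y, ?_, ?_⟩
    · have h3 : (c * y) * x * (c * y)⁻¹ = c * (y * x * y⁻¹) * c⁻¹ := by group
      rw [h3]
      exact hxF _ hcR (isConj_iff.mpr ⟨c * y, by group⟩)
    · intro a ha
      have h3 : (c * y) * a * (c * y)⁻¹ = c * (y * a * y⁻¹) * c⁻¹ := by group
      rw [h3]
      have h4 := (Subgroup.mem_centralizer_iff.mp hc) _ (hyQ a ha)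
      rw [← h4]
      group
  have hwk : ∀ (w : G), (∀ a ∈ Q, w * a * w⁻¹ = y * a * y⁻¹) → ∀ (i : ℕ), ∀ a ∈ Q,
      w ^ i * a * (w ^ i)⁻¹ = y ^ i * a * (y ^ i)⁻¹ := by
    intro w hwQ i
    induction i with
    | zero => intro a _; simp
    | succ i IH =>
      intro a ha
      have e1 : w ^ (i + 1) * a * (w ^ (i + 1))⁻¹ = w * (w ^ i * a * (w ^ i)⁻¹) * w⁻¹ := by
        rw [pow_succ']; group
      have e2 : y ^ (i + 1) * a * (y ^ (i + 1))⁻¹ = y * (y ^ i * a * (y ^ i)⁻¹) * y⁻¹ := by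
        rw [pow_succ']; group
      rw [e1, e2, IH a ha, hwQ _ (hyk i a ha)]
  let o : ℕ → G := fun i => y ^ i * q * (y ^ i)⁻¹
  have hoQ : ∀ i, o i ∈ Q := fun i => hyk i q hq
  have hconj : ∀ x ∈ Ff, ∀ i, IsConj (x * q) (x * o i) := by
    intro x hx i
    obtain ⟨w, hw1, hw2⟩ := hw x hx
    refine isConj_iff.mpr ⟨w ^ i, ?_⟩
    have e1 : w ^ i * (x * q) * (w ^ i)⁻¹ = (w ^ i * x * (w ^ i)⁻¹) * (w ^ i * q * (w ^ i)⁻¹) := by group
    rw [e1, conj_pow_inv' w x i hw1, hwk w hw2 i q hq]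
  -- an element fixed by `y` moving within an orbit is trivial
  have hu1 : ∀ u : G, u ∈ R → y * u * y⁻¹ = u → ∀ (k : ℕ) (a : G), y ^ k * a * (y ^ k)⁻¹ = u * a → u = 1 := by
    intro u huR huy k a hka
    have hcomm : ∀ n : ℕ, y ^ n * u * (y ^ n)⁻¹ = u := fun n => conj_pow_inv' y u n huy
    have hn : ∀ n : ℕ, (y ^ k) ^ n * a * ((y ^ k) ^ n)⁻¹ = u ^ n * a := by
      intro n
      induction n with
      | zero => simp
      | succ n IH =>
        have e1 : (y ^ k) ^ (n + 1) * a * ((y ^ k) ^ (n + 1))⁻¹ = (y ^ k) * ((y ^ k) ^ n * a * ((y ^ k) ^ n)⁻¹) * (y ^ k)⁻¹ := by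
          rw [pow_succ']; group
        rw [e1, IH]
        have e2 : y ^ k * (u ^ n * a) * (y ^ k)⁻¹ = (y ^ k * u ^ n * (y ^ k)⁻¹) * (y ^ k * a * (y ^ k)⁻¹) := by group
        have e3 : y ^ k * u ^ n * (y ^ k)⁻¹ = u ^ n := by
          rw [← conj_pow, hcomm k]
        rw [e2, hka, e3, pow_succ, mul_assoc]
    have h2 := hn (orderOf y)
    rw [← pow_mul, mul_comm k, pow_mul, pow_orderOf_eq_one, one_pow, one_mul, inv_one, mul_one] at h2
    have h3 : u ^ orderOf y = 1 := by
      have : u ^ orderOf y * a = 1 * a := by rw [← h2, one_mul]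
      exact mul_right_cancel this
    obtain ⟨m, hm⟩ := hF2 u huR
    have h4 : orderOf u ∣ orderOf y := orderOf_dvd_of_pow_eq_one h3
    have h5 : orderOf u ∣ p ^ m := orderOf_dvd_of_pow_eq_one hm
    have h6 : Nat.Coprime (orderOf y) (p ^ m) := Nat.Coprime.pow_right _ hy2
    have h7 : orderOf u = 1 := Nat.eq_one_of_dvd_coprimes h6 h4 h5
    exact orderOf_eq_one_iff.mp h7
  -- the three orbit elements are distinct
  have hqmoved : ∀ k : ℕ, k = 1 ∨ k = 2 → ∀ a : G, (∀ b, b = a → y ^ k * b * (y ^ k)⁻¹ = b) → y * a * y⁻¹ = a := by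
    intro k hk a ha
    rcases hk with rfl | rfl
    · simpa using ha a rfl
    · have h1 := ha a rfl
      obtain ⟨m, hm⟩ := hy
      have h2 : y = (y ^ 2) ^ (m + 1) := by
        rw [← pow_mul]
        have : 2 * (m + 1) = orderOf y + 1 := by omega
        rw [this, pow_succ, pow_orderOf_eq_one, one_mul]
      rw [h2]
      exact conj_pow_inv' (y ^ 2) a (m + 1) h1
  have hoinj : ∀ i j : ℕ, i < 3 → j < 3 → j < i → o i ≠ o j := by
    intro i j hi hj hji h
    have hk : i - j = 1 ∨ i - j = 2 := by omega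
    have e1 : y ^ i = y ^ (i - j) * y ^ j := by rw [← pow_add]; congr 1; omega
    have hfix : y ^ (i - j) * o j * (y ^ (i - j))⁻¹ = o j := by
      have : y ^ (i - j) * o j * (y ^ (i - j))⁻¹ = o i := by
        simp only [o]
        rw [e1]; group
      rw [this, h]
    have h3 := hqmoved (i - j) hk (o j) (fun b hb => by rw [hb]; exact hfix)
    apply hyq
    have e2 : y * q * y⁻¹ = (y ^ j)⁻¹ * (y * o j * y⁻¹) * y ^ j := by
      simp only [o]
      have : (y ^ j)⁻¹ * (y * (y ^ j * q * (y ^ j)⁻¹) * y⁻¹) * y ^ j = ((y ^ j)⁻¹ * y * y ^ j) * q * ((y ^ j)⁻¹ * y * y ^ j)⁻¹ := by group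
      rw [this]
      have h5 : (y ^ j)⁻¹ * y * y ^ j = y := by
        have : y * y ^ j = y ^ j * y := (pow_succ' y j).symm.trans (pow_succ y j)
        rw [mul_assoc, this]; group
      rw [h5]
    rw [e2, h3]
    simp only [o]
    group
  -- injectivity
  have hinj : ∀ x ∈ Ff, ∀ x' ∈ Ff, ∀ i j : ℕ, i < 3 → j < 3 → x * o i = x' * o j → x = x' ∧ i = j := by
    intro x hx x' hx' i j hi hj h
    obtain ⟨hxR, hxF⟩ := (hFmem x).mp hx
    obtain ⟨hx'R, hx'F⟩ := (hFmem x').mp hx'
    set u := x⁻¹ * x' with hu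
    have hx'e : x' = x * u := by rw [hu]; group
    have hui : o i = u * o j := by
      have : x * o i = x * (u * o j) := by
        rw [h, hx'e, hu]; group
      exact mul_left_cancel this
    have huQ : u ∈ Q := by
      have : u = o i * (o j)⁻¹ := by rw [hui]; group
      rw [this]
      exact Q.mul_mem (hoQ i) (Q.inv_mem (hoQ j))
    obtain ⟨w, hw1, hw2⟩ := hw x hx
    have huy : y * u * y⁻¹ = u := by
      have e1 : w * x' * w⁻¹ = x * (y * u * y⁻¹) := by
        have : w * x' * w⁻¹ = (w * x * w⁻¹) * (w * u * w⁻¹) := by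
          rw [hx'e]; group
        rw [this, hw1, hw2 u huQ]
      have e2 : x * (y * u * y⁻¹) ∈ R := R.mul_mem hxR (hQR (hyQ u huQ))
      have e3 := hx'F _ e2 (isConj_iff.mpr ⟨w, e1⟩)
      have e4 : x * (y * u * y⁻¹) = x * u := by rw [e3, ← hx'e]
      exact mul_left_cancel e4
    have hu_one : u = 1 := by
      by_cases hij : j ≤ i
      · apply hu1 u (hQR huQ) huy (i - j) (o j)
        rw [← hui]
        simp only [o]
        have e1 : y ^ i = y ^ (i - j) * y ^ j := by rw [← pow_add]; congr 1; omega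
        rw [e1]; group
      · have h2 : u⁻¹ = 1 := by
          apply hu1 u⁻¹ (R.inv_mem (hQR huQ)) (by
            have : y * u⁻¹ * y⁻¹ = (y * u * y⁻¹)⁻¹ := by group
            rw [this, huy]) (j - i) (o i)
          have h3 : o j = u⁻¹ * o i := by rw [hui]; group
          rw [← h3]
          simp only [o]
          have e1 : y ^ j = y ^ (j - i) * y ^ i := by rw [← pow_add]; congr 1; omega
          rw [e1]; group
        simpa using h2
    have hxx : x = x' := by rw [hx'e, hu_one, mul_one]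
    refine ⟨hxx, ?_⟩
    rw [hu_one, one_mul] at hui
    by_contra hne
    rcases Nat.lt_or_gt_of_ne hne with hlt | hgt
    · exact hoinj j i hj hi hlt hui.symm
    · exact hoinj i j hi hj hgt hui
  -- the local inequality
  let A : ConjClasses G → Finset G := fun c => Rf.filter (fun x => ConjClasses.mk x = c)
  let T : ConjClasses G → Finset G := fun c => Ff.filter (fun x => ConjClasses.mk (x * q) = c)
  let D : ConjClasses G → Finset G := fun c => Ff.filter (fun x => ConjClasses.mk x = c)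
  have hlocal : ∀ c ∈ S, 2 + (T c).card ≤ (A c).card + (D c).card := by
    intro c hc
    by_cases hT : (T c).Nonempty
    · have h3 : (T c ×ˢ Finset.range 3).card ≤ (A c).card := by
        apply Finset.card_le_card_of_injOn (fun p => p.1 * o p.2)
        · rintro ⟨x, i⟩ hp
          simp only [Finset.coe_product, Set.mem_prod, Finset.mem_coe, Finset.mem_range] at hp
          obtain ⟨hxT, hi⟩ := hp
          have hxF : x ∈ Ff := (Finset.mem_filter.mp hxT).1
          have hxq : ConjClasses.mk (x * q) = c := (Finset.mem_filter.mp hxT).2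
          simp only [Finset.mem_coe, A, Finset.mem_filter]
          refine ⟨(hRmem _).mpr (R.mul_mem ((hFmem x).mp hxF).1 (hQR (hoQ i))), ?_⟩
          rw [← hxq]
          exact (ConjClasses.mk_eq_mk_iff_isConj.mpr (hconj x hxF i)).symm
        · rintro ⟨x, i⟩ hp ⟨x', j⟩ hp' h
          simp only [Finset.coe_product, Set.mem_prod, Finset.mem_coe, Finset.mem_range] at hp hp'
          have := hinj x (Finset.mem_filter.mp hp.1).1 x' (Finset.mem_filter.mp hp'.1).1 i j hp.2 hp'.2 h
          exact Prod.ext this.1 this.2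
      rw [Finset.card_product, Finset.card_range] at h3
      have h4 : 1 ≤ (T c).card := hT.card_pos
      omega
    · have hT0 : (T c).card = 0 := by
        rw [Finset.card_eq_zero]
        exact Finset.not_nonempty_iff_eq_empty.mp hT
      rw [hT0]
      obtain ⟨x₀, hx₀, rfl⟩ := Finset.mem_image.mp hc
      have hx₀A : x₀ ∈ A (ConjClasses.mk x₀) := Finset.mem_filter.mpr ⟨hx₀, rfl⟩
      have h1 : 1 ≤ (A (ConjClasses.mk x₀)).card := Finset.card_pos.mpr ⟨x₀, hx₀A⟩
      by_cases h2 : 2 ≤ (A (ConjClasses.mk x₀)).card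
      · omega
      · have hA1 : (A (ConjClasses.mk x₀)).card = 1 := by omega
        have hall : ∀ z ∈ A (ConjClasses.mk x₀), z = x₀ := by
          intro z hz
          exact (Finset.card_eq_one.mp hA1).elim fun a ha => by
            rw [ha] at hz hx₀A
            rw [Finset.mem_singleton.mp hz, Finset.mem_singleton.mp hx₀A]
        have hx₀F : x₀ ∈ Ff := by
          rw [hFmem]
          refine ⟨(hRmem _).mp hx₀, fun z hz hconj' => ?_⟩
          apply hall
          exact Finset.mem_filter.mpr ⟨(hRmem _).mpr hz, (ConjClasses.mk_eq_mk_iff_isConj.mpr hconj').symm⟩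
        have hD : 1 ≤ (D (ConjClasses.mk x₀)).card :=
          Finset.card_pos.mpr ⟨x₀, Finset.mem_filter.mpr ⟨hx₀F, rfl⟩⟩
        omega
  have hsum := Finset.sum_le_sum hlocal
  rw [Finset.sum_add_distrib, Finset.sum_add_distrib] at hsum
  have e1 : ∑ c ∈ S, (A c).card = Rf.card := by
    symm
    apply Finset.card_eq_sum_card_fiberwise
    intro x hx
    exact Finset.mem_coe.mpr (Finset.mem_image_of_mem _ hx)
  have e2 : ∑ c ∈ S, (D c).card = Ff.card := by
    symm
    apply Finset.card_eq_sum_card_fiberwise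
    intro x hx
    exact Finset.mem_coe.mpr (Finset.mem_image_of_mem _ (Finset.mem_filter.mp hx).1)
  have e3 : ∑ c ∈ S, (T c).card = Ff.card := by
    symm
    apply Finset.card_eq_sum_card_fiberwise
    intro x hx
    apply Finset.mem_coe.mpr
    refine Finset.mem_image.mpr ⟨x * q, ?_, rfl⟩
    exact (hRmem _).mpr (R.mul_mem ((hFmem x).mp hx).1 (hQR hq))
  rw [e1, e2, e3] at hsum
  simp only [Finset.sum_const, smul_eq_mul] at hsum
  omega

theorem inv_conj_mem' {G : Type*} [Group G] [Finite G] (E : Subgroup G) (y : G)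
    (hy : ∀ e ∈ E, y * e * y⁻¹ ∈ E) : ∀ e ∈ E, y⁻¹ * e * y ∈ E := by
  have hyk : ∀ k : ℕ, ∀ a ∈ E, y ^ k * a * (y ^ k)⁻¹ ∈ E := by
    intro k
    induction k with
    | zero => intro a ha; simpa using ha
    | succ k IH =>
      intro a ha
      have : y ^ (k + 1) * a * (y ^ (k + 1))⁻¹ = y * (y ^ k * a * (y ^ k)⁻¹) * y⁻¹ := by
        rw [pow_succ']; group
      rw [this]
      exact hy _ (IH a ha)
  intro a ha
  have hp := orderOf_pos y
  have h1 : y ^ (orderOf y - 1) = y⁻¹ := by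
    rw [eq_inv_iff_mul_eq_one, ← pow_succ]
    rw [Nat.sub_add_cancel hp, pow_orderOf_eq_one]
  have := hyk (orderOf y - 1) a ha
  rw [h1, inv_inv] at this
  exact this

/-- The data produced when there is no normal 2-complement. -/
theorem data_of_not_npc {G : Type*} [Group G] [Finite G] (hodd : ∀ y : G, (orderOf y).Coprime p → Odd (orderOf y)) (hn : ¬ HasNormalPComplement p G) :
    ∃ (R : Sylow p G) (Q : Subgroup G) (y q : G), Q ≤ R ∧ Odd (orderOf y) ∧ (orderOf y).Coprime p ∧
      (∀ a ∈ Q, y * a * y⁻¹ ∈ Q) ∧ q ∈ Q ∧ y * q * y⁻¹ ≠ q ∧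
      (∀ z ∈ Subgroup.centralizer (Q : Set G), (∃ k : ℕ, z ^ p ^ k = 1) →
        ∃ c ∈ Subgroup.centralizer (Q : Set G), c * z * c⁻¹ ∈ (R : Subgroup G)) := by
  have h1 : ¬ ∀ (y : G), (orderOf y).Coprime p → ∀ E : Subgroup G, IsPGroup p E → (∀ e ∈ E, y * e * y⁻¹ ∈ E) →
      (∀ e ∈ E, e ^ p = 1 ∨ (p = 2 ∧ e ^ 4 = 1)) → ∀ e ∈ E, y * e * y⁻¹ = e :=
    fun h => hn (PNilpB.npc_of_exp_cond h)
  push_neg at h1
  obtain ⟨y, hy, E, hE, hyE, -, e, he, hye⟩ := h1
  have hyodd : Odd (orderOf y) := hodd y hy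
  let N : Subgroup G := Subgroup.normalizer (E : Set G)
  have hEn : (E.subgroupOf N).Normal := Subgroup.normal_in_normalizer
  obtain ⟨S₀⟩ : Nonempty (Sylow p N) := inferInstance
  have hEp : IsPGroup p (E.subgroupOf N) := by
    have : IsPGroup p ((E ⊓ N : Subgroup G)) := hE.to_le inf_le_left
    exact this.of_equiv (Subgroup.subgroupOfEquivOfLe inf_le_right).symm |>.of_equiv
      (MulEquiv.subgroupCongr (by
        rw [Subgroup.subgroupOf, Subgroup.subgroupOf]
        ext x; simp))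
  have hES : ∀ x : N, x ∈ E.subgroupOf N → x ∈ (S₀ : Subgroup N) := by
    obtain ⟨g, hg⟩ := SylowIn.exists_conj_mem_sylow S₀ hEp
    intro x hx
    have h2 : g⁻¹ * x * g⁻¹⁻¹ ∈ E.subgroupOf N := hEn.conj_mem x hx g⁻¹
    have h3 := hg _ h2
    have h4 : g * (g⁻¹ * x * g⁻¹⁻¹) * g⁻¹ = x := by group
    rw [h4] at h3
    exact h3
  have hp0 : IsPGroup p ((S₀ : Subgroup N).map N.subtype) := S₀.isPGroup'.map _
  obtain ⟨R, hR⟩ := hp0.exists_le_sylow
  refine ⟨R, E, y, e, ?_, hyodd, hy, hyE, he, hye, ?_⟩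
  · intro a ha
    have hn : a ∈ N := Subgroup.le_normalizer ha
    exact hR ⟨⟨a, hn⟩, hES _ (Subgroup.mem_subgroupOf.mpr ha), rfl⟩
  · intro z hz hz2
    have hCN : Subgroup.centralizer (E : Set G) ≤ N := by
      intro c hc
      rw [Subgroup.mem_normalizer_iff]
      intro h
      constructor
      · intro hh
        have := Subgroup.mem_centralizer_iff.mp hc h hh
        rw [← this]; simpa using hh
      · intro hh
        have h2 : c⁻¹ ∈ Subgroup.centralizer (E : Set G) := Subgroup.inv_mem _ hc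
        have := Subgroup.mem_centralizer_iff.mp h2 _ hh
        have h3 : c⁻¹ * (c * h * c⁻¹) * c = h := by group
        rw [← h3, ← this]
        simpa using hh
    let K : Subgroup N := (Subgroup.centralizer (E : Set G)).subgroupOf N
    haveI hKn : K.Normal := by
      constructor
      intro n hn g
      rw [Subgroup.mem_subgroupOf] at hn ⊢
      rw [Subgroup.mem_centralizer_iff]
      intro a ha
      have hg := (Subgroup.mem_normalizer_iff.mp g.2 a)
      have ha2 : (g : G)⁻¹ * a * (g : G) ∈ E := by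
        have h5 := (Subgroup.mem_normalizer_iff.mp (N.inv_mem g.2) a).1 ha
        simpa using h5
      have h6 := Subgroup.mem_centralizer_iff.mp hn _ ha2
      simp only [Subgroup.coe_mul, MulMemClass.coe_mul, InvMemClass.coe_inv]
      calc a * ((g : G) * (n : G) * (g : G)⁻¹) = (g : G) * (((g : G)⁻¹ * a * g) * n) * (g : G)⁻¹ := by group
        _ = (g : G) * ((n : G) * ((g : G)⁻¹ * a * g)) * (g : G)⁻¹ := by rw [h6]
        _ = (g : G) * (n : G) * (g : G)⁻¹ * a := by group
    obtain ⟨R₀, hR₀⟩ := SylowIdx.exists_sylow_inf S₀ K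
    have hzN : z ∈ N := hCN hz
    have hzK : (⟨z, hzN⟩ : N) ∈ K := Subgroup.mem_subgroupOf.mpr hz
    let zt : K := ⟨⟨z, hzN⟩, hzK⟩
    have hzt : IsPGroup p (Subgroup.zpowers zt) := by
      obtain ⟨k, hk⟩ := hz2
      have : zt ^ p ^ k = 1 := by
        apply Subtype.ext
        apply Subtype.ext
        simpa [zt] using hk
      rw [IsPGroup.iff_orderOf]
      rintro ⟨g, hg⟩
      obtain ⟨m, rfl⟩ := Subgroup.mem_zpowers_iff.mp hg
      have h7 : (zt ^ m) ^ p ^ k = 1 := by
        rw [← zpow_natCast, ← zpow_mul, mul_comm, zpow_mul, zpow_natCast, this, one_zpow]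
      have h8 : orderOf (⟨zt ^ m, hg⟩ : Subgroup.zpowers zt) ∣ p ^ k := by
        apply orderOf_dvd_of_pow_eq_one
        apply Subtype.ext
        simpa using h7
      obtain ⟨j, -, hj⟩ := (Nat.dvd_prime_pow hp.out).mp h8
      exact ⟨j, hj⟩
    obtain ⟨ct, hct⟩ := SylowIn.exists_conj_mem_sylow R₀ hzt
    have h9 : ct * zt * ct⁻¹ ∈ (R₀ : Subgroup K) := hct zt (Subgroup.mem_zpowers zt)
    rw [hR₀] at h9
    have h10 := (Subgroup.mem_subgroupOf.mp h9).1
    refine ⟨((ct : N) : G), Subgroup.mem_subgroupOf.mp ct.2, ?_⟩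
    apply hR
    exact ⟨_, h10, by simp [zt]⟩



/-- `σ`-classes. -/
abbrev KPi (σ : Finset ℕ) (H : Type*) [Group H] :=
  {c : ConjClasses H // ∀ x ∈ c.carrier, ∀ r : ℕ, r.Prime → r ∣ orderOf x → r ∈ σ}

/-- The `σ`-part of a number. -/
def partOf (σ : Finset ℕ) (n : ℕ) : ℕ := σ.prod fun r => r ^ n.factorization r

theorem mk_pred {σ : Finset ℕ} {H : Type*} [Group H] {x : H}
    (h : ∀ r : ℕ, r.Prime → r ∣ orderOf x → r ∈ σ) :
    ∀ y ∈ (ConjClasses.mk x).carrier, ∀ r : ℕ, r.Prime → r ∣ orderOf y → r ∈ σ := by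
  intro y hy r hr hd
  have h1 : ConjClasses.mk y = ConjClasses.mk x := ConjClasses.mem_carrier_iff_mk_eq.mp hy
  obtain ⟨c, hc⟩ := isConj_iff.mp (ConjClasses.mk_eq_mk_iff_isConj.mp h1.symm)
  have h3 : orderOf y = orderOf x := by
    rw [← hc]
    exact MulEquiv.orderOf_eq (MulAut.conj c) _
  exact h r hr (h3 ▸ hd)

theorem pred_of_singleton {H : Type*} [Group H] [Finite H] {x : H} {r : ℕ} (hr : r.Prime)
    (h : ∀ s : ℕ, s.Prime → s ∣ orderOf x → s ∈ ({r} : Finset ℕ)) : ∃ k, orderOf x = r ^ k := by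
  refine ⟨_, Nat.eq_prime_pow_of_unique_prime_dvd (orderOf_pos x).ne' (p := r) ?_⟩
  intro s hs hd
  exact Finset.mem_singleton.1 (h s hs hd)

theorem isPGroup_of_order {H : Type*} [Group H] [Finite H] {x : H} {r k : ℕ}
    (h : orderOf x = r ^ k) : IsPGroup r (Subgroup.zpowers x) :=
  IsPGroup.of_card (n := k) (by rw [Nat.card_zpowers, h])

/-- If there is no normal `p`-complement then there are few classes of `p`-elements. -/
theorem not_npc_le {G : Type*} [Group G] [Finite G] (P : Sylow p G)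
    (hodd : ∀ y : G, (orderOf y).Coprime p → Odd (orderOf y))
    (hn : ¬ HasNormalPComplement p G) :
    2 * Nat.card (KPi {p} G) ≤ Nat.card ↥(P : Subgroup G) := by
  classical
  obtain ⟨R, Q, y, q, hQR, hy, hy2, hyQ, hq, hyq, hC⟩ := data_of_not_npc hodd hn
  haveI : Fintype G := Fintype.ofFinite G
  have h1 := count_le (p := p) (R : Subgroup G) R.isPGroup' Q hQR y q hy hy2 hyQ hq hyq hC
  have h2 : Nat.card ↥(P : Subgroup G) = Nat.card ↥(R : Subgroup G) :=
    Nat.card_congr (Sylow.equiv P R).toEquiv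
  have h3 : (Finset.univ.filter (· ∈ (R : Subgroup G))).card = Nat.card ↥(R : Subgroup G) := by
    rw [Nat.card_eq_fintype_card, Fintype.card_subtype]
  have h4 : Nat.card (KPi {p} G) ≤
      ((Finset.univ.filter (· ∈ (R : Subgroup G))).image (ConjClasses.mk : G → ConjClasses G)).card := by
    rw [Nat.card_eq_fintype_card]
    rw [Fintype.card_subtype]
    apply Finset.card_le_card
    intro c hc
    have hc' := (Finset.mem_filter.mp hc).2
    obtain ⟨x, rfl⟩ := ConjClasses.exists_rep c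
    have hx := hc' x (ConjClasses.mem_carrier_mk)
    obtain ⟨k, hk⟩ := pred_of_singleton hp.out hx
    obtain ⟨g, hg⟩ := SylowIn.exists_conj_mem_sylow R (isPGroup_of_order hk)
    refine Finset.mem_image.mpr ⟨g * x * g⁻¹, ?_, ?_⟩
    · exact Finset.mem_filter.2 ⟨Finset.mem_univ _, hg x (Subgroup.mem_zpowers x)⟩
    · exact (ConjClasses.mk_eq_mk_iff_isConj.mpr (isConj_iff.mpr ⟨g, rfl⟩)).symm
  rw [h2, ← h3]
  omega

theorem npc_of_lt {G : Type*} [Group G] [Finite G] (P : Sylow p G)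
    (hodd : ∀ y : G, (orderOf y).Coprime p → Odd (orderOf y))
    (h : Nat.card ↥(P : Subgroup G) < 2 * Nat.card (KPi {p} G)) :
    HasNormalPComplement p G := by
  by_contra hn
  have := not_npc_le P hodd hn
  omega

/-- Splitting off a prime. -/
theorem kpi_split {H : Type*} [Group H] [Finite H] (r : ℕ) (σ : Finset ℕ) (B : ℕ)
    (hB : ∀ u : H, Nat.card (KPi σ (Subgroup.centralizer ({u} : Set H))) ≤ B) :
    Nat.card (KPi (insert r σ) H) ≤ Nat.card (KPi {r} H) * B := by
  classical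
  have hu : ∀ c : KPi {r} H, ∃ u : H, ConjClasses.mk u = c.1 := fun c => ConjClasses.exists_rep c.1
  choose u hu using hu
  have hv : ∀ (c : KPi {r} H) (d : KPi σ (Subgroup.centralizer ({u c} : Set H))),
      ∃ y : Subgroup.centralizer ({u c} : Set H), ConjClasses.mk y = d.1 :=
    fun c d => ConjClasses.exists_rep d.1
  choose v hv using hv
  let Ψ : (Σ c : KPi {r} H, KPi σ (Subgroup.centralizer ({u c} : Set H))) → KPi (insert r σ) H :=
    fun e => ⟨ConjClasses.mk (u e.1 * (v e.1 e.2 : H)), mk_pred (by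
      intro s hs hd
      have hcomm : Commute (u e.1) (v e.1 e.2 : H) :=
        (Subgroup.mem_centralizer_singleton_iff.1 (v e.1 e.2).2).symm
      have h1 := hcomm.orderOf_mul_dvd_mul_orderOf
      rcases (Nat.Prime.dvd_mul hs).1 (hd.trans h1) with h2 | h2
      · have h3 : u e.1 ∈ (e.1.1).carrier := by
          rw [← hu e.1]; exact ConjClasses.mem_carrier_mk
        have h4 := e.1.2 _ h3 s hs h2
        exact Finset.mem_insert.2 (Or.inl (Finset.mem_singleton.1 h4))
      · have h3 : v e.1 e.2 ∈ (e.2.1).carrier := by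
          rw [← hv e.1 e.2]; exact ConjClasses.mem_carrier_mk
        have h4 := e.2.2 _ h3 s hs (by rw [Subgroup.orderOf_coe] at h2; exact h2)
        exact Finset.mem_insert_of_mem h4)⟩
  have hsurj : Function.Surjective Ψ := by
    rintro ⟨C, hC⟩
    obtain ⟨x, rfl⟩ := ConjClasses.exists_rep C
    have hx := hC x ConjClasses.mem_carrier_mk
    obtain ⟨a, ha, b, hb, hxab, hae, hbp⟩ := H6PiPart.exists_decomp ({r} : Set ℕ) x
    have hoa : orderOf a ∣ orderOf x := orderOf_dvd_of_mem_zpowers ha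
    have hob : orderOf b ∣ orderOf x := orderOf_dvd_of_mem_zpowers hb
    have hab : Commute a b := by
      obtain ⟨i, rfl⟩ := Subgroup.mem_zpowers_iff.1 ha
      obtain ⟨j, rfl⟩ := Subgroup.mem_zpowers_iff.1 hb
      exact ((Commute.refl x).zpow_zpow i j)
    let c0 : KPi {r} H := ⟨ConjClasses.mk a, mk_pred (by
      intro s hs hd
      exact Finset.mem_singleton.2 (Set.mem_singleton_iff.1 (hae s hs hd)))⟩
    have hu0 : ConjClasses.mk (u c0) = ConjClasses.mk a := hu c0
    obtain ⟨g, hg⟩ := isConj_iff.mp (ConjClasses.mk_eq_mk_iff_isConj.mp hu0.symm)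
    have hy0 : g * b * g⁻¹ ∈ Subgroup.centralizer ({u c0} : Set H) := by
      rw [Subgroup.mem_centralizer_singleton_iff, ← hg]
      have := hab.eq
      calc g * b * g⁻¹ * (g * a * g⁻¹) = g * (b * a) * g⁻¹ := by group
        _ = g * (a * b) * g⁻¹ := by rw [this]
        _ = _ := by group
    let y0 : Subgroup.centralizer ({u c0} : Set H) := ⟨g * b * g⁻¹, hy0⟩
    let d0 : KPi σ (Subgroup.centralizer ({u c0} : Set H)) := ⟨ConjClasses.mk y0, mk_pred (by
      intro s hs hd
      have h1 : orderOf y0 = orderOf b := by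
        rw [← Subgroup.orderOf_coe]
        exact H6Hughes.order_of_conj g b
      rw [h1] at hd
      have h2 : s ∉ ({r} : Set ℕ) := hbp s hs hd
      have h3 := hx s hs (hd.trans hob)
      rcases Finset.mem_insert.1 h3 with h4 | h4
      · exact absurd (Set.mem_singleton_iff.2 h4) h2
      · exact h4)⟩
    refine ⟨⟨c0, d0⟩, ?_⟩
    apply Subtype.ext
    change ConjClasses.mk (u c0 * (v c0 d0 : H)) = ConjClasses.mk x
    obtain ⟨t, ht⟩ := isConj_iff.mp (ConjClasses.mk_eq_mk_iff_isConj.mp (hv c0 d0).symm)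
    have ht' : (t : H) * (g * b * g⁻¹) * (t : H)⁻¹ = (v c0 d0 : H) := by
      have := congrArg Subtype.val ht
      simpa [y0] using this
    have htc : (t : H) * u c0 = u c0 * t := Subgroup.mem_centralizer_singleton_iff.1 t.2
    apply ConjClasses.mk_eq_mk_iff_isConj.mpr
    apply IsConj.symm
    refine isConj_iff.mpr ⟨(t : H) * g, ?_⟩
    rw [hxab]
    have e1 : (t : H) * g * (a * b) * ((t : H) * g)⁻¹ = (t : H) * (g * a * g⁻¹) * (g * b * g⁻¹) * (t : H)⁻¹ := by
      group
    rw [e1, hg, htc, ← ht']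
    group
  haveI : Fintype (KPi {r} H) := Fintype.ofFinite _
  calc Nat.card (KPi (insert r σ) H) ≤ Nat.card (Σ c : KPi {r} H, KPi σ (Subgroup.centralizer ({u c} : Set H))) :=
        Nat.card_le_card_of_surjective Ψ hsurj
    _ = ∑ c : KPi {r} H, Nat.card (KPi σ (Subgroup.centralizer ({u c} : Set H))) := Nat.card_sigma
    _ ≤ ∑ _c : KPi {r} H, B := Finset.sum_le_sum fun c _ => hB (u c)
    _ = _ := by simp [Nat.card_eq_fintype_card]

theorem partOf_mono (σ : Finset ℕ) (hσ : ∀ r ∈ σ, r.Prime) {m n : ℕ} (hn : n ≠ 0) (h : m ∣ n) :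
    partOf σ m ≤ partOf σ n := by
  apply Finset.prod_le_prod'
  intro r hr
  have hm : m ≠ 0 := by
    rintro rfl
    exact hn (zero_dvd_iff.1 h)
  exact Nat.pow_le_pow_right (hσ r hr).pos
    (((Nat.factorization_le_iff_dvd hm hn).2 h) r)

theorem partOf_pos (σ : Finset ℕ) (hσ : ∀ r ∈ σ, r.Prime) (n : ℕ) : 0 < partOf σ n := by
  apply Finset.prod_pos
  intro r hr
  exact Nat.pow_pos (hσ r hr).pos

/-- Classes of `r`-elements are at most the order of a Sylow subgroup. -/
theorem kpi_le_classes {H : Type*} [Group H] [Finite H] {r : ℕ} [hr : Fact r.Prime] (P : Sylow r H) :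
    Nat.card (KPi {r} H) ≤ Nat.card (ConjClasses ↥(P : Subgroup H)) := by
  classical
  have hpred : ∀ c : ConjClasses ↥(P : Subgroup H), ∀ x ∈ (ConjClasses.map (P : Subgroup H).subtype c).carrier,
      ∀ s : ℕ, s.Prime → s ∣ orderOf x → s ∈ ({r} : Finset ℕ) := by
    intro c
    obtain ⟨a, rfl⟩ := ConjClasses.exists_rep c
    apply mk_pred
    intro s hs hd
    obtain ⟨k, hk⟩ := (IsPGroup.iff_orderOf.mp P.isPGroup') a
    have h1 : orderOf ((a : ↥(P : Subgroup H)) : H) = r ^ k := by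
      rw [← hk]
      exact Subgroup.orderOf_coe a
    have h2 : s ∣ r ^ k := by
      rw [← h1]
      exact hd
    exact Finset.mem_singleton.2 ((Nat.prime_dvd_prime_iff_eq hs hr.out).1 (hs.dvd_of_dvd_pow h2))
  apply Nat.card_le_card_of_surjective
    (fun c => (⟨ConjClasses.map (P : Subgroup H).subtype c, hpred c⟩ : KPi {r} H))
  rintro ⟨c, hc⟩
  obtain ⟨x, rfl⟩ := ConjClasses.exists_rep c
  have hx := hc x ConjClasses.mem_carrier_mk
  obtain ⟨k, hk⟩ := pred_of_singleton hr.out hx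
  obtain ⟨g, hg⟩ := SylowIn.exists_conj_mem_sylow P (isPGroup_of_order hk)
  refine ⟨ConjClasses.mk ⟨g * x * g⁻¹, hg x (Subgroup.mem_zpowers x)⟩, ?_⟩
  apply Subtype.ext
  exact (ConjClasses.mk_eq_mk_iff_isConj.mpr (isConj_iff.mpr ⟨g, rfl⟩)).symm

theorem card_classes_le {P : Type*} [Group P] [Finite P] : Nat.card (ConjClasses P) ≤ Nat.card P :=
  Nat.card_le_card_of_surjective (ConjClasses.mk : P → ConjClasses P) ConjClasses.mk_surjective

/-- The bound `k_σ(H) ≤ |H|_σ`. -/
theorem kpi_bound.{u} (σ : Finset ℕ) (hσ : ∀ r ∈ σ, r.Prime) :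
    ∀ (H : Type u) [Group H] [Finite H], Nat.card (KPi σ H) ≤ partOf σ (Nat.card H) := by
  classical
  induction σ using Finset.induction_on with
  | empty =>
    intro H _ _
    simp only [partOf, Finset.prod_empty]
    rw [Finite.card_le_one_iff_subsingleton]
    constructor
    rintro ⟨c, hc⟩ ⟨d, hd⟩
    have key : ∀ c : KPi ∅ H, c.1 = ConjClasses.mk 1 := by
      rintro ⟨c, hc⟩
      obtain ⟨x, rfl⟩ := ConjClasses.exists_rep c
      have hx := hc x ConjClasses.mem_carrier_mk
      have h1 : orderOf x = 1 := by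
        by_contra hne
        obtain ⟨s, hs, hd⟩ := Nat.exists_prime_and_dvd hne
        simpa using hx s hs hd
      change ConjClasses.mk x = ConjClasses.mk 1
      rw [orderOf_eq_one_iff.1 h1]
    exact Subtype.ext ((key ⟨c, hc⟩).trans (key ⟨d, hd⟩).symm)
  | insert r τ hr ih =>
    intro H _ _
    have hτ : ∀ s ∈ τ, s.Prime := fun s hs => hσ s (Finset.mem_insert_of_mem hs)
    have hrp : r.Prime := hσ r (Finset.mem_insert_self _ _)
    haveI : Fact r.Prime := ⟨hrp⟩
    have h0 : Nat.card H ≠ 0 := Nat.card_pos.ne'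
    have h1 := kpi_split (H := H) r τ (partOf τ (Nat.card H)) (fun u =>
      (ih hτ _).trans (partOf_mono τ hτ h0 (Subgroup.card_subgroup_dvd_card _)))
    obtain ⟨P⟩ : Nonempty (Sylow r H) := inferInstance
    have h2 : Nat.card (KPi {r} H) ≤ r ^ (Nat.card H).factorization r := by
      rw [← Sylow.card_eq_multiplicity P]
      exact (kpi_le_classes P).trans card_classes_le
    calc Nat.card (KPi (insert r τ) H) ≤ Nat.card (KPi {r} H) * partOf τ (Nat.card H) := h1
      _ ≤ r ^ (Nat.card H).factorization r * partOf τ (Nat.card H) := Nat.mul_le_mul_right _ h2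
      _ = partOf (insert r τ) (Nat.card H) := by
        simp only [partOf]
        rw [Finset.prod_insert hr]

/-- Each prime of `π` satisfies the bound, given the bound for `π`. -/
theorem part_lt (π : Finset ℕ) (hπ : ∀ r ∈ π, r.Prime) {G : Type*} [Group G] [Finite G]
    (hk : partOf π (Nat.card G) < 2 * Nat.card (KPi π G)) {r : ℕ} (hr : r ∈ π) :
    r ^ (Nat.card G).factorization r < 2 * Nat.card (KPi {r} G) := by
  classical
  have hτ : ∀ s ∈ π.erase r, s.Prime := fun s hs => hπ s (Finset.mem_of_mem_erase hs)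
  have h0 : Nat.card G ≠ 0 := Nat.card_pos.ne'
  have hins : insert r (π.erase r) = π := Finset.insert_erase hr
  have h1 := kpi_split (H := G) r (π.erase r) (partOf (π.erase r) (Nat.card G)) (fun u =>
    (kpi_bound _ hτ _).trans (partOf_mono _ hτ h0 (Subgroup.card_subgroup_dvd_card _)))
  rw [hins] at h1
  have h2 : partOf π (Nat.card G) = r ^ (Nat.card G).factorization r * partOf (π.erase r) (Nat.card G) := by
    conv_lhs => rw [← hins]
    simp only [partOf]
    rw [Finset.prod_insert (Finset.notMem_erase r π)]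
  have h3 := partOf_pos _ hτ (Nat.card G)
  by_contra hcon
  push_neg at hcon
  have h4 : 2 * Nat.card (KPi {r} G) * partOf (π.erase r) (Nat.card G) ≤
      r ^ (Nat.card G).factorization r * partOf (π.erase r) (Nat.card G) :=
    Nat.mul_le_mul_right _ hcon
  rw [← h2] at h4
  have h5 : 2 * Nat.card (KPi π G) ≤ 2 * (Nat.card (KPi {r} G) * partOf (π.erase r) (Nat.card G)) :=
    Nat.mul_le_mul_left _ h1
  rw [← mul_assoc] at h5
  omega

/-- A group of odd order with many classes is abelian. -/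
theorem abelian_of_lt {R : Type*} [Group R] [Finite R] (hodd : Odd (Nat.card R))
    (h : Nat.card R < 2 * Nat.card (ConjClasses R)) : ∀ a b : R, a * b = b * a := by
  classical
  by_contra hna
  haveI : Fintype R := Fintype.ofFinite R
  have hodd' : ∀ y : R, Odd (orderOf y) := fun y => Odd.of_dvd_nat hodd (orderOf_dvd_natCard y)
  set Z := Subgroup.center R with hZ
  have hidx : 4 * Nat.card Z ≤ Nat.card R := by
    have h1 := Subgroup.card_mul_index Z
    have h2 : Z.index ≠ 1 := by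
      intro h3
      apply hna
      have h4 : Z = ⊤ := Subgroup.index_eq_one.1 h3
      intro a b
      have h5 : b ∈ Z := by rw [h4]; trivial
      exact ((Subgroup.mem_center_iff.1 h5) a)
    have hcyc : ¬ (Z.index).Prime := by
      intro hpr
      apply hna
      haveI : Fact (Nat.card (R ⧸ Z)).Prime := ⟨by rw [← Subgroup.index_eq_card]; exact hpr⟩
      haveI : IsCyclic (R ⧸ Z) := isCyclic_of_prime_card rfl
      intro a b
      exact commutative_of_cyclic_center_quotient (QuotientGroup.mk' Z)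
        (by rw [QuotientGroup.ker_mk']) a b
    have h3 : Z.index ≠ 0 := Subgroup.index_ne_zero_of_finite
    have h4 : 4 ≤ Z.index := by
      by_contra hlt
      push_neg at hlt
      interval_cases hi : Z.index
      · omega
      · omega
      · exact hcyc Nat.prime_two
      · exact hcyc Nat.prime_three
    rw [← h1, mul_comm]
    exact Nat.mul_le_mul_left _ h4
  let N : Finset R := Finset.univ.filter (· ∉ Z)
  have hNcard : N.card + Nat.card Z = Nat.card R := by
    have h1 : N.card = Fintype.card {x // x ∉ Z} := by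
      rw [Fintype.card_subtype]
    have h2 := Fintype.card_subtype_compl (fun x => x ∈ Z)
    rw [h1, h2, Nat.card_eq_fintype_card, Nat.card_eq_fintype_card]
    have h3 : Fintype.card Z ≤ Fintype.card R := Fintype.card_subtype_le _
    change Fintype.card R - Fintype.card {x // x ∈ Z} + Fintype.card Z = _
    have : Fintype.card {x // x ∈ Z} = Fintype.card Z := rfl
    omega
  have h3 : 3 * (N.image (ConjClasses.mk : R → ConjClasses R)).card ≤ N.card := by
    apply Finset.mul_card_image_le_card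
    intro c hc
    obtain ⟨x, hxN, rfl⟩ := Finset.mem_image.1 hc
    have hxZ : x ∉ Z := (Finset.mem_filter.1 hxN).2
    obtain ⟨y, hy⟩ : ∃ y, y * x ≠ x * y := by
      by_contra hall
      push_neg at hall
      exact hxZ (Subgroup.mem_center_iff.2 hall)
    have hy1 : y * x * y⁻¹ ≠ x := by
      intro h4
      apply hy
      have h40 : y * x = (y * x * y⁻¹) * y := by group
      rw [h40, h4]
    have hy2 : y ^ 2 * x * (y ^ 2)⁻¹ ≠ x := by
      intro h4
      obtain ⟨m, hm⟩ := hodd' y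
      apply hy1
      have h5 : y = (y ^ 2) ^ (m + 1) := by
        rw [← pow_mul]
        have : 2 * (m + 1) = orderOf y + 1 := by omega
        rw [this, pow_succ, pow_orderOf_eq_one, one_mul]
      rw [h5]
      exact conj_pow_inv' (y ^ 2) x (m + 1) h4
    have hy3 : y ^ 2 * x * (y ^ 2)⁻¹ ≠ y * x * y⁻¹ := by
      intro h4
      apply hy1
      have h5 : y⁻¹ * (y ^ 2 * x * (y ^ 2)⁻¹) * y = y⁻¹ * (y * x * y⁻¹) * y := by rw [h4]
      simpa [pow_two, mul_assoc] using h5
    have hmem : ∀ g : R, g * x * g⁻¹ ∈ N.filter (fun z => ConjClasses.mk z = ConjClasses.mk x) := by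
      intro g
      refine Finset.mem_filter.2 ⟨Finset.mem_filter.2 ⟨Finset.mem_univ _, ?_⟩, ?_⟩
      · intro hc
        apply hxZ
        have := (inferInstance : Z.Normal).conj_mem _ hc g⁻¹
        simpa [mul_assoc] using this
      · exact (ConjClasses.mk_eq_mk_iff_isConj.mpr (isConj_iff.mpr ⟨g, rfl⟩)).symm
    have hsub : ({x, y * x * y⁻¹, y ^ 2 * x * (y ^ 2)⁻¹} : Finset R) ⊆
        N.filter (fun z => ConjClasses.mk z = ConjClasses.mk x) := by
      intro z hz
      simp only [Finset.mem_insert, Finset.mem_singleton] at hz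
      rcases hz with rfl | rfl | rfl
      · simpa using hmem 1
      · exact hmem y
      · exact hmem _
    have hc3 : ({x, y * x * y⁻¹, y ^ 2 * x * (y ^ 2)⁻¹} : Finset R).card = 3 := by
      rw [Finset.card_eq_three]
      exact ⟨_, _, _, hy1.symm, hy2.symm, hy3.symm, rfl⟩
    calc 3 = _ := hc3.symm
      _ ≤ _ := Finset.card_le_card hsub
  have h4 : Nat.card (ConjClasses R) ≤ (N.image (ConjClasses.mk : R → ConjClasses R)).card + Nat.card Z := by
    rw [Nat.card_eq_fintype_card (α := ConjClasses R)]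
    have hsub : (Finset.univ : Finset (ConjClasses R)) ⊆
        N.image ConjClasses.mk ∪ (Finset.univ.filter (· ∈ Z)).image ConjClasses.mk := by
      intro c _
      obtain ⟨x, rfl⟩ := ConjClasses.exists_rep c
      by_cases hx : x ∈ Z
      · exact Finset.mem_union_right _ (Finset.mem_image_of_mem _ (Finset.mem_filter.2 ⟨Finset.mem_univ _, hx⟩))
      · exact Finset.mem_union_left _ (Finset.mem_image_of_mem _ (Finset.mem_filter.2 ⟨Finset.mem_univ _, hx⟩))
    have h5 := Finset.card_le_card hsub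
    have h6 := Finset.card_union_le (N.image (ConjClasses.mk : R → ConjClasses R)) ((Finset.univ.filter (· ∈ Z)).image ConjClasses.mk)
    have h7 : ((Finset.univ.filter (· ∈ Z)).image (ConjClasses.mk : R → ConjClasses R)).card ≤ Nat.card Z := by
      refine Finset.card_image_le.trans ?_
      rw [Nat.card_eq_fintype_card, Fintype.card_subtype]
    rw [Finset.card_univ] at h5
    omega
  omega

/-- Classes of `σ`-elements of `G` are covered by those of a normal subgroup containing all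
`σ`-elements. -/
theorem kpi_le_of_le {G : Type*} [Group G] [Finite G] (K : Subgroup G) (σ : Finset ℕ)
    (hK : ∀ x : G, (∀ s : ℕ, s.Prime → s ∣ orderOf x → s ∈ σ) → x ∈ K) :
    Nat.card (KPi σ G) ≤ Nat.card (KPi σ ↥K) := by
  classical
  have hpred : ∀ c : KPi σ ↥K, ∀ x ∈ (ConjClasses.map K.subtype c.1).carrier,
      ∀ s : ℕ, s.Prime → s ∣ orderOf x → s ∈ σ := by
    rintro ⟨c, hc⟩
    obtain ⟨a, rfl⟩ := ConjClasses.exists_rep c
    apply mk_pred
    intro s hs hd
    exact hc a ConjClasses.mem_carrier_mk s hs (by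
      rw [← Subgroup.orderOf_coe]
      exact hd)
  apply Nat.card_le_card_of_surjective
    (fun c => (⟨ConjClasses.map K.subtype c.1, hpred c⟩ : KPi σ G))
  rintro ⟨c, hc⟩
  obtain ⟨x, rfl⟩ := ConjClasses.exists_rep c
  have hx := hc x ConjClasses.mem_carrier_mk
  have hxK := hK x hx
  refine ⟨⟨ConjClasses.mk ⟨x, hxK⟩, mk_pred ?_⟩, rfl⟩
  intro s hs hd
  apply hx s hs
  rw [Subgroup.orderOf_mk] at hd
  exact hd

/-- The subgroup attached to an odd prime. -/
theorem exists_M {G : Type*} [Group G] [Finite G] (K : Subgroup G) [hKn : K.Normal]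
    (hKodd : Odd (Nat.card K)) {r : ℕ} [hr : Fact r.Prime]
    (hGr : ∀ x : G, (∀ s : ℕ, s.Prime → s ∣ orderOf x → s ∈ ({r} : Finset ℕ)) → x ∈ K)
    (hlt : r ^ (Nat.card G).factorization r < 2 * Nat.card (KPi {r} G)) :
    ∃ M : Subgroup G, M.Normal ∧ (∀ x : G, x ∈ M ↔ x ∈ K ∧ ¬ r ∣ orderOf x) ∧
      ∀ a ∈ K, ∀ b ∈ K, a * b * a⁻¹ * b⁻¹ ∈ M := by
  classical
  obtain ⟨R⟩ : Nonempty (Sylow r ↥K) := inferInstance
  have h1 : Nat.card (KPi {r} G) ≤ Nat.card (KPi {r} ↥K) := kpi_le_of_le K _ hGr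
  have h2 : Nat.card ↥(R : Subgroup ↥K) ≤ r ^ (Nat.card G).factorization r := by
    rw [Sylow.card_eq_multiplicity R]
    apply Nat.pow_le_pow_right hr.out.pos
    exact ((Nat.factorization_le_iff_dvd Nat.card_pos.ne' Nat.card_pos.ne').2
      (Subgroup.card_subgroup_dvd_card K)) r
  have hlt2 : Nat.card ↥(R : Subgroup ↥K) < 2 * Nat.card (KPi {r} ↥K) := by omega
  have hoddK : ∀ y : ↥K, Odd (orderOf y) := fun y => Odd.of_dvd_nat hKodd (orderOf_dvd_natCard y)
  have hnpc : HasNormalPComplement r ↥K := npc_of_lt R (fun y _ => hoddK y) hlt2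
  obtain ⟨N, hNn, hNp, hNpow⟩ := PNilp.npc_iff.1 hnpc
  haveI := hNn
  have hab : ∀ a b : ↥(R : Subgroup ↥K), a * b = b * a := by
    apply abelian_of_lt
    · exact Odd.of_dvd_nat hKodd (Subgroup.card_subgroup_dvd_card _)
    · have := kpi_le_classes R
      omega
  refine ⟨N.map K.subtype, H6Hughes.npc_map_normal K N hNp hNpow, ?_, ?_⟩
  · intro x
    constructor
    · rintro ⟨y, hy, rfl⟩
      refine ⟨y.2, ?_⟩
      have := (H6Hughes.mem_npc_iff N hNp hNpow y).1 hy
      rw [← Subgroup.orderOf_coe] at this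
      exact this
    · rintro ⟨hxK, hxr⟩
      refine ⟨⟨x, hxK⟩, ?_, rfl⟩
      exact (H6Hughes.mem_npc_iff N hNp hNpow _).2 (by rw [Subgroup.orderOf_mk]; exact hxr)
  · intro a ha b hb
    have hq : IsPGroup r (↥K ⧸ N) := PNilp.isPGroup_quot_of_pow N hNpow
    have hsup : N ⊔ (R : Subgroup ↥K) = ⊤ := PResidual.sup_sylow_eq_top_of_isPGroup_quotient hq R
    have hcomm : commutator (↥K ⧸ N) = ⊥ ∨ True := Or.inr trivial
    have key : ∀ u v : ↥K, u * v * u⁻¹ * v⁻¹ ∈ N := by
      intro u v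
      have hu : u ∈ N ⊔ (R : Subgroup ↥K) := by rw [hsup]; trivial
      have hv : v ∈ N ⊔ (R : Subgroup ↥K) := by rw [hsup]; trivial
      obtain ⟨n1, hn1, s1, hs1, rfl⟩ := Subgroup.mem_sup_of_normal_left.mp hu
      obtain ⟨n2, hn2, s2, hs2, rfl⟩ := Subgroup.mem_sup_of_normal_left.mp hv
      rw [← QuotientGroup.eq_one_iff]
      have h3 := congrArg Subtype.val (hab ⟨s1, hs1⟩ ⟨s2, hs2⟩)
      change s1 * s2 = s2 * s1 at h3
      have h4 : ((n1 : ↥K) : ↥K ⧸ N) = 1 := (QuotientGroup.eq_one_iff _).2 hn1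
      have h5 : ((n2 : ↥K) : ↥K ⧸ N) = 1 := (QuotientGroup.eq_one_iff _).2 hn2
      simp only [QuotientGroup.mk_mul, QuotientGroup.mk_inv, h4, h5, one_mul]
      rw [← QuotientGroup.mk_mul, h3, QuotientGroup.mk_mul]
      group
    exact ⟨⟨a, ha⟩ * ⟨b, hb⟩ * ⟨a, ha⟩⁻¹ * ⟨b, hb⟩⁻¹, key _ _, rfl⟩

end Cfsg.Agent.Lib.H6KPi
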