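import Mathlib

/-!
Self-centralizing normal abelian subgroups of finite nilpotent groups (helper6).
-/

set_option autoImplicit false

namespace Cfsg.Agent.Lib.H6Nilp

open scoped commutatorElement

/-- A maximal normal abelian subgroup of a finite nilpotent group is self-centralizing. -/
theorem exists_self_centralizing_nilp {G : Type*} [Group G] [Finite G] [hnil : Group.IsNilpotent G] :
    ∃ M : Subgroup G, M.Normal ∧ (∀ a ∈ M, ∀ b ∈ M, a * b = b * a) ∧ ∀ x, (∀ a ∈ M, x * a = a * x) → x ∈ M := by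
  classical
  let F : Set (Subgroup G) := {M | M.Normal ∧ ∀ a ∈ M, ∀ b ∈ M, a * b = b * a}
  have hF : (⊥ : Subgroup G) ∈ F := by
    refine ⟨inferInstance, ?_⟩
    intro a ha b hb
    have h1 : a = 1 := ha
    have h2 : b = 1 := hb
    rw [h1, h2]
  obtain ⟨M, hM⟩ := (Set.toFinite F).exists_maximal ⟨⊥, hF⟩
  obtain ⟨hMn, hMc⟩ := hM.prop
  refine ⟨M, hMn, hMc, ?_⟩
  intro x0 hx0
  by_contra hx0M
  -- the centralizer
  let C : Subgroup G := Subgroup.centralizer (M : Set G)
  have hCn : C.Normal := Subgroup.normal_centralizer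
  have hCmem : ∀ y, y ∈ C ↔ ∀ a ∈ M, y * a = a * y := by
    intro y
    constructor
    · intro hy a ha
      exact (Subgroup.mem_centralizer_iff.mp hy a ha).symm
    · intro hy
      refine Subgroup.mem_centralizer_iff.mpr ?_
      intro a ha
      exact (hy a ha).symm
  let L : ℕ → Subgroup G := fun i => C ⊓ Subgroup.lowerCentralSeries (⊤ : Subgroup G) i
  have hex : ∃ i, L i ≤ M := by
    obtain ⟨n, hn⟩ := (Subgroup.nilpotent_iff_lowerCentralSeries (G := G)).mp hnil
    refine ⟨n, ?_⟩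
    intro y hy
    have h2 : y ∈ Subgroup.lowerCentralSeries (⊤ : Subgroup G) n := hy.2
    rw [hn] at h2
    have h3 : y = 1 := h2
    rw [h3]
    exact M.one_mem
  have hL0 : ¬ L 0 ≤ M := by
    intro h
    apply hx0M
    apply h
    refine ⟨(hCmem x0).mpr hx0, ?_⟩
    simp [Subgroup.lowerCentralSeries_zero]
  let i0 := Nat.find hex
  have hi0 : i0 ≠ 0 := by
    intro h0
    apply hL0
    have := Nat.find_spec hex
    change L i0 ≤ M at this
    rwa [h0] at this
  obtain ⟨i, hi⟩ := Nat.exists_eq_succ_of_ne_zero hi0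
  have hLs : L (i + 1) ≤ M := by
    have := Nat.find_spec hex
    change L i0 ≤ M at this
    rwa [hi] at this
  have hLi : ¬ L i ≤ M := by
    have := Nat.find_min hex (m := i) (by change i < i0; omega)
    exact this
  obtain ⟨x, hxL, hxM⟩ := SetLike.not_le_iff_exists.mp hLi
  have hxC : x ∈ C := hxL.1
  have hxcomm : ∀ a ∈ M, x * a = a * x := (hCmem x).mp hxC
  have hxg : ∀ g : G, g * x * g⁻¹ * x⁻¹ ∈ M := by
    intro g
    apply hLs
    refine ⟨?_, ?_⟩
    · apply C.mul_mem
      · exact hCn.conj_mem x hxC g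
      · exact C.inv_mem hxC
    · have h1 : ⁅x, g⁆ ∈ Subgroup.lowerCentralSeries (⊤ : Subgroup G) (i + 1) := by
        rw [Subgroup.lowerCentralSeries_succ]
        exact Subgroup.commutator_mem_commutator hxL.2 (Subgroup.mem_top g)
      have h2 := Subgroup.inv_mem _ h1
      have h3 : (⁅x, g⁆)⁻¹ = g * x * g⁻¹ * x⁻¹ := by
        rw [commutatorElement_inv]
        rfl
      rwa [h3] at h2
  -- the bigger subgroup
  let M' : Subgroup G := M ⊔ Subgroup.zpowers x
  have hMM' : M ≤ M' := le_sup_left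
  have hxM' : x ∈ M' := (le_sup_right : Subgroup.zpowers x ≤ M') (Subgroup.mem_zpowers x)
  have hmem : ∀ y, y ∈ M' ↔ ∃ a ∈ M, ∃ b ∈ Subgroup.zpowers x, a * b = y := by
    intro y
    exact Subgroup.mem_sup_of_normal_left
  have hM'n : M'.Normal := by
    constructor
    intro y hy g
    obtain ⟨a, ha, b, hb, rfl⟩ := (hmem y).mp hy
    have h1 : g * (a * b) * g⁻¹ = (g * a * g⁻¹) * (g * b * g⁻¹) := by group
    rw [h1]
    apply M'.mul_mem (hMM' (hMn.conj_mem a ha g))
    obtain ⟨k, rfl⟩ := Subgroup.mem_zpowers_iff.mp hb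
    have h2 : g * x ^ k * g⁻¹ = (g * x * g⁻¹) ^ k := by
      rw [conj_zpow]
    rw [h2]
    apply M'.zpow_mem
    have h3 : g * x * g⁻¹ = (g * x * g⁻¹ * x⁻¹) * x := by group
    rw [h3]
    exact M'.mul_mem (hMM' (hxg g)) hxM'
  have hM'c : ∀ a ∈ M', ∀ b ∈ M', a * b = b * a := by
    intro u hu v hv
    obtain ⟨a, ha, b, hb, rfl⟩ := (hmem u).mp hu
    obtain ⟨c, hc, d, hd, rfl⟩ := (hmem v).mp hv
    obtain ⟨k, rfl⟩ := Subgroup.mem_zpowers_iff.mp hb
    obtain ⟨l, rfl⟩ := Subgroup.mem_zpowers_iff.mp hd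
    have hc1 : Commute (x ^ k) c := (show Commute x c from hxcomm c hc).zpow_left k
    have hc2 : Commute (x ^ l) a := (show Commute x a from hxcomm a ha).zpow_left l
    have hc3 : Commute (x ^ k) (x ^ l) := (Commute.refl x).zpow_zpow k l
    calc a * x ^ k * (c * x ^ l) = a * c * (x ^ k * x ^ l) := by
          rw [mul_assoc, ← mul_assoc (x ^ k), hc1.eq]; group
      _ = c * a * (x ^ l * x ^ k) := by rw [hMc a ha c hc, hc3.eq]
      _ = c * x ^ l * (a * x ^ k) := by
          rw [mul_assoc, ← mul_assoc a, ← hc2.eq]; group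
  have hle := hM.le_of_ge (show M' ∈ F from ⟨hM'n, hM'c⟩) hMM'
  exact hxM (hle hxM')

end Cfsg.Agent.Lib.H6Nilp
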