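import Mathlib
import Cfsg.Agent.Lib.Aff3

/-!
Linear algebra for groups with three automorphism orbits: cyclic modules of an automorphism of
prime order, the field it generates.
-/

set_option autoImplicit false
set_option linter.all false

namespace Cfsg.Agent.Lib.H6Orb3

open Polynomial

section Forward

variable {p q : ℕ} [hp : Fact p.Prime] [hq : Fact q.Prime] {V : Type*} [AddCommGroup V]
  [Module (ZMod p) V]

theorem conj_pow (σ τ : Module.End (ZMod p) V) (T : V →ₗ[ZMod p] V) (hT : ∀ v, T (σ v) = τ (T v))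
    (n : ℕ) (v : V) : T ((σ ^ n) v) = (τ ^ n) (T v) := by
  induction n generalizing v with
  | zero => simp
  | succ n ih =>
    rw [pow_succ, pow_succ]
    simp only [Module.End.mul_apply]
    rw [ih, hT]

theorem conj_aeval (σ τ : Module.End (ZMod p) V) (T : V →ₗ[ZMod p] V) (hT : ∀ v, T (σ v) = τ (T v))
    (h : (ZMod p)[X]) (v : V) : T (aeval σ h v) = aeval τ h (T v) := by
  induction h using Polynomial.induction_on' with
  | add f g hf hg => simp only [map_add, LinearMap.add_apply, hf, hg]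
  | monomial n a =>
    simp only [aeval_monomial, Module.End.mul_apply, Module.algebraMap_end_apply, map_smul]
    rw [conj_pow σ τ T hT]

/-- The cyclic submodule, as a set. -/
def cyc (σ : Module.End (ZMod p) V) (v : V) : Set V := Set.range fun h : (ZMod p)[X] => aeval σ h v

theorem mem_cyc_self (σ : Module.End (ZMod p) V) (v : V) : v ∈ cyc σ v :=
  ⟨1, by simp⟩

theorem cyc_subset (σ : Module.End (ZMod p) V) {u w : V} (hw : w ∈ cyc σ u) : cyc σ w ⊆ cyc σ u := by
  obtain ⟨h, rfl⟩ := hw
  rintro x ⟨h', rfl⟩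
  exact ⟨h' * h, by simp⟩

theorem ncard_cyc_le [Finite V] (σ : Module.End (ZMod p) V) {u v : V} (k : ℕ) (T : V ≃ₗ[ZMod p] V)
    (hTu : T u = v) (hT : ∀ w, T (σ w) = (σ ^ k) (T w)) : (cyc σ u).ncard ≤ (cyc σ v).ncard := by
  refine Set.ncard_le_ncard_of_injOn T ?_ T.injective.injOn (Set.toFinite _)
  rintro x ⟨h, rfl⟩
  refine ⟨h.comp (X ^ k), ?_⟩
  have h1 := conj_aeval σ (σ ^ k) T.toLinearMap hT h u
  simp only [LinearEquiv.coe_coe] at h1
  change aeval σ (h.comp (X ^ k)) v = T (aeval σ h u)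
  rw [h1, hTu, aeval_comp]
  simp

/-- A polynomial killing `σ` gives a ring homomorphism from `AdjoinRoot`. -/
noncomputable def liftEnd (σ : Module.End (ZMod p) V) (g : (ZMod p)[X]) (hg : aeval σ g = 0) :
    AdjoinRoot g →+* Module.End (ZMod p) V :=
  Ideal.Quotient.lift (Ideal.span {g}) (aeval σ).toRingHom (by
    intro a ha
    obtain ⟨c, rfl⟩ := Ideal.mem_span_singleton'.mp ha
    simp [map_mul, hg])

theorem liftEnd_mk (σ : Module.End (ZMod p) V) (g : (ZMod p)[X]) (hg : aeval σ g = 0)
    (h : (ZMod p)[X]) : liftEnd σ g hg (AdjoinRoot.mk g h) = aeval σ h :=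
  Ideal.Quotient.lift_mk _ _ _

theorem liftEnd_root (σ : Module.End (ZMod p) V) (g : (ZMod p)[X]) (hg : aeval σ g = 0) :
    liftEnd σ g hg (AdjoinRoot.root g) = σ := by
  have := liftEnd_mk σ g hg X
  simpa using this

theorem liftEnd_aeval (σ : Module.End (ZMod p) V) (g : (ZMod p)[X]) (hg : aeval σ g = 0)
    (x : AdjoinRoot g) (h : (ZMod p)[X]) :
    liftEnd σ g hg (aeval x h) = aeval (liftEnd σ g hg x) h := by
  induction h using Polynomial.induction_on' with
  | add f f' hf hf' => simp only [map_add, hf, hf']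
  | monomial n a =>
    simp only [aeval_monomial, map_mul, map_pow]
    congr 1
    have h2 := liftEnd_mk σ g hg (C a)
    simp only [aeval_C] at h2
    exact h2

theorem order_eq_of_transitive [Finite V] [Nontrivial V] (hpq : p ≠ q) (σ : Module.End (ZMod p) V)
    (hσq : σ ^ q = 1) (hfix : ∀ v, σ v = v → v = 0)
    (h1 : ∀ k, 0 < k → k < q → ∃ T : V ≃ₗ[ZMod p] V, ∀ v, T (σ v) = (σ ^ k) (T v))
    (h2 : ∀ u v, u ≠ 0 → v ≠ 0 → ∃ k, ∃ T : V ≃ₗ[ZMod p] V, T u = v ∧ ∀ w, T (σ w) = (σ ^ k) (T w)) :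
    orderOf ((p : ℕ) : ZMod q) = q - 1 := by
  classical
  have hcard : ∀ u v, u ≠ 0 → v ≠ 0 → (cyc σ u).ncard ≤ (cyc σ v).ncard := by
    intro u v hu hv
    obtain ⟨k, T, hTu, hT⟩ := h2 u v hu hv
    exact ncard_cyc_le σ k T hTu hT
  have hB : ∀ u w, u ≠ 0 → w ≠ 0 → w ∈ cyc σ u → cyc σ w = cyc σ u := by
    intro u w hu hw hmem
    exact Set.eq_of_subset_of_ncard_le (cyc_subset σ hmem) (hcard u w hu hw) (Set.toFinite _)
  have hC : ∀ (h : (ZMod p)[X]) (v : V), v ≠ 0 → aeval σ h v = 0 → aeval σ h = 0 := by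
    intro h v hv hav
    by_contra hne
    obtain ⟨w, hw⟩ : ∃ w, aeval σ h w ≠ 0 := by
      by_contra hc
      push_neg at hc
      exact hne (LinearMap.ext hc)
    set z := v + w with hz
    have haz : aeval σ h z = aeval σ h w := by rw [hz, map_add, hav, zero_add]
    have hw0 : w ≠ 0 := by
      rintro rfl
      simp at hw
    have hz0 : z ≠ 0 := by
      intro h0
      rw [h0, map_zero] at haz
      exact hw haz.symm
    have e1 := hB w (aeval σ h w) hw0 hw ⟨h, rfl⟩
    have e2 := hB z (aeval σ h w) hz0 hw ⟨h, haz⟩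
    have e3 : cyc σ w = cyc σ z := e1.symm.trans e2
    have hzw : z ∈ cyc σ w := by rw [e3]; exact mem_cyc_self σ z
    obtain ⟨h₁, hh₁⟩ := hzw
    change aeval σ h₁ w = z at hh₁
    have hvw : v ∈ cyc σ w := by
      refine ⟨h₁ - 1, ?_⟩
      simp only [map_sub, map_one, LinearMap.sub_apply, Module.End.one_apply]
      rw [hh₁, hz]
      abel
    have e4 := hB w v hw0 hv hvw
    have hwv : w ∈ cyc σ v := by rw [e4]; exact mem_cyc_self σ w
    obtain ⟨h₂, hh₂⟩ := hwv
    change aeval σ h₂ v = w at hh₂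
    apply hw
    rw [← hh₂]
    change aeval σ h (aeval σ h₂ v) = 0
    have : aeval σ h (aeval σ h₂ v) = aeval σ h₂ (aeval σ h v) := by
      have h3 : aeval σ h * aeval σ h₂ = aeval σ h₂ * aeval σ h := by
        rw [← map_mul, ← map_mul, mul_comm]
      exact congrFun (congrArg DFunLike.coe h3) v
    rw [this, hav, map_zero]
  obtain ⟨v₀, hv₀⟩ := exists_ne (0 : V)
  haveI : Module.Finite (ZMod p) V := Module.Finite.of_finite
  have hI : IsIntegral (ZMod p) σ := IsIntegral.of_finite (ZMod p) σ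
  set g := minpoly (ZMod p) σ with hg
  have hmon : g.Monic := minpoly.monic hI
  have hg0 : aeval σ g = 0 := minpoly.aeval _ _
  have hirr : Irreducible g := by
    rw [hmon.irreducible_iff_natDegree]
    refine ⟨minpoly.ne_one _ _, ?_⟩
    intro f f' hf hf' hff'
    have hdeg := hf.natDegree_mul hf'
    rw [hff'] at hdeg
    have hprod : aeval σ f (aeval σ f' v₀) = 0 := by
      have : aeval σ (f * f') = 0 := by rw [hff', hg0]
      rw [map_mul] at this
      exact congrFun (congrArg DFunLike.coe this) v₀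
    have hcase : aeval σ f = 0 ∨ aeval σ f' = 0 := by
      by_cases hw : aeval σ f' v₀ = 0
      · exact Or.inr (hC f' v₀ hv₀ hw)
      · exact Or.inl (hC f _ hw hprod)
    rcases hcase with hc | hc
    · right
      have := minpoly.min (ZMod p) σ hf hc
      have h2 : g.natDegree ≤ f.natDegree := natDegree_le_natDegree this
      omega
    · left
      have := minpoly.min (ZMod p) σ hf' hc
      have h2 : g.natDegree ≤ f'.natDegree := natDegree_le_natDegree this
      omega
  haveI : Fact (Irreducible g) := ⟨hirr⟩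
  let K := AdjoinRoot g
  let ι : K →+* Module.End (ZMod p) V := liftEnd σ g hg0
  have hιinj : Function.Injective ι := ι.injective
  have hιroot : ι (AdjoinRoot.root g) = σ := liftEnd_root σ g hg0
  have hιaeval : ∀ (x : K) (h : (ZMod p)[X]), ι (aeval x h) = aeval (ι x) h :=
    fun x h => liftEnd_aeval σ g hg0 x h
  set ζ : K := AdjoinRoot.root g with hζ
  have hσ1 : σ ≠ 1 := by
    intro h
    apply hv₀
    apply hfix
    rw [h]
    rfl
  have hordσ : orderOf σ = q := orderOf_eq_prime hσq hσ1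
  have hroots : ∀ k, 0 < k → k < q → aeval (ζ ^ k) g = 0 := by
    intro k hk hkq
    apply hιinj
    rw [hιaeval, map_zero, map_pow, hιroot]
    obtain ⟨T, hT⟩ := h1 k hk hkq
    apply LinearMap.ext
    intro v
    obtain ⟨w, rfl⟩ := T.surjective v
    have h3 := conj_aeval σ (σ ^ k) T.toLinearMap hT g w
    simp only [LinearEquiv.coe_coe] at h3
    rw [← h3, hg0]
    simp
  have hinj : Set.InjOn (fun k : ℕ => ζ ^ k) (Set.Iio q) := by
    intro i hi j hj hij
    have h3 : σ ^ i = σ ^ j := by
      have := congrArg ι hij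
      simpa only [map_pow, hιroot] using this
    exact pow_injOn_Iio_orderOf (by simpa [hordσ] using hi) (by simpa [hordσ] using hj) h3
  have hdeg : q - 1 ≤ g.natDegree := by
    let Z : Finset K := (Finset.Ico 1 q).image fun k => ζ ^ k
    have hZcard : Z.card = q - 1 := by
      rw [Finset.card_image_of_injOn, Nat.card_Ico]
      intro i hi j hj hij
      simp only [Finset.coe_Ico, Set.mem_Ico] at hi hj
      exact hinj (Set.mem_Iio.mpr hi.2) (Set.mem_Iio.mpr hj.2) hij
    have hmap0 : g.map (algebraMap (ZMod p) K) ≠ 0 := (hmon.map _).ne_zero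
    have hsub : Z.val ⊆ (g.map (algebraMap (ZMod p) K)).roots := by
      intro x hx
      have hx' : x ∈ Z := hx
      simp only [Z, Finset.mem_image, Finset.mem_Ico] at hx'
      obtain ⟨k, ⟨hk1, hk2⟩, rfl⟩ := hx'
      rw [mem_roots hmap0, IsRoot.def, eval_map_algebraMap]
      exact hroots k (by omega) hk2
    have h3 := card_le_degree_of_subset_roots hsub
    rw [hZcard, hmon.natDegree_map] at h3
    exact h3
  -- the cyclotomic polynomial kills `σ`
  have hΦ : aeval σ (cyclotomic q (ZMod p)) = 0 := by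
    rw [cyclotomic_prime]
    apply LinearMap.ext
    intro v
    simp only [map_sum, map_pow, aeval_X, LinearMap.zero_apply, LinearMap.sum_apply]
    apply hfix
    rw [map_sum]
    have h3 : ∀ i, σ ((σ ^ i) v) = (σ ^ (i + 1)) v := by
      intro i
      rw [pow_succ']
      rfl
    simp only [h3]
    have h4 := Finset.sum_range_succ (fun i => (σ ^ i) v) q
    have h5 := Finset.sum_range_succ' (fun i => (σ ^ i) v) q
    rw [h4] at h5
    simp only [hσq, pow_zero, Module.End.one_apply] at h5
    exact (add_right_cancel h5).symm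
  have hdvd : g ∣ cyclotomic q (ZMod p) := minpoly.dvd _ _ hΦ
  have hcop : p.Coprime q := (Nat.coprime_primes hp.out hq.out).mpr hpq
  have hcardZ : Fintype.card (ZMod p) = p ^ 1 := by simp [ZMod.card]
  have hdeg2 := natDegree_of_dvd_cyclotomic_of_irreducible (K := ZMod p) hcardZ hcop hdvd hirr
  rw [← orderOf_units] at hdeg2
  simp only [ZMod.coe_unitOfCoprime, pow_one] at hdeg2
  have hp0 : ((p : ℕ) : ZMod q) ≠ 0 := by
    intro h
    rw [ZMod.natCast_eq_zero_iff] at h
    exact hpq ((Nat.prime_dvd_prime_iff_eq hq.out hp.out).mp h).symm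
  have hle := Nat.le_of_dvd (by have := hq.out.one_lt; omega) (ZMod.orderOf_dvd_card_sub_one hp0)
  omega

end Forward

section Backward

variable {p q : ℕ} [hp : Fact p.Prime] [hq : Fact q.Prime] {V : Type*} [AddCommGroup V]
  [Module (ZMod p) V] [Finite V]

theorem exists_vec {K : Type*} [Field K] (ι : K →+* Module.End (ZMod p) V) :
    ∃ (d : ℕ) (e : V ≃+ (Fin d → K)), ∀ (a : K) (v : V), e (ι a v) = a • e v := by
  classical
  letI : Module K V := Module.compHom V ι
  haveI : Module.Finite K V := Module.Finite.of_finite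
  let b := Module.finBasis K V
  exact ⟨_, b.equivFun.toAddEquiv, fun a v => b.equivFun.map_smul a v⟩

theorem exists_twist (hpq : p ≠ q) (hord : orderOf ((p : ℕ) : ZMod q) = q - 1)
    (σ : Module.End (ZMod p) V) (hσq : σ ^ q = 1)
    (hfix : ∀ k, 0 < k → k < q → ∀ v, (σ ^ k) v = v → v = 0) :
    (∀ k, 0 < k → k < q → ∃ S : V ≃+ V, ∀ v, S (σ v) = (σ ^ k) (S v)) ∧
    (∀ u v, u ≠ 0 → v ≠ 0 → ∃ L : V ≃+ V, L u = v ∧ ∀ w, L (σ w) = σ (L w)) := by
  classical
  have hq1 := hq.out.one_lt
  have hcop : p.Coprime q := (Nat.coprime_primes hp.out hq.out).mpr hpq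
  have hpn : ¬ p ∣ q := by
    intro h
    exact hpq ((Nat.prime_dvd_prime_iff_eq hp.out hq.out).mp h)
  have hirr : Irreducible (cyclotomic q (ZMod p)) := by
    apply ZMod.irreducible_of_dvd_cyclotomic_of_natDegree hpn dvd_rfl
    rw [← orderOf_units, natDegree_cyclotomic, Nat.totient_prime hq.out]
    simpa using hord.symm
  haveI : Fact (Irreducible (cyclotomic q (ZMod p))) := ⟨hirr⟩
  let K := AdjoinRoot (cyclotomic q (ZMod p))
  have hmon : (cyclotomic q (ZMod p)).Monic := cyclotomic.monic q _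
  haveI : Module.Finite (ZMod p) K := hmon.finite_adjoinRoot
  haveI : Finite K := Module.finite_of_finite (ZMod p)
  have hlift : ∀ k, 0 < k → k < q → aeval (σ ^ k) (cyclotomic q (ZMod p)) = 0 := by
    intro k hk hkq
    rw [cyclotomic_prime]
    apply LinearMap.ext
    intro v
    simp only [map_sum, map_pow, aeval_X, LinearMap.zero_apply, LinearMap.sum_apply]
    apply hfix k hk hkq
    rw [map_sum]
    have h3 : ∀ i, (σ ^ k) (((σ ^ k) ^ i) v) = ((σ ^ k) ^ (i + 1)) v := by
      intro i
      rw [pow_succ' (σ ^ k) i]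
      rfl
    simp only [h3]
    have hkq' : (σ ^ k) ^ q = 1 := by rw [← pow_mul, mul_comm, pow_mul, hσq, one_pow]
    have h4 := Finset.sum_range_succ (fun i => ((σ ^ k) ^ i) v) q
    have h5 := Finset.sum_range_succ' (fun i => ((σ ^ k) ^ i) v) q
    rw [h4] at h5
    simp only [hkq', pow_zero, Module.End.one_apply] at h5
    exact (add_right_cancel h5).symm
  let ι : ∀ k, 0 < k → k < q → (K →+* Module.End (ZMod p) V) :=
    fun k hk hkq => liftEnd (σ ^ k) _ (hlift k hk hkq)
  have hιroot : ∀ k hk hkq, ι k hk hkq (AdjoinRoot.root _) = σ ^ k :=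
    fun k hk hkq => liftEnd_root _ _ (hlift k hk hkq)
  obtain ⟨d, e, he⟩ := exists_vec (ι 1 one_pos hq1)
  have hσ1 : ι 1 one_pos hq1 (AdjoinRoot.root _) = σ := by
    have := hιroot 1 one_pos hq1
    rwa [pow_one] at this
  have hKcard : 1 < Nat.card K := Finite.one_lt_card
  have hVcard : Nat.card V = Nat.card K ^ d := by
    rw [Nat.card_congr e.toEquiv, Nat.card_fun, Nat.card_fin]
  constructor
  · intro k hk hkq
    obtain ⟨d', e', he'⟩ := exists_vec (ι k hk hkq)
    have hVcard' : Nat.card V = Nat.card K ^ d' := by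
      rw [Nat.card_congr e'.toEquiv, Nat.card_fun, Nat.card_fin]
    have hdd : d' = d := Nat.pow_right_injective hKcard (hVcard'.symm.trans hVcard)
    subst hdd
    refine ⟨e.trans e'.symm, fun v => ?_⟩
    apply e'.injective
    simp only [AddEquiv.trans_apply, AddEquiv.apply_symm_apply]
    have h1 := he (AdjoinRoot.root _) v
    rw [hσ1] at h1
    rw [h1]
    have h2 := he' (AdjoinRoot.root _) (e'.symm (e v))
    rw [hιroot k hk hkq] at h2
    rw [h2, AddEquiv.apply_symm_apply]
  · intro u v hu hv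
    have hu' : e u ≠ 0 := by simpa using hu
    have hv' : e v ≠ 0 := by simpa using hv
    obtain ⟨A, hA⟩ := Cfsg.Agent.Lib.Aff3.exists_equiv_one (K := K) (e u) (e v) hu' hv'
    refine ⟨(e.trans A.toAddEquiv).trans e.symm, ?_, fun w => ?_⟩
    · apply e.injective
      simp [hA]
    · apply e.injective
      have key : ∀ x, ((e.trans A.toAddEquiv).trans e.symm) x = e.symm (A (e x)) := fun _ => rfl
      have h1 := he (AdjoinRoot.root _) w
      rw [hσ1] at h1
      have h2 := he (AdjoinRoot.root _) (e.symm (A (e w)))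
      rw [hσ1] at h2
      rw [key, key, AddEquiv.apply_symm_apply, h1, h2, AddEquiv.apply_symm_apply, map_smul]

end Backward

section Mul

variable {p q : ℕ} [hp : Fact p.Prime] [hq : Fact q.Prime] {W : Type*} [CommGroup W] [Finite W]

/-- The `ZMod p`-structure on an abelian group of exponent `p`. -/
@[reducible] def modOf (hexp : ∀ w : W, w ^ p = 1) : Module (ZMod p) (Additive W) :=
  AddCommGroup.zmodModule (n := p) (fun x => by
    change Additive.ofMul ((Additive.toMul x) ^ p) = 0
    rw [hexp]; rfl)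

/-- The additive-linear version of an automorphism. -/
def lin [Module (ZMod p) (Additive W)] :
    MulAut W →* Module.End (ZMod p) (Additive W) :=
  { toFun := fun τ =>
      { toFun := fun v => Additive.ofMul (τ (Additive.toMul v))
        map_add' := fun a b => by simp
        map_smul' := fun r a => by
          let f : Additive W →+ Additive W := MonoidHom.toAdditive τ.toMonoidHom
          exact ZMod.map_smul f r a }
    map_one' := rfl
    map_mul' := fun _ _ => rfl }

theorem lin_apply [Module (ZMod p) (Additive W)] (τ : MulAut W) (v : Additive W) :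
    lin (p := p) τ v = Additive.ofMul (τ (Additive.toMul v)) := rfl

/-- The linear equivalence of an automorphism. -/
def linE [Module (ZMod p) (Additive W)] (τ : MulAut W) :
    Additive W ≃ₗ[ZMod p] Additive W :=
  { lin (p := p) τ with
    invFun := fun v => Additive.ofMul (τ.symm (Additive.toMul v))
    left_inv := fun v => by
      change Additive.ofMul (τ.symm (τ (Additive.toMul v))) = v
      simp
    right_inv := fun v => by
      change Additive.ofMul (τ (τ.symm (Additive.toMul v))) = v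
      simp }

theorem mul_order_eq₀ [Module (ZMod p) (Additive W)] [Nontrivial W] (hpq : p ≠ q) (σ : MulAut W)
    (hσq : σ ^ q = 1) (hfix : ∀ v, σ v = v → v = 1)
    (h1 : ∀ k, 0 < k → k < q → ∃ T : MulAut W, ∀ v, T (σ v) = (σ ^ k) (T v))
    (h2 : ∀ u v : W, u ≠ 1 → v ≠ 1 → ∃ k, ∃ T : MulAut W, T u = v ∧ ∀ w, T (σ w) = (σ ^ k) (T w)) :
    orderOf ((p : ℕ) : ZMod q) = q - 1 := by
  haveI : Finite (Additive W) := inferInstanceAs (Finite W)
  haveI : Nontrivial (Additive W) := inferInstanceAs (Nontrivial W)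
  have hlinpow : ∀ k (v : Additive W), ((lin (p := p) σ) ^ k) v =
      Additive.ofMul ((σ ^ k) (Additive.toMul v)) := by
    intro k v
    rw [← map_pow]
    rfl
  refine order_eq_of_transitive hpq (lin (p := p) σ) (by rw [← map_pow, hσq, map_one]) ?_ ?_ ?_
  · intro v hv
    have := hfix (Additive.toMul v) (congrArg Additive.toMul hv)
    exact this
  · intro k hk hkq
    obtain ⟨T, hT⟩ := h1 k hk hkq
    refine ⟨linE (p := p) T, fun v => ?_⟩
    rw [hlinpow]
    exact congrArg Additive.ofMul (hT _)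
  · intro u v hu hv
    obtain ⟨k, T, hTu, hT⟩ := h2 (Additive.toMul u) (Additive.toMul v) hu hv
    refine ⟨k, linE (p := p) T, congrArg Additive.ofMul hTu, fun w => ?_⟩
    rw [hlinpow]
    exact congrArg Additive.ofMul (hT _)

theorem mul_order_eq [Nontrivial W] (hpq : p ≠ q) (hexp : ∀ w : W, w ^ p = 1) (σ : MulAut W)
    (hσq : σ ^ q = 1) (hfix : ∀ v, σ v = v → v = 1)
    (h1 : ∀ k, 0 < k → k < q → ∃ T : MulAut W, ∀ v, T (σ v) = (σ ^ k) (T v))
    (h2 : ∀ u v : W, u ≠ 1 → v ≠ 1 → ∃ k, ∃ T : MulAut W, T u = v ∧ ∀ w, T (σ w) = (σ ^ k) (T w)) :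
    orderOf ((p : ℕ) : ZMod q) = q - 1 := by
  letI := modOf hexp
  exact mul_order_eq₀ hpq σ hσq hfix h1 h2

theorem mul_twist₀ [Module (ZMod p) (Additive W)] (hpq : p ≠ q)
    (hord : orderOf ((p : ℕ) : ZMod q) = q - 1) (σ : MulAut W) (hσq : σ ^ q = 1)
    (hfix : ∀ k, 0 < k → k < q → ∀ v, (σ ^ k) v = v → v = 1) :
    (∀ k, 0 < k → k < q → ∃ S : MulAut W, ∀ v, S (σ v) = (σ ^ k) (S v)) ∧
    (∀ u v : W, u ≠ 1 → v ≠ 1 → ∃ L : MulAut W, L u = v ∧ ∀ w, L (σ w) = σ (L w)) := by
  haveI : Finite (Additive W) := inferInstanceAs (Finite W)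
  have hlinpow : ∀ k (v : Additive W), ((lin (p := p) σ) ^ k) v =
      Additive.ofMul ((σ ^ k) (Additive.toMul v)) := by
    intro k v
    rw [← map_pow]
    rfl
  obtain ⟨h1, h2⟩ := exists_twist hpq hord (lin (p := p) σ) (by rw [← map_pow, hσq, map_one]) (by
    intro k hk hkq v hv
    rw [hlinpow] at hv
    exact hfix k hk hkq (Additive.toMul v) (congrArg Additive.toMul hv))
  let toM : (Additive W ≃+ Additive W) → MulAut W := fun S =>
    { toFun := fun v => Additive.toMul (S (Additive.ofMul v))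
      invFun := fun v => Additive.toMul (S.symm (Additive.ofMul v))
      left_inv := fun v => by simp
      right_inv := fun v => by simp
      map_mul' := fun a b => by simp }
  constructor
  · intro k hk hkq
    obtain ⟨S, hS⟩ := h1 k hk hkq
    refine ⟨toM S, fun v => ?_⟩
    have h3 := hS (Additive.ofMul v)
    rw [hlinpow] at h3
    exact congrArg Additive.toMul h3
  · intro u v hu hv
    obtain ⟨L, hLu, hL⟩ := h2 (Additive.ofMul u) (Additive.ofMul v) hu hv
    refine ⟨toM L, congrArg Additive.toMul hLu, fun w => ?_⟩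
    exact congrArg Additive.toMul (hL (Additive.ofMul w))

theorem mul_twist (hpq : p ≠ q) (hord : orderOf ((p : ℕ) : ZMod q) = q - 1)
    (hexp : ∀ w : W, w ^ p = 1) (σ : MulAut W) (hσq : σ ^ q = 1)
    (hfix : ∀ k, 0 < k → k < q → ∀ v, (σ ^ k) v = v → v = 1) :
    (∀ k, 0 < k → k < q → ∃ S : MulAut W, ∀ v, S (σ v) = (σ ^ k) (S v)) ∧
    (∀ u v : W, u ≠ 1 → v ≠ 1 → ∃ L : MulAut W, L u = v ∧ ∀ w, L (σ w) = σ (L w)) := by
  letI := modOf hexp
  exact mul_twist₀ hpq hord σ hσq hfix

end Mul

end Cfsg.Agent.Lib.H6Orb3
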