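import Mathlib
import Cfsg.Agent.Lib.H6Orb3
import Cfsg.Agent.Lib.CoprimeGen4
import Cfsg.Prelude.Def_Transfer

/-!
Groups with an elementary abelian normal Sylow subgroup and complement of prime order: extension of
automorphisms, and the structure of groups with three automorphism orbits.
-/

set_option autoImplicit false
set_option linter.all false

namespace Cfsg.Agent.Lib.H6Orb3G

open Cfsg Cfsg.Agent.Lib.H6Orb3
open scoped Pointwise

variable {G : Type*} [Group G] [Finite G]

theorem exists_conj_pow {q : ℕ} [hq : Fact q.Prime] (hf : (Nat.card G).factorization q = 1)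
    {x g : G} (hx : orderOf x = q) (hg : orderOf g = q) :
    ∃ h : G, ∃ j, 0 < j ∧ j < q ∧ g = h * x ^ j * h⁻¹ := by
  classical
  have hcx : Nat.card (Subgroup.zpowers x) = q ^ (Nat.card G).factorization q := by
    rw [hf, pow_one, Nat.card_zpowers, hx]
  have hcg : Nat.card (Subgroup.zpowers g) = q ^ (Nat.card G).factorization q := by
    rw [hf, pow_one, Nat.card_zpowers, hg]
  let Q₁ : Sylow q G := Sylow.ofCard (Subgroup.zpowers x) hcx
  let Q₂ : Sylow q G := Sylow.ofCard (Subgroup.zpowers g) hcg
  obtain ⟨h, hh⟩ := MulAction.exists_smul_eq G Q₁ Q₂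
  have hmem : g ∈ (Q₂ : Subgroup G) := by
    change g ∈ (Subgroup.zpowers g)
    exact Subgroup.mem_zpowers g
  rw [← hh, Sylow.coe_subgroup_smul] at hmem
  have hmem' : (MulAut.conj h)⁻¹ • g ∈ (Subgroup.zpowers x) :=
    (Subgroup.mem_pointwise_smul_iff_inv_smul_mem).mp hmem
  obtain ⟨n, hn⟩ := Submonoid.mem_powers_iff _ _ |>.mp (mem_powers_iff_mem_zpowers.mpr hmem')
  have hq0 : 0 < q := hq.out.pos
  have hz : (MulAut.conj h)⁻¹ • g = x ^ (n % q) := by
    rw [← hn, ← hx, pow_mod_orderOf]
  have hg' : g = h * x ^ (n % q) * h⁻¹ := by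
    have h1 : (MulAut.conj h) • ((MulAut.conj h)⁻¹ • g) = g := smul_inv_smul _ _
    rw [hz] at h1
    rw [← h1]
    rfl
  refine ⟨h, n % q, ?_, Nat.mod_lt _ hq0, hg'⟩
  by_contra h0
  have h0' : n % q = 0 := by omega
  rw [h0', pow_zero, mul_one, mul_inv_cancel] at hg'
  rw [hg', orderOf_one] at hg
  exact hq.out.one_lt.ne hg

/-- The restriction of an automorphism to a characteristic subgroup. -/
def resAut (W : Subgroup G) (hW : ∀ α : MulAut G, ∀ g ∈ W, α g ∈ W) (α : MulAut G) : MulAut W where
  toFun u := ⟨α u, hW α u u.2⟩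
  invFun u := ⟨α⁻¹ u, hW α⁻¹ u u.2⟩
  left_inv u := Subtype.ext (by simp)
  right_inv u := Subtype.ext (by simp)
  map_mul' u v := Subtype.ext (by simp)

@[simp] theorem resAut_coe (W : Subgroup G) (hW : ∀ α : MulAut G, ∀ g ∈ W, α g ∈ W) (α : MulAut G)
    (u : W) : ((resAut W hW α u : W) : G) = α u := rfl

/-- Extending an automorphism over a complement of prime order. -/
theorem exists_ext (W : Subgroup G) [W.Normal] {x : G} {q k : ℕ} (hq : q.Prime)
    (hx : orderOf x = q) (hC : W.IsComplement' (Subgroup.zpowers x)) (hk : k.Coprime q)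
    (S : MulAut W) (hS : ∀ v : W, S (MulAut.conjNormal x v) = (MulAut.conjNormal x ^ k) (S v)) :
    ∃ α : MulAut G, α x = x ^ k ∧ ∀ v : W, α v = S v := by
  classical
  let C := Subgroup.zpowers x
  have hcomm : ∀ a b : C, (a : G) * b = b * a := by
    intro a b
    obtain ⟨i, hi⟩ := Subgroup.mem_zpowers_iff.mp a.2
    obtain ⟨j, hj⟩ := Subgroup.mem_zpowers_iff.mp b.2
    rw [← hi, ← hj, ← zpow_add, ← zpow_add, add_comm]
  let fn : W →* G := W.subtype.comp S.toMonoidHom
  let fg : C →* G :=
    { toFun := fun c => (c : G) ^ k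
      map_one' := by simp
      map_mul' := fun a b => by
        have : Commute (a : G) (b : G) := hcomm a b
        simpa using this.mul_pow k }
  have hSpow : ∀ (j : ℕ) (v : W), S ((MulAut.conjNormal x ^ j) v) = ((MulAut.conjNormal x ^ k) ^ j) (S v) := by
    intro j
    induction j with
    | zero => intro v; simp
    | succ j ih =>
      intro v
      rw [pow_succ, pow_succ]
      change S ((MulAut.conjNormal x ^ j) (MulAut.conjNormal x v)) =
        ((MulAut.conjNormal x ^ k) ^ j) ((MulAut.conjNormal x ^ k) (S v))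
      rw [ih, hS]
  let φ := (W.normalizerMonoidHom).comp
    (Subgroup.inclusion (W.normalizer_eq_top ▸ le_top : C ≤ Subgroup.normalizer (W : Set G)))
  have hφ : ∀ (c : C) (v : W), ((φ c v : W) : G) = (c : G) * v * (c : G)⁻¹ := fun c v => rfl
  have hcond : ∀ c : C, fn.comp (φ c).toMonoidHom = (MulAut.conj (fg c)).toMonoidHom.comp fn := by
    intro c
    ext v
    obtain ⟨j, hj⟩ := Submonoid.mem_powers_iff _ _ |>.mp (mem_powers_iff_mem_zpowers.mpr c.2)
    have h1 : φ c v = (MulAut.conjNormal x ^ j) v := by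
      apply Subtype.ext
      rw [hφ, ← map_pow, MulAut.conjNormal_apply, ← hj]
    have h2 := hSpow j v
    rw [← h1] at h2
    have h3 : (((MulAut.conjNormal x ^ k) ^ j) (S v) : W) =
        MulAut.conjNormal ((x ^ j) ^ k) (S v) := by
      rw [← map_pow, ← map_pow, ← pow_mul, ← pow_mul, mul_comm]
    simp only [MonoidHom.comp_apply, MulEquiv.coe_toMonoidHom, fn, Subgroup.subtype_apply,
      MulAut.conj_apply]
    rw [h2, h3, MulAut.conjNormal_apply]
    change _ = (c : G) ^ k * _ * ((c : G) ^ k)⁻¹
    rw [← hj]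
  let f := SemidirectProduct.lift fn fg hcond
  let e := SemidirectProduct.mulEquivSubgroup hC
  let α₀ : G →* G := f.comp e.symm.toMonoidHom
  have hinl : ∀ v : W, e.symm (v : G) = SemidirectProduct.inl v := by
    intro v
    apply e.injective
    rw [MulEquiv.apply_symm_apply]
    change (v : G) = SemidirectProduct.monoidHomSubgroup _ (SemidirectProduct.inl v)
    simp [SemidirectProduct.monoidHomSubgroup]
  have hinr : ∀ c : C, e.symm (c : G) = SemidirectProduct.inr c := by
    intro c
    apply e.injective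
    rw [MulEquiv.apply_symm_apply]
    change (c : G) = SemidirectProduct.monoidHomSubgroup _ (SemidirectProduct.inr c)
    simp [SemidirectProduct.monoidHomSubgroup]
  have hα₀W : ∀ v : W, α₀ v = S v := by
    intro v
    change f (e.symm (v : G)) = _
    rw [hinl]
    simp [f, fn]
  have hα₀x : α₀ x = x ^ k := by
    change f (e.symm (((⟨x, Subgroup.mem_zpowers x⟩ : C)) : G)) = _
    rw [hinr]
    simp [f, fg]
  have hsurj : Function.Surjective α₀ := by
    rw [← MonoidHom.range_eq_top, eq_top_iff, ← hC.sup_eq_top, sup_le_iff]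
    constructor
    · intro v hv
      refine ⟨(S⁻¹ ⟨v, hv⟩ : W), ?_⟩
      rw [hα₀W]
      simp
    · rw [Subgroup.zpowers_le]
      obtain ⟨m, hm⟩ := Nat.exists_mul_mod_eq_one_of_coprime hk hq.one_lt
      refine ⟨x ^ m, ?_⟩
      rw [map_pow, hα₀x, ← pow_mul, ← pow_mod_orderOf, hx, hm.2, pow_one]
  have hinj : Function.Injective α₀ := Finite.injective_iff_surjective.mpr hsurj
  exact ⟨MulEquiv.ofBijective α₀ ⟨hinj, hsurj⟩, hα₀x, hα₀W⟩

theorem factorization_pq {p q : ℕ} (hp : p.Prime) (hq : q.Prime) (hpq : p ≠ q) (a b : ℕ) :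
    (p ^ a * q ^ b).factorization p = a := by
  rw [Nat.factorization_mul (pow_ne_zero _ hp.ne_zero) (pow_ne_zero _ hq.ne_zero)]
  simp [Nat.Prime.factorization_pow hp, Nat.Prime.factorization_pow hq, Finsupp.single_apply, hpq.symm]

/-- The forward direction. -/
theorem forward_core {p q : ℕ} [hp : Fact p.Prime] [hq : Fact q.Prime] (hpq : p ≠ q) (a b : ℕ)
    (hG : Nat.card G = p ^ a * q ^ b)
    (H3 : ∀ g : G, g ≠ 1 → orderOf g = p ∨ orderOf g = q)
    (H2 : ∀ g g' : G, g ≠ 1 → orderOf g = orderOf g' → ∃ α : MulAut G, α g = g')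
    (W : Subgroup G) (hWchar : ∀ α : MulAut G, ∀ g ∈ W, α g ∈ W)
    (hWcomm : ∀ u ∈ W, ∀ v ∈ W, u * v = v * u) (hWexp : ∀ u ∈ W, u ^ p = 1)
    (y : G) (hyW : y ∈ W) (hy : orderOf y = p) (x : G) (hx : orderOf x = q) :
    ∃ n, 1 ≤ n ∧ Nat.card G = p ^ n * q ∧
      (∀ P : Sylow p G, (P : Subgroup G).Normal ∧ Cfsg.IsElementaryAbelian p (P : Subgroup G)) ∧
      orderOf ((p : ℕ) : ZMod q) = q - 1 ∧
      ∀ x y : G, orderOf x = q → orderOf y = p → x * y * x⁻¹ ≠ y := by
  classical
  have hp1 := hp.out.one_lt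
  have hq1 := hq.out.one_lt
  have hcop : p.Coprime q := (Nat.coprime_primes hp.out hq.out).mpr hpq
  haveI hWn : W.Normal := ⟨fun n hn g => by simpa using hWchar (MulAut.conj g) n hn⟩
  letI : CommGroup W :=
    { (inferInstance : Group W) with
      mul_comm := fun u v => Subtype.ext (hWcomm u u.2 v v.2) }
  have hy1 : y ≠ 1 := by
    rintro rfl
    rw [orderOf_one] at hy
    omega
  have hx1 : x ≠ 1 := by
    rintro rfl
    rw [orderOf_one] at hx
    omega
  have hall : ∀ g, orderOf g = p → g ∈ W := by
    intro g hg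
    obtain ⟨α, rfl⟩ := H2 y g hy1 (hy.trans hg.symm)
    exact hWchar α y hyW
  have hfpf : ∀ x y : G, orderOf x = q → orderOf y = p → x * y * x⁻¹ ≠ y := by
    intro g u hg hu heq
    have hc : Commute g u := by
      change g * u = u * g
      calc g * u = g * u * g⁻¹ * g := by group
        _ = u * g := by rw [heq]
    have hord := hc.orderOf_mul_eq_mul_orderOf_of_coprime (by rw [hg, hu]; exact hcop.symm)
    rw [hg, hu] at hord
    have hne : g * u ≠ 1 := by
      intro h
      rw [h, orderOf_one] at hord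
      have : q * p = 1 := hord.symm
      nlinarith
    rcases H3 _ hne with h | h <;> rw [h] at hord
    · have : q = 1 := by
        have h3 : p * 1 = q * p := by simpa using hord
        have h4 : p * 1 = p * q := by rw [h3, mul_comm]
        exact (Nat.eq_of_mul_eq_mul_left hp.out.pos h4).symm
      omega
    · have : p = 1 := by
        have h3 : q * 1 = q * p := by simpa using hord
        exact (Nat.eq_of_mul_eq_mul_left hq.out.pos h3).symm
      omega
  have hWp : IsPGroup p W := by
    intro g
    exact ⟨1, Subtype.ext (by simpa using hWexp g g.2)⟩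
  have hsyl : ∀ P : Sylow p G, (P : Subgroup G) = W := by
    intro P
    have hPW : (P : Subgroup G) ≤ W := by
      intro g hg
      by_cases hg1 : g = 1
      · rw [hg1]; exact W.one_mem
      obtain ⟨m, hm⟩ := (IsPGroup.iff_orderOf.mp P.isPGroup') ⟨g, hg⟩
      rw [Subgroup.orderOf_mk] at hm
      rcases H3 g hg1 with h | h
      · exact hall g h
      · exfalso
        rw [h] at hm
        have hm0 : m ≠ 0 := by
          rintro rfl
          rw [pow_zero] at hm
          omega
        have h4 : p ∣ q := by rw [hm]; exact dvd_pow_self p hm0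
        exact hpq ((Nat.prime_dvd_prime_iff_eq hp.out hq.out).mp h4)
    obtain ⟨P', hP'⟩ := hWp.exists_le_sylow
    have h1 : (P' : Subgroup G) = P := P.is_maximal' P'.isPGroup' (hPW.trans hP')
    rw [h1] at hP'
    exact le_antisymm hPW hP'
  have hWcard : Nat.card W = p ^ a := by
    have h1 := Sylow.card_eq_multiplicity (Classical.arbitrary (Sylow p G))
    rw [hsyl, hG, factorization_pq hp.out hq.out hpq] at h1
    exact h1
  have ha : a ≠ 0 := by
    rintro rfl
    rw [pow_zero] at hWcard
    have h1 : (⟨y, hyW⟩ : W) = 1 := by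
      haveI := (Nat.card_eq_one_iff_unique.mp hWcard).1
      exact Subsingleton.elim _ _
    exact hy1 (congrArg Subtype.val h1)
  -- the element orders in a `q`-group
  have hb1 : b = 1 := by
    by_contra hb
    have hb0 : b ≠ 0 := by
      rintro rfl
      have h1 := orderOf_dvd_natCard x
      rw [hx, hG, pow_zero, mul_one] at h1
      have h2 := (Nat.prime_dvd_prime_iff_eq hq.out hp.out).mp (hq.out.dvd_of_dvd_pow h1)
      exact hpq h2.symm
    have hb2 : 2 ≤ b := by omega
    have hd : q ^ 2 ∣ Nat.card G := by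
      rw [hG]
      exact Dvd.dvd.mul_left (pow_dvd_pow q hb2) _
    obtain ⟨L, hL⟩ := Sylow.exists_subgroup_card_pow_prime q hd
    have hLcomm : ∀ a b : L, a * b = b * a := IsPGroup.commutative_of_card_eq_prime_sq hL
    have hLpow : ∀ g ∈ L, g ^ q = 1 := by
      intro g hg
      by_cases hg1 : g = 1
      · rw [hg1, one_pow]
      rcases H3 g hg1 with h | h
      · exfalso
        have h1 := Subgroup.orderOf_dvd_natCard L hg
        rw [h, hL] at h1
        have h2 := hp.out.dvd_of_dvd_pow h1
        exact hpq ((Nat.prime_dvd_prime_iff_eq hp.out hq.out).mp h2)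
      · rw [← h]; exact pow_orderOf_eq_one g
    haveI : Nontrivial L := by
      apply Finite.one_lt_card_iff_nontrivial.mp
      rw [hL]
      exact Nat.one_lt_pow (by norm_num) hq1
    obtain ⟨y', hy'⟩ := exists_ne (1 : L)
    have hy'1 : (y' : G) ≠ 1 := fun h => hy' (Subtype.ext h)
    have hordy' : orderOf (y' : G) = q := orderOf_eq_prime (hLpow _ y'.2) hy'1
    have hnot : ∃ x' : L, (x' : G) ∉ Subgroup.zpowers (y' : G) := by
      by_contra hc
      push_neg at hc
      have hle : L ≤ Subgroup.zpowers (y' : G) := fun g hg => hc ⟨g, hg⟩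
      have h1 := Subgroup.card_dvd_of_le hle
      rw [hL, Nat.card_zpowers, hordy'] at h1
      have h2 := Nat.le_of_dvd hq.out.pos h1
      nlinarith
    obtain ⟨x', hx'⟩ := hnot
    let ρ : G → W →* W := fun g => (MulAut.conjNormal g).toMonoidHom
    have hkey := Cfsg.Agent.Lib.CoprimeGen4.abelian_key ρ
      (fun a b w => by
        change MulAut.conjNormal (a * b) w = MulAut.conjNormal a (MulAut.conjNormal b w)
        rw [map_mul]
        rfl)
      (fun w => by
        change MulAut.conjNormal (1 : G) w = w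
        rw [map_one]
        rfl)
      hq.out (x' : G) (y' : G)
      (by have := hLcomm x' y'; exact congrArg Subtype.val this)
      (hLpow _ x'.2) (hLpow _ y'.2) hy'1 hx' ⊥
      (fun a ha ha1 w hw => by
        have hoa : orderOf a = q := orderOf_eq_prime ha ha1
        by_contra hw1
        have hw1' : w ≠ 1 := fun h => hw1 (by rw [h]; exact Subgroup.one_mem _)
        have hw2 : (w : G) ≠ 1 := fun h => hw1' (Subtype.ext h)
        have how : orderOf (w : G) = p := orderOf_eq_prime (hWexp _ w.2) hw2
        apply hfpf a w hoa how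
        have h3 := congrArg Subtype.val hw
        change ((MulAut.conjNormal a w : W) : G) = _ at h3
        rwa [MulAut.conjNormal_apply] at h3)
      (⟨y, hyW⟩ : W)
    have h1 : (⟨y, hyW⟩ : W) ^ q = 1 := by simpa using hkey
    have h2 : y ^ q = 1 := by simpa using congrArg Subtype.val h1
    have h3 := orderOf_dvd_of_pow_eq_one h2
    rw [hy] at h3
    exact hpq ((Nat.prime_dvd_prime_iff_eq hp.out hq.out).mp h3)
  subst hb1
  rw [pow_one] at hG
  have hf : (Nat.card G).factorization q = 1 := by
    have := factorization_pq hq.out hp.out hpq.symm 1 a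
    rw [pow_one, mul_comm] at this
    rw [hG]
    exact this
  have hcardx : Nat.card (Subgroup.zpowers x) = q := by rw [Nat.card_zpowers, hx]
  have hC : W.IsComplement' (Subgroup.zpowers x) := by
    apply Subgroup.isComplement'_of_coprime
    · rw [hWcard, hcardx, hG]
    · rw [hWcard, hcardx]
      exact hcop.pow_left a
  have hexp : ∀ w : W, w ^ p = 1 := fun w => Subtype.ext (by simpa using hWexp w w.2)
  haveI : Nontrivial W := ⟨⟨⟨y, hyW⟩, 1, fun h => hy1 (congrArg Subtype.val h)⟩⟩
  let σ : MulAut W := MulAut.conjNormal x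
  have hσpow : ∀ k, σ ^ k = MulAut.conjNormal (x ^ k) := fun k => (map_pow _ _ _).symm
  have hcomp : ∀ (α : MulAut G) (k : ℕ), α x = x ^ k →
      ∀ v : W, resAut W hWchar α (σ v) = (σ ^ k) (resAut W hWchar α v) := by
    intro α k hk v
    apply Subtype.ext
    rw [hσpow, MulAut.conjNormal_apply, resAut_coe, resAut_coe]
    change α ((MulAut.conjNormal x v : W) : G) = _
    rw [MulAut.conjNormal_apply, map_mul, map_mul, map_inv, hk]
  have hord : orderOf ((p : ℕ) : ZMod q) = q - 1 := by
    refine mul_order_eq hpq hexp σ ?_ ?_ ?_ ?_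
    · rw [hσpow, ← hx, pow_orderOf_eq_one, map_one]
    · intro v hv
      by_contra hv1
      have hv2 : (v : G) ≠ 1 := fun h => hv1 (Subtype.ext h)
      have hov : orderOf (v : G) = p := orderOf_eq_prime (hWexp _ v.2) hv2
      apply hfpf x v hx hov
      have h3 := congrArg Subtype.val hv
      change ((MulAut.conjNormal x v : W) : G) = _ at h3
      rwa [MulAut.conjNormal_apply] at h3
    · intro k hk hkq
      have hkc : k.Coprime q := (Nat.coprime_of_lt_prime (by omega) hkq hq.out).symm
      have hok : orderOf (x ^ k) = q := by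
        rw [Nat.Coprime.orderOf_pow (by rw [hx]; exact hkc.symm), hx]
      obtain ⟨α, hα⟩ := H2 x (x ^ k) hx1 (hx.trans hok.symm)
      exact ⟨resAut W hWchar α, hcomp α k hα⟩
    · intro u v hu hv
      have hu2 : (u : G) ≠ 1 := fun h => hu (Subtype.ext h)
      have hv2 : (v : G) ≠ 1 := fun h => hv (Subtype.ext h)
      have hou : orderOf (u : G) = p := orderOf_eq_prime (hWexp _ u.2) hu2
      have hov : orderOf (v : G) = p := orderOf_eq_prime (hWexp _ v.2) hv2
      obtain ⟨α, hα⟩ := H2 u v hu2 (hou.trans hov.symm)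
      have hoαx : orderOf (α x) = q := by rw [MulEquiv.orderOf_eq, hx]
      obtain ⟨h, j, hj0, hjq, hj⟩ := exists_conj_pow hf hx hoαx
      have hh : h ∈ W ⊔ Subgroup.zpowers x := by rw [hC.sup_eq_top]; trivial
      obtain ⟨w, hw, c, hc, rfl⟩ := Subgroup.mem_sup_of_normal_left.mp hh
      have hcx : c * x ^ j * c⁻¹ = x ^ j := by
        obtain ⟨i, hi⟩ := Subgroup.mem_zpowers_iff.mp hc
        rw [← hi, ← zpow_natCast x j]
        have : Commute (x ^ i) (x ^ (j : ℤ)) := (Commute.refl x).zpow_zpow i j
        rw [this.eq]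
        group
      have hj' : α x = w * x ^ j * w⁻¹ := by
        rw [hj, mul_inv_rev]
        calc w * c * x ^ j * (c⁻¹ * w⁻¹) = w * (c * x ^ j * c⁻¹) * w⁻¹ := by group
          _ = _ := by rw [hcx]
      let β : MulAut G := MulAut.conj w⁻¹ * α
      have hβx : β x = x ^ j := by
        change w⁻¹ * α x * (w⁻¹)⁻¹ = _
        rw [hj']
        group
      have hβW : ∀ g ∈ W, β g = α g := by
        intro g hg
        change w⁻¹ * α g * (w⁻¹)⁻¹ = _
        have := hWcomm (α g) (hWchar α g hg) w hw
        calc w⁻¹ * α g * w⁻¹⁻¹ = w⁻¹ * (α g * w) := by group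
          _ = w⁻¹ * (w * α g) := by rw [this]
          _ = α g := by group
      refine ⟨j, resAut W hWchar β, ?_, hcomp β j hβx⟩
      apply Subtype.ext
      rw [resAut_coe, hβW _ u.2, hα]
  refine ⟨a, by omega, hG, fun P => ?_, hord, hfpf⟩
  rw [hsyl P]
  exact ⟨hWn, ⟨⟨fun u v => Subtype.ext (hWcomm u u.2 v v.2)⟩⟩, hWexp⟩

/-- The backward direction. -/
theorem backward_core {p q n : ℕ} [hp : Fact p.Prime] [hq : Fact q.Prime] (hpq : p ≠ q) (hn : 1 ≤ n)
    (hcard : Nat.card G = p ^ n * q)
    (hsyl : ∀ P : Sylow p G, (P : Subgroup G).Normal ∧ Cfsg.IsElementaryAbelian p (P : Subgroup G))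
    (hord : orderOf ((p : ℕ) : ZMod q) = q - 1)
    (hfpf : ∀ x y : G, orderOf x = q → orderOf y = p → x * y * x⁻¹ ≠ y) :
    Nat.card (MulAction.orbitRel.Quotient (MulAut G) G) = 3 := by
  classical
  have hp1 := hp.out.one_lt
  have hq1 := hq.out.one_lt
  have hcop : p.Coprime q := (Nat.coprime_primes hp.out hq.out).mpr hpq
  let P₀ : Sylow p G := Classical.arbitrary _
  obtain ⟨hWn, hWcomm, hWexp⟩ := hsyl P₀
  set W : Subgroup G := (P₀ : Subgroup G) with hWdef
  haveI : W.Normal := hWn
  have hWcomm' : ∀ u v : W, u * v = v * u := fun u v => hWcomm.is_comm.comm u v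
  letI : CommGroup W := { (inferInstance : Group W) with mul_comm := hWcomm' }
  have hWcard : Nat.card W = p ^ n := by
    have h1 := Sylow.card_eq_multiplicity P₀
    have h2 := factorization_pq hp.out hq.out hpq n 1
    rw [pow_one, ← hcard] at h2
    rw [h2] at h1
    exact h1
  have hf : (Nat.card G).factorization q = 1 := by
    have := factorization_pq hq.out hp.out hpq.symm 1 n
    rw [pow_one, mul_comm] at this
    rw [hcard]
    exact this
  haveI hq' := hq
  obtain ⟨x, hx⟩ := exists_prime_orderOf_dvd_card' (G := G) q (by rw [hcard]; exact dvd_mul_left _ _)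
  obtain ⟨y', hy'⟩ := exists_prime_orderOf_dvd_card' (G := W) p
    (by rw [hWcard]; exact dvd_pow_self p (by omega))
  have hyW : (y' : G) ∈ W := y'.2
  set y : G := (y' : G) with hyd
  have hy : orderOf y = p := by rw [hyd, Subgroup.orderOf_coe, hy']
  have hy1 : y ≠ 1 := by
    intro h
    rw [h, orderOf_one] at hy
    omega
  have hx1 : x ≠ 1 := by
    intro h
    rw [h, orderOf_one] at hx
    omega
  have hcardx : Nat.card (Subgroup.zpowers x) = q := by rw [Nat.card_zpowers, hx]
  have hC : W.IsComplement' (Subgroup.zpowers x) := by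
    apply Subgroup.isComplement'_of_coprime
    · rw [hWcard, hcardx, hcard]
    · rw [hWcard, hcardx]
      exact hcop.pow_left n
  have hindex : W.index = q := by
    have h1 := W.card_mul_index
    rw [hWcard, hcard] at h1
    exact Nat.eq_of_mul_eq_mul_left (pow_pos hp.out.pos n) h1
  have hWo : ∀ g ∈ W, g ≠ 1 → orderOf g = p := fun g hg hg1 => orderOf_eq_prime (hWexp g hg) hg1
  have hnW : ∀ g, g ∉ W → orderOf g = q := by
    intro g hg
    have h1 : g ^ q ∈ W := by
      rw [← hindex]
      exact Subgroup.pow_index_mem W g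
    have hg1 : g ≠ 1 := by
      rintro rfl
      exact hg W.one_mem
    by_cases h2 : g ^ q = 1
    · exact orderOf_eq_prime h2 hg1
    exfalso
    have hgp : g ^ p ≠ 1 := by
      intro h3
      obtain ⟨m, -, hm⟩ := Nat.exists_mul_mod_eq_one_of_coprime hcop.symm hp1
      have h4 : g ^ (q * m) = g := by
        conv_lhs => rw [← Nat.div_add_mod (q * m) p, hm, pow_add, pow_mul, h3, one_pow, one_mul, pow_one]
      apply hg
      rw [← h4, pow_mul]
      exact W.pow_mem h1 m
    have hox : orderOf (g ^ p) = q := by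
      refine orderOf_eq_prime ?_ hgp
      have h3 : (g ^ q) ^ p = 1 := hWexp _ h1
      rw [← pow_mul, mul_comm, pow_mul]
      exact h3
    have hoy : orderOf (g ^ q) = p := hWo _ h1 h2
    apply hfpf (g ^ p) (g ^ q) hox hoy
    have : Commute (g ^ p) (g ^ q) := (Commute.refl g).pow_pow p q
    rw [this.eq]
    group
  have hexp : ∀ w : W, w ^ p = 1 := fun w => Subtype.ext (by simpa using hWexp w w.2)
  let σ : MulAut W := MulAut.conjNormal x
  have hσpow : ∀ k, σ ^ k = MulAut.conjNormal (x ^ k) := fun k => (map_pow _ _ _).symm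
  have hfix : ∀ k, 0 < k → k < q → ∀ v, (σ ^ k) v = v → v = 1 := by
    intro k hk hkq v hv
    by_contra hv1
    have hv2 : (v : G) ≠ 1 := fun h => hv1 (Subtype.ext h)
    have hov := hWo _ v.2 hv2
    have hkc : k.Coprime q := (Nat.coprime_of_lt_prime (by omega) hkq hq.out).symm
    have hok : orderOf (x ^ k) = q := by
      rw [Nat.Coprime.orderOf_pow (by rw [hx]; exact hkc.symm), hx]
    apply hfpf (x ^ k) v hok hov
    have h3 := congrArg Subtype.val hv
    rw [hσpow, MulAut.conjNormal_apply] at h3
    exact h3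
  obtain ⟨hS, hL⟩ := mul_twist hpq hord hexp σ
    (by rw [hσpow, ← hx, pow_orderOf_eq_one, map_one]) hfix
  let π : G → MulAction.orbitRel.Quotient (MulAut G) G := fun g => Quotient.mk _ g
  have hπord : ∀ g g', π g = π g' → orderOf g = orderOf g' := by
    intro g g' h
    obtain ⟨α, hα⟩ := MulAction.orbitRel_apply.mp (Quotient.exact h)
    have hα' : α g' = g := hα
    rw [← hα', MulEquiv.orderOf_eq]
  have hπeq : ∀ (α : MulAut G) (g : G), π (α g) = π g := by
    intro α g
    exact Quotient.sound (MulAction.orbitRel_apply.mpr ⟨α, rfl⟩)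
  let f : Fin 3 → MulAction.orbitRel.Quotient (MulAut G) G := ![π 1, π y, π x]
  have h01 : π 1 ≠ π y := by
    intro h
    have := hπord _ _ h
    rw [orderOf_one, hy] at this
    omega
  have h02 : π 1 ≠ π x := by
    intro h
    have := hπord _ _ h
    rw [orderOf_one, hx] at this
    omega
  have h12 : π y ≠ π x := by
    intro h
    have := hπord _ _ h
    rw [hy, hx] at this
    exact hpq this
  have hinj : Function.Injective f := by
    intro i j hij
    have key : ∀ i : Fin 3, i = 0 ∨ i = 1 ∨ i = 2 := by decide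
    rcases key i with rfl | rfl | rfl <;> rcases key j with rfl | rfl | rfl <;>
      first
        | rfl
        | exact absurd hij h01
        | exact absurd hij h02
        | exact absurd hij h12
        | exact absurd hij.symm h01
        | exact absurd hij.symm h02
        | exact absurd hij.symm h12
  have hsurj : Function.Surjective f := by
    intro ω
    obtain ⟨g, rfl⟩ := Quotient.exists_rep ω
    change ∃ i, f i = π g
    by_cases hg1 : g = 1
    · refine ⟨0, ?_⟩
      change π 1 = π g
      rw [hg1]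
    by_cases hgW : g ∈ W
    · refine ⟨1, ?_⟩
      obtain ⟨L, hLu, hLc⟩ := hL (⟨y, hyW⟩ : W) ⟨g, hgW⟩
        (fun h => hy1 (congrArg Subtype.val h)) (fun h => hg1 (congrArg Subtype.val h))
      obtain ⟨α, -, hα⟩ := exists_ext W hq.out hx hC (k := 1) (Nat.coprime_one_left q) L
        (fun v => by rw [hLc v, pow_one])
      have h1 : α y = g := by
        have := hα ⟨y, hyW⟩
        rw [hLu] at this
        exact this
      change π y = π g
      rw [← h1, hπeq]
    · refine ⟨2, ?_⟩
      have hog := hnW g hgW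
      obtain ⟨h, j, hj0, hjq, hj⟩ := exists_conj_pow hf hx hog
      have hjc : j.Coprime q := (Nat.coprime_of_lt_prime (by omega) hjq hq.out).symm
      obtain ⟨S, hSc⟩ := hS j hj0 hjq
      obtain ⟨α, hαx, -⟩ := exists_ext W hq.out hx hC hjc S hSc
      have h1 : (MulAut.conj h * α) x = g := by
        change h * α x * h⁻¹ = g
        rw [hαx, hj]
      change π x = π g
      rw [← h1, hπeq]
  have := Nat.card_eq_of_bijective f ⟨hinj, hsurj⟩
  rw [← this]
  simp

end Cfsg.Agent.Lib.H6Orb3G
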