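import Mathlib
import Cfsg.Agent.Lib.H6Orb4

/-!
Arithmetic for groups with four automorphism orbits.
-/

set_option autoImplicit false
set_option linter.all false

namespace Cfsg.Agent.Lib.H6Orb4

theorem pd_case {ℓ s N E Y : ℕ} (hℓ : 3 ≤ ℓ) (hN0 : N ≠ 0) (h : PD ℓ s N E) (hN : N = s * Y) :
    (∃ f, 2 ≤ f ∧ f ∣ s - 1 ∧ E * f + Y = N) ∨ 9 * E ≤ N := by
  obtain ⟨n, f, z, h1, h2, h3, hz, h4⟩ := h
  have hs0 : s ≠ 0 := by
    rintro rfl
    simp at hN
    exact hN0 hN
  have hf0 : f ≠ 0 := by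
    rintro rfl
    apply hN0
    rw [← h1]
    simp
  have hnf : n * f = Y := by
    apply Nat.eq_of_mul_eq_mul_left (Nat.pos_of_ne_zero hs0)
    rw [← hN, ← h1]
    ring
  rcases h4 with ⟨rfl, h5⟩ | h4
  · left
    refine ⟨f, by omega, h3, ?_⟩
    obtain ⟨z', rfl⟩ : ∃ z', z = z' + 1 := ⟨z - 1, by omega⟩
    simp only [Nat.add_sub_cancel] at h2 h3 ⊢
    rw [h2, hN, ← hnf]
    ring
  · right
    have h6 : z * 3 ^ 2 ≤ z * ℓ ^ 2 := Nat.mul_le_mul_left _ (Nat.pow_le_pow_left hℓ 2)
    have h7 : 9 * (z - 1) ≤ s := by omega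
    rw [h2, ← h1]
    calc 9 * (n * (z - 1)) = n * (9 * (z - 1)) := by ring
      _ ≤ n * s := Nat.mul_le_mul_left _ h7
      _ ≤ n * (s * f) := Nat.mul_le_mul_left _ (Nat.le_mul_of_pos_right _ (by omega))

/-- Powers of two and three that differ by one. -/
theorem two_three {α γ : ℕ} (hα : 3 ≤ α) (h : 2 ^ α + 1 = 3 ^ γ) : 2 ^ α = 8 := by
  -- γ is even
  have h8 : 8 ∣ 2 ^ α := by
    have : (2 : ℕ) ^ 3 ∣ 2 ^ α := pow_dvd_pow 2 hα
    simpa using this
  have h9 : 3 ^ γ % 8 = 1 := by
    obtain ⟨m, hm⟩ := h8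
    rw [← h, hm]
    omega
  have hγ : Even γ := by
    by_contra hodd
    obtain ⟨k, rfl⟩ := Nat.not_even_iff_odd.mp hodd
    have h3 : 3 ^ (2 * k + 1) % 8 = 3 := by
      rw [pow_succ, pow_mul, Nat.mul_mod, Nat.pow_mod]
      norm_num
    rw [h3] at h9
    exact absurd h9 (by norm_num)
  obtain ⟨k, rfl⟩ := hγ
  have hk1 : 1 ≤ 3 ^ k := Nat.one_le_pow _ _ (by norm_num)
  have hprod : (3 ^ k - 1) * (3 ^ k + 1) = 2 ^ α := by
    have h5 : 3 ^ (k + k) = 3 ^ k * 3 ^ k := pow_add _ _ _
    obtain ⟨m, hm⟩ : ∃ m, 3 ^ k = m + 1 := ⟨3 ^ k - 1, by omega⟩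
    rw [h5, hm] at h
    rw [hm]
    simp only [Nat.add_sub_cancel]
    nlinarith
  have hd1 : 3 ^ k - 1 ∣ 2 ^ α := Dvd.intro _ hprod
  have hd2 : 3 ^ k + 1 ∣ 2 ^ α := Dvd.intro_left _ hprod
  obtain ⟨i, hi, hi2⟩ := (Nat.dvd_prime_pow Nat.prime_two).mp hd1
  obtain ⟨j, hj, hj2⟩ := (Nat.dvd_prime_pow Nat.prime_two).mp hd2
  have hk0 : k ≠ 0 := by
    rintro rfl
    simp at h
  have hk3 : 3 ≤ 3 ^ k := by
    calc 3 = 3 ^ 1 := by norm_num
      _ ≤ 3 ^ k := Nat.pow_le_pow_right (by norm_num) (by omega)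
  have hi0 : i ≠ 0 := by
    rintro rfl
    simp at hi2
    omega
  have hj0 : 2 ≤ j := by
    by_contra hj3
    have : j = 0 ∨ j = 1 := by omega
    rcases this with rfl | rfl <;> simp at hj2 <;> omega
  have hi1 : i = 1 := by
    by_contra hi3
    have h4 : (2 : ℕ) ^ 2 ∣ 2 ^ i := pow_dvd_pow 2 (by omega)
    have h5 : (2 : ℕ) ^ 2 ∣ 2 ^ j := pow_dvd_pow 2 hj0
    omega
  subst hi1
  simp at hi2
  have h3k : 3 ^ k = 3 := by omega
  rw [← hprod, h3k]

/-- The numerical core. -/
theorem numeric_main {α β γ q r N Eq Er : ℕ} (hα : 2 ≤ α) (hq : q.Prime) (hqa : q + 1 = 2 ^ α)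
    (hr : r.Prime) (hr2 : r ≠ 2) (hβ : 1 ≤ β) (hγ : 1 ≤ γ)
    (hN : N = 2 ^ α * q ^ β * r ^ γ) (hsum : N = 1 + q ^ β * r ^ γ + Eq + Er)
    (h₁ : PD q (q ^ β) N Eq) (h₂ : PD r (r ^ γ) N Er) :
    (2 ^ α = 4 ∧ q ^ β = 3 ∧ r ^ γ = 5) ∨ (2 ^ α = 8 ∧ q ^ β = 7 ∧ r ^ γ = 9 ∧ r = 3 ∧ Er = 224) := by
  have ha4 : 4 ≤ 2 ^ α := by
    calc 4 = 2 ^ 2 := by norm_num
      _ ≤ 2 ^ α := Nat.pow_le_pow_right (by norm_num) hα
  have hq3 : 3 ≤ q := by omega
  have hr3 : 3 ≤ r := by
    have := hr.two_le
    omega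
  have hbq : q ≤ q ^ β := Nat.le_self_pow (by omega) _
  have hcr : r ≤ r ^ γ := Nat.le_self_pow (by omega) _
  have hpow : 2 ^ α < 8 → 2 ^ α = 4 := by
    intro h
    have hα3 : α < 3 := (Nat.pow_lt_pow_iff_right (by norm_num : 1 < 2)).mp (by simpa using h)
    have : α = 2 := by omega
    rw [this]
    norm_num
  have h3dvd : 2 ^ α = 4 → 3 ∣ q ^ β := by
    intro h
    have : q = 3 := by omega
    rw [this]
    exact dvd_pow_self _ (by omega)
  generalize ha : 2 ^ α = a at *
  generalize hb : q ^ β = b at *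
  generalize hc : r ^ γ = c at *
  have hX9 : 9 ≤ b * c := Nat.mul_le_mul (by omega : 3 ≤ b) (by omega : 3 ≤ c)
  have hN4 : 4 * (b * c) ≤ N := by
    rw [hN, mul_assoc]
    exact Nat.mul_le_mul_right _ ha4
  have hNX : N = a * (b * c) := by rw [hN]; ring
  have hN0 : N ≠ 0 := by omega
  have hU : N = b * (a * c) := by rw [hN]; ring
  have hV : N = c * (a * b) := by rw [hN]; ring
  have hUpos : 1 ≤ a * c := Nat.mul_pos (by omega) (by omega)
  have hVpos : 1 ≤ a * b := Nat.mul_pos (by omega) (by omega)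
  have hcase1 := pd_case hq3 hN0 h₁ hU
  have hcase2 := pd_case hr3 hN0 h₂ hV
  generalize hXdef : b * c = X at *
  generalize hUdef : a * c = U at *
  generalize hVdef : a * b = V at *
  rcases hcase1 with ⟨fq, hfq2, hfqd, hfq⟩ | hB1
  swap
  · exfalso
    rcases hcase2 with ⟨fr, hfr2, hfrd, hfr⟩ | hB2
    · have : Er * 2 ≤ Er * fr := Nat.mul_le_mul_left _ hfr2
      omega
    · omega
  rcases hcase2 with ⟨fr, hfr2, hfrd, hfr⟩ | hB2
  swap
  · exfalso
    have : Eq * 2 ≤ Eq * fq := Nat.mul_le_mul_left _ hfq2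
    omega
  -- both are abelian
  by_cases hfq3 : 3 ≤ fq
  · have h3q : Eq * 3 ≤ Eq * fq := Nat.mul_le_mul_left _ hfq3
    by_cases hfr3 : 3 ≤ fr
    · exfalso
      have h3r : Er * 3 ≤ Er * fr := Nat.mul_le_mul_left _ hfr3
      omega
    · have hfr2' : fr = 2 := by omega
      subst hfr2'
      exfalso
      have ha8 : a < 8 := by
        by_contra h8
        have : 8 * X ≤ a * X := Nat.mul_le_mul_right _ (by omega)
        omega
      have ha4' := hpow ha8
      subst ha4'
      have h3b := h3dvd rfl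
      -- fq = 3 is forced, and 3 ∣ b - 1 fails
      have hq4 : fq < 4 := by
        by_contra h4
        have h4q : Eq * 4 ≤ Eq * fq := Nat.mul_le_mul_left _ (by omega)
        have h5 : N = 4 * X := by rw [hNX]
        have h6 : U = 4 * c := hUdef.symm
        have h7 : V = 4 * b := hVdef.symm
        omega
      have hfq3' : fq = 3 := by omega
      subst hfq3'
      have : 3 ∣ 1 := by
        have h2 : b - 1 + 1 = b := by omega
        have := (Nat.dvd_add_right hfqd).mp (by rw [h2]; exact h3b : 3 ∣ b - 1 + 1)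
        exact this
      omega
  · have hfq2' : fq = 2 := by omega
    subst hfq2'
    by_cases hfr3 : 3 ≤ fr
    · exfalso
      have h3r : Er * 3 ≤ Er * fr := Nat.mul_le_mul_left _ hfr3
      have ha8 : a < 8 := by
        by_contra h8
        have : 8 * X ≤ a * X := Nat.mul_le_mul_right _ (by omega)
        omega
      have ha4' := hpow ha8
      subst ha4'
      have h3b := h3dvd rfl
      obtain ⟨d, rfl⟩ := h3b
      have h5 : N = 4 * X := by rw [hNX]
      have h6 : U = 4 * c := hUdef.symm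
      have h7 : V = 4 * (3 * d) := hVdef.symm
      have h8 : Er = X + 2 * c - 1 := by omega
      have hr4 : fr < 4 := by
        by_contra h4
        have h4q : Er * 4 ≤ Er * fr := Nat.mul_le_mul_left _ (by omega)
        omega
      have hfr3' : fr = 3 := by omega
      subst hfr3'
      have h9 : X = 3 * (d * c) := by rw [← hXdef]; ring
      have h10 : d * c + 1 = 4 * d + 2 * c := by omega
      -- now analyse `c`
      have hc5 : 5 ≤ c := by
        by_contra h11
        have h12 : c = 3 ∨ c = 4 := by omega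
        rcases h12 with rfl | rfl <;> omega
      obtain ⟨e, rfl⟩ : ∃ e, c = e + 4 := ⟨c - 4, by omega⟩
      have h13 : d * e = 2 * e + 7 := by
        have : d * (e + 4) = d * e + 4 * d := by ring
        omega
      have h14 : e ∣ 7 := by
        have h15 : e ∣ 2 * e + 7 := by
          rw [← h13]
          exact Dvd.intro_left _ rfl
        exact (Nat.dvd_add_right (Dvd.intro_left _ rfl)).mp h15
      rcases (Nat.dvd_prime (by norm_num : Nat.Prime 7)).mp h14 with rfl | rfl
      · omega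
      · omega
    · have hfr2' : fr = 2 := by omega
      subst hfr2'
      -- the final case
      have hkey : U + V = 2 + 2 * X := by omega
      rw [← hXdef, ← hUdef, ← hVdef] at hkey
      have hb_eq : b = q := by
        by_contra hne
        have hβ2 : 2 ≤ β := by
          by_contra h2
          have : β = 1 := by omega
          rw [this, pow_one] at hb
          exact hne hb.symm
        have hbq2 : q ^ 2 ≤ b := by
          rw [← hb]
          exact Nat.pow_le_pow_right (by omega) hβ2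
        have haq : a = q + 1 := hqa.symm
        subst haq
        -- contradiction in the integers
        zify at hkey hbq2 hq3 ha4
        have hc1 : (1 : ℤ) ≤ c := by omega
        have h2b : (2 * (b : ℤ) - (q + 1)) * (2 * (c : ℤ) - (q + 1)) = (q + 1) ^ 2 - 4 := by
          linear_combination (-2) * hkey
        have hq0 : (0 : ℤ) ≤ q := by omega
        have hq2 : (3 : ℤ) * q ≤ (q : ℤ) ^ 2 := by
          rw [pow_two]
          exact mul_le_mul_of_nonneg_right hq3 hq0
        have h2bpos : (0 : ℤ) < 2 * (b : ℤ) - (q + 1) := by linarith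
        have hrhs : (0 : ℤ) < ((q : ℤ) + 1) ^ 2 - 4 := by
          have h4 : ((q : ℤ) + 1) ^ 2 - 4 = (q : ℤ) ^ 2 + 2 * q - 3 := by ring
          rw [h4]
          linarith
        have h2c : (0 : ℤ) < 2 * (c : ℤ) - (q + 1) := by
          by_contra hneg
          push_neg at hneg
          have := mul_nonpos_of_nonneg_of_nonpos h2bpos.le hneg
          linarith
        have h2c1 : (1 : ℤ) ≤ 2 * (c : ℤ) - (q + 1) := by omega
        have h3 := le_mul_of_one_le_right h2bpos.le h2c1
        rw [h2b] at h3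
        have h4 : ((q : ℤ) + 1) ^ 2 = (q : ℤ) ^ 2 + 2 * q + 1 := by ring
        rw [h4] at h3
        linarith
      have hb_eq' : q = b := hb_eq.symm
      subst hb_eq'
      have haq : a = q + 1 := hqa.symm
      subst haq
      have hcq : c = q + 2 := by
        have h1 : (q - 1) * c = (q - 1) * (q + 2) := by
          obtain ⟨m, rfl⟩ : ∃ m, q = m + 1 := ⟨q - 1, by omega⟩
          simp only [Nat.add_sub_cancel]
          linarith
        exact Nat.eq_of_mul_eq_mul_left (by omega) h1
      subst hcq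
      by_cases ha4' : q + 1 = 4
      · left
        have : q = 3 := by omega
        subst this
        exact ⟨rfl, rfl, rfl⟩
      right
      have hα3 : 3 ≤ α := by
        by_contra h
        have : α = 2 := by omega
        rw [this] at ha
        omega
      -- `3` divides `q + 2`
      have h3 : 3 ∣ q + 2 := by
        have hq3m : q % 3 = 0 ∨ q % 3 = 1 ∨ q % 3 = 2 := by omega
        rcases hq3m with h0 | h1 | h2
        · exfalso
          have : 3 ∣ q := Nat.dvd_of_mod_eq_zero h0
          have h5 := (Nat.prime_dvd_prime_iff_eq Nat.prime_three hq).mp this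
          omega
        · omega
        · exfalso
          have : 3 ∣ 2 ^ α := by
            rw [ha]
            omega
          have := Nat.prime_three.dvd_of_dvd_pow this
          omega
      have hr_eq : r = 3 := by
        rw [← hc] at h3
        exact ((Nat.prime_dvd_prime_iff_eq Nat.prime_three hr).mp (Nat.prime_three.dvd_of_dvd_pow h3)).symm
      subst hr_eq
      have hh : 2 ^ α + 1 = 3 ^ γ := by rw [ha, hc]
      have h8 := two_three hα3 hh
      rw [ha] at h8
      have hq7 : q = 7 := by omega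
      subst hq7
      refine ⟨rfl, rfl, rfl, rfl, ?_⟩
      rw [← hVdef] at hfr
      omega

end Cfsg.Agent.Lib.H6Orb4
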