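import Mathlib
import Cfsg.Agent.Lib.H6Orb4

/-!
The two final cases for groups with four automorphism orbits.
-/

set_option autoImplicit false
set_option linter.all false

namespace Cfsg.Agent.Lib.H6Orb4

universe u

open Cfsg
open scoped Pointwise commutatorElement

variable {G : Type u} [Group G] [Finite G]

/-- A simple group of order `60` with five Sylow `2`-subgroups is `A₅`. -/
theorem iso_A5 [Fact (Nat.Prime 2)] (hS : IsSimpleGroup G) (h60 : Nat.card G = 60)
    (h5 : Nat.card (Sylow 2 G) = 5) : Nonempty (G ≃* alternatingGroup (Fin 5)) := by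
  classical
  letI : Fintype (Sylow 2 G) := Fintype.ofFinite _
  have h5' : Fintype.card (Sylow 2 G) = 5 := by rw [← Nat.card_eq_fintype_card]; exact h5
  let e : Sylow 2 G ≃ Fin 5 := Fintype.equivFinOfCardEq h5'
  let ψ : G →* Equiv.Perm (Fin 5) := (e.permCongrHom.toMonoidHom).comp (MulAction.toPermHom G (Sylow 2 G))
  have hker : ψ.ker = ⊥ := by
    rcases (inferInstance : ψ.ker.Normal).eq_bot_or_eq_top with h | h
    · exact h
    · exfalso
      have hone : ∀ (g : G) (T : Sylow 2 G), g • T = T := by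
        intro g T
        have h1 : g ∈ ψ.ker := by rw [h]; trivial
        have h2 : ψ g = 1 := h1
        have h3 : MulAction.toPermHom G (Sylow 2 G) g = 1 := by
          apply e.permCongrHom.injective
          rw [map_one]
          exact h2
        exact congrArg (fun f : Equiv.Perm (Sylow 2 G) => f T) h3
      have hsub : Subsingleton (Sylow 2 G) := by
        constructor
        intro S T
        obtain ⟨g, hg⟩ := MulAction.exists_smul_eq G S T
        rw [← hg, hone]
      have := Finite.card_le_one_iff_subsingleton.mpr hsub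
      omega
  have hinj : Function.Injective ψ := (MonoidHom.ker_eq_bot_iff ψ).mp hker
  have hcardR : Nat.card ψ.range = 60 := by
    rw [← h60]
    exact Nat.card_congr (MonoidHom.ofInjective hinj).toEquiv.symm
  have hcardP : Nat.card (Equiv.Perm (Fin 5)) = 120 := by
    rw [Nat.card_eq_fintype_card, Fintype.card_perm]
    rfl
  have hindex : ψ.range.index = 2 := by
    have := ψ.range.card_mul_index
    rw [hcardR, hcardP] at this
    omega
  have hA : alternatingGroup (Fin 5) ≤ ψ.range := by
    rw [← Equiv.Perm.closure_three_cycles_eq_alternating, Subgroup.closure_le]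
    intro σ hσ
    have hs : Equiv.Perm.IsThreeCycle σ := hσ
    have h1 : σ ^ 2 ∈ ψ.range := Subgroup.sq_mem_of_index_two hindex σ
    have h2 : (σ ^ 2) ^ 2 ∈ ψ.range := Subgroup.sq_mem_of_index_two hindex _
    have h3 : (σ ^ 2) ^ 2 = σ := by
      rw [← pow_mul]
      have h4 : σ ^ 3 = 1 := by
        rw [← hs.orderOf]
        exact pow_orderOf_eq_one σ
      calc σ ^ (2 * 2) = σ ^ 3 * σ := by rw [← pow_succ]
        _ = σ := by rw [h4, one_mul]
    rwa [h3] at h2
  have hcardA : Nat.card (alternatingGroup (Fin 5)) = 60 := by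
    have := two_mul_nat_card_alternatingGroup (α := Fin 5)
    rw [hcardP] at this
    omega
  have hEq : alternatingGroup (Fin 5) = ψ.range :=
    Subgroup.eq_of_le_of_card_ge hA (by rw [hcardR, hcardA])
  exact ⟨(MonoidHom.ofInjective hinj).trans (MulEquiv.subgroupCongr hEq.symm)⟩

section Eight

variable (hEPO : ∀ g : G, g ≠ 1 → (orderOf g).Prime)

include hEPO in
/-- Only the identity of a Sylow `2`-subgroup normalizes another Sylow `2`-subgroup. -/
theorem sylow_fix [Fact (Nat.Prime 2)] (h2d : 2 ∣ Nat.card G) {T₁ T₂ : Sylow 2 G} (hne : T₁ ≠ T₂)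
    {u : G} (hu : u ∈ (T₁ : Subgroup G)) (hfix : u • T₂ = T₂) : u = 1 := by
  by_contra hu1
  have h1 : u ∈ Subgroup.normalizer ((T₂ : Subgroup G) : Set G) := Sylow.smul_eq_iff_mem_normalizer.mp hfix
  have h2 := IsPGroup.inf_normalizer_sylow T₁.isPGroup' T₂
  have h3 : u ∈ (T₁ : Subgroup G) ⊓ Subgroup.normalizer (T₂ : Set G) := ⟨hu, h1⟩
  rw [h2] at h3
  have hZ1 : u ∈ ZP (T₁ : Subgroup G) := by rw [ZP_two hEPO T₁]; exact hu
  have hZ2 : u ∈ ZP (T₂ : Subgroup G) := by rw [ZP_two hEPO T₂]; exact h3.2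
  apply hne
  apply Sylow.ext
  rw [← cent_eq_sylow hEPO T₁ hZ1 hu1, cent_eq_sylow hEPO T₂ hZ2 hu1]

include hEPO in
/-- The exclusion of the case of order `504`. -/
theorem no_eight [Fact (Nat.Prime 2)] (hN : Nat.card G = 504) (T₀ : Sylow 2 G) (hT : Nat.card T₀ = 8)
    (hn : Nat.card (Sylow 2 G) = 9) (hE : Nat.card {x : G // orderOf x = 3} = 224) : False := by
  classical
  have h2d : 2 ∣ Nat.card G := by rw [hN]; norm_num
  letI : Fintype (Sylow 2 G) := Fintype.ofFinite _
  have hcardN : Nat.card (Subgroup.normalizer ((T₀ : Subgroup G) : Set G)) = 56 := by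
    have h1 := (Subgroup.normalizer ((T₀ : Subgroup G) : Set G)).card_mul_index
    have h2 : (Subgroup.normalizer ((T₀ : Subgroup G) : Set G)).index = 9 := by
      rw [← hn]
      exact (Sylow.card_eq_index_normalizer T₀).symm
    rw [h2, hN] at h1
    omega
  have hnotN : ∀ y : G, orderOf y = 3 → y • T₀ ≠ T₀ := by
    intro y hy hfix
    have h1 : y ∈ Subgroup.normalizer ((T₀ : Subgroup G) : Set G) := Sylow.smul_eq_iff_mem_normalizer.mp hfix
    have h2 : orderOf (⟨y, h1⟩ : Subgroup.normalizer ((T₀ : Subgroup G) : Set G)) ∣ 56 := by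
      rw [← hcardN]
      exact orderOf_dvd_natCard _
    rw [Subgroup.orderOf_mk, hy] at h2
    omega
  -- the transitivity of the action of `T₀` on the rest
  have hreg : ∀ T₁ T₂ : Sylow 2 G, T₀ ≠ T₁ → T₀ ≠ T₂ → ∃ u ∈ (T₀ : Subgroup G), u • T₁ = T₂ := by
    intro T₁ T₂ h1 h2
    let f : ↥(T₀ : Subgroup G) → {S : Sylow 2 G // S ≠ T₀} := fun u => ⟨(u : G) • T₁, fun h => by
      apply h1
      have : (T₁ : Sylow 2 G) = (u : G)⁻¹ • T₀ := eq_inv_smul_iff.mpr h
      rw [this]
      have h3 : (u : G)⁻¹ • T₀ = T₀ := by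
        apply Sylow.smul_eq_iff_mem_normalizer.mpr
        exact Subgroup.le_normalizer ((T₀ : Subgroup G).inv_mem u.2)
      rw [h3]⟩
    have hinj : Function.Injective f := by
      intro u v huv
      have h3 : (u : G) • T₁ = (v : G) • T₁ := congrArg Subtype.val huv
      have h4 : ((v : G)⁻¹ * u) • T₁ = T₁ := by
        rw [mul_smul, h3]
        simp
      have h5 := sylow_fix hEPO h2d h1 (Subgroup.mul_mem _ (Subgroup.inv_mem _ v.2) u.2) h4
      have h6 : (u : G) = v := by
        have := eq_of_inv_mul_eq_one h5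
        exact this.symm
      exact Subtype.ext h6
    have hcard : Nat.card {S : Sylow 2 G // S ≠ T₀} ≤ Nat.card (T₀ : Subgroup G) := by
      rw [hT, Nat.card_eq_fintype_card, Fintype.card_subtype_compl]
      have : Fintype.card {S : Sylow 2 G // S = T₀} = 1 := Fintype.card_subtype_eq T₀
      rw [this, ← Nat.card_eq_fintype_card, hn]
    have hb := hinj.bijective_of_nat_card_le hcard
    obtain ⟨u, hu⟩ := hb.2 ⟨T₂, fun h => h2 h.symm⟩
    exact ⟨u, u.2, congrArg Subtype.val hu⟩
  -- the map
  let Φ : {x : G // orderOf x = 3} → Sylow 2 G × Sylow 2 G :=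
    fun y => ((y : G) • T₀, ((y : G) * y) • T₀)
  have hΦ : Function.Injective Φ := by
    rintro ⟨y, hy⟩ ⟨y', hy'⟩ h
    have h1 : y • T₀ = y' • T₀ := congrArg Prod.fst h
    have h2 : (y * y) • T₀ = (y' * y') • T₀ := congrArg Prod.snd h
    have h3y : y * y * y = 1 := by
      have := pow_orderOf_eq_one y
      rw [hy, pow_succ, pow_two] at this
      exact this
    have h3y' : y' * y' * y' = 1 := by
      have := pow_orderOf_eq_one y'
      rw [hy', pow_succ, pow_two] at this
      exact this
    apply Subtype.ext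
    change y = y'
    set z := y⁻¹ * y' with hz
    set T₁ := y • T₀ with hT₁
    set T₂ := (y * y) • T₀ with hT₂
    have hz0 : z • T₀ = T₀ := by
      rw [hz, mul_smul, ← h1, ← mul_smul]
      simp
    have hy'1 : y' • T₁ = T₂ := by
      rw [h1, ← mul_smul, ← h2]
    have hz1 : z • T₁ = T₁ := by
      rw [hz, mul_smul, hy'1, hT₂, mul_smul y y, ← mul_smul y⁻¹]
      simp [hT₁]
    have hz2 : z • T₂ = T₂ := by
      have h3 : y' • T₂ = T₀ := by
        rw [h2, ← mul_smul, ← mul_assoc]
        have : y' * y' * y' = y' * (y' * y') := mul_assoc _ _ _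
        rw [h3y']
        simp
      rw [hz, mul_smul, h3]
      have h4 : y⁻¹ = y * y := by
        apply inv_eq_of_mul_eq_one_left
        exact h3y
      rw [h4]
    have h01 : T₀ ≠ T₁ := fun h => hnotN y hy h.symm
    have h02 : T₀ ≠ T₂ := by
      intro h
      apply hnotN y hy
      have h3 : y • T₂ = T₀ := by
        rw [hT₂, ← mul_smul, ← mul_assoc, h3y, one_smul]
      rw [← h] at h3
      exact h3
    have h12 : T₁ ≠ T₂ := by
      intro h
      apply hnotN y hy
      have h3 : y • T₁ = T₂ := by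
        rw [hT₁, ← mul_smul]
      rw [← h, hT₁] at h3
      exact smul_left_cancel y h3
    obtain ⟨u, hu, huT⟩ := hreg T₁ T₂ h01 h02
    have hu1 : u ≠ 1 := by
      rintro rfl
      rw [one_smul] at huT
      exact h12 huT
    have hz1' : z = 1 := by
      by_contra hzne
      have hzT0 : z ∉ (T₀ : Subgroup G) := fun hh => hzne (sylow_fix hEPO h2d h01 hh hz1)
      have hzN : z ∈ Subgroup.normalizer ((T₀ : Subgroup G) : Set G) :=
        Sylow.smul_eq_iff_mem_normalizer.mp hz0
      have hconj : z * u * z⁻¹ ∈ (T₀ : Subgroup G) := (Subgroup.mem_normalizer_iff.mp hzN u).mp hu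
      have h5 : (z * u * z⁻¹) • T₁ = u • T₁ := by
        have h6 : (z * u * z⁻¹) • T₁ = z • (u • (z⁻¹ • T₁)) := by
          rw [mul_smul, mul_smul]
        have h7 : z⁻¹ • T₁ = T₁ := by
          rw [inv_smul_eq_iff, hz1]
        rw [h6, h7, huT, hz2]
      have h8 : (u⁻¹ * (z * u * z⁻¹)) • T₁ = T₁ := by
        rw [mul_smul, h5]
        simp
      have h9 := sylow_fix hEPO h2d h01 (Subgroup.mul_mem _ (Subgroup.inv_mem _ hu) hconj) h8
      have h10 : z * u * z⁻¹ = u := (eq_of_inv_mul_eq_one h9).symm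
      have huZ : u ∈ ZP (T₀ : Subgroup G) := by rw [ZP_two hEPO T₀]; exact hu
      have hce := cent_eq_sylow hEPO T₀ huZ hu1
      apply hzT0
      rw [← hce]
      apply Subgroup.mem_centralizer_singleton_iff.mpr
      calc z * u = z * u * z⁻¹ * z := by group
        _ = u * z := by rw [h10]
    have : y⁻¹ * y' = 1 := hz1'
    exact eq_of_inv_mul_eq_one this
  have hle := Nat.card_le_card_of_injective Φ hΦ
  rw [hE, Nat.card_prod, hn] at hle
  omega

end Eight

end Cfsg.Agent.Lib.H6Orb4
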