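import Mathlib
import Cfsg.Agent.Lib.H6Orb4
import Cfsg.Agent.Lib.H6Orb4b
import Cfsg.Agent.Lib.H6Orb4c
import Cfsg.Agent.Lib.H6Orb4d

/-!
The assembly of the theorem on groups with four automorphism orbits.
-/

set_option autoImplicit false
set_option linter.all false

namespace Cfsg.Agent.Lib.H6Orb4

universe u

open Cfsg

variable {G : Type u} [Group G] [Finite G]

/-- The case `q = |T| - 1`. -/
theorem main_three [h2 : Fact (Nat.Prime 2)] {q r : ℕ} [hq : Fact q.Prime] [hr : Fact r.Prime]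
    (hEPO : ∀ g : G, g ≠ 1 → (orderOf g).Prime)
    (htrans : ∀ g g' : G, g ≠ 1 → orderOf g = orderOf g' → ∃ α : MulAut G, α g = g')
    (hS : IsSimpleGroup G) (h2d : 2 ∣ Nat.card G) (hqd : q ∣ Nat.card G) (hrd : r ∣ Nat.card G)
    (hq2 : q ≠ 2) (hr2 : r ≠ 2) (hqr : q ≠ r)
    (horder : ∀ g : G, g ≠ 1 → orderOf g = 2 ∨ orderOf g = q ∨ orderOf g = r)
    (hdiv : ∀ ℓ, ℓ.Prime → ℓ ∣ Nat.card G → ℓ = 2 ∨ ℓ = q ∨ ℓ = r)
    (T : Sylow 2 G) (hqT : q + 1 = Nat.card T) :
    Nonempty (G ≃* alternatingGroup (Fin 5)) := by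
  let Q : Sylow q G := Classical.arbitrary _
  let R : Sylow r G := Classical.arbitrary _
  obtain ⟨α, hα⟩ := IsPGroup.iff_card.mp T.isPGroup'
  obtain ⟨β, hβ⟩ := IsPGroup.iff_card.mp Q.isPGroup'
  obtain ⟨γ, hγ⟩ := IsPGroup.iff_card.mp R.isPGroup'
  have hNc := card_three (p := 2) (q := q) (r := r) hq2.symm hr2.symm hqr hdiv T Q R
  have hsum := card_eq_sum (p := 2) (q := q) (r := r) Nat.prime_two hq.out hr.out hq2.symm hr2.symm hqr horder
  have hf := f_two hEPO htrans hS h2d hq.out hqd hq2 T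
  have hs := sizes T
  have hE2 := card_order_eq hEPO htrans h2d T
  rw [ZP_two hEPO T] at hE2
  have hP1 : PD q (Nat.card Q) (Nat.card G) (Nat.card {x : G // orderOf x = q}) :=
    pd hEPO htrans hS hqd Nat.prime_two h2d hq2 Q
  have hP2 : PD r (Nat.card R) (Nat.card G) (Nat.card {x : G // orderOf x = r}) :=
    pd hEPO htrans hS hrd Nat.prime_two h2d hr2 R
  have hq3 : 3 ≤ q := by
    have := hq.out.two_le
    omega
  have hT4 : 4 ≤ Nat.card T := by omega
  have hα2 : 2 ≤ α := by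
    by_contra h
    have h1 : 2 ^ α ≤ 2 ^ 1 := Nat.pow_le_pow_right (by norm_num) (by omega)
    rw [← hα] at h1
    omega
  have hβ1 : 1 ≤ β := by
    by_contra h
    have h0 : β = 0 := by omega
    rw [h0, pow_zero] at hβ
    exact Q.ne_bot_of_dvd_card hqd (Subgroup.eq_bot_of_card_eq _ hβ)
  have hγ1 : 1 ≤ γ := by
    by_contra h
    have h0 : γ = 0 := by omega
    rw [h0, pow_zero] at hγ
    exact R.ne_bot_of_dvd_card hrd (Subgroup.eq_bot_of_card_eq _ hγ)
  have hEtwo : Nat.card {x : G // orderOf x = 2} = Nat.card Q * Nat.card R := by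
    rw [hE2]
    rw [hf] at hs
    rw [hNc] at hs
    have h1 : Nat.card T * (Nat.card (Sylow 2 G) * (Nat.card T - 1)) = Nat.card T * (Nat.card Q * Nat.card R) := by
      rw [mul_assoc] at hs
      rw [← hs]
      ring
    exact Nat.eq_of_mul_eq_mul_left (by omega) h1
  rw [hEtwo] at hsum
  rw [hβ] at hP1 hsum hNc
  rw [hγ] at hP2 hsum hNc
  rw [hα] at hNc
  have hmain := numeric_main hα2 hq.out (by rw [hqT, hα]) hr.out hr2 hβ1 hγ1 hNc hsum hP1 hP2
  rw [← hα, ← hβ, ← hγ] at hmain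
  rcases hmain with ⟨h4, h3, h5⟩ | ⟨h8, h7, h9, hr3, hE⟩
  · have hN : Nat.card G = 60 := by
      rw [hNc, ← hα, ← hβ, ← hγ, h4, h3, h5]
    apply iso_A5 hS hN
    rw [h4, hf, h4] at hs
    rw [hN] at hs
    omega
  · exfalso
    have hN : Nat.card G = 504 := by
      rw [hNc, ← hα, ← hβ, ← hγ, h8, h7, h9]
    subst hr3
    apply no_eight hEPO hN T h8 _ hE
    rw [h8, hf, h8] at hs
    rw [hN] at hs
    omega

/-- The case of the primes `2, q, r`. -/
theorem main_two [h2 : Fact (Nat.Prime 2)] {q r : ℕ} [hq : Fact q.Prime] [hr : Fact r.Prime]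
    (hEPO : ∀ g : G, g ≠ 1 → (orderOf g).Prime)
    (htrans : ∀ g g' : G, g ≠ 1 → orderOf g = orderOf g' → ∃ α : MulAut G, α g = g')
    (hS : IsSimpleGroup G) (h2d : 2 ∣ Nat.card G) (hqd : q ∣ Nat.card G) (hrd : r ∣ Nat.card G)
    (hq2 : q ≠ 2) (hr2 : r ≠ 2) (hqr : q ≠ r)
    (horder : ∀ g : G, g ≠ 1 → orderOf g = 2 ∨ orderOf g = q ∨ orderOf g = r)
    (hdiv : ∀ ℓ, ℓ.Prime → ℓ ∣ Nat.card G → ℓ = 2 ∨ ℓ = q ∨ ℓ = r) :
    Nonempty (G ≃* alternatingGroup (Fin 5)) := by
  let T : Sylow 2 G := Classical.arbitrary _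
  have hpr := T_prime hEPO htrans hS h2d hq.out hr.out hq2 hqd hdiv T
  have hf := f_two hEPO htrans hS h2d hq.out hqd hq2 T
  have hs := sizes T
  have hdvd : Nat.card T - 1 ∣ Nat.card G := by
    rw [← hs, hf]
    exact Dvd.dvd.mul_left (Dvd.intro_left _ rfl) _
  obtain ⟨k, hk⟩ := IsPGroup.iff_card.mp T.isPGroup'
  have hne2 : Nat.card T - 1 ≠ 2 := by
    intro h
    have h3 : Nat.card T = 3 := by omega
    rw [h3] at hk
    have : 2 ∣ 3 := by
      have h0 : k ≠ 0 := by
        rintro rfl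
        simp at hk
      rw [hk]
      exact dvd_pow_self 2 h0
    omega
  have hT1 : 1 ≤ Nat.card T := Nat.card_pos
  rcases hdiv _ hpr hdvd with h | h | h
  · exact absurd h hne2
  · exact main_three hEPO htrans hS h2d hqd hrd hq2 hr2 hqr horder hdiv T (by omega)
  · refine main_three (q := r) (r := q) hEPO htrans hS h2d hrd hqd hr2 hq2 hqr.symm ?_ ?_ T (by omega)
    · intro g hg
      rcases horder g hg with h | h | h
      · exact Or.inl h
      · exact Or.inr (Or.inr h)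
      · exact Or.inr (Or.inl h)
    · intro ℓ hℓ hd
      rcases hdiv ℓ hℓ hd with h | h | h
      · exact Or.inl h
      · exact Or.inr (Or.inr h)
      · exact Or.inr (Or.inl h)

/-- The main theorem. -/
theorem main (hns : ¬ Group.IsSolvable G)
    (h4 : Nat.card (MulAction.orbitRel.Quotient (MulAut G) G) = 4) :
    Nonempty (G ≃* alternatingGroup (Fin 5)) := by
  obtain ⟨p, q, r, hp, hq, hr, hpq, hpr, hqr, hpd, hqd, hrd, horder, htrans⟩ := setup hns h4
  haveI : Fact (Nat.Prime 2) := ⟨Nat.prime_two⟩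
  haveI : Fact p.Prime := ⟨hp⟩
  haveI : Fact q.Prime := ⟨hq⟩
  haveI : Fact r.Prime := ⟨hr⟩
  have hEPO : ∀ g : G, g ≠ 1 → (orderOf g).Prime := by
    intro g hg
    rcases horder g hg with h | h | h <;> rw [h] <;> assumption
  have hS : IsSimpleGroup G := isSimple hp hq hr hpd hqd hrd horder htrans hpq hns
  have hdiv : ∀ ℓ, ℓ.Prime → ℓ ∣ Nat.card G → ℓ = p ∨ ℓ = q ∨ ℓ = r := by
    intro ℓ hℓ hd
    haveI : Fact ℓ.Prime := ⟨hℓ⟩
    obtain ⟨g, hg⟩ := exists_prime_orderOf_dvd_card' ℓ hd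
    have hg1 : g ≠ 1 := by
      rintro rfl
      rw [orderOf_one] at hg
      exact hℓ.one_lt.ne hg
    rcases horder g hg1 with h | h | h
    · left; rw [← hg, h]
    · right; left; rw [← hg, h]
    · right; right; rw [← hg, h]
  have hsum := card_eq_sum hp hq hr hpq hpr hqr horder
  have h2d : 2 ∣ Nat.card G := by
    by_contra h
    have hodd : Odd (Nat.card G) := Nat.not_even_iff_odd.mp (fun he => h (even_iff_two_dvd.mp he))
    have hne : ∀ ℓ, ℓ.Prime → ℓ ∣ Nat.card G → 3 ≤ ℓ := by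
      intro ℓ hℓ hd
      have h2 := hℓ.two_le
      by_contra h3
      have : ℓ = 2 := by omega
      subst this
      exact h hd
    have hp3 := hne p hp hpd
    have hq3 := hne q hq hqd
    have hr3 := hne r hr hrd
    let P : Sylow p G := Classical.arbitrary _
    let Q : Sylow q G := Classical.arbitrary _
    let R : Sylow r G := Classical.arbitrary _
    exact two_dvd_of_sum hp3 hq3 hr3 hodd (card_three hpq hpr hqr hdiv P Q R) hsum
      (pd hEPO htrans hS hpd hq hqd hpq P) (pd hEPO htrans hS hqd hp hpd hpq.symm Q)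
      (pd hEPO htrans hS hrd hp hpd hpr.symm R)
  rcases hdiv 2 Nat.prime_two h2d with h | h | h
  · subst h
    exact main_two hEPO htrans hS h2d hqd hrd hpq.symm hpr.symm hqr horder hdiv
  · subst h
    refine main_two (q := p) (r := r) hEPO htrans hS h2d hpd hrd hpq hqr.symm hpr ?_ ?_
    · intro g hg
      rcases horder g hg with h | h | h
      · exact Or.inr (Or.inl h)
      · exact Or.inl h
      · exact Or.inr (Or.inr h)
    · intro ℓ hℓ hd
      rcases hdiv ℓ hℓ hd with h | h | h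
      · exact Or.inr (Or.inl h)
      · exact Or.inl h
      · exact Or.inr (Or.inr h)
  · subst h
    refine main_two (q := p) (r := q) hEPO htrans hS h2d hpd hqd hpr hqr hpq ?_ ?_
    · intro g hg
      rcases horder g hg with h | h | h
      · exact Or.inr (Or.inl h)
      · exact Or.inr (Or.inr h)
      · exact Or.inl h
    · intro ℓ hℓ hd
      rcases hdiv ℓ hℓ hd with h | h | h
      · exact Or.inr (Or.inl h)
      · exact Or.inr (Or.inr h)
      · exact Or.inl h

end Cfsg.Agent.Lib.H6Orb4
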