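import Mathlib

set_option autoImplicit false

namespace Cfsg.Agent.Lib.H6OrbitSpan

variable {k V H : Type*} [Field k] [AddCommGroup V] [Module k V] [Group H] [Finite H]

/-- Averaging over a subgroup `S` which is transitive on the orbit of the spanning vector `a`:
there is an `H`-fixed vector `w` such that every `S`-fixed vector is a multiple of `w`. -/
theorem key (ρ : Representation k H V) (a : V)
    (hspan : Submodule.span k {u : V | ∃ h : H, ρ h a = u} = ⊤)
    (S : Subgroup H) (hS : (Nat.card S : k) ≠ 0)
    (htr : ∀ h : H, ∃ s ∈ S, ρ s a = ρ h a) :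
    ∃ w : V, (∀ h : H, ρ h w = w) ∧ ∀ v : V, (∀ s ∈ S, ρ s v = v) → ∃ c : k, v = c • w := by
  classical
  haveI := Fintype.ofFinite H
  let O : Finset V := Finset.univ.image (fun h : H => ρ h a)
  let w0 : V := ∑ u ∈ O, u
  have hw0 : ∀ h : H, ρ h w0 = w0 := by
    intro h
    change ρ h (∑ u ∈ O, u) = ∑ u ∈ O, u
    rw [map_sum]
    refine Finset.sum_nbij' (fun u => ρ h u) (fun u => ρ h⁻¹ u) ?_ ?_ ?_ ?_ ?_
    · intro u hu
      obtain ⟨t, -, rfl⟩ := Finset.mem_image.mp hu
      refine Finset.mem_image.mpr ⟨h * t, Finset.mem_univ _, ?_⟩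
      simp [map_mul]
    · intro u hu
      obtain ⟨t, -, rfl⟩ := Finset.mem_image.mp hu
      refine Finset.mem_image.mpr ⟨h⁻¹ * t, Finset.mem_univ _, ?_⟩
      simp [map_mul]
    · intro u _
      change ρ h⁻¹ (ρ h u) = u
      rw [← Module.End.mul_apply, ← map_mul]
      simp
    · intro u _
      change ρ h (ρ h⁻¹ u) = u
      rw [← Module.End.mul_apply, ← map_mul]
      simp
    · intro u _
      rfl
  -- the sum over `S`
  let g : S → V := fun s => ρ s a
  have himg : (Finset.univ : Finset S).image g = O := by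
    ext u
    simp only [Finset.mem_image, Finset.mem_univ, true_and, O, g]
    constructor
    · rintro ⟨s, rfl⟩
      exact ⟨s, rfl⟩
    · rintro ⟨h, rfl⟩
      obtain ⟨s, hs, hsa⟩ := htr h
      exact ⟨⟨s, hs⟩, hsa⟩
  have hfib : ∀ u ∈ O, (Finset.univ.filter (fun s : S => g s = u)).card
      = (Finset.univ.filter (fun s : S => g s = a)).card := by
    intro u hu
    rw [← himg] at hu
    obtain ⟨s₀, -, rfl⟩ := Finset.mem_image.mp hu
    refine Finset.card_bij' (fun s _ => s₀⁻¹ * s) (fun s _ => s₀ * s) ?_ ?_ ?_ ?_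
    · intro s hs
      simp only [Finset.mem_filter, Finset.mem_univ, true_and, g] at hs ⊢
      rw [Subgroup.coe_mul, map_mul, Module.End.mul_apply, hs]
      rw [← Module.End.mul_apply, ← map_mul]
      simp
    · intro s hs
      simp only [Finset.mem_filter, Finset.mem_univ, true_and, g] at hs ⊢
      rw [Subgroup.coe_mul, map_mul, Module.End.mul_apply, hs]
    · intro s _
      simp
    · intro s _
      simp
  have hT : (∑ s : S, ρ s a) = (Finset.univ.filter (fun s : S => g s = a)).card • w0 := by
    have := Finset.sum_comp (s := (Finset.univ : Finset S)) (fun u : V => u) g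
    change (∑ s : S, g s) = _
    rw [this, himg, Finset.smul_sum]
    exact Finset.sum_congr rfl (fun u hu => by rw [hfib u hu])
  -- the projection
  let π : V →ₗ[k] V := (Nat.card S : k)⁻¹ • ∑ s : S, ρ s
  have hπ : ∀ v, π v = (Nat.card S : k)⁻¹ • ∑ s : S, ρ s v := by
    intro v
    simp [π, LinearMap.sum_apply]
  have hπa : ∀ h : H, ρ h (π a) = π a := by
    intro h
    rw [hπ, hT, map_smul, map_nsmul, hw0]
  have hπorb : ∀ h : H, π (ρ h a) = π a := by
    intro h
    obtain ⟨s, hs, hsa⟩ := htr h
    rw [← hsa, hπ, hπ]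
    congr 1
    refine Fintype.sum_equiv (Equiv.mulRight (⟨s, hs⟩ : S)) _ _ ?_
    intro t
    simp [map_mul]
  have hmem : ∀ v : V, π v ∈ Submodule.span k {π a} := by
    intro v
    have hv : v ∈ Submodule.span k {u : V | ∃ h : H, ρ h a = u} := by rw [hspan]; trivial
    induction hv using Submodule.span_induction with
    | mem x hx =>
      obtain ⟨h, rfl⟩ := hx
      rw [hπorb]
      exact Submodule.mem_span_singleton_self _
    | zero => simp
    | add x y _ _ hx hy => rw [map_add]; exact add_mem hx hy
    | smul c x _ hx => rw [map_smul]; exact Submodule.smul_mem _ _ hx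
  refine ⟨π a, hπa, ?_⟩
  intro v hv
  have hvπ : π v = v := by
    rw [hπ]
    have : ∑ s : S, ρ s v = ∑ _s : S, v := Finset.sum_congr rfl (fun s _ => hv s s.2)
    rw [this, Finset.sum_const, Finset.card_univ, ← Nat.card_eq_fintype_card, ← Nat.cast_smul_eq_nsmul k,
      smul_smul, inv_mul_cancel₀ hS, one_smul]
  obtain ⟨c, hc⟩ := Submodule.mem_span_singleton.mp (hmem v)
  exact ⟨c, by rw [← hvπ, ← hc]⟩

/-- Consequence: the fixed space has dimension at most one. -/
theorem finrank_le (ρ : Representation k H V) (a : V)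
    (hspan : Submodule.span k {u : V | ∃ h : H, ρ h a = u} = ⊤)
    (S : Subgroup H) (hS : (Nat.card S : k) ≠ 0)
    (htr : ∀ h : H, ∃ s ∈ S, ρ s a = ρ h a) :
    Module.finrank k ρ.invariants ≤ 1 := by
  obtain ⟨w, hw, hv⟩ := key ρ a hspan S hS htr
  refine finrank_le_one (⟨w, fun h => hw h⟩ : ρ.invariants) ?_
  rintro ⟨v, hv'⟩
  obtain ⟨c, hc⟩ := hv v (fun s _ => hv' s)
  exact ⟨c, Subtype.ext hc.symm⟩

/-- Consequence: every `S`-fixed vector is `H`-fixed. -/
theorem fixed_of_fixed (ρ : Representation k H V) (a : V)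
    (hspan : Submodule.span k {u : V | ∃ h : H, ρ h a = u} = ⊤)
    (S : Subgroup H) (hS : (Nat.card S : k) ≠ 0)
    (htr : ∀ h : H, ∃ s ∈ S, ρ s a = ρ h a) (b : V) (hb : ∀ s ∈ S, ρ s b = b) (h : H) :
    ρ h b = b := by
  obtain ⟨w, hw, hv⟩ := key ρ a hspan S hS htr
  obtain ⟨c, hc⟩ := hv b hb
  rw [hc, map_smul, hw]

/-- The multiplicative action attached to a representation. -/
@[instance_reducible] def actOf (ρ : Representation k H V) : MulAction H V where
  smul h v := ρ h v
  one_smul v := by change ρ 1 v = v; simp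
  mul_smul g h v := by change ρ (g * h) v = ρ g (ρ h v); simp [map_mul]

/-- The stabilizer of a vector as a subgroup. -/
def stab (ρ : Representation k H V) (b : V) : Subgroup H :=
  letI := actOf ρ
  MulAction.stabilizer H b

theorem mem_stab (ρ : Representation k H V) (b : V) (s : H) : s ∈ stab ρ b ↔ ρ s b = b := Iff.rfl

theorem index_stab (ρ : Representation k H V) (b : V) :
    (stab ρ b).index = Nat.card {u : V | ∃ h : H, ρ h b = u} := by
  letI := actOf ρ
  have := MulAction.index_stabilizer H b
  change (MulAction.stabilizer H b).index = _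
  rw [this]
  rfl

/-- Coprime orbit lengths: the stabilizer of `b` is transitive on the orbit of `a`. -/
theorem transitive_of_coprime (ρ : Representation k H V) (a b : V)
    (hcop : (Nat.card {u : V | ∃ h : H, ρ h a = u}).Coprime (Nat.card {u : V | ∃ h : H, ρ h b = u}))
    (h : H) : ∃ s ∈ stab ρ b, ρ s a = ρ h a := by
  classical
  rw [← index_stab, ← index_stab] at hcop
  set A := stab ρ a
  set B := stab ρ b
  haveI : A.FiniteIndex := Subgroup.finiteIndex_of_finite_quotient
  haveI : B.FiniteIndex := Subgroup.finiteIndex_of_finite_quotient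
  have h1 : A.relIndex B * B.index = (A ⊓ B).index := by
    have := Subgroup.relIndex_inf_mul_relIndex A B ⊤
    simpa using this
  have h2 : B.relIndex A * A.index = (A ⊓ B).index := by
    have := Subgroup.relIndex_inf_mul_relIndex B A ⊤
    rw [inf_comm B A] at this
    simpa using this
  have hd : A.index ∣ A.relIndex B := by
    have : A.index ∣ A.relIndex B * B.index := by rw [h1, ← h2]; exact dvd_mul_left _ _
    exact hcop.dvd_of_dvd_mul_right this
  -- counting: the map from `B`
  letI := actOf ρ
  let O : Set V := MulAction.orbit H a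
  -- the orbit of `a` under `B` has size `relIndex`
  have hB : (MulAction.stabilizer B a).index = Set.ncard (MulAction.orbit B a) :=
    MulAction.index_stabilizer B a
  have hst : MulAction.stabilizer B a = A.subgroupOf B := by
    ext s
    rfl
  have hcard : A.index ≤ Set.ncard (MulAction.orbit B a) := by
    rw [← hB, hst]
    exact Nat.le_of_dvd (Nat.pos_of_ne_zero (by
      intro h0
      have h0' : A.relIndex B = 0 := h0
      rw [h0', zero_mul] at h1
      exact Subgroup.index_ne_zero_of_finite h1.symm)) hd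
  have hsub : MulAction.orbit B a ⊆ O := by
    rintro _ ⟨s, rfl⟩
    exact ⟨s.1, rfl⟩
  have hOfin : O.Finite := Set.finite_range _
  have hidx : A.index = O.ncard := MulAction.index_stabilizer H a
  have heq : MulAction.orbit B a = O := by
    apply Set.eq_of_subset_of_ncard_le hsub _ hOfin
    rw [← hidx]
    exact hcard
  have : ρ h a ∈ MulAction.orbit B a := by
    rw [heq]
    exact ⟨h, rfl⟩
  obtain ⟨s, hs⟩ := this
  exact ⟨s.1, s.2, hs⟩

end Cfsg.Agent.Lib.H6OrbitSpan
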