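import Mathlib
import Cfsg.Agent.Lib.FitCore
import Cfsg.Prelude.Def_Local

/-!
# Elementwise form of the upper `p`-series
-/

set_option autoImplicit false
set_option linter.all false

namespace Cfsg.Agent.Lib.H6PLen

open Cfsg

variable {G : Type*} [Group G]

/-- Every element of `B` has order prime to `p` modulo `A`. -/
def CoStep (p : ℕ) (A B : Subgroup G) : Prop := ∀ x ∈ B, ∃ n : ℕ, n.Coprime p ∧ x ^ n ∈ A

/-- Every element of `B` has `p`-power order modulo `A`. -/
def PStep (p : ℕ) (A B : Subgroup G) : Prop := ∀ x ∈ B, ∃ m : ℕ, x ^ (p ^ m) ∈ A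

theorem CoStep.trans {p : ℕ} {A B C : Subgroup G} (h1 : CoStep p A B) (h2 : CoStep p B C) :
    CoStep p A C := by
  intro x hx
  obtain ⟨n, hn, hxn⟩ := h2 x hx
  obtain ⟨m, hm, hxm⟩ := h1 _ hxn
  refine ⟨n * m, Nat.Coprime.mul_left hn hm, ?_⟩
  rwa [pow_mul]

theorem CoStep.refl (p : ℕ) (A : Subgroup G) : CoStep p A A := fun x hx => ⟨1, by simp, by simpa using hx⟩

theorem PStep.costep {p q : ℕ} (hq : q.Prime) (hp : p.Prime) (hne : q ≠ p) {A B : Subgroup G}
    (h : PStep q A B) : CoStep p A B := by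
  intro x hx
  obtain ⟨m, hm⟩ := h x hx
  exact ⟨q ^ m, Nat.Coprime.pow_left _ ((Nat.coprime_primes hq hp).2 hne), hm⟩

theorem CoStep.map {H : Type*} [Group H] {p : ℕ} {A B : Subgroup G} (h : CoStep p A B) (f : G →* H) :
    CoStep p (A.map f) (B.map f) := by
  rintro _ ⟨x, hx, rfl⟩
  obtain ⟨n, hn, hxn⟩ := h x hx
  exact ⟨n, hn, ⟨x ^ n, hxn, by simp⟩⟩

theorem PStep.map {H : Type*} [Group H] {p : ℕ} {A B : Subgroup G} (h : PStep p A B) (f : G →* H) :
    PStep p (A.map f) (B.map f) := by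
  rintro _ ⟨x, hx, rfl⟩
  obtain ⟨n, hxn⟩ := h x hx
  exact ⟨n, ⟨x ^ (p ^ n), hxn, by simp⟩⟩

theorem CoStep.comap {H : Type*} [Group H] {p : ℕ} {A B : Subgroup G} (h : CoStep p A B) (f : H →* G) :
    CoStep p (A.comap f) (B.comap f) := by
  intro x hx
  obtain ⟨n, hn, hxn⟩ := h (f x) hx
  exact ⟨n, hn, by simpa using hxn⟩

theorem PStep.comap {H : Type*} [Group H] {p : ℕ} {A B : Subgroup G} (h : PStep p A B) (f : H →* G) :
    PStep p (A.comap f) (B.comap f) := by
  intro x hx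
  obtain ⟨n, hxn⟩ := h (f x) hx
  exact ⟨n, by simpa using hxn⟩

/-- A normal chain from `A` to `B` with `k` steps of `p`-type. -/
def Rel (p : ℕ) : ℕ → Subgroup G → Subgroup G → Prop
  | 0, A, B => B.Normal ∧ CoStep p A B
  | k + 1, A, B => ∃ C D : Subgroup G, C.Normal ∧ D.Normal ∧ CoStep p A C ∧ PStep p C D ∧ Rel p k D B

theorem Rel.trans {p : ℕ} {a : ℕ} : ∀ {b : ℕ} {X Y Z : Subgroup G}, Rel p a X Y → Rel p b Y Z →
    Rel p (a + b) X Z := by
  induction a with
  | zero =>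
    intro b X Y Z h1 h2
    rw [Nat.zero_add]
    cases b with
    | zero => exact ⟨h2.1, h1.2.trans h2.2⟩
    | succ b =>
      obtain ⟨C, D, hC, hD, h3, h4, h5⟩ := h2
      exact ⟨C, D, hC, hD, h1.2.trans h3, h4, h5⟩
  | succ a ih =>
    intro b X Y Z h1 h2
    obtain ⟨C, D, hC, hD, h3, h4, h5⟩ := h1
    have e : a + 1 + b = (a + b) + 1 := by omega
    rw [e]
    exact ⟨C, D, hC, hD, h3, h4, ih h5 h2⟩

theorem Rel.map {H : Type*} [Group H] {p : ℕ} {f : G →* H} (hf : Function.Surjective f) {k : ℕ} :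
    ∀ {A B : Subgroup G}, Rel p k A B → Rel p k (A.map f) (B.map f) := by
  induction k with
  | zero =>
    intro A B h
    exact ⟨h.1.map f hf, h.2.map f⟩
  | succ k ih =>
    intro A B h
    obtain ⟨C, D, hC, hD, h3, h4, h5⟩ := h
    exact ⟨C.map f, D.map f, hC.map f hf, hD.map f hf, h3.map f, h4.map f, ih h5⟩

theorem Rel.comap {H : Type*} [Group H] {p : ℕ} (f : H →* G) {k : ℕ} :
    ∀ {A B : Subgroup G}, Rel p k A B → Rel p k (A.comap f) (B.comap f) := by
  induction k with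
  | zero =>
    intro A B h
    exact ⟨h.1.comap f, h.2.comap f⟩
  | succ k ih =>
    intro A B h
    obtain ⟨C, D, hC, hD, h3, h4, h5⟩ := h
    exact ⟨C.comap f, D.comap f, hC.comap f, hD.comap f, h3.comap f, h4.comap f, ih h5⟩

theorem rel_one_of_pstep {p : ℕ} {A B : Subgroup G} (hA : A.Normal) (hB : B.Normal)
    (h : PStep p A B) : Rel p 1 A B :=
  ⟨A, B, hA, hB, CoStep.refl p A, h, hB, CoStep.refl p B⟩

variable [Finite G] {p : ℕ}

theorem le_pPrimeCore_of [hp : Fact p.Prime] {B : Subgroup G} (hB : B.Normal)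
    (h : ∀ x ∈ B, ∃ n : ℕ, n.Coprime p ∧ x ^ n = 1) : B ≤ pPrimeCore p G := by
  refine le_sSup ⟨hB, ?_⟩
  rw [Nat.coprime_comm, Nat.Prime.coprime_iff_not_dvd hp.out]
  intro hd
  obtain ⟨x, hx⟩ := exists_prime_orderOf_dvd_card' (G := B) p hd
  obtain ⟨n, hn, hxn⟩ := h x x.2
  have h1 : orderOf x ∣ n := orderOf_dvd_of_pow_eq_one (Subtype.ext (by simpa using hxn))
  rw [hx] at h1
  exact (Nat.Prime.coprime_iff_not_dvd hp.out).1 hn.symm h1

theorem le_pCore_of {B : Subgroup G} (hB : B.Normal)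
    (h : ∀ x ∈ B, ∃ m : ℕ, x ^ (p ^ m) = 1) : B ≤ pCore p G := by
  refine le_sSup ⟨hB, ?_⟩
  intro x
  obtain ⟨m, hm⟩ := h x x.2
  exact ⟨m, Subtype.ext (by simpa using hm)⟩

theorem exists_pow_of_mem_pPrimeCore [hp : Fact p.Prime] {x : G} (hx : x ∈ pPrimeCore p G) :
    ∃ n : ℕ, n.Coprime p ∧ x ^ n = 1 := by
  refine ⟨Nat.card (pPrimeCore p G), ?_, ?_⟩
  · rw [Nat.coprime_comm, Nat.Prime.coprime_iff_not_dvd hp.out]
    exact Cfsg.Agent.Lib.FitCore.not_dvd_card_pPrimeCore p hp.out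
  · have h2 : ((⟨x, hx⟩ : pPrimeCore p G)) ^ Nat.card (pPrimeCore p G) = 1 := pow_card_eq_one'
    exact congrArg Subtype.val h2

theorem exists_pow_of_mem_pCore [hp : Fact p.Prime] {x : G} (hx : x ∈ pCore p G) :
    ∃ m : ℕ, x ^ (p ^ m) = 1 := by
  obtain ⟨m, hm⟩ := Cfsg.Agent.Lib.FitCore.pCore_isPGroup (G := G) p ⟨x, hx⟩
  exact ⟨m, by simpa using congrArg Subtype.val hm⟩

theorem upper_zero (p : ℕ) (G : Type*) [Group G] : (upperPSeries p G 0).1 = ⊥ := rfl

omit [Finite G] in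
theorem upper_even (p : ℕ) (n : ℕ) (h : Even n) :
    (upperPSeries p G (n + 1)).1 =
      (pPrimeCore p (G ⧸ (upperPSeries p G n).1)).comap (QuotientGroup.mk' _) := by
  conv_lhs => unfold upperPSeries
  simp [h]

omit [Finite G] in
theorem upper_odd (p : ℕ) (n : ℕ) (h : ¬ Even n) :
    (upperPSeries p G (n + 1)).1 =
      (pCore p (G ⧸ (upperPSeries p G n).1)).comap (QuotientGroup.mk' _) := by
  conv_lhs => unfold upperPSeries
  simp [h]

omit [Finite G] in
theorem upper_le_succ (p : ℕ) (j : ℕ) : (upperPSeries p G j).1 ≤ (upperPSeries p G (j + 1)).1 := by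
  intro x hx
  by_cases hj : Even j
  · rw [upper_even p j hj]
    have h1 : QuotientGroup.mk' (upperPSeries p G j).1 x = 1 := (QuotientGroup.eq_one_iff x).2 hx
    rw [Subgroup.mem_comap, h1]; exact Subgroup.one_mem _
  · rw [upper_odd p j hj]
    have h1 : QuotientGroup.mk' (upperPSeries p G j).1 x = 1 := (QuotientGroup.eq_one_iff x).2 hx
    rw [Subgroup.mem_comap, h1]; exact Subgroup.one_mem _

theorem costep_upper [hp : Fact p.Prime] {i : ℕ} (hi : Even i) :
    CoStep p (upperPSeries p G i).1 (upperPSeries p G (i + 1)).1 := by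
  intro x hx
  rw [upper_even p i hi] at hx
  obtain ⟨n, hn, h1⟩ := exists_pow_of_mem_pPrimeCore (p := p) hx
  refine ⟨n, hn, (QuotientGroup.eq_one_iff _).1 ?_⟩
  simpa using h1

theorem pstep_upper [hp : Fact p.Prime] {i : ℕ} (hi : ¬ Even i) :
    PStep p (upperPSeries p G i).1 (upperPSeries p G (i + 1)).1 := by
  intro x hx
  rw [upper_odd p i hi] at hx
  obtain ⟨n, h1⟩ := exists_pow_of_mem_pCore (p := p) hx
  refine ⟨n, (QuotientGroup.eq_one_iff _).1 ?_⟩
  simpa using h1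

theorem le_upper_of_costep [hp : Fact p.Prime] {i : ℕ} (hi : Even i) {A B : Subgroup G}
    (hA : A ≤ (upperPSeries p G i).1) (hB : B.Normal) (h : CoStep p A B) :
    B ≤ (upperPSeries p G (i + 1)).1 := by
  rw [upper_even p i hi]
  intro x hx
  refine le_pPrimeCore_of (B := B.map (QuotientGroup.mk' (upperPSeries p G i).1))
    (hB.map _ (QuotientGroup.mk'_surjective _)) ?_ ⟨x, hx, rfl⟩
  rintro _ ⟨y, hy, rfl⟩
  obtain ⟨n, hn, hyn⟩ := h y hy
  refine ⟨n, hn, ?_⟩
  rw [← map_pow]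
  exact (QuotientGroup.eq_one_iff _).2 (hA hyn)

theorem le_upper_of_pstep [hp : Fact p.Prime] {i : ℕ} (hi : ¬ Even i) {A B : Subgroup G}
    (hA : A ≤ (upperPSeries p G i).1) (hB : B.Normal) (h : PStep p A B) :
    B ≤ (upperPSeries p G (i + 1)).1 := by
  rw [upper_odd p i hi]
  intro x hx
  refine le_pCore_of (B := B.map (QuotientGroup.mk' (upperPSeries p G i).1))
    (hB.map _ (QuotientGroup.mk'_surjective _)) ?_ ⟨x, hx, rfl⟩
  rintro _ ⟨y, hy, rfl⟩
  obtain ⟨n, hyn⟩ := h y hy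
  refine ⟨n, ?_⟩
  rw [← map_pow]
  exact (QuotientGroup.eq_one_iff _).2 (hA hyn)

theorem Rel.le_upper [hp : Fact p.Prime] {k : ℕ} : ∀ {A B : Subgroup G}, Rel p k A B →
    ∀ i, Even i → A ≤ (upperPSeries p G i).1 → B ≤ (upperPSeries p G (i + 2 * k + 1)).1 := by
  induction k with
  | zero =>
    intro A B h i hi hA
    exact le_upper_of_costep hi hA h.1 h.2
  | succ k ih =>
    intro A B h i hi hA
    obtain ⟨C, D, hC, hD, h3, h4, h5⟩ := h
    have h1 := le_upper_of_costep hi hA hC h3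
    have hi' : ¬ Even (i + 1) := by
      rw [Nat.even_add_one]; simpa using hi
    have h2 := le_upper_of_pstep hi' h1 hD h4
    have hi2 : Even (i + 1 + 1) := by
      rw [Nat.even_add_one]; simpa using hi'
    have := ih h5 (i + 1 + 1) hi2 h2
    have e : i + 2 * (k + 1) + 1 = i + 1 + 1 + 2 * k + 1 := by ring
    rw [e]; exact this

theorem upper_rel [hp : Fact p.Prime] (k : ℕ) : ∀ i, Even i →
    Rel p k (upperPSeries p G i).1 (upperPSeries p G (i + 2 * k + 1)).1 := by
  induction k with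
  | zero =>
    intro i hi
    exact ⟨inferInstance, costep_upper hi⟩
  | succ k ih =>
    intro i hi
    have hi' : ¬ Even (i + 1) := by
      rw [Nat.even_add_one]; simpa using hi
    have hi2 : Even (i + 1 + 1) := by
      rw [Nat.even_add_one]; simpa using hi'
    have e : i + 2 * (k + 1) + 1 = i + 1 + 1 + 2 * k + 1 := by ring
    rw [e]
    exact ⟨_, _, inferInstance, inferInstance, costep_upper hi, pstep_upper hi', ih _ hi2⟩

theorem rel_of_plength [hp : Fact p.Prime] {k : ℕ} (h : PLengthLE p k G) : Rel p k (⊥ : Subgroup G) ⊤ := by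
  have := upper_rel (p := p) (G := G) k 0 (by simp)
  rw [Nat.zero_add, h] at this
  exact this

theorem plength_of_rel [hp : Fact p.Prime] {k : ℕ} (h : Rel p k (⊥ : Subgroup G) ⊤) :
    PLengthLE p k G := by
  have := h.le_upper 0 (by simp) bot_le
  rw [Nat.zero_add] at this
  exact top_le_iff.1 this

theorem PLengthLE.map {H : Type*} [Group H] [Finite H] [hp : Fact p.Prime] {k : ℕ}
    (h : PLengthLE p k G) {f : G →* H} (hf : Function.Surjective f) : PLengthLE p k H := by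
  have := (rel_of_plength h).map hf
  rw [Subgroup.map_bot, Subgroup.map_top_of_surjective _ hf] at this
  exact plength_of_rel this

theorem PLengthLE.comap {H : Type*} [Group H] [Finite H] [hp : Fact p.Prime] {k : ℕ}
    (h : PLengthLE p k G) {f : H →* G} (hf : Function.Injective f) : PLengthLE p k H := by
  have := (rel_of_plength h).comap f
  rw [Subgroup.comap_top, (MonoidHom.ker_eq_bot_iff f).2 hf |> fun e => (show (⊥ : Subgroup G).comap f = ⊥ from e)] at this
  exact plength_of_rel this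

/-- Passing to the quotient by `O_{p',p}`. -/
theorem plength_succ_quot [hp : Fact p.Prime] {k : ℕ} (h : PLengthLE p (k + 1) G) :
    PLengthLE p k (G ⧸ (upperPSeries p G 2).1) := by
  have h1 := upper_rel (p := p) (G := G) k 2 (by simp)
  have e : 2 + 2 * k + 1 = 2 * (k + 1) + 1 := by ring
  rw [e, h] at h1
  have h2 := h1.map (QuotientGroup.mk'_surjective (upperPSeries p G 2).1)
  rw [Subgroup.map_top_of_surjective _ (QuotientGroup.mk'_surjective _)] at h2
  have e2 : (upperPSeries p G 2).1.map (QuotientGroup.mk' (upperPSeries p G 2).1) = ⊥ := by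
    rw [Subgroup.map_eq_bot_iff, QuotientGroup.ker_mk']
  rw [e2] at h2
  exact plength_of_rel h2

end Cfsg.Agent.Lib.H6PLen
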