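import Mathlib
import Cfsg.Agent.Lib.FitCore
import Cfsg.Agent.Lib.H6PLen
import Cfsg.Agent.Lib.CoprimeSylow
import Cfsg.Agent.Lib.CoprimeGen
import Cfsg.Agent.Lib.H6Regular

/-!
# Tools for the bound on the `p`-length in terms of the exponent
-/

set_option autoImplicit false
set_option linter.all false

namespace Cfsg.Agent.Lib.H6PExp

open Cfsg Cfsg.Agent.Lib.H6PLen

section Central

variable {G : Type*} [Group G] [Finite G] {p : ℕ} [hp : Fact p.Prime]

theorem pow_relIndex_mem {N M : Subgroup G} [hN : N.Normal] {x : G} (hx : x ∈ M) :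
    x ^ (N.relIndex M) ∈ N := by
  have h1 := Subgroup.pow_index_mem (N.subgroupOf M) (⟨x, hx⟩ : M)
  have h2 : (⟨x, hx⟩ : M) ^ (N.subgroupOf M).index ∈ N.subgroupOf M := h1
  rw [Subgroup.mem_subgroupOf] at h2
  simpa [Subgroup.relIndex] using h2

/-- In a `p`-soluble group with `O_p(G) = 1`, `C_G(O_{p'}(G)) ≤ O_{p'}(G)`. -/
theorem centralizer_pPrimeCore_le (hs : IsPSolvable p G) (h : pCore p G = ⊥) :
    Subgroup.centralizer (pPrimeCore p G : Set G) ≤ pPrimeCore p G := by
  classical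
  obtain ⟨n, H, h0, hl, hmono, hnorm, hc⟩ := hs
  set K := pPrimeCore p G with hK
  haveI hKn : K.Normal := inferInstance
  set C := Subgroup.centralizer (K : Set G) with hC
  haveI hCn : C.Normal := Subgroup.normal_centralizer
  have key : ∀ i : Fin (n + 1), C ⊓ H i ≤ K := by
    intro i
    induction i using Fin.induction with
    | zero =>
      rw [h0]
      simp
    | succ i ih =>
      haveI h1n : (H i.castSucc).Normal := hnorm _
      haveI h2n : (H i.succ).Normal := hnorm _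
      set L := C ⊓ H i.succ with hL
      haveI hLn : L.Normal := Subgroup.normal_inf_normal _ _
      rcases hc i with ⟨m, hm⟩ | hcop
      · -- a central extension of a `p`-group
        let A : Subgroup L := K.subgroupOf L
        haveI hAn : A.Normal := inferInstance
        have hQ : IsPGroup p (L ⧸ A) := by
          intro y
          obtain ⟨x, rfl⟩ := QuotientGroup.mk_surjective y
          refine ⟨m, ?_⟩
          rw [← QuotientGroup.mk_pow]
          apply (QuotientGroup.eq_one_iff _).2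
          rw [Subgroup.mem_subgroupOf]
          apply ih
          have h3 := pow_relIndex_mem (N := H i.castSucc) (M := H i.succ) x.2.2
          rw [hm] at h3
          exact ⟨Subgroup.pow_mem _ x.2.1 _, by simpa using h3⟩
        haveI : Group.IsNilpotent (L ⧸ A) := hQ.isNilpotent
        have hcen : (QuotientGroup.mk' A).ker ≤ Subgroup.center L := by
          rw [QuotientGroup.ker_mk']
          intro a ha
          rw [Subgroup.mem_center_iff]
          intro g
          apply Subtype.ext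
          have h1 : (g : G) ∈ C := g.2.1
          have h2 : (a : G) ∈ K := ha
          exact (Subgroup.mem_centralizer_iff.1 h1 _ h2).symm
        have hnil : Group.IsNilpotent L := Subgroup.isNilpotent_of_ker_le_center (QuotientGroup.mk' A) hcen
        have hnd := Cfsg.Agent.Lib.FitCore.relIndex_pCore_not_dvd_of_nilpotent p L hLn hnil
        rw [h] at hnd
        have hcard : ¬ p ∣ Nat.card L := by
          simpa [Subgroup.relIndex, Subgroup.index_bot] using hnd
        refine le_sSup ⟨hLn, ?_⟩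
        rw [Nat.coprime_comm]
        exact (Nat.Prime.coprime_iff_not_dvd hp.out).2 hcard
      · -- a `p'`-extension
        apply le_pPrimeCore_of hLn
        intro x hx
        have h3 := pow_relIndex_mem (N := H i.castSucc) (M := H i.succ) hx.2
        have h4 : x ^ ((H i.castSucc).relIndex (H i.succ)) ∈ K :=
          ih ⟨Subgroup.pow_mem _ hx.1 _, h3⟩
        obtain ⟨m, hm, hxm⟩ := exists_pow_of_mem_pPrimeCore (p := p) h4
        refine ⟨_ * m, Nat.Coprime.mul_left hcop hm, ?_⟩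
        rwa [pow_mul]
  intro x hx
  apply key (Fin.last n)
  rw [hl]
  exact ⟨hx, Subgroup.mem_top _⟩

end Central

section Key

/-- The averaging trick: if the norm of `x` vanishes and `x` acts semiregularly on the commutative
subgroup `A`, then the sum over `A` is the order of `A`. -/
theorem key_sum {Γ R : Type*} [Group Γ] [Ring R] (ρ : Γ →* R) (A : Subgroup Γ) [Fintype A]
    (hcomm : ∀ a ∈ A, ∀ b ∈ A, a * b = b * a) (x : Γ) (hxA : ∀ a ∈ A, x * a * x⁻¹ ∈ A) (k : ℕ)
    (hsemi : ∀ i, 0 < i → i < k + 1 → ∀ a ∈ A, x ^ i * a * (x ^ i)⁻¹ = a → a = 1)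
    (hN : ∑ i ∈ Finset.range (k + 1), ρ x ^ i = 0) :
    ∑ a : A, ρ a = (Fintype.card A : R) := by
  classical
  have hxi : ∀ i, ∀ a ∈ A, x ^ i * a * (x ^ i)⁻¹ ∈ A := by
    intro i
    induction i with
    | zero => intro a ha; simpa using ha
    | succ i ih =>
      intro a ha
      have := hxA _ (ih a ha)
      have e : x ^ (i + 1) * a * (x ^ (i + 1))⁻¹ = x * (x ^ i * a * (x ^ i)⁻¹) * x⁻¹ := by
        rw [pow_succ']; group
      rw [e]; exact this
  set π : R := ∑ a : A, ρ a with hπ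
  have h0 : ∑ a : A, (ρ (a : Γ) * (∑ i ∈ Finset.range (k + 1), ρ x ^ i) * ρ ((a : Γ)⁻¹)) = 0 := by
    simp [hN]
  have hT : ∀ i, 0 < i → i < k + 1 →
      ∑ a : A, (ρ (a : Γ) * ρ x ^ i * ρ ((a : Γ)⁻¹)) = π * ρ x ^ i := by
    intro i hi hik
    let φ : A → A := fun a => ⟨(a : Γ) * (x ^ i * (a : Γ)⁻¹ * (x ^ i)⁻¹), A.mul_mem a.2 (hxi i _ (A.inv_mem a.2))⟩
    have hφ : Function.Injective φ := by
      intro a b hab
      have h1 : (a : Γ) * (x ^ i * (a : Γ)⁻¹ * (x ^ i)⁻¹) = (b : Γ) * (x ^ i * (b : Γ)⁻¹ * (x ^ i)⁻¹) :=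
        congrArg Subtype.val hab
      have hc : (b : Γ)⁻¹ * a ∈ A := A.mul_mem (A.inv_mem b.2) a.2
      have h2 : x ^ i * ((b : Γ)⁻¹ * a) * (x ^ i)⁻¹ = (b : Γ)⁻¹ * a := by
        have ha' := hxi i _ a.2
        have hb' := hxi i _ b.2
        have h3 : x ^ i * (a : Γ)⁻¹ * (x ^ i)⁻¹ = (x ^ i * (a : Γ) * (x ^ i)⁻¹)⁻¹ := by group
        have h4 : x ^ i * (b : Γ)⁻¹ * (x ^ i)⁻¹ = (x ^ i * (b : Γ) * (x ^ i)⁻¹)⁻¹ := by group
        rw [h3, h4] at h1
        set a' := x ^ i * (a : Γ) * (x ^ i)⁻¹ with ha'd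
        set b' := x ^ i * (b : Γ) * (x ^ i)⁻¹ with hb'd
        have e : x ^ i * ((b : Γ)⁻¹ * a) * (x ^ i)⁻¹ = b'⁻¹ * a' := by
          rw [ha'd, hb'd]; group
        rw [e]
        have h5 : (b : Γ)⁻¹ * a = b'⁻¹ * a' := by
          have h6 : (a : Γ) = b * b'⁻¹ * a' := by
            have : (a : Γ) * a'⁻¹ * a' = (b : Γ) * b'⁻¹ * a' := by rw [h1]
            simpa using this
          rw [h6]
          have hc1 := hcomm (b : Γ) b.2 _ (A.inv_mem hb')
          group
        exact h5.symm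
      have h7 := hsemi i hi hik _ hc h2
      apply Subtype.ext
      have h8 : (a : Γ) = b := by
        have := inv_mul_eq_one.1 h7
        exact this.symm
      exact h8
    have hφb : Function.Bijective φ := Finite.injective_iff_bijective.1 hφ
    have h1 : ∀ a : A, ρ (a : Γ) * ρ x ^ i * ρ ((a : Γ)⁻¹) = ρ (φ a : Γ) * ρ x ^ i := by
      intro a
      rw [← map_pow, ← map_mul, ← map_mul, ← map_mul]
      congr 1
      show (a : Γ) * x ^ i * (a : Γ)⁻¹ = (a : Γ) * (x ^ i * (a : Γ)⁻¹ * (x ^ i)⁻¹) * x ^ i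
      group
    rw [Finset.sum_congr rfl (fun a _ => h1 a), ← Finset.sum_mul]
    congr 1
    exact (Equiv.ofBijective φ hφb).sum_comp (fun a : A => ρ (a : Γ))
  have hT0 : ∑ a : A, (ρ (a : Γ) * ρ x ^ 0 * ρ ((a : Γ)⁻¹)) = (Fintype.card A : R) := by
    have : ∀ a : A, ρ (a : Γ) * ρ x ^ 0 * ρ ((a : Γ)⁻¹) = 1 := by
      intro a
      rw [pow_zero, mul_one, ← map_mul, mul_inv_cancel, map_one]
    rw [Finset.sum_congr rfl (fun a _ => this a)]
    simp
  have h1 : ∑ a : A, (ρ (a : Γ) * (∑ i ∈ Finset.range (k + 1), ρ x ^ i) * ρ ((a : Γ)⁻¹)) =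
      ∑ i ∈ Finset.range (k + 1), ∑ a : A, (ρ (a : Γ) * ρ x ^ i * ρ ((a : Γ)⁻¹)) := by
    rw [Finset.sum_comm]
    refine Finset.sum_congr rfl (fun a _ => ?_)
    rw [Finset.mul_sum, Finset.sum_mul]
  rw [h1, Finset.sum_range_succ', hT0] at h0
  have h2 : ∑ i ∈ Finset.range k, ∑ a : A, (ρ (a : Γ) * ρ x ^ (i + 1) * ρ ((a : Γ)⁻¹)) =
      π * ∑ i ∈ Finset.range k, ρ x ^ (i + 1) := by
    rw [Finset.mul_sum]
    refine Finset.sum_congr rfl (fun i hi => ?_)
    exact hT (i + 1) (Nat.succ_pos _) (by have := Finset.mem_range.1 hi; omega)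
  rw [h2] at h0
  have h3 : ∑ i ∈ Finset.range k, ρ x ^ (i + 1) = -1 := by
    rw [Finset.sum_range_succ'] at hN
    rw [pow_zero] at hN
    exact eq_neg_of_add_eq_zero_left hN
  rw [h3, mul_neg, mul_one] at h0
  have h4 : π = (Fintype.card A : R) := by
    have := neg_add_eq_zero.1 h0
    exact this
  exact h4

end Key

section Act

variable {G : Type*} [Group G] (T : Subgroup G) [hT : T.Normal]

/-- The abelianization of `T`, written additively. -/
abbrev W : Type _ := Additive (Abelianization T)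

/-- The generator form of an element of `W`. -/
def wOf (t : T) : W T := Additive.ofMul (Abelianization.of t)

theorem wOf_mul (s t : T) : wOf T (s * t) = wOf T s + wOf T t := by
  simp [wOf]

theorem wOf_one : wOf T 1 = 0 := by
  simp [wOf]

theorem wOf_surj (w : W T) : ∃ t : T, w = wOf T t := by
  obtain ⟨t, ht⟩ := QuotientGroup.mk_surjective (Additive.toMul w)
  exact ⟨t, ht.symm⟩

theorem wOf_eq_zero_iff (t : T) : wOf T t = 0 ↔ t ∈ commutator T := by
  rw [← Abelianization.ker_of, MonoidHom.mem_ker]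
  rfl

/-- The action of one element on `W T`. -/
noncomputable def rhoFun (g : G) : AddMonoid.End (W T) :=
  MonoidHom.toAdditive (Abelianization.map ((MulAut.conjNormal g : MulAut T) : T →* T))

theorem rhoFun_wOf (g : G) (t : T) : rhoFun T g (wOf T t) = wOf T (MulAut.conjNormal g t) := rfl

/-- The action of `G` on `W T`. -/
noncomputable def rho : G →* AddMonoid.End (W T) where
  toFun g := rhoFun T g
  map_one' := by
    apply AddMonoidHom.ext
    intro w
    obtain ⟨t, rfl⟩ := wOf_surj T w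
    show rhoFun T 1 (wOf T t) = wOf T t
    rw [rhoFun_wOf, map_one]
    rfl
  map_mul' g h := by
    apply AddMonoidHom.ext
    intro w
    obtain ⟨t, rfl⟩ := wOf_surj T w
    show rhoFun T (g * h) (wOf T t) = rhoFun T g (rhoFun T h (wOf T t))
    rw [rhoFun_wOf, rhoFun_wOf, rhoFun_wOf, map_mul]
    rfl

theorem rho_wOf (g : G) (t : T) : rho T g (wOf T t) = wOf T (MulAut.conjNormal g t) := rfl

theorem rho_of_mem {t₀ : G} (ht₀ : t₀ ∈ T) : rho T t₀ = 1 := by
  apply AddMonoidHom.ext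
  intro w
  obtain ⟨t, rfl⟩ := wOf_surj T w
  show rho T t₀ (wOf T t) = wOf T t
  rw [rho_wOf]
  have e : MulAut.conjNormal t₀ t = (⟨t₀, ht₀⟩ : T) * t * (⟨t₀, ht₀⟩ : T)⁻¹ := by
    apply Subtype.ext
    simp [MulAut.conjNormal_apply]
  rw [e, wOf_mul, wOf_mul]
  have h1 : wOf T ((⟨t₀, ht₀⟩ : T)⁻¹) = - wOf T (⟨t₀, ht₀⟩ : T) := by
    simp [wOf]
  rw [h1]
  abel

/-- The norm of `x` on `W T`. -/
theorem norm_formula (x : G) (v : T) (k : ℕ) :
    ∃ u : T, (u : G) = ((v : G) * x) ^ k * (x ^ k)⁻¹ ∧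
      wOf T u = (∑ i ∈ Finset.range k, rho T x ^ i) (wOf T v) := by
  induction k with
  | zero =>
    refine ⟨1, by simp, ?_⟩
    simp [wOf_one]
  | succ k ih =>
    obtain ⟨u, hu1, hu2⟩ := ih
    refine ⟨v * MulAut.conjNormal x u, ?_, ?_⟩
    · rw [Subgroup.coe_mul, MulAut.conjNormal_apply, hu1, pow_succ', pow_succ' x k]
      group
    · have hs : ∀ (f g : AddMonoid.End (W T)) (w : W T), (f + g) w = f w + g w := fun _ _ _ => rfl
      have hsum : ∀ (s : Finset ℕ) (F : ℕ → AddMonoid.End (W T)) (w : W T),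
          (∑ i ∈ s, F i) w = ∑ i ∈ s, F i w := fun s F w => AddMonoidHom.finset_sum_apply F s w
      rw [wOf_mul, ← rho_wOf, hu2, Finset.sum_range_succ', hs, hsum, hsum, map_sum, add_comm]
      congr 1
      refine Finset.sum_congr rfl (fun i _ => ?_)
      rw [pow_succ']
      rfl

theorem norm_eq_zero (x : G) (k : ℕ) (hx : x ^ k = 1) (hv : ∀ v ∈ T, (v * x) ^ k = 1) :
    ∑ i ∈ Finset.range k, rho T x ^ i = 0 := by
  apply AddMonoidHom.ext
  intro w
  obtain ⟨v, rfl⟩ := wOf_surj T w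
  obtain ⟨u, hu1, hu2⟩ := norm_formula T x v k
  show (∑ i ∈ Finset.range k, rho T x ^ i) (wOf T v) = 0
  rw [← hu2]
  have : u = 1 := by
    apply Subtype.ext
    rw [hu1, hv v v.2, hx]
    simp
  rw [this, wOf_one]

variable [Finite G] {p : ℕ} [hp : Fact p.Prime]

/-- Scalars prime to `p` are injective on `W T`. -/
theorem smul_injective (hTp : IsPGroup p T) {m : ℕ} (hm : m.Coprime p) (w : W T) (hw : m • w = 0) :
    w = 0 := by
  obtain ⟨t, rfl⟩ := wOf_surj T w
  obtain ⟨k, hk⟩ := hTp t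
  have h1 : (Abelianization.of t) ^ m = 1 := hw
  have h2 : (Abelianization.of t) ^ (p ^ k) = 1 := by
    rw [← map_pow, hk, map_one]
  have h3 : orderOf (Abelianization.of t) ∣ Nat.gcd m (p ^ k) :=
    Nat.dvd_gcd (orderOf_dvd_of_pow_eq_one h1) (orderOf_dvd_of_pow_eq_one h2)
  have h4 : Nat.gcd m (p ^ k) = 1 := Nat.Coprime.pow_right _ hm
  rw [h4, Nat.dvd_one, orderOf_eq_one_iff] at h3
  exact h3

/-- The Burnside lemma: a `q`-element acting trivially on `T/T'` centralizes the `p`-group `T`. -/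
theorem burnside_of {q : ℕ} [hq : Fact q.Prime] (hne : q ≠ p) (hTp : IsPGroup p T) (g : G) {i : ℕ}
    (hg : g ^ (q ^ i) = 1) (h : rho T g = 1) : ∀ t ∈ T, g * t = t * g := by
  classical
  have hBq : IsPGroup q (Subgroup.zpowers g) := by
    intro b
    obtain ⟨b, j, rfl⟩ := b
    refine ⟨i, Subtype.ext ?_⟩
    show (g ^ j) ^ (q ^ i) = 1
    rw [← zpow_natCast, ← zpow_mul, mul_comm, zpow_mul, zpow_natCast, hg, one_zpow]
  let N : Subgroup G := (commutator T).map T.subtype
  have hNn : N.Normal := Cfsg.Agent.Lib.FitCore.map_subtype_normal_of_char T _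
  have hNT : N ≤ T := by
    rintro _ ⟨n, _, rfl⟩
    exact n.2
  have hNc : ¬ q ∣ Nat.card N := by
    intro hd
    have hNp : IsPGroup p N := hTp.to_le hNT
    obtain ⟨k, hk⟩ := IsPGroup.iff_card.1 hNp
    rw [hk] at hd
    exact hne ((Nat.prime_dvd_prime_iff_eq hq.out hp.out).1 (hq.out.dvd_of_dvd_pow hd))
  have hfix : ∀ t : T, ∃ n ∈ N, (t : G) * n ∈ Subgroup.centralizer ({g} : Set G) := by
    intro t
    have hact : ∀ b ∈ Subgroup.zpowers g, (t : G)⁻¹ * (b * t * b⁻¹) ∈ N := by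
      intro b hb
      obtain ⟨j, rfl⟩ : ∃ m : ℕ, g ^ m = b := (mem_powers_iff_mem_zpowers (x := g) (y := b)).2 hb
      have h1 : rho T (g ^ j) = 1 := by
        rw [map_pow, h, one_pow]
      have h2 : wOf T (MulAut.conjNormal (g ^ j) t) = wOf T t := by
        have := congrArg (fun f => f (wOf T t)) h1
        exact this
      have h3 : wOf T (t⁻¹ * MulAut.conjNormal (g ^ j) t) = 0 := by
        rw [wOf_mul]
        have h4 : wOf T (t⁻¹) = - wOf T t := by simp [wOf]
        rw [h4, h2]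
        simp
      rw [wOf_eq_zero_iff] at h3
      refine ⟨_, h3, ?_⟩
      show ((t⁻¹ * MulAut.conjNormal (g ^ j) t : T) : G) = _
      rw [Subgroup.coe_mul, MulAut.conjNormal_apply, Subgroup.coe_inv]
    obtain ⟨n, hn, hb⟩ := Cfsg.Agent.Lib.CoprimeGen.exists_mul_mem_centralizer hBq hNc
      (fun b _ n hn => hNn.conj_mem n hn b) hact
    refine ⟨n, hn, ?_⟩
    rw [Subgroup.mem_centralizer_singleton_iff]
    have := hb g (Subgroup.mem_zpowers g)
    rw [mul_inv_eq_iff_eq_mul] at this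
    exact this.symm
  let H : Subgroup T := (Subgroup.centralizer ({g} : Set G)).subgroupOf T
  have hsup : H ⊔ frattini T = ⊤ := by
    rw [eq_top_iff]
    intro t _
    obtain ⟨n, hn, hc⟩ := hfix t
    obtain ⟨n', hn', rfl⟩ := hn
    have h1 : t * n' ∈ H := by
      rw [Subgroup.mem_subgroupOf]
      simpa using hc
    have h2 : n' ∈ frattini T := Cfsg.Agent.Lib.H6Regular.commutator_le_frattini hTp hn'
    have e : t = (t * n') * n'⁻¹ := by group
    rw [e]
    exact Subgroup.mul_mem _ (Subgroup.mem_sup_left h1) (Subgroup.mem_sup_right (Subgroup.inv_mem _ h2))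
  have hH : H = ⊤ := frattini_nongenerating hsup
  intro t ht
  have h1 : (⟨t, ht⟩ : T) ∈ H := by rw [hH]; trivial
  rw [Subgroup.mem_subgroupOf, Subgroup.mem_centralizer_singleton_iff] at h1
  exact h1.symm

end Act

end Cfsg.Agent.Lib.H6PExp
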