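import Mathlib
import Cfsg.Agent.Lib.H6PExp
import Cfsg.Agent.Lib.H6Cover

/-!
# Semiregular actions, norms and lifting Frobenius complements
-/

set_option autoImplicit false
set_option linter.all false

namespace Cfsg.Agent.Lib.H6PExp2

open Cfsg Cfsg.Agent.Lib.H6PLen Cfsg.Agent.Lib.H6PExp

/-- The averaging trick, without commutativity. -/
theorem key_sum' {Γ R : Type*} [Group Γ] [Ring R] (ρ : Γ →* R) (A : Subgroup Γ) [Fintype A]
    (x : Γ) (hxA : ∀ a ∈ A, x * a * x⁻¹ ∈ A) (k : ℕ)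
    (hsemi : ∀ i, 0 < i → i < k + 1 → ∀ a ∈ A, x ^ i * a * (x ^ i)⁻¹ = a → a = 1)
    (hN : ∑ i ∈ Finset.range (k + 1), ρ x ^ i = 0) :
    ∑ a : A, ρ a = (Fintype.card A : R) := by
  classical
  have hxi : ∀ i, ∀ a ∈ A, x ^ i * a * (x ^ i)⁻¹ ∈ A := by
    intro i
    induction i with
    | zero => intro a ha; simpa using ha
    | succ i ih =>
      intro a ha
      have := hxA _ (ih a ha)
      have e : x ^ (i + 1) * a * (x ^ (i + 1))⁻¹ = x * (x ^ i * a * (x ^ i)⁻¹) * x⁻¹ := by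
        rw [pow_succ']; group
      rw [e]; exact this
  set π : R := ∑ a : A, ρ a with hπ
  have h0 : ∑ a : A, (ρ (a : Γ) * (∑ i ∈ Finset.range (k + 1), ρ x ^ i) * ρ ((a : Γ)⁻¹)) = 0 := by
    simp [hN]
  have hT : ∀ i, 0 < i → i < k + 1 →
      ∑ a : A, (ρ (a : Γ) * ρ x ^ i * ρ ((a : Γ)⁻¹)) = π * ρ x ^ i := by
    intro i hi hik
    let φ : A → A := fun a => ⟨(a : Γ) * (x ^ i * (a : Γ)⁻¹ * (x ^ i)⁻¹), A.mul_mem a.2 (hxi i _ (A.inv_mem a.2))⟩
    have hφ : Function.Injective φ := by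
      intro a b hab
      have h1 : (a : Γ) * (x ^ i * (a : Γ)⁻¹ * (x ^ i)⁻¹) = (b : Γ) * (x ^ i * (b : Γ)⁻¹ * (x ^ i)⁻¹) :=
        congrArg Subtype.val hab
      have hc : (b : Γ)⁻¹ * a ∈ A := A.mul_mem (A.inv_mem b.2) a.2
      have h2 : x ^ i * ((b : Γ)⁻¹ * a) * (x ^ i)⁻¹ = (b : Γ)⁻¹ * a := by
        have h3 : (b : Γ)⁻¹ * a = (x ^ i * (b : Γ)⁻¹ * (x ^ i)⁻¹) * (x ^ i * (a : Γ)⁻¹ * (x ^ i)⁻¹)⁻¹ := by
          have h4 : (a : Γ) = (b : Γ) * (x ^ i * (b : Γ)⁻¹ * (x ^ i)⁻¹) * (x ^ i * (a : Γ)⁻¹ * (x ^ i)⁻¹)⁻¹ := by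
            rw [← h1]; group
          calc (b : Γ)⁻¹ * a = (b : Γ)⁻¹ * ((b : Γ) * (x ^ i * (b : Γ)⁻¹ * (x ^ i)⁻¹) * (x ^ i * (a : Γ)⁻¹ * (x ^ i)⁻¹)⁻¹) := by
                rw [← h4]
            _ = _ := by group
        have h5 : x ^ i * ((b : Γ)⁻¹ * a) * (x ^ i)⁻¹ =
            (x ^ i * (b : Γ)⁻¹ * (x ^ i)⁻¹) * (x ^ i * (a : Γ)⁻¹ * (x ^ i)⁻¹)⁻¹ := by group
        rw [h5, ← h3]
      have h7 := hsemi i hi hik _ hc h2
      apply Subtype.ext
      have := inv_mul_eq_one.1 h7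
      exact this.symm
    have hφb : Function.Bijective φ := Finite.injective_iff_bijective.1 hφ
    have h1 : ∀ a : A, ρ (a : Γ) * ρ x ^ i * ρ ((a : Γ)⁻¹) = ρ (φ a : Γ) * ρ x ^ i := by
      intro a
      rw [← map_pow, ← map_mul, ← map_mul, ← map_mul]
      congr 1
      show (a : Γ) * x ^ i * (a : Γ)⁻¹ = (a : Γ) * (x ^ i * (a : Γ)⁻¹ * (x ^ i)⁻¹) * x ^ i
      group
    rw [Finset.sum_congr rfl (fun a _ => h1 a), ← Finset.sum_mul]
    congr 1
    exact (Equiv.ofBijective φ hφb).sum_comp (fun a : A => ρ (a : Γ))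
  have hT0 : ∑ a : A, (ρ (a : Γ) * ρ x ^ 0 * ρ ((a : Γ)⁻¹)) = (Fintype.card A : R) := by
    have : ∀ a : A, ρ (a : Γ) * ρ x ^ 0 * ρ ((a : Γ)⁻¹) = 1 := by
      intro a
      rw [pow_zero, mul_one, ← map_mul, mul_inv_cancel, map_one]
    rw [Finset.sum_congr rfl (fun a _ => this a)]
    simp
  have h1 : ∑ a : A, (ρ (a : Γ) * (∑ i ∈ Finset.range (k + 1), ρ x ^ i) * ρ ((a : Γ)⁻¹)) =
      ∑ i ∈ Finset.range (k + 1), ∑ a : A, (ρ (a : Γ) * ρ x ^ i * ρ ((a : Γ)⁻¹)) := by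
    rw [Finset.sum_comm]
    refine Finset.sum_congr rfl (fun a _ => ?_)
    rw [Finset.mul_sum, Finset.sum_mul]
  rw [h1, Finset.sum_range_succ', hT0] at h0
  have h2 : ∑ i ∈ Finset.range k, ∑ a : A, (ρ (a : Γ) * ρ x ^ (i + 1) * ρ ((a : Γ)⁻¹)) =
      π * ∑ i ∈ Finset.range k, ρ x ^ (i + 1) := by
    rw [Finset.mul_sum]
    refine Finset.sum_congr rfl (fun i hi => ?_)
    exact hT (i + 1) (Nat.succ_pos _) (by have := Finset.mem_range.1 hi; omega)
  rw [h2] at h0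
  have h3 : ∑ i ∈ Finset.range k, ρ x ^ (i + 1) = -1 := by
    rw [Finset.sum_range_succ'] at hN
    rw [pow_zero] at hN
    exact eq_neg_of_add_eq_zero_left hN
  rw [h3, mul_neg, mul_one] at h0
  exact neg_add_eq_zero.1 h0

/-- From the value of the sum to the triviality of the action. -/
theorem act_trivial {Γ V : Type*} [Group Γ] [AddCommGroup V] (ρ : Γ →* AddMonoid.End V) (A : Subgroup Γ)
    [Fintype A] (hπ : ∑ a : A, ρ a = (Fintype.card A : AddMonoid.End V))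
    (hinj : ∀ w : V, (Fintype.card A) • w = 0 → w = 0) : ∀ b ∈ A, ρ b = 1 := by
  classical
  intro b hb
  have h1 : ρ b * ∑ a : A, ρ (a : Γ) = ∑ a : A, ρ (a : Γ) := by
    rw [Finset.mul_sum]
    have h2 : ∀ a : A, ρ b * ρ (a : Γ) = ρ (((Equiv.mulLeft (⟨b, hb⟩ : A)) a : A) : Γ) := by
      intro a
      rw [← map_mul]
      rfl
    rw [Finset.sum_congr rfl (fun a _ => h2 a)]
    exact Equiv.sum_comp (Equiv.mulLeft (⟨b, hb⟩ : A)) (fun a : A => ρ (a : Γ))
  rw [hπ] at h1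
  apply AddMonoidHom.ext
  intro w
  have h3 := congrArg (fun f : AddMonoid.End V => f w) h1
  have h4 : (ρ b * ((Fintype.card A : ℕ) : AddMonoid.End V)) w = (Fintype.card A) • (ρ b w) := by
    show ρ b (((Fintype.card A : ℕ) : AddMonoid.End V) w) = _
    rw [AddMonoid.End.natCast_apply, map_nsmul]
  have h5 : (((Fintype.card A : ℕ) : AddMonoid.End V)) w = (Fintype.card A) • w :=
    AddMonoid.End.natCast_apply _ _
  simp only [h4, h5] at h3
  have h6 : (Fintype.card A) • (ρ b w - w) = 0 := by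
    rw [smul_sub, h3, sub_self]
  have h7 := hinj _ h6
  exact sub_eq_zero.1 h7

theorem norm_of_conj_le {G : Type*} [Group G] [Finite G] (R : Subgroup G) (g : G)
    (h : ∀ r ∈ R, g * r * g⁻¹ ∈ R) : g ∈ Subgroup.normalizer (R : Set G) := by
  rw [Subgroup.mem_normalizer_iff]
  intro n
  refine ⟨h n, fun hn => ?_⟩
  let φ : R → R := fun r => ⟨g * r * g⁻¹, h r r.2⟩
  have hφ : Function.Injective φ := by
    intro a b hab
    have h1 : g * (a : G) * g⁻¹ = g * (b : G) * g⁻¹ := congrArg Subtype.val hab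
    apply Subtype.ext
    exact mul_left_cancel (mul_right_cancel h1)
  obtain ⟨r, hr⟩ := (Finite.injective_iff_surjective.1 hφ) ⟨g * n * g⁻¹, hn⟩
  have h1 : g * (r : G) * g⁻¹ = g * n * g⁻¹ := congrArg Subtype.val hr
  have h2 : (r : G) = n := mul_left_cancel (mul_right_cancel h1)
  rw [← h2]
  exact r.2

/-- The core of the argument: a semiregular `t`-group and a `p`-group with vanishing norm. -/
theorem final_step {G : Type*} [Group G] [Finite G] {t p : ℕ} [Fact t.Prime] [Fact p.Prime] (htp : t ≠ p)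
    (T R : Subgroup G) (hT : IsPGroup t T) (hR : IsPGroup p R) (g : G) (hgR : ∀ r ∈ R, g * r * g⁻¹ ∈ R)
    (hTR : ∀ a ∈ T, ∀ r ∈ R, a * r * a⁻¹ ∈ R) (hgT : ∀ a ∈ T, g * a * g⁻¹ ∈ T) (k : ℕ)
    (hpow : ∀ v ∈ R, (v * g) ^ (k + 1) = 1)
    (hsemi : ∀ i, 0 < i → i < k + 1 → ∀ a ∈ T, g ^ i * a * (g ^ i)⁻¹ = a → a = 1) :
    ∀ a ∈ T, ∀ r ∈ R, a * r = r * a := by
  classical
  let L : Subgroup G := Subgroup.normalizer (R : Set G)
  have hgL : g ∈ L := norm_of_conj_le R g hgR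
  have hTL : T ≤ L := fun a ha => norm_of_conj_le R a (hTR a ha)
  let P' : Subgroup L := R.subgroupOf L
  haveI hP'n : P'.Normal := Subgroup.normal_in_normalizer
  let x : L := ⟨g, hgL⟩
  let T' : Subgroup L := T.subgroupOf L
  haveI : Fintype T' := Fintype.ofFinite T'
  have hP'p : IsPGroup p P' := by
    intro v
    obtain ⟨i, hi⟩ := hR ⟨((v : L) : G), v.2⟩
    refine ⟨i, Subtype.ext (Subtype.ext ?_)⟩
    simpa using congrArg Subtype.val hi
  have hx : x ^ (k + 1) = 1 := by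
    apply Subtype.ext
    have := hpow 1 R.one_mem
    simpa using this
  have hv : ∀ v ∈ P', (v * x) ^ (k + 1) = 1 := by
    intro v hv
    apply Subtype.ext
    have := hpow (v : G) hv
    simpa using this
  have hN := norm_eq_zero P' x (k + 1) hx hv
  have hxA : ∀ a ∈ T', x * a * x⁻¹ ∈ T' := by
    intro a ha
    rw [Subgroup.mem_subgroupOf]
    exact hgT _ ha
  have hsemi' : ∀ i, 0 < i → i < k + 1 → ∀ a ∈ T', x ^ i * a * (x ^ i)⁻¹ = a → a = 1 := by
    intro i hi hik a ha hfix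
    apply Subtype.ext
    apply hsemi i hi hik _ ha
    have := congrArg Subtype.val hfix
    simpa using this
  have hπ := key_sum' (rho P') T' x hxA k hsemi' hN
  have hcop : (Fintype.card T').Coprime p := by
    rw [← Nat.card_eq_fintype_card]
    have hT'p : IsPGroup t T' := by
      intro v
      obtain ⟨i, hi⟩ := hT ⟨((v : L) : G), v.2⟩
      refine ⟨i, Subtype.ext (Subtype.ext ?_)⟩
      simpa using congrArg Subtype.val hi
    obtain ⟨j, hj⟩ := IsPGroup.iff_card.1 hT'p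
    rw [hj]
    exact Nat.Coprime.pow_left _ ((Nat.coprime_primes Fact.out Fact.out).2 htp)
  have htriv := act_trivial (rho P') T' hπ (fun w hw => smul_injective P' hP'p hcop w hw)
  intro a ha r hr
  obtain ⟨i, hi⟩ := hT ⟨a, ha⟩
  have hi' : a ^ (t ^ i) = 1 := by simpa using congrArg Subtype.val hi
  have hi2 : (⟨a, hTL ha⟩ : L) ^ (t ^ i) = 1 := Subtype.ext (by simpa using hi')
  have h1 := burnside_of P' htp hP'p (⟨a, hTL ha⟩ : L) hi2 (htriv _ (by
    rw [Subgroup.mem_subgroupOf]; exact ha))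
  have hrL : r ∈ L := by
    exact (Subgroup.le_normalizer (H := R)) hr
  have h2 := h1 ⟨r, hrL⟩ (by rw [Subgroup.mem_subgroupOf]; exact hr)
  exact congrArg Subtype.val h2

/-- Order divisibility forces equality of a subgroup with its overgroup. -/
theorem eq_of_card_factors {X : Type*} [Group X] [Finite X] (D K : Subgroup X) (hDK : D ≤ K)
    (h : ∀ q : ℕ, q.Prime → ∃ R : Subgroup X, R ≤ D ∧ Nat.card R = q ^ (Nat.card K).factorization q) :
    D = K := by
  have hdvd : Nat.card K ∣ Nat.card D := by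
    have h0 : Nat.card K ≠ 0 := Nat.card_pos.ne'
    have h0' : Nat.card D ≠ 0 := Nat.card_pos.ne'
    rw [← Nat.factorization_prime_le_iff_dvd h0 h0']
    intro q hq
    obtain ⟨R, hRD, hRc⟩ := h q hq
    have h2 : Nat.card R ∣ Nat.card D := Subgroup.card_dvd_of_le hRD
    rw [hRc] at h2
    exact (Nat.Prime.pow_dvd_iff_le_factorization hq h0').1 h2
  exact Subgroup.eq_of_le_of_card_ge hDK (Nat.le_of_dvd Nat.card_pos hdvd)

/-- An automorphism without fixed points leaves a Sylow subgroup invariant. -/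
theorem exists_invariant_sylow_fpf {F : Type*} [Group F] [Finite F] (α : F ≃* F)
    (hα : ∀ a, α a = a → a = 1) (t : ℕ) [Fact t.Prime] :
    ∃ S : Sylow t F, ∀ a ∈ (S : Subgroup F), α a ∈ (S : Subgroup F) := by
  classical
  obtain ⟨S⟩ : Nonempty (Sylow t F) := inferInstance
  have hinj : Function.Injective (fun y : F => y⁻¹ * α y) := by
    intro y z hyz
    have h1 : y⁻¹ * α y = z⁻¹ * α z := hyz
    have h2 : z * y⁻¹ = α (z * y⁻¹) := by
      rw [map_mul, map_inv]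
      have : z * (y⁻¹ * α y) * (α y)⁻¹ = z * (z⁻¹ * α z) * (α y)⁻¹ := by rw [h1]
      simpa [mul_assoc] using this
    have h3 := hα _ h2.symm
    exact (mul_inv_eq_one.1 h3).symm
  have hsurj := Finite.injective_iff_surjective.1 hinj
  have hαs : Function.Surjective α.toMonoidHom := α.surjective
  let S₂ : Sylow t F := S.mapSurjective hαs
  obtain ⟨u, hu⟩ := MulAction.exists_smul_eq F S S₂
  obtain ⟨z, hz⟩ := hsurj u⁻¹
  have hz' : z⁻¹ * α z = u⁻¹ := hz
  refine ⟨z • S, fun a ha => ?_⟩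
  rw [Cfsg.Agent.Lib.H6Cover.mem_smul_sylow] at ha ⊢
  have h1 : α (z⁻¹ * a * z) ∈ (S₂ : Subgroup F) := by
    rw [Sylow.coe_mapSurjective]
    exact ⟨_, ha, rfl⟩
  rw [← hu, Cfsg.Agent.Lib.H6Cover.mem_smul_sylow] at h1
  have e : z⁻¹ * α a * z = u⁻¹ * α (z⁻¹ * a * z) * u := by
    rw [map_mul, map_mul, map_inv]
    have h5 : α z = z * u⁻¹ := by
      rw [← hz']; group
    rw [h5]
    group
  rw [e]
  exact h1

/-- An element of `G` with non-trivial power gives an element of order `r * k`. -/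
theorem order_of_lift {G : Type*} [Group G] [Finite G] (N : Subgroup G) [hN : N.Normal] (z : G) (k : ℕ)
    (hk : orderOf (QuotientGroup.mk z : G ⧸ N) = k) (hz : z ^ k ≠ 1) :
    ∃ p : ℕ, p.Prime ∧ p ∣ Nat.card N ∧ ∃ g : G, orderOf g = p * k := by
  have hk0 : k ≠ 0 := by
    rw [← hk]; exact (orderOf_pos _).ne'
  have hzN : z ^ k ∈ N := by
    rw [← QuotientGroup.eq_one_iff, QuotientGroup.mk_pow, ← hk, pow_orderOf_eq_one]
  have hd1 : orderOf (z ^ k) ≠ 1 := fun h => hz (orderOf_eq_one_iff.1 h)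
  obtain ⟨r, hr, hrd⟩ := Nat.exists_prime_and_dvd hd1
  have hdvd : k ∣ orderOf z := by
    rw [← hk]
    exact orderOf_map_dvd (QuotientGroup.mk' N) z
  obtain ⟨e, he⟩ := hdvd
  have hz0 : orderOf z ≠ 0 := (orderOf_pos z).ne'
  have he0 : e ≠ 0 := by
    rintro rfl
    rw [Nat.mul_zero] at he
    exact hz0 he
  have hord : orderOf (z ^ k) = e := by
    rw [orderOf_pow' z hk0, he, Nat.gcd_eq_right (Dvd.intro e rfl), Nat.mul_div_cancel_left _ (Nat.pos_of_ne_zero hk0)]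
  rw [hord] at hrd
  obtain ⟨f, hf⟩ := hrd
  have hf0 : f ≠ 0 := by
    rintro rfl
    rw [Nat.mul_zero] at hf
    exact he0 hf
  refine ⟨r, hr, ?_, z ^ f, ?_⟩
  · have h1 : orderOf (z ^ k) ∣ Nat.card N := Subgroup.orderOf_dvd_natCard N hzN
    rw [hord, hf] at h1
    exact (Dvd.intro f rfl).trans h1
  · rw [orderOf_pow' z hf0, he, hf]
    have h2 : Nat.gcd (k * (r * f)) f = f := Nat.gcd_eq_right ⟨k * r, by ring⟩
    rw [h2]
    have e2 : k * (r * f) = (r * k) * f := by ring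
    rw [e2, Nat.mul_div_cancel _ (Nat.pos_of_ne_zero hf0)]

end Cfsg.Agent.Lib.H6PExp2
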