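import Mathlib

set_option autoImplicit false

namespace Cfsg.Agent.Lib.H6PG

open Matrix

/-- Shorthand for `SL₂(F)`. -/
abbrev SL2 (F : Type*) [Field F] := Matrix.SpecialLinearGroup (Fin 2) F

section Basic
variable {F : Type*} [Field F]

/-- Trace of a `2 × 2` special linear matrix. -/
def tr (A : SL2 F) : F := A.1 0 0 + A.1 1 1

lemma det_eq (A : SL2 F) : A.1 0 0 * A.1 1 1 - A.1 0 1 * A.1 1 0 = 1 := by
  have := A.2
  rwa [Matrix.det_fin_two] at this

/-- Cayley–Hamilton in the shape we need. -/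
lemma ch (A : SL2 F) :
    A.1 * A.1 = tr A • A.1 + (-1 : F) • (1 : Matrix (Fin 2) (Fin 2) F) := by
  have h := det_eq A
  ext i j
  fin_cases i <;> fin_cases j <;>
    simp [Matrix.mul_apply, Fin.sum_univ_two, tr] <;> first | ring1 | linear_combination -h

lemma step (A : SL2 F) {x : Matrix (Fin 2) (Fin 2) F} {a b : F}
    (hx : x = a • A.1 + b • (1 : Matrix (Fin 2) (Fin 2) F)) :
    x * A.1 = (a * tr A + b) • A.1 + (-a) • (1 : Matrix (Fin 2) (Fin 2) F) := by
  subst hx
  rw [add_mul, smul_mul_assoc, smul_mul_assoc, one_mul, ch A]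
  module

lemma p1 (A : SL2 F) : A.1 ^ 1 = (1 : F) • A.1 + (0 : F) • (1 : Matrix (Fin 2) (Fin 2) F) := by
  simp

lemma p2 (A : SL2 F) : A.1 ^ 2 = (tr A) • A.1 + (-1 : F) • (1 : Matrix (Fin 2) (Fin 2) F) := by
  rw [pow_succ, step A (p1 A)]
  congr 2 <;> ring

lemma p3 (A : SL2 F) :
    A.1 ^ 3 = (tr A ^ 2 - 1) • A.1 + (- tr A) • (1 : Matrix (Fin 2) (Fin 2) F) := by
  rw [pow_succ, step A (p2 A)]
  congr 2 <;> ring

lemma p4 (A : SL2 F) :
    A.1 ^ 4 = (tr A ^ 3 - 2 * tr A) • A.1 + (- (tr A ^ 2 - 1)) • (1 : Matrix (Fin 2) (Fin 2) F) := by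
  rw [pow_succ, step A (p3 A)]
  congr 2 <;> ring

lemma p5 (A : SL2 F) :
    A.1 ^ 5 = (tr A ^ 4 - 3 * tr A ^ 2 + 1) • A.1 +
      (- (tr A ^ 3 - 2 * tr A)) • (1 : Matrix (Fin 2) (Fin 2) F) := by
  rw [pow_succ, step A (p4 A)]
  congr 2 <;> ring

lemma p6 (A : SL2 F) :
    A.1 ^ 6 = (tr A ^ 5 - 4 * tr A ^ 3 + 3 * tr A) • A.1 +
      (- (tr A ^ 4 - 3 * tr A ^ 2 + 1)) • (1 : Matrix (Fin 2) (Fin 2) F) := by
  rw [pow_succ, step A (p5 A)]
  congr 2 <;> ring

lemma p7 (A : SL2 F) :
    A.1 ^ 7 = (tr A ^ 6 - 5 * tr A ^ 4 + 6 * tr A ^ 2 - 1) • A.1 +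
      (- (tr A ^ 5 - 4 * tr A ^ 3 + 3 * tr A)) • (1 : Matrix (Fin 2) (Fin 2) F) := by
  rw [pow_succ, step A (p6 A)]
  congr 2 <;> ring

lemma p8 (A : SL2 F) :
    A.1 ^ 8 = (tr A ^ 7 - 6 * tr A ^ 5 + 10 * tr A ^ 3 - 4 * tr A) • A.1 +
      (- (tr A ^ 6 - 5 * tr A ^ 4 + 6 * tr A ^ 2 - 1)) • (1 : Matrix (Fin 2) (Fin 2) F) := by
  rw [pow_succ, step A (p7 A)]
  congr 2 <;> ring

lemma p9 (A : SL2 F) :
    A.1 ^ 9 = (tr A ^ 8 - 7 * tr A ^ 6 + 15 * tr A ^ 4 - 10 * tr A ^ 2 + 1) • A.1 +
      (- (tr A ^ 7 - 6 * tr A ^ 5 + 10 * tr A ^ 3 - 4 * tr A)) •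
        (1 : Matrix (Fin 2) (Fin 2) F) := by
  rw [pow_succ, step A (p8 A)]
  congr 2 <;> ring

lemma pow_val (A : SL2 F) (n : ℕ) : (A ^ n).1 = A.1 ^ n := by
  rw [Matrix.SpecialLinearGroup.coe_pow]

lemma eq_one_of (A : SL2 F) (n : ℕ) {a b : F}
    (hn : A.1 ^ n = a • A.1 + b • (1 : Matrix (Fin 2) (Fin 2) F)) (ha : a = 0) (hb : b = 1) :
    A ^ n = 1 := by
  apply Subtype.ext
  rw [pow_val, hn, ha, hb]
  simp

lemma eq_neg_one_val (A : SL2 F) (n : ℕ) {a b : F}
    (hn : A.1 ^ n = a • A.1 + b • (1 : Matrix (Fin 2) (Fin 2) F)) (ha : a = 0) (hb : b = -1) :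
    (A ^ n).1 = (-1 : F) • (1 : Matrix (Fin 2) (Fin 2) F) := by
  rw [pow_val, hn, ha, hb]
  simp

end Basic

section CharTwo
variable {F : Type*} [Field F] [CharP F 2]

lemma two0 : (2 : F) = 0 := CharTwo.two_eq_zero

/-- An element of `SL₂` in characteristic `2` fixing a nonzero vector is an involution
or the identity. -/
lemma sq_eq_one_of_fix (g : SL2 F) (x : Fin 2 → F) (hx : x ≠ 0) (h : g.1 *ᵥ x = x) : g ^ 2 = 1 := by
  have h0 : g.1 0 0 * x 0 + g.1 0 1 * x 1 = x 0 := by
    have := congrFun h 0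
    simpa [Matrix.mulVec, dotProduct, Fin.sum_univ_two] using this
  have h1 : g.1 1 0 * x 0 + g.1 1 1 * x 1 = x 1 := by
    have := congrFun h 1
    simpa [Matrix.mulVec, dotProduct, Fin.sum_univ_two] using this
  have hd := det_eq g
  have h2 : (2 : F) = 0 := two0
  have ht : tr g = 0 := by
    by_contra ht
    apply hx
    have e0 : tr g * x 0 = 0 := by
      simp only [tr]
      linear_combination (x 0) * hd + (x 0) * h2 - (g.1 1 1 - 1) * h0 + (g.1 0 1) * h1
    have e1 : tr g * x 1 = 0 := by
      simp only [tr]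
      linear_combination (x 1) * hd + (x 1) * h2 - (g.1 0 0 - 1) * h1 + (g.1 1 0) * h0
    funext i
    fin_cases i
    · exact (mul_eq_zero.mp e0).resolve_left ht
    · exact (mul_eq_zero.mp e1).resolve_left ht
  apply eq_one_of g 2 (p2 g) ht
  linear_combination -h2

end CharTwo

section Ext

variable (F : Type*) [Field F]

/-- The additive group of `n` copies of the natural module, as a multiplicative group. -/
abbrev V (n : ℕ) := Multiplicative (Fin n → Fin 2 → F)

variable {F}

/-- The action of `SL₂(F)` on `n` copies of the natural module. -/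
def act (n : ℕ) : SL2 F →* MulAut (V F n) where
  toFun g :=
    { toFun := fun v => Multiplicative.ofAdd (fun i => g.1 *ᵥ (Multiplicative.toAdd v i))
      invFun := fun v => Multiplicative.ofAdd (fun i => (g⁻¹).1 *ᵥ (Multiplicative.toAdd v i))
      left_inv := by
        intro v
        apply Multiplicative.toAdd.injective
        funext i
        have h1 : (g⁻¹).1 * g.1 = 1 := by
          rw [← Matrix.SpecialLinearGroup.coe_mul, inv_mul_cancel]
          rfl
        show (g⁻¹).1 *ᵥ (g.1 *ᵥ (Multiplicative.toAdd v i)) = Multiplicative.toAdd v i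
        rw [Matrix.mulVec_mulVec, h1, Matrix.one_mulVec]
      right_inv := by
        intro v
        apply Multiplicative.toAdd.injective
        funext i
        have h1 : g.1 * (g⁻¹).1 = 1 := by
          rw [← Matrix.SpecialLinearGroup.coe_mul, mul_inv_cancel]
          rfl
        show g.1 *ᵥ ((g⁻¹).1 *ᵥ (Multiplicative.toAdd v i)) = Multiplicative.toAdd v i
        rw [Matrix.mulVec_mulVec, h1, Matrix.one_mulVec]
      map_mul' := by
        intro v w
        apply Multiplicative.toAdd.injective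
        funext i
        simp [Matrix.mulVec_add] }
  map_one' := by
    apply MulEquiv.ext
    intro v
    apply Multiplicative.toAdd.injective
    funext i
    show (1 : SL2 F).1 *ᵥ (Multiplicative.toAdd v i) = Multiplicative.toAdd v i
    simp
  map_mul' := by
    intro g h
    apply MulEquiv.ext
    intro v
    apply Multiplicative.toAdd.injective
    funext i
    show (g * h).1 *ᵥ (Multiplicative.toAdd v i) = g.1 *ᵥ (h.1 *ᵥ (Multiplicative.toAdd v i))
    rw [Matrix.mulVec_mulVec, Matrix.SpecialLinearGroup.coe_mul]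

variable (F) in
/-- The split extension. -/
abbrev K (n : ℕ) := SemidirectProduct (V F n) (SL2 F) (act n)

instance instFiniteK [Finite F] (n : ℕ) : Finite (K F n) :=
  Finite.of_equiv (V F n × SL2 F) SemidirectProduct.equivProd.symm

lemma act_apply (n : ℕ) (g : SL2 F) (v : V F n) (i : Fin n) :
    Multiplicative.toAdd ((act n g) v) i = g.1 *ᵥ (Multiplicative.toAdd v i) := rfl

variable [CharP F 2]

lemma v_mul_self {n : ℕ} (v : V F n) : v * v = 1 := by
  apply Multiplicative.toAdd.injective
  funext i j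
  show Multiplicative.toAdd v i j + Multiplicative.toAdd v i j = 0
  exact CharTwo.add_self_eq_zero _

lemma sq_of_right_one {n : ℕ} (x : K F n) (hx : x.right = 1) : x ^ 2 = 1 := by
  rw [pow_two]
  apply SemidirectProduct.ext
  · rw [SemidirectProduct.mul_left, hx, map_one]
    exact v_mul_self _
  · rw [SemidirectProduct.mul_right, hx]
    exact mul_one 1

/-- Every element of prime-product order in the extension produces one in `SL₂(F)`. -/
theorem exists_order_of_K {n : ℕ} [Finite F] (p q : ℕ) (hp : p.Prime) (hq : q.Prime) (hpq : p ≠ q)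
    (h : K F n) (ho : orderOf h = p * q) : ∃ g : SL2 F, orderOf g = p * q := by
  set g : SL2 F := h.right with hg
  have hm : orderOf g ∣ p * q := by
    rw [← ho]
    exact orderOf_map_dvd (SemidirectProduct.rightHom : K F n →* SL2 F) h
  have hright : (h ^ orderOf g).right = 1 := by
    have : (SemidirectProduct.rightHom : K F n →* SL2 F) (h ^ orderOf g) = g ^ orderOf g := by
      rw [map_pow]
      rfl
    rw [pow_orderOf_eq_one] at this
    exact this
  have hsq := sq_of_right_one _ hright
  have h2 : p * q ∣ orderOf g * 2 := by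
    rw [← ho]
    apply orderOf_dvd_of_pow_eq_one
    rw [pow_mul]
    exact hsq
  -- the fixed vector argument
  have key : ∀ r s : ℕ, r.Prime → s.Prime → r ≠ s → orderOf g = r → r * s = p * q → False := by
    intro r s hr hs hrs hgr hrsq
    have h3 : r * s ∣ r * 2 := by
      rw [hrsq, ← hgr]
      exact h2
    have hs2 : s ∣ 2 := Nat.dvd_of_mul_dvd_mul_left hr.pos h3
    have hs2' : s = 2 := (Nat.prime_dvd_prime_iff_eq hs Nat.prime_two).mp hs2
    have hr2 : r ≠ 2 := by rw [← hs2']; exact hrs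
    -- `y = h ^ r` is nontrivial
    have hy : h ^ r ≠ 1 := by
      intro hy
      have : p * q ∣ r := by
        rw [← ho]
        exact orderOf_dvd_of_pow_eq_one hy
      rw [← hrsq] at this
      have := Nat.le_of_dvd hr.pos this
      have := hs.two_le
      nlinarith [hr.pos]
    have hyr : (h ^ r).right = 1 := by
      rw [← hgr]
      exact hright
    have hcomm : h * h ^ r = h ^ r * h := (Commute.pow_right (Commute.refl h) r).eq
    have hfix : act n g (h ^ r).left = (h ^ r).left := by
      have := congrArg SemidirectProduct.left hcomm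
      rw [SemidirectProduct.mul_left, SemidirectProduct.mul_left, hyr, map_one] at this
      have h4 : h.left * (act n g) (h ^ r).left = (h ^ r).left * h.left := this
      rw [mul_comm (h ^ r).left] at h4
      exact mul_left_cancel h4
    have hne : (h ^ r).left ≠ 1 := by
      intro h0
      apply hy
      apply SemidirectProduct.ext
      · rw [h0]; rfl
      · rw [hyr]; rfl
    -- some component is nonzero
    have : ∃ i, Multiplicative.toAdd (h ^ r).left i ≠ 0 := by
      by_contra hall
      push_neg at hall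
      apply hne
      apply Multiplicative.toAdd.injective
      funext i
      exact hall i
    obtain ⟨i, hi⟩ := this
    have hfi : g.1 *ᵥ (Multiplicative.toAdd (h ^ r).left i) =
        Multiplicative.toAdd (h ^ r).left i := by
      rw [← act_apply, hfix]
    have hg2 := sq_eq_one_of_fix g _ hi hfi
    have : r ∣ 2 := by
      rw [← hgr]
      exact orderOf_dvd_of_pow_eq_one hg2
    exact hr2 ((Nat.prime_dvd_prime_iff_eq hr Nat.prime_two).mp this)
  -- divisors of `p * q`
  have hcases : orderOf g = 1 ∨ orderOf g = p ∨ orderOf g = q ∨ orderOf g = p * q := by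
    rcases (Nat.dvd_mul).mp hm with ⟨a, b, ha, hb, hab⟩
    rcases (Nat.dvd_prime hp).mp ha with rfl | rfl <;>
      rcases (Nat.dvd_prime hq).mp hb with rfl | rfl
    · left; simpa using hab.symm
    · right; right; left; simpa using hab.symm
    · right; left; simpa using hab.symm
    · right; right; right; exact hab.symm
  rcases hcases with h1 | h1 | h1 | h1
  · exfalso
    rw [h1] at h2
    have h5 : p * q ≤ 2 := Nat.le_of_dvd (by norm_num) (by simpa using h2)
    have := hp.two_le
    have := hq.two_le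
    have hne : p * q ≠ 4 := by
      intro h4
      have : p = 2 ∧ q = 2 := by
        have hp2 : p ≤ 2 := by nlinarith
        have hq2 : q ≤ 2 := by nlinarith
        constructor <;> omega
      omega
    nlinarith
  · exact (key p q hp hq hpq h1 rfl).elim
  · exact (key q p hq hp hpq.symm h1 (mul_comm _ _)).elim
  · exact ⟨g, h1⟩

/-- The transvection. -/
def tv : SL2 F := ⟨!![1, 1; 0, 1], by simp [Matrix.det_fin_two]⟩

omit [CharP F 2] in
lemma tv_ne : (tv : SL2 F) ≠ 1 := by
  intro h
  have := congrArg (fun A : SL2 F => A.1 0 1) h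
  simp [tv] at this

omit [CharP F 2] in
lemma card_K_eq (n : ℕ) : Nat.card (K F n) = Nat.card (V F n) * Nat.card (SL2 F) := by
  rw [Nat.card_congr SemidirectProduct.equivProd, Nat.card_prod]

lemma tv_sq : (tv : SL2 F) ^ 2 = 1 := by
  have h2 : (2 : F) = 0 := two0
  apply eq_one_of tv 2 (p2 tv)
  · simp [tr, tv]
    linear_combination h2
  · linear_combination -h2

/-- Order of the transvection. -/
lemma orderOf_tv : orderOf (tv : SL2 F) = 2 :=
  orderOf_eq_prime tv_sq tv_ne

lemma two_dvd_card_SL [Finite F] : 2 ∣ Nat.card (SL2 F) := by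
  rw [← orderOf_tv (F := F)]
  exact orderOf_dvd_natCard _

lemma prime_dvd_card_V [Finite F] {n : ℕ} {p : ℕ} (hp : p.Prime) (h : p ∣ Nat.card (V F n)) : p = 2 := by
  haveI := Fact.mk hp
  obtain ⟨x, hx⟩ := exists_prime_orderOf_dvd_card' p h
  have : p ∣ 2 := by
    rw [← hx]
    apply orderOf_dvd_of_pow_eq_one
    rw [pow_two]
    exact v_mul_self x
  exact (Nat.prime_dvd_prime_iff_eq hp Nat.prime_two).mp this

theorem prime_dvd_K_iff [Finite F] {n : ℕ} {p : ℕ} (hp : p.Prime) :
    p ∣ Nat.card (K F n) ↔ p ∣ Nat.card (SL2 F) := by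
  rw [card_K_eq]
  constructor
  · intro h
    rcases (Nat.Prime.dvd_mul hp).mp h with h | h
    · rw [prime_dvd_card_V hp h]
      exact two_dvd_card_SL
    · exact h
  · intro h
    exact h.mul_left _

omit [CharP F 2] in
lemma lt_card_K [Finite F] (n : ℕ) : n < Nat.card (K F n) := by
  rw [card_K_eq]
  have h1 : Nat.card (V F n) = (Nat.card F ^ 2) ^ n := by
    rw [Nat.card_congr (Multiplicative.toAdd : V F n ≃ _)]
    simp [Nat.card_fun]
  have h2 : 2 ≤ Nat.card F := Finite.one_lt_card
  have h3 : 2 ^ n ≤ (Nat.card F ^ 2) ^ n := by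
    apply Nat.pow_le_pow_left
    nlinarith
  have h4 : n < 2 ^ n := Nat.lt_two_pow_self
  have h5 : 0 < Nat.card (SL2 F) := Nat.card_pos
  rw [h1]
  nlinarith

omit [CharP F 2] in
/-- `SL₂(F)` embeds in the extension. -/
lemma exists_order_K_of_SL {n : ℕ} {m : ℕ} (g : SL2 F) (h : orderOf g = m) :
    ∃ x : K F n, orderOf x = m :=
  ⟨SemidirectProduct.inr g, by
    rw [orderOf_injective _ SemidirectProduct.inr_injective, h]⟩

end Ext

section PSL

variable {F : Type*} [Field F] [CharP F 2]

lemma center_eq_bot : Subgroup.center (SL2 F) = ⊥ := by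
  rw [eq_bot_iff]
  intro A hA
  obtain ⟨r, hr, hrA⟩ := Matrix.SpecialLinearGroup.mem_center_iff.mp hA
  have h1 : r = 1 := by
    have h2 : (r - 1) ^ 2 = 0 := by
      have h3 : (2 : F) = 0 := two0
      simp only [Fintype.card_fin] at hr
      linear_combination hr + (1 - r) * h3
    have := pow_eq_zero_iff (two_ne_zero) |>.mp h2
    exact sub_eq_zero.mp this
  rw [Subgroup.mem_bot]
  apply Subtype.ext
  rw [← hrA, h1]
  simp

/-- In characteristic `2`, `PSL₂(F)` is `SL₂(F)`. -/
noncomputable def pslEquiv : Matrix.ProjectiveSpecialLinearGroup (Fin 2) F ≃* SL2 F :=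
  (QuotientGroup.quotientMulEquivOfEq center_eq_bot).trans QuotientGroup.quotientBot

end PSL

/-- Transport of a finite group to a group in the lowest universe. -/
theorem exists_small (K' : Type*) [Group K'] [Finite K'] :
    ∃ (H : Type) (_ : Group H) (_ : Finite H), Nonempty (H ≃* K') := by
  let e : K' ≃ Fin (Nat.card K') := Finite.equivFin K'
  letI : Group (Fin (Nat.card K')) := e.symm.group
  exact ⟨Fin (Nat.card K'), inferInstance, inferInstance, ⟨e.symm.mulEquiv⟩⟩

section F8

variable {F : Type*} [Field F] [Fintype F] [CharP F 2]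

/-- Elements of `SL₂(F₈)`: their orders divide `2`, `7` or `9`. -/
lemma f8_pow (hF : Fintype.card F = 8) (A : SL2 F) : A ^ 2 = 1 ∨ A ^ 7 = 1 ∨ A ^ 9 = 1 := by
  have h2 : (2 : F) = 0 := two0
  by_cases ht : tr A = 0
  · left
    apply eq_one_of A 2 (p2 A) ht
    linear_combination -h2
  · have h7 : tr A ^ 7 = 1 := by
      have := FiniteField.pow_card_sub_one_eq_one (tr A) ht
      rwa [hF] at this
    set t := tr A with ht'
    have hprod : (t ^ 6 - 5 * t ^ 4 + 6 * t ^ 2 - 1) *
        (t ^ 8 - 7 * t ^ 6 + 15 * t ^ 4 - 10 * t ^ 2 + 1) = 0 := by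
      linear_combination (t ^ 7 + 1) * h7 +
        (-6 * t ^ 12 + 28 * t ^ 10 - 64 * t ^ 8 + 74 * t ^ 6 - 40 * t ^ 4 + 8 * t ^ 2) * h2
    rcases mul_eq_zero.mp hprod with h | h
    · right; left
      apply eq_one_of A 7 (p7 A) h
      linear_combination t * h - h7 + (2 * t ^ 5 - t ^ 3 - t - 1) * h2
    · right; right
      apply eq_one_of A 9 (p9 A) h
      linear_combination -h7 + (3 * t ^ 5 - 5 * t ^ 3 + 2 * t - 1) * h2

lemma f8_no_pq (hF : Fintype.card F = 8) (p q : ℕ) (hp : p.Prime) (hq : q.Prime) (hpq : p ≠ q)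
    (g : SL2 F) : orderOf g ≠ p * q := by
  intro ho
  have hdiv : ∀ m : ℕ, (m = 2 ∨ m = 7 ∨ m = 9) → g ^ m = 1 → False := by
    intro m hm h1
    have h2 : p * q ∣ m := by
      rw [← ho]
      exact orderOf_dvd_of_pow_eq_one h1
    have hpm : p ∣ m := (Dvd.intro _ rfl).trans h2
    have hqm : q ∣ m := (Dvd.intro_left _ rfl).trans h2
    rcases hm with rfl | rfl | rfl
    · have e1 := (Nat.prime_dvd_prime_iff_eq hp Nat.prime_two).mp hpm
      have e2 := (Nat.prime_dvd_prime_iff_eq hq Nat.prime_two).mp hqm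
      exact hpq (e1.trans e2.symm)
    · have e1 := (Nat.prime_dvd_prime_iff_eq hp (by norm_num)).mp hpm
      have e2 := (Nat.prime_dvd_prime_iff_eq hq (by norm_num)).mp hqm
      exact hpq (e1.trans e2.symm)
    · have e1 : p = 3 := by
        have : p ∣ 3 ^ 2 := by norm_num; exact hpm
        exact (Nat.prime_dvd_prime_iff_eq hp (by norm_num)).mp (hp.dvd_of_dvd_pow this)
      have e2 : q = 3 := by
        have : q ∣ 3 ^ 2 := by norm_num; exact hqm
        exact (Nat.prime_dvd_prime_iff_eq hq (by norm_num)).mp (hq.dvd_of_dvd_pow this)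
      exact hpq (e1.trans e2.symm)
  rcases f8_pow hF g with h | h | h
  · exact hdiv 2 (Or.inl rfl) h
  · exact hdiv 7 (Or.inr (Or.inl rfl)) h
  · exact hdiv 9 (Or.inr (Or.inr rfl)) h

/-- The primes dividing `#SL₂(F₈)`. -/
lemma f8_prime (hF : Fintype.card F = 8) (p : ℕ) (hp : p.Prime) :
    p ∣ Nat.card (SL2 F) ↔ p = 2 ∨ p = 3 ∨ p = 7 := by
  constructor
  · intro h
    haveI := Fact.mk hp
    obtain ⟨g, hg⟩ := exists_prime_orderOf_dvd_card' p h
    rcases f8_pow hF g with h | h | h
    · left
      have : p ∣ 2 := by rw [← hg]; exact orderOf_dvd_of_pow_eq_one h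
      exact (Nat.prime_dvd_prime_iff_eq hp Nat.prime_two).mp this
    · right; right
      have : p ∣ 7 := by rw [← hg]; exact orderOf_dvd_of_pow_eq_one h
      exact (Nat.prime_dvd_prime_iff_eq hp (by norm_num)).mp this
    · right; left
      have : p ∣ 3 ^ 2 := by rw [← hg]; norm_num; exact orderOf_dvd_of_pow_eq_one h
      exact (Nat.prime_dvd_prime_iff_eq hp (by norm_num)).mp (hp.dvd_of_dvd_pow this)
  · have h2 : (2 : F) = 0 := two0
    rintro (rfl | rfl | rfl)
    · exact two_dvd_card_SL
    · -- an element of order 3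
      let w : SL2 F := ⟨!![0, 1; 1, 1], by
        simp [Matrix.det_fin_two]; linear_combination -h2⟩
      have hw : tr w = 1 := by simp [tr, w]
      have h3 : w ^ 3 = 1 := by
        apply eq_one_of w 3 (p3 w)
        · rw [hw]; ring
        · rw [hw]; linear_combination -h2
      have hne : w ≠ 1 := by
        intro h
        have := congrArg (fun A : SL2 F => A.1 0 1) h
        simp [w] at this
      have := orderOf_eq_prime (p := 3) h3 hne
      rw [← this]
      exact orderOf_dvd_natCard _
    · -- an element of order 7 : a diagonal matrix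
      haveI : Fact (Nat.Prime 7) := ⟨by norm_num⟩
      have : ∃ x : F, x ≠ 0 ∧ x ≠ 1 := by
        classical
        by_contra hall
        push_neg at hall
        have hsub : (Finset.univ : Finset F) ⊆ {0, 1} := by
          intro x _
          by_cases hx : x = 0
          · simp [hx]
          · simp [hall x hx]
        have := Finset.card_le_card hsub
        rw [Finset.card_univ, hF] at this
        have h5 : ({0, 1} : Finset F).card ≤ 2 := Finset.card_le_two
        omega
      obtain ⟨x, hx0, hx1⟩ := this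
      have hx7 : x ^ 7 = 1 := by
        have := FiniteField.pow_card_sub_one_eq_one x hx0
        rwa [hF] at this
      let w : SL2 F := ⟨!![x, 0; 0, x⁻¹], by
        simp [Matrix.det_fin_two]; field_simp⟩
      have hne : w ≠ 1 := by
        intro h
        have := congrArg (fun A : SL2 F => A.1 0 0) h
        simp [w] at this
        exact hx1 this
      have h7 : w ^ 7 = 1 := by
        apply Subtype.ext
        rw [pow_val]
        have : w.1 = Matrix.diagonal ![x, x⁻¹] := by
          ext i j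
          fin_cases i <;> fin_cases j <;> simp [w]
        rw [this, Matrix.diagonal_pow]
        ext i j
        fin_cases i <;> fin_cases j <;> simp [hx7, inv_pow]
      have := orderOf_eq_prime (p := 7) h7 hne
      rw [← this]
      exact orderOf_dvd_natCard _

end F8

section F7

lemma prime_dvd_of {G : Type*} [Group G] {p : ℕ} [Fact p.Prime] (g : G) (h : g ^ p = 1)
    (hne : g ≠ 1) : p ∣ Nat.card G := by
  rw [← orderOf_eq_prime h hne]
  exact orderOf_dvd_natCard g

lemma z7 : (7 : ZMod 7) = 0 := by decide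

lemma z7_cases : ∀ s : ZMod 7, s = 0 ∨ s = 1 ∨ s = -1 ∨ s = 2 ∨ s = -2 ∨ s = 3 ∨ s = -3 := by decide

variable {F : Type*} [Field F] [Fintype F]

/-- A scalar matrix `-1`. -/
lemma neg_one_mem (A : SL2 F) (hA : A.1 = (-1 : F) • (1 : Matrix (Fin 2) (Fin 2) F)) :
    A ∈ Subgroup.center (SL2 F) := by
  rw [Matrix.SpecialLinearGroup.mem_center_iff]
  refine ⟨-1, by simp, ?_⟩
  rw [hA]
  ext i j
  simp [Matrix.scalar_apply, Matrix.one_apply, Matrix.diagonal_apply]

lemma f7_pow (hF : Fintype.card F = 7) (A : SL2 F) :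
    A ^ 4 ∈ Subgroup.center (SL2 F) ∨ A ^ 3 ∈ Subgroup.center (SL2 F) ∨
      A ^ 7 ∈ Subgroup.center (SL2 F) := by
  haveI : Fact (Nat.Prime 7) := ⟨by norm_num⟩
  let e : ZMod 7 ≃+* F := ZMod.ringEquivOfPrime F (by norm_num) hF
  have h7 : (7 : F) = 0 := by
    have h := congrArg e z7
    rwa [map_ofNat, map_zero] at h
  have hcases : tr A = 0 ∨ tr A = 1 ∨ tr A = -1 ∨ tr A = 2 ∨ tr A = -2 ∨ tr A = 3 ∨ tr A = -3 := by
    obtain ⟨s, hs⟩ := e.surjective (tr A)
    rcases z7_cases s with h | h | h | h | h | h | h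
    · left; rw [← hs, h, map_zero]
    · right; left; rw [← hs, h, map_one]
    · right; right; left; rw [← hs, h, map_neg, map_one]
    · right; right; right; left; rw [← hs, h, map_ofNat]
    · right; right; right; right; left; rw [← hs, h, map_neg, map_ofNat]
    · right; right; right; right; right; left; rw [← hs, h, map_ofNat]
    · right; right; right; right; right; right; rw [← hs, h, map_neg, map_ofNat]
  have one_mem : ∀ n : ℕ, A ^ n = 1 → A ^ n ∈ Subgroup.center (SL2 F) := by
    intro n h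
    rw [h]
    exact Subgroup.one_mem _
  rcases hcases with h | h | h | h | h | h | h
  · left
    apply one_mem
    apply eq_one_of A 4 (p4 A)
    · rw [h]; ring
    · rw [h]; ring
  · right; left
    apply neg_one_mem
    rw [eq_neg_one_val A 3 (p3 A) (by rw [h]; ring) (by rw [h])]
  · right; left
    apply one_mem
    apply eq_one_of A 3 (p3 A)
    · rw [h]; ring
    · rw [h]; ring
  · right; right
    apply one_mem
    apply eq_one_of A 7 (p7 A)
    · rw [h]; linear_combination h7
    · rw [h]; linear_combination -h7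
  · right; right
    apply neg_one_mem
    rw [eq_neg_one_val A 7 (p7 A) (by rw [h]; linear_combination h7) (by rw [h]; linear_combination h7)]
  · left
    apply neg_one_mem
    rw [eq_neg_one_val A 4 (p4 A) (by rw [h]; linear_combination 3 * h7) (by rw [h]; linear_combination -h7)]
  · left
    apply neg_one_mem
    rw [eq_neg_one_val A 4 (p4 A) (by rw [h]; linear_combination -3 * h7) (by rw [h]; linear_combination -h7)]

/-- Each element of `PSL₂(F₇)` has order dividing `4`, `3` or `7`. -/
lemma f7_psl_pow (hF : Fintype.card F = 7) (g : Matrix.ProjectiveSpecialLinearGroup (Fin 2) F) :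
    g ^ 4 = 1 ∨ g ^ 3 = 1 ∨ g ^ 7 = 1 := by
  obtain ⟨A, rfl⟩ := QuotientGroup.mk_surjective g
  rcases f7_pow hF A with h | h | h
  · left
    rw [← QuotientGroup.mk_pow, QuotientGroup.eq_one_iff]
    exact h
  · right; left
    rw [← QuotientGroup.mk_pow, QuotientGroup.eq_one_iff]
    exact h
  · right; right
    rw [← QuotientGroup.mk_pow, QuotientGroup.eq_one_iff]
    exact h

lemma f7_no_pq (hF : Fintype.card F = 7) (p q : ℕ) (hp : p.Prime) (hq : q.Prime) (hpq : p ≠ q)
    (g : Matrix.ProjectiveSpecialLinearGroup (Fin 2) F) : orderOf g ≠ p * q := by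
  intro ho
  have hpm : ∀ m : ℕ, g ^ m = 1 → p ∣ m ∧ q ∣ m := by
    intro m h1
    have h2 : p * q ∣ m := by
      rw [← ho]
      exact orderOf_dvd_of_pow_eq_one h1
    exact ⟨(Dvd.intro _ rfl).trans h2, (Dvd.intro_left _ rfl).trans h2⟩
  rcases f7_psl_pow hF g with h | h | h
  · obtain ⟨h1, h2⟩ := hpm 4 h
    have h1' : p ∣ 2 ^ 2 := by norm_num; exact h1
    have h2' : q ∣ 2 ^ 2 := by norm_num; exact h2
    have e1 := (Nat.prime_dvd_prime_iff_eq hp Nat.prime_two).mp (hp.dvd_of_dvd_pow h1')
    have e2 := (Nat.prime_dvd_prime_iff_eq hq Nat.prime_two).mp (hq.dvd_of_dvd_pow h2')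
    exact hpq (e1.trans e2.symm)
  · obtain ⟨h1, h2⟩ := hpm 3 h
    have e1 := (Nat.prime_dvd_prime_iff_eq hp (by norm_num)).mp h1
    have e2 := (Nat.prime_dvd_prime_iff_eq hq (by norm_num)).mp h2
    exact hpq (e1.trans e2.symm)
  · obtain ⟨h1, h2⟩ := hpm 7 h
    have e1 := (Nat.prime_dvd_prime_iff_eq hp (by norm_num)).mp h1
    have e2 := (Nat.prime_dvd_prime_iff_eq hq (by norm_num)).mp h2
    exact hpq (e1.trans e2.symm)

/-- A noncentral element of `SL₂` has a nontrivial image in `PSL₂`. -/
lemma mk_ne_one (A : SL2 F) (h01 : A.1 0 1 ≠ 0) :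
    ((A : SL2 F) : Matrix.ProjectiveSpecialLinearGroup (Fin 2) F) ≠ 1 := by
  intro h
  rw [QuotientGroup.eq_one_iff] at h
  obtain ⟨r, _, hr⟩ := Matrix.SpecialLinearGroup.mem_center_iff.mp h
  apply h01
  have := congrFun (congrFun hr 0) 1
  rw [← this]
  simp [Matrix.scalar_apply]

lemma f7_prime (hF : Fintype.card F = 7) (p : ℕ) (hp : p.Prime) :
    p ∣ Nat.card (Matrix.ProjectiveSpecialLinearGroup (Fin 2) F) ↔ p = 2 ∨ p = 3 ∨ p = 7 := by
  haveI : Fact (Nat.Prime 7) := ⟨by norm_num⟩
  let e : ZMod 7 ≃+* F := ZMod.ringEquivOfPrime F (by norm_num) hF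
  have h7 : (7 : F) = 0 := by
    have h := congrArg e z7
    rwa [map_ofNat, map_zero] at h
  constructor
  · intro h
    haveI := Fact.mk hp
    obtain ⟨g, hg⟩ := exists_prime_orderOf_dvd_card' p h
    rcases f7_psl_pow hF g with h | h | h
    · left
      have : p ∣ 2 ^ 2 := by rw [← hg]; norm_num; exact orderOf_dvd_of_pow_eq_one h
      exact (Nat.prime_dvd_prime_iff_eq hp Nat.prime_two).mp (hp.dvd_of_dvd_pow this)
    · right; left
      have : p ∣ 3 := by rw [← hg]; exact orderOf_dvd_of_pow_eq_one h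
      exact (Nat.prime_dvd_prime_iff_eq hp (by norm_num)).mp this
    · right; right
      have : p ∣ 7 := by rw [← hg]; exact orderOf_dvd_of_pow_eq_one h
      exact (Nat.prime_dvd_prime_iff_eq hp (by norm_num)).mp this
  · rintro (rfl | rfl | rfl)
    · let w : SL2 F := ⟨!![0, 1; -1, 0], by simp [Matrix.det_fin_two]⟩
      have ht : tr w = 0 := by simp [tr, w]
      have h2 : ((w : SL2 F) : Matrix.ProjectiveSpecialLinearGroup (Fin 2) F) ^ 2 = 1 := by
        rw [← QuotientGroup.mk_pow, QuotientGroup.eq_one_iff]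
        apply neg_one_mem
        rw [eq_neg_one_val w 2 (p2 w) ht rfl]
      have hne := mk_ne_one w (by simp [w])
      exact prime_dvd_of _ h2 hne
    · let w : SL2 F := ⟨!![0, -1; 1, -1], by simp [Matrix.det_fin_two]⟩
      have ht : tr w = -1 := by simp [tr, w]
      have h2 : ((w : SL2 F) : Matrix.ProjectiveSpecialLinearGroup (Fin 2) F) ^ 3 = 1 := by
        rw [← QuotientGroup.mk_pow, QuotientGroup.eq_one_iff]
        rw [eq_one_of w 3 (p3 w) (by rw [ht]; ring) (by rw [ht]; ring)]
        exact Subgroup.one_mem _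
      have hne := mk_ne_one w (by simp [w])
      exact prime_dvd_of _ h2 hne
    · let w : SL2 F := ⟨!![1, 1; 0, 1], by simp [Matrix.det_fin_two]⟩
      have ht : tr w = 2 := by simp [tr, w]; norm_num
      have h2 : ((w : SL2 F) : Matrix.ProjectiveSpecialLinearGroup (Fin 2) F) ^ 7 = 1 := by
        rw [← QuotientGroup.mk_pow, QuotientGroup.eq_one_iff]
        rw [eq_one_of w 7 (p7 w) (by rw [ht]; linear_combination h7)
          (by rw [ht]; linear_combination -h7)]
        exact Subgroup.one_mem _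
      have hne := mk_ne_one w (by simp [w])
      exact prime_dvd_of _ h2 hne

end F7

end Cfsg.Agent.Lib.H6PG
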