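import Mathlib

/-!
Permutation group lemmas (helper6): Jordan sets in quasiprimitive groups.
-/

set_option autoImplicit false

namespace Cfsg.Agent.Lib.H6Perm

open MulAction Pointwise

variable {G Ω : Type*} [Group G] [MulAction G Ω]

theorem isPreprimitive_of_jordan
    (hqp : ∀ N : Subgroup G, N.Normal → N ≠ ⊥ → IsPretransitive ↥N Ω)
    (Γ : Set Ω) (a₀ b₀ : Ω) (ha₀ : a₀ ∈ Γ) (hb₀ : b₀ ∈ Γ) (hab₀ : a₀ ≠ b₀)
    (hJp : IsPreprimitive ↥(fixingSubgroup G Γᶜ) ↥(SubMulAction.ofFixingSubgroup G Γᶜ)) :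
    IsPreprimitive G Ω := by
  classical
  have hmem : ∀ x ∈ Γ, x ∈ SubMulAction.ofFixingSubgroup G Γᶜ := fun x hx => by
    rw [SubMulAction.mem_ofFixingSubgroup_iff]; simpa using hx
  have hK : ∀ a ∈ Γ, ∀ a' ∈ Γ, ∃ k ∈ fixingSubgroup G Γᶜ, k • a = a' := by
    intro a ha a' ha'
    obtain ⟨k, hk⟩ := hJp.toIsPretransitive.exists_smul_eq ⟨a, hmem a ha⟩ ⟨a', hmem a' ha'⟩
    exact ⟨k, k.2, congrArg Subtype.val hk⟩
  obtain ⟨k₀, hk₀K, hk₀⟩ := hK a₀ ha₀ b₀ hb₀
  have hk₀1 : k₀ ≠ 1 := by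
    rintro rfl
    exact hab₀ (by simpa using hk₀)
  have hGne : (⊤ : Subgroup G) ≠ ⊥ := by
    intro h
    have : k₀ ∈ (⊥ : Subgroup G) := h ▸ Subgroup.mem_top k₀
    exact hk₀1 (Subgroup.mem_bot.mp this)
  have hGtrans : IsPretransitive G Ω := by
    have h := hqp ⊤ inferInstance hGne
    refine ⟨fun x y => ?_⟩
    obtain ⟨g, hg⟩ := h.exists_smul_eq x y
    exact ⟨g, hg⟩
  -- elements of K fix the complement
  have hKfix : ∀ k ∈ fixingSubgroup G Γᶜ, ∀ x, x ∉ Γ → k • x = x := by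
    intro k hk x hx
    exact (mem_fixingSubgroup_iff G).mp hk x hx
  have hKΓ : ∀ k ∈ fixingSubgroup G Γᶜ, ∀ x ∈ Γ, k • x ∈ Γ := by
    intro k hk x hx
    by_contra hcon
    have h1 := hKfix k hk _ hcon
    have h2 : k • x = x := smul_left_cancel k h1
    exact hcon (by rw [h2]; exact hx)
  have claim : ∀ B : Set Ω, IsBlock G B → a₀ ∈ B → (∃ b ∈ B, b ≠ a₀) → B = Set.univ := by
    intro B hB haB ⟨b, hbB, hba⟩
    -- Γ ⊆ B
    have hΓB : Γ ⊆ B := by
      by_cases hb : b ∈ Γ
      · let j := SubMulAction.ofFixingSubgroup_equivariantMap G Γᶜ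
        have hC : IsBlock ↥(fixingSubgroup G Γᶜ) (j ⁻¹' B) := IsBlock.preimage j hB
        rcases hJp.isTrivialBlock_of_isBlock hC with h | h
        · exfalso
          have h1 : (⟨a₀, hmem a₀ ha₀⟩ : SubMulAction.ofFixingSubgroup G Γᶜ) ∈ j ⁻¹' B := haB
          have h2 : (⟨b, hmem b hb⟩ : SubMulAction.ofFixingSubgroup G Γᶜ) ∈ j ⁻¹' B := hbB
          have := h h1 h2
          exact hba (congrArg Subtype.val this).symm
        · intro x hx
          have h1 : (⟨x, hmem x hx⟩ : SubMulAction.ofFixingSubgroup G Γᶜ) ∈ j ⁻¹' B := by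
            rw [h]; trivial
          exact h1
      · intro x hx
        obtain ⟨k, hk, hkx⟩ := hK a₀ ha₀ x hx
        have h1 : k • b = b := hKfix k hk b hb
        have h2 : k • B = B := hB.smul_eq_of_mem hbB (by rw [h1]; exact hbB)
        rw [← hkx, ← h2]
        exact Set.smul_mem_smul_set haB
    -- K lies in the core of the stabilizer of B
    have hKcore : fixingSubgroup G Γᶜ ≤ (stabilizer G B).normalCore := by
      intro k hk g
      rw [mem_stabilizer_iff]
      have hD : k • (g⁻¹ • B) = g⁻¹ • B := by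
        rcases hB.smul_eq_or_disjoint g⁻¹ with h | h
        · rw [h]
          exact hB.smul_eq_of_mem haB (hΓB (hKΓ k hk a₀ ha₀))
        · have hfix : ∀ x ∈ g⁻¹ • B, k • x = x := by
            intro x hx
            apply hKfix k hk
            intro hxΓ
            exact Set.disjoint_left.mp h hx (hΓB hxΓ)
          ext y
          constructor
          · rintro ⟨x, hx, rfl⟩
            change k • x ∈ _
            rw [hfix x hx]; exact hx
          · intro hy
            exact ⟨y, hy, hfix y hy⟩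
      rw [mul_smul, mul_smul, hD, smul_inv_smul]
    have hNne : (stabilizer G B).normalCore ≠ ⊥ := by
      intro h
      have h1 := hKcore hk₀K
      rw [h] at h1
      exact hk₀1 (Subgroup.mem_bot.mp h1)
    have hT := hqp _ (Subgroup.normalCore_normal _) hNne
    refine Set.eq_univ_of_forall fun x => ?_
    obtain ⟨n, hn⟩ := hT.exists_smul_eq a₀ x
    have hn1 : (n : G) ∈ stabilizer G B := Subgroup.normalCore_le _ n.2
    have hn2 : (n : G) • B = B := hn1
    have hn3 : (n : G) • a₀ ∈ (n : G) • B := Set.smul_mem_smul_set haB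
    rw [hn2] at hn3
    rw [← hn]
    exact hn3
  refine { toIsPretransitive := hGtrans, isTrivialBlock_of_isBlock := ?_ }
  intro B hB
  by_contra hcon
  unfold IsTrivialBlock at hcon
  push Not at hcon
  obtain ⟨hns, hnu⟩ := hcon
  obtain ⟨x, hx, y, hy, hxy⟩ := hns
  obtain ⟨g, hg⟩ := hGtrans.exists_smul_eq x a₀
  have h := claim (g • B) (hB.translate g) ⟨x, hx, hg⟩ ⟨g • y, Set.smul_mem_smul_set hy, by
    intro h
    rw [← hg] at h
    exact hxy (smul_left_cancel g h).symm⟩
  apply hnu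
  rwa [Set.smul_set_eq_univ] at h

end Cfsg.Agent.Lib.H6Perm
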