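import Mathlib
import Cfsg.Agent.Lib.Dihedral

/-!
# Subgroups with a normal Sylow subgroup and cyclic quotient
-/

set_option autoImplicit false
set_option linter.all false

namespace Cfsg.Agent.Lib.H6Restr

open Subgroup

section

variable {H : Type*} [Group H] [Finite H]

theorem le_sylow_of_normal {p : ℕ} [Fact p.Prime] (Q : Subgroup H) (hQn : Q.Normal)
    (hQp : IsPGroup p Q) (S : Sylow p H) : Q ≤ S := by
  have h1 : IsPGroup p ↥((S : Subgroup H) ⊔ Q) :=
    IsPGroup.to_sup_of_normal_right S.isPGroup' hQp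
  have h2 := S.is_maximal' h1 le_sup_left
  exact (le_sup_right).trans h2.le

/-- Normal `p`-subgroup with cyclic quotient: all Sylow subgroups are normal. -/
theorem sylow_normal_of_cyclic_quot {p : ℕ} [Fact p.Prime] (Q : Subgroup H) (hQn : Q.Normal)
    (hQp : IsPGroup p Q) (hc : IsCyclic (H ⧸ Q)) (S : Sylow p H) :
    (S : Subgroup H).Normal := by
  have hQS : Q ≤ S := le_sylow_of_normal Q hQn hQp S
  have hcomm : ∀ a b : H ⧸ Q, a * b = b * a := by
    obtain ⟨g, hg⟩ := hc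
    intro a b
    obtain ⟨i, rfl⟩ := hg a
    obtain ⟨j, rfl⟩ := hg b
    show g ^ i * g ^ j = g ^ j * g ^ i
    rw [← zpow_add, ← zpow_add, add_comm]
  constructor
  intro s hs h
  have h3 : h * s * h⁻¹ * s⁻¹ ∈ Q := by
    rw [← QuotientGroup.eq_one_iff]
    have h4 : ((h * s * h⁻¹ * s⁻¹ : H) : H ⧸ Q) =
        (h : H ⧸ Q) * (s : H ⧸ Q) * (h : H ⧸ Q)⁻¹ * (s : H ⧸ Q)⁻¹ := rfl
    rw [h4, hcomm (h : H ⧸ Q) (s : H ⧸ Q)]
    group
  have h5 := (S : Subgroup H).mul_mem (hQS h3) hs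
  simpa using h5

theorem cyclic_quot_of_le (Q L : Subgroup H) [hQn : Q.Normal] [hLn : L.Normal] (hc : IsCyclic (H ⧸ Q))
    (hQL : Q ≤ L) : IsCyclic (H ⧸ L) := by
  have hf : Function.Surjective (QuotientGroup.map Q L (MonoidHom.id H) hQL) := by
    intro y
    obtain ⟨a, rfl⟩ := QuotientGroup.mk_surjective y
    exact ⟨(a : H ⧸ Q), rfl⟩
  exact isCyclic_of_surjective _ hf

/-- A normal Sylow subgroup with cyclic quotient has a cyclic complement. -/
theorem exists_gen {p : ℕ} [Fact p.Prime] (S : Sylow p H) (hn : (S : Subgroup H).Normal)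
    (hc : IsCyclic (H ⧸ (S : Subgroup H))) :
    ∃ x : H, Nat.card (S : Subgroup H) * orderOf x = Nat.card H ∧ Nat.Coprime (orderOf x) p ∧
      ∀ h : H, ∃ s ∈ (S : Subgroup H), ∃ k : ℕ, h = s * x ^ k := by
  have hcop := S.card_coprime_index
  obtain ⟨T, hT⟩ := Subgroup.exists_right_complement'_of_coprime hcop
  have hcard := hT.card_mul
  have hTcyc : IsCyclic T := by
    let f : T →* H ⧸ (S : Subgroup H) := (QuotientGroup.mk' (S : Subgroup H)).comp T.subtype
    refine isCyclic_of_injective f ?_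
    rw [← MonoidHom.ker_eq_bot_iff, eq_bot_iff]
    rintro ⟨t, ht⟩ hk
    have h1 : t ∈ (S : Subgroup H) := by
      have : (t : H ⧸ (S : Subgroup H)) = 1 := hk
      exact (QuotientGroup.eq_one_iff t).1 this
    have h2 : t ∈ (S : Subgroup H) ⊓ T := ⟨h1, ht⟩
    rw [hT.disjoint.eq_bot] at h2
    have h3 : t = 1 := Subgroup.mem_bot.1 h2
    subst h3
    exact Subgroup.one_mem _
  obtain ⟨⟨x, hxT⟩, hx⟩ := hTcyc.exists_generator
  have hordx : orderOf x = Nat.card T := by
    have h1 : orderOf (⟨x, hxT⟩ : T) = Nat.card T := orderOf_eq_card_of_forall_mem_zpowers hx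
    rwa [Subgroup.orderOf_mk] at h1
  refine ⟨x, ?_, ?_, ?_⟩
  · rw [hordx]; exact hcard
  · have h1 : Nat.card T = (S : Subgroup H).index := by
      have h2 := (S : Subgroup H).card_mul_index
      have h3 : 0 < Nat.card (S : Subgroup H) := Nat.card_pos
      exact Nat.eq_of_mul_eq_mul_left h3 (hcard.trans h2.symm)
    rw [hordx, h1]
    have : (S : Subgroup H).FiniteIndex := inferInstance
    have h4 := S.not_dvd_index
    exact ((Nat.Prime.coprime_iff_not_dvd Fact.out).2 h4).symm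
  · intro h
    obtain ⟨⟨s, t⟩, hst⟩ := hT.2 h
    refine ⟨s, s.2, ?_⟩
    have h1 : ((t : T) : H) ∈ Subgroup.zpowers x := by
      have h2 := hx t
      obtain ⟨k, hk⟩ := h2
      refine ⟨k, ?_⟩
      have := congrArg Subtype.val hk
      simpa using this
    obtain ⟨k, hk⟩ := (mem_powers_iff_mem_zpowers).2 h1
    refine ⟨k, ?_⟩
    rw [← hst]
    show (s : H) * (t : H) = _
    rw [← hk]

/-- A cyclic subgroup and a commuting element of coprime order generating the group. -/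
theorem cyclic_of_comm_gen (S : Subgroup H) [hS : IsCyclic S] (x : H) (hcomm : ∀ s ∈ S, s * x = x * s)
    (hcop : Nat.Coprime (Nat.card S) (orderOf x))
    (hgen : ∀ h : H, ∃ s ∈ S, ∃ k : ℕ, h = s * x ^ k) : IsCyclic H := by
  obtain ⟨⟨g, hgS⟩, hg⟩ := hS.exists_generator
  have hordg : orderOf g = Nat.card S := by
    have h1 : orderOf (⟨g, hgS⟩ : S) = Nat.card S := orderOf_eq_card_of_forall_mem_zpowers hg
    rwa [Subgroup.orderOf_mk] at h1
  have hc : Commute g x := hcomm g hgS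
  have hord : orderOf (g * x) = Nat.card S * orderOf x := by
    rw [hc.orderOf_mul_eq_mul_orderOf_of_coprime (by rw [hordg]; exact hcop), hordg]
  have hle : Nat.card H ≤ Nat.card S * orderOf x := by
    rw [← Nat.card_zpowers x, ← Nat.card_prod]
    refine Nat.card_le_card_of_surjective (fun a : S × Subgroup.zpowers x => (a.1 : H) * (a.2 : H)) ?_
    intro h
    obtain ⟨s, hs, k, rfl⟩ := hgen h
    exact ⟨(⟨s, hs⟩, ⟨x ^ k, Subgroup.npow_mem_zpowers x k⟩), rfl⟩
  refine isCyclic_of_orderOf_eq_card (g * x) ?_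
  refine le_antisymm (Nat.le_of_dvd Nat.card_pos (orderOf_dvd_natCard _)) ?_
  rw [hord]
  exact hle

end

section

variable {G : Type*} [Group G] [Finite G]

/-- The subgroup generated by `Q` and `x ∈ N(Q)`. -/
theorem sup_zpowers_normal (Q : Subgroup G) (x : G) (hx : x ∈ normalizer (Q : Set G)) :
    (Q.subgroupOf (Q ⊔ zpowers x)).Normal := by
  have hle : Q ⊔ zpowers x ≤ normalizer (Q : Set G) := by
    refine sup_le Subgroup.le_normalizer ?_
    rw [zpowers_le]
    exact hx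
  rw [Subgroup.normal_subgroupOf_iff_le_normalizer le_sup_left]
  exact hle

theorem sup_zpowers_cyclic (Q : Subgroup G) (x : G) [hn : (Q.subgroupOf (Q ⊔ zpowers x)).Normal] :
    IsCyclic (↥(Q ⊔ zpowers x) ⧸ Q.subgroupOf (Q ⊔ zpowers x)) := by
  let H := Q ⊔ zpowers x
  let x' : H := ⟨x, (le_sup_right : zpowers x ≤ Q ⊔ zpowers x) (mem_zpowers x)⟩
  have h1 : ∀ h : H, ((h : H) : H ⧸ Q.subgroupOf H) ∈ zpowers ((x' : H) : H ⧸ Q.subgroupOf H) := by
    have key : (Q ⊔ zpowers x) ≤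
        ((zpowers ((x' : H) : H ⧸ Q.subgroupOf H)).comap (QuotientGroup.mk' (Q.subgroupOf H))).map H.subtype := by
      refine sup_le ?_ ?_
      · intro q hq
        have hq' : q ∈ H := (le_sup_left : Q ≤ Q ⊔ zpowers x) hq
        refine ⟨⟨q, hq'⟩, ?_, rfl⟩
        have : ((⟨q, hq'⟩ : H) : H ⧸ Q.subgroupOf H) = 1 :=
          (QuotientGroup.eq_one_iff _).2 (by simpa [Subgroup.mem_subgroupOf] using hq)
        show (QuotientGroup.mk' (Q.subgroupOf H)) ⟨q, hq'⟩ ∈ zpowers (((x' : H) : H ⧸ Q.subgroupOf H))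
        rw [QuotientGroup.mk'_apply, this]
        exact Subgroup.one_mem _
      · rw [zpowers_le]
        exact ⟨x', mem_zpowers _, rfl⟩
    intro h
    obtain ⟨h', hh', hhh⟩ := key h.2
    have h3 : h' = h := Subtype.ext hhh
    rw [← h3]
    exact hh'
  refine ⟨⟨((x' : H) : H ⧸ Q.subgroupOf H), ?_⟩⟩
  intro y
  obtain ⟨a, rfl⟩ := QuotientGroup.mk_surjective y
  exact h1 a

end

end Cfsg.Agent.Lib.H6Restr
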