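import Mathlib

/-!
Solvability by induction over normal subgroups and quotients (helper6).
-/

set_option autoImplicit false
set_option linter.all false

universe u

namespace Cfsg.Agent.Lib.H6Solv

/-- If a property of finite groups passes to normal subgroups and quotients, and simple groups with
it are solvable, then all groups with it are solvable. -/
theorem solvable_of_simple (P : ∀ (G : Type u) [Group G] [Finite G], Prop)
    (hN : ∀ (G : Type u) [Group G] [Finite G], P G → ∀ N : Subgroup G, N.Normal → P N)
    (hQ : ∀ (G : Type u) [Group G] [Finite G], P G → ∀ (N : Subgroup G) [N.Normal], P (G ⧸ N))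
    (hS : ∀ (G : Type u) [Group G] [Finite G] [IsSimpleGroup G], P G → Group.IsSolvable G) :
    ∀ (G : Type u) [Group G] [Finite G], P G → Group.IsSolvable G := by
  intro G _ _ hG
  induction hk : Nat.card G using Nat.strong_induction_on generalizing G with
  | _ k ih =>
    by_cases htriv : Subsingleton G
    · exact Group.isSolvable_of_comm (fun a b => Subsingleton.elim _ _)
    rw [not_subsingleton_iff_nontrivial] at htriv
    by_cases hs : ∀ N : Subgroup G, N.Normal → N = ⊥ ∨ N = ⊤
    · haveI : IsSimpleGroup G := { eq_bot_or_eq_top_of_normal := hs }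
      exact hS G hG
    push Not at hs
    obtain ⟨N, hNn, hNb, hNt⟩ := hs
    haveI := hNn
    have h1 : Nat.card N < k := by
      rw [← hk, ← N.card_mul_index]
      have hi : N.index ≠ 1 := fun h => hNt (Subgroup.index_eq_one.1 h)
      have hi0 : N.index ≠ 0 := Subgroup.index_ne_zero_of_finite
      have hc : 0 < Nat.card N := Nat.card_pos
      have : 2 ≤ N.index := by omega
      nlinarith
    have h2 : Nat.card (G ⧸ N) < k := by
      rw [← hk, Subgroup.card_eq_card_quotient_mul_card_subgroup N]
      have hc : Nat.card N ≠ 1 := fun h => hNb (Subgroup.eq_bot_of_card_eq N h)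
      have hc0 : 0 < Nat.card N := Nat.card_pos
      have hq : 0 < Nat.card (G ⧸ N) := Nat.card_pos
      have : 2 ≤ Nat.card N := by omega
      nlinarith
    haveI s1 := ih _ h1 N (hN G hG N hNn) rfl
    haveI s2 := ih _ h2 (G ⧸ N) (hQ G hG N) rfl
    exact Group.isSolvable_of_ker_le_range N.subtype (QuotientGroup.mk' N) (by simp)

end Cfsg.Agent.Lib.H6Solv
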