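import Cfsg.Agent.Lib.SuzukiLie

/-! In the Suzuki groups, the elements fixing a nonzero vector of the natural module are
`2`-elements: the characteristic polynomial of `g` is determined by the trace. -/

set_option autoImplicit false

namespace Cfsg.Agent.Lib.H6SzFix

open Matrix Cfsg.Agent.Lib.Suzuki Cfsg.Lie
open scoped MatrixGroups

section Poly

variable {F : Type*} [Field F]

/-- The coefficients of the characteristic polynomial. -/
def e1 (M : Matrix (Fin 4) (Fin 4) F) : F := M 0 0 + M 1 1 + M 2 2 + M 3 3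

def e2 (M : Matrix (Fin 4) (Fin 4) F) : F :=
  (M 0 0 * M 1 1 - M 0 1 * M 1 0) + (M 0 0 * M 2 2 - M 0 2 * M 2 0) +
  (M 0 0 * M 3 3 - M 0 3 * M 3 0) + (M 1 1 * M 2 2 - M 1 2 * M 2 1) +
  (M 1 1 * M 3 3 - M 1 3 * M 3 1) + (M 2 2 * M 3 3 - M 2 3 * M 3 2)

def minor3 (M : Matrix (Fin 4) (Fin 4) F) (a b c : Fin 4) : F :=
  M a a * (M b b * M c c - M b c * M c b) - M a b * (M b a * M c c - M b c * M c a) +
    M a c * (M b a * M c b - M b b * M c a)

def e3 (M : Matrix (Fin 4) (Fin 4) F) : F :=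
  minor3 M 0 1 2 + minor3 M 0 1 3 + minor3 M 0 2 3 + minor3 M 1 2 3

def e4 (M : Matrix (Fin 4) (Fin 4) F) : F :=
  M 0 0 * minor3 (M) 1 2 3 -
  M 0 1 * (M 1 0 * (M 2 2 * M 3 3 - M 2 3 * M 3 2) - M 1 2 * (M 2 0 * M 3 3 - M 2 3 * M 3 0) +
    M 1 3 * (M 2 0 * M 3 2 - M 2 2 * M 3 0)) +
  M 0 2 * (M 1 0 * (M 2 1 * M 3 3 - M 2 3 * M 3 1) - M 1 1 * (M 2 0 * M 3 3 - M 2 3 * M 3 0) +
    M 1 3 * (M 2 0 * M 3 1 - M 2 1 * M 3 0)) -
  M 0 3 * (M 1 0 * (M 2 1 * M 3 2 - M 2 2 * M 3 1) - M 1 1 * (M 2 0 * M 3 2 - M 2 2 * M 3 0) +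
    M 1 2 * (M 2 0 * M 3 1 - M 2 1 * M 3 0))

theorem det_eq_e4 (M : Matrix (Fin 4) (Fin 4) F) : M.det = e4 M := by
  rw [Matrix.det_succ_row_zero]
  simp only [Fin.sum_univ_four, Matrix.det_fin_three, e4, minor3]
  simp [Fin.succAbove, Matrix.submatrix, Fin.lt_def]
  ring

/-- Cayley--Hamilton in dimension four. -/
theorem cayley (M : Matrix (Fin 4) (Fin 4) F) :
    M * M * M * M - e1 M • (M * M * M) + e2 M • (M * M) - e3 M • M + e4 M • (1 : Matrix (Fin 4) (Fin 4) F) = 0 := by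
  ext i j
  fin_cases i <;> fin_cases j <;>
    simp [Matrix.mul_apply, Fin.sum_univ_four, e1, e2, e3, e4, minor3, Matrix.sub_apply,
      Matrix.add_apply, Matrix.smul_apply] <;> ring

/-- A Newton identity. -/
theorem newton (M : Matrix (Fin 4) (Fin 4) F) :
    Matrix.trace (M * M * M) - e1 M * Matrix.trace (M * M) + e2 M * e1 M = 3 * e3 M := by
  simp only [Matrix.trace, Matrix.diag, Fin.sum_univ_four, Matrix.mul_apply, e1, e2, e3, minor3]
  ring

end Poly

section Main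

variable {F : Type*} [Field F] [CharP F 2] {m : ℕ}

/-- The inverse of a symplectic matrix. -/
def inv' (M : Matrix (Fin 4) (Fin 4) F) : Matrix (Fin 4) (Fin 4) F := suzukiForm F * Mᵀ * suzukiForm F

theorem inv'_mul (M : Matrix (Fin 4) (Fin 4) F) (h : Mᵀ * suzukiForm F * M = suzukiForm F) :
    inv' M * M = 1 := by
  calc inv' M * M = suzukiForm F * (Mᵀ * suzukiForm F * M) := by
        simp only [inv', Matrix.mul_assoc]
    _ = 1 := by rw [h, suzukiForm_sq]

theorem trace_inv' (M : Matrix (Fin 4) (Fin 4) F) : Matrix.trace (inv' M) = e1 M := by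
  simp [inv', Matrix.trace, Matrix.diag, Fin.sum_univ_four, Matrix.mul_apply, suzukiForm, e1,
    Matrix.vecMul, dotProduct]
  ring

theorem e3_eq (M : Matrix (Fin 4) (Fin 4) F) (h : Mᵀ * suzukiForm F * M = suzukiForm F)
    (hd : M.det = 1) : e3 M = e1 M := by
  have h1 : M * inv' M = 1 := mul_eq_one_comm.1 (inv'_mul M h)
  have hc := cayley M
  have h4 : e4 M = 1 := by rw [← det_eq_e4, hd]
  have h5 : (M * M * M * M - e1 M • (M * M * M) + e2 M • (M * M) - e3 M • M +
      e4 M • (1 : Matrix (Fin 4) (Fin 4) F)) * inv' M =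
      M * M * M - e1 M • (M * M) + e2 M • M - e3 M • (1 : Matrix (Fin 4) (Fin 4) F) +
        e4 M • inv' M := by
    simp only [Matrix.add_mul, Matrix.sub_mul, Matrix.smul_mul, Matrix.one_mul]
    have e1' : M * M * M * M * inv' M = M * M * M := by
      rw [Matrix.mul_assoc (M * M * M), h1, Matrix.mul_one]
    have e2' : M * M * M * inv' M = M * M := by
      rw [Matrix.mul_assoc (M * M), h1, Matrix.mul_one]
    have e3' : M * M * inv' M = M := by
      rw [Matrix.mul_assoc M, h1, Matrix.mul_one]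
    rw [e1', e2', e3', h1]
  rw [hc, Matrix.zero_mul] at h5
  have h6 := congrArg Matrix.trace h5
  rw [Matrix.trace_zero, Matrix.trace_add, Matrix.trace_sub, Matrix.trace_add, Matrix.trace_sub,
    Matrix.trace_smul, Matrix.trace_smul, Matrix.trace_smul, Matrix.trace_smul, trace_inv', h4,
    Matrix.trace_one] at h6
  simp only [Fintype.card_fin, smul_eq_mul] at h6
  have hn := newton M
  have htr : Matrix.trace M = e1 M := by
    simp [Matrix.trace, Matrix.diag, Fin.sum_univ_four, e1]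
  rw [htr] at h6
  push_cast at h6
  linear_combination h6 + hn

/-- The relation between the two coefficients. -/
theorem e2_eq (M : Matrix (Fin 4) (Fin 4) F) (hX : IsX m M) : e2 M = (e1 M) ^ (2 ^ (m + 1)) := by
  have h2 : (2 : F) = 0 := two_eq
  have hsp := hX.1
  have hc03 := col_entry M hsp 0 3
  have hr12 := row_entry M hsp 1 2
  simp [suzukiForm] at hc03 hr12
  have hst : ∀ p, star4 M p p = (M p p) ^ (2 ^ (m + 1)) := fun p => by
    have := congrFun (congrFun hX.2 p) p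
    simpa using this
  have h0 := hst 0
  have h1 := hst 1
  have h2' := hst 2
  have h3 := hst 3
  simp [star4, pairOf] at h0 h1 h2' h3
  have hsum : (e1 M) ^ (2 ^ (m + 1)) = (M 0 0) ^ (2 ^ (m + 1)) + (M 1 1) ^ (2 ^ (m + 1)) +
      (M 2 2) ^ (2 ^ (m + 1)) + (M 3 3) ^ (2 ^ (m + 1)) := by
    rw [e1, frob, frob, frob]
  rw [hsum, ← h0, ← h1, ← h2', ← h3, e2]
  linear_combination hc03 + hr12 + (1 - M 0 3 * M 3 0 - M 1 2 * M 2 1 - M 1 0 * M 2 3 - M 2 0 * M 1 3) * h2

/-- The key statement: fixing a nonzero vector forces `M ^ 4 = 1`. -/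
theorem pow_four_of_fix (M : Matrix (Fin 4) (Fin 4) F) (hX : IsX m M) (hd : M.det = 1)
    (v : Fin 4 → F) (hv : v ≠ 0) (hfix : M *ᵥ v = v) : M * M * M * M = 1 := by
  have h2 : (2 : F) = 0 := two_eq
  have h4 : e4 M = 1 := by rw [← det_eq_e4, hd]
  have h3 : e3 M = e1 M := e3_eq M hX.1 hd
  have hc := cayley M
  have hMv : ∀ k : ℕ, (M ^ k) *ᵥ v = v := by
    intro k
    induction k with
    | zero => simp
    | succ k ih => rw [pow_succ, ← Matrix.mulVec_mulVec, hfix, ih]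
  have hv1 : (M * M) *ᵥ v = v := by
    rw [← Matrix.mulVec_mulVec, hfix, hfix]
  have hv2 : (M * M * M) *ᵥ v = v := by
    rw [← Matrix.mulVec_mulVec, hfix, hv1]
  have hv3 : (M * M * M * M) *ᵥ v = v := by
    rw [← Matrix.mulVec_mulVec, hfix, hv2]
  have hscal : (1 - e1 M + e2 M - e3 M + e4 M) • v = 0 := by
    have := congrArg (fun A : Matrix (Fin 4) (Fin 4) F => A *ᵥ v) hc
    simp only [Matrix.add_mulVec, Matrix.sub_mulVec, Matrix.smul_mulVec, Matrix.one_mulVec,
      Matrix.zero_mulVec, hv1, hv2, hv3, hfix] at this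
    rw [← this]
    module
  have hs0 : 1 - e1 M + e2 M - e3 M + e4 M = 0 := by
    rcases smul_eq_zero.mp hscal with h | h
    · exact h
    · exact (hv h).elim
  have he2 : e2 M = 0 := by
    rw [h3, h4] at hs0
    linear_combination hs0 - (1 - e1 M) * h2
  have he1 : e1 M = 0 := by
    rw [e2_eq M hX] at he2
    exact eq_zero_of_pow_eq_zero he2
  rw [h3, h4, he1, he2] at hc
  simp only [zero_smul, sub_zero, add_zero, one_smul] at hc
  have h5 : (1 : Matrix (Fin 4) (Fin 4) F) + 1 = 0 := by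
    have : ((2 : F) • (1 : Matrix (Fin 4) (Fin 4) F)) = 0 := by rw [h2, zero_smul]
    rw [two_smul] at this
    exact this
  have h6 : M * M * M * M = M * M * M * M + (1 + 1) := by rw [h5, add_zero]
  calc M * M * M * M = M * M * M * M + 1 + 1 - 1 - 1 := by abel
    _ = 1 := by
      rw [hc]
      have : (0 : Matrix (Fin 4) (Fin 4) F) + 1 - 1 - 1 = 0 - 1 := by abel
      rw [this, zero_sub]
      exact neg_eq_of_add_eq_zero_left h5

end Main

section Mem

variable {F : Type*} [Field F] [Fintype F] {m : ℕ} [CharP F 2]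
variable (hs : SqProp F m) (h4 : 4 ≤ 2 ^ (m + 1)) (hq : 2 ^ (m + 1) + 2 < Fintype.card F)
include hs h4 hq

theorem isX_of_mem (x : GL (Fin 4) F) (hx : x ∈ Lie.Sz F (2 ^ (m + 1))) :
    IsX m (x : Matrix (Fin 4) (Fin 4) F) := by
  rw [← range_eq hs h4 hq] at hx
  obtain ⟨y, rfl⟩ := hx
  have hval : ((toGL F m y : GL (Fin 4) F) : Matrix (Fin 4) (Fin 4) F) = (y.1 : SL(4, F)).1 := rfl
  rw [hval]
  rcases decomp hs h4 hq y.2 with ⟨a, b, α, h⟩ | ⟨a, b, c, e, α, h⟩
  · rw [h]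
    exact (isX_tr hs a b).mul (isX_dg hs α)
  · rw [h]
    exact ((isX_tr hs a b).mul isX_w).mul ((isX_tr hs c e).mul (isX_dg hs α))

/-- Elements of the Suzuki group fixing a nonzero vector are `2`-elements. -/
theorem fix_pow_four (g : Lie.Sz F (2 ^ (m + 1))) (v : Fin 4 → F) (hv : v ≠ 0)
    (hfix : (((g : GL (Fin 4) F) : Matrix (Fin 4) (Fin 4) F)) *ᵥ v = v) : g ^ (2 ^ 2) = 1 := by
  have hX := isX_of_mem hs h4 hq g.1 g.2
  have hd := det_of_isX g.1 hX
  have := pow_four_of_fix _ hX hd v hv hfix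
  apply Subtype.ext
  apply Units.ext
  show ((g.1 ^ 4 : GL (Fin 4) F) : Matrix (Fin 4) (Fin 4) F) = 1
  rw [Units.val_pow_eq_pow_val, pow_succ, pow_succ, pow_succ, pow_one]
  exact this

end Mem

end Cfsg.Agent.Lib.H6SzFix
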