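import Mathlib
import Cfsg.Agent.Lib.Tate
import Cfsg.Agent.Lib.FusionHypGroup
import Cfsg.Agent.Lib.PNilpB
import Cfsg.Agent.Lib.SchurZ
import Cfsg.Agent.Lib.H5Basic
import Cfsg.Agent.Lib.CoprimeAB
import Cfsg.Agent.Lib.H6PGroup
import Cfsg.Agent.Lib.PResidual

/-! `H`-subgroups (`E^g ∩ N(E) ≤ E`) and `p`-nilpotence for the smallest prime `p`. -/

set_option autoImplicit false
set_option linter.unusedVariables false
set_option linter.style.haveILetI false
set_option linter.unusedSectionVars false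

namespace Cfsg.Agent.Lib.HSub

open Cfsg Subgroup
open scoped Pointwise commutatorElement

universe u

variable {G : Type*} [Group G]

/-- `E` is an `H`-subgroup of the ambient group. -/
def IsH (E : Subgroup G) : Prop :=
  ∀ g : G, E.map (MulAut.conj g).toMonoidHom ⊓ normalizer (E : Set G) ≤ E

theorem IsH.conj_mem {E : Subgroup G} (h : IsH E) {x : G} (hx : x ∈ E) (g : G)
    (hn : g * x * g⁻¹ ∈ normalizer (E : Set G)) : g * x * g⁻¹ ∈ E :=
  h g ⟨⟨x, hx, rfl⟩, hn⟩

variable [Finite G] {p : ℕ} [hp : Fact p.Prime]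

theorem IsH.le_normalizer {E W : Subgroup G} (h : IsH E) (hEW : E ≤ W) (hW : IsPGroup p W) :
    W ≤ normalizer (E : Set G) := by
  haveI : Group.IsNilpotent W := hW.isNilpotent
  by_contra hne
  let A : Subgroup W := (normalizer (E : Set G)).subgroupOf W
  have hA : A < ⊤ := by
    refine lt_top_iff_ne_top.2 fun hA => hne ?_
    intro w hw
    have : (⟨w, hw⟩ : W) ∈ A := hA ▸ mem_top _
    exact mem_subgroupOf.1 this
  have h1 := Group.normalizerCondition_of_isNilpotent A hA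
  obtain ⟨a, ha, haA⟩ := SetLike.exists_of_lt h1
  apply haA
  refine mem_subgroupOf.2 (Cfsg.Agent.Lib.H5Basic.mem_normalizer_of_map_conj_le ?_)
  rintro _ ⟨e, he, rfl⟩
  have he' : (⟨e, hEW he⟩ : W) ∈ A := mem_subgroupOf.2 (Subgroup.le_normalizer he)
  have h2 := (mem_normalizer_iff.1 ha _).1 he'
  exact h.conj_mem he a (mem_subgroupOf.1 h2)

theorem IsH.mem_normalizer {E W : Subgroup G} (h : IsH E) (hEW : E ≤ W) (hW : IsPGroup p W) {g : G}
    (hg : g ∈ normalizer (W : Set G)) : g ∈ normalizer (E : Set G) := by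
  refine Cfsg.Agent.Lib.H5Basic.mem_normalizer_of_map_conj_le ?_
  rintro _ ⟨e, he, rfl⟩
  have := (mem_normalizer_iff.1 hg e).1 (hEW he)
  exact h.conj_mem he g (h.le_normalizer hEW hW this)

/-- A maximal subgroup of a `p`-group is normal of index `p`. -/
theorem coatom_index {P : Type*} [Group P] [Finite P] (hP : IsPGroup p P) {M : Subgroup P}
    (hM : IsCoatom M) : M.Normal ∧ M.index = p := by
  classical
  have hnorm : M.Normal := by
    haveI hnil : Group.IsNilpotent P := hP.isNilpotent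
    have h : Group.IsNilpotent P ↔ ∀ H : Subgroup P, IsCoatom H → H.Normal :=
      (Group.isNilpotent_of_finite_tfae (G := P)).out 0 2
    exact h.mp hnil M hM
  refine ⟨hnorm, ?_⟩
  haveI := hnorm
  obtain ⟨x, hx⟩ : ∃ x, x ∉ M := by
    by_contra h
    push_neg at h
    exact hM.1 (eq_top_iff.2 fun y _ => h y)
  have hz : ((x : P ⧸ M)) ^ p = 1 := by
    rw [← QuotientGroup.mk_pow]
    exact (QuotientGroup.eq_one_iff _).2 ((Cfsg.Agent.Lib.H6PGroup.coatom_facts hP hM).1 x)
  have hz1 : (x : P ⧸ M) ≠ 1 := fun h => hx ((QuotientGroup.eq_one_iff _).1 h)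
  have ho := orderOf_eq_prime hz hz1
  let K : Subgroup P := (zpowers (x : P ⧸ M)).comap (QuotientGroup.mk' M)
  have hMK : M ≤ K := by
    intro m hm
    refine mem_comap.2 ?_
    have h1 : (QuotientGroup.mk' M) m = 1 := (QuotientGroup.eq_one_iff m).2 hm
    rw [h1]
    exact one_mem _
  have hxK : x ∈ K := mem_comap.2 (mem_zpowers _)
  have hK : K = ⊤ := hM.2 K (lt_of_le_of_ne hMK (fun e => hx (e ▸ hxK)))
  have htop : zpowers (x : P ⧸ M) = ⊤ := by
    refine eq_top_iff.2 fun q _ => ?_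
    obtain ⟨w, rfl⟩ := QuotientGroup.mk'_surjective M q
    have : w ∈ K := hK ▸ mem_top w
    exact this
  rw [Subgroup.index_eq_card]
  have h3 := Nat.card_zpowers (x : P ⧸ M)
  rw [htop, Subgroup.card_top] at h3
  rw [h3, ho]

theorem relIndex_map_subtype {S : Subgroup G} (M : Subgroup S) :
    (M.map S.subtype).relIndex S = M.index := by
  have h : (M.map S.subtype).subgroupOf S = M :=
    Subgroup.comap_map_eq_self_of_injective S.subtype_injective M
  rw [Subgroup.relIndex, h]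

theorem le_normalizer_map_subtype {S : Subgroup G} (M : Subgroup S) [hM : M.Normal] :
    S ≤ normalizer ((M.map S.subtype : Subgroup G) : Set G) := by
  intro s hs
  rw [mem_normalizer_iff]
  intro x
  constructor
  · rintro ⟨y, hy, rfl⟩
    exact ⟨⟨s, hs⟩ * y * ⟨s, hs⟩⁻¹, hM.conj_mem y hy _, rfl⟩
  · rintro ⟨y, hy, e⟩
    refine ⟨⟨s, hs⟩⁻¹ * y * (⟨s, hs⟩⁻¹)⁻¹, hM.conj_mem y hy _, ?_⟩
    have e' : (y : G) = s * x * s⁻¹ := e
    simp [e']
    group

theorem mem_frattini_of {S : Subgroup G} (hS : IsPGroup p S) {x : G} (hx : x ∈ S)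
    (h : ∀ M : Subgroup G, M ≤ S → M.relIndex S = p → S ≤ normalizer (M : Set G) → x ∈ M) :
    x ∈ (frattini ↥S).map S.subtype := by
  refine ⟨⟨x, hx⟩, ?_, rfl⟩
  show (⟨x, hx⟩ : S) ∈ frattini ↥S
  simp only [frattini, Order.radical, Subgroup.mem_iInf]
  intro M hM
  obtain ⟨hn, hi⟩ := coatom_index hS hM
  haveI := hn
  have := h (M.map S.subtype) (map_subtype_le M) ((relIndex_map_subtype M).trans hi)
    (le_normalizer_map_subtype M)
  obtain ⟨y, hy, e⟩ := this
  have : y = ⟨x, hx⟩ := Subtype.ext e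
  exact this ▸ hy

theorem exists_max_ge {S C : Subgroup G} (hS : IsPGroup p S) (hCS : C ≤ S) (hne : C ≠ S) :
    ∃ M : Subgroup G, M ≤ S ∧ C ≤ M ∧ M.relIndex S = p ∧ S ≤ normalizer (M : Set G) := by
  have h1 : C.subgroupOf S ≠ ⊤ := by
    intro h
    apply hne
    exact le_antisymm hCS ((subgroupOf_eq_top).1 h)
  obtain ⟨M, hM, hCM⟩ := (eq_top_or_exists_le_coatom (C.subgroupOf S)).resolve_left h1
  obtain ⟨hn, hi⟩ := coatom_index hS hM
  haveI := hn
  refine ⟨M.map S.subtype, map_subtype_le M, ?_, (relIndex_map_subtype M).trans hi,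
    le_normalizer_map_subtype M⟩
  intro c hc
  exact ⟨⟨c, hCS hc⟩, hCM (mem_subgroupOf.2 hc), rfl⟩

theorem relIndex_dvd_of_le {M A B : Subgroup G} (hAB : A ≤ B) (hB : B ≤ normalizer (M : Set G)) :
    M.relIndex A ∣ M.relIndex B := by
  haveI hN : (M.subgroupOf B).Normal := by
    refine ⟨fun n hn g => ?_⟩
    refine mem_subgroupOf.2 ?_
    have := (mem_normalizer_iff.1 (hB g.2) n).1 (mem_subgroupOf.1 hn)
    simpa using this
  have h := Subgroup.relIndex_dvd_index_of_normal (M.subgroupOf B) (A.subgroupOf B)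
  rwa [Subgroup.relIndex_subgroupOf hAB] at h

/-- A `t`-action on a section of prime order `p` is trivial when `t` has order prime to `p - 1`. -/
theorem mem_of_index_p {U U₀ : Subgroup G} {t : G} (hU₀ : U₀ ≤ U) (hn : U ≤ normalizer (U₀ : Set G))
    (hi : U₀.relIndex U = p) (htU : t ∈ normalizer (U : Set G)) (htU₀ : t ∈ normalizer (U₀ : Set G))
    (hco : (orderOf t).Coprime (p - 1)) {u : G} (hu : u ∈ U) : u⁻¹ * (t * u * t⁻¹) ∈ U₀ := by
  classical
  let H : Subgroup U := U₀.subgroupOf U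
  haveI hN : H.Normal := by
    refine ⟨fun n hn' g => ?_⟩
    refine mem_subgroupOf.2 ?_
    have := (mem_normalizer_iff.1 (hn g.2) n).1 (mem_subgroupOf.1 hn')
    simpa using this
  let e : MulAut U := Cfsg.Agent.Lib.CoprimeAB.conjOnN U htU
  have heH : H.map e.toMonoidHom = H := by
    ext x
    constructor
    · rintro ⟨y, hy, rfl⟩
      refine mem_subgroupOf.2 ?_
      exact (mem_normalizer_iff.1 htU₀ y).1 (mem_subgroupOf.1 hy)
    · intro hx
      have hx' : ((x : U) : G) ∈ U₀ := mem_subgroupOf.1 hx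
      have h2 := (mem_normalizer_iff.1 htU₀ (t⁻¹ * x * t)).2 (by
        have : t * (t⁻¹ * (x : G) * t) * t⁻¹ = x := by group
        rw [this]; exact hx')
      refine ⟨⟨t⁻¹ * x * t, ?_⟩, ?_, ?_⟩
      · have := (mem_normalizer_iff.1 htU (t⁻¹ * x * t)).2 (by
          have : t * (t⁻¹ * (x : G) * t) * t⁻¹ = x := by group
          rw [this]; exact x.2)
        exact this
      · exact mem_subgroupOf.2 h2
      · apply Subtype.ext
        show t * (t⁻¹ * (x : G) * t) * t⁻¹ = x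
        group
  let α : MulAut (U ⧸ H) := QuotientGroup.congr H H e heH
  have hcard : Nat.card (U ⧸ H) = p := by
    rw [← Subgroup.index_eq_card]
    exact hi
  haveI : Fact (Nat.card (U ⧸ H)).Prime := ⟨hcard ▸ hp.out⟩
  haveI : IsCyclic (U ⧸ H) := isCyclic_of_prime_card rfl
  have hpow : ∀ (k : ℕ) (x : U), (α ^ k) (x : U ⧸ H) = ((e ^ k) x : U) := by
    intro k x
    induction k with
    | zero => rfl
    | succ k ih =>
      rw [pow_succ', pow_succ', MulAut.mul_apply, MulAut.mul_apply, ih]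
      rfl
  have he1 : e ^ orderOf t = 1 :=
    orderOf_dvd_iff_pow_eq_one.1 (Cfsg.Agent.Lib.CoprimeAB.orderOf_conjOnN_dvd U htU)
  have hα1 : α ^ orderOf t = 1 := by
    ext q
    induction q using QuotientGroup.induction_on with
    | H x =>
      rw [hpow, he1]
      rfl
  have hd1 : orderOf α ∣ orderOf t := orderOf_dvd_of_pow_eq_one hα1
  have hd2 : orderOf α ∣ p - 1 := by
    have h3 := orderOf_dvd_natCard α
    rw [IsCyclic.card_mulAut, hcard, Nat.totient_prime hp.out] at h3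
    exact h3
  have hα : α = 1 := by
    rw [← orderOf_eq_one_iff]
    exact Nat.eq_one_of_dvd_coprimes hco hd1 hd2
  have h4 : α ((⟨u, hu⟩ : U) : U ⧸ H) = ((⟨u, hu⟩ : U) : U ⧸ H) := by
    rw [hα]; rfl
  have h5 : ((e ⟨u, hu⟩ : U) : U ⧸ H) = ((⟨u, hu⟩ : U) : U ⧸ H) := h4
  rw [eq_comm, QuotientGroup.eq] at h5
  exact mem_subgroupOf.1 h5

/-- An element of order prime to `p (p - 1)` normalizing a cyclic `p`-group centralizes it. -/
theorem cyclic_fixed {A : Subgroup G} {t : G} (hA : IsPGroup p A) (hc : IsCyclic A)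
    (htA : t ∈ normalizer (A : Set G)) (hco : (orderOf t).Coprime p) (hco' : (orderOf t).Coprime (p - 1))
    {a : G} (ha : a ∈ A) : t * a * t⁻¹ = a := by
  let e : MulAut A := Cfsg.Agent.Lib.CoprimeAB.conjOnN A htA
  have hd1 : orderOf e ∣ orderOf t := Cfsg.Agent.Lib.CoprimeAB.orderOf_conjOnN_dvd A htA
  have hd2 : orderOf e ∣ (Nat.card A).totient := by
    have h3 := orderOf_dvd_natCard e
    rwa [IsCyclic.card_mulAut] at h3
  obtain ⟨n, hn⟩ := IsPGroup.iff_card.1 hA
  have hco2 : (orderOf t).Coprime (Nat.card A).totient := by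
    rw [hn]
    rcases n with _ | n
    · simp
    · rw [Nat.totient_prime_pow_succ hp.out]
      exact Nat.Coprime.mul_right (Nat.Coprime.pow_right n hco) hco'
  have he : e = 1 := by
    rw [← orderOf_eq_one_iff]
    exact Nat.eq_one_of_dvd_coprimes hco2 hd1 hd2
  have h5 : (e ⟨a, ha⟩ : A) = ⟨a, ha⟩ := by rw [he]; rfl
  exact congrArg Subtype.val h5

/-- If `[T, t]` lies in every maximal subgroup of the `p`-group `T` then `t` centralizes `T`. -/
theorem comm_of_forall_max {T : Subgroup G} {t : G} (hT : IsPGroup p T)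
    (htT : t ∈ normalizer (T : Set G)) (hco : (orderOf t).Coprime p)
    (h : ∀ M : Subgroup G, M ≤ T → M.relIndex T = p → T ≤ normalizer (M : Set G) →
      ∀ x ∈ T, x⁻¹ * (t * x * t⁻¹) ∈ M) : ∀ x ∈ T, t * x * t⁻¹ = x := by
  let A : Subgroup G := zpowers t
  let C : Subgroup G := T ⊓ centralizer (A : Set G)
  by_cases hC : C = T
  · intro x hx
    have hxC : x ∈ C := hC ▸ hx
    have h2 := mem_centralizer_iff.1 hxC.2 t (mem_zpowers t)
    rw [h2]
    group
  exfalso
  obtain ⟨M, hMT, hCM, hi, hn⟩ := exists_max_ge hT inf_le_left hC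
  have htT' : ∀ k : ℕ, ∀ x ∈ T, t ^ k * x * (t ^ k)⁻¹ ∈ T := by
    intro k
    induction k with
    | zero => intro x hx; simpa using hx
    | succ k ih =>
      intro x hx
      have h1 := (mem_normalizer_iff.1 htT _).1 (ih x hx)
      have e : t ^ (k + 1) * x * (t ^ (k + 1))⁻¹ = t * (t ^ k * x * (t ^ k)⁻¹) * t⁻¹ := by
        rw [pow_succ']; group
      rw [e]; exact h1
  have hpow : ∀ k : ℕ, ∀ x ∈ T, x⁻¹ * (t ^ k * x * (t ^ k)⁻¹) ∈ M := by
    intro k
    induction k with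
    | zero => intro x hx; simp
    | succ k ih =>
      intro x hx
      have h1 := h M hMT hi hn _ (htT' k x hx)
      have h2 := ih x hx
      have e : x⁻¹ * (t ^ (k + 1) * x * (t ^ (k + 1))⁻¹) =
          (x⁻¹ * (t ^ k * x * (t ^ k)⁻¹)) * ((t ^ k * x * (t ^ k)⁻¹)⁻¹ * (t * (t ^ k * x * (t ^ k)⁻¹) * t⁻¹)) := by
        rw [pow_succ']; group
      rw [e]; exact M.mul_mem h2 h1
  have hAT : A ≤ normalizer (T : Set G) := (zpowers_le).2 htT
  have hcop : Nat.Coprime (Nat.card T) (Nat.card A) := by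
    obtain ⟨n, hn'⟩ := IsPGroup.iff_card.1 hT
    rw [hn', Nat.card_zpowers]
    exact (Nat.Coprime.pow_right n hco).symm
  haveI : Group.IsNilpotent T := hT.isNilpotent
  have hcomm : ⁅T, A⁆ ≤ M := by
    rw [Subgroup.commutator_le]
    intro a ha b hb
    obtain ⟨k, rfl⟩ := (mem_powers_iff_mem_zpowers).2 hb
    have h1 := hpow k a⁻¹ (T.inv_mem ha)
    have e : ⁅a, t ^ k⁆ = (a⁻¹)⁻¹ * (t ^ k * a⁻¹ * (t ^ k)⁻¹) := by
      rw [commutatorElement_def]; group
    show ⁅a, (fun n => t ^ n) k⁆ ∈ M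
    simp only []
    rw [e]; exact h1
  have hne : M ≠ T := by
    rintro rfl
    rw [Subgroup.relIndex_self] at hi
    exact hp.out.one_lt.ne hi
  obtain ⟨x, hxT, hxM⟩ : ∃ x ∈ T, x ∉ M := by
    by_contra h'
    push_neg at h'
    exact hne (le_antisymm hMT h')
  obtain ⟨n, hn1, hn2⟩ := Cfsg.Agent.Lib.SchurZ.exists_decomp_fixed hAT hcop (Or.inl inferInstance) hxT
  apply hxM
  have h1 : x = n⁻¹ * (n * x) := by group
  rw [h1]
  exact M.mul_mem (M.inv_mem (hcomm hn1)) (hCM hn2)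

/-- The case of a subgroup of order at most `p d`. -/
theorem small_case {d : ℕ} {S T U M : Subgroup G} {t u : G}
    (hH : ∀ E : Subgroup G, E ≤ S → Nat.card E = d → IsH E)
    (hS : IsPGroup p S) (hTS : T ≤ S) (hTc : Nat.card T = p * d) (hUT : U ≤ T)
    (htU : t ∈ normalizer (U : Set G)) (hco : (orderOf t).Coprime (p - 1))
    (hMS : M ≤ S) (hMi : M.relIndex S = p) (hMn : S ≤ normalizer (M : Set G)) (hu : u ∈ U) :
    u⁻¹ * (t * u * t⁻¹) ∈ M := by
  have htu : t * u * t⁻¹ ∈ U := (mem_normalizer_iff.1 htU u).1 hu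
  have hpp := hp.out
  have h1 : M.relIndex T ∣ p := hMi ▸ relIndex_dvd_of_le hTS hMn
  rcases (Nat.dvd_prime hpp).1 h1 with h2 | h2
  · have hTM : T ≤ M := Subgroup.relIndex_eq_one.1 h2
    exact M.mul_mem (M.inv_mem (hTM (hUT hu))) (hTM (hUT htu))
  -- `F = M ⊓ T` has order `d`
  let F : Subgroup G := M ⊓ T
  have hFc : Nat.card F = d := by
    have h3 := Cfsg.Agent.Lib.H5Basic.card_inf_mul_relIndex M T
    rw [h2, hTc, mul_comm] at h3
    exact Nat.eq_of_mul_eq_mul_left hpp.pos h3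
  have hFH : IsH F := hH F (inf_le_right.trans hTS) hFc
  have hTF : T ≤ normalizer (F : Set G) := by
    intro x hx
    rw [mem_normalizer_iff]
    intro y
    constructor
    · rintro ⟨hy1, hy2⟩
      exact ⟨(mem_normalizer_iff.1 (hMn (hTS hx)) y).1 hy1,
        T.mul_mem (T.mul_mem hx hy2) (T.inv_mem hx)⟩
    · rintro ⟨hy1, hy2⟩
      refine ⟨(mem_normalizer_iff.1 (hMn (hTS hx)) y).2 hy1, ?_⟩
      have e : y = x⁻¹ * (x * y * x⁻¹) * x := by group
      rw [e]
      exact T.mul_mem (T.mul_mem (T.inv_mem hx) hy2) hx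
  -- `t` preserves `M ⊓ U`
  have hinv : ∀ x ∈ M ⊓ U, t * x * t⁻¹ ∈ M ⊓ U := by
    rintro x ⟨hx1, hx2⟩
    have h3 : t * x * t⁻¹ ∈ U := (mem_normalizer_iff.1 htU x).1 hx2
    have h4 := hFH.conj_mem (⟨hx1, hUT hx2⟩ : x ∈ F) t (hTF (hUT h3))
    exact ⟨h4.1, h3⟩
  have h5 : M.relIndex U ∣ p := by
    have := relIndex_dvd_of_le hUT (fun x hx => hMn (hTS hx))
    rwa [h2] at this
  rcases (Nat.dvd_prime hpp).1 h5 with h6 | h6
  · have hUM : U ≤ M := Subgroup.relIndex_eq_one.1 h6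
    exact M.mul_mem (M.inv_mem (hUM hu)) (hUM htu)
  have hUN : U ≤ normalizer ((M ⊓ U : Subgroup G) : Set G) := by
    intro x hx
    rw [mem_normalizer_iff]
    intro y
    constructor
    · rintro ⟨hy1, hy2⟩
      exact ⟨(mem_normalizer_iff.1 (hMn (hTS (hUT hx))) y).1 hy1,
        U.mul_mem (U.mul_mem hx hy2) (U.inv_mem hx)⟩
    · rintro ⟨hy1, hy2⟩
      refine ⟨(mem_normalizer_iff.1 (hMn (hTS (hUT hx))) y).2 hy1, ?_⟩
      have e : y = x⁻¹ * (x * y * x⁻¹) * x := by group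
      rw [e]
      exact U.mul_mem (U.mul_mem (U.inv_mem hx) hy2) hx
  have hi : (M ⊓ U).relIndex U = p := by rw [Subgroup.inf_relIndex_right, h6]
  have htN : t ∈ normalizer ((M ⊓ U : Subgroup G) : Set G) :=
    Cfsg.Agent.Lib.H5Basic.mem_normalizer_of_map_conj_le (by
      rintro _ ⟨x, hx, rfl⟩
      exact hinv x hx)
  exact (mem_of_index_p inf_le_right hUN hi htU htN hco hu).1

/-- The case of a large subgroup. -/
theorem big_case {d : ℕ} {k : ℕ} {S U : Subgroup G} {t : G}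
    (hH : ∀ E : Subgroup G, E ≤ S → (Nat.card E = d ∨ (d = 2 ∧ Nat.card E = 4)) → IsH E)
    (hd : d = p ^ (k + 1)) (hS : IsPGroup p S) (hUS : U ≤ S) (hUc : p * d ≤ Nat.card U)
    (htU : t ∈ normalizer (U : Set G)) (hco : (orderOf t).Coprime p) (hco' : (orderOf t).Coprime (p - 1))
    {u : G} (hu : u ∈ U) : t * u * t⁻¹ = u := by
  classical
  have hpp := hp.out
  have hUp : IsPGroup p U := hS.to_le hUS
  obtain ⟨n, hn⟩ := IsPGroup.iff_card.1 hUp
  have hkn : k + 2 ≤ n := by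
    have h1 : p ^ (k + 2) ≤ p ^ n := by
      rw [← hn]
      calc p ^ (k + 2) = p * d := by rw [hd]; ring
        _ ≤ _ := hUc
    exact (Nat.pow_le_pow_iff_right hpp.one_lt).1 h1
  refine Cfsg.Agent.Lib.PNilpB.ito_lemma hco _ U rfl hUp (fun q hq => (mem_normalizer_iff.1 htU q).1 hq) ?_ u hu
  intro E hEU hEinv hEexp e he
  have heU : e ∈ U := hEU he
  have hsmall := hEexp e he
  -- the cyclic subgroup generated by `e`
  let Z : Subgroup G := zpowers e
  have hZU : Z ≤ U := zpowers_le.2 heU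
  have hZp : IsPGroup p Z := hUp.to_le hZU
  obtain ⟨a, ha⟩ := IsPGroup.iff_card.1 hZp
  have hecard : Nat.card Z = orderOf e := Nat.card_zpowers e
  have hcyc : ∀ {A : Subgroup G}, A ≤ U → IsCyclic A → (Nat.card A = d ∨ (d = 2 ∧ Nat.card A = 4)) → ∀ x ∈ A, t * x * t⁻¹ = x := by
    intro A hAU hAc hAd x hx
    exact cyclic_fixed (hUp.to_le hAU) hAc
      ((hH A (hAU.trans hUS) hAd).mem_normalizer hAU hUp htU) hco hco' hx
  by_cases hZd : Nat.card Z = d ∨ (d = 2 ∧ Nat.card Z = 4)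
  · exact hcyc hZU (by infer_instance) hZd e (mem_zpowers e)
  -- otherwise `Z` is smaller than `d`
  have hak : a ≤ k := by
    by_contra hak
    push_neg at hak
    rcases hsmall with h | ⟨h2, h4⟩
    · have h3 : orderOf e ∣ p := orderOf_dvd_of_pow_eq_one h
      rw [← hecard, ha] at h3
      have h6 : a ≤ 1 := (Nat.pow_dvd_pow_iff_le_right hpp.one_lt).1 (by simpa using h3)
      have h7 : a = 1 := by omega
      have h8 : k = 0 := by omega
      apply hZd
      left
      rw [ha, hd, h7, h8]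
    · subst h2
      have h3 : orderOf e ∣ 2 ^ 2 := orderOf_dvd_of_pow_eq_one (by simpa using h4)
      rw [← hecard, ha] at h3
      have h6 : a ≤ 2 := (Nat.pow_dvd_pow_iff_le_right (by norm_num)).1 h3
      apply hZd
      have h7 : a = k + 1 ∨ (a = 2 ∧ k = 0) := by omega
      rcases h7 with h7 | ⟨h7, h8⟩
      · left
        rw [ha, hd, h7]
      · right
        rw [h8] at hd
        refine ⟨by simpa using hd, ?_⟩
        rw [ha, h7]; norm_num
  -- choose `E₁ ≥ Z` of order `d` and `T ≥ E₁` of order `p d` inside `U`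
  have hdvd : p ^ (k + 1) ∣ Nat.card U := by
    rw [hn]; exact pow_dvd_pow p (by omega)
  have hdvd2 : p ^ (k + 2) ∣ Nat.card U := by
    rw [hn]; exact pow_dvd_pow p hkn
  have hZ' : Nat.card (Z.subgroupOf U) = p ^ a := by
    rw [Cfsg.Agent.Lib.SylowIn.card_subgroupOf hZU, ha]
  obtain ⟨E₀, hE₀c, hZE₀⟩ := Sylow.exists_subgroup_card_pow_prime_le p hdvd _ hZ' hak.step
  obtain ⟨T₀, hT₀c, hE₀T₀⟩ := Sylow.exists_subgroup_card_pow_prime_le p hdvd2 E₀ hE₀c (Nat.le_succ _)
  let E₁ : Subgroup G := E₀.map U.subtype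
  let T : Subgroup G := T₀.map U.subtype
  have hE₁T : E₁ ≤ T := Subgroup.map_mono hE₀T₀
  have hTU : T ≤ U := map_subtype_le T₀
  have hE₁c : Nat.card E₁ = d := by
    rw [Subgroup.card_map_of_injective U.subtype_injective, hE₀c, hd]
  have hTc : Nat.card T = p * d := by
    rw [Subgroup.card_map_of_injective U.subtype_injective, hT₀c, hd]
    ring
  have heE₁ : e ∈ E₁ := by
    refine ⟨⟨e, heU⟩, hZE₀ (mem_subgroupOf.2 (mem_zpowers e)), rfl⟩
  have hTp : IsPGroup p T := hUp.to_le hTU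
  have hmaxc : ∀ M : Subgroup G, M ≤ T → M.relIndex T = p → Nat.card M = d := by
    intro M hM hi
    have h3 := Cfsg.Agent.Lib.H5Basic.card_inf_mul_relIndex M T
    rw [inf_eq_left.2 hM, hi, hTc, mul_comm] at h3
    exact Nat.eq_of_mul_eq_mul_left hpp.pos h3
  have hNd : ∀ M : Subgroup G, M ≤ T → Nat.card M = d → t ∈ normalizer (M : Set G) := by
    intro M hM hc
    exact (hH M ((hM.trans hTU).trans hUS) (Or.inl hc)).mem_normalizer (hM.trans hTU) hUp htU
  have hE₁N : t ∈ normalizer (E₁ : Set G) := hNd E₁ hE₁T hE₁c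
  have hlt : (E₁ : Subgroup G) ≠ T := by
    intro h
    rw [h, hTc] at hE₁c
    have hd0 : 0 < d := by rw [hd]; exact pow_pos hpp.pos _
    have : p * d = 1 * d := by rw [hE₁c]; ring
    have := Nat.eq_of_mul_eq_mul_right hd0 this
    exact hpp.one_lt.ne' this
  obtain ⟨x, hxT, hxE⟩ : ∃ x ∈ T, x ∉ E₁ := by
    by_contra h'
    push_neg at h'
    exact hlt (le_antisymm hE₁T h')
  by_cases hxz : zpowers x = T
  · have hTcyc : IsCyclic T := hxz ▸ inferInstance
    have hE₁cyc : IsCyclic E₁ := isCyclic_of_injective (Subgroup.inclusion hE₁T)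
      (Subgroup.inclusion_injective hE₁T)
    exact hcyc (hE₁T.trans hTU) hE₁cyc (Or.inl hE₁c) e heE₁
  obtain ⟨M, hMT, hxM, hMi, hMn⟩ := exists_max_ge hTp (zpowers_le.2 hxT) hxz
  have hMc := hmaxc M hMT hMi
  have hxM' : x ∈ M := hxM (mem_zpowers x)
  have hsup : T ≤ E₁ ⊔ M := by
    have h1 : E₁.relIndex T = p := by
      have h3 := Cfsg.Agent.Lib.H5Basic.card_inf_mul_relIndex E₁ T
      rw [inf_eq_left.2 hE₁T, hTc, hE₁c, mul_comm] at h3
      have hd0 : 0 < d := by rw [hd]; exact pow_pos hpp.pos _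
      exact Nat.eq_of_mul_eq_mul_right hd0 h3
    have h2 : E₁.relIndex (E₁ ⊔ M) * (E₁ ⊔ M).relIndex T = E₁.relIndex T :=
      Subgroup.relIndex_mul_relIndex E₁ (E₁ ⊔ M) T le_sup_left (sup_le hE₁T hMT)
    rw [h1] at h2
    have h3 : (E₁ ⊔ M).relIndex T ∣ p := ⟨_, by rw [← h2, mul_comm]⟩
    rcases (Nat.dvd_prime hpp).1 h3 with h4 | h4
    · exact Subgroup.relIndex_eq_one.1 h4
    · exfalso
      rw [h4] at h2
      have h5 : E₁.relIndex (E₁ ⊔ M) = 1 := by
        have : E₁.relIndex (E₁ ⊔ M) * p = 1 * p := by rw [h2]; ring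
        exact Nat.eq_of_mul_eq_mul_right hpp.pos this
      exact hxE (Subgroup.relIndex_eq_one.1 h5 ((le_sup_right : M ≤ E₁ ⊔ M) hxM'))
  have hTe : T = E₁ ⊔ M := le_antisymm hsup (sup_le hE₁T hMT)
  have hTN : t ∈ normalizer (T : Set G) := by
    refine Cfsg.Agent.Lib.H5Basic.mem_normalizer_of_map_conj_le ?_
    rw [hTe, Subgroup.map_sup]
    refine sup_le ?_ ?_
    · rintro _ ⟨y, hy, rfl⟩
      exact (le_sup_left : E₁ ≤ E₁ ⊔ M) ((mem_normalizer_iff.1 hE₁N y).1 hy)
    · rintro _ ⟨y, hy, rfl⟩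
      exact (le_sup_right : M ≤ E₁ ⊔ M) ((mem_normalizer_iff.1 (hNd M hMT hMc) y).1 hy)
  refine comm_of_forall_max hTp hTN hco ?_ e (hE₁T heE₁)
  intro M' hM' hi hn y hy
  exact mem_of_index_p hM' hn hi hTN (hNd M' hM' (hmaxc M' hM' hi)) hco' hy

/-- The key estimate: `[U, t]` lies in `Φ(S)`. -/
theorem key_mem {d k : ℕ} {S U : Subgroup G} {t u : G}
    (hH : ∀ E : Subgroup G, E ≤ S → (Nat.card E = d ∨ (d = 2 ∧ Nat.card E = 4)) → IsH E)
    (hd : d = p ^ (k + 1)) (hS : IsPGroup p S) (hSc : d < Nat.card S) (hUS : U ≤ S)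
    (htU : t ∈ normalizer (U : Set G)) (hco : (orderOf t).Coprime p) (hco' : (orderOf t).Coprime (p - 1))
    (hu : u ∈ U) : u⁻¹ * (t * u * t⁻¹) ∈ (frattini ↥S).map S.subtype := by
  have hpp := hp.out
  have htu : t * u * t⁻¹ ∈ U := (mem_normalizer_iff.1 htU u).1 hu
  refine mem_frattini_of hS (S.mul_mem (S.inv_mem (hUS hu)) (hUS htu)) ?_
  intro M hMS hMi hMn
  by_cases hUc : p * d ≤ Nat.card U
  · rw [big_case hH hd hS hUS hUc htU hco hco' hu, inv_mul_cancel]
    exact M.one_mem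
  push_neg at hUc
  obtain ⟨n, hn⟩ := IsPGroup.iff_card.1 hS
  have hkn : k + 2 ≤ n := by
    rw [hn, hd] at hSc
    have := (Nat.pow_lt_pow_iff_right hpp.one_lt).1 hSc
    omega
  have hUp : IsPGroup p U := hS.to_le hUS
  obtain ⟨a, ha⟩ := IsPGroup.iff_card.1 hUp
  have hak : a ≤ k + 2 := by
    have h1 : p ^ a < p ^ (k + 2) := by
      rw [← ha]
      calc Nat.card U < p * d := hUc
        _ = p ^ (k + 2) := by rw [hd]; ring
    have := (Nat.pow_lt_pow_iff_right hpp.one_lt).1 h1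
    omega
  have hZ' : Nat.card (U.subgroupOf S) = p ^ a := by
    rw [Cfsg.Agent.Lib.SylowIn.card_subgroupOf hUS, ha]
  obtain ⟨T₀, hT₀c, hUT₀⟩ := Sylow.exists_subgroup_card_pow_prime_le p
    (by rw [hn]; exact pow_dvd_pow p hkn : p ^ (k + 2) ∣ Nat.card S) _ hZ' hak
  let T : Subgroup G := T₀.map S.subtype
  have hTS : T ≤ S := map_subtype_le T₀
  have hTc : Nat.card T = p * d := by
    rw [Subgroup.card_map_of_injective S.subtype_injective, hT₀c, hd]
    ring
  have hUT : U ≤ T := fun x hx => ⟨⟨x, hUS hx⟩, hUT₀ (mem_subgroupOf.2 hx), rfl⟩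
  exact small_case (fun E hE hc => hH E hE (Or.inl hc)) hS hTS hTc hUT htU hco' hMS hMi hMn hu

/-- From the key estimate to a normal `p`-complement. -/
theorem npc_of_key (S : Sylow p G)
    (hkey : ∀ U : Subgroup G, U ≤ (S : Subgroup G) → ∀ t ∈ normalizer (U : Set G), (orderOf t).Coprime p →
      ∀ u ∈ U, u⁻¹ * (t * u * t⁻¹) ∈ (frattini ↥(S : Subgroup G)).map (S : Subgroup G).subtype) :
    HasNormalPComplement p G := by
  classical
  let Φ : Subgroup G := (frattini ↥(S : Subgroup G)).map (S : Subgroup G).subtype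
  have hhyp : (FusionSystem.hyperfocalSubgroup (groupFusionSystem (S : Subgroup G)) p) ≤ Φ := by
    rw [FusionSystem.hyperfocalSubgroup, Subgroup.closure_le]
    rintro _ ⟨P, α, x, hP, hα, rfl⟩
    have hfinP : Finite P := inferInstance
    have main : ∀ β ∈ pResidual p ((groupFusionSystem (S : Subgroup G)).autGroup P), ∀ y : P,
        ((y : G))⁻¹ * (((β : MulAut P) y : P) : G) ∈ Φ := by
      intro β hβ
      induction hβ using Subgroup.closure_induction with
      | mem β hβ =>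
        intro y
        obtain ⟨g, hg⟩ := Cfsg.Agent.Lib.FusionHypGroup.aut_conj_exists hP β.2
        have hoβ : (orderOf (β : MulAut P)).Coprime p := by
          rw [Subgroup.orderOf_coe]; exact hβ
        obtain ⟨t, ht, hgt⟩ := Cfsg.Agent.Lib.FusionHypGroup.exists_coprime_conj hg hoβ
        have htN : t ∈ normalizer (P : Set G) :=
          Cfsg.Agent.Lib.H5Basic.mem_normalizer_of_map_conj_le (by
            rintro _ ⟨z, hz, rfl⟩
            have := hgt ⟨z, hz⟩
            show t * z * t⁻¹ ∈ P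
            rw [← this]
            exact Subtype.property _)
        rw [hgt y]
        exact hkey P hP t htN ht _ y.2
      | one =>
        intro y
        simp
      | mul a b _ _ ha hb =>
        intro y
        have h1 := hb y
        have h2 := ha ((b : MulAut P) y)
        have e : ((y : G))⁻¹ * (((a * b : _) : MulAut P) y : P) =
            (((y : G))⁻¹ * (((b : MulAut P) y : P) : G)) *
            ((((b : MulAut P) y : P) : G)⁻¹ * (((a : MulAut P) ((b : MulAut P) y) : P) : G)) := by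
          simp [MulAut.mul_apply]
        rw [e]
        exact Φ.mul_mem h1 h2
      | inv a _ ha =>
        intro y
        have h1 := ha ((a : MulAut P)⁻¹ y)
        have e : ((a : MulAut P) ((a : MulAut P)⁻¹ y) : P) = y := by simp
        rw [e] at h1
        have h2 := Φ.inv_mem h1
        have e2 : (((((a : MulAut P)⁻¹ y : P) : G))⁻¹ * (y : G))⁻¹ =
            ((y : G))⁻¹ * ((((a⁻¹ : _) : MulAut P) y : P) : G) := by
          simp
        rw [e2] at h2
        exact h2
    exact main α hα x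
  haveI hN := Cfsg.Agent.Lib.PResidual.pResidual_normal p G
  have h1 : pResidual p G ⊓ (S : Subgroup G) ≤ Φ := by
    rw [inf_comm, ← Cfsg.Agent.Lib.FusionHypGroup.hyp_eq S]
    exact hhyp
  have h2 := Cfsg.Agent.Lib.Tate.tate S (pResidual p G) h1
  refine Cfsg.Agent.Lib.PNilp.npc_of_normal_pquot (pResidual p G) (fun g => ?_) h2
  have hq := Cfsg.Agent.Lib.PResidual.isPGroup_quotient_pResidual (p := p) (G := G)
  obtain ⟨k, hk⟩ := hq (g : G ⧸ pResidual p G)
  refine ⟨k, ?_⟩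
  rw [← QuotientGroup.eq_one_iff, QuotientGroup.mk_pow]
  exact hk

/-- Elements of order prime to `p` have order prime to `p - 1` when `p` is the smallest prime. -/
theorem coprime_pred {p : ℕ} (hpp : p.Prime) (hmin : ∀ q : ℕ, q.Prime → q ∣ Nat.card G → p ≤ q) {t : G}
    (ht : (orderOf t).Coprime p) : (orderOf t).Coprime (p - 1) := by
  refine Nat.Coprime.symm (Nat.coprime_of_dvd fun q hq h1 h2 => ?_)
  have h3 := hmin q hq (h2.trans (orderOf_dvd_natCard t))
  have h4 : q ≠ p := by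
    rintro rfl
    exact hq.one_lt.ne' (Nat.Coprime.eq_one_of_dvd ht.symm h2)
  have h5 : p < q := lt_of_le_of_ne h3 h4.symm
  have h6 := Nat.le_of_dvd (by have := hpp.one_lt; omega) h1
  have := hpp.one_lt
  omega

/-- Sylow cyclic, `p` the smallest prime. -/
theorem npc_of_cyclic (hmin : ∀ q : ℕ, q.Prime → q ∣ Nat.card G → p ≤ q) (S : Sylow p G)
    (hc : IsCyclic (S : Subgroup G)) : HasNormalPComplement p G := by
  refine npc_of_key S fun U hU t ht hco u hu => ?_
  have hUc : IsCyclic U := isCyclic_of_injective (Subgroup.inclusion hU) (Subgroup.inclusion_injective hU)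
  rw [cyclic_fixed (S.isPGroup'.to_le hU) hUc ht hco (coprime_pred hp.out hmin hco) hu, inv_mul_cancel]
  exact Subgroup.one_mem _

/-- The theorem on `H`-subgroups. -/
theorem npc_of_isH {d : ℕ} (hmin : ∀ q : ℕ, q.Prime → q ∣ Nat.card G → p ≤ q) (S : Sylow p G)
    (hd1 : 1 < d) (hd2 : d < Nat.card (S : Subgroup G)) (hdp : ∃ k : ℕ, d = p ^ k)
    (hH : ∀ E : Subgroup G, E ≤ (S : Subgroup G) → (Nat.card E = d ∨ (d = 2 ∧ Nat.card E = 4)) → IsH E) :
    HasNormalPComplement p G := by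
  obtain ⟨k, hk⟩ := hdp
  obtain ⟨k, rfl⟩ : ∃ j, k = j + 1 := by
    rcases k with _ | k
    · simp at hk; omega
    · exact ⟨k, rfl⟩
  refine npc_of_key S fun U hU t ht hco u hu => ?_
  exact key_mem hH hk S.isPGroup' hd2 hU ht hco (coprime_pred hp.out hmin hco) hu

end Cfsg.Agent.Lib.HSub
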