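import Mathlib
import Cfsg.Agent.Lib.HSub
import Cfsg.Agent.Lib.Supersolvable
import Cfsg.Agent.Lib.SuperHall
import Cfsg.Agent.Lib.Hall
import Cfsg.Agent.Lib.FitSolv
import Cfsg.Agent.Lib.PComps
import Cfsg.Agent.Lib.FitCore
import Cfsg.Agent.Lib.PGroupBasic

/-! Normal `p`-subgroups all of whose subgroups of a given order are normal: chief factors of order `p`. -/

set_option autoImplicit false
set_option linter.unusedVariables false
set_option linter.style.haveILetI false
set_option linter.unusedSectionVars false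

namespace Cfsg.Agent.Lib.HSub2

/-- A `(p-1)`-torsion endomorphism of an elementary abelian `p`-group has an eigenvector. -/
theorem exists_eigen_mod {p : ℕ} [hp : Fact p.Prime] {M : Type*} [AddCommGroup M] [Finite M] [Nontrivial M]
    [Module (ZMod p) M] (e : M →+ M) (hpow : ∀ w : M, e^[p - 1] w = w) :
    ∃ k : ℕ, ∃ v : M, v ≠ 0 ∧ e v = k • v := by
  classical
  let f : Module.End (ZMod p) M := e.toZModLinearMap p
  have hfv : ∀ x : M, f x = e x := fun x => rfl
  have hfn : ∀ (n : ℕ) (x : M), (f ^ n) x = e^[n] x := by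
    intro n x
    induction n with
    | zero => rfl
    | succ n ih =>
      rw [pow_succ', Module.End.mul_apply, ih, hfv, Function.iterate_succ_apply']
  have hp1 : f ^ (p - 1) = 1 := by
    ext x
    rw [hfn, hpow]
    rfl
  have hpp := hp.out
  have hfp : f ^ p = f := by
    have h := pow_succ f (p - 1)
    rw [Nat.sub_add_cancel hpp.one_lt.le] at h
    rw [h, hp1, one_mul]
  haveI : Module.Finite (ZMod p) M := Module.Finite.of_finite
  have hq : minpoly (ZMod p) f ∣ (Polynomial.X ^ p - Polynomial.X : Polynomial (ZMod p)) := by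
    refine minpoly.dvd _ _ ?_
    simp [hfp]
  have hne0 : (Polynomial.X ^ p - Polynomial.X : Polynomial (ZMod p)) ≠ 0 :=
    FiniteField.X_pow_card_sub_X_ne_zero _ hpp.one_lt
  have hsplit : (Polynomial.X ^ p - Polynomial.X : Polynomial (ZMod p)).Splits := by
    rw [Polynomial.splits_iff_card_roots]
    have h1 := FiniteField.roots_X_pow_card_sub_X (ZMod p)
    rw [ZMod.card] at h1
    rw [h1, FiniteField.X_pow_card_sub_X_natDegree_eq _ hpp.one_lt, ← Finset.card_def, Finset.card_univ, ZMod.card]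
  have hdeg : (minpoly (ZMod p) f).degree ≠ 0 := by
    have hint : IsIntegral (ZMod p) f := Algebra.IsIntegral.isIntegral f
    exact (minpoly.degree_pos hint).ne'
  obtain ⟨μ, hμ⟩ := (hsplit.of_dvd hne0 hq).exists_eval_eq_zero hdeg
  have hev : Module.End.HasEigenvalue f μ := Module.End.hasEigenvalue_of_isRoot hμ
  obtain ⟨v, hv⟩ := hev.exists_hasEigenvector
  have hv2 : f v = μ • v := hv.apply_eq_smul
  refine ⟨μ.val, v, hv.2, ?_⟩
  have h3 : μ • v = μ.val • v := by
    conv_lhs => rw [← ZMod.natCast_zmod_val μ]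
    exact Nat.cast_smul_eq_nsmul (ZMod p) μ.val v
  rw [h3] at hv2
  exact hv2

theorem exists_eigen_add {p : ℕ} [hp : Fact p.Prime] {M : Type*} [AddCommGroup M] [Finite M] [Nontrivial M]
    (hexp : ∀ w : M, p • w = 0) (e : M →+ M) (hpow : ∀ w : M, e^[p - 1] w = w) :
    ∃ k : ℕ, ∃ v : M, v ≠ 0 ∧ e v = k • v :=
  @exists_eigen_mod p hp M _ _ _ (AddCommGroup.zmodModule hexp) e hpow

theorem exists_eigen_aux {p : ℕ} [hp : Fact p.Prime] {W : Type*} [CommGroup W] [Finite W] [Nontrivial W]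
    (hexp : ∀ w : W, w ^ p = 1) (e : W →* W) (hpow : ∀ w : W, e^[p - 1] w = w) :
    ∃ k : ℕ, ∃ v : W, v ≠ 1 ∧ e v = v ^ k := by
  have hn : ∀ (n : ℕ) (w : Additive W), (MonoidHom.toAdditive e)^[n] w = Additive.ofMul (e^[n] (Additive.toMul w)) := by
    intro n w
    induction n with
    | zero => rfl
    | succ n ih =>
      rw [Function.iterate_succ_apply', ih, Function.iterate_succ_apply']
      rfl
  obtain ⟨k, v, hv, hk⟩ := exists_eigen_add (p := p) (M := Additive W)
    (fun w => Additive.toMul.injective (hexp (Additive.toMul w))) (MonoidHom.toAdditive e)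
    (fun w => by rw [hn, hpow]; rfl)
  exact ⟨k, Additive.toMul v, hv, hk⟩

open Cfsg Subgroup Cfsg.Agent.Lib.HSub Cfsg.Agent.Lib.Supersolvable
open scoped Pointwise commutatorElement

universe u

variable {G : Type*} [Group G] [Finite G] {p : ℕ} [hp : Fact p.Prime]

/-- Commutators and `(p-1)`-th powers act trivially on sections of order `p`. -/
theorem sec_triv {U U₀ Y : Subgroup G} (hU₀ : U₀ ≤ U) (hn : U ≤ normalizer (U₀ : Set G))
    (hi : U₀.relIndex U = p) (hYU : Y ≤ normalizer (U : Set G)) (hYU₀ : Y ≤ normalizer (U₀ : Set G)) :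
    (∀ a ∈ Y, ∀ b ∈ Y, ∀ u ∈ U, u⁻¹ * (⁅a, b⁆ * u * ⁅a, b⁆⁻¹) ∈ U₀) ∧
    (∀ a ∈ Y, ∀ u ∈ U, u⁻¹ * (a ^ (p - 1) * u * (a ^ (p - 1))⁻¹) ∈ U₀) := by
  classical
  let H : Subgroup U := U₀.subgroupOf U
  haveI hN : H.Normal := by
    refine ⟨fun n hn' g => ?_⟩
    refine mem_subgroupOf.2 ?_
    have := (mem_normalizer_iff.1 (hn g.2) n).1 (mem_subgroupOf.1 hn')
    simpa using this
  have heH : ∀ y : Y, H.map (Cfsg.Agent.Lib.CoprimeAB.conjOnN U (hYU y.2)).toMonoidHom = H := by
    intro y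
    ext x
    constructor
    · rintro ⟨z, hz, rfl⟩
      refine mem_subgroupOf.2 ?_
      exact (mem_normalizer_iff.1 (hYU₀ y.2) z).1 (mem_subgroupOf.1 hz)
    · intro hx
      have hx' : ((x : U) : G) ∈ U₀ := mem_subgroupOf.1 hx
      have h2 := (mem_normalizer_iff.1 (hYU₀ y.2) ((y : G)⁻¹ * x * y)).2 (by
        have : (y : G) * ((y : G)⁻¹ * (x : G) * y) * (y : G)⁻¹ = x := by group
        rw [this]; exact hx')
      refine ⟨⟨(y : G)⁻¹ * x * y, ?_⟩, ?_, ?_⟩
      · have := (mem_normalizer_iff.1 (hYU y.2) ((y : G)⁻¹ * x * y)).2 (by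
          have : (y : G) * ((y : G)⁻¹ * (x : G) * y) * (y : G)⁻¹ = x := by group
          rw [this]; exact x.2)
        exact this
      · exact mem_subgroupOf.2 h2
      · apply Subtype.ext
        show (y : G) * ((y : G)⁻¹ * (x : G) * y) * (y : G)⁻¹ = x
        group
  let ρ : Y →* MulAut (U ⧸ H) :=
    { toFun := fun y => QuotientGroup.congr H H (Cfsg.Agent.Lib.CoprimeAB.conjOnN U (hYU y.2)) (heH y)
      map_one' := by
        ext q
        induction q using QuotientGroup.induction_on with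
        | H x =>
          show ((Cfsg.Agent.Lib.CoprimeAB.conjOnN U (hYU (1 : Y).2) x : U) : U ⧸ H) = (x : U ⧸ H)
          congr 1
          apply Subtype.ext
          show ((1 : Y) : G) * (x : G) * ((1 : Y) : G)⁻¹ = x
          simp
      map_mul' := by
        intro a b
        ext q
        induction q using QuotientGroup.induction_on with
        | H x =>
          show ((Cfsg.Agent.Lib.CoprimeAB.conjOnN U (hYU (a * b).2) x : U) : U ⧸ H) =
            ((Cfsg.Agent.Lib.CoprimeAB.conjOnN U (hYU a.2) (Cfsg.Agent.Lib.CoprimeAB.conjOnN U (hYU b.2) x) : U) : U ⧸ H)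
          congr 1
          apply Subtype.ext
          show ((a * b : Y) : G) * (x : G) * ((a * b : Y) : G)⁻¹ =
            (a : G) * ((b : G) * (x : G) * (b : G)⁻¹) * (a : G)⁻¹
          simp only [Subgroup.coe_mul]
          group }
  have hcard : Nat.card (U ⧸ H) = p := by
    rw [← Subgroup.index_eq_card]
    exact hi
  haveI : Fact (Nat.card (U ⧸ H)).Prime := ⟨hcard ▸ hp.out⟩
  haveI hcyc : IsCyclic (U ⧸ H) := isCyclic_of_prime_card rfl
  have hkey : ∀ c : Y, ρ c = 1 → ∀ u ∈ U, u⁻¹ * ((c : G) * u * (c : G)⁻¹) ∈ U₀ := by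
    intro c hc u hu
    have h4 : ρ c ((⟨u, hu⟩ : U) : U ⧸ H) = ((⟨u, hu⟩ : U) : U ⧸ H) := by
      rw [hc]; rfl
    have h5 : ((Cfsg.Agent.Lib.CoprimeAB.conjOnN U (hYU c.2) ⟨u, hu⟩ : U) : U ⧸ H) =
      ((⟨u, hu⟩ : U) : U ⧸ H) := h4
    rw [eq_comm, QuotientGroup.eq] at h5
    exact mem_subgroupOf.1 h5
  have hpow1 : ∀ f : MulAut (U ⧸ H), f ^ (p - 1) = 1 := by
    intro f
    have h3 := pow_card_eq_one' (x := f)
    rwa [IsCyclic.card_mulAut, hcard, Nat.totient_prime hp.out] at h3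
  constructor
  · intro a ha b hb u hu
    have hc : ρ ⟨a, ha⟩ * ρ ⟨b, hb⟩ = ρ ⟨b, hb⟩ * ρ ⟨a, ha⟩ := mulAut_comm _ _
    refine hkey ⟨⁅a, b⁆, Y.mul_mem (Y.mul_mem (Y.mul_mem ha hb) (Y.inv_mem ha)) (Y.inv_mem hb)⟩ ?_ u hu
    have e : (⟨⁅a, b⁆, Y.mul_mem (Y.mul_mem (Y.mul_mem ha hb) (Y.inv_mem ha)) (Y.inv_mem hb)⟩ : Y) =
        ⟨a, ha⟩ * ⟨b, hb⟩ * (⟨a, ha⟩ : Y)⁻¹ * (⟨b, hb⟩ : Y)⁻¹ := rfl
    rw [e, map_mul, map_mul, map_mul, map_inv, map_inv, hc]
    group
  · intro a ha u hu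
    refine hkey ⟨a ^ (p - 1), Y.pow_mem ha _⟩ ?_ u hu
    have e : (⟨a ^ (p - 1), Y.pow_mem ha _⟩ : Y) = (⟨a, ha⟩ : Y) ^ (p - 1) := rfl
    rw [e, map_pow]
    exact hpow1 _

/-- What normalizes a cyclic subgroup normalizes its subgroups. -/
theorem mem_normalizer_of_le_cyclic {A M : Subgroup G} (hc : IsCyclic A) (hM : M ≤ A) {y : G}
    (hy : y ∈ normalizer (A : Set G)) : y ∈ normalizer (M : Set G) := by
  refine Cfsg.Agent.Lib.H5Basic.mem_normalizer_of_map_conj_le ?_
  rintro _ ⟨x, hx, rfl⟩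
  let σ : A →* A := (Cfsg.Agent.Lib.CoprimeAB.conjOnN A hy).toMonoidHom
  obtain ⟨m, hm⟩ := σ.map_cyclic
  have h1 := hm ⟨x, hM hx⟩
  have h2 : y * x * y⁻¹ = x ^ m := by
    have := congrArg Subtype.val h1
    simpa [σ, Cfsg.Agent.Lib.CoprimeAB.conjOnN_apply] using this
  show y * x * y⁻¹ ∈ M
  rw [h2]
  exact M.zpow_mem hx m

/-- The main consequence of the normality of the subgroups of order `d`. -/
theorem centralizes_of_triv {d k : ℕ} {R Y : Subgroup G} {c : G} (hR : IsPGroup p R)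
    (hYR : Y ≤ normalizer (R : Set G)) (hcY : c ∈ Y) (hco : (orderOf c).Coprime p)
    (hd : d = p ^ (k + 1)) (hdR : d < Nat.card R)
    (hF : ∀ F : Subgroup G, F ≤ R → (Nat.card F = d ∨ (d = 2 ∧ Nat.card F = 4)) → Y ≤ normalizer (F : Set G))
    (htriv : ∀ U U₀ : Subgroup G, U₀ ≤ U → U ≤ R → U ≤ normalizer (U₀ : Set G) → U₀.relIndex U = p →
      Y ≤ normalizer (U : Set G) → Y ≤ normalizer (U₀ : Set G) → ∀ u ∈ U, u⁻¹ * (c * u * c⁻¹) ∈ U₀) :
    ∀ r ∈ R, c * r * c⁻¹ = r := by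
  classical
  have hpp := hp.out
  obtain ⟨n, hn⟩ := IsPGroup.iff_card.1 hR
  have hkn : k + 2 ≤ n := by
    rw [hn, hd] at hdR
    have := (Nat.pow_lt_pow_iff_right hpp.one_lt).1 hdR
    omega
  refine fun r hr => Cfsg.Agent.Lib.PNilpB.ito_lemma hco _ R rfl hR
    (fun q hq => (mem_normalizer_iff.1 (hYR hcY) q).1 hq) ?_ r hr
  intro E hER hEinv hEexp e he
  have heR : e ∈ R := hER he
  have hsmall := hEexp e he
  let Z : Subgroup G := zpowers e
  have hZR : Z ≤ R := zpowers_le.2 heR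
  have hZp : IsPGroup p Z := hR.to_le hZR
  obtain ⟨a, ha⟩ := IsPGroup.iff_card.1 hZp
  have hecard : Nat.card Z = orderOf e := Nat.card_zpowers e
  have hcyc : ∀ {A : Subgroup G}, A ≤ R → IsCyclic A → Y ≤ normalizer (A : Set G) → ∀ x ∈ A, c * x * c⁻¹ = x := by
    intro A hAR hAc hAY
    refine comm_of_forall_max (hR.to_le hAR) (hAY hcY) hco ?_
    intro M hM hi hn y hy
    exact htriv A M hM hAR hn hi hAY (fun t ht => mem_normalizer_of_le_cyclic hAc hM (hAY ht)) y hy
  by_cases hZd : Nat.card Z = d ∨ (d = 2 ∧ Nat.card Z = 4)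
  · exact hcyc hZR (by infer_instance) (hF Z hZR hZd) e (mem_zpowers e)
  have hak : a ≤ k := by
    by_contra hak
    push_neg at hak
    rcases hsmall with h | ⟨h2, h4⟩
    · have h3 : orderOf e ∣ p := orderOf_dvd_of_pow_eq_one h
      rw [← hecard, ha] at h3
      have h6 : a ≤ 1 := (Nat.pow_dvd_pow_iff_le_right hpp.one_lt).1 (by simpa using h3)
      have h7 : a = 1 := by omega
      have h8 : k = 0 := by omega
      apply hZd
      left
      rw [ha, hd, h7, h8]
    · subst h2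
      have h3 : orderOf e ∣ 2 ^ 2 := orderOf_dvd_of_pow_eq_one (by simpa using h4)
      rw [← hecard, ha] at h3
      have h6 : a ≤ 2 := (Nat.pow_dvd_pow_iff_le_right (by norm_num)).1 h3
      apply hZd
      have h7 : a = k + 1 ∨ (a = 2 ∧ k = 0) := by omega
      rcases h7 with h7 | ⟨h7, h8⟩
      · left
        rw [ha, hd, h7]
      · right
        rw [h8] at hd
        refine ⟨by simpa using hd, ?_⟩
        rw [ha, h7]; norm_num
  have hdvd : p ^ (k + 1) ∣ Nat.card R := by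
    rw [hn]; exact pow_dvd_pow p (by omega)
  have hdvd2 : p ^ (k + 2) ∣ Nat.card R := by
    rw [hn]; exact pow_dvd_pow p hkn
  have hZ' : Nat.card (Z.subgroupOf R) = p ^ a := by
    rw [Cfsg.Agent.Lib.SylowIn.card_subgroupOf hZR, ha]
  obtain ⟨E₀, hE₀c, hZE₀⟩ := Sylow.exists_subgroup_card_pow_prime_le p hdvd _ hZ' hak.step
  obtain ⟨T₀, hT₀c, hE₀T₀⟩ := Sylow.exists_subgroup_card_pow_prime_le p hdvd2 E₀ hE₀c (Nat.le_succ _)
  let E₁ : Subgroup G := E₀.map R.subtype
  let T : Subgroup G := T₀.map R.subtype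
  have hE₁T : E₁ ≤ T := Subgroup.map_mono hE₀T₀
  have hTR : T ≤ R := map_subtype_le T₀
  have hE₁c : Nat.card E₁ = d := by
    rw [Subgroup.card_map_of_injective R.subtype_injective, hE₀c, hd]
  have hTc : Nat.card T = p * d := by
    rw [Subgroup.card_map_of_injective R.subtype_injective, hT₀c, hd]
    ring
  have heE₁ : e ∈ E₁ := by
    refine ⟨⟨e, heR⟩, hZE₀ (mem_subgroupOf.2 (mem_zpowers e)), rfl⟩
  have hTp : IsPGroup p T := hR.to_le hTR
  have hmaxc : ∀ M : Subgroup G, M ≤ T → M.relIndex T = p → Nat.card M = d := by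
    intro M hM hi
    have h3 := Cfsg.Agent.Lib.H5Basic.card_inf_mul_relIndex M T
    rw [inf_eq_left.2 hM, hi, hTc, mul_comm] at h3
    exact Nat.eq_of_mul_eq_mul_left hpp.pos h3
  have hNd : ∀ M : Subgroup G, M ≤ T → Nat.card M = d → Y ≤ normalizer (M : Set G) := by
    intro M hM hc
    exact hF M (hM.trans hTR) (Or.inl hc)
  have hE₁N : Y ≤ normalizer (E₁ : Set G) := hNd E₁ hE₁T hE₁c
  have hlt : (E₁ : Subgroup G) ≠ T := by
    intro h
    rw [h, hTc] at hE₁c
    have hd0 : 0 < d := by rw [hd]; exact pow_pos hpp.pos _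
    have : p * d = 1 * d := by rw [hE₁c]; ring
    have := Nat.eq_of_mul_eq_mul_right hd0 this
    exact hpp.one_lt.ne' this
  obtain ⟨x, hxT, hxE⟩ : ∃ x ∈ T, x ∉ E₁ := by
    by_contra h'
    push_neg at h'
    exact hlt (le_antisymm hE₁T h')
  by_cases hxz : zpowers x = T
  · have hTcyc : IsCyclic T := hxz ▸ inferInstance
    have hE₁cyc : IsCyclic E₁ := isCyclic_of_injective (Subgroup.inclusion hE₁T)
      (Subgroup.inclusion_injective hE₁T)
    exact hcyc (hE₁T.trans hTR) hE₁cyc hE₁N e heE₁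
  obtain ⟨M, hMT, hxM, hMi, hMn⟩ := exists_max_ge hTp (zpowers_le.2 hxT) hxz
  have hMc := hmaxc M hMT hMi
  have hxM' : x ∈ M := hxM (mem_zpowers x)
  have hsup : T ≤ E₁ ⊔ M := by
    have h1 : E₁.relIndex T = p := by
      have h3 := Cfsg.Agent.Lib.H5Basic.card_inf_mul_relIndex E₁ T
      rw [inf_eq_left.2 hE₁T, hTc, hE₁c, mul_comm] at h3
      have hd0 : 0 < d := by rw [hd]; exact pow_pos hpp.pos _
      exact Nat.eq_of_mul_eq_mul_right hd0 h3
    have h2 : E₁.relIndex (E₁ ⊔ M) * (E₁ ⊔ M).relIndex T = E₁.relIndex T :=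
      Subgroup.relIndex_mul_relIndex E₁ (E₁ ⊔ M) T le_sup_left (sup_le hE₁T hMT)
    rw [h1] at h2
    have h3 : (E₁ ⊔ M).relIndex T ∣ p := ⟨_, by rw [← h2, mul_comm]⟩
    rcases (Nat.dvd_prime hpp).1 h3 with h4 | h4
    · exact Subgroup.relIndex_eq_one.1 h4
    · exfalso
      rw [h4] at h2
      have h5 : E₁.relIndex (E₁ ⊔ M) = 1 := by
        have : E₁.relIndex (E₁ ⊔ M) * p = 1 * p := by rw [h2]; ring
        exact Nat.eq_of_mul_eq_mul_right hpp.pos this
      exact hxE (Subgroup.relIndex_eq_one.1 h5 ((le_sup_right : M ≤ E₁ ⊔ M) hxM'))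
  have hTe : T = E₁ ⊔ M := le_antisymm hsup (sup_le hE₁T hMT)
  have hTN : Y ≤ normalizer (T : Set G) := by
    intro t ht
    refine Cfsg.Agent.Lib.H5Basic.mem_normalizer_of_map_conj_le ?_
    rw [hTe, Subgroup.map_sup]
    refine sup_le ?_ ?_
    · rintro _ ⟨y, hy, rfl⟩
      exact (le_sup_left : E₁ ≤ E₁ ⊔ M) ((mem_normalizer_iff.1 (hE₁N ht) y).1 hy)
    · rintro _ ⟨y, hy, rfl⟩
      exact (le_sup_right : M ≤ E₁ ⊔ M) ((mem_normalizer_iff.1 (hNd M hMT hMc ht) y).1 hy)
  refine comm_of_forall_max hTp (hTN hcY) hco ?_ e (hE₁T heE₁)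
  intro M' hM' hi hn y hy
  exact htriv T M' hM' hTR hn hi hTN (hNd M' hM' (hmaxc M' hM' hi)) y hy

/-- A `(p-1)`-torsion automorphism of an elementary abelian `p`-group has an eigenvector. -/
theorem exists_eigen {V : Subgroup G} {a : G} (hc : ∀ x ∈ V, ∀ y ∈ V, x * y = y * x)
    (hexp : ∀ v ∈ V, v ^ p = 1) (hne : V ≠ ⊥) (haN : a ∈ normalizer (V : Set G))
    (hpow : ∀ v ∈ V, a ^ (p - 1) * v * (a ^ (p - 1))⁻¹ = v) :
    ∃ k : ℕ, ∃ v ∈ V, v ≠ 1 ∧ a * v * a⁻¹ = v ^ k := by
  classical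
  letI : CommGroup V := { (inferInstance : Group V) with mul_comm := fun x y => Subtype.ext (hc x x.2 y y.2) }
  haveI hnt : Nontrivial V := by
    obtain ⟨v, hv, hv1⟩ := (Subgroup.bot_or_exists_ne_one V).resolve_left hne
    exact ⟨⟨⟨v, hv⟩, 1, fun h => hv1 (congrArg Subtype.val h)⟩⟩
  let e : V →* V := (Cfsg.Agent.Lib.CoprimeAB.conjOnN V haN).toMonoidHom
  have hen : ∀ (n : ℕ) (x : V), ((e^[n] x : V) : G) = a ^ n * x * (a ^ n)⁻¹ := by
    intro n x
    induction n with
    | zero => simp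
    | succ n ih =>
      rw [Function.iterate_succ_apply']
      show a * ((e^[n] x : V) : G) * a⁻¹ = _
      rw [ih, pow_succ']
      group
  obtain ⟨k, v, hv, hvk⟩ := exists_eigen_aux (p := p) (W := V) (fun w => Subtype.ext (hexp _ w.2)) e (fun w => by
    apply Subtype.ext
    rw [hen]
    exact hpow _ w.2)
  refine ⟨k, v, v.2, fun h => hv (Subtype.ext h), ?_⟩
  have := congrArg Subtype.val hvk
  exact this

section Chain

variable {X : Type u} [Group X] [Finite X]

theorem isSolvable_of_super {H : Type u} [Group H] [Finite H] (hs : IsSupersolvable H) : Group.IsSolvable H :=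
  solvable_of_prime_index _ H rfl (coatom_prime hs)

theorem isSolvable_of_pgroup_quot (R : Subgroup X) [R.Normal] (hR : IsPGroup p R) (hs : IsSupersolvable (X ⧸ R)) :
    Group.IsSolvable X := by
  haveI := isSolvable_of_super hs
  haveI : Group.IsNilpotent R := hR.isNilpotent
  exact Group.isSolvable_of_ker_le_range R.subtype (QuotientGroup.mk' R) (by
    intro x hx
    have : x ∈ R := (QuotientGroup.eq_one_iff x).1 hx
    exact ⟨⟨x, this⟩, rfl⟩)

/-- A line invariant under the whole group. -/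
theorem exists_line (R Y : Subgroup X) [hRn : R.Normal] (hne : R ≠ ⊥) (hR : IsPGroup p R)
    (hs : IsSupersolvable (X ⧸ R)) (hYc : ¬ p ∣ Nat.card Y) (hYi : ∃ k : ℕ, Y.index = p ^ k)
    (hY1 : ∀ a ∈ Y, ∀ b ∈ Y, ⁅a, b⁆ ∈ centralizer (R : Set X))
    (hY2 : ∀ a ∈ Y, a ^ (p - 1) ∈ centralizer (R : Set X)) :
    ∃ w ∈ R, w ≠ 1 ∧ w ^ p = 1 ∧ (zpowers w).Normal := by
  classical
  have hpp := hp.out
  haveI hXs : Group.IsSolvable X := isSolvable_of_pgroup_quot R hR hs
  -- a minimal normal subgroup inside `R`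
  obtain ⟨W, hWmin⟩ := exists_minimal_of_wellFoundedLT
    (fun W : Subgroup X => W.Normal ∧ W ≠ ⊥ ∧ W ≤ R) ⟨R, hRn, hne, le_rfl⟩
  obtain ⟨hWn, hWne, hWR⟩ := hWmin.1
  haveI := hWn
  have hWmin' : ∀ M : Subgroup X, M.Normal → M ≤ W → M = ⊥ ∨ M = W := by
    intro M hM hMW
    by_cases hb : M = ⊥
    · exact Or.inl hb
    · exact Or.inr (le_antisymm hMW (hWmin.2 ⟨hM, hb, hMW.trans hWR⟩ hMW))
  obtain ⟨hWc, q, hq, hWq⟩ := Cfsg.Agent.Lib.FitSolv.minimal_normal_elementary W hWne hWmin'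
  have hWp : IsPGroup p W := hR.to_le hWR
  have hWexp : ∀ x ∈ W, x ^ p = 1 := by
    intro x hx
    by_cases hx1 : x = 1
    · rw [hx1, one_pow]
    haveI : Fact q.Prime := ⟨hq⟩
    have ho : orderOf x = q := orderOf_eq_prime (hWq x hx) hx1
    obtain ⟨k, hk⟩ := (IsPGroup.iff_orderOf.1 hWp) ⟨x, hx⟩
    rw [Subgroup.orderOf_mk, ho] at hk
    have : q = p := (Nat.prime_dvd_prime_iff_eq hq hpp).1 (hq.dvd_of_dvd_pow (by rw [← hk]))
    rw [← this]
    exact hWq x hx
  -- `R` centralizes `W`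
  have hWcen : W ≤ centralizer (R : Set X) := by
    haveI : (centralizer (R : Set X)).Normal := Subgroup.normal_centralizer
    have h1 : (W ⊓ centralizer (R : Set X)).Normal := Subgroup.normal_inf_normal _ _
    rcases hWmin' _ h1 inf_le_left with h2 | h2
    · exfalso
      haveI : (W.subgroupOf R).Normal := Subgroup.normal_subgroupOf
      obtain ⟨x, hx, hx1⟩ := (Subgroup.bot_or_exists_ne_one W).resolve_left hWne
      have hne' : W.subgroupOf R ≠ ⊥ := by
        intro h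
        have h3 : (⟨x, hWR hx⟩ : R) ∈ W.subgroupOf R := mem_subgroupOf.2 hx
        rw [h, Subgroup.mem_bot] at h3
        exact hx1 (congrArg Subtype.val h3)
      obtain ⟨z, hz, hz1, hzc⟩ := Cfsg.Agent.Lib.PGroupBasic.exists_ne_one_mem_center_of_normal hR (W.subgroupOf R) hne'
      have h4 : (z : X) ∈ W ⊓ centralizer (R : Set X) := by
        refine ⟨mem_subgroupOf.1 hz, mem_centralizer_iff.2 fun r hr => ?_⟩
        have := Subgroup.mem_center_iff.1 hzc ⟨r, hr⟩
        exact congrArg Subtype.val this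
      rw [h2, Subgroup.mem_bot] at h4
      exact hz1 (Subtype.ext h4)
    · exact inf_eq_left.1 h2
  let C : Subgroup X := centralizer (W : Set X)
  haveI hCn : C.Normal := Subgroup.normal_centralizer
  have hRC : R ≤ C := fun r hr => mem_centralizer_iff.2 fun w hw => (mem_centralizer_iff.1 (hWcen hw) r hr).symm
  have hcenC : centralizer (R : Set X) ≤ C := Subgroup.centralizer_le hWR
  let mk : X →* X ⧸ C := QuotientGroup.mk' C
  have hmk : Function.Surjective mk := QuotientGroup.mk'_surjective C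
  have hAs : IsSupersolvable (X ⧸ C) := by
    refine super_map hs (QuotientGroup.map R C (MonoidHom.id X) (fun r hr => hRC hr)) ?_
    intro q
    induction q using QuotientGroup.induction_on with
    | H x => exact ⟨(x : X ⧸ R), rfl⟩
  let P₁ : Sylow p X := default
  have hWP : W ≤ (P₁ : Subgroup X) := hWp.le_sylow_of_normal P₁
  -- the Sylow subgroups centralize `W`
  have hPC : (P₁ : Subgroup X) ≤ C := by
    by_cases hdiv : p ∣ Nat.card (X ⧸ C)
    · have hmax : ∀ r, r.Prime → r ∣ Nat.card (X ⧸ C) → r ≤ p := by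
        intro r hr hrd
        by_cases hrp : r = p
        · exact hrp.le
        haveI : Fact r.Prime := ⟨hr⟩
        obtain ⟨k, hk⟩ := hYi
        have h1 : (Y.map mk).index ∣ p ^ k := hk ▸ Subgroup.index_map_dvd Y hmk
        have h2 : Nat.card (Y.map mk) * (Y.map mk).index = Nat.card (X ⧸ C) := Subgroup.card_mul_index _
        have h3 : r ∣ Nat.card (Y.map mk) := by
          rw [← h2] at hrd
          refine (hr.dvd_mul.1 hrd).resolve_right fun h4 => hrp ?_
          exact (Nat.prime_dvd_prime_iff_eq hr hpp).1 (hr.dvd_of_dvd_pow (h4.trans h1))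
        obtain ⟨y, hy⟩ := exists_prime_orderOf_dvd_card' r h3
        obtain ⟨a, ha, hae⟩ := y.2
        have h5 : ((y : X ⧸ C)) ^ (p - 1) = 1 := by
          rw [← hae, ← map_pow]
          exact (QuotientGroup.eq_one_iff _).2 (hcenC (hY2 a ha))
        have h6 : orderOf (y : X ⧸ C) = r := by rw [Subgroup.orderOf_coe]; exact hy
        have h7 := orderOf_dvd_of_pow_eq_one h5
        rw [h6] at h7
        have := Nat.le_of_dvd (by have := hpp.one_lt; omega) h7
        omega
      have hSn := Cfsg.Agent.Lib.SuperHall.normal_sylow_largest _ (X ⧸ C) rfl hAs p hpp hmax (P₁.mapSurjective hmk)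
      rw [Sylow.coe_mapSurjective] at hSn
      haveI := hSn
      let D : Subgroup X := ((P₁ : Subgroup X).map mk).comap mk
      haveI hDn : D.Normal := Subgroup.Normal.comap hSn mk
      haveI : (centralizer (D : Set X)).Normal := Subgroup.normal_centralizer
      have h1 : (W ⊓ centralizer (D : Set X)).Normal := Subgroup.normal_inf_normal _ _
      have hP₁D : (P₁ : Subgroup X) ≤ D := fun t ht => mem_comap.2 ⟨t, ht, rfl⟩
      rcases hWmin' _ h1 inf_le_left with h2 | h2
      · exfalso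
        haveI : (W.subgroupOf (P₁ : Subgroup X)).Normal := Subgroup.normal_subgroupOf
        obtain ⟨x, hx, hx1⟩ := (Subgroup.bot_or_exists_ne_one W).resolve_left hWne
        have hne' : W.subgroupOf (P₁ : Subgroup X) ≠ ⊥ := by
          intro h
          have h3 : (⟨x, hWP hx⟩ : (P₁ : Subgroup X)) ∈ W.subgroupOf (P₁ : Subgroup X) := mem_subgroupOf.2 hx
          rw [h, Subgroup.mem_bot] at h3
          exact hx1 (congrArg Subtype.val h3)
        obtain ⟨z, hz, hz1, hzc⟩ := Cfsg.Agent.Lib.PGroupBasic.exists_ne_one_mem_center_of_normal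
          P₁.isPGroup' (W.subgroupOf (P₁ : Subgroup X)) hne'
        have hzW : (z : X) ∈ W := mem_subgroupOf.1 hz
        have h4 : (z : X) ∈ W ⊓ centralizer (D : Set X) := by
          refine ⟨hzW, mem_centralizer_iff.2 fun d hd => ?_⟩
          obtain ⟨t, ht, hte⟩ := mem_comap.1 hd
          have hc : t⁻¹ * d ∈ C := by
            have : mk (t⁻¹ * d) = 1 := by rw [map_mul, map_inv, hte, inv_mul_cancel]
            exact (QuotientGroup.eq_one_iff _).1 this
          have e : d = t * (t⁻¹ * d) := by group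
          have h5 : t * (z : X) = (z : X) * t := by
            have := Subgroup.mem_center_iff.1 hzc ⟨t, ht⟩
            exact congrArg Subtype.val this
          have h6 : (z : X) * (t⁻¹ * d) = (t⁻¹ * d) * (z : X) := mem_centralizer_iff.1 hc z hzW
          rw [e, mul_assoc, ← h6, ← mul_assoc, h5, mul_assoc]
        rw [h2, Subgroup.mem_bot] at h4
        exact hz1 (Subtype.ext h4)
      · have h3 : W ≤ centralizer (D : Set X) := inf_eq_left.1 h2
        intro t ht
        exact mem_centralizer_iff.2 fun w hw => (mem_centralizer_iff.1 (h3 hw) t (hP₁D ht)).symm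
    · intro t ht
      obtain ⟨i, hi⟩ := (IsPGroup.iff_orderOf.1 P₁.isPGroup') ⟨t, ht⟩
      rw [Subgroup.orderOf_mk] at hi
      have h1 : orderOf (mk t) ∣ p ^ i := hi ▸ orderOf_map_dvd mk t
      obtain ⟨j, -, hj⟩ := (Nat.dvd_prime_pow hpp).1 h1
      have h2 : orderOf (mk t) ∣ Nat.card (X ⧸ C) := orderOf_dvd_natCard _
      rcases j with _ | j
      · rw [pow_zero] at hj
        exact (QuotientGroup.eq_one_iff _).1 (orderOf_eq_one_iff.1 hj)
      · exfalso
        apply hdiv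
        rw [hj] at h2
        exact (dvd_pow_self p (Nat.succ_ne_zero j)).trans h2
  -- `X = C Y`
  have hsup : C ⊔ Y = ⊤ := by
    obtain ⟨k, hk⟩ := hYi
    have h1 : (C ⊔ Y).index ∣ Y.index := Subgroup.index_dvd_of_le le_sup_right
    have h2 : (C ⊔ Y).index ∣ (P₁ : Subgroup X).index :=
      Subgroup.index_dvd_of_le (hPC.trans le_sup_left)
    rw [← Subgroup.index_eq_one]
    rw [hk] at h1
    obtain ⟨j, -, hj⟩ := (Nat.dvd_prime_pow hpp).1 h1
    rcases j with _ | j
    · simpa using hj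
    · exfalso
      apply P₁.not_dvd_index
      rw [hj] at h2
      exact (dvd_pow_self p (Nat.succ_ne_zero j)).trans h2
  have hdec : ∀ x : X, ∃ c ∈ C, ∃ y ∈ Y, c * y = x := by
    intro x
    have : x ∈ C ⊔ Y := hsup ▸ mem_top x
    obtain ⟨c, hc, y, hy, e⟩ := (Subgroup.mem_sup_of_normal_left).1 this
    exact ⟨c, hc, y, hy, e⟩
  -- a minimal `Y`-invariant subgroup of `W`
  have hYW : Y ≤ normalizer (W : Set X) := by
    intro y _
    rw [mem_normalizer_iff]
    intro x
    exact ⟨fun hx => hWn.conj_mem x hx y, fun hx => by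
      have := hWn.conj_mem _ hx y⁻¹
      have e : y⁻¹ * (y * x * y⁻¹) * y⁻¹⁻¹ = x := by group
      rwa [e] at this⟩
  obtain ⟨V, hVmin⟩ := exists_minimal_of_wellFoundedLT
    (fun V : Subgroup X => V ≤ W ∧ V ≠ ⊥ ∧ Y ≤ normalizer (V : Set X)) ⟨W, le_rfl, hWne, hYW⟩
  obtain ⟨hVW, hVne, hVY⟩ := hVmin.1
  have hVeig : ∀ a ∈ Y, ∃ k : ℕ, ∀ u ∈ V, a * u * a⁻¹ = u ^ k := by
    intro a ha
    obtain ⟨k, v, hv, hv1, hvk⟩ := exists_eigen (V := V) (a := a) (p := p)
      (fun x hx y hy => hWc x (hVW hx) y (hVW hy)) (fun v hv => hWexp v (hVW hv)) hVne (hVY ha)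
      (fun v hv => by
        have := mem_centralizer_iff.1 (hY2 a ha) v (hWR (hVW hv))
        rw [← this]
        group)
    refine ⟨k, ?_⟩
    let Vk : Subgroup X :=
      { carrier := {u | u ∈ V ∧ a * u * a⁻¹ = u ^ k}
        mul_mem' := by
          rintro x y ⟨hx, hxk⟩ ⟨hy, hyk⟩
          refine ⟨V.mul_mem hx hy, ?_⟩
          have hcomm : Commute x y := hWc x (hVW hx) y (hVW hy)
          rw [hcomm.mul_pow, ← hxk, ← hyk]
          group
        one_mem' := ⟨V.one_mem, by simp⟩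
        inv_mem' := by
          rintro x ⟨hx, hxk⟩
          refine ⟨V.inv_mem hx, ?_⟩
          rw [inv_pow, ← hxk]
          group }
    have hVkV : Vk ≤ V := fun u hu => hu.1
    have hQ : V ≤ Vk := by
      refine hVmin.2 ⟨hVkV.trans hVW, ?_, ?_⟩ hVkV
      · intro h
        have : v ∈ Vk := ⟨hv, hvk⟩
        rw [h, Subgroup.mem_bot] at this
        exact hv1 this
      · intro b hb
        refine Cfsg.Agent.Lib.H5Basic.mem_normalizer_of_map_conj_le ?_
        rintro _ ⟨u, hu, rfl⟩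
        show b * u * b⁻¹ ∈ Vk
        have hbu : b * u * b⁻¹ ∈ V := (mem_normalizer_iff.1 (hVY hb) u).1 hu.1
        refine ⟨hbu, ?_⟩
        have hc := mem_centralizer_iff.1 (hY1 a ha b hb) ((b * u * b⁻¹) ^ k) (R.pow_mem (hWR (hVW hbu)) k)
        have e1 : (b * u * b⁻¹) ^ k = b * u ^ k * b⁻¹ := by rw [conj_pow]
        have e3 : a * (b * u * b⁻¹) * a⁻¹ = ⁅a, b⁆ * (b * (a * u * a⁻¹) * b⁻¹) * ⁅a, b⁆⁻¹ := by
          simp only [commutatorElement_def]
          group
        rw [e3, hu.2, ← e1, ← hc]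
        group
    exact fun u hu => (hQ hu).2
  obtain ⟨v, hv, hv1⟩ := (Subgroup.bot_or_exists_ne_one V).resolve_left hVne
  refine ⟨v, hWR (hVW hv), hv1, hWexp v (hVW hv), ⟨?_⟩⟩
  rintro _ ⟨m, rfl⟩ g
  obtain ⟨c, hc, y, hy, rfl⟩ := hdec g
  obtain ⟨k, hk⟩ := hVeig y hy
  have h1 : y * v * y⁻¹ = v ^ k := hk v hv
  have h2 : c * (v ^ k) * c⁻¹ = v ^ k := by
    have := mem_centralizer_iff.1 hc (v ^ k) (W.pow_mem (hVW hv) k)
    rw [← this]
    group
  have h3 : (c * y) * v * (c * y)⁻¹ = v ^ k := by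
    calc (c * y) * v * (c * y)⁻¹ = c * (y * v * y⁻¹) * c⁻¹ := by group
      _ = v ^ k := by rw [h1, h2]
  have h4 : (c * y) * (fun n : ℤ => v ^ n) m * (c * y)⁻¹ = ((c * y) * v * (c * y)⁻¹) ^ m := by
    simp only [conj_zpow]
  rw [h4, h3]
  exact Subgroup.zpow_mem _ (Subgroup.npow_mem_zpowers v k) m

/-- The chain, by induction on `|R|`. -/
theorem chain_of_pi (n : ℕ) : ∀ (X : Type u) [Group X] [Finite X] (R Y : Subgroup X) [R.Normal], Nat.card R = n →
    IsPGroup p R → IsSupersolvable (X ⧸ R) → ¬ p ∣ Nat.card Y → (∃ k : ℕ, Y.index = p ^ k) →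
    (∀ a ∈ Y, ∀ b ∈ Y, ⁅a, b⁆ ∈ centralizer (R : Set X)) →
    (∀ a ∈ Y, a ^ (p - 1) ∈ centralizer (R : Set X)) → Chain R := by
  induction n using Nat.strong_induction_on with
  | _ n IH =>
  intro X _ _ R Y _ hn hR hs hYc hYi hY1 hY2
  classical
  have hpp := hp.out
  by_cases hne : R = ⊥
  · rw [hne]; exact Chain.bot
  obtain ⟨w, hwR, hw1, hwp, hwn⟩ := exists_line R Y hne hR hs hYc hYi hY1 hY2
  haveI := hwn
  let N : Subgroup X := zpowers w
  let π : X →* X ⧸ N := QuotientGroup.mk' N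
  have hπ : Function.Surjective π := QuotientGroup.mk'_surjective N
  have hker : π.ker = N := QuotientGroup.ker_mk' N
  have hNR : N ≤ R := zpowers_le.2 hwR
  have hNc : Nat.card N = p := by
    rw [Nat.card_zpowers]
    exact orderOf_eq_prime hwp hw1
  haveI hR' : (R.map π).Normal := Subgroup.Normal.map ‹_› π hπ
  have hcard : Nat.card (R.map π) * p = Nat.card R := by
    have := Cfsg.Agent.Lib.SchurZ.card_map_mul_card_ker π (A := R) (by rw [hker]; exact hNR)
    rwa [hker, hNc] at this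
  have hlt : Nat.card (R.map π) < n := by
    rw [← hn, ← hcard]
    have h0 : 0 < Nat.card (R.map π) := Nat.card_pos
    have := hpp.one_lt
    nlinarith
  have hchain : Chain (R.map π) := by
    refine IH _ hlt (X ⧸ N) (R.map π) (Y.map π) rfl (hR.map π) ?_ ?_ ?_ ?_ ?_
    · refine super_map hs (QuotientGroup.map R (R.map π) π (Subgroup.le_comap_map π R)) ?_
      intro q
      induction q using QuotientGroup.induction_on with
      | H x =>
        obtain ⟨y, rfl⟩ := hπ x
        exact ⟨(y : X ⧸ R), rfl⟩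
    · exact fun h => hYc (h.trans (Subgroup.card_map_dvd Y π))
    · obtain ⟨k, hk⟩ := hYi
      have h1 : (Y.map π).index ∣ p ^ k := hk ▸ Subgroup.index_map_dvd Y hπ
      obtain ⟨j, -, hj⟩ := (Nat.dvd_prime_pow hpp).1 h1
      exact ⟨j, hj⟩
    · rintro _ ⟨a, ha, rfl⟩ _ ⟨b, hb, rfl⟩
      refine mem_centralizer_iff.2 ?_
      rintro _ ⟨r, hr, rfl⟩
      have := mem_centralizer_iff.1 (hY1 a ha b hb) r hr
      rw [← map_commutatorElement, ← map_mul, this, map_mul]
    · rintro _ ⟨a, ha, rfl⟩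
      refine mem_centralizer_iff.2 ?_
      rintro _ ⟨r, hr, rfl⟩
      have := mem_centralizer_iff.1 (hY2 a ha) r hr
      rw [← map_pow, ← map_mul, this, map_mul]
  have hk : Chain π.ker := by
    rw [hker]
    have h1 : (⊥ : Subgroup X) ⊔ zpowers w = N := bot_sup_eq _
    rw [← h1]
    exact Chain.step w Chain.bot (by rw [h1]; exact hwn)
  have h2 := Chain.comap_surj π hπ hk hchain
  have h3 : (R.map π).comap π = R := by
    rw [Subgroup.comap_map_eq, hker]
    exact sup_eq_left.2 hNR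
  rwa [h3] at h2

/-- Normal `p`-subgroups all of whose subgroups of order `d` are normal. -/
theorem chain_of_normal (R : Subgroup X) [hRn : R.Normal] (hR : IsPGroup p R) (hs : IsSupersolvable (X ⧸ R))
    {d k : ℕ} (hd : d = p ^ (k + 1)) (hdR : d < Nat.card R)
    (hF : ∀ F : Subgroup X, F ≤ R → (Nat.card F = d ∨ (d = 2 ∧ Nat.card F = 4)) → F.Normal) : Chain R := by
  classical
  have hpp := hp.out
  haveI hXs : Group.IsSolvable X := isSolvable_of_pgroup_quot R hR hs
  obtain ⟨a, m, hm, he⟩ := Nat.exists_eq_pow_mul_and_not_dvd (n := Nat.card X) Nat.card_pos.ne' p hpp.ne_one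
  obtain ⟨Y, hYc⟩ := Cfsg.Agent.Lib.Hall.hall_exists _ X m (p ^ a) rfl (by rw [he, mul_comm])
    ((Nat.Coprime.pow_right a ((Nat.Prime.coprime_iff_not_dvd hpp).2 hm).symm))
  have hYi : Y.index = p ^ a := by
    have h1 := Subgroup.card_mul_index Y
    rw [hYc, he, mul_comm] at h1
    exact Nat.eq_of_mul_eq_mul_right (Nat.pos_of_ne_zero (fun h0 => hm (by rw [h0]; exact dvd_zero p))) h1
  have hYp : ¬ p ∣ Nat.card Y := hYc ▸ hm
  have hcop : ∀ c ∈ Y, (orderOf c).Coprime p := by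
    intro c hc
    have h1 : orderOf c ∣ Nat.card Y := by
      have := orderOf_dvd_natCard (⟨c, hc⟩ : Y)
      rwa [Subgroup.orderOf_mk] at this
    exact ((Nat.Prime.coprime_iff_not_dvd hpp).2 fun h => hYp (h.trans h1)).symm
  have hYnorm : ∀ F : Subgroup X, F.Normal → Y ≤ normalizer (F : Set X) := by
    intro F hFn y _
    rw [mem_normalizer_iff]
    intro x
    exact ⟨fun hx => hFn.conj_mem x hx y, fun hx => by
      have := hFn.conj_mem _ hx y⁻¹
      have e : y⁻¹ * (y * x * y⁻¹) * y⁻¹⁻¹ = x := by group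
      rwa [e] at this⟩
  have hcent : ∀ c ∈ Y, (∀ U U₀ : Subgroup X, U₀ ≤ U → U ≤ R → U ≤ normalizer (U₀ : Set X) → U₀.relIndex U = p →
      Y ≤ normalizer (U : Set X) → Y ≤ normalizer (U₀ : Set X) → ∀ u ∈ U, u⁻¹ * (c * u * c⁻¹) ∈ U₀) →
      c ∈ centralizer (R : Set X) := by
    intro c hc htriv
    have := centralizes_of_triv hR (hYnorm R hRn) hc (hcop c hc) hd hdR
      (fun F hFR hFc => hYnorm F (hF F hFR hFc)) htriv
    refine mem_centralizer_iff.2 fun r hr => ?_
    have h1 := this r hr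
    calc r * c = (c * r * c⁻¹) * c := by rw [h1]
      _ = c * r := by group
  refine chain_of_pi _ X R Y rfl hR hs hYp ⟨a, hYi⟩ ?_ ?_
  · intro x hx y hy
    refine hcent _ (Y.mul_mem (Y.mul_mem (Y.mul_mem hx hy) (Y.inv_mem hx)) (Y.inv_mem hy)) ?_
    intro U U₀ h1 h2 h3 h4 h5 h6 u hu
    exact (sec_triv h1 h3 h4 h5 h6).1 x hx y hy u hu
  · intro x hx
    refine hcent _ (Y.pow_mem hx _) ?_
    intro U U₀ h1 h2 h3 h4 h5 h6 u hu
    exact (sec_triv h1 h3 h4 h5 h6).2 x hx u hu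

end Chain

section Main

variable {G₁ : Type u} [Group G₁]

theorem isH_of_map {E : Subgroup G₁} {F' : Subgroup E} (h : IsH (F'.map E.subtype)) : IsH F' := by
  rintro g _ ⟨⟨y, hy, rfl⟩, hn⟩
  have h1 : (g : G₁) * y * (g : G₁)⁻¹ ∈ F'.map E.subtype := by
    refine h g ⟨⟨y, ⟨y, hy, rfl⟩, rfl⟩, mem_normalizer_iff.2 ?_⟩
    intro z
    have hgy : (g * y * g⁻¹ : E) ∈ normalizer (F' : Set E) := hn
    constructor
    · rintro ⟨w, hw, rfl⟩
      have := (mem_normalizer_iff.1 hgy w).1 hw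
      exact ⟨_, this, rfl⟩
    · intro hz
      obtain ⟨w, hw, hwe⟩ := hz
      have hzE : z ∈ E := by
        have e : z = ((g * y * g⁻¹ : E) : G₁)⁻¹ * (w : G₁) * ((g * y * g⁻¹ : E) : G₁) := by
          rw [show (E.subtype w) = (w : G₁) from rfl] at hwe
          rw [hwe]
          simp only [Subgroup.coe_mul, Subgroup.coe_inv]
          group
        rw [e]
        exact E.mul_mem (E.mul_mem (E.inv_mem (g * y * g⁻¹ : E).2) w.2) (g * y * g⁻¹ : E).2
      refine ⟨⟨z, hzE⟩, (mem_normalizer_iff.1 hgy ⟨z, hzE⟩).2 ?_, rfl⟩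
      have e2 : (g * y * g⁻¹ : E) * ⟨z, hzE⟩ * (g * y * g⁻¹ : E)⁻¹ = w := by
        apply Subtype.ext
        exact hwe.symm
      rw [e2]
      exact hw
  obtain ⟨w, hw, hwe⟩ := h1
  have : w = (MulAut.conj g).toMonoidHom y := Subtype.ext hwe
  rw [← this]
  exact hw

variable [Finite G₁]

theorem super_of_hyp (n : ℕ) : ∀ (E : Subgroup G₁) [E.Normal], Nat.card E = n → IsSupersolvable (G₁ ⧸ E) →
    (∀ (p : ℕ), p.Prime → ∀ P : Subgroup G₁, P ≤ E → IsPGroup p P → ¬ p ∣ P.relIndex E → ¬ IsCyclic P →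
      ∃ D : Subgroup G₁, D ≤ P ∧ 1 < Nat.card D ∧ Nat.card D < Nat.card P ∧
        ∀ F : Subgroup G₁, F ≤ P → (Nat.card F = Nat.card D ∨ (Nat.card D = 2 ∧ Nat.card F = 4)) → IsH F) →
    IsSupersolvable G₁ := by
  induction n using Nat.strong_induction_on with
  | _ n IH =>
  intro E _ hn hs hH
  classical
  by_cases hE : E = ⊥
  · refine super_map hs (QuotientGroup.lift E (MonoidHom.id G₁) ?_) ?_
    · intro x hx
      rw [hE, Subgroup.mem_bot] at hx
      simpa using hx
    · intro x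
      exact ⟨(x : G₁ ⧸ E), rfl⟩
  have hc1 : Nat.card E ≠ 1 := fun h => hE (Subgroup.eq_bot_of_card_eq E h)
  let p := Nat.minFac (Nat.card E)
  have hpp : p.Prime := Nat.minFac_prime hc1
  haveI : Fact p.Prime := ⟨hpp⟩
  have hpd : p ∣ Nat.card E := Nat.minFac_dvd _
  have hmin : ∀ q : ℕ, q.Prime → q ∣ Nat.card E → p ≤ q := fun q hq h => Nat.minFac_le_of_dvd hq.two_le h
  let P₀ : Sylow p E := default
  let P : Subgroup G₁ := (P₀ : Subgroup E).map E.subtype
  have hPE : P ≤ E := map_subtype_le _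
  have hPp : IsPGroup p P := P₀.isPGroup'.map E.subtype
  have hPc : Nat.card P = Nat.card (P₀ : Subgroup E) := Subgroup.card_map_of_injective E.subtype_injective
  have hPi : P.relIndex E = (P₀ : Subgroup E).index := by
    have h : P.subgroupOf E = P₀ := Subgroup.comap_map_eq_self_of_injective E.subtype_injective _
    rw [Subgroup.relIndex, h]
  have hPnd : ¬ p ∣ P.relIndex E := hPi ▸ P₀.not_dvd_index
  have hnpc : HasNormalPComplement p E := by
    by_cases hc : IsCyclic P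
    · have : IsCyclic (P₀ : Subgroup E) :=
        isCyclic_of_surjective ((P₀ : Subgroup E).equivMapOfInjective E.subtype E.subtype_injective).symm
          (MulEquiv.surjective _)
      exact npc_of_cyclic hmin P₀ this
    · obtain ⟨D, hDP, hD1, hD2, hDF⟩ := hH p hpp P hPE hPp hPnd hc
      obtain ⟨k, hk⟩ := IsPGroup.iff_card.1 (hPp.to_le hDP)
      refine npc_of_isH hmin P₀ hD1 (hPc ▸ hD2) ⟨k, hk⟩ ?_
      intro F' hF' hF'c
      refine isH_of_map (hDF _ (Subgroup.map_mono hF') ?_)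
      rwa [Subgroup.card_map_of_injective E.subtype_injective]
  obtain ⟨N, hNn, hNp, hNpow⟩ := Cfsg.Agent.Lib.PNilp.npc_iff.1 hnpc
  haveI : (pPrimeCore p E).Characteristic := Cfsg.Agent.Lib.PComps.pPrimeCore_characteristic
  let K : Subgroup G₁ := (pPrimeCore p E).map E.subtype
  haveI hKn : K.Normal := Cfsg.Agent.Lib.FitCore.map_subtype_normal_of_char E _
  have hKE : K ≤ E := map_subtype_le _
  have hKc : ¬ p ∣ Nat.card K := by
    rw [Subgroup.card_map_of_injective E.subtype_injective]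
    exact Cfsg.Agent.Lib.FitCore.not_dvd_card_pPrimeCore p hpp
  have hNK : N ≤ pPrimeCore p E := le_sSup ⟨hNn, ((Nat.Prime.coprime_iff_not_dvd hpp).2 hNp).symm⟩
  have hEpow : ∀ e ∈ E, ∃ j : ℕ, e ^ p ^ j ∈ K := fun e he => by
    obtain ⟨j, hj⟩ := hNpow ⟨e, he⟩
    exact ⟨j, ⟨_, hNK hj, rfl⟩⟩
  let mk : G₁ →* G₁ ⧸ K := QuotientGroup.mk' K
  have hmk : Function.Surjective mk := QuotientGroup.mk'_surjective K
  have hker : mk.ker = K := QuotientGroup.ker_mk' K
  have hmkK : ∀ x, mk x = 1 ↔ x ∈ K := fun x => QuotientGroup.eq_one_iff x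
  let R : Subgroup (G₁ ⧸ K) := E.map mk
  haveI hRn : R.Normal := Subgroup.Normal.map ‹_› mk hmk
  have hRp : IsPGroup p R := by
    rintro ⟨_, e, he, rfl⟩
    obtain ⟨j, hj⟩ := hEpow e he
    refine ⟨j, Subtype.ext ?_⟩
    show mk e ^ p ^ j = 1
    rw [← map_pow]
    exact (hmkK _).2 hj
  have hRs : IsSupersolvable ((G₁ ⧸ K) ⧸ R) := by
    refine super_map hs (QuotientGroup.map E R mk (Subgroup.le_comap_map mk E)) ?_
    intro q
    induction q using QuotientGroup.induction_on with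
    | H x =>
      obtain ⟨y, rfl⟩ := hmk x
      exact ⟨(y : G₁ ⧸ E), rfl⟩
  -- `P` maps isomorphically onto `R`
  have hPK : P ⊓ K = ⊥ := by
    refine Cfsg.Agent.Lib.SchurZ.inf_eq_bot_of_coprime ?_
    obtain ⟨a, ha⟩ := IsPGroup.iff_card.1 hPp
    rw [ha]
    exact Nat.Coprime.pow_left a ((Nat.Prime.coprime_iff_not_dvd hpp).2 hKc)
  have hinjP : ∀ t ∈ P, mk t = 1 → t = 1 := by
    intro t ht h1
    have : t ∈ P ⊓ K := ⟨ht, (hmkK t).1 h1⟩
    rwa [hPK, Subgroup.mem_bot] at this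
  have hRP : ∀ r ∈ R, ∃ t ∈ P, mk t = r := by
    let ψ : E →* R := mk.subgroupMap E
    have hψ : Function.Surjective ψ := mk.subgroupMap_surjective E
    let S : Sylow p R := P₀.mapSurjective hψ
    have hS : (S : Subgroup R) = ⊤ := (S.is_maximal' (hRp.to_subgroup ⊤) le_top).symm
    intro r hr
    have h1 : (⟨r, hr⟩ : R) ∈ (S : Subgroup R) := hS ▸ mem_top _
    rw [Sylow.coe_mapSurjective] at h1
    obtain ⟨e, he, hee⟩ := h1
    refine ⟨e, ⟨e, he, rfl⟩, ?_⟩
    exact congrArg Subtype.val hee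
  let θ : P →* R := (mk.comp P.subtype).codRestrict R (fun t => ⟨t, hPE t.2, rfl⟩)
  have hθi : Function.Injective θ := by
    rw [injective_iff_map_eq_one]
    intro t ht
    have h1 : mk t = 1 := congrArg Subtype.val ht
    exact Subtype.ext (hinjP t t.2 h1)
  have hθs : Function.Surjective θ := by
    rintro ⟨r, hr⟩
    obtain ⟨t, ht, hte⟩ := hRP r hr
    exact ⟨⟨t, ht⟩, Subtype.ext hte⟩
  have hRc : Nat.card R = Nat.card P := (Nat.card_congr (Equiv.ofBijective θ ⟨hθi, hθs⟩)).symm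
  -- the chain
  have hchain : Chain R := by
    by_cases hc : IsCyclic P
    · have hRcyc : IsCyclic R := isCyclic_of_surjective θ hθs
      obtain ⟨g, hg⟩ := IsCyclic.exists_generator (α := R)
      have hRz : (⊥ : Subgroup (G₁ ⧸ K)) ⊔ zpowers (g : G₁ ⧸ K) = R := by
        rw [bot_sup_eq]
        refine le_antisymm (zpowers_le.2 g.2) ?_
        intro r hr
        obtain ⟨m, hm⟩ := hg ⟨r, hr⟩
        refine ⟨m, ?_⟩
        exact congrArg Subtype.val hm
      rw [← hRz]
      exact Chain.step (g : G₁ ⧸ K) Chain.bot (by rw [hRz]; exact hRn)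
    · obtain ⟨D, hDP, hD1, hD2, hDF⟩ := hH p hpp P hPE hPp hPnd hc
      obtain ⟨k, hk⟩ := IsPGroup.iff_card.1 (hPp.to_le hDP)
      obtain ⟨k, rfl⟩ : ∃ j, k = j + 1 := by
        rcases k with _ | k
        · rw [pow_zero] at hk
          omega
        · exact ⟨k, rfl⟩
      refine chain_of_normal R hRp hRs hk (hRc ▸ hD2) ?_
      intro Fb hFbR hFbc
      let F : Subgroup G₁ := Fb.comap mk ⊓ P
      have hFbim : ∀ f ∈ Fb, ∃ t ∈ F, mk t = f := by
        intro f hf
        obtain ⟨t, ht, hte⟩ := hRP f (hFbR hf)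
        exact ⟨t, ⟨mem_comap.2 (hte ▸ hf), ht⟩, hte⟩
      let θ' : F →* Fb := (mk.comp F.subtype).codRestrict Fb (fun t => t.2.1)
      have hθ'i : Function.Injective θ' := by
        rw [injective_iff_map_eq_one]
        intro t ht
        have h1 : mk t = 1 := congrArg Subtype.val ht
        exact Subtype.ext (hinjP t t.2.2 h1)
      have hθ's : Function.Surjective θ' := by
        rintro ⟨f, hf⟩
        obtain ⟨t, ht, hte⟩ := hFbim f hf
        exact ⟨⟨t, ht⟩, Subtype.ext hte⟩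
      have hFc : Nat.card F = Nat.card Fb := Nat.card_congr (Equiv.ofBijective θ' ⟨hθ'i, hθ's⟩)
      have hFH : IsH F := hDF F inf_le_right (hFc ▸ hFbc)
      have hNF : normalizer (P : Set G₁) ≤ normalizer (F : Set G₁) :=
        fun g hg => hFH.mem_normalizer inf_le_right hPp hg
      have htop : normalizer (P : Set G₁) ⊔ K = ⊤ := by
        have h1 := Sylow.normalizer_sup_eq_top (N := E) P₀
        refine eq_top_iff.2 ?_
        rw [← h1]
        refine sup_le le_sup_left ?_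
        intro e he
        obtain ⟨t, ht, hte⟩ := hRP (mk e) ⟨e, he, rfl⟩
        have h2 : t⁻¹ * e ∈ K := (hmkK _).1 (by rw [map_mul, map_inv, hte, inv_mul_cancel])
        have e2 : e = t * (t⁻¹ * e) := by group
        rw [e2]
        exact Subgroup.mul_mem _ ((le_sup_left : normalizer (P : Set G₁) ≤ _) (Subgroup.le_normalizer ht))
          ((le_sup_right : K ≤ _) h2)
      refine ⟨fun f hf gb => ?_⟩
      obtain ⟨g, rfl⟩ := hmk gb
      have hg : g ∈ normalizer (P : Set G₁) ⊔ K := htop ▸ mem_top g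
      obtain ⟨n, hn', k', hk', rfl⟩ := (Subgroup.mem_sup_of_normal_right).1 hg
      obtain ⟨t, ht, rfl⟩ := hFbim f hf
      have hk1 : mk k' = 1 := (hmkK k').2 hk'
      have h3 : n * t * n⁻¹ ∈ F := (mem_normalizer_iff.1 (hNF hn') t).1 ht
      have h4 : mk (n * t * n⁻¹) ∈ Fb := h3.1
      have e3 : mk (n * k') * mk t * (mk (n * k'))⁻¹ = mk (n * t * n⁻¹) := by
        simp only [map_mul, map_inv, hk1, mul_one]
      rw [e3]
      exact h4
  have hX : IsSupersolvable (G₁ ⧸ K) := by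
    rw [super_iff]
    have h1 := chain_of_super hRs
    have hk : Chain (QuotientGroup.mk' R).ker := by
      rw [QuotientGroup.ker_mk']
      exact hchain
    have h2 := Chain.comap_surj (QuotientGroup.mk' R) (QuotientGroup.mk'_surjective R) hk h1
    rwa [Subgroup.comap_top] at h2
  have hcardK : Nat.card K < n := by
    rw [← hn]
    refine lt_of_le_of_ne (Nat.le_of_dvd Nat.card_pos (Subgroup.card_dvd_of_le hKE)) ?_
    intro h
    exact hKc (h ▸ hpd)
  refine IH _ hcardK K rfl hX ?_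
  intro q hq Q hQK hQp hQnd hQc
  have hqp : q ≠ p := by
    rintro rfl
    apply hQc
    have hQc1 : Nat.card Q = 1 := by
      obtain ⟨j, hj⟩ := IsPGroup.iff_card.1 hQp
      rcases j with _ | j
      · simpa using hj
      · exfalso
        apply hKc
        have h1 : Nat.card Q ∣ Nat.card K := Subgroup.card_dvd_of_le hQK
        rw [hj] at h1
        exact (dvd_pow_self _ (Nat.succ_ne_zero j)).trans h1
    have : Subsingleton Q := (Nat.card_eq_one_iff_unique.1 hQc1).1
    exact isCyclic_of_subsingleton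
  refine hH q hq Q (hQK.trans hKE) hQp ?_ hQc
  have h1 := Subgroup.relIndex_mul_relIndex Q K E hQK hKE
  rw [← h1]
  intro h2
  rcases hq.dvd_mul.1 h2 with h3 | h3
  · exact hQnd h3
  · have h4 : K.relIndex E = Nat.card R := by
      have h5 := Cfsg.Agent.Lib.H5Basic.card_mul_relIndex_of_le hKE
      have h6 := Cfsg.Agent.Lib.SchurZ.card_map_mul_card_ker mk (A := E) (by rw [hker]; exact hKE)
      rw [hker, mul_comm] at h6
      rw [← h6] at h5
      exact Nat.eq_of_mul_eq_mul_left Nat.card_pos h5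
    rw [h4] at h3
    obtain ⟨b, hb⟩ := IsPGroup.iff_card.1 hRp
    rw [hb] at h3
    exact hqp ((Nat.prime_dvd_prime_iff_eq hq hpp).1 (hq.dvd_of_dvd_pow h3))

end Main

end Cfsg.Agent.Lib.HSub2
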