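/-
Symmetric groups of prime power degree without Hall subgroups.
-/
import Mathlib
import Cfsg.Agent.Lib.WreathMaxA

set_option autoImplicit false
set_option linter.all false

namespace Cfsg.Agent.Lib.HallSym

open Equiv Equiv.Perm MulAction Cfsg.Agent.Lib.WreathMax Cfsg.Agent.Lib.WreathMaxA
open scoped Pointwise

theorem term_le {b c x : ℕ} (hx : 0 < x) (hv : ¬ x ∣ b) : c / x + c * (b / x) ≤ b * c / x := by
  rw [Nat.le_div_iff_mul_le hx]
  have h1 := Nat.div_add_mod b x
  have h2 : 1 ≤ b % x := by
    rcases Nat.eq_zero_or_pos (b % x) with h | h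
    · exact absurd (Nat.dvd_of_mod_eq_zero h) hv
    · exact h
  have h3 := Nat.div_mul_le_self c x
  set u := b / x
  set v := b % x
  set w := c / x
  calc (w + c * u) * x = w * x + c * (u * x) := by ring
    _ ≤ c + c * (u * x) := by omega
    _ = c * (u * x + 1) := by ring
    _ ≤ c * (x * u + v) := by
      apply Nat.mul_le_mul_left
      rw [mul_comm u x]
      omega
    _ = b * c := by
      rw [show x * u + v = b from h1, mul_comm]

theorem val_strict {p q s t : ℕ} (hp : p.Prime) (hq : q.Prime) (hqp : q < p) (hs : 1 ≤ s) (ht : 1 ≤ t) :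
    padicValNat q ((p ^ t).factorial) + p ^ t * padicValNat q ((p ^ s).factorial) < padicValNat q ((p ^ (s + t)).factorial) := by
  haveI : Fact q.Prime := ⟨hq⟩
  set b := p ^ s with hb
  set c := p ^ t with hc
  have hbc : p ^ (s + t) = b * c := pow_add p s t
  rw [hbc]
  set L := b * c + 1 with hL
  have hpos : 0 < p := hp.pos
  have hbpos : 0 < b := Nat.pow_pos hpos
  have hcpos : 0 < c := Nat.pow_pos hpos
  have hbc1 : 1 ≤ b * c := Nat.mul_pos hbpos hcpos
  have hlog : ∀ m, m ≤ b * c → 0 < m → Nat.log q m < L := by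
    intro m hm hm0
    have h1 : Nat.log q m < m := Nat.log_lt_self q (by omega)
    omega
  have hble : b ≤ b * c := Nat.le_mul_of_pos_right b hcpos
  have hcle : c ≤ b * c := Nat.le_mul_of_pos_left c hbpos
  rw [padicValNat_factorial (hlog c hcle hcpos), padicValNat_factorial (hlog b hble hbpos),
    padicValNat_factorial (hlog (b * c) le_rfl hbc1), Finset.mul_sum, ← Finset.sum_add_distrib]
  have hdvd : ∀ i ∈ Finset.Ico 1 L, ¬ q ^ i ∣ b := by
    intro i hi h
    have hi1 := (Finset.mem_Ico.1 hi).1
    have h1 : q ∣ p ^ s := (dvd_pow_self q (by omega)).trans h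
    have h2 : q ∣ p := hq.dvd_of_dvd_pow h1
    have h3 := (Nat.prime_dvd_prime_iff_eq hq hp).1 h2
    omega
  apply Finset.sum_lt_sum
  · intro i hi
    exact term_le (Nat.pow_pos hq.pos) (hdvd i hi)
  · -- the strict term
    set M := max b c with hM
    have hMpos : M ≠ 0 := by
      have : b ≤ M := le_max_left _ _
      omega
    set i₀ := Nat.log q M + 1 with hi₀
    have h1 : M < q ^ i₀ := Nat.lt_pow_succ_log_self hq.one_lt M
    have h2 : q ^ i₀ ≤ q * M := by
      rw [hi₀, pow_succ, mul_comm]
      exact Nat.mul_le_mul_left q (Nat.pow_log_le_self q hMpos)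
    have hbp : p ≤ b := by
      rw [hb]
      exact le_trans (le_of_eq (pow_one p).symm) (Nat.pow_le_pow_right hpos hs)
    have hcp : p ≤ c := by
      rw [hc]
      exact le_trans (le_of_eq (pow_one p).symm) (Nat.pow_le_pow_right hpos ht)
    have h3 : q * M ≤ b * c := by
      rcases le_total b c with h | h
      · have hm : M = c := max_eq_right h
        rw [hm]
        exact Nat.mul_le_mul_right c (by omega)
      · have hm : M = b := max_eq_left h
        rw [hm, mul_comm b c]
        exact Nat.mul_le_mul_right b (by omega)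
    have h4 : q ^ i₀ ≤ b * c := h2.trans h3
    have hiL : i₀ < L := by
      have h5 : i₀ < q ^ i₀ := Nat.lt_pow_self hq.one_lt
      omega
    refine ⟨i₀, Finset.mem_Ico.2 ⟨by omega, hiL⟩, ?_⟩
    have h6 : c / q ^ i₀ = 0 := Nat.div_eq_of_lt (lt_of_le_of_lt (le_max_right _ _) h1)
    have h7 : b / q ^ i₀ = 0 := Nat.div_eq_of_lt (lt_of_le_of_lt (le_max_left _ _) h1)
    rw [h6, h7]
    have h8 : 1 ≤ b * c / q ^ i₀ := (Nat.one_le_div_iff (Nat.pow_pos hq.pos)).2 h4
    rw [mul_zero, add_zero]
    exact h8

variable {n : ℕ}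

/-- A subgroup of index prime to `p` of the symmetric group of degree `p ^ a` is transitive. -/
theorem transitive_of_index {p a : ℕ} (hp : p.Prime) (H : Subgroup (Perm (Fin (p ^ a)))) (hH : ¬ p ∣ H.index) :
    IsPretransitive H (Fin (p ^ a)) := by
  classical
  refine ⟨fun x y => ?_⟩
  by_contra hxy
  let O : Set (Fin (p ^ a)) := orbit H x
  have hy : y ∉ O := by
    rintro ⟨g, hg⟩
    exact hxy ⟨g, hg⟩
  let f : Fin (p ^ a) → Bool := fun z => decide (z ∈ O)
  let W : Subgroup (Perm (Fin (p ^ a))) :=
    { carrier := {g | f ∘ g = f}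
      mul_mem' := by
        intro g g' hg hg'
        show f ∘ (g * g') = f
        have h1 : f ∘ (g * g') = (f ∘ g) ∘ g' := rfl
        rw [h1, hg, hg']
      one_mem' := rfl
      inv_mem' := by
        intro g hg
        show f ∘ (g⁻¹ : Perm _) = f
        have h1 : f ∘ g = f := hg
        funext z
        have h2 := congrFun h1 ((g⁻¹ : Perm _) z)
        simp only [Function.comp] at h2 ⊢
        rw [← h2]
        simp }
  have hHW : H ≤ W := by
    intro g hg
    show f ∘ g = f
    funext z
    simp only [Function.comp, f]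
    congr 1
    apply propext
    constructor
    · intro h
      have h1 := orbit_eq_iff.2 h
      have h2 : z ∈ orbit H (g z) := ⟨⟨g⁻¹, H.inv_mem hg⟩, by simp⟩
      show z ∈ orbit H x
      rw [← h1]
      exact h2
    · intro h
      have h1 := orbit_eq_iff.2 h
      show g z ∈ orbit H x
      rw [← h1]
      exact ⟨⟨g, hg⟩, rfl⟩
  have hdvd : W.index ∣ H.index := Subgroup.index_dvd_of_le hHW
  set k := Fintype.card {z // f z = true} with hk
  have hk' : Fintype.card {z // f z = false} = p ^ a - k := by
    have h1 := Fintype.card_subtype_compl (fun z => f z = true)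
    simp only [Bool.not_eq_true, Fintype.card_fin] at h1
    exact h1
  have hWcard : Nat.card W = k.factorial * (p ^ a - k).factorial := by
    have h1 : Nat.card W = Fintype.card {g : Perm (Fin (p ^ a)) // f ∘ g = f} := by
      rw [Nat.card_eq_fintype_card]
      exact Fintype.card_congr (Equiv.refl _)
    rw [h1, DomMulAct.stabilizer_card, Fintype.prod_bool, hk', mul_comm]
  have hk0 : k ≠ 0 := by
    have h1 : 0 < k := Fintype.card_pos_iff.2 ⟨⟨x, by
      simp only [f, decide_eq_true_eq]
      exact mem_orbit_self x⟩⟩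
    omega
  have hkn : k < p ^ a := by
    have h1 : 0 < Fintype.card {z // f z = false} := Fintype.card_pos_iff.2 ⟨⟨y, by
      simp only [f, decide_eq_false_iff_not]
      exact hy⟩⟩
    omega
  have hWi : W.index = (p ^ a).choose k := by
    have h1 := Subgroup.index_mul_card W
    have hfact : Nat.card (Perm (Fin (p ^ a))) = (p ^ a).factorial := by
      rw [Nat.card_perm]; simp
    rw [hfact, hWcard] at h1
    have h2 := Nat.choose_mul_factorial_mul_factorial hkn.le
    have h3 : 0 < k.factorial * (p ^ a - k).factorial := Nat.mul_pos (Nat.factorial_pos _) (Nat.factorial_pos _)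
    apply Nat.eq_of_mul_eq_mul_right h3
    rw [h1, ← mul_assoc, h2]
  apply hH
  rw [hWi] at hdvd
  exact (hp.dvd_choose_pow hk0 hkn.ne).trans hdvd

/-- A transitive subgroup of index prime to `q` of the symmetric group of degree `p ^ a` is primitive. -/
theorem primitive_of_index {p q a : ℕ} (hp : p.Prime) (hq : q.Prime) (hqp : q < p) (H : Subgroup (Perm (Fin (p ^ a))))
    (hT : IsPretransitive H (Fin (p ^ a))) (hH : ¬ q ∣ H.index) : IsPreprimitive H (Fin (p ^ a)) := by
  classical
  haveI : Fact q.Prime := ⟨hq⟩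
  refine { toIsPretransitive := hT, isTrivialBlock_of_isBlock := ?_ }
  intro B hB
  by_contra hnt
  have hnt' : ¬ (B.Subsingleton ∨ B = Set.univ) := hnt
  push Not at hnt'
  obtain ⟨hns, hnu⟩ := hnt'
  have hne : B.Nonempty := hns.nonempty
  have hcard : B.ncard * (orbit H B).ncard = p ^ a := by
    have := hB.ncard_block_mul_ncard_orbit_eq hne
    simpa using this
  have hb2 : 1 < B.ncard := (Set.one_lt_ncard (Set.toFinite B)).2 hns
  have hbn : B.ncard < p ^ a := by
    have h1 : B.ncard ≤ Nat.card (Fin (p ^ a)) := by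
      rw [← Set.ncard_univ]
      exact Set.ncard_le_ncard (Set.subset_univ B)
    have h2 : B.ncard ≠ Nat.card (Fin (p ^ a)) := by
      intro h3
      apply hnu
      apply Set.eq_of_subset_of_ncard_le (Set.subset_univ B)
      rw [Set.ncard_univ, h3]
    simp only [Nat.card_eq_fintype_card, Fintype.card_fin] at h1 h2
    omega
  obtain ⟨s, hsa, hs⟩ := (Nat.dvd_prime_pow hp).1 (Dvd.intro _ hcard)
  have hc : (orbit H B).ncard = p ^ (a - s) := by
    have h1 : p ^ s * p ^ (a - s) = p ^ a := by
      rw [← pow_add]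
      congr 1
      omega
    apply Nat.eq_of_mul_eq_mul_left (Nat.pow_pos hp.pos : 0 < p ^ s)
    calc p ^ s * (orbit H B).ncard = B.ncard * (orbit H B).ncard := by rw [hs]
      _ = p ^ a := hcard
      _ = p ^ s * p ^ (a - s) := h1.symm
  have hs1 : 1 ≤ s := by
    by_contra h0
    have : s = 0 := by omega
    rw [this, pow_zero] at hs
    omega
  have ht1 : 1 ≤ a - s := by
    by_contra h0
    have : a = s := by omega
    rw [← this] at hs
    omega
  set c := (orbit H B).ncard with hcdef
  have hS := hB.isBlockSystem hne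
  have hex := fun x => (hS.1.2 x).exists
  choose blk hblk using hex
  have hblk1 : ∀ x, blk x ∈ (Set.range fun g : H => g • B) := fun x => (hblk x).1
  have hblk2 : ∀ x, x ∈ blk x := fun x => (hblk x).2
  have huniq : ∀ x D, D ∈ (Set.range fun g : H => g • B) → x ∈ D → D = blk x := fun x D hD hx =>
    (hS.1.2 x).unique ⟨hD, hx⟩ (hblk x)
  have hNc : Nat.card (orbit H B) = c := Nat.card_coe_set_eq _
  let e : (orbit H B) ≃ Fin c := Finite.equivFinOfCardEq hNc
  let f : Fin (p ^ a) → Fin c := fun x => e ⟨blk x, hblk1 x⟩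
  have hf1 : ∀ x y, f x = f y ↔ blk x = blk y := by
    intro x y
    constructor
    · intro h
      exact congrArg Subtype.val (e.injective h)
    · intro h
      show e _ = e _
      congr 1
      exact Subtype.ext h
  have hfib : ∀ i : Fin c, Nat.card {x // f x = i} = B.ncard := by
    intro i
    obtain ⟨⟨D, g, hg⟩, rfl⟩ := e.surjective i
    have h1 : Nat.card {x // f x = e ⟨D, g, hg⟩} = D.ncard := by
      rw [← Nat.card_coe_set_eq]
      refine Nat.card_congr (Equiv.subtypeEquivRight ?_)
      intro x
      constructor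
      · intro h
        have h2 := congrArg Subtype.val (e.injective h)
        have h3 : blk x = D := h2
        rw [← h3]
        exact hblk2 x
      · intro h
        show e _ = e _
        congr 1
        apply Subtype.ext
        exact (huniq x D ⟨g, hg⟩ h).symm
    rw [h1, ← hg]
    show (g • B).ncard = B.ncard
    rw [← Set.image_smul]
    exact Set.ncard_image_of_injective _ (MulAction.injective g)
  have hblkg : ∀ (g : H) x, blk (g • x) = g • blk x := by
    intro g x
    obtain ⟨g', hg'⟩ := hblk1 x
    symm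
    apply huniq
    · refine ⟨g * g', ?_⟩
      show (g * g') • B = g • blk x
      rw [mul_smul]
      congr 1
    · exact Set.smul_mem_smul_set (hblk2 x)
  have hHW : H ≤ Wr f := by
    intro g hg x y
    have h1 : (g x) = (⟨g, hg⟩ : H) • x := rfl
    have h2 : (g y) = (⟨g, hg⟩ : H) • y := rfl
    rw [hf1, hf1, h1, h2, hblkg, hblkg]
    exact (smul_left_cancel_iff _).symm
  have hdvd : (Wr f).index ∣ H.index := Subgroup.index_dvd_of_le hHW
  have hWcard : Nat.card (Wr f) = c.factorial * (B.ncard).factorial ^ c := card_Wr f hfib (by omega)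
  have hI := Subgroup.index_mul_card (Wr f)
  have hfact : Nat.card (Perm (Fin (p ^ a))) = (p ^ a).factorial := by
    rw [Nat.card_perm]; simp
  rw [hfact, hWcard] at hI
  have hq0 : ¬ q ∣ (Wr f).index := fun h => hH (h.trans hdvd)
  have hv := congrArg (padicValNat q) hI
  have hI0 : (Wr f).index ≠ 0 := by
    intro h0
    rw [h0, zero_mul] at hI
    exact (Nat.factorial_pos _).ne' hI.symm
  rw [padicValNat.mul hI0 (by positivity), padicValNat.eq_zero_of_not_dvd hq0, zero_add,
    padicValNat.mul (Nat.factorial_ne_zero _) (by positivity), padicValNat.pow _ _] at hv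
  have hstrict := val_strict hp hq hqp hs1 ht1
  rw [hs, hc] at hv
  have hst : s + (a - s) = a := by omega
  rw [hst] at hstrict
  exact (ne_of_lt hstrict) hv

theorem dvd_card_of_transitive {G X : Type*} [Group G] [Finite G] {_ : MulAction G X} (h : IsPretransitive G X) (x : X) :
    Nat.card X ∣ Nat.card G := by
  have h4 : (stabilizer G x).index = Nat.card X := by
    have horb : orbit G x = Set.univ := Set.eq_univ_of_forall (fun y => by
      obtain ⟨g, hg⟩ := h.exists_smul_eq x y
      exact ⟨g, hg⟩)
    rw [index_stabilizer, horb, Set.ncard_univ]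
  rw [← h4]
  exact Subgroup.index_dvd_card _

/-- A primitive group containing a cycle of prime order `q` is multiply transitive. -/
theorem dvd_of_primitive {q r N : ℕ} (hq : q.Prime) (hr : r.Prime) (hN : q + r + 3 ≤ N) (H : Subgroup (Perm (Fin N)))
    (hP : IsPreprimitive H (Fin N)) {τ : Perm (Fin N)} (hτ : τ.IsCycle) (hτs : τ.support.card = q) (hτH : τ ∈ H) :
    r ∣ Nat.card H := by
  classical
  obtain ⟨m, hm⟩ : ∃ m, N - q = m + 1 := ⟨N - q - 1, by omega⟩
  have h1 : IsMultiplyPreprimitive H (Fin N) (m + 2) := by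
    apply hP.isMultiplyPreprimitive (s := ((τ.support : Set (Fin N))ᶜ))
    · apply Nat.add_left_cancel (n := q)
      have h2 := Set.ncard_add_ncard_compl (τ.support : Set (Fin N))
      rw [Set.ncard_coe_finset, hτs] at h2
      simp only [Nat.card_eq_fintype_card, Fintype.card_fin] at h2
      omega
    · simp only [Nat.card_eq_fintype_card, Fintype.card_fin]
      have := hq.two_le
      omega
    · have := isPretransitive_of_isCycle_mem hτ hτH
      apply IsPreprimitive.of_prime_card
      convert! hq
      rw [Nat.card_eq_fintype_card, Fintype.card_subtype, ← hτs]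
      apply congr_arg
      ext x
      simp [SubMulAction.mem_ofFixingSubgroup_iff]
  have h2 : IsMultiplyPretransitive H (Fin N) (m + 2) := IsMultiplyPreprimitive.isMultiplyPretransitive ..
  haveI : IsPretransitive H (Fin (m + 2) ↪ Fin N) := h2
  have hq0 := hq.pos
  have h3 : Nonempty (Fin (m + 2) ↪ Fin N) := Function.Embedding.nonempty_of_card_le (by simp; omega)
  obtain ⟨x₀⟩ := h3
  have h5 : Nat.card (Fin (m + 2) ↪ Fin N) ∣ Nat.card H := dvd_card_of_transitive h2 x₀
  refine dvd_trans ?_ h5
  rw [Nat.card_eq_fintype_card, Fintype.card_embedding_eq, Fintype.card_fin, Fintype.card_fin]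
  refine dvd_trans ?_ (Nat.factorial_dvd_descFactorial _ _)
  exact (hr.dvd_factorial).2 (by omega)

/-- The main obstruction. -/
theorem no_hall {p q r a : ℕ} (hp : p.Prime) (hq : q.Prime) (hr : r.Prime) (hqp : q < p) (ha : q + r + 3 ≤ p ^ a)
    (H : Subgroup (Perm (Fin (p ^ a)))) (hHp : ¬ p ∣ H.index) (hHq : ¬ q ∣ H.index) (hHr : ¬ r ∣ Nat.card H) : False := by
  classical
  haveI : Fact q.Prime := ⟨hq⟩
  have hT := transitive_of_index hp H hHp
  have hP := primitive_of_index hp hq hqp H hT hHq
  obtain ⟨σ, hσ⟩ : ∃ σ : Perm (Fin (p ^ a)), σ.cycleType = {q} := by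
    rw [Equiv.Perm.exists_with_cycleType_iff]
    constructor
    · simp
      omega
    · intro x hx
      rw [Multiset.mem_singleton] at hx
      rw [hx]
      exact hq.two_le
  have hσc : σ.IsCycle := by
    rw [← Equiv.Perm.card_cycleType_eq_one, hσ]
    simp
  have hσs : σ.support.card = q := by
    rw [← Equiv.Perm.sum_cycleType, hσ]
    simp
  have hσo : orderOf σ = q := by
    rw [hσc.orderOf, hσs]
  have hS : IsPGroup q (Subgroup.zpowers σ) := by
    apply IsPGroup.of_card (n := 1)
    rw [Nat.card_zpowers, hσo, pow_one]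
  obtain ⟨x, hx⟩ := hS.nonempty_fixed_point_of_prime_not_dvd_card (Perm (Fin (p ^ a)) ⧸ H) hHq
  obtain ⟨g, rfl⟩ := QuotientGroup.mk_surjective x
  have h1 := hx ⟨σ, Subgroup.mem_zpowers σ⟩
  have h2 : ((σ * g : Perm (Fin (p ^ a))) : Perm (Fin (p ^ a)) ⧸ H) = (g : Perm (Fin (p ^ a)) ⧸ H) := h1
  have h3 : (σ * g)⁻¹ * g ∈ H := QuotientGroup.eq.1 h2
  have h4 : g⁻¹ * σ * g ∈ H := by
    have h5 := H.inv_mem h3
    convert h5 using 1
    group
  have h5 : (g⁻¹ * σ * g).IsCycle := by
    have := hσc.conj (g := g⁻¹)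
    simpa using this
  have h6 : (g⁻¹ * σ * g).support.card = q := by
    have := Equiv.Perm.card_support_conj (σ := g⁻¹) (τ := σ)
    rw [inv_inv] at this
    rw [this, hσs]
  exact hHr (dvd_of_primitive hq hr ha H hP h5 h6 h4)

end Cfsg.Agent.Lib.HallSym
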