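import Mathlib
import Cfsg.Prelude
import Cfsg.Agent.Lib.StronglyEmbedded

set_option autoImplicit false
set_option linter.all false

namespace Cfsg.Agent.Lib.InvFour

universe u

open Subgroup

/-- A `2`-group with an involution whose centralizer has order `4` and order at least `8`
has a cyclic maximal subgroup avoiding the involution. -/
theorem exists_cyclic_max : ∀ (n : ℕ) (T : Type u) [Group T] [Finite T], Nat.card T = n → IsPGroup 2 T →
    ∀ x : T, x * x = 1 → x ≠ 1 → Nat.card (centralizer ({x} : Set T)) = 4 → 8 ≤ n →
    ∃ Q : Subgroup T, IsCyclic Q ∧ Q.index = 2 ∧ x ∉ Q := by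
  intro n
  induction n using Nat.strong_induction_on with
  | _ n IH =>
  intro T _ _ hn hT x hxx hx1 hC hn8
  haveI : Fact (Nat.Prime 2) := ⟨Nat.prime_two⟩
  classical
  set Cx := centralizer ({x} : Set T) with hCx
  have memCx : ∀ c : T, c ∈ Cx ↔ c * x = x * c := fun c => mem_centralizer_singleton_iff
  have hxCx : x ∈ Cx := (memCx x).mpr rfl
  have hxnc : x ∉ center T := by
    intro h
    have : Cx = ⊤ := by
      rw [eq_top_iff]
      intro c _
      rw [memCx]
      exact ((mem_center_iff.mp h) c)
    rw [this, Subgroup.card_top, hn] at hC
    omega
  -- the centre has order two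
  haveI : Nontrivial T := by
    rw [← Finite.one_lt_card_iff_nontrivial]
    omega
  haveI : Nontrivial (center T) := hT.center_nontrivial
  obtain ⟨z', hz'⟩ := exists_ne (1 : center T)
  have hzc : (z' : T) ∈ center T := z'.2
  set z : T := (z' : T) with hzdef
  have hz1 : z ≠ 1 := fun h => hz' (Subtype.ext h)
  have hZle : center T ≤ Cx := by
    intro c hc
    rw [memCx]
    exact ((mem_center_iff.mp hc) x).symm
  have hCcard2 : Nat.card (center T) ∣ 4 := by
    rw [← hC]; exact Subgroup.card_dvd_of_le hZle
  have hZne : Nat.card (center T) ≠ 4 := by
    intro h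
    have : center T = Cx := Subgroup.eq_of_le_of_card_ge hZle (by rw [h, hC])
    exact hxnc (this ▸ hxCx)
  have hZ1 : Nat.card (center T) ≠ 1 := by
    intro h
    exact hz' (Subtype.ext (by
      have := (Nat.card_eq_one_iff_unique.mp h).1
      exact congrArg Subtype.val (Subsingleton.elim z' 1)))
  have hZ2 : Nat.card (center T) = 2 := by
    have h4 : Nat.card (center T) ≤ 4 := Nat.le_of_dvd (by norm_num) hCcard2
    interval_cases h : Nat.card (center T) <;> simp_all <;> omega
  have hzz : z * z = 1 := by
    have h1 := pow_card_eq_one' (x := z')
    rw [hZ2, pow_two] at h1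
    exact congrArg Subtype.val h1
  have hZmem : ∀ c ∈ center T, c = 1 ∨ c = z := by
    intro c hc
    have hfin : ∀ a b : center T, a ≠ b → ∀ e : center T, e = a ∨ e = b := by
      intro a b hab e
      by_contra hno
      push Not at hno
      have h3 : ({a, b, e} : Finset (center T)).card = 3 := by
        rw [Finset.card_insert_of_notMem, Finset.card_insert_of_notMem, Finset.card_singleton]
        · simp [Ne.symm hno.2]
        · simp [hab, Ne.symm hno.1]
      haveI := Fintype.ofFinite (center T)
      have h4 := Finset.card_le_univ ({a, b, e} : Finset (center T))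
      rw [h3, ← Nat.card_eq_fintype_card, hZ2] at h4
      omega
    rcases hfin 1 z' (Ne.symm hz') ⟨c, hc⟩ with h | h
    · left; exact congrArg Subtype.val h
    · right; exact congrArg Subtype.val h
  have hzcomm : ∀ t : T, t * z = z * t := fun t => (mem_center_iff.mp hzc) t
  have hzx : z ≠ x := fun h => hxnc (h ▸ hzc)
  have hxz : x * z ≠ 1 := by
    intro h
    have : x = z := by
      have h2 : x = z⁻¹ := eq_inv_of_mul_eq_one_left h
      rw [h2, inv_eq_of_mul_eq_one_left hzz]
    exact hzx this.symm
  -- the four elements of `Cx`
  have hCxmem : ∀ c ∈ Cx, c = 1 ∨ c = x ∨ c = z ∨ c = x * z := by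
    intro c hc
    by_contra hno
    push Not at hno
    obtain ⟨h1, h2, h3, h4⟩ := hno
    let s : Finset T := {1, x, z, x * z, c}
    have hs : s.card = 5 := by
      simp only [s]
      rw [Finset.card_insert_of_notMem, Finset.card_insert_of_notMem, Finset.card_insert_of_notMem,
        Finset.card_insert_of_notMem, Finset.card_singleton]
      · simp [h4.symm]
      · simp [Ne.symm h3]
        intro h
        exact hx1 h
      · simp [Ne.symm hzx]
        constructor
        · intro h
          exact hz1 h
        · exact h2.symm
      · simp [Ne.symm hx1, Ne.symm hz1, Ne.symm h1]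
        exact hxz.symm
    have hsub : ∀ e ∈ s, e ∈ Cx := by
      intro e he
      simp only [s, Finset.mem_insert, Finset.mem_singleton] at he
      rcases he with rfl | rfl | rfl | rfl | rfl
      · exact Cx.one_mem
      · exact hxCx
      · exact hZle hzc
      · exact Cx.mul_mem hxCx (hZle hzc)
      · exact hc
    haveI := Fintype.ofFinite Cx
    have h6 : s.card ≤ Fintype.card Cx := by
      have := Finset.card_le_card_of_injOn (s := s) (t := Finset.univ)
        (fun e => if h : e ∈ Cx then (⟨e, h⟩ : Cx) else ⟨1, Cx.one_mem⟩) (fun _ _ => Finset.mem_coe.mpr (Finset.mem_univ _)) (by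
          intro a ha b hb hab
          simp only [dif_pos (hsub a ha), dif_pos (hsub b hb)] at hab
          exact congrArg Subtype.val hab)
      simpa using this
    rw [hs, ← Nat.card_eq_fintype_card, hC] at h6
    omega
  -- conjugation moves `x` to `x z`
  have hlt : Cx < (⊤ : Subgroup T) := by
    refine lt_of_le_of_ne le_top ?_
    intro h
    rw [h, Subgroup.card_top, hn] at hC
    omega
  obtain ⟨g, -, hgC, hgN⟩ := Cfsg.Agent.Lib.StronglyEmbedded.exists_mem_normalizer_of_lt (p := 2)
    (hT.to_subgroup ⊤) hlt
  have hgx : g * x * g⁻¹ = x * z := by
    have h1 : g * x * g⁻¹ ∈ Cx := (mem_normalizer_iff.mp hgN x).mp hxCx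
    have h2 : g * x * g⁻¹ ≠ x := by
      intro h
      apply hgC
      rw [memCx]
      calc g * x = (g * x * g⁻¹) * g := by group
        _ = x * g := by rw [h]
    rcases hCxmem _ h1 with h | h | h | h
    · exfalso
      apply hx1
      have : x = g⁻¹ * (g * x * g⁻¹) * g := by group
      rw [this, h]; group
    · exact absurd h h2
    · exfalso
      apply hzx
      have : x = g⁻¹ * (g * x * g⁻¹) * g := by group
      rw [this, h, mul_assoc, ← hzcomm g]
      group
    · exact h
  -- elementary structure of T
  have hdvd : ∃ m, n = 2 ^ m := by
    obtain ⟨m, hm⟩ := IsPGroup.iff_card.mp hT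
    exact ⟨m, by rw [← hn, hm]⟩
  by_cases hn8' : n = 8
  · -- base case
    have hex : ∃ c : T, c * c ≠ 1 := by
      by_contra hno
      push Not at hno
      apply hxnc
      rw [mem_center_iff]
      intro c
      have h3 := hno (c * x)
      have hci : c⁻¹ = c := inv_eq_of_mul_eq_one_left (hno c)
      have hxi : x⁻¹ = x := inv_eq_of_mul_eq_one_left hxx
      calc c * x = (c * x)⁻¹ := (inv_eq_of_mul_eq_one_left h3).symm
        _ = x * c := by rw [mul_inv_rev, hci, hxi]
    obtain ⟨c, hc⟩ := hex
    obtain ⟨k, hk⟩ := IsPGroup.iff_orderOf.1 hT c
    have hk3 : orderOf c ∣ 8 := by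
      rw [← hn8', ← hn]; exact orderOf_dvd_natCard c
    have hk' : k ≤ 3 := by
      rw [hk] at hk3
      have := (Nat.pow_dvd_pow_iff_le_right (by norm_num : 1 < 2)).mp (by simpa using hk3 : 2 ^ k ∣ 2 ^ 3)
      exact this
    have hk2 : k ≠ 0 ∧ k ≠ 1 := by
      constructor
      · rintro rfl
        rw [pow_zero, orderOf_eq_one_iff] at hk
        apply hc; rw [hk, one_mul]
      · rintro rfl
        apply hc
        rw [← pow_two, pow_one] at *
        rw [← hk]; exact pow_orderOf_eq_one c
    have hk3' : k ≠ 3 := by
      rintro rfl
      -- `T` is cyclic, hence abelian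
      apply hxnc
      have hcard : orderOf c = Nat.card T := by rw [hk, hn, hn8']; norm_num
      have htop : zpowers c = ⊤ := by
        apply Subgroup.eq_top_of_card_eq
        rw [Nat.card_zpowers, hcard]
      rw [mem_center_iff]
      intro t
      have h1 : t ∈ zpowers c := by rw [htop]; trivial
      have h2 : x ∈ zpowers c := by rw [htop]; trivial
      obtain ⟨a, rfl⟩ := h1
      obtain ⟨b, rfl⟩ := h2
      exact (Commute.zpow_zpow_self c a b).eq
    have hk4 : orderOf c = 4 := by
      have : k = 2 := by omega
      rw [hk, this]; norm_num
    refine ⟨zpowers c, inferInstance, ?_, ?_⟩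
    · have h1 := Subgroup.card_mul_index (zpowers c)
      rw [Nat.card_zpowers, hk4, hn, hn8'] at h1
      omega
    · intro hxin
      -- then `zpowers c` lies in `Cx` and equals it
      have hle : zpowers c ≤ Cx := by
        rw [zpowers_le, memCx]
        obtain ⟨b, hb⟩ := hxin
        show c * x = x * c
        rw [← hb]
        exact (Commute.self_zpow c b).eq
      have heq : zpowers c = Cx := Subgroup.eq_of_le_of_card_ge hle (by rw [hC, Nat.card_zpowers, hk4])
      have hcC : c ∈ Cx := hle (mem_zpowers c)
      apply hc
      rcases hCxmem c hcC with h | h | h | h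
      · rw [h, one_mul]
      · rw [h, hxx]
      · rw [h, hzz]
      · rw [h]
        calc x * z * (x * z) = x * (z * x) * z := by group
          _ = x * (x * z) * z := by rw [← hzcomm x]
          _ = (x * x) * (z * z) := by group
          _ = 1 := by rw [hxx, hzz, one_mul]
  · -- inductive step
    have hn16 : 16 ≤ n := by
      obtain ⟨m, rfl⟩ := hdvd
      have hm3 : 3 ≤ m := by
        by_contra h
        have : m ≤ 2 := by omega
        have : 2 ^ m ≤ 2 ^ 2 := Nat.pow_le_pow_right (by norm_num) this
        omega
      have hm4 : 4 ≤ m := by
        by_contra h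
        have : m = 3 := by omega
        rw [this] at hn8'
        exact hn8' (by norm_num)
      calc 16 = 2 ^ 4 := by norm_num
        _ ≤ 2 ^ m := Nat.pow_le_pow_right (by norm_num) hm4
    set Z : Subgroup T := zpowers z with hZ
    haveI hZn : Z.Normal := by
      constructor
      rintro _ ⟨k, rfl⟩ t
      refine ⟨k, ?_⟩
      show z ^ k = t * z ^ k * t⁻¹
      have : Commute t (z ^ k) := (show Commute t z from hzcomm t).zpow_right k
      rw [this.eq]; group
    have hZcard : Nat.card Z = 2 := by
      rw [hZ, Nat.card_zpowers]
      exact orderOf_eq_prime (by rw [pow_two]; exact hzz) hz1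
    have memZ : ∀ c : T, c ∈ Z ↔ c = 1 ∨ c = z := by
      intro c
      constructor
      · rintro ⟨k, rfl⟩
        rcases Int.even_or_odd k with h | h
        · left
          obtain ⟨l, rfl⟩ := h
          show z ^ (l + l) = 1
          rw [zpow_add]
          have : z ^ l * z ^ l = (z * z) ^ l := ((Commute.refl z).mul_zpow l).symm
          rw [this, hzz, one_zpow]
        · right
          obtain ⟨l, rfl⟩ := h
          show z ^ (2 * l + 1) = z
          rw [zpow_add, zpow_mul, zpow_one]
          have : z ^ (2 : ℤ) = 1 := by
            rw [show (2 : ℤ) = ((2 : ℕ) : ℤ) by rfl, zpow_natCast, pow_two, hzz]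
          rw [this, one_zpow, one_mul]
      · rintro (rfl | rfl)
        · exact Z.one_mem
        · exact mem_zpowers z
    let π := QuotientGroup.mk' Z
    have hπ : Function.Surjective π := QuotientGroup.mk'_surjective Z
    have memKer : ∀ c : T, π c = 1 ↔ c = 1 ∨ c = z := by
      intro c
      rw [← memZ]
      exact QuotientGroup.eq_one_iff c
    have hπeq : ∀ a b : T, π a = π b ↔ a⁻¹ * b = 1 ∨ a⁻¹ * b = z := by
      intro a b
      rw [← memKer]
      constructor
      · intro h; rw [map_mul, map_inv, h, inv_mul_cancel]
      · intro h
        rw [map_mul, map_inv] at h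
        exact (inv_mul_eq_one.mp h)
    have hcardbar : Nat.card (T ⧸ Z) * 2 = n := by
      have h1 := Subgroup.card_mul_index Z
      rw [hZcard, Subgroup.index_eq_card] at h1
      omega
    have hbar8 : 8 ≤ Nat.card (T ⧸ Z) := by omega
    have hbarlt : Nat.card (T ⧸ Z) < n := by
      have := Nat.card_pos (α := T ⧸ Z)
      omega
    have hxb1 : π x ≠ 1 := by
      intro h
      rcases (memKer x).mp h with h | h
      · exact hx1 h
      · exact hzx h.symm
    have hxbxb : π x * π x = 1 := by rw [← map_mul, hxx, map_one]
    -- the centralizer of x̄
    have hCbar : Nat.card (centralizer ({π x} : Set (T ⧸ Z))) = 4 := by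
      set Cb := centralizer ({π x} : Set (T ⧸ Z)) with hCb
      set D := Cb.comap π with hD
      have memD : ∀ t : T, t ∈ D ↔ t * x * t⁻¹ = x ∨ t * x * t⁻¹ = x * z := by
        intro t
        show π t ∈ Cb ↔ _
        rw [hCb, mem_centralizer_singleton_iff]
        have e1 : π t * π x = π x * π t ↔ π (t * x * t⁻¹) = π x := by
          rw [map_mul, map_mul, map_inv]
          constructor
          · intro h; rw [h]; group
          · intro h
            have := congrArg (· * π t) h
            simpa using this
        rw [e1, eq_comm, hπeq]
        have e2 : x⁻¹ * (t * x * t⁻¹) = z ↔ t * x * t⁻¹ = x * z := by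
          constructor
          · intro h; rw [← h]; group
          · intro h; rw [h]; group
        have e3 : x⁻¹ * (t * x * t⁻¹) = 1 ↔ t * x * t⁻¹ = x := by
          constructor
          · intro h
            have : t * x * t⁻¹ = x * (x⁻¹ * (t * x * t⁻¹)) := by group
            rw [this, h, mul_one]
          · intro h; rw [h]; group
        rw [e2, e3]
      have hDcard : Nat.card D = 8 := by
        -- `D` is the union of `Cx` and its coset
        have hle : Cx ≤ D := by
          intro c hc
          rw [memD]
          left
          rw [(memCx c).mp hc]; group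
        have hgD : g ∈ D := (memD g).mpr (Or.inr hgx)
        have hrel : Cx.relIndex D = 2 := by
          have : (Cx.subgroupOf D).index = 2 := by
            rw [Subgroup.index_eq_two_iff]
            refine ⟨⟨g, hgD⟩, ?_⟩
            intro b
            have hb := (memD b).mp b.2
            rw [xor_iff_iff_not]
            simp only [mem_subgroupOf]
            show (b : T) * g ∈ Cx ↔ ¬ (b : T) ∈ Cx
            rw [memCx, memCx]
            have hg' : g * x = x * z * g := by rw [← hgx]; group
            constructor
            · intro h hb2
              have h3 : (b : T) * g * x = b * x * z * g := by rw [mul_assoc, hg']; group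
              rw [h] at h3
              rw [hb2] at h3
              have h4 : x * (b : T) * g = x * (b * (z * g)) := by
                calc x * (b : T) * g = x * ((b : T) * g) := by group
                  _ = _ := by
                    have h5 := h3
                    have h6 : x * ((b : T) * g) = x * b * z * g := h5
                    rw [h6]; group
              have h7 : x * ((b : T) * g) = x * (b * (z * g)) := by rw [← h4]; group
              have h8 : (b : T) * g = b * (z * g) := mul_left_cancel h7
              have h9 := mul_left_cancel h8
              have h10 : z = 1 := by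
                have h11 : z * g = 1 * g := by rw [one_mul]; exact h9.symm
                exact mul_right_cancel h11
              exact hz1 h10
            · intro h
              rcases hb with hb | hb
              · exfalso
                apply h
                calc (b : T) * x = (b * x * (b : T)⁻¹) * b := by group
                  _ = x * b := by rw [hb]
              · have h3 : (b : T) * x = x * z * b := by
                  calc (b : T) * x = (b * x * (b : T)⁻¹) * b := by group
                    _ = x * z * b := by rw [hb]
                calc (b : T) * g * x = b * (g * x) := by group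
                  _ = b * (x * z * g) := by rw [hg']
                  _ = (b * x) * z * g := by group
                  _ = (x * z * b) * z * g := by rw [h3]
                  _ = x * (z * (b * z)) * g := by group
                  _ = x * (z * (z * b)) * g := by rw [hzcomm b]
                  _ = x * ((z * z) * b) * g := by group
                  _ = x * (b * g) := by rw [hzz]; group
          exact this
        have h3 := Subgroup.card_mul_index (Cx.subgroupOf D)
        have h4 : Nat.card (Cx.subgroupOf D) = Nat.card Cx :=
          Nat.card_congr (Subgroup.subgroupOfEquivOfLe hle).toEquiv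
        rw [h4, hC] at h3
        have h5 : (Cx.subgroupOf D).index = 2 := hrel
        rw [h5] at h3
        omega
      have h1 : D.index = Cb.index := by
        rw [hD]
        exact Subgroup.index_comap_of_surjective Cb hπ
      have h2 := Subgroup.card_mul_index D
      have h3 := Subgroup.card_mul_index Cb
      rw [h1] at h2
      rw [hDcard, hn, ← hcardbar, ← h3] at h2
      have hpos : 0 < Cb.index := Nat.pos_of_ne_zero Subgroup.index_ne_zero_of_finite
      have h4 : 8 * Cb.index = (Nat.card Cb * 2) * Cb.index := by rw [h2]; ring
      have h5 := Nat.eq_of_mul_eq_mul_right hpos h4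
      omega
    obtain ⟨Qb, hQbc, hQbi, hQbx⟩ := IH _ hbarlt (T ⧸ Z) rfl
      (hT.to_quotient Z) (π x) hxbxb hxb1 hCbar hbar8
    set R := Qb.comap π with hR
    have hRi : R.index = 2 := by
      rw [hR, Subgroup.index_comap_of_surjective Qb hπ, hQbi]
    have hxR : x ∉ R := hQbx
    have hzR : z ∈ R := by
      show π z ∈ Qb
      rw [(memKer z).mpr (Or.inr rfl)]
      exact Qb.one_mem
    obtain ⟨abar, habar⟩ := hQbc.exists_generator
    obtain ⟨a, ha⟩ := hπ (abar : T ⧸ Z)
    have haR : a ∈ R := by
      show π a ∈ Qb
      rw [ha]; exact abar.2
    have hRform : ∀ r ∈ R, ∃ k : ℤ, r = a ^ k ∨ r = a ^ k * z := by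
      intro r hr
      have h1 : (⟨π r, hr⟩ : Qb) ∈ zpowers abar := habar _
      obtain ⟨k, hk⟩ := h1
      refine ⟨k, ?_⟩
      have h2 : (abar : T ⧸ Z) ^ k = π r := congrArg Subtype.val hk
      rw [← ha, ← map_zpow] at h2
      rcases (hπeq _ _).mp h2 with h3 | h3
      · left
        exact (inv_mul_eq_one.mp h3).symm
      · right
        have : r = a ^ k * ((a ^ k)⁻¹ * r) := by group
        rw [this, h3]
    have hRcard : Nat.card R * 2 = n := by
      have := Subgroup.card_mul_index R
      rw [hRi, hn] at this
      exact this
    by_cases hza : z ∈ zpowers a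
    · -- `R` is cyclic
      have hReq : R = zpowers a := by
        apply le_antisymm
        · intro r hr
          obtain ⟨k, rfl | rfl⟩ := hRform r hr
          · exact ⟨k, rfl⟩
          · exact Subgroup.mul_mem _ ⟨k, rfl⟩ hza
        · rw [zpowers_le]; exact haR
      refine ⟨R, ?_, hRi, hxR⟩
      rw [hReq]
      infer_instance
    · exfalso
      obtain ⟨m, hm⟩ := IsPGroup.iff_orderOf.1 hT a
      have hm2 : 2 ≤ m := by
        by_contra hlt
        -- then `R` has at most four elements
        have hle : m ≤ 1 := by omega
        have ha2 : a ^ 2 = 1 := by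
          rw [← orderOf_dvd_iff_pow_eq_one, hm]
          exact (Nat.pow_dvd_pow_iff_le_right (by norm_num : 1 < 2)).mpr hle |>.trans (by norm_num)
        have hsub : ∀ r ∈ R, r = 1 ∨ r = a ∨ r = z ∨ r = a * z := by
          intro r hr
          have hpow : ∀ k : ℤ, a ^ k = 1 ∨ a ^ k = a := by
            intro k
            rcases Int.even_or_odd k with h | h
            · left
              obtain ⟨l, rfl⟩ := h
              rw [← two_mul, zpow_mul]
              have : a ^ (2 : ℤ) = 1 := by
                rw [show (2 : ℤ) = ((2 : ℕ) : ℤ) by rfl, zpow_natCast, ha2]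
              rw [this, one_zpow]
            · right
              obtain ⟨l, rfl⟩ := h
              rw [zpow_add, zpow_mul, zpow_one]
              have : a ^ (2 : ℤ) = 1 := by
                rw [show (2 : ℤ) = ((2 : ℕ) : ℤ) by rfl, zpow_natCast, ha2]
              rw [this, one_zpow, one_mul]
          obtain ⟨k, rfl | rfl⟩ := hRform r hr
          · rcases hpow k with h | h
            · left; exact h
            · right; left; exact h
          · rcases hpow k with h | h
            · right; right; left; rw [h, one_mul]
            · right; right; right; rw [h]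
        let s : Finset T := {1, a, z, a * z}
        have hs : s.card ≤ 4 := Finset.card_le_four
        have hRle : Nat.card R ≤ s.card := by
          haveI := Fintype.ofFinite R
          rw [Nat.card_eq_fintype_card]
          apply Finset.card_le_card_of_injOn (s := Finset.univ) (fun r : R => (r : T))
          · intro r _
            have := hsub r r.2
            simp only [s, Finset.mem_coe, Finset.mem_insert, Finset.mem_singleton]
            exact this
          · intro p _ q _ h
            exact Subtype.ext h
        omega
      obtain ⟨l, rfl⟩ : ∃ l, m = l + 2 := ⟨m - 2, by omega⟩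
      set a' := a ^ (2 ^ (l + 1)) with ha'
      have ha'1 : a' ≠ 1 := by
        intro h
        have hd := orderOf_dvd_of_pow_eq_one h
        rw [hm] at hd
        have := (Nat.pow_dvd_pow_iff_le_right (by norm_num : 1 < 2)).mp hd
        omega
      have ha'a' : a' * a' = 1 := by
        rw [ha', ← pow_add, ← pow_orderOf_eq_one a, hm]
        congr 1
        ring
      have hazc : Commute a z := hzcomm a
      -- `a'` is central in `T`
      have ha'c : a' ∈ center T := by
        rw [mem_center_iff]
        intro t
        have hRn : R.Normal := Subgroup.normal_of_index_eq_two hRi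
        have h1 : t * a * t⁻¹ ∈ R := hRn.conj_mem a haR t
        have h2 : (t * a * t⁻¹) ^ (2 ^ (l + 1)) = t * a' * t⁻¹ := by
          rw [conj_pow]
        have hpowz : ∀ b : T, Commute b z → (b * z) ^ (2 ^ (l + 1)) = b ^ (2 ^ (l + 1)) := by
          intro b hb
          rw [hb.mul_pow]
          have : z ^ (2 ^ (l + 1)) = 1 := by
            rw [pow_succ, pow_mul', pow_two, hzz, one_pow]
          rw [this, mul_one]
        have h3 : ∃ k : ℤ, t * a' * t⁻¹ = a' ^ k := by
          obtain ⟨k, hk | hk⟩ := hRform _ h1
          · refine ⟨k, ?_⟩
            rw [← h2, hk, ha', ← zpow_natCast, ← zpow_natCast, ← zpow_mul, ← zpow_mul, mul_comm]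
          · refine ⟨k, ?_⟩
            rw [← h2, hk, hpowz _ ((hazc.zpow_left k))]
            rw [ha', ← zpow_natCast, ← zpow_natCast, ← zpow_mul, ← zpow_mul, mul_comm]
        obtain ⟨k, hk⟩ := h3
        have h4 : a' ^ k = 1 ∨ a' ^ k = a' := by
          rcases Int.even_or_odd k with h | h
          · left
            obtain ⟨j, rfl⟩ := h
            rw [← two_mul, zpow_mul]
            have : a' ^ (2 : ℤ) = 1 := by
              rw [show (2 : ℤ) = ((2 : ℕ) : ℤ) by rfl, zpow_natCast, pow_two, ha'a']
            rw [this, one_zpow]
          · right
            obtain ⟨j, rfl⟩ := h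
            rw [zpow_add, zpow_mul, zpow_one]
            have : a' ^ (2 : ℤ) = 1 := by
              rw [show (2 : ℤ) = ((2 : ℕ) : ℤ) by rfl, zpow_natCast, pow_two, ha'a']
            rw [this, one_zpow, one_mul]
        rcases h4 with h | h
        · exfalso
          apply ha'1
          rw [h] at hk
          have : a' = t⁻¹ * (t * a' * t⁻¹) * t := by group
          rw [this, hk]; group
        · rw [h] at hk
          calc t * a' = (t * a' * t⁻¹) * t := by group
            _ = a' * t := by rw [hk]
      rcases hZmem a' ha'c with h | h
      · exact ha'1 h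
      · apply hza
        rw [← h, ha']
        exact Subgroup.pow_mem _ (mem_zpowers a) _

end Cfsg.Agent.Lib.InvFour
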