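import Mathlib
import Cfsg.Prelude
import Cfsg.Agent.Lib.InvFour
import Cfsg.Agent.Lib.Dih2
import Cfsg.Agent.Lib.ThreeInv
import Cfsg.Agent.Lib.SylowIn
import Cfsg.Agent.Lib.StronglyEmbedded
import Cfsg.Agent.S0111
import Cfsg.Agent.S1227
import Cfsg.Agent.S1229

set_option autoImplicit false
set_option linter.all false

namespace Cfsg.Agent.Lib.InvFour2

universe u
open Subgroup

variable {G : Type u} [Group G] [Finite G]

theorem mem_of_four (V : Subgroup G) (hV : Nat.card V = 4) {x z : G} (hx : x ∈ V) (hz : z ∈ V)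
    (hx1 : x ≠ 1) (hz1 : z ≠ 1) (hzx : z ≠ x) (hxz : x * z ≠ 1) :
    ∀ c ∈ V, c = 1 ∨ c = x ∨ c = z ∨ c = x * z := by
  classical
  intro c hc
  by_contra hno
  push Not at hno
  obtain ⟨h1, h2, h3, h4⟩ := hno
  let s : Finset G := {1, x, z, x * z, c}
  have hs : s.card = 5 := by
    simp only [s]
    rw [Finset.card_insert_of_notMem, Finset.card_insert_of_notMem, Finset.card_insert_of_notMem,
      Finset.card_insert_of_notMem, Finset.card_singleton]
    · simp [h4.symm]
    · simp [Ne.symm h3]
      intro h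
      exact hx1 h
    · simp [Ne.symm hzx]
      constructor
      · intro h
        exact hz1 h
      · exact h2.symm
    · simp [Ne.symm hx1, Ne.symm hz1, Ne.symm h1]
      exact hxz.symm
  have hsub : ∀ e ∈ s, e ∈ V := by
    intro e he
    simp only [s, Finset.mem_insert, Finset.mem_singleton] at he
    rcases he with rfl | rfl | rfl | rfl | rfl
    · exact V.one_mem
    · exact hx
    · exact hz
    · exact V.mul_mem hx hz
    · exact hc
  haveI := Fintype.ofFinite V
  have h6 : s.card ≤ Fintype.card V := by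
    have := Finset.card_le_card_of_injOn (s := s) (t := Finset.univ)
      (fun e => if h : e ∈ V then (⟨e, h⟩ : V) else ⟨1, V.one_mem⟩)
      (fun _ _ => Finset.mem_coe.mpr (Finset.mem_univ _)) (by
        intro a ha b hb hab
        simp only [dif_pos (hsub a ha), dif_pos (hsub b hb)] at hab
        exact congrArg Subtype.val hab)
    simpa using this
  rw [hs, ← Nat.card_eq_fintype_card, hV] at h6
  omega

theorem card_cent_conj (x g : G) :
    Nat.card (centralizer ({g * x * g⁻¹} : Set G)) = Nat.card (centralizer ({x} : Set G)) := by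
  have h : centralizer ({g * x * g⁻¹} : Set G)
      = (centralizer ({x} : Set G)).map (MulAut.conj g).toMonoidHom := by
    ext c
    rw [Subgroup.mem_map_equiv, mem_centralizer_singleton_iff, mem_centralizer_singleton_iff,
      MulAut.conj_symm_apply]
    constructor
    · intro e
      calc g⁻¹ * c * g * x = g⁻¹ * (c * (g * x * g⁻¹)) * g := by group
        _ = g⁻¹ * ((g * x * g⁻¹) * c) * g := by rw [e]
        _ = x * (g⁻¹ * c * g) := by group
    · intro e
      calc c * (g * x * g⁻¹) = g * ((g⁻¹ * c * g) * x) * g⁻¹ := by group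
        _ = g * (x * (g⁻¹ * c * g)) * g⁻¹ := by rw [e]
        _ = g * x * g⁻¹ * c := by group
  rw [h]
  exact Subgroup.card_map_of_injective (MulAut.conj g).injective

theorem invol_unique_of_cyclic {C : Type*} [Group C] [Finite C] [IsCyclic C] {a b : C}
    (ha : a * a = 1) (hb : b * b = 1) (ha1 : a ≠ 1) (hb1 : b ≠ 1) : a = b := by
  classical
  haveI := Fintype.ofFinite C
  by_contra hab
  have h := IsCyclic.card_pow_eq_one_le (α := C) (n := 2) (by norm_num)
  have hs : ({1, a, b} : Finset C) ⊆ Finset.univ.filter (fun c => c ^ 2 = 1) := by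
    intro c hc
    simp only [Finset.mem_insert, Finset.mem_singleton] at hc
    simp only [Finset.mem_filter, Finset.mem_univ, true_and]
    rcases hc with rfl | rfl | rfl
    · simp
    · rw [pow_two]; exact ha
    · rw [pow_two]; exact hb
  have h2 := Finset.card_le_card hs
  have h3 : ({1, a, b} : Finset C).card = 3 := by
    rw [Finset.card_insert_of_notMem, Finset.card_insert_of_notMem, Finset.card_singleton]
    · simp [hab]
    · simp [Ne.symm ha1, Ne.symm hb1]
  omega

theorem comm_of_exp {V : Subgroup G} (hexp : ∀ c ∈ V, c * c = 1) :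
    ∀ c ∈ V, ∀ d ∈ V, c * d = d * c := by
  intro c hc d hd
  have h1 := hexp (c * d) (V.mul_mem hc hd)
  have h2 := inv_eq_of_mul_eq_one_left (hexp c hc)
  have h3 := inv_eq_of_mul_eq_one_left (hexp d hd)
  calc c * d = (c * d)⁻¹ := (inv_eq_of_mul_eq_one_left h1).symm
    _ = d * c := by rw [mul_inv_rev, h2, h3]

theorem case_big (x : G) (hxx : x * x = 1) (hx1 : x ≠ 1)
    (hcard : Nat.card (centralizer ({x} : Set G)) = 4)
    (hexp : ∀ c ∈ centralizer ({x} : Set G), c * c = 1)
    (hne : ∀ E : Subgroup G, E.Normal → Cfsg.IsElementaryAbelian 2 E →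
      Nat.card E ≠ 2 ∧ Nat.card E ≠ 4)
    (T : Sylow 2 G) (hVT : centralizer ({x} : Set G) ≤ T) (hT8 : 8 ≤ Nat.card T) : False := by
  classical
  haveI : Fact (Nat.Prime 2) := ⟨Nat.prime_two⟩
  set V := centralizer ({x} : Set G) with hV
  have memV : ∀ c : G, c ∈ V ↔ c * x = x * c := fun c => mem_centralizer_singleton_iff
  have hxV : x ∈ V := (memV x).mpr rfl
  have hVcomm : ∀ c ∈ V, ∀ d ∈ V, c * d = d * c := comm_of_exp hexp
  let xt : (T : Subgroup G) := ⟨x, hVT hxV⟩
  have hCt : Nat.card (centralizer ({xt} : Set (T : Subgroup G))) = 4 := by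
    have hmap : (centralizer ({xt} : Set (T : Subgroup G))).map (T : Subgroup G).subtype = V := by
      ext c
      simp only [mem_map]
      constructor
      · rintro ⟨t, ht, rfl⟩
        rw [memV]
        have := mem_centralizer_singleton_iff.mp ht
        exact congrArg Subtype.val this
      · intro hc
        refine ⟨⟨c, hVT hc⟩, ?_, rfl⟩
        rw [mem_centralizer_singleton_iff]
        exact Subtype.ext ((memV c).mp hc)
    rw [← hcard, ← hmap]
    exact (Subgroup.card_subtype _ _).symm
  obtain ⟨Q, hQc, hQi, hxQ⟩ := Cfsg.Agent.Lib.InvFour.exists_cyclic_max (Nat.card (T : Subgroup G))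
    (T : Subgroup G) rfl T.isPGroup' xt (Subtype.ext hxx) (fun h => hx1 (congrArg Subtype.val h))
    hCt hT8
  set Q' := Q.map (T : Subgroup G).subtype with hQ'
  have hQle : Q' ≤ T := map_subtype_le Q
  have hQrel : Q'.relIndex (T : Subgroup G) = 2 := by
    have : Q'.subgroupOf (T : Subgroup G) = Q := by
      rw [hQ', Subgroup.subgroupOf]
      exact Subgroup.comap_map_eq_self_of_injective (T : Subgroup G).subtype_injective Q
    rw [Subgroup.relIndex, this, hQi]
  have hxQ' : x ∉ Q' := by
    rintro ⟨t, ht, e⟩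
    apply hxQ
    have : t = xt := Subtype.ext e
    rwa [← this]
  have hordx : orderOf x = 2 := orderOf_eq_prime (by rw [pow_two]; exact hxx) hx1
  rcases Cfsg.Agent.S0111.result T Q' hQle hQrel x hordx (hVT hxV) hxQ' with ⟨M, hM, hMi, hxM⟩ | ⟨g, hg⟩
  · -- the normal subgroup of index two
    have hVlt : V < T := by
      refine lt_of_le_of_ne hVT ?_
      intro h
      rw [← h, hcard] at hT8
      omega
    obtain ⟨z0, hz0V, hz01, hz0x⟩ : ∃ z0 ∈ V, z0 ≠ 1 ∧ z0 ≠ x := by
      haveI := Fintype.ofFinite V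
      have h2 : ({1, ⟨x, hxV⟩} : Finset V).card ≤ 2 := Finset.card_le_two
      have h3 : ({1, ⟨x, hxV⟩} : Finset V) ≠ Finset.univ := by
        intro e
        rw [e, Finset.card_univ, ← Nat.card_eq_fintype_card, hcard] at h2
        omega
      obtain ⟨e, he⟩ : ∃ e, e ∉ ({1, ⟨x, hxV⟩} : Finset V) := by
        by_contra hno
        push Not at hno
        exact h3 (Finset.eq_univ_iff_forall.mpr hno)
      refine ⟨e, e.2, ?_, ?_⟩
      · intro h
        exact he (by simp [Subtype.ext_iff, h])
      · intro h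
        exact he (by simp [Subtype.ext_iff, h])
    obtain ⟨z, hzV, hz1, hzM⟩ : ∃ z ∈ V, z ≠ 1 ∧ z ∈ M := by
      by_cases h : z0 ∈ M
      · exact ⟨z0, hz0V, hz01, h⟩
      · refine ⟨x * z0, V.mul_mem hxV hz0V, ?_, ?_⟩
        · intro e
          apply hz0x
          have : z0 = x⁻¹ := eq_inv_of_mul_eq_one_right e
          rw [this, inv_eq_of_mul_eq_one_left hxx]
        · rw [mul_mem_iff_of_index_two hMi]
          exact iff_of_false hxM h
    have hzx : z ≠ x := fun h => hxM (h ▸ hzM)
    have hxz1 : x * z ≠ 1 := by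
      intro e
      apply hzx
      have : z = x⁻¹ := eq_inv_of_mul_eq_one_right e
      rw [this, inv_eq_of_mul_eq_one_left hxx]
    have hazM : x * z ∉ M := fun h => hxM (by
      have := M.mul_mem h (M.inv_mem hzM)
      simpa using this)
    have hVmem := mem_of_four V hcard hxV hzV hx1 hz1 hzx hxz1
    obtain ⟨g, hgT, hgV, hgN⟩ := Cfsg.Agent.Lib.StronglyEmbedded.exists_mem_normalizer_of_lt (p := 2)
      T.isPGroup' hVlt
    have hgx : g * x * g⁻¹ = x * z := by
      have h1 : g * x * g⁻¹ ∈ V := (mem_normalizer_iff.mp hgN x).mp hxV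
      have h2 : g * x * g⁻¹ ≠ x := by
        intro h
        apply hgV
        rw [memV]
        calc g * x = (g * x * g⁻¹) * g := by group
          _ = x * g := by rw [h]
      have h3 : g * x * g⁻¹ ∉ M := by
        intro h
        apply hxM
        have := hM.conj_mem _ h g⁻¹
        simpa [mul_assoc] using this
      rcases hVmem _ h1 with h | h | h | h
      · exact absurd (h ▸ M.one_mem) h3
      · exact absurd h h2
      · exact absurd (h ▸ hzM) h3
      · exact h
    have hCa : ∀ c : G, c * (x * z) = (x * z) * c → c ∈ V := by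
      intro c hc
      have h1 : g⁻¹ * c * g ∈ V := by
        rw [memV]
        rw [← hgx] at hc
        have : g⁻¹ * (c * (g * x * g⁻¹)) * g = g⁻¹ * ((g * x * g⁻¹) * c) * g := by rw [hc]
        calc g⁻¹ * c * g * x = g⁻¹ * (c * (g * x * g⁻¹)) * g := by group
          _ = g⁻¹ * ((g * x * g⁻¹) * c) * g := this
          _ = x * (g⁻¹ * c * g) := by group
      have h2 := (mem_normalizer_iff.mp hgN _).mp h1
      have h3 : g * (g⁻¹ * c * g) * g⁻¹ = c := by group
      rwa [h3] at h2
    have hkey : ∀ y : G, y * y = 1 → y ∈ M → y * z = z * y := by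
      intro y hyy hyM
      by_cases hy1 : y = 1
      · rw [hy1, one_mul, mul_one]
      rcases Nat.even_or_odd (orderOf (x * y)) with hev | hodd
      · obtain ⟨w, hww, hw1, hwx, hwy, -⟩ := Cfsg.Agent.Lib.Dih2.exists_central_of_even hxx hyy hev
        have hwV : w ∈ V := (memV w).mpr hwx
        rcases hVmem w hwV with h | h | h | h
        · exact absurd h hw1
        · have : y ∈ V := by
            rw [memV]
            rw [h] at hwy
            exact hwy.symm
          exact hVcomm y this z hzV
        · rw [h] at hwy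
          exact hwy.symm
        · have : y ∈ V := hCa y (by
            rw [h] at hwy
            exact hwy.symm)
          exact hVcomm y this z hzV
      · exfalso
        obtain ⟨c, hc⟩ := isConj_iff.mp (Cfsg.Agent.Lib.ThreeInv.conj_of_odd hxx hyy hodd)
        apply hxM
        rw [← hc] at hyM
        have := hM.conj_mem _ hyM c⁻¹
        simpa [mul_assoc] using this
    have hzz : z * z = 1 := hexp z hzV
    have hconjcomm : ∀ c d : G, (c * z * c⁻¹) * (d * z * d⁻¹) = (d * z * d⁻¹) * (c * z * c⁻¹) := by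
      intro c d
      have h1 : (c⁻¹ * d) * z * (c⁻¹ * d)⁻¹ ∈ M := hM.conj_mem _ hzM _
      have h0 : ((c⁻¹ * d) * z * (c⁻¹ * d)⁻¹) * ((c⁻¹ * d) * z * (c⁻¹ * d)⁻¹) = 1 := by
        calc ((c⁻¹ * d) * z * (c⁻¹ * d)⁻¹) * ((c⁻¹ * d) * z * (c⁻¹ * d)⁻¹)
            = (c⁻¹ * d) * (z * z) * (c⁻¹ * d)⁻¹ := by group
          _ = 1 := by rw [hzz]; group
      have h2 := hkey _ h0 h1
      calc (c * z * c⁻¹) * (d * z * d⁻¹) = c * (z * ((c⁻¹ * d) * z * (c⁻¹ * d)⁻¹)) * c⁻¹ := by group
        _ = c * (((c⁻¹ * d) * z * (c⁻¹ * d)⁻¹) * z) * c⁻¹ := by rw [h2]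
        _ = _ := by group
    set S := Group.conjugatesOfSet ({z} : Set G) with hS
    have hgen : ∀ w ∈ S, ∃ c, w = c * z * c⁻¹ := by
      intro w hw
      obtain ⟨a', ha', hc⟩ := Group.mem_conjugatesOfSet_iff.1 hw
      rw [Set.mem_singleton_iff.1 ha'] at hc
      obtain ⟨c, rfl⟩ := isConj_iff.1 hc
      exact ⟨c, rfl⟩
    set N := normalClosure ({z} : Set G) with hN
    haveI hNn : N.Normal := normalClosure_normal
    have hzN : z ∈ N := subset_normalClosure rfl
    have hNM : N ≤ M := normalClosure_le_normal (by simpa using hzM)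
    have hNc : N = closure S := rfl
    have hle1 : N ≤ centralizer S := by
      rw [hNc, closure_le]
      intro w hw
      obtain ⟨c, rfl⟩ := hgen w hw
      rw [SetLike.mem_coe, mem_centralizer_iff]
      intro v hv
      obtain ⟨d, rfl⟩ := hgen v hv
      exact hconjcomm d c
    have hle2 : N ≤ centralizer (N : Set G) := by
      conv_lhs => rw [hNc]
      rw [closure_le]
      intro w hw
      rw [SetLike.mem_coe, mem_centralizer_iff]
      intro r hr
      have := hle1 hr
      rw [mem_centralizer_iff] at this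
      exact (this w hw).symm
    have hNcomm : ∀ r ∈ N, ∀ s ∈ N, r * s = s * r := by
      intro r hr s hs
      have := hle2 hr
      rw [mem_centralizer_iff] at this
      exact (this s hs).symm
    have hNexp : ∀ r ∈ N, r * r = 1 := by
      intro r hr
      have hr' : r ∈ closure S := hr
      induction hr' using Subgroup.closure_induction with
      | mem w hw =>
        obtain ⟨c, rfl⟩ := hgen w hw
        calc c * z * c⁻¹ * (c * z * c⁻¹) = c * (z * z) * c⁻¹ := by group
          _ = 1 := by rw [hzz]; group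
      | one => simp
      | mul a b ha hb ih1 ih2 =>
        have h1 := hNcomm a ha b hb
        calc a * b * (a * b) = a * (b * a) * b := by group
          _ = a * (a * b) * b := by rw [h1]
          _ = (a * a) * (b * b) := by group
          _ = 1 := by rw [ih1 ha, ih2 hb, one_mul]
      | inv a ha ih =>
        have h1 := ih ha
        calc a⁻¹ * a⁻¹ = (a * a)⁻¹ := by group
          _ = 1 := by rw [h1, inv_one]
    have hxi : x⁻¹ = x := inv_eq_of_mul_eq_one_left hxx
    have hf : ∀ r ∈ N, r * (x * r * x) = 1 ∨ r * (x * r * x) = z := by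
      intro r hr
      have h1 : x * r * x ∈ N := by
        have := hNn.conj_mem r hr x
        rwa [hxi] at this
      have h2 : r * (x * r * x) ∈ N := N.mul_mem hr h1
      have h3 : r * (x * r * x) ∈ V := by
        rw [memV]
        have hc := hNcomm r hr _ h1
        calc r * (x * r * x) * x = r * x * r * (x * x) := by group
          _ = r * x * r := by rw [hxx, mul_one]
          _ = (x * x) * (r * x * r) := by rw [hxx, one_mul]
          _ = x * ((x * r * x) * r) := by group
          _ = x * (r * (x * r * x)) := by rw [hc]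
      rcases hVmem _ h3 with h | h | h | h
      · exact Or.inl h
      · exact absurd (h ▸ hNM h2) hxM
      · exact Or.inr h
      · exact absurd (h ▸ hNM h2) hazM
    have hf1 : ∀ r ∈ N, r * (x * r * x) = 1 → r = 1 ∨ r = z := by
      intro r hr h
      have hri : r⁻¹ = r := inv_eq_of_mul_eq_one_left (hNexp r hr)
      have h1 : x * r * x = r := by
        have := eq_inv_of_mul_eq_one_right h
        rwa [hri] at this
      have h2 : r ∈ V := by
        rw [memV]
        calc r * x = (x * r * x) * x := by rw [h1]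
          _ = x * r * (x * x) := by group
          _ = x * r := by rw [hxx, mul_one]
      have hrM := hNM hr
      rcases hVmem _ h2 with h' | h' | h' | h'
      · exact Or.inl h'
      · exact absurd (h' ▸ hrM) hxM
      · exact Or.inr h'
      · exact absurd (h' ▸ hrM) hazM
    obtain ⟨r0, hsub⟩ : ∃ r0 : G, ∀ r ∈ N, r = 1 ∨ r = z ∨ r = r0 ∨ r = z * r0 := by
      by_cases hex : ∃ r0 ∈ N, r0 * (x * r0 * x) = z
      · obtain ⟨r0, hr0, hr0z⟩ := hex
        refine ⟨r0, ?_⟩
        intro r hr
        rcases hf r hr with h | h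
        · rcases hf1 r hr h with h' | h'
          · exact Or.inl h'
          · exact Or.inr (Or.inl h')
        · have h1 : x * r * x ∈ N := by
            have := hNn.conj_mem r hr x
            rwa [hxi] at this
          have h2 : x * r0 * x ∈ N := by
            have := hNn.conj_mem r0 hr0 x
            rwa [hxi] at this
          have h3 : (r * r0) * (x * (r * r0) * x) = 1 := by
            have hc := hNcomm r0 hr0 _ h1
            calc (r * r0) * (x * (r * r0) * x)
                = r * (r0 * (x * r * x)) * (x * r0 * x) := by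
                  have : x * (r * r0) * x = (x * r * x) * (x * r0 * x) := by
                    calc x * (r * r0) * x = x * r * 1 * r0 * x := by group
                      _ = x * r * (x * x) * r0 * x := by rw [hxx]
                      _ = _ := by group
                  rw [this]; group
              _ = r * ((x * r * x) * r0) * (x * r0 * x) := by rw [hc]
              _ = (r * (x * r * x)) * (r0 * (x * r0 * x)) := by group
              _ = z * z := by rw [h, hr0z]
              _ = 1 := hzz
          have hr0i : r0⁻¹ = r0 := inv_eq_of_mul_eq_one_left (hNexp r0 hr0)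
          rcases hf1 _ (N.mul_mem hr hr0) h3 with h4 | h4
          · right; right; left
            have := eq_inv_of_mul_eq_one_left h4
            rwa [hr0i] at this
          · right; right; right
            have := eq_mul_inv_of_mul_eq h4
            rwa [hr0i] at this
      · refine ⟨1, ?_⟩
        intro r hr
        rcases hf r hr with h | h
        · rcases hf1 r hr h with h' | h'
          · exact Or.inl h'
          · exact Or.inr (Or.inl h')
        · exact absurd ⟨r, hr, h⟩ hex
    have hcardN : Nat.card N ≤ 4 := by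
      let s : Finset G := {1, z, r0, z * r0}
      have : Nat.card N ≤ s.card := by
        haveI := Fintype.ofFinite N
        rw [Nat.card_eq_fintype_card]
        apply Finset.card_le_card_of_injOn (s := Finset.univ) (fun r : N => (r : G))
        · intro r _
          have := hsub r r.2
          simp only [s, Finset.mem_coe, Finset.mem_insert, Finset.mem_singleton]
          exact this
        · intro p _ q _ h
          exact Subtype.ext h
      exact this.trans Finset.card_le_four
    have hNp : IsPGroup 2 N := by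
      intro r
      refine ⟨1, ?_⟩
      apply Subtype.ext
      simpa [pow_two] using hNexp r r.2
    obtain ⟨k, hk⟩ := IsPGroup.iff_card.mp hNp
    have hne' := hne N hNn ⟨⟨⟨fun a b => Subtype.ext (hNcomm a a.2 b b.2)⟩⟩,
      fun a ha => by rw [pow_two]; exact hNexp a ha⟩
    have hk2 : k ≤ 2 := by
      by_contra h
      have : 2 ^ 3 ≤ 2 ^ k := Nat.pow_le_pow_right (by norm_num) (by omega)
      omega
    have hk0 : k ≠ 0 := by
      rintro rfl
      rw [pow_zero] at hk
      have := (Nat.card_eq_one_iff_unique.mp hk).1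
      have h1 : (⟨z, hzN⟩ : N) = 1 := Subsingleton.elim _ _
      exact hz1 (congrArg Subtype.val h1)
    have hk12 : k = 1 ∨ k = 2 := by omega
    rcases hk12 with rfl | rfl
    · exact hne'.1 (by simpa using hk)
    · exact hne'.2 (by simpa using hk)
  · -- the conjugate in the cyclic group
    obtain ⟨y', hy'Q, hy'⟩ := hg
    have hyy : (g * x * g⁻¹) * (g * x * g⁻¹) = 1 := by
      calc (g * x * g⁻¹) * (g * x * g⁻¹) = g * (x * x) * g⁻¹ := by group
        _ = 1 := by rw [hxx]; group
    have hy1 : g * x * g⁻¹ ≠ 1 := by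
      intro e
      apply hx1
      have : x = g⁻¹ * (g * x * g⁻¹) * g := by group
      rw [this, e]; group
    haveI hQn : Q.Normal := normal_of_index_eq_two hQi
    have hy'1 : y' ≠ 1 := fun e => hy1 (by
      have := congrArg Subtype.val e
      rw [← hy']
      exact this)
    have hy'y' : y' * y' = 1 := by
      apply Subtype.ext
      show (y' : G) * (y' : G) = 1
      have h1 : (y' : G) = g * x * g⁻¹ := hy'
      rw [h1, hyy]
    have hcomm : ∀ t : (T : Subgroup G), t * y' = y' * t := by
      intro t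
      let a : Q := ⟨y', hy'Q⟩
      let b : Q := ⟨t * y' * t⁻¹, hQn.conj_mem _ hy'Q t⟩
      have hb : b * b = 1 := by
        apply Subtype.ext
        show (t * y' * t⁻¹) * (t * y' * t⁻¹) = 1
        calc (t * y' * t⁻¹) * (t * y' * t⁻¹) = t * (y' * y') * t⁻¹ := by group
          _ = 1 := by rw [hy'y']; group
      have hb1 : b ≠ 1 := by
        intro e
        have h1 : t * y' * t⁻¹ = 1 := congrArg Subtype.val e
        apply hy'1
        have : y' = t⁻¹ * (t * y' * t⁻¹) * t := by group
        rw [this, h1]; group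
      have ha : a * a = 1 := Subtype.ext hy'y'
      have ha1 : a ≠ 1 := fun e => hy'1 (congrArg Subtype.val e)
      haveI : Finite Q := inferInstance
      have h := invol_unique_of_cyclic ha hb ha1 hb1
      have h1 : y' = t * y' * t⁻¹ := congrArg Subtype.val h
      calc t * y' = (t * y' * t⁻¹) * t := by group
        _ = y' * t := by rw [← h1]
    have hle : (T : Subgroup G) ≤ centralizer ({g * x * g⁻¹} : Set G) := by
      intro t ht
      rw [mem_centralizer_singleton_iff]
      have h1 := congrArg Subtype.val (hcomm ⟨t, ht⟩)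
      have h2 : (y' : G) = g * x * g⁻¹ := hy'
      rw [← h2]
      exact h1
    have h3 := Subgroup.card_le_of_le hle
    rw [card_cent_conj, hcard] at h3
    omega

theorem case_four (x : G) (hxx : x * x = 1) (hx1 : x ≠ 1)
    (hcard : Nat.card (centralizer ({x} : Set G)) = 4)
    (hexp : ∀ c ∈ centralizer ({x} : Set G), c * c = 1)
    (hnc : ¬ Cfsg.HasNormalPComplement 2 G)
    (hne : ∀ E : Subgroup G, E.Normal → Cfsg.IsElementaryAbelian 2 E →
      Nat.card E ≠ 2 ∧ Nat.card E ≠ 4)
    (T : Sylow 2 G) (hTV : (T : Subgroup G) = centralizer ({x} : Set G)) :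
    Nonempty (G ≃* alternatingGroup (Fin 5)) := by
  classical
  haveI : Fact (Nat.Prime 2) := ⟨Nat.prime_two⟩
  have memT : ∀ c : G, c ∈ (T : Subgroup G) ↔ c * x = x * c := fun c => by
    rw [hTV]; exact mem_centralizer_singleton_iff
  have hxT : x ∈ (T : Subgroup G) := (memT x).mpr rfl
  have hTexp : ∀ c ∈ (T : Subgroup G), c * c = 1 := fun c hc => hexp c (hTV ▸ hc)
  have hTcomm : ∀ c ∈ (T : Subgroup G), ∀ d ∈ (T : Subgroup G), c * d = d * c := comm_of_exp hTexp
  have hTcard : Nat.card (T : Subgroup G) = 4 := by rw [hTV]; exact hcard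
  have hnn : ¬ (T : Subgroup G).Normal := by
    intro h
    exact (hne T h ⟨⟨⟨fun a b => Subtype.ext (hTcomm a a.2 b b.2)⟩⟩,
      fun a ha => by rw [pow_two]; exact hTexp a ha⟩).2 hTcard
  have hncyc : ¬ IsCyclic (T : Subgroup G) := by
    intro h
    obtain ⟨g, hg⟩ := h.exists_generator
    have h1 : orderOf g = 4 := by
      rw [orderOf_eq_card_of_forall_mem_zpowers hg, hTcard]
    have h2 : g ^ 2 = 1 := Subtype.ext (by simpa [pow_two] using hTexp g g.2)
    have h3 := orderOf_dvd_of_pow_eq_one h2
    rw [h1] at h3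
    omega
  have hBurn : ¬ (normalizer ((T : Subgroup G) : Set G) ≤ centralizer ((T : Subgroup G) : Set G)) := by
    intro h
    exact hnc ⟨T, _, inferInstance, MonoidHom.ker_transferSylow_isComplement' T h⟩
  obtain ⟨ρ, hρN, hρC⟩ := SetLike.not_le_iff_exists.mp hBurn
  have hρxne : ρ * x * ρ⁻¹ ≠ x := by
    intro h
    apply hρC
    have hρT : ρ ∈ (T : Subgroup G) := by
      rw [memT]
      calc ρ * x = (ρ * x * ρ⁻¹) * ρ := by group
        _ = x * ρ := by rw [h]
    rw [mem_centralizer_iff]
    intro c hc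
    exact hTcomm c hc ρ hρT
  have hρconj1 : ∀ c : G, c ≠ 1 → ρ * c * ρ⁻¹ ≠ 1 := by
    intro c hc e
    apply hc
    have : c = ρ⁻¹ * (ρ * c * ρ⁻¹) * ρ := by group
    rw [this, e]; group
  set y := ρ * x * ρ⁻¹ with hy
  have hyT : y ∈ (T : Subgroup G) := (mem_normalizer_iff.mp hρN x).mp hxT
  have hy1 : y ≠ 1 := hρconj1 x hx1
  have hxy1 : x * y ≠ 1 := by
    intro e
    apply hρxne
    have : y = x⁻¹ := eq_inv_of_mul_eq_one_right e
    rw [this, inv_eq_of_mul_eq_one_left hxx]
  have hTmem := mem_of_four (T : Subgroup G) hTcard hxT hyT hx1 hy1 hρxne hxy1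
  set w := ρ * y * ρ⁻¹ with hw
  have hwT : w ∈ (T : Subgroup G) := (mem_normalizer_iff.mp hρN y).mp hyT
  have hw1 : w ≠ 1 := hρconj1 y hy1
  have hwy : w ≠ y := by
    intro e
    apply hρxne
    have h1 : ρ * y * ρ⁻¹ = ρ * x * ρ⁻¹ := e
    have h2 : y = x := by
      have := mul_right_cancel h1
      exact mul_left_cancel this
    exact h2
  have hwx : w ≠ x := by
    intro h
    have hρ2 : ρ * ρ ∈ (T : Subgroup G) := by
      rw [memT]
      calc ρ * ρ * x = (ρ * (ρ * x * ρ⁻¹) * ρ⁻¹) * (ρ * ρ) := by group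
        _ = x * (ρ * ρ) := by rw [← hy, ← hw, h]
    have hρ4 := hTexp _ hρ2
    have hzp : IsPGroup 2 (zpowers ρ) := by
      intro r
      obtain ⟨r', hr'⟩ := r
      obtain ⟨k, rfl⟩ := hr'
      refine ⟨2, ?_⟩
      apply Subtype.ext
      show (ρ ^ k) ^ (2 ^ 2) = 1
      rw [← zpow_natCast, ← zpow_mul, mul_comm, zpow_mul]
      have : ρ ^ (((2 ^ 2 : ℕ) : ℤ)) = 1 := by
        rw [zpow_natCast]
        have e : ρ ^ 2 ^ 2 = (ρ * ρ) * (ρ * ρ) := by
          rw [show 2 ^ 2 = 4 by norm_num]
          simp only [pow_succ, pow_zero, one_mul, mul_assoc]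
        rw [e]
        exact hρ4
      rw [this, one_zpow]
    have hsup : IsPGroup 2 ((T : Subgroup G) ⊔ zpowers ρ : Subgroup G) :=
      T.isPGroup'.to_sup_of_normal_left' hzp (by rw [zpowers_le]; exact hρN)
    have h1 := T.is_maximal' hsup le_sup_left
    have h2 : ρ ∈ (T : Subgroup G) := by
      have h3 : ρ ∈ ((T : Subgroup G) ⊔ zpowers ρ : Subgroup G) :=
        (le_sup_right : zpowers ρ ≤ _) (mem_zpowers ρ)
      rwa [h1] at h3
    apply hρxne
    rw [hy, (memT ρ).mp h2]
    group
  have hwform : w = x * y := by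
    rcases hTmem w hwT with h | h | h | h
    · exact absurd h hw1
    · exact absurd h hwx
    · exact absurd h hwy
    · exact h
  have hconjT : ∀ c ∈ (T : Subgroup G), c ≠ 1 → ∃ h : G, c = h * x * h⁻¹ := by
    intro c hc hc1
    rcases hTmem c hc with h | h | h | h
    · exact absurd h hc1
    · exact ⟨1, by rw [h]; group⟩
    · exact ⟨ρ, h⟩
    · refine ⟨ρ * ρ, ?_⟩
      rw [h, ← hwform, hw, hy]
      group
  have hallconj : ∀ t : G, orderOf t = 2 → ∃ h : G, t = h * x * h⁻¹ := by
    intro t ht
    have hzp : IsPGroup 2 (zpowers t) := by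
      rw [IsPGroup.iff_card, Nat.card_zpowers, ht]
      exact ⟨1, by norm_num⟩
    obtain ⟨g, hg⟩ := Cfsg.Agent.Lib.SylowIn.exists_conj_mem_sylow T hzp
    have h1 := hg t (mem_zpowers t)
    have h2 : g * t * g⁻¹ ≠ 1 := by
      intro e
      have ht1 : t = 1 := by
        have : t = g⁻¹ * (g * t * g⁻¹) * g := by group
        rw [this, e]; group
      rw [ht1, orderOf_one] at ht
      omega
    obtain ⟨h, hh⟩ := hconjT _ h1 h2
    refine ⟨g⁻¹ * h, ?_⟩
    have : t = g⁻¹ * (g * t * g⁻¹) * g := by group
    rw [this, hh]; group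
  have hC : ∀ t : G, orderOf t = 2 → IsMulCommutative (centralizer ({t} : Set G)) ∧
      ∀ c ∈ centralizer ({t} : Set G), c ^ 2 = 1 := by
    intro t ht
    obtain ⟨h, rfl⟩ := hallconj t ht
    have key : ∀ c, c ∈ centralizer ({h * x * h⁻¹} : Set G) → h⁻¹ * c * h ∈ (T : Subgroup G) := by
      intro c hc
      rw [memT]
      have e := mem_centralizer_singleton_iff.mp hc
      calc h⁻¹ * c * h * x = h⁻¹ * (c * (h * x * h⁻¹)) * h := by group
        _ = h⁻¹ * ((h * x * h⁻¹) * c) * h := by rw [e]
        _ = x * (h⁻¹ * c * h) := by group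
    constructor
    · refine ⟨⟨fun a b => Subtype.ext ?_⟩⟩
      have h1 := hTcomm _ (key a a.2) _ (key b b.2)
      show (a : G) * b = b * a
      calc (a : G) * b = h * ((h⁻¹ * a * h) * (h⁻¹ * b * h)) * h⁻¹ := by group
        _ = h * ((h⁻¹ * b * h) * (h⁻¹ * a * h)) * h⁻¹ := by rw [h1]
        _ = b * a := by group
    · intro c hc
      have h1 := hTexp _ (key c hc)
      rw [pow_two]
      calc c * c = h * ((h⁻¹ * c * h) * (h⁻¹ * c * h)) * h⁻¹ := by group
        _ = 1 := by rw [h1]; group
  obtain ⟨h3t, h3f, hreg⟩ := Cfsg.Agent.S1229.result T hncyc hnn hC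
  set H := normalizer ((T : Subgroup G) : Set G) with hH
  have hHtop : H ≠ ⊤ := by
    intro h
    exact hnn (normalizer_eq_top_iff.mp h)
  obtain ⟨g0, hg0⟩ : ∃ g0, g0 ∉ H := by
    by_contra hno
    push Not at hno
    exact hHtop (eq_top_iff.mpr (fun a _ => hno a))
  let pt : G ⧸ H := QuotientGroup.mk 1
  let x0 : G ⧸ H := QuotientGroup.mk g0
  have hx0 : x0 ≠ pt := by
    intro e
    have h1 : g0⁻¹ * 1 ∈ H := QuotientGroup.eq.mp e
    apply hg0
    have h2 := H.inv_mem h1
    simpa using h2
  have hTH : (T : Subgroup G) ≤ H := le_normalizer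
  have hHfix : ∀ h ∈ H, h • pt = pt := by
    intro h hh
    show (QuotientGroup.mk (h * 1) : G ⧸ H) = QuotientGroup.mk 1
    rw [QuotientGroup.eq]
    simpa using hh
  have hnotpt : ∀ t ∈ (T : Subgroup G), ∀ p : G ⧸ H, p ≠ pt → t • p ≠ pt := by
    intro t ht p hp e
    apply hp
    have h1 : t⁻¹ • (t • p) = p := inv_smul_smul t p
    rw [← h1, e]
    exact hHfix _ (H.inv_mem (hTH ht))
  have hcardX : Nat.card (G ⧸ H) = 5 := by
    let φ : ↥(T : Subgroup G) → {p : G ⧸ H // p ≠ pt} :=
      fun t => ⟨(t : G) • x0, hnotpt t t.2 x0 hx0⟩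
    have hφ : Function.Bijective φ := by
      constructor
      · intro a b hab
        have h1 : (a : G) • x0 = (b : G) • x0 := congrArg Subtype.val hab
        obtain ⟨t0, ⟨ht0T, ht0⟩, huniq⟩ := hreg x0 ((b : G) • x0) hx0 (hnotpt _ b.2 x0 hx0)
        have ha := huniq a ⟨a.2, h1⟩
        have hb := huniq b ⟨b.2, rfl⟩
        exact Subtype.ext (ha.trans hb.symm)
      · rintro ⟨p, hp⟩
        obtain ⟨t0, ⟨ht0T, ht0⟩, -⟩ := hreg x0 p hx0 hp
        exact ⟨⟨t0, ht0T⟩, Subtype.ext ht0⟩
    have h1 := Nat.card_congr (Equiv.ofBijective φ hφ)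
    haveI := Fintype.ofFinite (G ⧸ H)
    have h2 : Nat.card {p : G ⧸ H // p ≠ pt} + 1 = Nat.card (G ⧸ H) := by
      rw [Nat.card_eq_fintype_card, Nat.card_eq_fintype_card, Fintype.card_subtype_compl,
        Fintype.card_subtype_eq]
      have : 0 < Fintype.card (G ⧸ H) := Fintype.card_pos_iff.mpr ⟨pt⟩
      omega
    rw [hTcard] at h1
    omega
  let x1 : G ⧸ H := x • x0
  have hx1pt : x1 ≠ pt := hnotpt x hxT x0 hx0
  have hx1x0 : x1 ≠ x0 := by
    intro e
    obtain ⟨t0, -, huniq⟩ := hreg x0 x0 hx0 hx0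
    have h1 := huniq x ⟨hxT, e⟩
    have h2 := huniq 1 ⟨(T : Subgroup G).one_mem, one_smul _ _⟩
    exact hx1 (h1.trans h2.symm)
  obtain ⟨u, hu1, hu2, hu3⟩ := h3t pt x0 x1 x0 pt x1 hx0.symm hx1pt.symm hx1x0.symm hx0 hx1x0.symm
    hx1pt.symm
  have huu : u * u = 1 := by
    apply h3f (u * u) pt x0 x1 hx0.symm hx1pt.symm hx1x0.symm
    · rw [mul_smul, hu1, hu2]
    · rw [mul_smul, hu2, hu1]
    · rw [mul_smul, hu3, hu3]
  have hu1' : u ≠ 1 := by
    rintro rfl
    rw [one_smul] at hu1
    exact hx0 hu1.symm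
  have hu : orderOf u = 2 := orderOf_eq_prime (by rw [pow_two]; exact huu) hu1'
  have huH : u ∉ H := by
    intro h
    rw [hHfix u h] at hu1
    exact hx0 hu1.symm
  have hcardH := (Cfsg.Agent.S1227.result T hncyc hnn hC u hu huH).2.1
  rw [hTcard] at hcardH
  have h60 : Nat.card G = 60 := by
    rw [Subgroup.card_eq_card_quotient_mul_card_subgroup H, hcardX, hcardH]
  let e : (G ⧸ H) ≃ Fin 5 := Finite.equivFinOfCardEq hcardX
  let ψ : G →* Equiv.Perm (Fin 5) :=
    (e.permCongrHom.toMonoidHom).comp (MulAction.toPermHom G (G ⧸ H))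
  have hinj : Function.Injective ψ := by
    rw [injective_iff_map_eq_one]
    intro g hg
    have h1 : MulAction.toPermHom G (G ⧸ H) g = 1 := by
      apply e.permCongrHom.injective
      rw [map_one]
      exact hg
    have hfix : ∀ p : G ⧸ H, g • p = p := fun p =>
      congrArg (fun f : Equiv.Perm (G ⧸ H) => f p) h1
    exact h3f g pt x0 x1 hx0.symm hx1pt.symm hx1x0.symm (hfix _) (hfix _) (hfix _)
  have hcardR : Nat.card ψ.range = 60 := by
    rw [← h60]
    exact Nat.card_congr (MonoidHom.ofInjective hinj).toEquiv.symm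
  have hcardP : Nat.card (Equiv.Perm (Fin 5)) = 120 := by
    rw [Nat.card_eq_fintype_card, Fintype.card_perm]
    rfl
  have hindex : ψ.range.index = 2 := by
    have := ψ.range.card_mul_index
    rw [hcardR, hcardP] at this
    omega
  have hEq := Equiv.Perm.eq_alternatingGroup_of_index_eq_two hindex
  exact ⟨(MonoidHom.ofInjective hinj).trans (MulEquiv.subgroupCongr hEq)⟩

theorem main (x : G) (hx : orderOf x = 2)
    (hC4 : Nat.card (centralizer ({x} : Set G)) = 4)
    (hCe : ∀ c ∈ centralizer ({x} : Set G), c ^ 2 = 1)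
    (hnc : ¬ Cfsg.HasNormalPComplement 2 G)
    (hne : ∀ E : Subgroup G, E.Normal → Cfsg.IsElementaryAbelian 2 E →
      Nat.card E ≠ 2 ∧ Nat.card E ≠ 4) :
    Nonempty (G ≃* alternatingGroup (Fin 5)) := by
  haveI : Fact (Nat.Prime 2) := ⟨Nat.prime_two⟩
  have hxx : x * x = 1 := by
    rw [← pow_two, ← hx]
    exact pow_orderOf_eq_one x
  have hx1 : x ≠ 1 := by
    rintro rfl
    rw [orderOf_one] at hx
    omega
  have hexp : ∀ c ∈ centralizer ({x} : Set G), c * c = 1 := fun c hc => by
    rw [← pow_two]; exact hCe c hc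
  have hV2 : IsPGroup 2 (centralizer ({x} : Set G)) := by
    intro r
    refine ⟨1, ?_⟩
    apply Subtype.ext
    simpa [pow_two] using hexp r r.2
  obtain ⟨T, hT⟩ := hV2.exists_le_sylow
  have hle := Subgroup.card_le_of_le hT
  rw [hC4] at hle
  by_cases h : Nat.card (T : Subgroup G) = 4
  · exact case_four x hxx hx1 hC4 hexp hnc hne T
      (Subgroup.eq_of_le_of_card_ge hT (by rw [h, hC4])).symm
  · exfalso
    obtain ⟨k, hk⟩ := IsPGroup.iff_card.mp T.isPGroup'
    have hk3 : 3 ≤ k := by
      by_contra hlt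
      have hk2 : k ≤ 2 := by omega
      interval_cases k <;> simp_all <;> omega
    have h8 : 8 ≤ Nat.card (T : Subgroup G) := by
      rw [hk]
      calc 8 = 2 ^ 3 := by norm_num
        _ ≤ 2 ^ k := Nat.pow_le_pow_right (by norm_num) hk3
    exact case_big x hxx hx1 hC4 hexp hne T hT h8

end Cfsg.Agent.Lib.InvFour2
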