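/-
Square-zero endomorphisms: normal basis, det of scaled basis maps.
-/
import Mathlib

set_option autoImplicit false
set_option linter.all false

namespace Cfsg.Agent.Lib.InvolNF

open Module

variable {F V : Type*} [Field F] [AddCommGroup V] [Module F V] [FiniteDimensional F V]

/-- Normal basis of a square-zero endomorphism. -/
theorem exists_basis (f : V →ₗ[F] V) (hf : ∀ v, f (f v) = 0) {n ℓ : ℕ} (hn : finrank F V = n)
    (hℓ : finrank F (LinearMap.range f) = ℓ) (hℓ1 : 0 < ℓ) :
    2 * ℓ ≤ n ∧ ∃ B : Basis (Fin ℓ ⊕ (Fin (n - 2 * ℓ) ⊕ Fin ℓ)) F V,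
      (∀ i, f (B (Sum.inl i)) = B (Sum.inr (Sum.inr i))) ∧ (∀ j, f (B (Sum.inr j)) = 0) := by
  classical
  set K := LinearMap.ker f with hK
  set W := LinearMap.range f with hW
  have hWK : W ≤ K := by
    rintro _ ⟨v, rfl⟩
    exact hf v
  have hrk : finrank F W + finrank F K = finrank F V := LinearMap.finrank_range_add_finrank_ker f
  have hKW : finrank F W ≤ finrank F K := Submodule.finrank_mono hWK
  have hle : 2 * ℓ ≤ n := by omega
  refine ⟨hle, ?_⟩
  let w : Basis (Fin ℓ) F W := finBasisOfFinrankEq F W hℓ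
  have hu : ∀ i, ∃ u, f u = (w i : V) := fun i => (w i).2
  choose u hu using hu
  let W' : Submodule F K := W.comap K.subtype
  obtain ⟨C, hC⟩ := Submodule.exists_isCompl W'
  have hW' : finrank F W' = ℓ := by
    rw [← hℓ]
    exact (Submodule.comapSubtypeEquivOfLe hWK).finrank_eq
  have hCdim : finrank F C = n - 2 * ℓ := by
    have := Submodule.finrank_add_eq_of_isCompl hC
    omega
  let c : Basis (Fin (n - 2 * ℓ)) F C := finBasisOfFinrankEq F C hCdim
  let v : (Fin ℓ ⊕ (Fin (n - 2 * ℓ) ⊕ Fin ℓ)) → V :=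
    Sum.elim u (Sum.elim (fun j => ((c j : K) : V)) (fun i => (w i : V)))
  have hfc : ∀ j, f ((c j : K) : V) = 0 := fun j => (c j : K).2
  have hfw : ∀ i, f (w i : V) = 0 := fun i => hWK (w i).2
  have hind : LinearIndependent F v := by
    rw [Fintype.linearIndependent_iff]
    intro g hg
    simp only [Fintype.sum_sum_type, v, Sum.elim_inl, Sum.elim_inr] at hg
    have h1 : ∑ i, g (Sum.inl i) • w i = 0 := by
      apply Subtype.ext
      have h2 := congrArg f hg
      simp only [map_add, map_sum, map_smul, hu, hfc, hfw, smul_zero, Finset.sum_const_zero, add_zero,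
        map_zero] at h2
      simpa using h2
    have h3 : ∀ i, g (Sum.inl i) = 0 :=
      Fintype.linearIndependent_iff.mp w.linearIndependent _ h1
    simp only [h3, zero_smul, Finset.sum_const_zero, zero_add] at hg
    have h4 : (∑ j, g (Sum.inr (Sum.inl j)) • c j : C) = 0 := by
      have h5 : ((∑ j, g (Sum.inr (Sum.inl j)) • c j : C) : K) ∈ W' := by
        show (((∑ j, g (Sum.inr (Sum.inl j)) • c j : C) : K) : V) ∈ W
        have h6 : (((∑ j, g (Sum.inr (Sum.inl j)) • c j : C) : K) : V)
            = - ∑ i, g (Sum.inr (Sum.inr i)) • (w i : V) := by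
          rw [eq_neg_iff_add_eq_zero, ← hg]
          simp
        rw [h6]
        exact W.neg_mem (W.sum_mem (fun i _ => W.smul_mem _ (w i).2))
      have h7 : ((∑ j, g (Sum.inr (Sum.inl j)) • c j : C) : K) = 0 := by
        have := hC.disjoint.le_bot ⟨h5, (∑ j, g (Sum.inr (Sum.inl j)) • c j : C).2⟩
        simpa using this
      exact Subtype.ext h7
    have h8 : ∀ j, g (Sum.inr (Sum.inl j)) = 0 :=
      Fintype.linearIndependent_iff.mp c.linearIndependent _ h4
    simp only [h8, zero_smul, Finset.sum_const_zero, zero_add] at hg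
    have h9 : ∑ i, g (Sum.inr (Sum.inr i)) • w i = 0 := by
      apply Subtype.ext
      simpa using hg
    have h10 : ∀ i, g (Sum.inr (Sum.inr i)) = 0 :=
      Fintype.linearIndependent_iff.mp w.linearIndependent _ h9
    rintro (i | j | i)
    · exact h3 i
    · exact h8 j
    · exact h10 i
  haveI : Nonempty (Fin ℓ ⊕ (Fin (n - 2 * ℓ) ⊕ Fin ℓ)) := ⟨Sum.inl ⟨0, hℓ1⟩⟩
  have hcard : Fintype.card (Fin ℓ ⊕ (Fin (n - 2 * ℓ) ⊕ Fin ℓ)) = finrank F V := by
    simp only [Fintype.card_sum, Fintype.card_fin]
    omega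
  refine ⟨basisOfLinearIndependentOfCardEqFinrank hind hcard, ?_, ?_⟩
  · intro i
    simp only [coe_basisOfLinearIndependentOfCardEqFinrank, v, Sum.elim_inl, Sum.elim_inr]
    exact hu i
  · rintro (j | i)
    · simp only [coe_basisOfLinearIndependentOfCardEqFinrank, v, Sum.elim_inl, Sum.elim_inr]
      exact hfc j
    · simp only [coe_basisOfLinearIndependentOfCardEqFinrank, v, Sum.elim_inl, Sum.elim_inr]
      exact hfw i

/-- The determinant of a map scaling a basis. -/
theorem det_constr_smul {ι : Type*} [Fintype ι] [DecidableEq ι] (B : Basis ι F V) (d : ι → F) :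
    LinearMap.det (B.constr F (fun x => d x • B x)) = ∏ x, d x := by
  rw [← LinearMap.det_toMatrix B]
  have : LinearMap.toMatrix B B (B.constr F (fun x => d x • B x)) = Matrix.diagonal d := by
    ext x y
    rw [LinearMap.toMatrix_apply, Basis.constr_basis, map_smul, Basis.repr_self, Finsupp.smul_apply,
      Finsupp.single_apply, Matrix.diagonal_apply]
    by_cases h : y = x
    · simp [h]
    · have h' : x ≠ y := Ne.symm h
      simp [h, h']
  rw [this, Matrix.det_diagonal]

end Cfsg.Agent.Lib.InvolNF
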