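/-
Orthonormal families for non-alternating symmetric bilinear forms over finite fields of characteristic two.
-/
import Mathlib
import Cfsg.Agent.Lib.FormClass

set_option autoImplicit false
set_option linter.all false

namespace Cfsg.Agent.Lib.OrthoChar2

open Module Cfsg.Agent.Lib.FormClass

variable {F V : Type*} [Field F] [AddCommGroup V] [Module F V]

theorem cons_step {B : LinearMap.BilinForm F V} (hS : ∀ x y, B x y = B y x) {k : ℕ} {W : Submodule F V} {v : V}
    (hv : v ∈ W) (hvv : B v v = 1) (e' : Fin k → V) (he' : ∀ i, e' i ∈ W ⊓ LinearMap.ker (B v))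
    (horth : ∀ i j, B (e' i) (e' j) = if i = j then 1 else 0) :
    ∃ e : Fin (k + 1) → V, (∀ i, e i ∈ W) ∧ ∀ i j, B (e i) (e j) = if i = j then 1 else 0 := by
  classical
  refine ⟨Fin.cons v e', ?_, ?_⟩
  · intro i
    refine Fin.cases ?_ (fun i => ?_) i
    · simpa using hv
    · simpa using (he' i).1
  · intro i j
    have hk : ∀ i, B v (e' i) = 0 := fun i => (he' i).2
    refine Fin.cases ?_ (fun i => ?_) i <;> refine Fin.cases ?_ (fun j => ?_) j
    · simpa using hvv
    · simp only [Fin.cons_zero, Fin.cons_succ, hk j]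
      rw [if_neg (Fin.succ_ne_zero j).symm]
    · simp only [Fin.cons_zero, Fin.cons_succ]
      rw [hS, hk i, if_neg (Fin.succ_ne_zero i)]
    · simp only [Fin.cons_succ, Fin.succ_inj]
      exact horth i j

theorem exists_orthonormal [Fintype F] [CharP F 2] [FiniteDimensional F V] {B : LinearMap.BilinForm F V}
    (hS : ∀ x y, B x y = B y x) :
    ∀ (n : ℕ) (W : Submodule F V), finrank F W = n → NondegOn B W → (∃ x ∈ W, B x x ≠ 0) →
      ∃ e : Fin n → V, (∀ i, e i ∈ W) ∧ ∀ i j, B (e i) (e j) = if i = j then 1 else 0 := by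
  classical
  intro n
  induction n using Nat.strong_induction_on with
  | _ n ih =>
    intro W hW hN ⟨x₀, hx₀, hxx₀⟩
    have hS' : ∀ x y, (RingHom.id F) (B x y) = B y x := fun x y => hS x y
    obtain ⟨c, hc⟩ : IsSquare (B x₀ x₀)⁻¹ := FiniteField.isSquare_of_char_two (ringChar.eq F 2) _
    set v := c • x₀ with hv
    have hvW : v ∈ W := W.smul_mem _ hx₀
    have hvv : B v v = 1 := by
      rw [hv]
      simp only [map_smul, LinearMap.smul_apply, smul_eq_mul]
      rw [← mul_assoc, ← hc, inv_mul_cancel₀ hxx₀]
    have hv0 : B v v ≠ 0 := by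
      rw [hvv]
      exact one_ne_zero
    have hr1 : finrank F (W ⊓ LinearMap.ker (B v) : Submodule F V) + 1 = finrank F W :=
      finrank_inf_ker (φ := B v) hvW hv0
    have hN₁ : NondegOn B (W ⊓ LinearMap.ker (B v)) := nondegOn_inf_ker (fun a => rfl) hS' hN hvW hv0
    obtain ⟨k, rfl⟩ : ∃ k, n = k + 1 := ⟨n - 1, by omega⟩
    have hW₁ : finrank F (W ⊓ LinearMap.ker (B v) : Submodule F V) = k := by omega
    by_cases hA : ∃ x ∈ W ⊓ LinearMap.ker (B v), B x x ≠ 0
    · obtain ⟨e', he', horth⟩ := ih k (by omega) _ hW₁ hN₁ hA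
      exact cons_step hS hvW hvv e' he' horth
    · push Not at hA
      by_cases hk : k = 0
      · subst hk
        exact cons_step hS hvW hvv Fin.elim0 (fun i => i.elim0) (fun i => i.elim0)
      · have hpos : 0 < finrank F (W ⊓ LinearMap.ker (B v) : Submodule F V) := by omega
        obtain ⟨e₀, he₀⟩ := Module.finrank_pos_iff_exists_ne_zero.1 hpos
        have he₀W := e₀.2
        have he₀' : (e₀ : V) ≠ 0 := fun h => he₀ (Subtype.ext h)
        obtain ⟨f₀, hf₀, hef₀⟩ : ∃ y ∈ W ⊓ LinearMap.ker (B v), B e₀ y ≠ 0 := by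
          by_contra hcon
          push Not at hcon
          exact he₀' (hN₁ _ he₀W hcon)
        set e := (B e₀ f₀)⁻¹ • (e₀ : V) with he
        have heW : e ∈ W ⊓ LinearMap.ker (B v) := Submodule.smul_mem _ _ he₀W
        have hef : B e f₀ = 1 := by
          rw [he]
          simp only [map_smul, LinearMap.smul_apply, smul_eq_mul]
          exact inv_mul_cancel₀ hef₀
        have hfe : B f₀ e = 1 := by rw [hS, hef]
        have hee : B e e = 0 := hA e heW
        have hff : B f₀ f₀ = 0 := hA f₀ hf₀
        have hve : B v e = 0 := heW.2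
        have hvf : B v f₀ = 0 := hf₀.2
        have hev : B e v = 0 := by rw [hS, hve]
        have hfv : B f₀ v = 0 := by rw [hS, hvf]
        have h11 : (1 : F) + 1 = 0 := CharTwo.add_self_eq_zero 1
        set x := v + e with hx
        set y := v + f₀ with hy
        set z := v + e + f₀ with hz
        have hxW : x ∈ W := W.add_mem hvW heW.1
        have hyW : y ∈ W := W.add_mem hvW hf₀.1
        have hzW : z ∈ W := W.add_mem hxW hf₀.1
        have hxx : B x x = 1 := by
          simp only [hx, map_add, LinearMap.add_apply, hvv, hve, hev, hee]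
          ring
        have hxy : B x y = 0 := by
          simp only [hx, hy, map_add, LinearMap.add_apply, hvv, hve, hev, hvf, hef]
          linear_combination h11
        have hyy : B y y = 1 := by
          simp only [hy, map_add, LinearMap.add_apply, hvv, hvf, hfv, hff]
          ring
        have hxz : B x z = 0 := by
          simp only [hx, hz, map_add, LinearMap.add_apply, hvv, hve, hev, hvf, hef, hee]
          linear_combination h11
        have hyz : B y z = 0 := by
          simp only [hy, hz, map_add, LinearMap.add_apply, hvv, hve, hvf, hfv, hfe, hff]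
          linear_combination h11
        have hzz : B z z = 1 := by
          simp only [hz, map_add, LinearMap.add_apply, hvv, hve, hev, hvf, hfv, hef, hfe, hee, hff]
          linear_combination h11
        have hx0 : B x x ≠ 0 := by
          rw [hxx]
          exact one_ne_zero
        have hy0 : B y y ≠ 0 := by
          rw [hyy]
          exact one_ne_zero
        have hz0 : B z z ≠ 0 := by
          rw [hzz]
          exact one_ne_zero
        have hr2 : finrank F (W ⊓ LinearMap.ker (B x) : Submodule F V) + 1 = finrank F W :=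
          finrank_inf_ker (φ := B x) hxW hx0
        have hN₂ : NondegOn B (W ⊓ LinearMap.ker (B x)) := nondegOn_inf_ker (fun a => rfl) hS' hN hxW hx0
        have hyW₂ : y ∈ W ⊓ LinearMap.ker (B x) := ⟨hyW, hxy⟩
        have hr3 : finrank F ((W ⊓ LinearMap.ker (B x)) ⊓ LinearMap.ker (B y) : Submodule F V) + 1
            = finrank F (W ⊓ LinearMap.ker (B x) : Submodule F V) :=
          finrank_inf_ker (φ := B y) hyW₂ hy0
        have hN₃ : NondegOn B ((W ⊓ LinearMap.ker (B x)) ⊓ LinearMap.ker (B y)) :=
          nondegOn_inf_ker (fun a => rfl) hS' hN₂ hyW₂ hy0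
        have hzW₃ : z ∈ (W ⊓ LinearMap.ker (B x)) ⊓ LinearMap.ker (B y) := ⟨⟨hzW, hxz⟩, hyz⟩
        obtain ⟨l, rfl⟩ : ∃ l, k = l + 1 := ⟨k - 1, by omega⟩
        have hr4 : finrank F ((W ⊓ LinearMap.ker (B x)) ⊓ LinearMap.ker (B y) : Submodule F V) = l := by omega
        obtain ⟨e'', he'', horth''⟩ := ih l (by omega) _ hr4 hN₃ ⟨z, hzW₃, hz0⟩
        obtain ⟨e₁, he₁, horth₁⟩ := cons_step hS hyW₂ hyy e'' he'' horth''
        exact cons_step hS hxW hxx e₁ he₁ horth₁

end Cfsg.Agent.Lib.OrthoChar2
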