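/-
Involutions of orthogonal groups in characteristic two: frames and conjugacy.
-/
import Mathlib
import Cfsg.Agent.Lib.OrthoChar2
import Cfsg.Agent.Lib.QuadClass

set_option autoImplicit false
set_option linter.all false

namespace Cfsg.Agent.Lib.InvolQ

open scoped MatrixGroups Matrix
open Module Cfsg Cfsg.Geo Cfsg.Agent.Lib
open Cfsg.Agent.Lib.Transvection Cfsg.Agent.Lib.LinAlgAux Cfsg.Agent.Lib.QuadBase
  Cfsg.Agent.Lib.QuadSiegel Cfsg.Agent.Lib.QuadStab Cfsg.Agent.Lib.QuadRefl Cfsg.Agent.Lib.QuadFamily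
  Cfsg.Agent.Lib.Spinor Cfsg.Agent.Lib.Dickson Cfsg.Agent.Lib.QuadClass
open QuadraticMap (polar)

variable {ι : Type} [Fintype ι] [DecidableEq ι] {F : Type*} [Field F] {Q : (ι → F) → F}

/-- The map `t - 1` in characteristic two. -/
def nnQ (t : GL ι F) (v : ι → F) : ι → F := (t : Matrix ι ι F) *ᵥ v + v

theorem nnQ_add (t : GL ι F) (u v : ι → F) : nnQ t (u + v) = nnQ t u + nnQ t v := by
  simp only [nnQ, Matrix.mulVec_add]
  abel

theorem nnQ_smul (t : GL ι F) (c : F) (v : ι → F) : nnQ t (c • v) = c • nnQ t v := by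
  simp only [nnQ, Matrix.mulVec_smul, smul_add]

theorem nnQ_eq [CharP F 2] (t : GL ι F) (v : ι → F) : nnQ t v = ((t : Matrix ι ι F) - 1) *ᵥ v := by
  rw [nnQ, Matrix.sub_mulVec, Matrix.one_mulVec]
  funext i
  simp only [Pi.sub_apply, Pi.add_apply]
  exact (CharTwo.sub_eq_add _ _).symm

theorem tt_eq {t : GL ι F} (ht : t * t = 1) (v : ι → F) :
    (t : Matrix ι ι F) *ᵥ ((t : Matrix ι ι F) *ᵥ v) = v := by
  have h : (t : Matrix ι ι F) * (t : Matrix ι ι F) = 1 := congrArg Units.val ht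
  rw [Matrix.mulVec_mulVec, h, Matrix.one_mulVec]

section Basic

variable (hQ : IsNondegenerateQuadraticForm Q) {t : GL ι F} (hi : QIsom Q t) (ht : t * t = 1)

include hi ht in
theorem adjQ (u v : ι → F) : polar Q ((t : Matrix ι ι F) *ᵥ u) v = polar Q u ((t : Matrix ι ι F) *ᵥ v) := by
  calc polar Q ((t : Matrix ι ι F) *ᵥ u) v
      = polar Q ((t : Matrix ι ι F) *ᵥ ((t : Matrix ι ι F) *ᵥ u)) ((t : Matrix ι ι F) *ᵥ v) := (hi.pol _ _).symm
    _ = _ := by rw [tt_eq ht]

include hQ hi ht in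
theorem nnQ_adj (u v : ι → F) : polar Q (nnQ t u) v = polar Q u (nnQ t v) := by
  rw [nnQ, nnQ, pol_add_left hQ, pol_add_right hQ, adjQ hi ht]

include ht in
theorem nnQ_nn [CharP F 2] (v : ι → F) : nnQ t (nnQ t v) = 0 := by
  rw [nnQ, nnQ, Matrix.mulVec_add, tt_eq ht]
  funext i
  simp only [Pi.add_apply, Pi.zero_apply]
  have h : ∀ x y : F, x + y + (y + x) = 0 := by
    intro x y
    rw [add_comm y x]
    exact CharTwo.add_self_eq_zero _
  exact h _ _

include hQ hi ht in
theorem nnQ_iso [CharP F 2] (u v : ι → F) : polar Q (nnQ t u) (nnQ t v) = 0 := by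
  rw [nnQ_adj hQ hi ht, nnQ_nn ht, pol_zero_right hQ]

include hQ in
theorem pol_alt [CharP F 2] (x : ι → F) : polar Q x x = 0 := by
  rw [pol_self hQ, CharTwo.two_eq_zero, zero_mul]

include hi in
theorem Q_nn [CharP F 2] (v : ι → F) : Q (nnQ t v) = polar Q v ((t : Matrix ι ι F) *ᵥ v) := by
  have h1 : polar Q ((t : Matrix ι ι F) *ᵥ v) v = Q (nnQ t v) - Q ((t : Matrix ι ι F) *ᵥ v) - Q v := rfl
  rw [hi v] at h1
  rw [QuadraticMap.polar_comm, h1]
  have h2 : Q v + Q v = 0 := CharTwo.add_self_eq_zero _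
  linear_combination h2

/-- The bilinear form `f(u, (t-1) v)`. -/
noncomputable def bilQ (hQ : IsNondegenerateQuadraticForm Q) (t : GL ι F) : LinearMap.BilinForm F (ι → F) :=
  LinearMap.mk₂ F (fun u v => polar Q u (nnQ t v))
    (fun u u' v => pol_add_left hQ u u' _)
    (fun c u v => pol_smul_left hQ c u _)
    (fun u v v' => by rw [nnQ_add, pol_add_right hQ])
    (fun c u v => by rw [nnQ_smul, pol_smul_right hQ]; rfl)

theorem bilQ_apply (u v : ι → F) : bilQ hQ t u v = polar Q u (nnQ t v) := rfl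

include hi ht in
theorem bilQ_symm [CharP F 2] (u v : ι → F) : bilQ hQ t u v = bilQ hQ t v u := by
  rw [bilQ_apply, bilQ_apply, ← nnQ_adj hQ hi ht, QuadraticMap.polar_comm]

theorem bilQ_self [CharP F 2] (v : ι → F) : bilQ hQ t v v = polar Q v ((t : Matrix ι ι F) *ᵥ v) := by
  rw [bilQ_apply, nnQ, pol_add_right hQ, pol_alt hQ, add_zero]

end Basic

/-- A frame for the involution. -/
structure FrameQ (hQ : IsNondegenerateQuadraticForm Q) (t : GL ι F) {κ : Type} [Fintype κ] [DecidableEq κ]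
    (τ : Equiv.Perm κ) (u : κ → (ι → F)) : Prop where
  gram : ∀ x y, bilQ hQ t (u x) (u y) = if x = τ y then 1 else 0
  card : Fintype.card κ = ((t : Matrix ι ι F) - 1).rank

section FrameLemmas

variable [CharP F 2] {hQ : IsNondegenerateQuadraticForm Q} {t : GL ι F} (hi : QIsom Q t) (ht : t * t = 1)
  {κ : Type} [Fintype κ] [DecidableEq κ]
  {τ : Equiv.Perm κ} (hτ : ∀ x, τ (τ x) = x) {u : κ → (ι → F)} (hu : FrameQ hQ t τ u)

include hτ hu in
theorem pair_sumQ (c : κ → F) (y : κ) : polar Q (u y) (∑ x, c x • nnQ t (u x)) = c (τ y) := by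
  have h1 : ∀ (z : ι → F) (s : Finset κ) (g : κ → (ι → F)),
      polar Q z (∑ x ∈ s, g x) = ∑ x ∈ s, polar Q z (g x) := by
    intro z s g
    induction s using Finset.induction_on with
    | empty => simp [pol_zero_right hQ]
    | insert x s hx ih => rw [Finset.sum_insert hx, Finset.sum_insert hx, pol_add_right hQ, ih]
  rw [h1, Finset.sum_eq_single (τ y)]
  · rw [pol_smul_right hQ, ← bilQ_apply hQ, hu.gram, if_pos (hτ y).symm, mul_one]
  · intro x _ hx
    rw [pol_smul_right hQ, ← bilQ_apply hQ, hu.gram, if_neg, mul_zero]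
    intro h
    apply hx
    rw [h, hτ]
  · simp

include hτ hu in
theorem frame_indepQ : LinearIndependent F (fun x => nnQ t (u x)) := by
  rw [Fintype.linearIndependent_iff]
  intro c hc x
  have h1 := pair_sumQ hτ hu c (τ x)
  rw [hc, pol_zero_right hQ, hτ] at h1
  exact h1.symm

include hi ht hτ hu in
theorem frame_formulaQ (v : ι → F) :
    nnQ t v = ∑ x, polar Q v (nnQ t (u (τ x))) • nnQ t (u x) := by
  have hind := frame_indepQ hτ hu
  have hle : Submodule.span F (Set.range (fun x => nnQ t (u x))) ≤ LinearMap.range ((t : Matrix ι ι F) - 1).mulVecLin := by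
    apply Submodule.span_le.mpr
    rintro _ ⟨x, rfl⟩
    exact ⟨u x, by simp only [Matrix.mulVecLin_apply]; exact (nnQ_eq t _).symm⟩
  have hfr : finrank F (Submodule.span F (Set.range (fun x => nnQ t (u x)))) = finrank F (LinearMap.range ((t : Matrix ι ι F) - 1).mulVecLin) := by
    rw [finrank_span_eq_card hind, hu.card]
    rfl
  have heq := Submodule.eq_of_le_of_finrank_eq hle hfr
  have hmem : nnQ t v ∈ Submodule.span F (Set.range (fun x => nnQ t (u x))) := by
    rw [heq]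
    exact ⟨v, by simp only [Matrix.mulVecLin_apply]; exact (nnQ_eq t _).symm⟩
  obtain ⟨c, hc⟩ := (Submodule.mem_span_range_iff_exists_fun F).1 hmem
  have h2 : ∀ y, c (τ y) = polar Q v (nnQ t (u y)) := by
    intro y
    rw [← pair_sumQ hτ hu c y, hc, ← nnQ_adj hQ hi ht, QuadraticMap.polar_comm]
  rw [← hc]
  apply Finset.sum_congr rfl
  intro x _
  have := h2 (τ x)
  rw [hτ] at this
  rw [this]

end FrameLemmas

section Move

variable [Fintype F] [CharP F 2] (hQ : IsNondegenerateQuadraticForm Q)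

include hQ in
theorem Q_sum_iso {κ : Type} [DecidableEq κ] (w : κ → (ι → F)) (hw : ∀ i j, polar Q (w i) (w j) = 0) (c : κ → F)
    (s : Finset κ) : Q (∑ i ∈ s, c i • w i) = ∑ i ∈ s, c i * c i * Q (w i) := by
  have h1 : ∀ (a : κ) (s : Finset κ), polar Q (w a) (∑ i ∈ s, c i • w i) = 0 := by
    intro a s
    induction s using Finset.induction_on with
    | empty => simp [pol_zero_right hQ]
    | insert x s hx ih =>
      rw [Finset.sum_insert hx, pol_add_right hQ, pol_smul_right hQ, hw, ih, mul_zero, add_zero]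
  induction s using Finset.induction_on with
  | empty => simp [Q_zero hQ]
  | insert x s hx ih =>
    rw [Finset.sum_insert hx, Finset.sum_insert hx]
    have h2 : polar Q (c x • w x) (∑ i ∈ s, c i • w i) = Q (c x • w x + ∑ i ∈ s, c i • w i) - Q (c x • w x) - Q (∑ i ∈ s, c i • w i) := rfl
    have h3 := h1 x s
    rw [pol_smul_left hQ, h3, mul_zero] at h2
    rw [ih, hQ.smul] at h2
    rw [pow_two] at h2
    linear_combination -h2

include hQ in
theorem exists_moveQ {κ : Type} [Fintype κ] [DecidableEq κ] (w w' : κ → (ι → F))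
    (hind : LinearIndependent F w) (hind' : LinearIndependent F w')
    (hw : ∀ i j, polar Q (w i) (w j) = 0) (hw' : ∀ i j, polar Q (w' i) (w' j) = 0)
    (hQQ : ∀ i, Q (w i) = Q (w' i)) :
    ∃ g : isometryGroup F Q, ∀ i, ((g : GL ι F) : Matrix ι ι F) *ᵥ w i = w' i := by
  classical
  let X : Submodule F (ι → F) := Submodule.span F (Set.range w)
  let Y : Submodule F (ι → F) := Submodule.span F (Set.range w')
  let e₁ := Basis.span hind
  let e₂ := Basis.span hind'
  let E : X ≃ₗ[F] Y := e₁.equiv e₂ (Equiv.refl _)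
  let f : X →ₗ[F] (ι → F) := Y.subtype ∘ₗ E.toLinearMap
  have hf : Function.Injective f := Y.injective_subtype.comp E.injective
  have he₁ : ∀ i, ((e₁ i : X) : ι → F) = w i := fun i => congrArg Subtype.val (Basis.span_apply hind i)
  have he₂ : ∀ i, ((e₂ i : Y) : ι → F) = w' i := fun i => congrArg Subtype.val (Basis.span_apply hind' i)
  have hfe : ∀ i, f (e₁ i) = w' i := by
    intro i
    show ((E (e₁ i) : Y) : ι → F) = w' i
    have h3 : E (e₁ i) = e₂ i := by simp [E]
    rw [h3]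
    exact he₂ i
  have hQf : ∀ y : X, Q (f y) = Q (y : ι → F) := by
    intro y
    have h1 : (y : ι → F) = ∑ i, (e₁.repr y i) • w i := by
      conv_lhs => rw [← e₁.sum_repr y]
      rw [Submodule.coe_sum]
      apply Finset.sum_congr rfl
      intro i _
      rw [Submodule.coe_smul, he₁]
    have h2 : f y = ∑ i, (e₁.repr y i) • w' i := by
      conv_lhs => rw [← e₁.sum_repr y]
      rw [map_sum]
      apply Finset.sum_congr rfl
      intro i _
      rw [map_smul, hfe]
    rw [h1, h2, Q_sum_iso hQ w hw, Q_sum_iso hQ w' hw']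
    apply Finset.sum_congr rfl
    intro i _
    rw [hQQ]
  obtain ⟨g, hg, hgf⟩ := Cfsg.Agent.Lib.Witt.extend (Cfsg.Agent.Lib.Witt.quad_step (toQF' hQ) (toQF'_nondeg hQ)) X
    f hf (by
      intro x x'
      show Q (f x + f x') = Q ((x : ι → F) + (x' : ι → F))
      have h1 := hQf (x + x')
      simpa using h1)
  let g' : GL ι F := glOfLin (g : (ι → F) →ₗ[F] (ι → F)) (g.symm : (ι → F) →ₗ[F] (ι → F))
    (by ext1; simp) (by ext1; simp)
  have hg' : ∀ v, (g' : Matrix ι ι F) *ᵥ v = g v := fun v => glOfLin_mulVec _ _ _ _ v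
  have hmem : g' ∈ isometryGroup F Q := by
    apply mem_isometryGroup_iff.2
    intro v
    rw [hg']
    have h4 : Q (g v + g 0) = Q (v + 0) := hg v 0
    simpa using h4
  refine ⟨⟨g', hmem⟩, fun i => ?_⟩
  show (g' : Matrix ι ι F) *ᵥ w i = w' i
  rw [hg']
  have h2 := hgf (e₁ i)
  rw [he₁] at h2
  rw [h2, hfe]

end Move

section Conj

variable [Fintype F] [CharP F 2] {hQ : IsNondegenerateQuadraticForm Q}

/-- Conjugate by frames with the same data. -/
theorem conj_of_framesQ {t s : isometryGroup F Q} (ht : t * t = 1) (hs : s * s = 1) {κ : Type} [Fintype κ]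
    [DecidableEq κ] {τ : Equiv.Perm κ} (hτ : ∀ x, τ (τ x) = x) {ua ub : κ → (ι → F)}
    (h1 : FrameQ hQ (t : GL ι F) τ ua) (h2 : FrameQ hQ (s : GL ι F) τ ub) : IsConj t s := by
  classical
  have hit : QIsom Q (t : GL ι F) := mem_isometryGroup_iff.1 t.2
  have his : QIsom Q (s : GL ι F) := mem_isometryGroup_iff.1 s.2
  have ht' : (t : GL ι F) * t = 1 := congrArg Subtype.val ht
  have hs' : (s : GL ι F) * s = 1 := congrArg Subtype.val hs
  have hQQ : ∀ x, Q (nnQ (t : GL ι F) (ua x)) = Q (nnQ (s : GL ι F) (ub x)) := by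
    intro x
    rw [Q_nn hit, Q_nn his, ← bilQ_self hQ, ← bilQ_self hQ, h1.gram, h2.gram]
  obtain ⟨A, hA⟩ := exists_moveQ hQ _ _ (frame_indepQ hτ h1) (frame_indepQ hτ h2)
    (fun i j => nnQ_iso hQ hit ht' _ _) (fun i j => nnQ_iso hQ his hs' _ _) hQQ
  have hiA : QIsom Q (A : GL ι F) := mem_isometryGroup_iff.1 A.2
  have hsum : ∀ (s : Finset κ) (g : κ → (ι → F)),
      ((A : GL ι F) : Matrix ι ι F) *ᵥ (∑ x ∈ s, g x) = ∑ x ∈ s, ((A : GL ι F) : Matrix ι ι F) *ᵥ g x := by
    intro s g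
    induction s using Finset.induction_on with
    | empty => simp
    | insert x s hx ih => rw [Finset.sum_insert hx, Finset.sum_insert hx, Matrix.mulVec_add, ih]
  have hcomm : ∀ v, ((A : GL ι F) : Matrix ι ι F) *ᵥ nnQ (t : GL ι F) v = nnQ (s : GL ι F) (((A : GL ι F) : Matrix ι ι F) *ᵥ v) := by
    intro v
    rw [frame_formulaQ hit ht' hτ h1 v, frame_formulaQ his hs' hτ h2 (((A : GL ι F) : Matrix ι ι F) *ᵥ v), hsum]
    apply Finset.sum_congr rfl
    intro x _
    rw [Matrix.mulVec_smul, hA, ← hA (τ x), hiA.pol]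
  have hcomm' : ∀ v, ((A : GL ι F) : Matrix ι ι F) *ᵥ (((t : GL ι F) : Matrix ι ι F) *ᵥ v) = ((s : GL ι F) : Matrix ι ι F) *ᵥ (((A : GL ι F) : Matrix ι ι F) *ᵥ v) := by
    intro v
    have := hcomm v
    rw [nnQ, nnQ, Matrix.mulVec_add] at this
    exact add_right_cancel this
  refine isConj_iff.mpr ⟨A, ?_⟩
  rw [mul_inv_eq_iff_eq_mul]
  apply Subtype.ext
  apply Units.ext
  show ((A : GL ι F) : Matrix ι ι F) * ((t : GL ι F) : Matrix ι ι F) = ((s : GL ι F) : Matrix ι ι F) * ((A : GL ι F) : Matrix ι ι F)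
  apply Matrix.mulVec_injective
  funext v
  rw [← Matrix.mulVec_mulVec, ← Matrix.mulVec_mulVec]
  exact hcomm' v

end Conj

section Exists

variable [CharP F 2] [Fintype F] (hQ : IsNondegenerateQuadraticForm Q) {t : GL ι F} (hi : QIsom Q t) (ht : t * t = 1)

include hi ht in
theorem nondeg_complQ {U : Submodule F (ι → F)} (hU : IsCompl (LinearMap.ker ((t : Matrix ι ι F) - 1).mulVecLin) U) :
    FormClass.NondegOn (bilQ hQ t) U := by
  intro w hw hall2
  have h1 : ∀ v, polar Q w (nnQ t v) = 0 := by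
    intro v
    obtain ⟨k, hk, y, hy, rfl⟩ := Submodule.mem_sup.1 (show v ∈ LinearMap.ker ((t : Matrix ι ι F) - 1).mulVecLin ⊔ U by
      rw [hU.sup_eq_top]
      trivial)
    have hk' : nnQ t k = 0 := by rw [nnQ_eq]; exact hk
    rw [nnQ_add, hk', zero_add]
    exact hall2 y hy
  have h2 : ∀ v, polar Q (nnQ t w) v = 0 := by
    intro v
    rw [nnQ_adj hQ hi ht]
    exact h1 v
  have h3 : nnQ t w = 0 := by
    by_contra hne
    obtain ⟨y, hy⟩ := (hQ.nondegenerate _ hne).2
    exact hy (h2 y)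
  have h4 : w ∈ LinearMap.ker ((t : Matrix ι ι F) - 1).mulVecLin := by
    show ((t : Matrix ι ι F) - 1) *ᵥ w = 0
    rw [← nnQ_eq]
    exact h3
  have h6 : w ∈ LinearMap.ker ((t : Matrix ι ι F) - 1).mulVecLin ⊓ U := ⟨h4, hw⟩
  rw [hU.inf_eq_bot] at h6
  simpa using h6

omit [CharP F 2] [Fintype F] in
theorem finrank_complQ {U : Submodule F (ι → F)} (hU : IsCompl (LinearMap.ker ((t : Matrix ι ι F) - 1).mulVecLin) U) :
    finrank F U = ((t : Matrix ι ι F) - 1).rank := by
  have h1 := Submodule.finrank_add_eq_of_isCompl hU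
  have h2 := LinearMap.finrank_range_add_finrank_ker ((t : Matrix ι ι F) - 1).mulVecLin
  have h3 : ((t : Matrix ι ι F) - 1).rank = finrank F (LinearMap.range ((t : Matrix ι ι F) - 1).mulVecLin) := rfl
  omega

include hi ht in
theorem exists_frame_altQ (hall : ∀ v, polar Q v ((t : Matrix ι ι F) *ᵥ v) = 0) :
    ∃ r, 2 * r = ((t : Matrix ι ι F) - 1).rank ∧ ∃ u : Fin r ⊕ Fin r → (ι → F), FrameQ hQ t (Equiv.sumComm _ _) u := by
  classical
  obtain ⟨U, hU⟩ := Submodule.exists_isCompl (LinearMap.ker ((t : Matrix ι ι F) - 1).mulVecLin)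
  have hAlt : (bilQ hQ t).IsAlt := by
    intro x
    rw [bilQ_self, hall x]
  obtain ⟨r, e, f', h2r, -, -, hef, hee, hff⟩ := FormClass.alt_symplectic hAlt _ U rfl (nondeg_complQ hQ hi ht hU)
  rw [finrank_complQ hU] at h2r
  refine ⟨r, h2r, Sum.elim e f', ?_, ?_⟩
  · rintro (i | i) (j | j)
    · simp [hee]
    · simp [hef]
    · simp only [Sum.elim_inr, Sum.elim_inl, Equiv.sumComm_apply, Sum.swap_inl, Sum.inr.injEq]
      rw [bilQ_symm hQ hi ht, hef]
      by_cases h : i = j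
      · simp [h]
      · simp [h, Ne.symm h]
    · simp [hff]
  · simp only [Fintype.card_sum, Fintype.card_fin]
    omega

include hi ht in
theorem exists_frame_nonaltQ (hex : ∃ v, polar Q v ((t : Matrix ι ι F) *ᵥ v) ≠ 0) (ℓ : ℕ)
    (hℓ : ((t : Matrix ι ι F) - 1).rank = ℓ) :
    ∃ u : Fin ℓ → (ι → F), FrameQ hQ t (1 : Equiv.Perm (Fin ℓ)) u := by
  classical
  subst hℓ
  obtain ⟨U, hU⟩ := Submodule.exists_isCompl (LinearMap.ker ((t : Matrix ι ι F) - 1).mulVecLin)
  obtain ⟨v, hv⟩ := hex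
  obtain ⟨k, hk, y, hy, rfl⟩ := Submodule.mem_sup.1 (show v ∈ LinearMap.ker ((t : Matrix ι ι F) - 1).mulVecLin ⊔ U by
    rw [hU.sup_eq_top]
    trivial)
  have hk' : nnQ t k = 0 := by rw [nnQ_eq]; exact hk
  have hyy : bilQ hQ t y y ≠ 0 := by
    intro h0
    apply hv
    rw [← bilQ_self hQ, bilQ_apply, nnQ_add, hk', zero_add, pol_add_left hQ, ← nnQ_adj hQ hi ht k y, hk', pol_zero_left hQ, zero_add]
    exact h0
  obtain ⟨e, -, he⟩ := OrthoChar2.exists_orthonormal (bilQ_symm hQ hi ht) _ U (finrank_complQ hU) (nondeg_complQ hQ hi ht hU) ⟨y, hy, hyy⟩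
  refine ⟨e, ?_, by simp⟩
  intro i j
  rw [Equiv.Perm.one_apply]
  convert he i j

end Exists

section Main

variable [Fintype F] [CharP F 2] (hQ : IsNondegenerateQuadraticForm Q)

include hQ in
/-- Same rank and same type imply conjugate. -/
theorem conj_of_type {t s : isometryGroup F Q} (ht : t * t = 1) (hs : s * s = 1)
    (hr : (((t : GL ι F) : Matrix ι ι F) - 1).rank = (((s : GL ι F) : Matrix ι ι F) - 1).rank)
    (hty : (∀ v, polar Q v (((t : GL ι F) : Matrix ι ι F) *ᵥ v) = 0) ↔ (∀ v, polar Q v (((s : GL ι F) : Matrix ι ι F) *ᵥ v) = 0)) :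
    IsConj t s := by
  have hit : QIsom Q (t : GL ι F) := mem_isometryGroup_iff.1 t.2
  have his : QIsom Q (s : GL ι F) := mem_isometryGroup_iff.1 s.2
  have ht' : (t : GL ι F) * t = 1 := congrArg Subtype.val ht
  have hs' : (s : GL ι F) * s = 1 := congrArg Subtype.val hs
  by_cases hA : ∀ v, polar Q v (((t : GL ι F) : Matrix ι ι F) *ᵥ v) = 0
  · obtain ⟨r, hr1, u, hu⟩ := exists_frame_altQ hQ hit ht' hA
    obtain ⟨r', hr2, u', hu'⟩ := exists_frame_altQ hQ his hs' (hty.mp hA)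
    have : r = r' := by omega
    subst this
    exact conj_of_framesQ ht hs (fun x => by simp) hu hu'
  · have hB : ¬ ∀ v, polar Q v (((s : GL ι F) : Matrix ι ι F) *ᵥ v) = 0 := fun h => hA (hty.mpr h)
    push Not at hA hB
    obtain ⟨u, hu⟩ := exists_frame_nonaltQ hQ hit ht' hA _ rfl
    obtain ⟨u', hu'⟩ := exists_frame_nonaltQ hQ his hs' hB _ hr.symm
    exact conj_of_framesQ ht hs (fun x => by simp) hu hu'

include hQ in
/-- Conjugacy in the isometry group is conjugacy in the isometries of the polar form. -/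
theorem conj_iff_polar {t s : isometryGroup F Q} (ht : orderOf t = 2) (hs : orderOf s = 2) :
    IsConj t s ↔ ∃ g ∈ Cfsg.preserving (Units.coeHom (Matrix ι ι F)) (fun u v => Q (u + v) - Q u - Q v),
      g * (t : GL ι F) * g⁻¹ = (s : GL ι F) := by
  constructor
  · intro h
    obtain ⟨c, hc⟩ := isConj_iff.mp h
    refine ⟨(c : GL ι F), ?_, congrArg Subtype.val hc⟩
    intro u v
    exact (mem_isometryGroup_iff.1 c.2).pol u v
  · rintro ⟨g, hg, hgts⟩
    have hgp : ∀ u v, polar Q ((g : Matrix ι ι F) *ᵥ u) ((g : Matrix ι ι F) *ᵥ v) = polar Q u v := hg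
    have ht' : t * t = 1 := by
      rw [← pow_two, ← ht]
      exact pow_orderOf_eq_one t
    have hs' : s * s = 1 := by
      rw [← pow_two, ← hs]
      exact pow_orderOf_eq_one s
    have hcm : (g : Matrix ι ι F) * ((t : GL ι F) : Matrix ι ι F) = ((s : GL ι F) : Matrix ι ι F) * (g : Matrix ι ι F) := by
      have h1 : g * (t : GL ι F) = (s : GL ι F) * g := by
        rw [← hgts]
        group
      exact congrArg Units.val h1
    have hcm2 : ((g⁻¹ : GL ι F) : Matrix ι ι F) * ((s : GL ι F) : Matrix ι ι F) = ((t : GL ι F) : Matrix ι ι F) * ((g⁻¹ : GL ι F) : Matrix ι ι F) := by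
      have h1 : g⁻¹ * (s : GL ι F) = (t : GL ι F) * g⁻¹ := by
        rw [← hgts]
        group
      exact congrArg Units.val h1
    have hcc : (g : Matrix ι ι F) * ((g⁻¹ : GL ι F) : Matrix ι ι F) = 1 := congrArg Units.val (mul_inv_cancel g)
    have hcc' : ((g⁻¹ : GL ι F) : Matrix ι ι F) * (g : Matrix ι ι F) = 1 := congrArg Units.val (inv_mul_cancel g)
    apply conj_of_type hQ ht' hs'
    · have e1 : ((s : GL ι F) : Matrix ι ι F) - 1 = (g : Matrix ι ι F) * (((t : GL ι F) : Matrix ι ι F) - 1) * ((g⁻¹ : GL ι F) : Matrix ι ι F) := by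
        rw [mul_sub, sub_mul, mul_one, hcc, hcm, mul_assoc, hcc, mul_one]
      have e2 : ((t : GL ι F) : Matrix ι ι F) - 1 = ((g⁻¹ : GL ι F) : Matrix ι ι F) * (((s : GL ι F) : Matrix ι ι F) - 1) * (g : Matrix ι ι F) := by
        rw [mul_sub, sub_mul, mul_one, hcc', hcm2, mul_assoc, hcc', mul_one]
      apply le_antisymm
      · calc (((t : GL ι F) : Matrix ι ι F) - 1).rank = (((g⁻¹ : GL ι F) : Matrix ι ι F) * (((s : GL ι F) : Matrix ι ι F) - 1) * (g : Matrix ι ι F)).rank := by rw [← e2]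
          _ ≤ (((g⁻¹ : GL ι F) : Matrix ι ι F) * (((s : GL ι F) : Matrix ι ι F) - 1)).rank := Matrix.rank_mul_le_left _ _
          _ ≤ _ := Matrix.rank_mul_le_right _ _
      · calc (((s : GL ι F) : Matrix ι ι F) - 1).rank = ((g : Matrix ι ι F) * (((t : GL ι F) : Matrix ι ι F) - 1) * ((g⁻¹ : GL ι F) : Matrix ι ι F)).rank := by rw [← e1]
          _ ≤ ((g : Matrix ι ι F) * (((t : GL ι F) : Matrix ι ι F) - 1)).rank := Matrix.rank_mul_le_left _ _
          _ ≤ _ := Matrix.rank_mul_le_right _ _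
    · constructor
      · intro h v
        have h1 := h (((g⁻¹ : GL ι F) : Matrix ι ι F) *ᵥ v)
        have e1 : (g : Matrix ι ι F) *ᵥ (((g⁻¹ : GL ι F) : Matrix ι ι F) *ᵥ v) = v := by
          rw [Matrix.mulVec_mulVec, hcc, Matrix.one_mulVec]
        have e2 : (g : Matrix ι ι F) *ᵥ (((t : GL ι F) : Matrix ι ι F) *ᵥ (((g⁻¹ : GL ι F) : Matrix ι ι F) *ᵥ v)) = ((s : GL ι F) : Matrix ι ι F) *ᵥ v := by
          rw [Matrix.mulVec_mulVec, hcm, ← Matrix.mulVec_mulVec, e1]
        rw [← hgp, e1, e2] at h1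
        exact h1
      · intro h v
        have h1 := h ((g : Matrix ι ι F) *ᵥ v)
        rw [Matrix.mulVec_mulVec, ← hcm, ← Matrix.mulVec_mulVec, hgp] at h1
        exact h1

end Main

end Cfsg.Agent.Lib.InvolQ
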