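import Cfsg.Agent.Lib.OrthFam
import Cfsg.Agent.Lib.Aniso
import Cfsg.Agent.Lib.Spinor2
import Cfsg.Agent.S0290

/-! Orders of the orthogonal groups of minus type. -/

set_option autoImplicit false
set_option linter.unusedSectionVars false
set_option linter.unusedVariables false

namespace Cfsg.Agent.Lib.OrthMinus

open Cfsg Cfsg.Geo Cfsg.Agent.Lib.IsomChain Cfsg.Agent.Lib.OrthChain Cfsg.Agent.Lib.OrthFam
open scoped Matrix
open QuadraticMap (polar)

variable {F : Type*} [Field F] [Fintype F]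

theorem disc_ne (a b : F)
    (hab : ∀ z₁ z₂ : F, z₁ ^ 2 + a * z₁ * z₂ + b * z₂ ^ 2 = 0 → z₁ = 0 ∧ z₂ = 0) :
    a ^ 2 - 4 * b ≠ 0 := by
  classical
  by_cases h2 : (2 : F) = 0
  · have h4 : (4 : F) = 0 := by
      have : (4 : F) = 2 * 2 := by norm_num
      rw [this, h2, zero_mul]
    rw [h4, zero_mul, sub_zero]
    intro h
    have ha : a = 0 := by simpa using h
    subst ha
    have hchar : ringChar F = 2 := CharP.ringChar_of_prime_eq_zero Nat.prime_two (by exact_mod_cast h2)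
    obtain ⟨s, hs⟩ := FiniteField.isSquare_of_char_two hchar b
    have := hab s 1 (by
      rw [hs]
      linear_combination (s * s) * h2)
    exact one_ne_zero this.2
  · exact Spinor2.aniso_disc_ne a b h2 hab

theorem minus_nondeg (k : ℕ) (a b : F)
    (hab : ∀ z₁ z₂ : F, z₁ ^ 2 + a * z₁ * z₂ + b * z₂ ^ 2 = 0 → z₁ = 0 ∧ z₂ = 0) :
    IsNondegenerateQuadraticForm (quadFormMinus k F a b) := by
  classical
  have hD := disc_ne a b hab
  refine ⟨fun c v => ?_, ⟨fun x y v => ?_, fun c x v => ?_, fun v x y => ?_, fun c v x => ?_⟩, fun v hv => ?_⟩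
  · simp only [quadFormMinus, Pi.smul_apply, smul_eq_mul]
    rw [mul_add, Finset.mul_sum]
    congr 1
    · exact Finset.sum_congr rfl fun i _ => by ring
    · ring
  · simp only [Spinor2.quadFormMinus_polar, Pi.add_apply]
    have : ∑ i : Fin k, ((x (.inl (.inl i)) + y (.inl (.inl i))) * v (.inl (.inr i)) + v (.inl (.inl i)) * (x (.inl (.inr i)) + y (.inl (.inr i)))) =
        ∑ i : Fin k, (x (.inl (.inl i)) * v (.inl (.inr i)) + v (.inl (.inl i)) * x (.inl (.inr i))) + ∑ i : Fin k, (y (.inl (.inl i)) * v (.inl (.inr i)) + v (.inl (.inl i)) * y (.inl (.inr i))) := by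
      rw [← Finset.sum_add_distrib]
      exact Finset.sum_congr rfl fun i _ => by ring
    rw [this]
    ring
  · simp only [Spinor2.quadFormMinus_polar, Pi.smul_apply, smul_eq_mul]
    have : ∑ i : Fin k, (c * x (.inl (.inl i)) * v (.inl (.inr i)) + v (.inl (.inl i)) * (c * x (.inl (.inr i)))) =
        c * ∑ i : Fin k, (x (.inl (.inl i)) * v (.inl (.inr i)) + v (.inl (.inl i)) * x (.inl (.inr i))) := by
      rw [Finset.mul_sum]
      exact Finset.sum_congr rfl fun i _ => by ring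
    rw [this]
    ring
  · simp only [Spinor2.quadFormMinus_polar, Pi.add_apply]
    have : ∑ i : Fin k, (v (.inl (.inl i)) * (x (.inl (.inr i)) + y (.inl (.inr i))) + (x (.inl (.inl i)) + y (.inl (.inl i))) * v (.inl (.inr i))) =
        ∑ i : Fin k, (v (.inl (.inl i)) * x (.inl (.inr i)) + x (.inl (.inl i)) * v (.inl (.inr i))) + ∑ i : Fin k, (v (.inl (.inl i)) * y (.inl (.inr i)) + y (.inl (.inl i)) * v (.inl (.inr i))) := by
      rw [← Finset.sum_add_distrib]
      exact Finset.sum_congr rfl fun i _ => by ring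
    rw [this]
    ring
  · simp only [Spinor2.quadFormMinus_polar, Pi.smul_apply, smul_eq_mul]
    have : ∑ i : Fin k, (v (.inl (.inl i)) * (c * x (.inl (.inr i))) + c * x (.inl (.inl i)) * v (.inl (.inr i))) =
        c * ∑ i : Fin k, (v (.inl (.inl i)) * x (.inl (.inr i)) + x (.inl (.inl i)) * v (.inl (.inr i))) := by
      rw [Finset.mul_sum]
      exact Finset.sum_congr rfl fun i _ => by ring
    rw [this]
    ring
  · -- non-degeneracy
    have hleft : ∃ x, polar (quadFormMinus k F a b) x v ≠ 0 := by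
      obtain ⟨j, hj⟩ := Function.ne_iff.1 hv
      have hj' : v j ≠ 0 := hj
      rcases j with (i | i) | i
      · refine ⟨Pi.single (.inl (.inr i)) 1, ?_⟩
        rw [Spinor2.quadFormMinus_polar, Finset.sum_eq_single i]
        · simpa using hj'
        · intro l _ hl
          simp [Pi.single_apply, hl]
        · simp
      · refine ⟨Pi.single (.inl (.inl i)) 1, ?_⟩
        rw [Spinor2.quadFormMinus_polar, Finset.sum_eq_single i]
        · simpa using hj'
        · intro l _ hl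
          simp [Pi.single_apply, hl]
        · simp
      · by_contra hcon
        push Not at hcon
        have h3 := hcon (Pi.single (.inr 0) 1)
        have h4 := hcon (Pi.single (.inr 1) 1)
        rw [Spinor2.quadFormMinus_polar, Finset.sum_eq_zero (by intro l _; simp)] at h3 h4
        simp [Pi.single_apply] at h3 h4
        have h5 : (a ^ 2 - 4 * b) * v (.inr 1) = 0 := by
          linear_combination a * h3 - 2 * h4
        have h6 : v (.inr 1) = 0 := (mul_eq_zero.1 h5).resolve_left hD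
        have h5' : (a ^ 2 - 4 * b) * v (.inr 0) = 0 := by
          linear_combination a * h4 - 2 * b * h3
        have h7 : v (.inr 0) = 0 := (mul_eq_zero.1 h5').resolve_left hD
        fin_cases i
        · exact hj' h7
        · exact hj' h6
    obtain ⟨x, hx⟩ := hleft
    exact ⟨⟨x, hx⟩, ⟨x, by rwa [QuadraticMap.polar_comm]⟩⟩

/-- The splitting of `F^(2k+4)`. -/
def eMin (F : Type*) [Field F] (k : ℕ) :
    ((Fin (k + 1) ⊕ Fin (k + 1)) ⊕ Fin 2 → F) ≃ₗ[F] (F × F) × ((Fin k ⊕ Fin k) ⊕ Fin 2 → F) where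
  toFun v := ((v (.inl (.inl 0)), v (.inl (.inr 0))), fun s ↦ v (Sum.map (Sum.map Fin.succ Fin.succ) id s))
  invFun p := Sum.elim (Sum.elim (Fin.cons p.1.1 (fun i ↦ p.2 (.inl (.inl i)))) (Fin.cons p.1.2 (fun i ↦ p.2 (.inl (.inr i))))) (fun i ↦ p.2 (.inr i))
  map_add' x y := rfl
  map_smul' c x := rfl
  left_inv v := by
    funext s
    rcases s with (s | s) | s
    · refine Fin.cases ?_ (fun i ↦ ?_) s <;> rfl
    · refine Fin.cases ?_ (fun i ↦ ?_) s <;> rfl
    · rfl
  right_inv p := by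
    rcases p with ⟨⟨a, b⟩, w⟩
    simp only [Sum.elim_inr, Sum.elim_inl, Fin.cons_zero]
    congr 1
    funext s
    rcases s with (s | s) | s <;> simp

theorem minus_split (k : ℕ) (a b : F) (x : (Fin (k + 1) ⊕ Fin (k + 1)) ⊕ Fin 2 → F) :
    quadFormMinus (k + 1) F a b x = (eMin F k x).1.1 * (eMin F k x).1.2 + quadFormMinus k F a b (eMin F k x).2 := by
  rw [quadFormMinus, quadFormMinus, Fin.sum_univ_succ]
  change _ = x (.inl (.inl 0)) * x (.inl (.inr 0)) + ((∑ i : Fin k, x (.inl (.inl i.succ)) * x (.inl (.inr i.succ))) +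
    (x (.inr 0) ^ 2 + a * x (.inr 0) * x (.inr 1) + b * x (.inr 1) ^ 2))
  ring

theorem quadFormMinus_zero (k : ℕ) (a b : F) : quadFormMinus k F a b 0 = 0 := by
  simp [quadFormMinus]

theorem card_hyp_minus {q : ℕ} (hF : Fintype.card F = q) (k : ℕ) (a b : F)
    (hab : ∀ z₁ z₂ : F, z₁ ^ 2 + a * z₁ * z₂ + b * z₂ ^ 2 = 0 → z₁ = 0 ∧ z₂ = 0) :
    Nat.card (Hyp (quadFormMinus (k + 1) F a b)) = (q ^ (k + 2) + 1) * (q ^ (k + 1) - 1) * q ^ (2 * k + 2) := by
  have hq : 0 < q := by rw [← hF]; exact Fintype.card_pos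
  have h1 := card_hyp (F := F) (minus_nondeg (k + 1) a b hab)
  have h2 := Cfsg.Agent.S0290.result hF (k + 2) (by omega) a b hab
  have e0 : k + 2 - 1 = k + 1 := by omega
  rw [e0] at h2
  rw [h2, hF] at h1
  have h3 : Nat.card ((Fin (k + 1) ⊕ Fin (k + 1)) ⊕ Fin 2 → F) = q ^ (2 * k + 4) := by
    simp [Nat.card_eq_fintype_card, hF]
    congr 1
    ring
  rw [h3] at h1
  have h5 : 1 ≤ q ^ (k + 1) := Nat.one_le_pow _ _ hq
  have h6 : q ^ (k + 2) ≤ q ^ (2 * (k + 2) - 1) := Nat.pow_le_pow_right hq (by omega)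
  have h7 : q ^ (2 * (k + 2) - 1) + q ^ (k + 1) - q ^ (k + 2) - 1 = (q ^ (k + 2) + 1) * (q ^ (k + 1) - 1) := by
    have e1 : 2 * (k + 2) - 1 = 2 * k + 3 := by omega
    rw [e1] at h6 ⊢
    have e2 : q ^ (k + 2) ≤ q ^ (2 * k + 3) + q ^ (k + 1) := by omega
    have e3 : 1 ≤ q ^ (2 * k + 3) + q ^ (k + 1) - q ^ (k + 2) := by omega
    zify [e2, e3, h5]
    ring
  rw [h7] at h1
  have hq2 : 0 < q ^ 2 := by positivity
  apply Nat.eq_of_mul_eq_mul_left hq2
  rw [h1]
  ring

theorem card_isom_minus {q : ℕ} (hF : Fintype.card F = q) (k : ℕ) (a b : F)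
    (hab : ∀ z₁ z₂ : F, z₁ ^ 2 + a * z₁ * z₂ + b * z₂ ^ 2 = 0 → z₁ = 0 ∧ z₂ = 0) :
    Nat.card (Isom (TQ (quadFormMinus k F a b))) =
      2 * q ^ ((k + 1) * k) * (q ^ (k + 1) + 1) * ∏ i ∈ Finset.range k, (q ^ (2 * (i + 1)) - 1) := by
  have hq : 0 < q := by rw [← hF]; exact Fintype.card_pos
  induction k with
  | zero =>
    rw [← card_isometryGroup, Aniso.card_isom_zero hF hab]
    simp
  | succ k ih =>
    rw [card_chain_orth (minus_nondeg (k + 1) a b hab) (quadFormMinus_zero k a b) (eMin F k) (minus_split k a b),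
      card_hyp_minus hF k a b hab, ih, Finset.prod_range_succ]
    have h1 : 1 ≤ q ^ (k + 1) := Nat.one_le_pow _ _ hq
    have h2 : (q ^ (k + 1) + 1) * (q ^ (k + 1) - 1) = q ^ (2 * (k + 1)) - 1 := by
      have h3 : 1 ≤ q ^ (2 * (k + 1)) := Nat.one_le_pow _ _ hq
      zify [h1, h3]
      ring
    have e1 : q ^ ((k + 1 + 1) * (k + 1)) = q ^ (2 * k + 2) * q ^ ((k + 1) * k) := by
      rw [← pow_add]
      congr 1
      ring
    rw [e1, ← h2]
    generalize (q ^ (k + 1) - 1) = B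
    ring

/-- Order of `GO⁻_{2m}`. -/
theorem card_minus {q : ℕ} (hF : Fintype.card F = q) (m : ℕ) (hm : 1 ≤ m) (a b : F)
    (hab : ∀ z₁ z₂ : F, z₁ ^ 2 + a * z₁ * z₂ + b * z₂ ^ 2 = 0 → z₁ = 0 ∧ z₂ = 0) :
    Nat.card (isometryGroup F (quadFormMinus (m - 1) F a b)) =
      2 * q ^ (m * (m - 1)) * (q ^ m + 1) * ∏ i ∈ Finset.range (m - 1), (q ^ (2 * (i + 1)) - 1) := by
  obtain ⟨k, rfl⟩ : ∃ k, m = k + 1 := ⟨m - 1, by omega⟩
  change Nat.card (isometryGroup F (quadFormMinus k F a b)) =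
    2 * q ^ ((k + 1) * k) * (q ^ (k + 1) + 1) * ∏ i ∈ Finset.range k, (q ^ (2 * (i + 1)) - 1)
  rw [card_isometryGroup, card_isom_minus hF k a b hab]

end Cfsg.Agent.Lib.OrthMinus
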