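/-
Involutions of orthogonal groups in characteristic two: passage to the commutator subgroup.
-/
import Mathlib
import Cfsg.Agent.Lib.InvolQ
import Cfsg.Agent.Lib.OrthMinus

set_option autoImplicit false
set_option linter.all false

namespace Cfsg.Agent.Lib.InvolQO

open scoped MatrixGroups Matrix
open Module Cfsg Cfsg.Geo Cfsg.Agent.Lib
open Cfsg.Agent.Lib.Transvection Cfsg.Agent.Lib.LinAlgAux Cfsg.Agent.Lib.QuadBase
  Cfsg.Agent.Lib.QuadSiegel Cfsg.Agent.Lib.QuadStab Cfsg.Agent.Lib.QuadRefl Cfsg.Agent.Lib.QuadFamily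
  Cfsg.Agent.Lib.Spinor Cfsg.Agent.Lib.Dickson Cfsg.Agent.Lib.QuadClass Cfsg.Agent.Lib.InvolQ
open QuadraticMap (polar)

section General

variable {ι : Type} [Fintype ι] [DecidableEq ι] {F : Type*} [Field F] [Fintype F] [CharP F 2] {Q : (ι → F) → F}
  (hQ : IsNondegenerateQuadraticForm Q)

include hQ in
/-- A nonsingular fixed vector gives a commuting reflection: `O`-conjugate implies `Ω`-conjugate. -/
theorem conj_omega_of_fix [DecidableEq F] (hn : 1 ≤ Fintype.card ι) (h : Fintype.card F ≠ 2 ∨ Fintype.card ι ≠ 4)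
    {t s : isometryGroup F Q} (hconj : IsConj t s) {v : ι → F} (hv : Q v ≠ 0)
    (hfix : (((t : GL ι F)) : Matrix ι ι F) *ᵥ v = v) :
    ∃ g ∈ Omega F Q, g * t * g⁻¹ = s := by
  obtain ⟨g₀, hg₀⟩ := isConj_iff.mp hconj
  have hcomm := comm_eq_dickson_fun hQ hn h
  rcases Int.units_eq_one_or (dickson hQ h g₀) with hd | hd
  · refine ⟨g₀, ?_, hg₀⟩
    rw [Cfsg.Omega, hcomm, MonoidHom.mem_ker]
    exact hd
  · refine ⟨g₀ * rfO hQ v, ?_, ?_⟩
    · rw [Cfsg.Omega, hcomm, MonoidHom.mem_ker, map_mul, hd, dickson_rf hQ h hv]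
      decide
    · have h1 : t * rfO hQ v * t⁻¹ = rfO hQ v := by
        apply Subtype.ext
        change (t : GL ι F) * rf hQ v * (t : GL ι F)⁻¹ = rf hQ v
        rw [conj_rf hQ (mem_isometryGroup_iff.1 t.2), hfix]
      have h2 : rfO hQ v * t = t * rfO hQ v := by
        rw [mul_inv_eq_iff_eq_mul] at h1
        exact h1.symm
      calc g₀ * rfO hQ v * t * (g₀ * rfO hQ v)⁻¹
          = g₀ * (rfO hQ v * t) * (rfO hQ v)⁻¹ * g₀⁻¹ := by group
        _ = g₀ * t * g₀⁻¹ := by rw [h2]; group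
        _ = s := hg₀

omit [Fintype F] in
theorem range_le_ker {t : GL ι F} (ht : t * t = 1) :
    LinearMap.range ((t : Matrix ι ι F) - 1).mulVecLin ≤ LinearMap.ker ((t : Matrix ι ι F) - 1).mulVecLin := by
  rintro _ ⟨v, rfl⟩
  show ((t : Matrix ι ι F) - 1) *ᵥ (((t : Matrix ι ι F) - 1).mulVecLin v) = 0
  rw [Matrix.mulVecLin_apply, ← nnQ_eq, ← nnQ_eq]
  exact nnQ_nn ht v

include hQ in
/-- If the fixed space is totally singular then it has half the dimension, and it is the image of `t - 1`. -/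
theorem fix_singular {t : GL ι F} (ht : t * t = 1)
    (hs : ∀ v, (t : Matrix ι ι F) *ᵥ v = v → Q v = 0) :
    2 * ((t : Matrix ι ι F) - 1).rank = Fintype.card ι ∧
      LinearMap.range ((t : Matrix ι ι F) - 1).mulVecLin = LinearMap.ker ((t : Matrix ι ι F) - 1).mulVecLin := by
  set K := LinearMap.ker ((t : Matrix ι ι F) - 1).mulVecLin with hK
  have hv2 : ∀ a b : ι → F, a + b = 0 ↔ a = b := by
    intro a b
    constructor
    · intro h
      funext i
      exact CharTwo.add_eq_zero.mp (congrFun h i)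
    · rintro rfl
      funext i
      exact CharTwo.add_self_eq_zero _
  have hmem : ∀ x, x ∈ K ↔ (t : Matrix ι ι F) *ᵥ x = x := by
    intro x
    rw [hK, LinearMap.mem_ker, Matrix.mulVecLin_apply, ← nnQ_eq, nnQ]
    exact hv2 _ _
  have h1 : K ≤ orthQ hQ K := by
    intro x hx
    rw [mem_orthQ]
    intro y hy
    have h2 : polar Q x y = Q (x + y) - Q x - Q y := rfl
    rw [h2, hs _ ((hmem _).mp (K.add_mem hx hy)), hs _ ((hmem _).mp hx), hs _ ((hmem _).mp hy)]
    simp
  have h2 := finrank_orthQ hQ K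
  have h3 := Submodule.finrank_mono h1
  have h4 : finrank F (LinearMap.range ((t : Matrix ι ι F) - 1).mulVecLin) ≤ finrank F K := Submodule.finrank_mono (range_le_ker ht)
  have h5 : finrank F (LinearMap.range ((t : Matrix ι ι F) - 1).mulVecLin) + finrank F K = Fintype.card ι := by
    rw [LinearMap.finrank_range_add_finrank_ker]
    exact Module.finrank_fintype_fun_eq_card F
  have h6 : ((t : Matrix ι ι F) - 1).rank = finrank F (LinearMap.range ((t : Matrix ι ι F) - 1).mulVecLin) := rfl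
  refine ⟨by omega, ?_⟩
  apply Submodule.eq_of_le_of_finrank_eq (range_le_ker ht)
  show finrank F (LinearMap.range ((t : Matrix ι ι F) - 1).mulVecLin) = finrank F K
  omega

include hQ in
/-- Dichotomy for an involution. -/
theorem fix_or_ts {t : isometryGroup F Q} (ht : orderOf t = 2) :
    (∃ v, ((t : GL ι F) : Matrix ι ι F) *ᵥ v = v ∧ Q v ≠ 0) ∨
    (∃ K : Submodule F (ι → F), (∀ x ∈ K, Q x = 0) ∧ finrank F K = (((t : GL ι F) : Matrix ι ι F) - 1).rank ∧
      2 * (((t : GL ι F) : Matrix ι ι F) - 1).rank = Fintype.card ι ∧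
      ∀ v, Q (v + ((t : GL ι F) : Matrix ι ι F) *ᵥ v) = 0) := by
  have ht1 : t * t = 1 := by
    have := pow_orderOf_eq_one t
    rwa [ht, pow_two] at this
  have ht' : (t : GL ι F) * t = 1 := congrArg Subtype.val ht1
  by_cases hv : ∃ v, ((t : GL ι F) : Matrix ι ι F) *ᵥ v = v ∧ Q v ≠ 0
  · exact Or.inl hv
  · right
    push Not at hv
    obtain ⟨h1, h2⟩ := fix_singular hQ ht' hv
    have hk : ∀ x ∈ LinearMap.ker (((t : GL ι F) : Matrix ι ι F) - 1).mulVecLin, ((t : GL ι F) : Matrix ι ι F) *ᵥ x = x := by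
      intro x hx
      have h4 : nnQ (t : GL ι F) x = 0 := by
        rw [nnQ_eq]
        exact hx
      funext i
      exact CharTwo.add_eq_zero.mp (congrFun h4 i)
    refine ⟨LinearMap.ker (((t : GL ι F) : Matrix ι ι F) - 1).mulVecLin, fun x hx => hv x (hk x hx), ?_, h1, ?_⟩
    · rw [← h2]
      rfl
    · intro v
      apply hv
      apply hk
      rw [← h2]
      refine ⟨v, ?_⟩
      rw [Matrix.mulVecLin_apply, ← nnQ_eq, nnQ, add_comm]

include hQ in
/-- The case of maximal rank: the parity of the intersection of the images decides. -/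
theorem eps_part [DecidableEq F] (hn : 1 ≤ Fintype.card ι) (h : Fintype.card F ≠ 2 ∨ Fintype.card ι ≠ 4)
    {t s : isometryGroup F Q} (hconj : IsConj t s)
    (hrk : 2 * (((t : GL ι F) : Matrix ι ι F) - 1).rank = Fintype.card ι)
    (hsing : ∀ v, Q (v + ((t : GL ι F) : Matrix ι ι F) *ᵥ v) = 0)
    (heven : Even (((t : GL ι F) : Matrix ι ι F) - 1).rank) :
    (∃ g ∈ Omega F Q, g * t * g⁻¹ = s) ↔
      Even (finrank F ↥(LinearMap.range (Matrix.toLin' (((t : GL ι F) : Matrix ι ι F) - 1)) ⊓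
        LinearMap.range (Matrix.toLin' (((s : GL ι F) : Matrix ι ι F) - 1)))) := by
  set W := LinearMap.range (Matrix.toLin' (((t : GL ι F) : Matrix ι ι F) - 1)) with hW
  set W' := LinearMap.range (Matrix.toLin' (((s : GL ι F) : Matrix ι ι F) - 1)) with hW'
  have hfW : finrank F W = (((t : GL ι F) : Matrix ι ι F) - 1).rank := by
    rw [hW, Matrix.toLin'_apply']
    rfl
  have hT : MaxTS Q W := by
    refine ⟨?_, by rw [hfW]; exact hrk⟩
    rintro _ ⟨v, rfl⟩
    rw [Matrix.toLin'_apply, ← nnQ_eq, nnQ, add_comm]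
    exact hsing v
  have hmap : ∀ g : isometryGroup F Q, g * t * g⁻¹ = s → W.map (glLin (g : GL ι F)) = W' := by
    intro g hg
    have hcm : ((g : GL ι F) : Matrix ι ι F) * (((t : GL ι F) : Matrix ι ι F) - 1) = (((s : GL ι F) : Matrix ι ι F) - 1) * ((g : GL ι F) : Matrix ι ι F) := by
      have h1 : g * t = s * g := by
        rw [← hg]
        group
      have h2 : ((g : GL ι F) : Matrix ι ι F) * ((t : GL ι F) : Matrix ι ι F) = ((s : GL ι F) : Matrix ι ι F) * ((g : GL ι F) : Matrix ι ι F) :=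
        congrArg (fun x : isometryGroup F Q => ((x : GL ι F) : Matrix ι ι F)) h1
      rw [mul_sub, sub_mul, mul_one, one_mul, h2]
    ext y
    simp only [Submodule.mem_map, glLin_apply]
    constructor
    · rintro ⟨x, ⟨v, rfl⟩, rfl⟩
      refine ⟨((g : GL ι F) : Matrix ι ι F) *ᵥ v, ?_⟩
      rw [Matrix.toLin'_apply, Matrix.toLin'_apply, Matrix.mulVec_mulVec, Matrix.mulVec_mulVec, hcm]
    · rintro ⟨u, rfl⟩
      refine ⟨Matrix.toLin' (((t : GL ι F) : Matrix ι ι F) - 1) (((g⁻¹ : GL ι F) : Matrix ι ι F) *ᵥ u), ⟨_, rfl⟩, ?_⟩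
      rw [Matrix.toLin'_apply, Matrix.toLin'_apply, Matrix.mulVec_mulVec, hcm, ← Matrix.mulVec_mulVec]
      congr 1
      rw [Matrix.mulVec_mulVec]
      have h3 : ((g : GL ι F) : Matrix ι ι F) * ((g⁻¹ : GL ι F) : Matrix ι ι F) = 1 := congrArg Units.val (mul_inv_cancel (g : GL ι F))
      rw [h3, Matrix.one_mulVec]
  have hcomm := comm_eq_dickson_fun hQ hn h
  have hkey : ∀ g : isometryGroup F Q, g * t * g⁻¹ = s → (dickson hQ h g = 1 ↔ Even (finrank F ↥(W ⊓ W'))) := by
    intro g hg
    rw [← eps_iff_dickson hQ h hT g]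
    unfold eps
    rw [hmap g hg, ZMod.natCast_eq_zero_iff, ← even_iff_two_dvd, hfW, Nat.even_add]
    simp only [heven, true_iff]
  constructor
  · rintro ⟨g, hg, hgt⟩
    rw [Cfsg.Omega, hcomm, MonoidHom.mem_ker] at hg
    exact (hkey g hgt).mp hg
  · intro he
    obtain ⟨g₀, hg₀⟩ := isConj_iff.mp hconj
    refine ⟨g₀, ?_, hg₀⟩
    rw [Cfsg.Omega, hcomm, MonoidHom.mem_ker]
    exact (hkey g₀ hg₀).mpr he

end General

section Minus

variable {F : Type*} [Field F]

/-- The projection to a smaller form. -/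
noncomputable def piMin (k : ℕ) : ((Fin (k + 1) ⊕ Fin (k + 1)) ⊕ Fin 2 → F) →ₗ[F] ((Fin k ⊕ Fin k) ⊕ Fin 2 → F) :=
  LinearMap.funLeft F F (Sum.elim (Sum.elim (fun i => Sum.inl (Sum.inl i.succ)) (fun i => Sum.inl (Sum.inr i.succ))) Sum.inr)

theorem piMin_apply (k : ℕ) (x : (Fin (k + 1) ⊕ Fin (k + 1)) ⊕ Fin 2 → F) (j) :
    piMin k x j = x (Sum.elim (Sum.elim (fun i => Sum.inl (Sum.inl i.succ)) (fun i => Sum.inl (Sum.inr i.succ))) Sum.inr j) := rfl

theorem minus_decomp (k : ℕ) (a b : F) (x : (Fin (k + 1) ⊕ Fin (k + 1)) ⊕ Fin 2 → F) :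
    quadFormMinus (k + 1) F a b x = x (.inl (.inl 0)) * x (.inl (.inr 0)) + quadFormMinus k F a b (piMin k x) := by
  rw [quadFormMinus, quadFormMinus, Fin.sum_univ_succ]
  change _ = x (.inl (.inl 0)) * x (.inl (.inr 0)) + ((∑ i : Fin k, x (.inl (.inl i.succ)) * x (.inl (.inr i.succ))) +
    (x (.inr 0) ^ 2 + a * x (.inr 0) * x (.inr 1) + b * x (.inr 1) ^ 2))
  ring

theorem finrank_map_add {V W : Type*} [AddCommGroup V] [Module F V] [FiniteDimensional F V] [AddCommGroup W]
    [Module F W] [FiniteDimensional F W] (π : V →ₗ[F] W) (φ : V →ₗ[F] F) (K : Submodule F V)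
    (hk : ∀ x ∈ K, π x = 0 → φ x = 0 → x = 0) :
    finrank F K ≤ finrank F ((K ⊓ LinearMap.ker φ).map π : Submodule F W) + 1 := by
  have h1 : finrank F (K ⊓ LinearMap.ker φ : Submodule F V) = finrank F ((K ⊓ LinearMap.ker φ).map π : Submodule F W) := by
    rw [← LinearMap.range_domRestrict]
    symm
    apply LinearMap.finrank_range_of_inj
    rw [← LinearMap.ker_eq_bot, LinearMap.ker_eq_bot']
    rintro ⟨x, hx⟩ h0
    apply Subtype.ext
    exact hk x hx.1 h0 hx.2
  have h2 : finrank F K ≤ finrank F (K ⊓ LinearMap.ker φ : Submodule F V) + 1 := by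
    by_cases h : ∃ y ∈ K, φ y ≠ 0
    · obtain ⟨y, hy, hφ⟩ := h
      exact (FormClass.finrank_inf_ker hy hφ).ge
    · push Not at h
      have h3 : K ⊓ LinearMap.ker φ = K := inf_eq_left.mpr (fun y hy => h y hy)
      rw [h3]
      omega
  omega

/-- Totally singular subspaces of the minus form have dimension at most the Witt index. -/
theorem ts_le (a b : F) (hab : ∀ z₁ z₂ : F, z₁ ^ 2 + a * z₁ * z₂ + b * z₂ ^ 2 = 0 → z₁ = 0 ∧ z₂ = 0) :
    ∀ (k : ℕ) (K : Submodule F ((Fin k ⊕ Fin k) ⊕ Fin 2 → F)), (∀ x ∈ K, quadFormMinus k F a b x = 0) → finrank F K ≤ k := by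
  classical
  intro k
  induction k with
  | zero =>
    intro K hK
    have h0 : K = ⊥ := by
      rw [eq_bot_iff]
      intro x hx
      have h1 := hK x hx
      simp only [quadFormMinus, Finset.univ_eq_empty, Finset.sum_empty, zero_add] at h1
      obtain ⟨h2, h3⟩ := hab _ _ h1
      rw [Submodule.mem_bot]
      funext j
      rcases j with (i | i) | i
      · exact i.elim0
      · exact i.elim0
      · fin_cases i
        · exact h2
        · exact h3
    rw [h0]
    simp
  | succ k ih =>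
    intro K hK
    let e : (Fin (k + 1) ⊕ Fin (k + 1)) ⊕ Fin 2 → F := Pi.single (Sum.inl (Sum.inl 0)) 1
    let y : ((Fin (k + 1) ⊕ Fin (k + 1)) ⊕ Fin 2 → F) →ₗ[F] F := LinearMap.proj (Sum.inl (Sum.inr 0))
    let x₁ : ((Fin (k + 1) ⊕ Fin (k + 1)) ⊕ Fin 2 → F) →ₗ[F] F := LinearMap.proj (Sum.inl (Sum.inl 0))
    have hzero : ∀ x, piMin k x = 0 → y x = 0 → x = x₁ x • e := by
      intro x h1 h2
      funext j
      have h3 := congrFun h1
      rcases j with (i | i) | i
      · refine Fin.cases ?_ (fun i => ?_) i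
        · simp [e, x₁]
        · have h4 := h3 (Sum.inl (Sum.inl i))
          rw [piMin_apply] at h4
          simp only [Sum.elim_inl, Pi.zero_apply] at h4
          simp [e, h4]
      · refine Fin.cases ?_ (fun i => ?_) i
        · have h4 : x (Sum.inl (Sum.inr 0)) = 0 := h2
          simp [e, h4]
        · have h4 := h3 (Sum.inl (Sum.inr i))
          rw [piMin_apply] at h4
          simp only [Sum.elim_inl, Sum.elim_inr, Pi.zero_apply] at h4
          simp [e, h4]
      · have h4 := h3 (Sum.inr i)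
        rw [piMin_apply] at h4
        simp only [Sum.elim_inr, Pi.zero_apply] at h4
        simp [e, h4]
    have hts : ∀ φ : ((Fin (k + 1) ⊕ Fin (k + 1)) ⊕ Fin 2 → F) →ₗ[F] F, (∀ x, φ x = 0 → x (Sum.inl (Sum.inl 0)) * x (Sum.inl (Sum.inr 0)) = 0) →
        (∀ x ∈ K, piMin k x = 0 → φ x = 0 → x = 0) → finrank F K ≤ k + 1 := by
      intro φ hφ hk
      have h1 := finrank_map_add (piMin k) φ K hk
      have h2 := ih ((K ⊓ LinearMap.ker φ).map (piMin k)) (by
        rintro _ ⟨x, hx, rfl⟩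
        have h3 := hK x hx.1
        rw [minus_decomp, hφ x hx.2, zero_add] at h3
        exact h3)
      omega
    by_cases he : e ∈ K
    · have hy : ∀ x ∈ K, y x = 0 := by
        intro x hx
        have h1 := hK x hx
        have h2 := hK (x + e) (K.add_mem hx he)
        rw [minus_decomp] at h1 h2
        have h3 : piMin k (x + e) = piMin k x := by
          rw [map_add]
          have h4 : piMin k e = 0 := by
            funext j
            rw [piMin_apply]
            rcases j with (i | i) | i <;> simp [e]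
          rw [h4, add_zero]
        rw [h3] at h2
        have h5 : (x + e) (Sum.inl (Sum.inl 0)) = x (Sum.inl (Sum.inl 0)) + 1 := by
          simp [e]
        have h6 : (x + e) (Sum.inl (Sum.inr 0)) = x (Sum.inl (Sum.inr 0)) := by
          simp [e]
        rw [h5, h6] at h2
        show x (Sum.inl (Sum.inr 0)) = 0
        linear_combination h2 - h1
      apply hts x₁
      · intro x hx
        have : x (Sum.inl (Sum.inl 0)) = 0 := hx
        rw [this, zero_mul]
      · intro x hx h1 h2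
        rw [hzero x h1 (hy x hx), h2, zero_smul]
    · apply hts y
      · intro x hx
        have : x (Sum.inl (Sum.inr 0)) = 0 := hx
        rw [this, mul_zero]
      · intro x hx h1 h2
        by_contra hne
        apply he
        have h3 := hzero x h1 h2
        have h4 : x₁ x ≠ 0 := by
          intro h5
          rw [h5, zero_smul] at h3
          exact hne h3
        have h5 : e = (x₁ x)⁻¹ • x := by
          rw [eq_inv_smul_iff₀ h4]
          exact h3.symm
        rw [h5]
        exact K.smul_mem _ hx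

end Minus

end Cfsg.Agent.Lib.InvolQO
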