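/-
Involutions of the symplectic group in characteristic two: frames and conjugacy.
-/
import Mathlib
import Cfsg.Agent.Lib.OrthoChar2
import Cfsg.Agent.Lib.SpParab

set_option autoImplicit false
set_option linter.all false

namespace Cfsg.Agent.Lib.InvolSp

open Matrix Module Cfsg Cfsg.Agent.Lib Cfsg.Agent.Lib.SpParab

variable {F : Type*} [Field F] {m : ℕ}

/-- The map `t - 1` in characteristic two. -/
def nn (a : SpG m F) (v : Fin m ⊕ Fin m → F) : Fin m ⊕ Fin m → F := a.1 *ᵥ v + v

theorem nn_add (a : SpG m F) (u v : Fin m ⊕ Fin m → F) : nn a (u + v) = nn a u + nn a v := by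
  simp only [nn, Matrix.mulVec_add]
  abel

theorem nn_smul (a : SpG m F) (c : F) (v : Fin m ⊕ Fin m → F) : nn a (c • v) = c • nn a v := by
  simp only [nn, Matrix.mulVec_smul, smul_add]

theorem nn_eq [CharP F 2] (a : SpG m F) (v : Fin m ⊕ Fin m → F) : nn a v = (a.1 - 1) *ᵥ v := by
  rw [nn, Matrix.sub_mulVec, Matrix.one_mulVec]
  funext i
  simp only [Pi.sub_apply, Pi.add_apply]
  exact (CharTwo.sub_eq_add _ _).symm

theorem form_sym [CharP F 2] (u v : Fin m ⊕ Fin m → F) : sympForm m F u v = sympForm m F v u := by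
  rw [(H m F).skew u v, CharTwo.neg_eq]

theorem aa_eq {a : SpG m F} (ha : orderOf a = 2) (v : Fin m ⊕ Fin m → F) : a.1 *ᵥ (a.1 *ᵥ v) = v := by
  have h1 : a * a = 1 := by
    rw [← pow_two, ← ha]
    exact pow_orderOf_eq_one a
  rw [← sp_mul_mulVec, h1]
  exact Matrix.one_mulVec v

theorem adj {a : SpG m F} (ha : orderOf a = 2) (u v : Fin m ⊕ Fin m → F) :
    sympForm m F (a.1 *ᵥ u) v = sympForm m F u (a.1 *ᵥ v) := by
  calc sympForm m F (a.1 *ᵥ u) v = sympForm m F (a.1 *ᵥ (a.1 *ᵥ u)) (a.1 *ᵥ v) := (sp_pres a _ _).symm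
    _ = _ := by rw [aa_eq ha]

theorem nn_adj {a : SpG m F} (ha : orderOf a = 2) (u v : Fin m ⊕ Fin m → F) :
    sympForm m F (nn a u) v = sympForm m F u (nn a v) := by
  rw [nn, nn, form_add_left, form_add_right, adj ha]

theorem nn_nn [CharP F 2] {a : SpG m F} (ha : orderOf a = 2) (v : Fin m ⊕ Fin m → F) : nn a (nn a v) = 0 := by
  rw [nn, nn, Matrix.mulVec_add, aa_eq ha]
  funext i
  simp only [Pi.add_apply, Pi.zero_apply]
  have h : ∀ x y : F, x + y + (y + x) = 0 := by
    intro x y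
    rw [add_comm y x]
    exact CharTwo.add_self_eq_zero _
  exact h _ _

theorem nn_iso [CharP F 2] {a : SpG m F} (ha : orderOf a = 2) (u v : Fin m ⊕ Fin m → F) :
    sympForm m F (nn a u) (nn a v) = 0 := by
  rw [nn_adj ha, nn_nn ha, form_zero_right]

/-- The bilinear form `f(u, (t-1) v)`. -/
noncomputable def bil (a : SpG m F) : LinearMap.BilinForm F (Fin m ⊕ Fin m → F) :=
  LinearMap.mk₂ F (fun u v => sympForm m F u (nn a v))
    (fun u u' v => form_add_left u u' _)
    (fun c u v => form_smul_left c u _)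
    (fun u v v' => by rw [nn_add, form_add_right])
    (fun c u v => by rw [nn_smul, form_smul_right]; rfl)

theorem bil_apply (a : SpG m F) (u v : Fin m ⊕ Fin m → F) : bil a u v = sympForm m F u (nn a v) := rfl

theorem bil_symm [CharP F 2] {a : SpG m F} (ha : orderOf a = 2) (u v : Fin m ⊕ Fin m → F) :
    bil a u v = bil a v u := by
  rw [bil_apply, bil_apply, ← nn_adj ha, form_sym]

/-- A frame for the involution `a`. -/
structure Frame (a : SpG m F) {ι : Type} [Fintype ι] [DecidableEq ι] (τ : Equiv.Perm ι)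
    (u : ι → (Fin m ⊕ Fin m → F)) : Prop where
  gram : ∀ x y, bil a (u x) (u y) = if x = τ y then 1 else 0
  card : Fintype.card ι = (a.1 - 1).rank

section FrameLemmas

variable [CharP F 2] {a : SpG m F} (ha : orderOf a = 2) {ι : Type} [Fintype ι] [DecidableEq ι]
  {τ : Equiv.Perm ι} (hτ : ∀ x, τ (τ x) = x) {u : ι → (Fin m ⊕ Fin m → F)} (hu : Frame a τ u)

include hτ hu in
theorem pair_sum (c : ι → F) (y : ι) : sympForm m F (u y) (∑ x, c x • nn a (u x)) = c (τ y) := by
  have h1 : ∀ (z : Fin m ⊕ Fin m → F) (s : Finset ι) (g : ι → (Fin m ⊕ Fin m → F)),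
      sympForm m F z (∑ x ∈ s, g x) = ∑ x ∈ s, sympForm m F z (g x) := by
    intro z s g
    induction s using Finset.induction_on with
    | empty => simp [form_zero_right]
    | insert x s hx ih => rw [Finset.sum_insert hx, Finset.sum_insert hx, form_add_right, ih]
  rw [h1, Finset.sum_eq_single (τ y)]
  · rw [form_smul_right, ← bil_apply, hu.gram, if_pos (hτ y).symm, mul_one]
  · intro x _ hx
    rw [form_smul_right, ← bil_apply, hu.gram, if_neg, mul_zero]
    intro h
    apply hx
    rw [h, hτ]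
  · simp

include hτ hu in
theorem frame_indep : LinearIndependent F (fun x => nn a (u x)) := by
  rw [Fintype.linearIndependent_iff]
  intro c hc x
  have h1 := pair_sum hτ hu c (τ x)
  rw [hc, form_zero_right, hτ] at h1
  exact h1.symm

include ha hτ hu in
theorem frame_formula (v : Fin m ⊕ Fin m → F) :
    nn a v = ∑ x, sympForm m F v (nn a (u (τ x))) • nn a (u x) := by
  have hind := frame_indep hτ hu
  have hle : Submodule.span F (Set.range (fun x => nn a (u x))) ≤ LinearMap.range (a.1 - 1).mulVecLin := by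
    apply Submodule.span_le.mpr
    rintro _ ⟨x, rfl⟩
    exact ⟨u x, by simp only [Matrix.mulVecLin_apply]; exact (nn_eq a _).symm⟩
  have hfr : finrank F (Submodule.span F (Set.range (fun x => nn a (u x)))) = finrank F (LinearMap.range (a.1 - 1).mulVecLin) := by
    rw [finrank_span_eq_card hind, hu.card]
    rfl
  have heq := Submodule.eq_of_le_of_finrank_eq hle hfr
  have hmem : nn a v ∈ Submodule.span F (Set.range (fun x => nn a (u x))) := by
    rw [heq]
    exact ⟨v, by simp only [Matrix.mulVecLin_apply]; exact (nn_eq a _).symm⟩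
  obtain ⟨c, hc⟩ := (Submodule.mem_span_range_iff_exists_fun F).1 hmem
  have h2 : ∀ y, c (τ y) = sympForm m F v (nn a (u y)) := by
    intro y
    rw [← pair_sum hτ hu c y, hc, ← nn_adj ha, form_sym]
  rw [← hc]
  apply Finset.sum_congr rfl
  intro x _
  have := h2 (τ x)
  rw [hτ] at this
  rw [this]

end FrameLemmas

section Conj

variable [CharP F 2] {a b : SpG m F} (ha : orderOf a = 2) (hb : orderOf b = 2)

include ha hb in
theorem conj_of_frames {ι : Type} [Fintype ι] [DecidableEq ι] {τ : Equiv.Perm ι} (hτ : ∀ x, τ (τ x) = x)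
    {ua ub : ι → (Fin m ⊕ Fin m → F)} (h1 : Frame a τ ua) (h2 : Frame b τ ub) : IsConj a b := by
  classical
  let e := Fintype.equivFin ι
  let ta : IsoT m (Fintype.card ι) F := ⟨fun i => nn a (ua (e.symm i)),
    (frame_indep hτ h1).comp _ e.symm.injective, fun i j => nn_iso ha _ _⟩
  let tb : IsoT m (Fintype.card ι) F := ⟨fun i => nn b (ub (e.symm i)),
    (frame_indep hτ h2).comp _ e.symm.injective, fun i j => nn_iso hb _ _⟩
  obtain ⟨A, hA⟩ := exists_sp_move ta tb
  have hA' : ∀ x, A.1 *ᵥ nn a (ua x) = nn b (ub x) := by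
    intro x
    have := hA (e x)
    simpa [ta, tb] using this
  have hsum : ∀ (s : Finset ι) (g : ι → (Fin m ⊕ Fin m → F)),
      A.1 *ᵥ (∑ x ∈ s, g x) = ∑ x ∈ s, A.1 *ᵥ g x := by
    intro s g
    induction s using Finset.induction_on with
    | empty => simp
    | insert x s hx ih => rw [Finset.sum_insert hx, Finset.sum_insert hx, Matrix.mulVec_add, ih]
  have hcomm : ∀ v, A.1 *ᵥ nn a v = nn b (A.1 *ᵥ v) := by
    intro v
    rw [frame_formula ha hτ h1 v, frame_formula hb hτ h2 (A.1 *ᵥ v), hsum]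
    apply Finset.sum_congr rfl
    intro x _
    rw [Matrix.mulVec_smul, hA', ← hA' (τ x), sp_pres]
  have hcomm' : ∀ v, A.1 *ᵥ (a.1 *ᵥ v) = b.1 *ᵥ (A.1 *ᵥ v) := by
    intro v
    have := hcomm v
    rw [nn, nn, Matrix.mulVec_add] at this
    exact add_right_cancel this
  refine isConj_iff.mpr ⟨A, ?_⟩
  rw [mul_inv_eq_iff_eq_mul]
  apply Subtype.ext
  show A.1 * a.1 = b.1 * A.1
  apply Matrix.mulVec_injective
  funext v
  rw [← Matrix.mulVec_mulVec, ← Matrix.mulVec_mulVec]
  exact hcomm' v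

end Conj

section Exists

variable [CharP F 2] [Fintype F] {a : SpG m F} (ha : orderOf a = 2)

include ha in
theorem nondeg_compl {U : Submodule F (Fin m ⊕ Fin m → F)} (hU : IsCompl (LinearMap.ker (a.1 - 1).mulVecLin) U) :
    FormClass.NondegOn (bil a) U := by
  intro w hw hall2
  have h1 : ∀ v, sympForm m F w (nn a v) = 0 := by
    intro v
    obtain ⟨k, hk, y, hy, rfl⟩ := Submodule.mem_sup.1 (show v ∈ LinearMap.ker (a.1 - 1).mulVecLin ⊔ U by
      rw [hU.sup_eq_top]
      trivial)
    have hk' : nn a k = 0 := by rw [nn_eq]; exact hk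
    rw [nn_add, hk', zero_add]
    exact hall2 y hy
  have h2 : ∀ v, sympForm m F (nn a w) v = 0 := by
    intro v
    rw [nn_adj ha]
    exact h1 v
  have h3 : nn a w = 0 := by
    by_contra hne
    obtain ⟨y, hy⟩ := ((H m F).nondegenerate _ hne).2
    exact hy (h2 y)
  have h4 : w ∈ LinearMap.ker (a.1 - 1).mulVecLin := by
    show (a.1 - 1) *ᵥ w = 0
    rw [← nn_eq]
    exact h3
  have h6 : w ∈ LinearMap.ker (a.1 - 1).mulVecLin ⊓ U := ⟨h4, hw⟩
  rw [hU.inf_eq_bot] at h6
  simpa using h6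

theorem finrank_compl {U : Submodule F (Fin m ⊕ Fin m → F)} (hU : IsCompl (LinearMap.ker (a.1 - 1).mulVecLin) U) :
    finrank F U = (a.1 - 1).rank := by
  have h1 := Submodule.finrank_add_eq_of_isCompl hU
  have h2 := LinearMap.finrank_range_add_finrank_ker (a.1 - 1).mulVecLin
  have h3 : (a.1 - 1).rank = finrank F (LinearMap.range (a.1 - 1).mulVecLin) := rfl
  omega

include ha in
theorem exists_frame_alt (hall : ∀ v, sympForm m F v (a.1 *ᵥ v) = 0) :
    ∃ r, 2 * r = (a.1 - 1).rank ∧ ∃ u : Fin r ⊕ Fin r → (Fin m ⊕ Fin m → F), Frame a (Equiv.sumComm _ _) u := by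
  classical
  obtain ⟨U, hU⟩ := Submodule.exists_isCompl (LinearMap.ker (a.1 - 1).mulVecLin)
  have hAlt : (bil a).IsAlt := by
    intro x
    rw [bil_apply, nn, form_add_right, hall x, (H m F).alternating x, add_zero]
  obtain ⟨r, e, f', h2r, -, -, hef, hee, hff⟩ := FormClass.alt_symplectic hAlt _ U rfl (nondeg_compl ha hU)
  rw [finrank_compl hU] at h2r
  refine ⟨r, h2r, Sum.elim e f', ?_, ?_⟩
  · rintro (i | i) (j | j)
    · simp [hee]
    · simp [hef]
    · simp only [Sum.elim_inr, Sum.elim_inl, Equiv.sumComm_apply, Sum.swap_inl, Sum.inr.injEq]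
      rw [bil_symm ha, hef]
      by_cases h : i = j
      · simp [h]
      · simp [h, Ne.symm h]
    · simp [hff]
  · simp only [Fintype.card_sum, Fintype.card_fin]
    omega

include ha in
theorem exists_frame_nonalt (hex : ∃ v, sympForm m F v (a.1 *ᵥ v) ≠ 0) :
    ∃ u : Fin (a.1 - 1).rank → (Fin m ⊕ Fin m → F), Frame a (1 : Equiv.Perm (Fin (a.1 - 1).rank)) u := by
  classical
  obtain ⟨U, hU⟩ := Submodule.exists_isCompl (LinearMap.ker (a.1 - 1).mulVecLin)
  obtain ⟨v, hv⟩ := hex
  obtain ⟨k, hk, y, hy, rfl⟩ := Submodule.mem_sup.1 (show v ∈ LinearMap.ker (a.1 - 1).mulVecLin ⊔ U by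
    rw [hU.sup_eq_top]
    trivial)
  have hk' : nn a k = 0 := by rw [nn_eq]; exact hk
  have hyy : bil a y y ≠ 0 := by
    intro h0
    apply hv
    have h1 : sympForm m F (k + y) (a.1 *ᵥ (k + y)) = bil a (k + y) (k + y) := by
      rw [bil_apply, nn, form_add_right, (H m F).alternating, add_zero]
    rw [h1, bil_apply, nn_add, hk', zero_add, form_add_left, ← nn_adj ha k y, hk', form_zero_left, zero_add]
    exact h0
  obtain ⟨e, -, he⟩ := OrthoChar2.exists_orthonormal (bil_symm ha) _ U (finrank_compl hU) (nondeg_compl ha hU) ⟨y, hy, hyy⟩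
  refine ⟨e, ?_, by simp⟩
  intro i j
  rw [Equiv.Perm.one_apply]
  convert he i j

end Exists

end Cfsg.Agent.Lib.InvolSp
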