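import Mathlib

set_option autoImplicit false

namespace Cfsg.Agent.Lib.IrrBase

open MulAction

variable {G Ω : Type*} [Group G] [MulAction G Ω]

/-- Irredundant base of `H`, recursively. -/
def Irr : Subgroup G → List Ω → Prop
  | H, [] => H = ⊥
  | H, c :: l => (∃ h ∈ H, h • c ≠ c) ∧ Irr (H ⊓ stabilizer G c) l

/-- Base of `H`: the pointwise stabilizer in `H` is trivial. -/
def Base (H : Subgroup G) (l : List Ω) : Prop := ∀ g ∈ H, (∀ x ∈ l, g • x = x) → g = 1

theorem base_of_irr : ∀ (l : List Ω) (H : Subgroup G), Irr H l → Base H l := by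
  intro l
  induction l with
  | nil =>
    intro H h g hg _
    have : H = ⊥ := h
    rw [this] at hg
    exact Subgroup.mem_bot.mp hg
  | cons c l ih =>
    intro H h g hg hfix
    have h2 := ih _ h.2
    exact h2 g ⟨hg, hfix c (by simp)⟩ (fun x hx => hfix x (List.mem_cons_of_mem _ hx))

theorem exists_sublist : ∀ (l : List Ω) (H : Subgroup G), Base H l →
    ∃ l' : List Ω, l'.Sublist l ∧ Irr H l' := by
  intro l
  induction l with
  | nil =>
    intro H h
    refine ⟨[], List.Sublist.refl _, ?_⟩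
    change H = ⊥
    rw [Subgroup.eq_bot_iff_forall]
    intro g hg
    exact h g hg (by simp)
  | cons c l ih =>
    intro H h
    by_cases hm : ∃ x ∈ H, x • c ≠ c
    · have hb : Base (H ⊓ stabilizer G c) l := by
        intro g hg hfix
        refine h g hg.1 (fun x hx => ?_)
        rcases List.mem_cons.mp hx with rfl | hx
        · exact hg.2
        · exact hfix x hx
      obtain ⟨l', hl', hirr⟩ := ih _ hb
      exact ⟨c :: l', List.Sublist.cons_cons c hl', hm, hirr⟩
    · push Not at hm
      have hb : Base H l := by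
        intro g hg hfix
        refine h g hg (fun x hx => ?_)
        rcases List.mem_cons.mp hx with rfl | hx
        · exact hm g hg
        · exact hfix x hx
      obtain ⟨l', hl', hirr⟩ := ih _ hb
      exact ⟨l', List.Sublist.cons c hl', hirr⟩

/-- Reordering invariance. -/
def Reord (H : Subgroup G) : Prop := ∀ l l' : List Ω, l'.Perm l → Irr H l → Irr H l'

theorem Reord.down {H : Subgroup G} (h : Reord (Ω := Ω) H) (c : Ω) (hc : ∃ x ∈ H, x • c ≠ c) :
    Reord (Ω := Ω) (H ⊓ stabilizer G c) := by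
  intro l l' hp hl
  have := h (c :: l) (c :: l') (hp.cons c) ⟨hc, hl⟩
  exact this.2

theorem irr_append : ∀ (l : List Ω) (c : Ω) (H : Subgroup G), Irr H (l ++ [c]) →
    Base H l → False := by
  intro l
  induction l with
  | nil =>
    intro c H h hb
    obtain ⟨⟨x, hx, hxc⟩, -⟩ := h
    have := hb x hx (by simp)
    rw [this, one_smul] at hxc
    exact hxc rfl
  | cons d l ih =>
    intro c H h hb
    apply ih c _ h.2
    intro g hg hfix
    refine hb g hg.1 (fun x hx => ?_)
    rcases List.mem_cons.mp hx with rfl | hx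
    · exact hg.2
    · exact hfix x hx

theorem len_le [Finite G] : ∀ (n : ℕ) (H : Subgroup G), Nat.card H = n → Reord (Ω := Ω) H →
    ∀ l l' : List Ω, Irr H l → Irr H l' → l'.length ≤ l.length := by
  intro n
  induction n using Nat.strong_induction_on with
  | _ n ih =>
    intro H hn hR l l' hl hl'
    cases l' with
    | nil => simp
    | cons c rest =>
      obtain ⟨hm, hrest⟩ := hl'
      set H' := H ⊓ stabilizer G c with hH'
      have hb : Base H' l := fun g hg hfix => base_of_irr l H hl g hg.1 hfix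
      obtain ⟨l₁, hsub, hl₁⟩ := exists_sublist l H' hb
      have hlt : l₁.length < l.length := by
        have hle := hsub.length_le
        by_contra hcon
        have heq : l₁.length = l.length := by omega
        have hl₁eq : l₁ = l := hsub.eq_of_length heq
        subst hl₁eq
        have hirr : Irr H (c :: l₁) := ⟨hm, hl₁⟩
        have hperm : (l₁ ++ [c]).Perm (c :: l₁) := List.perm_append_singleton c l₁
        exact irr_append l₁ c H (hR _ _ hperm hirr) (base_of_irr l₁ H hl)
      have hcard : Nat.card H' < n := by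
        rw [← hn]
        obtain ⟨x, hx, hxc⟩ := hm
        have hsubset : H' < H := by
          refine lt_of_le_of_ne inf_le_left (fun h => hxc ?_)
          have : x ∈ H' := h ▸ hx
          exact this.2
        have h3 := Set.ncard_lt_ncard (s := (H' : Set G)) (t := (H : Set G))
          (SetLike.coe_ssubset_coe.mpr hsubset) (Set.toFinite _)
        rwa [← Nat.card_coe_set_eq, ← Nat.card_coe_set_eq] at h3
      have := ih _ hcard H' rfl (hR.down c hm) l₁ rest hl₁ hrest
      simp only [List.length_cons]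
      omega

/-- The statement's predicate relative to a subgroup. -/
def PredH (H : Subgroup G) {t : ℕ} (f : Fin t → Ω) : Prop :=
  (∀ g ∈ H, (∀ i : Fin t, g • f i = f i) → g = 1) ∧
    ∀ i : Fin t, ∃ g ∈ H, (∀ j : Fin t, j < i → g • f j = f j) ∧ g • f i ≠ f i

theorem predH_iff : ∀ (t : ℕ) (H : Subgroup G) (f : Fin t → Ω), PredH H f ↔ Irr H (List.ofFn f) := by
  intro t
  induction t with
  | zero =>
    intro H f
    simp only [List.ofFn_zero]
    constructor
    · rintro ⟨h, -⟩
      change H = ⊥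
      rw [Subgroup.eq_bot_iff_forall]
      exact fun g hg => h g hg (fun i => i.elim0)
    · intro h
      have h' : H = ⊥ := h
      refine ⟨fun g hg _ => ?_, fun i => i.elim0⟩
      rw [h'] at hg
      exact Subgroup.mem_bot.mp hg
  | succ t ih =>
    intro H f
    rw [List.ofFn_succ]
    change _ ↔ (∃ h ∈ H, h • f 0 ≠ f 0) ∧ Irr (H ⊓ stabilizer G (f 0)) (List.ofFn fun i => f i.succ)
    rw [← ih]
    constructor
    · rintro ⟨h1, h2⟩
      refine ⟨?_, ?_, ?_⟩
      · obtain ⟨g, hg, -, hm⟩ := h2 0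
        exact ⟨g, hg, hm⟩
      · intro g hg hfix
        refine h1 g hg.1 (fun i => ?_)
        refine Fin.cases ?_ (fun j => ?_) i
        · exact hg.2
        · exact hfix j
      · intro i
        obtain ⟨g, hg, hfix, hm⟩ := h2 i.succ
        refine ⟨g, ⟨hg, hfix 0 (Fin.succ_pos i)⟩, fun j hj => hfix j.succ (Fin.succ_lt_succ_iff.mpr hj), hm⟩
    · rintro ⟨⟨g₀, hg₀, hm₀⟩, h1, h2⟩
      refine ⟨fun g hg hfix => h1 g ⟨hg, hfix 0⟩ (fun i => hfix i.succ), fun i => ?_⟩
      refine Fin.cases ?_ (fun j => ?_) i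
      · exact ⟨g₀, hg₀, fun j hj => absurd hj (Fin.not_lt_zero j), hm₀⟩
      · obtain ⟨g, hg, hfix, hm⟩ := h2 j
        refine ⟨g, hg.1, fun k hk => ?_, hm⟩
        revert hk
        refine Fin.cases (fun _ => hg.2) (fun k' hk' => hfix k' (Fin.succ_lt_succ_iff.mp hk')) k

/-- A permutation of lists comes from a bijection of positions. -/
theorem exists_equiv_of_perm {α : Type*} {l l' : List α} (h : l'.Perm l) :
    ∃ σ : Fin l'.length ≃ Fin l.length, ∀ i, l.get (σ i) = l'.get i := by
  induction h with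
  | nil => exact ⟨Equiv.refl _, fun _ => rfl⟩
  | @cons x l₁ l₂ _ ih =>
    obtain ⟨σ, hσ⟩ := ih
    let τ : Fin (l₁.length + 1) ≃ Fin (l₂.length + 1) :=
      (finSuccEquiv _).trans ((Equiv.optionCongr σ).trans (finSuccEquiv _).symm)
    refine ⟨τ, fun i => ?_⟩
    refine Fin.cases ?_ (fun j => ?_) i
    · simp [τ]
    · simpa [τ] using hσ j
  | swap x y l =>
    refine ⟨Equiv.swap 0 1, fun i => ?_⟩
    refine Fin.cases ?_ (fun j => ?_) i
    · simp
    · refine Fin.cases ?_ (fun k => ?_) j
      · simp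
      · have h0 : k.succ.succ ≠ (0 : Fin (l.length + 1 + 1)) := Fin.succ_ne_zero _
        have h1 : k.succ.succ ≠ (1 : Fin (l.length + 1 + 1)) := by
          intro h
          have := Fin.succ_injective _ (show k.succ.succ = Fin.succ 0 from h)
          exact Fin.succ_ne_zero _ this
        rw [Equiv.swap_apply_of_ne_of_ne h0 h1]
        rfl
  | trans _ _ ih1 ih2 =>
    obtain ⟨σ₁, h₁⟩ := ih1
    obtain ⟨σ₂, h₂⟩ := ih2
    exact ⟨σ₁.trans σ₂, fun i => by rw [← h₁ i, ← h₂ (σ₁ i)]; rfl⟩

theorem exists_perm_ofFn {α : Type*} {l l' : List α} (h : l'.Perm l) :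
    ∃ σ : Equiv.Perm (Fin l.length), l' = List.ofFn (l.get ∘ σ) := by
  obtain ⟨σ, hσ⟩ := exists_equiv_of_perm h
  have hlen : l'.length = l.length := h.length_eq
  refine ⟨(finCongr hlen).symm.trans σ, ?_⟩
  apply List.ext_getElem
  · simp [hlen]
  · intro i h1 h2
    simp only [List.getElem_ofFn, Function.comp, Equiv.trans_apply, finCongr_symm, finCongr_apply]
    have := hσ ⟨i, h1⟩
    simp only [List.get_eq_getElem] at this
    rw [← this]
    rfl

theorem main [Finite G] :
    (∀ (t t' : ℕ) (f : Fin t → Ω) (f' : Fin t' → Ω), ((∀ g : G, (∀ i : Fin t, g • f i = f i) → g = 1) ∧ ∀ i : Fin t, ∃ g : G, (∀ j : Fin t, j < i → g • f j = f j) ∧ g • f i ≠ f i) → ((∀ g : G, (∀ i : Fin t', g • f' i = f' i) → g = 1) ∧ ∀ i : Fin t', ∃ g : G, (∀ j : Fin t', j < i → g • f' j = f' j) ∧ g • f' i ≠ f' i) → t = t') ↔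
    (∀ (t : ℕ) (f : Fin t → Ω) (σ : Equiv.Perm (Fin t)), ((∀ g : G, (∀ i : Fin t, g • f i = f i) → g = 1) ∧ ∀ i : Fin t, ∃ g : G, (∀ j : Fin t, j < i → g • f j = f j) ∧ g • f i ≠ f i) → ((∀ g : G, (∀ i : Fin t, g • (f ∘ σ) i = (f ∘ σ) i) → g = 1) ∧ ∀ i : Fin t, ∃ g : G, (∀ j : Fin t, j < i → g • (f ∘ σ) j = (f ∘ σ) j) ∧ g • (f ∘ σ) i ≠ (f ∘ σ) i)) := by
  -- translate
  have key : ∀ (t : ℕ) (f : Fin t → Ω), ((∀ g : G, (∀ i : Fin t, g • f i = f i) → g = 1) ∧ ∀ i : Fin t, ∃ g : G, (∀ j : Fin t, j < i → g • f j = f j) ∧ g • f i ≠ f i) ↔ Irr (⊤ : Subgroup G) (List.ofFn f) := by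
    intro t f
    rw [← predH_iff]
    simp [PredH]
  simp only [key]
  constructor
  · intro h t f σ hf
    -- all irredundant bases have the same length, so a reordering stays irredundant
    have hb : Base (⊤ : Subgroup G) (List.ofFn (f ∘ σ)) := by
      intro g hg hfix
      apply base_of_irr _ _ hf g hg
      intro x hx
      apply hfix
      exact (σ.ofFn_comp_perm f).mem_iff.mpr hx
    obtain ⟨l', hsub, hl'⟩ := exists_sublist _ _ hb
    have hl'' : Irr (⊤ : Subgroup G) (List.ofFn l'.get) := by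
      rw [List.ofFn_get]; exact hl'
    have h2 := h _ _ f l'.get hf hl''
    have h3 : l' = List.ofFn (f ∘ σ) := by
      apply hsub.eq_of_length
      simp [← h2]
    rw [← h3]
    exact hl'
  · intro h t t' f f' hf hf'
    have hR : Reord (Ω := Ω) (⊤ : Subgroup G) := by
      intro l l' hp hl
      obtain ⟨σ, hσ⟩ := exists_perm_ofFn hp
      rw [hσ]
      apply h
      rw [List.ofFn_get]
      exact hl
    have h1 := len_le _ _ rfl hR _ _ hf hf'
    have h2 := len_le _ _ rfl hR _ _ hf' hf
    simp only [List.length_ofFn] at h1 h2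
    omega

end Cfsg.Agent.Lib.IrrBase
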