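import Mathlib

/-!
# Groups of conjugate type `(1, p^a)`: the central quotient has exponent `p` (Ito)
-/

set_option autoImplicit false
set_option linter.all false

namespace Cfsg.Agent.Lib.ItoExp

open Finset

universe u

theorem ring_id {R : Type*} [Ring R] (u v : R) (huv : Commute v u) (n : ℕ) :
    ∑ j ∈ range n, ∑ i ∈ range n, (v * u ^ j) ^ i = ∑ i ∈ range n, v ^ i * ∑ j ∈ range n, (u ^ i) ^ j := by
  rw [Finset.sum_comm]
  refine Finset.sum_congr rfl fun i _ => ?_
  rw [Finset.mul_sum]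
  refine Finset.sum_congr rfl fun j _ => ?_
  rw [(huv.pow_right j).mul_pow, ← pow_mul, ← pow_mul, mul_comm]

theorem end_sum_apply {M ι : Type*} [AddCommGroup M] (s : Finset ι) (f : ι → AddMonoid.End M) (m : M) :
    (∑ i ∈ s, f i) m = ∑ i ∈ s, f i m := by
  classical
  induction s using Finset.induction_on with
  | empty => rfl
  | insert a s ha ih =>
    rw [Finset.sum_insert ha, Finset.sum_insert ha]
    show (f a) m + (∑ i ∈ s, f i) m = _
    rw [ih]

theorem abstract_mod {M : Type*} [AddCommGroup M] (Z : AddSubgroup M) (u v : AddMonoid.End M) (huv : Commute v u)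
    (n : ℕ) (hZv : ∀ z ∈ Z, v z ∈ Z)
    (h1 : ∀ i, i < n → ∀ m, (∑ j ∈ range (n + 1), ((u ^ (i + 1)) ^ j)) m ∈ Z)
    (h2 : ∀ j, j < n + 1 → ∀ m, (∑ i ∈ range (n + 1), ((v * u ^ j) ^ i)) m ∈ Z) (m : M) :
    (n + 1) • m ∈ Z := by
  have hid := ring_id u v huv (n + 1)
  rw [Finset.sum_range_succ' (fun i => v ^ i * ∑ j ∈ range (n + 1), (u ^ i) ^ j)] at hid
  have e1 : (v ^ 0 * ∑ j ∈ range (n + 1), (u ^ 0) ^ j) = ((n + 1 : ℕ) : AddMonoid.End M) := by
    simp
  rw [e1] at hid
  have h3 := DFunLike.congr_fun hid m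
  have e2 : (((n + 1 : ℕ) : AddMonoid.End M)) m = (n + 1) • m := AddMonoid.End.natCast_apply _ _
  have h4 : (∑ j ∈ range (n + 1), ∑ i ∈ range (n + 1), (v * u ^ j) ^ i) m ∈ Z := by
    rw [end_sum_apply]
    exact AddSubgroup.sum_mem _ fun j hj => h2 j (Finset.mem_range.1 hj) m
  have h5 : (∑ i ∈ range n, v ^ (i + 1) * ∑ j ∈ range (n + 1), (u ^ (i + 1)) ^ j) m ∈ Z := by
    rw [end_sum_apply]
    refine AddSubgroup.sum_mem _ fun i hi => ?_
    have h6 : ∀ (r : ℕ) (z : M), z ∈ Z → (v ^ r) z ∈ Z := by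
      intro r
      induction r with
      | zero => intro z hz; simpa using hz
      | succ r ih =>
        intro z hz
        rw [pow_succ']
        exact hZv _ (ih z hz)
    exact h6 (i + 1) _ (h1 i (Finset.mem_range.1 hi) m)
  rw [h3] at h4
  have h7 : ((∑ i ∈ range n, v ^ (i + 1) * ∑ j ∈ range (n + 1), (u ^ (i + 1)) ^ j) +
      ((n + 1 : ℕ) : AddMonoid.End M)) m = (∑ i ∈ range n, v ^ (i + 1) * ∑ j ∈ range (n + 1), (u ^ (i + 1)) ^ j) m +
      (n + 1) • m := by
    rw [← e2]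
    rfl
  rw [h7] at h4
  exact (AddSubgroup.add_mem_cancel_left Z h5).1 h4

section Key

variable {P : Type*} [Group P]

theorem key_abs (A : Subgroup P) [hA : A.Normal] (hcomm : ∀ a ∈ A, ∀ b ∈ A, a * b = b * a) (Z : Subgroup P)
    (hZ : ∀ z ∈ Z, ∀ g : P, g * z * g⁻¹ = z) (n : ℕ) (C : Subgroup P) (hCA : ∀ c ∈ C, ∀ a ∈ A, c * a * c⁻¹ = a)
    (hpow : ∀ g : P, g ^ (n + 1) ∈ C) (hfix : ∀ e, e ∉ C → ∀ a ∈ A, e * a * e⁻¹ = a → a ∈ Z)
    (h k : P) (hh : ∀ i, i < n → h ^ (i + 1) ∉ C) (hk : ∀ j, j < n + 1 → k * h ^ j ∉ C)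
    (hcm : (k * h)⁻¹ * (h * k) ∈ C) {x : P} (hx : x ∈ A) : x ^ (n + 1) ∈ Z := by
  letI : CommGroup A := { (inferInstance : Group A) with
    mul_comm := fun a b => Subtype.ext (hcomm a a.2 b b.2) }
  let M := Additive A
  let T0 : P → (M →+ M) := fun g => MonoidHom.toAdditive (MulAut.conjNormal g : MulAut A).toMonoidHom
  have hT0 : ∀ g (a : A), ((T0 g (Additive.ofMul a) : M).toMul : P) = g * (a : P) * g⁻¹ := by
    intro g a
    rfl
  let T : P →* AddMonoid.End M :=
    { toFun := T0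
      map_one' := by
        apply AddMonoidHom.ext
        intro m
        apply Additive.toMul.injective
        apply Subtype.ext
        show ((T0 1 m).toMul : P) = (m.toMul : P)
        have h1 : ((T0 1 m).toMul : P) = 1 * (Additive.toMul m : A).1 * 1⁻¹ := hT0 1 (Additive.toMul m)
        rw [h1]
        simp
      map_mul' := by
        intro g g'
        apply AddMonoidHom.ext
        intro m
        apply Additive.toMul.injective
        apply Subtype.ext
        have h1 := hT0 (g * g') (Additive.toMul m)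
        have h2 : (T0 g (T0 g' m)).toMul.1 = g * (T0 g' m).toMul.1 * g⁻¹ := hT0 g (Additive.toMul (T0 g' m))
        have h3 := hT0 g' (Additive.toMul m)
        show (T0 (g * g') m).toMul.1 = (T0 g (T0 g' m)).toMul.1
        rw [h2]
        have h4 : (T0 g' m).toMul.1 = g' * (Additive.toMul m : A).1 * g'⁻¹ := h3
        rw [h4]
        have h5 : (T0 (g * g') m).toMul.1 = (g * g') * (Additive.toMul m : A).1 * (g * g')⁻¹ := h1
        rw [h5]
        group }
  have hT : ∀ g (m : M), ((T g m).toMul : P) = g * (m.toMul : P) * g⁻¹ := fun g m => hT0 g (Additive.toMul m)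
  let ZM : AddSubgroup M :=
    { carrier := {m | (m.toMul : P) ∈ Z}
      zero_mem' := Z.one_mem
      add_mem' := fun {a b} ha hb => Z.mul_mem ha hb
      neg_mem' := fun {a} ha => Z.inv_mem ha }
  have hCtriv : ∀ c ∈ C, T c = 1 := by
    intro c hc
    apply AddMonoidHom.ext
    intro m
    apply Additive.toMul.injective
    apply Subtype.ext
    show ((T c m).toMul : P) = (m.toMul : P)
    rw [hT]
    exact hCA c hc _ (m.toMul).2
  -- norms
  have hnorm : ∀ e, e ∉ C → ∀ m : M, (∑ i ∈ range (n + 1), (T e) ^ i) m ∈ ZM := by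
    intro e he m
    have h1 : ((T e - 1) * ∑ i ∈ range (n + 1), (T e) ^ i) m = 0 := by
      rw [mul_geom_sum, ← map_pow, hCtriv _ (hpow e), sub_self]
      rfl
    have h2 : T e ((∑ i ∈ range (n + 1), (T e) ^ i) m) = (∑ i ∈ range (n + 1), (T e) ^ i) m := by
      have h3 : ((T e - 1) * ∑ i ∈ range (n + 1), (T e) ^ i) m =
          T e ((∑ i ∈ range (n + 1), (T e) ^ i) m) - (∑ i ∈ range (n + 1), (T e) ^ i) m := rfl
      rw [h3] at h1
      exact sub_eq_zero.1 h1
    apply hfix e he _ ((Additive.toMul ((∑ i ∈ range (n + 1), (T e) ^ i) m) : A).2)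
    rw [← hT, h2]
  have hcommT : Commute (T k) (T h) := by
    show T k * T h = T h * T k
    calc T k * T h = T (k * h) := (map_mul T k h).symm
      _ = T (k * h) * T ((k * h)⁻¹ * (h * k)) := by rw [hCtriv _ hcm, mul_one]
      _ = T (h * k) := by
        rw [← map_mul]
        congr 1
        group
      _ = T h * T k := map_mul T h k
  have hres := abstract_mod ZM (T h) (T k) hcommT n (by
      intro z hz
      show ((T k z).toMul : P) ∈ Z
      rw [hT, hZ _ hz]
      exact hz) (by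
      intro i hi m
      have h1 := hnorm (h ^ (i + 1)) (hh i hi) m
      rwa [map_pow] at h1) (by
      intro j hj m
      have h1 := hnorm (k * h ^ j) (hk j hj) m
      rwa [map_mul, map_pow] at h1) (Additive.ofMul ⟨x, hx⟩)
  have h2 : (((n + 1) • (Additive.ofMul (⟨x, hx⟩ : A))).toMul : P) = x ^ (n + 1) := rfl
  rw [← h2]
  exact hres

end Key

section Main

variable {P : Type*} [Group P] [Finite P] {p : ℕ} [hp : Fact p.Prime]

/-- Centralizer of an element. -/
abbrev cn (x : P) : Subgroup P := Subgroup.centralizer ({x} : Set P)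

theorem mem_cn {x c : P} : c ∈ cn x ↔ c * x = x * c := Subgroup.mem_centralizer_singleton_iff

theorem central_comm {z : P} (hz : z ∈ Subgroup.center P) (g : P) : g * z = z * g :=
  (Subgroup.mem_center_iff.1 hz g)

theorem cn_mul_central (x : P) {w : P} (hw : w ∈ Subgroup.center P) : cn (x * w) = cn x := by
  ext c
  rw [mem_cn, mem_cn]
  have h1 := central_comm hw c
  have e1 : c * (x * w) = (c * x) * w := by group
  have e2 : x * w * c = x * (w * c) := by group
  rw [e1, e2, ← h1]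
  constructor
  · intro h
    have e3 : x * (c * w) = (x * c) * w := by group
    rw [e3] at h
    exact mul_right_cancel h
  · intro h
    rw [h]
    group

theorem eq_of_le_of_index {H K : Subgroup P} (h : H ≤ K) (he : H.index = K.index) (hK : K.index ≠ 0) : H = K := by
  apply le_antisymm h
  have h1 := Subgroup.relIndex_mul_index h
  rw [he] at h1
  have h2 : H.relIndex K = 1 := Nat.eq_of_mul_eq_mul_right (Nat.pos_of_ne_zero hK) (by rw [h1, one_mul])
  exact Subgroup.relIndex_eq_one.1 h2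

theorem main_exp (hP : IsPGroup p P) (m : ℕ) (hm : m ≠ 0)
    (hI : ∀ x : P, x ∉ Subgroup.center P → (cn x).index = m) (x : P) : x ^ p ∈ Subgroup.center P := by
  classical
  by_contra hxp
  let Z := Subgroup.center P
  have hZn : ∀ z ∈ Z, ∀ g : P, g * z * g⁻¹ = z := by
    intro z hz g
    rw [central_comm hz g]
    group
  have heq : ∀ {u v : P}, u ∉ Z → v ∉ Z → cn u ≤ cn v → cn u = cn v := fun {u v} hu hv h =>
    eq_of_le_of_index h (by rw [hI u hu, hI v hv]) (by rw [hI v hv]; exact hm)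
  have hle_pow : ∀ (u : P) (n : ℕ), cn u ≤ cn (u ^ n) := by
    intro u n c hc
    rw [mem_cn] at hc ⊢
    exact (Commute.pow_right hc n)
  have hpow_notin : ∀ {u : P}, u ^ p ∉ Z → u ∉ Z := fun {u} hu h => hu (Z.pow_mem h p)
  have hcn_pow : ∀ {u : P}, u ^ p ∉ Z → cn (u ^ p) = cn u := fun {u} hu =>
    (heq (hpow_notin hu) hu (hle_pow u p)).symm
  have hxZ : x ∉ Z := hpow_notin hxp
  -- step 2
  have step2 : ∀ {g : P}, Commute x g → g ^ p ∈ Z → ∀ c ∈ cn x, c ∈ cn g := by
    intro g hg hgp c hc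
    have e : (x * g) ^ p = x ^ p * g ^ p := hg.mul_pow p
    have h1 : (x * g) ^ p ∉ Z := by
      intro h2
      apply hxp
      have e2 : x ^ p = (x * g) ^ p * (g ^ p)⁻¹ := by rw [e]; group
      rw [e2]
      exact Z.mul_mem h2 (Z.inv_mem hgp)
    have h2 : cn (x * g) = cn x := by
      rw [← hcn_pow h1, e, cn_mul_central _ hgp, hcn_pow hxp]
    have h3 : c ∈ cn (x * g) := by rw [h2]; exact hc
    rw [mem_cn] at h3 hc ⊢
    have e3 : c * (x * g) = x * (c * g) := by
      rw [← mul_assoc, hc, mul_assoc]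
    rw [e3, mul_assoc] at h3
    exact mul_left_cancel h3
  -- the element y
  obtain ⟨y, hyZ, hyc, hyp⟩ : ∃ y : P, y ∉ Z ∧ (∀ g : P, y * g * y⁻¹ * g⁻¹ ∈ Z) ∧ y ^ p ∈ Z := by
    have hQp : IsPGroup p (P ⧸ Z) := hP.to_quotient Z
    haveI : Nontrivial (P ⧸ Z) := ⟨⟨(x : P ⧸ Z), 1, fun h => hxZ ((QuotientGroup.eq_one_iff x).1 h)⟩⟩
    haveI : Nontrivial (Subgroup.center (P ⧸ Z)) := hQp.center_nontrivial
    have hZQp : IsPGroup p (Subgroup.center (P ⧸ Z)) := hQp.to_subgroup _
    have hdvd : p ∣ Nat.card (Subgroup.center (P ⧸ Z)) := by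
      obtain ⟨n, hn⟩ := IsPGroup.iff_card.1 hZQp
      have h1 : Nat.card (Subgroup.center (P ⧸ Z)) ≠ 1 := (Finite.one_lt_card (α := Subgroup.center (P ⧸ Z))).ne'
      rcases n with _ | n
      · rw [hn] at h1
        simp at h1
      · rw [hn, pow_succ]
        exact dvd_mul_left _ _
    obtain ⟨q, hq⟩ := exists_prime_orderOf_dvd_card' p hdvd
    obtain ⟨y, hy⟩ := QuotientGroup.mk_surjective (q : P ⧸ Z)
    refine ⟨y, ?_, ?_, ?_⟩
    · intro hyZ
      have h1 : (q : P ⧸ Z) = 1 := by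
        rw [← hy]
        exact (QuotientGroup.eq_one_iff y).2 hyZ
      have h2 : q = 1 := Subtype.ext h1
      rw [h2, orderOf_one] at hq
      exact hp.out.ne_one hq.symm
    · intro g
      apply (QuotientGroup.eq_one_iff _).1
      have h1 : ((g : P ⧸ Z)) * (q : P ⧸ Z) = (q : P ⧸ Z) * (g : P ⧸ Z) :=
        Subgroup.mem_center_iff.1 q.2 _
      have e1 : ((y * g * y⁻¹ * g⁻¹ : P) : P ⧸ Z) = (q : P ⧸ Z) * (g : P ⧸ Z) * (q : P ⧸ Z)⁻¹ * (g : P ⧸ Z)⁻¹ := by
        rw [← hy]
        rfl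
      rw [e1, ← h1]
      group
    · apply (QuotientGroup.eq_one_iff _).1
      have e1 : ((y ^ p : P) : P ⧸ Z) = (q : P ⧸ Z) ^ p := by
        rw [← hy]
        rfl
      rw [e1]
      have h2 : q ^ p = 1 := by rw [← hq]; exact pow_orderOf_eq_one q
      exact congrArg Subtype.val h2
  -- commutation of x and y
  have hxy : Commute x y := by
    have h1 : ((y : P ⧸ Z)) * (x : P ⧸ Z) = (x : P ⧸ Z) * (y : P ⧸ Z) := by
      have h2 : ((y * x * y⁻¹ * x⁻¹ : P) : P ⧸ Z) = 1 := (QuotientGroup.eq_one_iff _).2 (hyc x)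
      have h3 : (y : P ⧸ Z) * (x : P ⧸ Z) * (y : P ⧸ Z)⁻¹ * (x : P ⧸ Z)⁻¹ = 1 := h2
      calc (y : P ⧸ Z) * (x : P ⧸ Z) = ((y : P ⧸ Z) * (x : P ⧸ Z) * (y : P ⧸ Z)⁻¹ * (x : P ⧸ Z)⁻¹) * ((x : P ⧸ Z) * (y : P ⧸ Z)) := by group
        _ = _ := by rw [h3, one_mul]
    have h2 : (((x * y) ^ p : P) : P ⧸ Z) = ((x ^ p : P) : P ⧸ Z) := by
      have h3 : Commute (x : P ⧸ Z) (y : P ⧸ Z) := h1.symm
      have h4 : (((x * y) ^ p : P) : P ⧸ Z) = ((x : P ⧸ Z) * (y : P ⧸ Z)) ^ p := rfl
      rw [h4, h3.mul_pow]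
      have h5 : (y : P ⧸ Z) ^ p = 1 := (QuotientGroup.eq_one_iff _).2 hyp
      rw [h5, mul_one]
      rfl
    have h3 : (x ^ p)⁻¹ * (x * y) ^ p ∈ Z := QuotientGroup.eq.1 h2.symm
    have h4 : (x * y) ^ p = x ^ p * ((x ^ p)⁻¹ * (x * y) ^ p) := by group
    have h5 : (x * y) ^ p ∉ Z := by
      intro h6
      apply hxp
      have e2 : x ^ p = (x * y) ^ p * ((x ^ p)⁻¹ * (x * y) ^ p)⁻¹ := by group
      rw [e2]
      exact Z.mul_mem h6 (Z.inv_mem h3)
    have h6 : cn (x * y) = cn x := by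
      rw [← hcn_pow h5, h4, cn_mul_central _ h3, hcn_pow hxp]
    have h7 : x ∈ cn (x * y) := by
      rw [h6, mem_cn]
    rw [mem_cn] at h7
    have e4 : x * (x * y) = x * x * y := by group
    have e5 : x * y * x = x * (y * x) := by group
    rw [e4, e5, mul_assoc] at h7
    exact mul_left_cancel h7
  have hCeq : cn x = cn y := heq hxZ hyZ (fun c hc => step2 hxy (hyp) c hc)
  -- the commutator homomorphism
  have hcen : ∀ g : P, y * g * y⁻¹ * g⁻¹ ∈ Z := hyc
  let f : P →* P := MonoidHom.mk' (fun g => y * g * y⁻¹ * g⁻¹) (by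
    intro g k
    have h1 := central_comm (hcen k) g⁻¹
    calc y * (g * k) * y⁻¹ * (g * k)⁻¹ = y * g * y⁻¹ * ((y * k * y⁻¹ * k⁻¹) * g⁻¹) := by group
      _ = y * g * y⁻¹ * (g⁻¹ * (y * k * y⁻¹ * k⁻¹)) := by rw [h1]
      _ = _ := by group)
  have hf : ∀ g, f g = y * g * y⁻¹ * g⁻¹ := fun g => rfl
  have hfmem : ∀ g, f g ∈ Z := hcen
  have hker : ∀ g, g ∈ cn y ↔ f g = 1 := by
    intro g
    rw [mem_cn, hf]
    constructor
    · intro h
      have e : y * g = g * y := h.symm
      rw [e]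
      group
    · intro h
      have h1 : y * g * y⁻¹ = g := mul_inv_eq_one.1 h
      have h2 : y * g = g * y := mul_inv_eq_iff_eq_mul.1 h1
      exact h2.symm
  have hCk : cn y = f.ker := by
    ext g
    rw [hker, MonoidHom.mem_ker]
  let C := cn x
  have hCk' : C = f.ker := hCeq.trans hCk
  haveI hCn : C.Normal := by
    rw [hCk']
    exact MonoidHom.normal_ker f
  -- powers
  have hpow : ∀ g : P, g ^ p ∈ C := by
    intro g
    rw [hCk', MonoidHom.mem_ker, map_pow]
    have h1 : ∀ n : ℕ, y ^ n * g * (y ^ n)⁻¹ = (f g) ^ n * g := by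
      intro n
      induction n with
      | zero => simp
      | succ n ih =>
        calc y ^ (n + 1) * g * (y ^ (n + 1))⁻¹ = y * (y ^ n * g * (y ^ n)⁻¹) * y⁻¹ := by
              rw [pow_succ']
              group
          _ = y * ((f g) ^ n * g) * y⁻¹ := by rw [ih]
          _ = (f g) ^ n * (y * g * y⁻¹) := by
              have h2 : Commute y ((f g) ^ n) := by
                apply Commute.pow_right
                exact ((central_comm (hfmem g) y))
              calc y * ((f g) ^ n * g) * y⁻¹ = (y * (f g) ^ n) * g * y⁻¹ := by group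
                _ = ((f g) ^ n * y) * g * y⁻¹ := by rw [h2.eq]
                _ = _ := by group
          _ = (f g) ^ n * (f g * g) := by
              congr 1
              rw [hf]
              group
          _ = _ := by
              rw [pow_succ]
              group
    have h2 := h1 p
    have h3 : y ^ p * g * (y ^ p)⁻¹ = g := by
      rw [central_comm hyp g |>.symm]
      group
    rw [h3] at h2
    have h4 : (f g) ^ p * g = 1 * g := by rw [← h2, one_mul]
    exact mul_right_cancel h4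
  let A : Subgroup P := C ⊓ Subgroup.centralizer (C : Set P)
  haveI hAn : A.Normal := ⟨by
    rintro a ⟨ha1, ha2⟩ t
    refine ⟨hCn.conj_mem a ha1 t, ?_⟩
    show t * a * t⁻¹ ∈ Subgroup.centralizer (C : Set P)
    rw [Subgroup.mem_centralizer_iff]
    intro c hc
    have h1 := Subgroup.mem_centralizer_iff.1 ha2 (t⁻¹ * c * t) (by simpa using hCn.conj_mem c hc t⁻¹)
    calc c * (t * a * t⁻¹) = t * ((t⁻¹ * c * t) * a) * t⁻¹ := by group
      _ = t * (a * (t⁻¹ * c * t)) * t⁻¹ := by rw [h1]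
      _ = _ := by group⟩
  have hcomm : ∀ a ∈ A, ∀ b ∈ A, a * b = b * a := fun a ha b hb =>
    Subgroup.mem_centralizer_iff.1 hb.2 a ha.1
  have hxA : x ∈ A := ⟨mem_cn.2 rfl, Subgroup.mem_centralizer_iff.2 fun c hc => mem_cn.1 hc⟩
  have hCA : ∀ c ∈ C, ∀ a ∈ A, c * a * c⁻¹ = a := by
    intro c hc a ha
    rw [Subgroup.mem_centralizer_iff.1 ha.2 c hc]
    group
  have hfix : ∀ e, e ∉ C → ∀ a ∈ A, e * a * e⁻¹ = a → a ∈ Z := by
    intro e he a ha hea
    by_contra haZ
    have hle : C ≤ cn a := fun c hc => mem_cn.2 (Subgroup.mem_centralizer_iff.1 ha.2 c hc)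
    have h1 : C = cn a := heq hxZ haZ hle
    apply he
    rw [h1, mem_cn]
    exact mul_inv_eq_iff_eq_mul.1 hea
  obtain ⟨n, hn⟩ : ∃ n, p = n + 1 := Nat.exists_eq_succ_of_ne_zero hp.out.ne_zero
  by_cases hcase : ∃ h k : P, h ∉ C ∧ ∀ j, j < p → k * h ^ j ∉ C
  · obtain ⟨h, k, hh0, hk⟩ := hcase
    have hh : ∀ i, i < n → h ^ (i + 1) ∉ C := by
      intro i hi hmem
      apply hh0
      have h1 : (h : P ⧸ C) ^ p = 1 := (QuotientGroup.eq_one_iff _).2 (hpow h)
      have h2 : (h : P ⧸ C) ^ (i + 1) = 1 := (QuotientGroup.eq_one_iff _).2 hmem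
      have h3 : orderOf (h : P ⧸ C) ∣ Nat.gcd p (i + 1) :=
        Nat.dvd_gcd (orderOf_dvd_of_pow_eq_one h1) (orderOf_dvd_of_pow_eq_one h2)
      have h4 : Nat.gcd p (i + 1) = 1 :=
        (Nat.Prime.coprime_iff_not_dvd hp.out).2 (Nat.not_dvd_of_pos_of_lt (by omega) (by omega))
      rw [h4, Nat.dvd_one, orderOf_eq_one_iff] at h3
      exact (QuotientGroup.eq_one_iff _).1 h3
    have hcm : (k * h)⁻¹ * (h * k) ∈ C := by
      rw [hCk', MonoidHom.mem_ker, map_mul, map_inv, map_mul, map_mul, central_comm (hfmem h) (f k)]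
      group
    have h1 := key_abs A hcomm Z hZn n C hCA (fun g => by rw [← hn]; exact hpow g) hfix h k hh
      (fun j hj => hk j (by omega)) hcm hxA
    rw [← hn] at h1
    exact hxp h1
  · push_neg at hcase
    obtain ⟨h, hh0⟩ : ∃ h, h ∉ C := by
      by_contra hcon
      push_neg at hcon
      apply hxZ
      rw [Subgroup.mem_center_iff]
      intro g
      exact mem_cn.1 (hcon g)
    have hidxC : C.index ≤ p := by
      let F : Fin p → P ⧸ C := fun j => (((h ^ (j : ℕ))⁻¹ : P) : P ⧸ C)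
      have hs : Function.Surjective F := by
        intro q
        obtain ⟨k, rfl⟩ := QuotientGroup.mk_surjective q
        obtain ⟨j, hj, hm⟩ := hcase h k hh0
        refine ⟨⟨j, hj⟩, ?_⟩
        apply QuotientGroup.eq.2
        have e : ((h ^ j)⁻¹)⁻¹ * k = h ^ j * (k * h ^ j) * (h ^ j)⁻¹ := by group
        show ((h ^ j)⁻¹)⁻¹ * k ∈ C
        rw [e]
        exact hCn.conj_mem _ hm _
      have h1 := Nat.card_le_card_of_surjective F hs
      simpa [Subgroup.index] using h1
    have hhZ : h ∉ Z := fun hz => hh0 (mem_cn.2 (central_comm hz x).symm)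
    have hm1 : (cn h).index ≤ p := by
      rw [hI h hhZ, ← hI x hxZ]
      exact hidxC
    letI : Fintype (P ⧸ cn h) := Fintype.ofFinite _
    have hcard : Fintype.card (P ⧸ cn h) < Fintype.card (Fin (p + 1)) := by
      rw [Fintype.card_fin, ← Nat.card_eq_fintype_card]
      have : Nat.card (P ⧸ cn h) = (cn h).index := rfl
      omega
    have key : ∀ i i' : Fin (p + 1), i < i' → ((x ^ (i : ℕ) : P) : P ⧸ cn h) = ((x ^ (i' : ℕ) : P) : P ⧸ cn h) → False := by
      intro i i' hlt he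
      have h1 : (x ^ (i : ℕ))⁻¹ * x ^ (i' : ℕ) ∈ cn h := QuotientGroup.eq.1 he
      have hlt' : (i : ℕ) < i' := hlt
      have e : (x ^ (i : ℕ))⁻¹ * x ^ (i' : ℕ) = x ^ ((i' : ℕ) - i) := by
        rw [inv_mul_eq_iff_eq_mul, ← pow_add]
        congr 1
        omega
      rw [e] at h1
      have hxm : x ^ ((i' : ℕ) - i) ∈ A := A.pow_mem hxA _
      have h2 : x ^ ((i' : ℕ) - i) ∈ Z := by
        apply hfix h hh0 _ hxm
        have h3 := mem_cn.1 h1
        rw [← h3]
        group
      have hi' := i'.2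
      by_cases hmp : (i' : ℕ) - i = p
      · rw [hmp] at h2
        exact hxp h2
      · have hlt2 : (i' : ℕ) - i < p := by omega
        have hcop : Nat.Coprime ((i' : ℕ) - i) p := by
          apply Nat.Coprime.symm
          exact (Nat.Prime.coprime_iff_not_dvd hp.out).2 (Nat.not_dvd_of_pos_of_lt (by omega) hlt2)
        obtain ⟨s, hs⟩ := IsPGroup.iff_orderOf.1 hP x
        have hcop2 : Nat.Coprime ((i' : ℕ) - i) (orderOf x) := by
          rw [hs]
          exact Nat.Coprime.pow_right s hcop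
        obtain ⟨r, hr⟩ := exists_pow_eq_self_of_coprime hcop2
        apply hxZ
        rw [← hr]
        exact Z.pow_mem h2 r
    obtain ⟨i, i', hne, he⟩ := Fintype.exists_ne_map_eq_of_card_lt
      (fun i : Fin (p + 1) => ((x ^ (i : ℕ) : P) : P ⧸ cn h)) hcard
    rcases lt_or_gt_of_ne hne with hlt | hlt
    · exact key i i' hlt he
    · exact key i' i hlt he.symm

end Main

end Cfsg.Agent.Lib.ItoExp
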