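import Mathlib
import Cfsg.Agent.S3864
import Cfsg.Agent.S0111
import Cfsg.Agent.Lib.HSub
import Cfsg.Agent.Lib.H2Basic
import Cfsg.Agent.Lib.PSL2V4b
import Cfsg.Agent.Lib.H5Basic

/-!
Four-subgroups of a finite group with dihedral Sylow `2`-subgroup: one class when the Sylow has
order four, exactly two classes otherwise.
-/

set_option autoImplicit false
set_option linter.all false
set_option backward.isDefEq.respectTransparency false

namespace Cfsg.Agent.Lib.KleinDih

open DihedralGroup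
open Cfsg.Agent.S3864 (mz mz_add mz_ne mz_half invol_r two_dvd chi chi_sr even_form odd_form)

section W
variable {N : ℕ}

/-- The four-subgroup `{1, r h, sr i, sr (i + h)}`. -/
def W (h : ZMod N) (hh : h + h = 0) (i : ZMod N) : Subgroup (DihedralGroup N) where
  carrier := {d | d = r 0 ∨ d = r h ∨ d = sr i ∨ d = sr (i + h)}
  one_mem' := Or.inl rfl
  mul_mem' := by
    have hneg : -h = h := by linear_combination -hh
    have hsub : ∀ x : ZMod N, x - h = x + h := by intro x; linear_combination -hh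
    rintro a b (rfl | rfl | rfl | rfl) (rfl | rfl | rfl | rfl) <;>
      simp only [Set.mem_setOf_eq, r_mul_r, r_mul_sr, sr_mul_r, sr_mul_sr] <;>
      simp [hh, hneg, hsub, add_assoc]
  inv_mem' := by
    rintro a (rfl | rfl | rfl | rfl)
    · left; rw [inv_r]; simp
    · right; left; rw [inv_r]; congr 1; linear_combination -hh
    · right; right; left; rw [inv_sr]
    · right; right; right; rw [inv_sr]

theorem mem_W (h : ZMod N) (hh : h + h = 0) (i : ZMod N) (d : DihedralGroup N) :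
    d ∈ W h hh i ↔ d = r 0 ∨ d = r h ∨ d = sr i ∨ d = sr (i + h) := Iff.rfl

theorem card_W (h : ZMod N) (hh : h + h = 0) (hne : h ≠ 0) (i : ZMod N) : Nat.card (W h hh i) = 4 := by
  classical
  have h1 : ((W h hh i : Subgroup (DihedralGroup N)) : Set (DihedralGroup N)) =
      ↑({r 0, r h, sr i, sr (i + h)} : Finset (DihedralGroup N)) := by
    ext d
    simp only [Finset.coe_insert, Finset.coe_singleton, Set.mem_insert_iff, Set.mem_singleton_iff]
    rfl
  have h2 : Nat.card (W h hh i) = Set.ncard ((W h hh i : Subgroup (DihedralGroup N)) : Set (DihedralGroup N)) :=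
    Nat.card_coe_set_eq _
  rw [h2, h1, Set.ncard_coe_finset]
  rw [Finset.card_insert_of_notMem, Finset.card_insert_of_notMem, Finset.card_insert_of_notMem,
    Finset.card_singleton]
  · simp only [Finset.mem_singleton]
    intro e
    apply hne
    have := sr.inj e
    linear_combination -this
  · simp only [Finset.mem_insert, Finset.mem_singleton, not_or]
    exact ⟨fun e => (by cases e), fun e => (by cases e)⟩
  · simp only [Finset.mem_insert, Finset.mem_singleton, not_or]
    exact ⟨fun e => hne (r.inj e).symm, fun e => (by cases e), fun e => (by cases e)⟩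

theorem sq_W (h : ZMod N) (hh : h + h = 0) (i : ZMod N) (d : DihedralGroup N) (hd : d ∈ W h hh i) :
    d * d = 1 := by
  rcases (mem_W _ _ _ _).1 hd with rfl | rfl | rfl | rfl
  · rw [r_mul_r, one_def]; simp
  · rw [r_mul_r, one_def, hh]
  · rw [sr_mul_sr, one_def]; simp
  · rw [sr_mul_sr, one_def]; simp

theorem conj_W (h : ZMod N) (hh : h + h = 0) (c a : ZMod N) (d : DihedralGroup N)
    (hd : d ∈ W h hh (c + (a + a))) : r a * d * (r a)⁻¹ ∈ W h hh c := by
  rw [mem_W]
  rcases (mem_W _ _ _ _).1 hd with rfl | rfl | rfl | rfl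
  · left; rw [inv_r, r_mul_r, r_mul_r]; congr 1; ring
  · right; left; rw [inv_r, r_mul_r, r_mul_r]; congr 1; ring
  · right; right; left; rw [inv_r, r_mul_sr, sr_mul_r]; congr 1; ring
  · right; right; right; rw [inv_r, r_mul_sr, sr_mul_r]; congr 1; ring

end W

theorem klein_of {Y : Type*} [Group Y] (h4 : Nat.card Y = 4) (h2 : ∀ y : Y, y * y = 1) : IsKleinFour Y := by
  refine ⟨h4, ?_⟩
  have hd : Monoid.exponent Y ∣ 2 := Monoid.exponent_dvd_of_forall_pow_eq_one (fun y => by rw [sq, h2])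
  rcases (Nat.dvd_prime Nat.prime_two).1 hd with h | h
  · exfalso
    rw [Monoid.exp_eq_one_iff] at h
    rw [Nat.card_of_subsingleton (1 : Y)] at h4
    omega
  · exact h

section Step
variable {C : Type*} [Group C] [Finite C]

theorem stepC (P : Sylow 2 C) {N k : ℕ} (hN : N = 2 ^ (k + 2)) [NeZero N]
    (ι : DihedralGroup N →* C) (hinj : Function.Injective ι) (hrange : ι.range = (P : Subgroup C))
    (hcen : ∀ g : C, g * ι (r (mz N k)) = ι (r (mz N k)) * g) (x : C)
    (hx : x * ι (sr 0) * x⁻¹ = ι (sr 1)) : False := by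
  classical
  haveI : Fact (Nat.Prime 2) := ⟨Nat.prime_two⟩
  let ρ : C := ι (r 1)
  let Q : Subgroup C := Subgroup.zpowers ρ
  let u : C := ι (sr 0)
  let T1 : C := ι (sr 1)
  have hmemP : ∀ d, ι d ∈ (P : Subgroup C) := fun d => by rw [← hrange]; exact ⟨d, rfl⟩
  have hPd : ∀ y ∈ (P : Subgroup C), ∃ d, ι d = y := fun y hy => by rw [← hrange] at hy; exact hy
  have hQP : Q ≤ (P : Subgroup C) := Subgroup.zpowers_le.2 (hmemP _)
  have hρord : orderOf ρ = N := by
    rw [orderOf_injective ι hinj, orderOf_r_one]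
  have hcQ : Nat.card Q = N := by rw [Nat.card_zpowers, hρord]
  have hcP : Nat.card (P : Subgroup C) = 2 * N := by
    rw [← hrange, ← nat_card (n := N)]
    exact (Nat.card_congr (MonoidHom.ofInjective hinj).toEquiv).symm
  have hNpos : 0 < N := Nat.pos_of_ne_zero (NeZero.ne N)
  have hQi : Q.relIndex (P : Subgroup C) = 2 := by
    have h1 := Subgroup.card_mul_index (Q.subgroupOf (P : Subgroup C))
    have h2 : Nat.card (Q.subgroupOf (P : Subgroup C)) = N := by
      rw [← hcQ]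
      exact Nat.card_congr (Subgroup.subgroupOfEquivOfLe hQP).toEquiv
    rw [h2, hcP] at h1
    have h3 : N * (Q.subgroupOf (P : Subgroup C)).index = N * 2 := by rw [h1]; ring
    exact Nat.eq_of_mul_eq_mul_left hNpos h3
  have hu : orderOf u = 2 := by rw [orderOf_injective ι hinj, orderOf_sr]
  have hrot : ∀ y ∈ Q, ∃ n : ℕ, y = ι (r (n : ZMod N)) := by
    intro y hy
    obtain ⟨n, hn⟩ := (mem_powers_iff_mem_zpowers).2 hy
    refine ⟨n, ?_⟩
    rw [← hn]
    change ι (r 1) ^ n = _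
    rw [← map_pow, r_one_pow]
  have huQ : u ∉ Q := by
    intro h
    obtain ⟨n, hn⟩ := hrot u h
    have := hinj hn
    cases this
  have hrQ : ∀ i : ZMod N, ι (r i) ∈ Q := by
    intro i
    have h1 : (r i : DihedralGroup N) = r 1 ^ i.val := by
      rw [r_one_pow, ZMod.natCast_zmod_val]
    rw [h1, map_pow]
    exact Subgroup.pow_mem _ (Subgroup.mem_zpowers _) _
  rcases Cfsg.Agent.S0111.result P Q hQP hQi u hu (hmemP _) huQ with ⟨M, hMn, hMi, huM⟩ | ⟨g, hg⟩
  · -- the index two subgroup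
    haveI := hMn
    have hT1M : T1 ∉ M := by
      intro h
      apply huM
      have h2 := hMn.conj_mem _ h x⁻¹
      have h3 : x⁻¹ * T1 * x⁻¹⁻¹ = u := by
        change x⁻¹ * ι (sr 1) * x⁻¹⁻¹ = ι (sr 0)
        rw [← hx]
        group
      rwa [h3] at h2
    have hρM : ρ ∈ M := by
      have h1 : u * T1 = ρ := by
        change ι (sr 0) * ι (sr 1) = ι (r 1)
        rw [← map_mul, sr_mul_sr]
        simp
      rw [← h1, Subgroup.mul_mem_iff_of_index_two hMi]
      exact iff_of_false huM hT1M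
    have hQM : Q ≤ M := Subgroup.zpowers_le.2 hρM
    let Q' : Subgroup M := Q.subgroupOf M
    have hcQ' : Nat.card Q' = N := by
      rw [← hcQ]
      exact Nat.card_congr (Subgroup.subgroupOfEquivOfLe hQM).toEquiv
    have hQ'p : IsPGroup 2 Q' := IsPGroup.of_card (n := k + 2) (by rw [hcQ', hN])
    obtain ⟨T, hT⟩ := hQ'p.exists_le_sylow
    have hcM : Nat.card M * 2 = Nat.card C := by
      have := Subgroup.card_mul_index M
      rwa [hMi] at this
    have hcPi := Subgroup.card_mul_index (P : Subgroup C)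
    rw [hcP] at hcPi
    have hcM2 : Nat.card M = N * (P : Subgroup C).index := by
      have h1 : Nat.card M * 2 = (N * (P : Subgroup C).index) * 2 := by
        rw [hcM, ← hcPi]; ring
      exact Nat.eq_of_mul_eq_mul_right (by norm_num) h1
    have hidx : ¬ 2 ∣ (P : Subgroup C).index := P.not_dvd_index
    have hidxco : Nat.Coprime 2 (P : Subgroup C).index :=
      (Nat.Prime.coprime_iff_not_dvd Nat.prime_two).2 hidx
    have hcT : Nat.card T ≤ N := by
      obtain ⟨a, ha⟩ := T.isPGroup'.exists_card_eq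
      have h1 : Nat.card T ∣ Nat.card M := Subgroup.card_subgroup_dvd_card _
      rw [hcM2, ha] at h1
      have h2 : 2 ^ a ∣ N := Nat.Coprime.dvd_of_dvd_mul_right (Nat.Coprime.pow_left a hidxco) h1
      rw [ha]
      exact Nat.le_of_dvd hNpos h2
    have hTeq : Q' = (T : Subgroup M) :=
      Subgroup.eq_of_le_of_card_ge hT (by rw [hcQ']; exact hcT)
    have hcycQ' : IsCyclic Q' :=
      isCyclic_of_injective (Subgroup.subgroupOfEquivOfLe hQM).toMonoidHom
        (Subgroup.subgroupOfEquivOfLe hQM).injective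
    have hcycT : IsCyclic (T : Subgroup M) := by rw [← hTeq]; exact hcycQ'
    obtain ⟨P₀, N₀, hN₀n, hcomp⟩ :=
      Cfsg.Agent.Lib.HSub.npc_of_cyclic (p := 2) (G := M) (fun q hq _ => hq.two_le) T hcycT
    haveI := hN₀n
    have hcP₀ : Nat.card P₀ = N := by
      have h1 : Nat.card P₀ = Nat.card T := Nat.card_congr (P₀.equiv T).toEquiv
      have h2 : Nat.card T = N := by
        have h3 : Nat.card (T : Subgroup M) = Nat.card Q' := by rw [← hTeq]
        rw [hcQ'] at h3
        exact h3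
      rw [h1, h2]
    have hcN₀ : Nat.card N₀ = (P : Subgroup C).index := by
      have h1 := hcomp.card_mul
      rw [hcP₀, hcM2] at h1
      have h2 : N * Nat.card N₀ = N * (P : Subgroup C).index := by rw [← h1]; ring
      exact Nat.eq_of_mul_eq_mul_left hNpos h2
    have hidxN₀ : N₀.index = N := by
      have h1 := Subgroup.card_mul_index N₀
      rw [hcN₀, hcM2, mul_comm N] at h1
      exact Nat.eq_of_mul_eq_mul_left (Nat.pos_of_ne_zero (Subgroup.index_ne_zero_of_finite)) h1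
    have hNco : ∀ y : C, Nat.Coprime 2 (orderOf y) → Nat.Coprime N (orderOf y) := by
      intro y hy
      rw [hN]
      exact Nat.Coprime.pow_left _ hy
    let N₁ : Subgroup C := N₀.map M.subtype
    have hN₁iff : ∀ y : C, y ∈ N₁ ↔ y ∈ M ∧ Nat.Coprime 2 (orderOf y) := by
      intro y
      constructor
      · rintro ⟨n, hn, rfl⟩
        refine ⟨n.2, ?_⟩
        have h1 : orderOf ((n : M) : C) = orderOf n := Subgroup.orderOf_coe n
        have h2 : orderOf n ∣ Nat.card N₀ := by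
          have := Subgroup.orderOf_dvd_natCard N₀ hn
          exact this
        rw [hcN₀] at h2
        change Nat.Coprime 2 (orderOf ((n : M) : C))
        rw [h1]
        exact Nat.Coprime.coprime_dvd_right h2 hidxco
      · rintro ⟨hyM, hyo⟩
        let y' : M := ⟨y, hyM⟩
        have h1 : y' ^ N₀.index ∈ N₀ := Subgroup.pow_index_mem N₀ y'
        rw [hidxN₀] at h1
        have h2 : Nat.Coprime N (orderOf y') := by
          have h3 : orderOf y' = orderOf y := Subgroup.orderOf_mk y hyM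
          rw [h3]
          exact hNco y hyo
        obtain ⟨c, hc⟩ := exists_pow_eq_self_of_coprime h2
        have h4 : y' ∈ N₀ := by
          rw [← hc]
          exact Subgroup.pow_mem _ h1 _
        exact ⟨y', h4, rfl⟩
    have hordconj : ∀ g y : C, orderOf (g * y * g⁻¹) = orderOf y := by
      intro g y
      exact orderOf_injective (MulAut.conj g).toMonoidHom (MulEquiv.injective _) y
    have hN₁n : N₁.Normal := by
      constructor
      intro n hn g
      rw [hN₁iff] at hn ⊢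
      refine ⟨hMn.conj_mem _ hn.1 g, ?_⟩
      rw [hordconj]
      exact hn.2
    haveI := hN₁n
    have hcN₁ : Nat.card N₁ = (P : Subgroup C).index := by
      rw [← hcN₀]
      exact Subgroup.card_map_of_injective M.subtype_injective
    have hcomp₁ : Subgroup.IsComplement' N₁ (P : Subgroup C) := by
      apply Subgroup.isComplement'_of_coprime
      · rw [hcN₁, mul_comm, hcP]
        exact hcPi
      · rw [hcN₁, hcP, hN]
        have h1 : 2 * 2 ^ (k + 2) = 2 ^ (k + 3) := by ring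
        rw [h1]
        exact (Nat.Coprime.pow_left _ hidxco).symm
    obtain ⟨⟨⟨n, hn⟩, ⟨s, hs⟩⟩, hns, _⟩ := Subgroup.IsComplement.existsUnique hcomp₁ x
    have hns' : n * s = x := hns
    obtain ⟨d, rfl⟩ := hPd s hs
    have h5 : n * (ι d * u * (ι d)⁻¹) * n⁻¹ = T1 := by
      change _ = ι (sr 1)
      rw [← hx, ← hns']
      change n * (ι d * ι (sr 0) * (ι d)⁻¹) * n⁻¹ = _
      group
    have hu'P : ι d * u * (ι d)⁻¹ = ι (d * sr 0 * d⁻¹) := by
      change ι d * ι (sr 0) * (ι d)⁻¹ = _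
      simp only [map_mul, map_inv]
    have h6 : T1 * (ι d * u * (ι d)⁻¹)⁻¹ ∈ (P : Subgroup C) := by
      rw [hu'P]
      exact (P : Subgroup C).mul_mem (hmemP _) ((P : Subgroup C).inv_mem (hmemP _))
    have h7 : T1 * (ι d * u * (ι d)⁻¹)⁻¹ ∈ N₁ := by
      rw [← h5]
      obtain ⟨w, hw⟩ : ∃ w, w = ι d * u * (ι d)⁻¹ := ⟨_, rfl⟩
      rw [← hw]
      have h8 : n * w * n⁻¹ * w⁻¹ = n * (w * n⁻¹ * w⁻¹) := by group
      rw [h8]
      exact N₁.mul_mem hn (hN₁n.conj_mem _ (N₁.inv_mem hn) w)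
    have h9 := Subgroup.disjoint_def.1 hcomp₁.disjoint h7 h6
    have h10 : T1 = ι d * u * (ι d)⁻¹ := mul_inv_eq_one.1 h9
    rw [hu'P] at h10
    have h11 : (sr 1 : DihedralGroup N) = d * sr 0 * d⁻¹ := hinj h10
    have h2d : 2 ∣ N := two_dvd hN
    let χ := chi h2d 1 0
    have h12 : χ (sr 1) = χ (sr 0) := by
      rw [h11, map_mul, map_mul, map_inv]
      rw [mul_comm (χ d), mul_assoc, mul_inv_cancel, mul_one]
    change chi h2d 1 0 (sr 1) = chi h2d 1 0 (sr 0) at h12
    rw [chi_sr, chi_sr, map_one, map_zero] at h12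
    have h13 := Multiplicative.ofAdd.injective h12
    have h14 : (1 : ZMod 2) = 0 := by simpa using h13
    exact one_ne_zero h14
  · -- the conjugate into the cyclic part
    obtain ⟨n, hn⟩ := hrot _ hg
    have h1 : orderOf (g * u * g⁻¹) = 2 := by
      have := orderOf_injective (MulAut.conj g).toMonoidHom (MulEquiv.injective _) u
      rw [← hu, ← this]
      rfl
    rw [hn, orderOf_injective ι hinj] at h1
    have h2 := invol_r hN _ h1
    rw [h2] at hn
    have h3 : g * u = ι (r (mz N k)) * g := by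
      rw [← hn]
      group
    rw [← hcen g] at h3
    have h4 := mul_left_cancel h3
    have := hinj h4
    cases this

end Step

section Main
variable {X : Type*} [Group X] [Finite X]

theorem stepC' (P : Sylow 2 X) {N k : ℕ} (hN : N = 2 ^ (k + 2)) [NeZero N]
    (ι : DihedralGroup N →* X) (hinj : Function.Injective ι) (hrange : ι.range = (P : Subgroup X))
    (x : X) (hxZ : x * ι (r (mz N k)) * x⁻¹ = ι (r (mz N k)))
    (hx : x * ι (sr 0) * x⁻¹ = ι (sr 1)) : False := by
  classical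
  have hh : mz N k + mz N k = 0 := mz_add hN
  have hneg : -mz N k = mz N k := by linear_combination -hh
  set Z : X := ι (r (mz N k)) with hZ
  let C : Subgroup X := Subgroup.centralizer {Z}
  have hmemP : ∀ d, ι d ∈ (P : Subgroup X) := fun d => by rw [← hrange]; exact ⟨d, rfl⟩
  have hzc : ∀ d : DihedralGroup N, d * r (mz N k) = r (mz N k) * d := by
    rintro (i | i)
    · rw [r_mul_r, r_mul_r, add_comm]
    · rw [sr_mul_r, r_mul_sr]
      congr 1
      linear_combination hh
  have hιC : ∀ d, ι d ∈ C := by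
    intro d
    rw [Subgroup.mem_centralizer_singleton_iff, hZ, ← map_mul, ← map_mul, hzc]
  have hPC : (P : Subgroup X) ≤ C := by
    intro y hy
    rw [← hrange] at hy
    obtain ⟨d, rfl⟩ := hy
    exact hιC d
  let P' : Sylow 2 C := P.subtype hPC
  let ι' : DihedralGroup N →* C := ι.codRestrict C hιC
  have hinj' : Function.Injective ι' := fun a b h => hinj (congrArg Subtype.val h)
  have hrange' : ι'.range = (P' : Subgroup C) := by
    ext y
    rw [Sylow.coe_subtype, Subgroup.mem_subgroupOf, ← hrange]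
    constructor
    · rintro ⟨d, rfl⟩
      exact ⟨d, rfl⟩
    · rintro ⟨d, hd⟩
      exact ⟨d, Subtype.ext hd⟩
  have hxC : x ∈ C := by
    rw [Subgroup.mem_centralizer_singleton_iff]
    calc x * Z = (x * Z * x⁻¹) * x := by group
      _ = Z * x := by rw [hxZ]
  refine stepC P' hN ι' hinj' hrange' ?_ ⟨x, hxC⟩ (Subtype.ext hx)
  intro g
  apply Subtype.ext
  exact Subgroup.mem_centralizer_singleton_iff.1 g.2

theorem not_conj (P : Sylow 2 X) {N k : ℕ} (hN : N = 2 ^ (k + 2)) [NeZero N]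
    (ι : DihedralGroup N →* X) (hinj : Function.Injective ι) (hrange : ι.range = (P : Subgroup X))
    (x : X) (hh : mz N k + mz N k = 0)
    (hx : ((W (mz N k) hh 0).map ι).map (MulAut.conj x).toMonoidHom = (W (mz N k) hh 1).map ι) : False := by
  classical
  have hneg : -mz N k = mz N k := by linear_combination -hh
  let h : ZMod N := mz N k
  obtain ⟨q, hq⟩ : ∃ q : ZMod N, mz N k = q + q := ⟨_, mz_half hN⟩
  set Z : X := ι (r (mz N k)) with hZ
  let A : X := ι (r q)
  let U₁ : Subgroup X := (W (mz N k) hh 0).map ι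
  let U₂ : Subgroup X := (W (mz N k) hh 1).map ι
  have hU : ∀ (c : ZMod N) (y : X), y ∈ (W (mz N k) hh c).map ι ↔
      y = 1 ∨ y = Z ∨ y = ι (sr c) ∨ y = ι (sr (c + mz N k)) := by
    intro c y
    constructor
    · rintro ⟨d, hd, rfl⟩
      rcases (mem_W _ _ _ _).1 hd with rfl | rfl | rfl | rfl
      · left
        rw [← one_def, map_one]
      · right; left; rfl
      · right; right; left; rfl
      · right; right; right; rfl
    · rintro (rfl | rfl | rfl | rfl)
      · exact Subgroup.one_mem _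
      · exact ⟨_, (mem_W _ _ _ _).2 (Or.inr (Or.inl rfl)), rfl⟩
      · exact ⟨_, (mem_W _ _ _ _).2 (Or.inr (Or.inr (Or.inl rfl))), rfl⟩
      · exact ⟨_, (mem_W _ _ _ _).2 (Or.inr (Or.inr (Or.inr rfl))), rfl⟩
  have hrelA : ∀ c : ZMod N, A * ι (sr c) * A⁻¹ = ι (sr (c + mz N k)) := by
    intro c
    change ι (r q) * ι (sr c) * (ι (r q))⁻¹ = _
    rw [← map_inv, ← map_mul, ← map_mul, inv_r, r_mul_sr, sr_mul_r]
    congr 2
    linear_combination hq - hh
  have hrelA' : ∀ c : ZMod N, A * ι (sr (c + mz N k)) * A⁻¹ = ι (sr c) := by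
    intro c
    rw [hrelA, add_assoc, hh, add_zero]
  have hAZ : A * Z * A⁻¹ = Z := by
    change ι (r q) * ι (r (mz N k)) * (ι (r q))⁻¹ = _
    rw [← map_inv, ← map_mul, ← map_mul, inv_r, r_mul_r, r_mul_r]
    congr 2
    ring
  have hAv : ∀ c : ZMod N, A * ι (sr c) * A⁻¹ = ι (sr c) * Z := by
    intro c
    rw [hrelA, hZ, ← map_mul, sr_mul_r]
  have hAU : ∀ (c : ZMod N) (y : X), y ∈ (W (mz N k) hh c).map ι →
      A * y * A⁻¹ ∈ (W (mz N k) hh c).map ι := by
    intro c y hy
    rw [hU] at hy ⊢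
    rcases hy with rfl | rfl | rfl | rfl
    · left; group
    · right; left; exact hAZ
    · right; right; right; exact hrelA c
    · right; right; left; exact hrelA' c
  have hZc : ∀ c : ZMod N, ι (sr c) * Z = Z * ι (sr c) := by
    intro c
    rw [hZ, ← map_mul, ← map_mul, sr_mul_r, r_mul_sr]
    congr 2
    linear_combination hh
  have hsq : ∀ c : ZMod N, ι (sr c) * ι (sr c) = 1 := by
    intro c
    rw [← map_mul, sr_mul_sr, sub_self, ← one_def, map_one]
  have hZ1 : Z ≠ 1 := by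
    intro e
    have h1 : ι (r (mz N k)) = ι (r 0) := by
      rw [← one_def, map_one]
      exact e
    have h2 := hinj h1
    exact mz_ne hN (r.inj h2)
  have hsr1 : ∀ c : ZMod N, ι (sr c) ≠ 1 := by
    intro c e
    have h1 : ι (sr c) = ι (r 0) := by
      rw [← one_def, map_one]
      exact e
    have h2 := hinj h1
    cases h2
  have hsrZ : ∀ c : ZMod N, ι (sr c) ≠ Z := by
    intro c e
    have h2 := hinj e
    cases h2
  have hfw : ∀ y, y ∈ U₁ → x * y * x⁻¹ ∈ U₂ := by
    intro y hy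
    have h1 : (MulAut.conj x).toMonoidHom y ∈ U₁.map (MulAut.conj x).toMonoidHom := ⟨y, hy, rfl⟩
    rw [hx] at h1
    exact h1
  have hbw : ∀ y, y ∈ U₂ → x⁻¹ * y * x ∈ U₁ := by
    intro y hy
    have hy2 : y ∈ U₁.map (MulAut.conj x).toMonoidHom := by rw [hx]; exact hy
    obtain ⟨y₀, hy₀, rfl⟩ := hy2
    have : x⁻¹ * (MulAut.conj x).toMonoidHom y₀ * x = y₀ := by
      change x⁻¹ * (x * y₀ * x⁻¹) * x = y₀
      group
    rw [this]
    exact hy₀
  have hZU : ∀ c : ZMod N, Z ∈ (W (mz N k) hh c).map ι := by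
    intro c
    rw [hU]
    right; left; rfl
  have hT0U : ι (sr 0) ∈ U₁ := by
    change _ ∈ (W (mz N k) hh 0).map ι
    rw [hU]
    right; right; left; rfl
  have hsrc : ∀ (c : ZMod N) (y : X), y ∈ (W (mz N k) hh c).map ι → y ≠ 1 → y ≠ Z → ∃ c', y = ι (sr c') := by
    intro c y hy h1 h2
    rw [hU] at hy
    rcases hy with h | h | h | h
    · exact absurd h h1
    · exact absurd h h2
    · exact ⟨_, h⟩
    · exact ⟨_, h⟩
  obtain ⟨x₁, hx₁Z, hx₁T⟩ : ∃ x₁ : X, x₁ * Z * x₁⁻¹ = Z ∧ x₁ * ι (sr 0) * x₁⁻¹ ∈ U₂ := by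
    by_cases hw : x * Z * x⁻¹ = Z
    · exact ⟨x, hw, hfw _ hT0U⟩
    · have hv1 : x⁻¹ * Z * x ≠ 1 := by
        intro e
        apply hZ1
        have : Z = x * (x⁻¹ * Z * x) * x⁻¹ := by group
        rw [this, e]
        group
      have hvZ : x⁻¹ * Z * x ≠ Z := by
        intro e
        have h1 : Z * x = x * Z := by
          calc Z * x = x * (x⁻¹ * Z * x) := by group
            _ = x * Z := by rw [e]
        apply hw
        rw [← h1]
        group
      obtain ⟨c₁, hc₁⟩ := hsrc 0 _ (hbw Z (hZU 1)) hv1 hvZ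
      have hw1 : x * Z * x⁻¹ ≠ 1 := by
        intro e
        apply hZ1
        have : Z = x⁻¹ * (x * Z * x⁻¹) * x := by group
        rw [this, e]
        group
      obtain ⟨c₂, hc₂⟩ := hsrc 1 _ (hfw Z (hZU 0)) hw1 hw
      obtain ⟨v, hv⟩ : ∃ v, v = ι (sr c₁) := ⟨_, rfl⟩
      obtain ⟨w, hw'⟩ : ∃ w, w = ι (sr c₂) := ⟨_, rfl⟩
      rw [← hv] at hc₁
      rw [← hw'] at hc₂
      have hAv₁ : A * v * A⁻¹ = v * Z := by rw [hv]; exact hAv c₁
      have hAw : A * w * A⁻¹ = w * Z := by rw [hw']; exact hAv c₂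
      have hwZ : w * Z = Z * w := by rw [hw']; exact hZc c₂
      have hww : w * w = 1 := by rw [hw']; exact hsq c₂
      have hxv : x * v * x⁻¹ = Z := by rw [← hc₁]; group
      have hxw : x⁻¹ * w * x = Z := by rw [← hc₂]; group
      obtain ⟨ξ, hξ⟩ : ∃ ξ, ξ = x * A * x⁻¹ := ⟨_, rfl⟩
      have hξw : ξ * w * ξ⁻¹ = w := by
        have : ξ * w * ξ⁻¹ = x * (A * (x⁻¹ * w * x) * A⁻¹) * x⁻¹ := by rw [hξ]; group
        rw [this, hxw, hAZ, ← hc₂]
      have hξZ : ξ * Z * ξ⁻¹ = Z * w := by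
        have : ξ * Z * ξ⁻¹ = x * (A * (x⁻¹ * Z * x) * A⁻¹) * x⁻¹ := by rw [hξ]; group
        rw [this, hc₁, hAv₁]
        have : x * (v * Z) * x⁻¹ = (x * v * x⁻¹) * (x * Z * x⁻¹) := by group
        rw [this, hxv, hc₂]
      refine ⟨ξ * A * x, ?_, ?_⟩
      · have h1 : (ξ * A * x) * Z * (ξ * A * x)⁻¹ = ξ * (A * (x * Z * x⁻¹) * A⁻¹) * ξ⁻¹ := by group
        rw [h1, hc₂, hAw]
        have h2 : ξ * (w * Z) * ξ⁻¹ = (ξ * w * ξ⁻¹) * (ξ * Z * ξ⁻¹) := by group
        rw [h2, hξw, hξZ]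
        calc w * (Z * w) = (w * Z) * w := by group
          _ = (Z * w) * w := by rw [hwZ]
          _ = Z * (w * w) := by group
          _ = Z := by rw [hww, mul_one]
      · have h1 : (ξ * A * x) * ι (sr 0) * (ξ * A * x)⁻¹ =
            x * (A * (x⁻¹ * (A * (x * ι (sr 0) * x⁻¹) * A⁻¹) * x) * A⁻¹) * x⁻¹ := by
          rw [hξ]; group
        rw [h1]
        exact hfw _ (hAU 0 _ (hbw _ (hAU 1 _ (hfw _ hT0U))))
  have ht1 : x₁ * ι (sr 0) * x₁⁻¹ ≠ 1 := by
    intro e
    apply hsr1 0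
    have : ι (sr 0) = x₁⁻¹ * (x₁ * ι (sr 0) * x₁⁻¹) * x₁ := by group
    rw [this, e]
    group
  have htZ : x₁ * ι (sr 0) * x₁⁻¹ ≠ Z := by
    intro e
    apply hsrZ 0
    have h1 : x₁ * ι (sr 0) * x₁⁻¹ = x₁ * Z * x₁⁻¹ := by rw [e, hx₁Z]
    have h2 := mul_right_cancel h1
    exact mul_left_cancel h2
  have hx₁T' := hx₁T
  change _ ∈ (W (mz N k) hh 1).map ι at hx₁T'
  rw [hU] at hx₁T'
  rcases hx₁T' with h | h | h | h
  · exact ht1 h
  · exact htZ h
  · exact stepC' P hN ι hinj hrange x₁ hx₁Z h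
  · refine stepC' P hN ι hinj hrange (A * x₁) ?_ ?_
    · have h1 : (A * x₁) * ι (r (mz N k)) * (A * x₁)⁻¹ = A * (x₁ * Z * x₁⁻¹) * A⁻¹ := by
        rw [hZ]; group
      rw [h1, hx₁Z, hAZ]
    · have h1 : (A * x₁) * ι (sr 0) * (A * x₁)⁻¹ = A * (x₁ * ι (sr 0) * x₁⁻¹) * A⁻¹ := by group
      rw [h1, h]
      exact hrelA' 1

theorem classify (P : Sylow 2 X) {N k : ℕ} (hN : N = 2 ^ (k + 2)) [NeZero N]
    (ι : DihedralGroup N →* X) (hinj : Function.Injective ι) (hrange : ι.range = (P : Subgroup X))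
    (hh : mz N k + mz N k = 0) (V : Subgroup X) (hV : IsKleinFour V) :
    (∃ x, V.map (MulAut.conj x).toMonoidHom = (W (mz N k) hh 0).map ι) ∨
      (∃ x, V.map (MulAut.conj x).toMonoidHom = (W (mz N k) hh 1).map ι) := by
  classical
  haveI : Fact (Nat.Prime 2) := ⟨Nat.prime_two⟩
  have hVp : IsPGroup 2 V := IsPGroup.of_card (n := 2) (by rw [hV.card_four]; norm_num)
  obtain ⟨Q, hQ⟩ := hVp.exists_le_sylow
  obtain ⟨g, hg⟩ := MulAction.exists_smul_eq X P Q
  have hV' : ∀ y ∈ V, g⁻¹ * y * g ∈ (P : Subgroup X) := by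
    intro y hy
    apply Cfsg.Agent.Lib.H5Basic.mem_of_mem_smul_sylow P g y
    rw [hg]
    exact hQ hy
  have hPd : ∀ y ∈ (P : Subgroup X), ∃ d, ι d = y := fun y hy => by rw [← hrange] at hy; exact hy
  let V' : Subgroup X := V.map (MulAut.conj g⁻¹).toMonoidHom
  have hV'mem : ∀ y ∈ V, g⁻¹ * y * g ∈ V' := by
    intro y hy
    refine ⟨y, hy, ?_⟩
    change g⁻¹ * y * g⁻¹⁻¹ = _
    group
  have hV'sq : ∀ y ∈ V', y * y = 1 := by
    rintro _ ⟨y, hy, rfl⟩
    rw [← map_mul, Cfsg.Agent.Lib.H2Basic.mul_self_of_isKleinFour hV hy, map_one]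
  have hinv2 : ∀ j : ZMod N, ι (r j) ∈ V' → r j ≠ 1 → j = mz N k := by
    intro j hj hne
    have h1 := hV'sq _ hj
    rw [← map_mul] at h1
    have h2 : (r j : DihedralGroup N) * r j = 1 := hinj (by rw [h1, map_one])
    apply invol_r hN
    apply orderOf_eq_prime (by rw [sq]; exact h2) hne
  obtain ⟨a, ha, b, hb, ha1, hb1, hab⟩ := Cfsg.Agent.Lib.PSL2V4b.exists_two_ne hV
  obtain ⟨d₁, hd₁⟩ := hPd _ (hV' a ha)
  obtain ⟨d₂, hd₂⟩ := hPd _ (hV' b hb)
  have hd₁V : ι d₁ ∈ V' := by rw [hd₁]; exact hV'mem a ha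
  have hd₂V : ι d₂ ∈ V' := by rw [hd₂]; exact hV'mem b hb
  have hd₁1 : d₁ ≠ 1 := by
    rintro rfl
    apply ha1
    rw [map_one] at hd₁
    have : a = g * (g⁻¹ * a * g) * g⁻¹ := by group
    rw [this, ← hd₁]
    group
  have hd₂1 : d₂ ≠ 1 := by
    rintro rfl
    apply hb1
    rw [map_one] at hd₂
    have : b = g * (g⁻¹ * b * g) * g⁻¹ := by group
    rw [this, ← hd₂]
    group
  have hd₁₂ : d₁ ≠ d₂ := by
    rintro rfl
    apply hab
    have h1 : g⁻¹ * a * g = g⁻¹ * b * g := by rw [← hd₁, hd₂]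
    have h2 := mul_right_cancel h1
    exact mul_left_cancel h2
  obtain ⟨i, hZV, hiV⟩ : ∃ i, ι (r (mz N k)) ∈ V' ∧ ι (sr i) ∈ V' := by
    rcases d₁ with i | i <;> rcases d₂ with j | j
    · exfalso
      have h1 := hinv2 i hd₁V hd₁1
      have h2 := hinv2 j hd₂V hd₂1
      apply hd₁₂
      rw [h1, h2]
    · have h1 := hinv2 i hd₁V hd₁1
      rw [h1] at hd₁V
      exact ⟨j, hd₁V, hd₂V⟩
    · have h2 := hinv2 j hd₂V hd₂1
      rw [h2] at hd₂V
      exact ⟨i, hd₂V, hd₁V⟩
    · refine ⟨i, ?_, hd₁V⟩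
      have h1 : ι (r (j - i)) ∈ V' := by
        have := V'.mul_mem hd₁V hd₂V
        rwa [← map_mul, sr_mul_sr] at this
      have hne : (r (j - i) : DihedralGroup N) ≠ 1 := by
        intro e
        rw [one_def] at e
        have h3 := r.inj e
        apply hd₁₂
        have : j = i := sub_eq_zero.1 h3
        rw [this]
      have h2 := hinv2 _ h1 hne
      rwa [h2] at h1
  have hcardU : ∀ c : ZMod N, Nat.card ((W (mz N k) hh c).map ι) = 4 := by
    intro c
    rw [Subgroup.card_map_of_injective hinj]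
    exact card_W _ _ (mz_ne hN) c
  have hcardV : ∀ x : X, Nat.card (V.map (MulAut.conj x).toMonoidHom) = 4 := by
    intro x
    rw [Subgroup.card_map_of_injective (MulEquiv.injective _)]
    exact hV.card_four
  have hle : (W (mz N k) hh i).map ι ≤ V' := by
    rintro _ ⟨d, hd, rfl⟩
    rcases (mem_W _ _ _ _).1 hd with rfl | rfl | rfl | rfl
    · rw [← one_def, map_one]; exact V'.one_mem
    · exact hZV
    · exact hiV
    · have := V'.mul_mem hiV hZV
      rwa [← map_mul, sr_mul_r] at this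
  have heq : (W (mz N k) hh i).map ι = V' :=
    Subgroup.eq_of_le_of_card_ge hle (by rw [hcardV, hcardU])
  have hmake : ∀ c₀ j : ZMod N, i = c₀ + (j + j) →
      ∃ x, V.map (MulAut.conj x).toMonoidHom = (W (mz N k) hh c₀).map ι := by
    intro c₀ j hi
    refine ⟨ι (r j) * g⁻¹, ?_⟩
    apply Subgroup.eq_of_le_of_card_ge _ (by rw [hcardV, hcardU])
    rintro _ ⟨y, hy, rfl⟩
    have h1 := hV'mem y hy
    rw [← heq] at h1
    obtain ⟨d, hd, hdy⟩ := h1
    rw [hi] at hd
    refine ⟨_, conj_W _ _ c₀ j d hd, ?_⟩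
    rw [map_mul, map_mul, map_inv, hdy]
    change _ = (ι (r j) * g⁻¹) * y * (ι (r j) * g⁻¹)⁻¹
    group
  have h2d : 2 ∣ N := two_dvd hN
  by_cases hc : ZMod.castHom h2d (ZMod 2) i = 0
  · obtain ⟨j, hj⟩ := even_form h2d i hc
    left
    exact hmake 0 j (by rw [hj]; ring)
  · obtain ⟨j, hj⟩ := odd_form h2d i hc
    right
    exact hmake 1 j hj

theorem part_b (P : Sylow 2 X) {N k : ℕ} (hN : N = 2 ^ (k + 2)) [NeZero N]
    (ι : DihedralGroup N →* X) (hinj : Function.Injective ι) (hrange : ι.range = (P : Subgroup X)) :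
    ∃ U₁ U₂ : Subgroup X, IsKleinFour U₁ ∧ IsKleinFour U₂ ∧
      ¬ (∃ x : X, U₁.map (MulAut.conj x).toMonoidHom = U₂) ∧
      ∀ V : Subgroup X, IsKleinFour V → (∃ x : X, V.map (MulAut.conj x).toMonoidHom = U₁) ∨
        (∃ x : X, V.map (MulAut.conj x).toMonoidHom = U₂) := by
  have hh : mz N k + mz N k = 0 := mz_add hN
  have hK : ∀ c : ZMod N, IsKleinFour ((W (mz N k) hh c).map ι) := by
    intro c
    apply klein_of
    · rw [Subgroup.card_map_of_injective hinj]
      exact card_W _ _ (mz_ne hN) c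
    · rintro ⟨_, d, hd, rfl⟩
      apply Subtype.ext
      change ι d * ι d = 1
      rw [← map_mul, sq_W _ _ _ _ hd, map_one]
  refine ⟨_, _, hK 0, hK 1, ?_, classify P hN ι hinj hrange hh⟩
  rintro ⟨x, hx⟩
  exact not_conj P hN ι hinj hrange x hh hx

theorem part_a (S : Sylow 2 X) (h4 : Nat.card S = 4) (U V : Subgroup X) (hU : IsKleinFour U)
    (hV : IsKleinFour V) : ∃ x : X, U.map (MulAut.conj x).toMonoidHom = V := by
  classical
  haveI : Fact (Nat.Prime 2) := ⟨Nat.prime_two⟩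
  have hUp : IsPGroup 2 U := IsPGroup.of_card (n := 2) (by rw [hU.card_four]; norm_num)
  have hVp : IsPGroup 2 V := IsPGroup.of_card (n := 2) (by rw [hV.card_four]; norm_num)
  obtain ⟨Q₁, hQ₁⟩ := hUp.exists_le_sylow
  obtain ⟨Q₂, hQ₂⟩ := hVp.exists_le_sylow
  have hc₁ : Nat.card Q₁ = 4 := by rw [← h4]; exact Nat.card_congr (Q₁.equiv S).toEquiv
  have hc₂ : Nat.card Q₂ = 4 := by rw [← h4]; exact Nat.card_congr (Q₂.equiv S).toEquiv
  have hU₁ : U = Q₁ := Subgroup.eq_of_le_of_card_ge hQ₁ (by rw [hc₁, hU.card_four])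
  have hV₂ : V = Q₂ := Subgroup.eq_of_le_of_card_ge hQ₂ (by rw [hc₂, hV.card_four])
  obtain ⟨g, hg⟩ := MulAction.exists_smul_eq X Q₁ Q₂
  refine ⟨g, ?_⟩
  apply Subgroup.eq_of_le_of_card_ge
  · rintro _ ⟨y, hy, rfl⟩
    rw [hV₂, ← hg]
    exact Cfsg.Agent.Lib.H5Basic.conj_mem_smul_sylow Q₁ g y (hQ₁ hy)
  · rw [Subgroup.card_map_of_injective (MulEquiv.injective _), hU.card_four, hV.card_four]

end Main

end Cfsg.Agent.Lib.KleinDih
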