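import Mathlib
import Cfsg.Agent.Lib.IndexP
import Cfsg.Agent.Lib.H5Basic
import Cfsg.Agent.Lib.PGroupBasic

/-! Groups in which the centralizer of every non-central element is maximal are solvable. -/

set_option autoImplicit false
set_option linter.all false

universe u

namespace Cfsg.Agent.Lib.MaxCent

open Subgroup

/-- Centralizers of non-central elements are maximal. -/
def HP (G : Type*) [Group G] : Prop :=
  ∀ g : G, g ∉ Subgroup.center G → IsCoatom (Subgroup.centralizer ({g} : Set G))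

theorem HP.quotient {G : Type*} [Group G] {K : Subgroup G} [K.Normal] (h : HP G) : HP (G ⧸ K) := by
  intro xb hxb
  obtain ⟨x, rfl⟩ := QuotientGroup.mk_surjective xb
  have hx : x ∉ center G := fun hx => hxb (by
    rw [mem_center_iff]
    intro gb
    obtain ⟨g, rfl⟩ := QuotientGroup.mk_surjective gb
    rw [← QuotientGroup.mk_mul, ← QuotientGroup.mk_mul, (mem_center_iff.mp hx g)])
  have hC := h x hx
  refine ⟨?_, ?_⟩
  · intro htop
    apply hxb
    rw [mem_center_iff]
    intro gb
    have : gb ∈ centralizer ({(x : G ⧸ K)} : Set _) := htop ▸ mem_top _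
    exact (mem_centralizer_singleton_iff.mp this)
  · intro E hE
    have hle : centralizer ({x} : Set G) ≤
        (centralizer ({(x : G ⧸ K)} : Set _)).comap (QuotientGroup.mk' K) := by
      intro g hg
      rw [mem_comap, mem_centralizer_singleton_iff]
      have := mem_centralizer_singleton_iff.mp hg
      show ((g : G ⧸ K)) * x = x * g
      rw [← QuotientGroup.mk_mul, this, QuotientGroup.mk_mul]
    have hlt : centralizer ({x} : Set G) < E.comap (QuotientGroup.mk' K) := by
      refine lt_of_le_of_lt hle ?_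
      refine lt_of_le_of_ne (Subgroup.comap_mono hE.le) ?_
      intro heq
      apply hE.ne
      have hs : Function.Surjective (QuotientGroup.mk' K) := QuotientGroup.mk'_surjective K
      exact Subgroup.comap_injective hs heq
    have h1 := hC.2 _ hlt
    rw [eq_top_iff]
    intro gb _
    obtain ⟨g, rfl⟩ := QuotientGroup.mk_surjective gb
    have : g ∈ E.comap (QuotientGroup.mk' K) := h1 ▸ mem_top g
    exact this

theorem coatom_eq {α : Type*} [PartialOrder α] [OrderTop α] {A B : α}
    (ha : IsCoatom A) (hb : B ≠ ⊤) (hle : A ≤ B) : A = B := by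
  by_contra hne
  exact hb (ha.2 B (lt_of_le_of_ne hle hne))

theorem cent_mul_le {G : Type*} [Group G] [Finite G] {x y : G} (hx : x ≠ 1) (hc : Commute x y)
    (hco : (orderOf x).Coprime (orderOf y)) :
    centralizer ({x * y} : Set G) ≤ centralizer ({x} : Set G) := by
  intro g hg
  rw [mem_centralizer_singleton_iff] at hg ⊢
  have h1 : 1 < orderOf x := by
    have h0 : 0 < orderOf x := orderOf_pos x
    have h2 : orderOf x ≠ 1 := fun h => hx (orderOf_eq_one_iff.mp h)
    omega
  obtain ⟨m, hm⟩ := Nat.exists_mul_mod_eq_one_of_coprime hco.symm h1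
  have hxpow : (x * y) ^ (orderOf y * m) = x := by
    rw [hc.mul_pow, pow_mul y, pow_orderOf_eq_one, one_pow, mul_one,
      ← pow_mod_orderOf, hm.2, pow_one]
  have h3 : Commute g (x * y) := hg
  have h2 : Commute g ((x * y) ^ (orderOf y * m)) := h3.pow_right _
  rw [hxpow] at h2
  exact h2

theorem cent_eq_of_coprime {G : Type*} [Group G] [Finite G]
    (h : ∀ g : G, g ≠ 1 → IsCoatom (centralizer ({g} : Set G)))
    {x y : G} (hx : x ≠ 1) (hy : y ≠ 1) (hc : Commute x y)
    (hco : (orderOf x).Coprime (orderOf y)) :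
    centralizer ({x} : Set G) = centralizer ({y} : Set G) := by
  have hz : x * y ≠ 1 := by
    intro h0
    have hyx : y = x⁻¹ := (eq_inv_of_mul_eq_one_right h0)
    rw [hyx, orderOf_inv, Nat.coprime_self] at hco
    exact hx (orderOf_eq_one_iff.mp hco)
  have h1 := cent_mul_le hx hc hco
  have h2 : centralizer ({x * y} : Set G) ≤ centralizer ({y} : Set G) := by
    have := cent_mul_le hy hc.symm hco.symm
    rwa [hc.symm.eq] at this
  rw [← coatom_eq (h _ hz) (h x hx).1 h1, ← coatom_eq (h _ hz) (h y hy).1 h2]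

theorem isSolvable_of_pgroup {G : Type*} [Group G] [Finite G] {p : ℕ} [Fact p.Prime]
    (hp : IsPGroup p G) : Group.IsSolvable G := by
  haveI := hp.isNilpotent
  infer_instance

section Main

variable {G : Type*} [Group G] [Finite G]

/-- A nontrivial `r`-subgroup has a proper normalizer. -/
theorem normalizer_ne_top {r : ℕ} [Fact r.Prime]
    (hN : ∀ K : Subgroup G, K.Normal → K ≠ ⊥ → ¬ Group.IsSolvable K)
    {Y : Subgroup G} (hY : IsPGroup r Y) (hb : Y ≠ ⊥) : normalizer (Y : Set G) ≠ ⊤ := by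
  intro htop
  have hn : Y.Normal := normalizer_eq_top_iff.mp htop
  exact hN Y hn hb (isSolvable_of_pgroup hY)

/-- The elements of prime order `r ≠ q` of `C(z) ∩ L` do not exist. -/
theorem no_other_prime
    (h : ∀ g : G, g ≠ 1 → IsCoatom (centralizer ({g} : Set G)))
    (hN : ∀ K : Subgroup G, K.Normal → K ≠ ⊥ → ¬ Group.IsSolvable K)
    (L : Subgroup G) (hperf : ⁅L, L⁆ = L)
    {z : G} {q : ℕ} (hq : q.Prime) (hz : orderOf z = q)
    {a : G} (ham : a ∈ centralizer ({z} : Set G)) (haL : a ∈ L)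
    {r : ℕ} (hr : r.Prime) (hrq : r ≠ q) (ha : orderOf a = r) : False := by
  classical
  haveI := Fact.mk hr
  have hz1 : z ≠ 1 := by
    intro h0
    rw [h0, orderOf_one] at hz
    exact hq.one_lt.ne hz
  have ha1 : a ≠ 1 := by
    intro h0
    rw [h0, orderOf_one] at ha
    exact hr.one_lt.ne ha
  set M := centralizer ({z} : Set G) with hM
  have hcent : ∀ y ∈ M, (orderOf y).Coprime q → ∀ g ∈ M, g * y = y * g := by
    intro y hy hco g hg
    by_cases hy1 : y = 1
    · simp [hy1]
    have hc : Commute z y := (mem_centralizer_singleton_iff.mp hy).symm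
    have := cent_eq_of_coprime h hz1 hy1 hc (by rw [hz]; exact hco.symm)
    rw [← hM, ] at this
    rw [this] at hg
    exact mem_centralizer_singleton_iff.mp hg
  have hap : IsPGroup r (zpowers a) := by
    apply IsPGroup.of_card (n := 1)
    rw [Nat.card_zpowers, ha, pow_one]
  obtain ⟨T, hT⟩ := hap.exists_le_sylow
  have haT : a ∈ (T : Subgroup G) := hT (mem_zpowers a)
  have hTcop : ∀ y ∈ (T : Subgroup G), (orderOf y).Coprime q := by
    intro y hy
    obtain ⟨k, hk⟩ := (IsPGroup.iff_orderOf.mp T.isPGroup') ⟨y, hy⟩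
    rw [Subgroup.orderOf_mk] at hk
    rw [hk]
    exact Nat.Coprime.pow_left _ ((Nat.coprime_primes hr hq).2 hrq)
  set Y := (T : Subgroup G) ⊓ M with hYdef
  have hYp : IsPGroup r Y := T.isPGroup'.to_le inf_le_left
  have hYb : Y ≠ ⊥ := by
    intro h0
    have : a ∈ Y := ⟨haT, ham⟩
    rw [h0, mem_bot] at this
    exact ha1 this
  have hMN : M ≤ normalizer (Y : Set G) := by
    intro g hg
    rw [mem_normalizer_iff]
    intro y
    constructor
    · rintro ⟨hy1, hy2⟩
      have e := hcent y hy2 (hTcop y hy1) g hg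
      have : g * y * g⁻¹ = y := by rw [e]; group
      rw [this]
      exact ⟨hy1, hy2⟩
    · intro hy
      have e := hcent _ hy.2 (hTcop _ hy.1) g hg
      have hw : g * y * g⁻¹ * g = g * y := by group
      have e2 : g * (g * y * g⁻¹) = g * y := by rw [e, hw]
      have e3 := mul_left_cancel e2
      rwa [e3] at hy
  have hNY : normalizer (Y : Set G) = M :=
    (coatom_eq (h z hz1) (normalizer_ne_top hN hYp hYb) hMN).symm
  have hTY : (T : Subgroup G) = Y := by
    by_contra hne
    obtain ⟨x, hxT, hxY, hxN⟩ := Cfsg.Agent.Lib.H5Basic.exists_mem_normalizer_of_lt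
      T.isPGroup' (inf_le_left : Y ≤ (T : Subgroup G)) (Ne.symm hne)
    rw [hNY] at hxN
    exact hxY ⟨hxT, hxN⟩
  have hNT : normalizer ((T : Subgroup G) : Set G) = M := by rw [hTY]; exact hNY
  have hTM : (T : Subgroup G) ≤ M := by rw [hTY]; exact inf_le_right
  have hP : normalizer ((T : Subgroup G) : Set G) ≤ centralizer ((T : Subgroup G) : Set G) := by
    rw [hNT]
    intro g hg
    rw [mem_centralizer_iff]
    intro t ht
    exact (hcent t (hTM ht) (hTcop t ht) g hg).symm
  have hcomm : ∀ x y : (T : Subgroup G), x * y = y * x := by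
    intro x y
    apply Subtype.ext
    exact (mem_centralizer_iff.mp (hP (le_normalizer y.2)) x x.2)
  have hLk : L ≤ (MonoidHom.transferSylow T hP).ker := by
    rw [← hperf]
    rw [commutator_le]
    intro x _ y _
    rw [MonoidHom.mem_ker, map_commutatorElement, commutatorElement_eq_one_iff_mul_comm]
    exact hcomm _ _
  have hdis := MonoidHom.ker_transferSylow_disjoint T hP (T : Subgroup G) T.isPGroup'
  have : a ∈ (MonoidHom.transferSylow T hP).ker ⊓ (T : Subgroup G) := ⟨hLk haL, haT⟩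
  rw [hdis.eq_bot, mem_bot] at this
  exact ha1 this

/-- All elements of `C(z) ∩ L` have `q`-power order. -/
theorem orderOf_eq_pow
    (h : ∀ g : G, g ≠ 1 → IsCoatom (centralizer ({g} : Set G)))
    (hN : ∀ K : Subgroup G, K.Normal → K ≠ ⊥ → ¬ Group.IsSolvable K)
    (L : Subgroup G) (hperf : ⁅L, L⁆ = L)
    {z : G} {q : ℕ} (hq : q.Prime) (hz : orderOf z = q)
    {g : G} (hgm : g ∈ centralizer ({z} : Set G)) (hgL : g ∈ L) : ∃ k, orderOf g = q ^ k := by
  have h0 : orderOf g ≠ 0 := (orderOf_pos g).ne'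
  refine ⟨_, Nat.eq_prime_pow_of_unique_prime_dvd h0 ?_⟩
  intro d hd hdvd
  by_contra hne
  exact no_other_prime h hN L hperf hq hz
    (a := g ^ (orderOf g / d)) ((centralizer ({z} : Set G)).pow_mem hgm _) (L.pow_mem hgL _) hd hne
    (orderOf_pow_orderOf_div h0 hdvd)

/-- Sylow subgroups of the perfect normal subgroup are self-normalizing. -/
theorem sylow_self_normalizing
    (h : ∀ g : G, g ≠ 1 → IsCoatom (centralizer ({g} : Set G)))
    (hN : ∀ K : Subgroup G, K.Normal → K ≠ ⊥ → ¬ Group.IsSolvable K)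
    (L : Subgroup G) [hLn : L.Normal] (hperf : ⁅L, L⁆ = L)
    {q : ℕ} (hq : q.Prime) (hdvd : q ∣ Nat.card L) (Q : Sylow q L) :
    normalizer ((Q : Subgroup L) : Set L) = Q := by
  classical
  haveI := Fact.mk hq
  apply le_antisymm ?_ le_normalizer
  set Q' : Subgroup G := (Q : Subgroup L).map L.subtype with hQ'
  have hQ'p : IsPGroup q Q' := Q.isPGroup'.map L.subtype
  have hQL : Q' ≤ L := by
    rintro _ ⟨x, _, rfl⟩
    exact x.2
  obtain ⟨S, hS⟩ := hQ'p.exists_le_sylow
  have hQb : (Q : Subgroup L) ≠ ⊥ := Q.ne_bot_of_dvd_card hdvd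
  have hDb : (S : Subgroup G) ⊓ L ≠ ⊥ := by
    intro h0
    apply hQb
    rw [eq_bot_iff]
    intro x hx
    have hmem : (x : G) ∈ (S : Subgroup G) ⊓ L := ⟨hS ⟨x, hx, rfl⟩, x.2⟩
    rw [h0, mem_bot] at hmem
    exact mem_bot.2 (Subtype.ext hmem)
  -- central element of order `q`
  have hDn : (((S : Subgroup G) ⊓ L).subgroupOf (S : Subgroup G)).Normal := by
    refine ⟨fun c hc n => ?_⟩
    refine ⟨(n * c * n⁻¹).2, hLn.conj_mem _ hc.2 _⟩
  have hDne : ((S : Subgroup G) ⊓ L).subgroupOf (S : Subgroup G) ≠ ⊥ := by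
    intro h0
    apply hDb
    rw [eq_bot_iff]
    intro x hx
    have h1 : (⟨x, hx.1⟩ : (S : Subgroup G)) ∈ ((S : Subgroup G) ⊓ L).subgroupOf (S : Subgroup G) := hx
    rw [h0, mem_bot] at h1
    exact mem_bot.2 (congrArg Subtype.val h1)
  obtain ⟨z0, hz0, hz01, hz0c⟩ := Cfsg.Agent.Lib.PGroupBasic.exists_ne_one_mem_center_of_normal
    S.isPGroup' _ hDne
  obtain ⟨k, hk⟩ := (IsPGroup.iff_orderOf.mp S.isPGroup') z0
  have hk0 : k ≠ 0 := by
    rintro rfl
    rw [pow_zero] at hk
    exact hz01 (orderOf_eq_one_iff.mp hk)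
  have hqd : q ∣ orderOf z0 := by rw [hk]; exact dvd_pow_self q hk0
  set zS : S := z0 ^ (orderOf z0 / q) with hzS
  have hzSo : orderOf zS = q := orderOf_pow_orderOf_div (orderOf_pos z0).ne' hqd
  set z : G := (zS : G) with hzdef
  have hzo : orderOf z = q := by
    rw [hzdef, Subgroup.orderOf_coe]; exact hzSo
  have hzL : z ∈ L := by
    have : zS ∈ ((S : Subgroup G) ⊓ L).subgroupOf (S : Subgroup G) := Subgroup.pow_mem _ hz0 _
    exact this.2
  have hz1 : z ≠ 1 := by
    intro h0
    rw [h0, orderOf_one] at hzo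
    exact hq.one_lt.ne hzo
  have hzc : zS ∈ center (S : Subgroup G) := Subgroup.pow_mem _ hz0c _
  have hSM : (S : Subgroup G) ≤ centralizer ({z} : Set G) := by
    intro s hs
    rw [mem_centralizer_singleton_iff]
    have := (mem_center_iff.mp hzc) ⟨s, hs⟩
    have e := congrArg Subtype.val this
    exact e
  set M := centralizer ({z} : Set G) with hM
  -- `M ⊓ L = Q'`
  have hML : ∀ g (hg : g ∈ M) (hgL : g ∈ L), (⟨g, hgL⟩ : L) ∈ (Q : Subgroup L) := by
    have hpg : IsPGroup q ((M ⊓ L).subgroupOf L) := by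
      rw [IsPGroup.iff_orderOf]
      intro x
      obtain ⟨k, hk⟩ := orderOf_eq_pow h hN L hperf hq hzo x.2.1 x.2.2
      have e1 : orderOf x = orderOf ((x : L)) := (Subgroup.orderOf_coe x).symm
      have e2 : orderOf ((x : L)) = orderOf ((x : L) : G) := (Subgroup.orderOf_coe (x : L)).symm
      exact ⟨k, by rw [e1, e2]; exact hk⟩
    have hle : (Q : Subgroup L) ≤ (M ⊓ L).subgroupOf L := by
      intro x hx
      exact ⟨hSM (hS ⟨x, hx, rfl⟩), x.2⟩
    intro g hg hgL
    have e := Q.is_maximal' hpg hle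
    have : (⟨g, hgL⟩ : L) ∈ (M ⊓ L).subgroupOf L := ⟨hg, hgL⟩
    rwa [e] at this
  -- `M` normalizes `Q'`
  have hQ'eq : ∀ x, x ∈ Q' ↔ x ∈ M ∧ x ∈ L := by
    intro x
    constructor
    · rintro hx
      exact ⟨hSM (hS hx), hQL hx⟩
    · rintro ⟨h1, h2⟩
      exact ⟨⟨x, h2⟩, hML x h1 h2, rfl⟩
  have hMN : M ≤ normalizer (Q' : Set G) := by
    intro m hm
    rw [mem_normalizer_iff]
    intro x
    rw [hQ'eq, hQ'eq]
    constructor
    · rintro ⟨h1, h2⟩
      exact ⟨M.mul_mem (M.mul_mem hm h1) (M.inv_mem hm), hLn.conj_mem _ h2 _⟩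
    · rintro ⟨h1, h2⟩
      have e : x = m⁻¹ * (m * x * m⁻¹) * m := by group
      rw [e]
      refine ⟨M.mul_mem (M.mul_mem (M.inv_mem hm) h1) hm, ?_⟩
      have := hLn.conj_mem _ h2 m⁻¹
      simpa using this
  have hQ'b : Q' ≠ ⊥ := by
    intro h0
    apply hQb
    rw [eq_bot_iff]
    intro x hx
    have : (x : G) ∈ Q' := ⟨x, hx, rfl⟩
    rw [h0, mem_bot] at this
    exact mem_bot.2 (Subtype.ext this)
  have hNQ : normalizer (Q' : Set G) = M :=
    (coatom_eq (h z hz1) (normalizer_ne_top hN hQ'p hQ'b) hMN).symm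
  intro g hg
  have hgN : (g : G) ∈ normalizer (Q' : Set G) := by
    rw [mem_normalizer_iff]
    intro x
    constructor
    · rintro ⟨y, hy, rfl⟩
      exact ⟨g * y * g⁻¹, (mem_normalizer_iff.mp hg y).1 hy, rfl⟩
    · intro hx
      have hxL : x ∈ L := by
        have := L.mul_mem (L.mul_mem (L.inv_mem g.2) (hQL hx)) g.2
        simpa [mul_assoc] using this
      refine ⟨⟨x, hxL⟩, ?_, rfl⟩
      apply (mem_normalizer_iff.mp hg ⟨x, hxL⟩).2
      obtain ⟨y, hy, hye⟩ := hx
      have : y = g * ⟨x, hxL⟩ * g⁻¹ := Subtype.ext hye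
      rwa [← this]
  rw [hNQ] at hgN
  exact hML g hgN g.2

theorem false_of_perfect
    (h : ∀ g : G, g ≠ 1 → IsCoatom (centralizer ({g} : Set G)))
    (hN : ∀ K : Subgroup G, K.Normal → K ≠ ⊥ → ¬ Group.IsSolvable K)
    (L : Subgroup G) [hLn : L.Normal] (hb : L ≠ ⊥) (hperf : ⁅L, L⁆ = L) : False := by
  have hs := fun (q : ℕ) (hq : q.Prime) (hd : q ∣ Nat.card L) (Q : Sylow q L) =>
    sylow_self_normalizing h hN L hperf hq hd Q
  obtain ⟨q, hq, hp⟩ := Cfsg.Agent.Lib.IndexP.pgroup_of_self_normalizing hs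
  haveI := Fact.mk hq
  exact hN L hLn hb (isSolvable_of_pgroup hp)

end Main

theorem solvable_aux : ∀ (n : ℕ) (G : Type u) [Group G] [Finite G], Nat.card G = n → HP G →
    Group.IsSolvable G := by
  intro n
  induction n using Nat.strong_induction_on with
  | _ n ih =>
    intro G _ _ hn hP
    classical
    by_contra hns
    have hN : ∀ K : Subgroup G, K.Normal → K ≠ ⊥ → ¬ Group.IsSolvable K := by
      intro K hKn hKb hKs
      have hlt : Nat.card (G ⧸ K) < n := by
        have h1 := Subgroup.card_eq_card_quotient_mul_card_subgroup K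
        have h2 : 1 < Nat.card K := by
          have : Nontrivial K := (Subgroup.nontrivial_iff_ne_bot K).mpr hKb
          exact Finite.one_lt_card
        have h3 : 0 < Nat.card (G ⧸ K) := Nat.card_pos
        rw [← hn, h1]
        nlinarith
      have hq := ih _ hlt (G ⧸ K) rfl hP.quotient
      apply hns
      refine solvable_of_ker_le_range K.subtype (QuotientGroup.mk' K) ?_
      rw [QuotientGroup.ker_mk', Subgroup.range_subtype]
    have hZ : Subgroup.center G = ⊥ := by
      by_contra hne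
      exact hN _ inferInstance hne (Group.isSolvable_of_comm (fun a b => Subtype.ext
        (Subgroup.mem_center_iff.mp b.2 (a : G))))
    have h' : ∀ g : G, g ≠ 1 → IsCoatom (centralizer ({g} : Set G)) := by
      intro g hg
      apply hP
      rw [hZ, mem_bot]
      exact hg
    have hnt : (⊤ : Subgroup G) ≠ ⊥ := by
      intro h0
      exact hns (Group.isSolvable_of_top_eq_bot G h0)
    obtain ⟨L, hL⟩ := Set.Finite.exists_minimal (s := {K : Subgroup G | K.Normal ∧ K ≠ ⊥})
      (Set.toFinite _) ⟨⊤, inferInstance, hnt⟩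
    obtain ⟨⟨hLn, hLb⟩, hLmin⟩ := hL
    haveI := hLn
    have hcn : (⁅L, L⁆ : Subgroup G).Normal := Subgroup.commutator_normal L L
    have hcle : ⁅L, L⁆ ≤ L := Subgroup.commutator_le_self L
    have hperf : ⁅L, L⁆ = L := by
      by_cases h0 : ⁅L, L⁆ = ⊥
      · exfalso
        apply hN L hLn hLb
        apply Group.isSolvable_of_comm
        intro a b
        apply Subtype.ext
        have h1 : (a : G) * b * (a : G)⁻¹ * (b : G)⁻¹ ∈ ⁅L, L⁆ :=
          Subgroup.commutator_mem_commutator a.2 b.2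
        rw [h0, mem_bot] at h1
        have h2 : (a : G) * b = b * a := by
          rw [mul_inv_eq_one, mul_inv_eq_iff_eq_mul] at h1
          exact h1
        exact h2
      · exact le_antisymm hcle (hLmin ⟨hcn, h0⟩ hcle)
    exact false_of_perfect h' hN L hLb hperf

theorem solvable {G : Type u} [Group G] [Finite G] (h : HP G) : Group.IsSolvable G :=
  solvable_aux _ G rfl h

end Cfsg.Agent.Lib.MaxCent
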