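import Mathlib
import Cfsg.Agent.Lib.PGroupBasic
import Cfsg.Agent.Lib.H7PGroup

/-! `p`-groups of maximal class: class bounds and the abelian index-two framework (helper4). -/

namespace Cfsg.Agent.Lib.MaxClass

universe u

open scoped commutatorElement

theorem class_eq_one_of_comm {X : Type*} [Group X] [Nontrivial X] [Group.IsNilpotent X]
    (hc : ∀ a b : X, a * b = b * a) : Group.nilpotencyClass X = 1 := by
  have hZ : Subgroup.center X = ⊤ := by
    rw [eq_top_iff]
    intro z _
    rw [Subgroup.mem_center_iff]
    exact fun g => hc g z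
  rw [nilpotencyClass_eq_quotient_center_plus_one]
  have h2 : Group.nilpotencyClass (X ⧸ Subgroup.center X) = 0 := by
    rw [nilpotencyClass_zero_iff_subsingleton, hZ]
    exact QuotientGroup.subsingleton_quotient_top
  rw [h2]

theorem comm_of_card_quotient_prime {X : Type*} [Group X] [Finite X] {p : ℕ} [Fact p.Prime]
    (h : Nat.card (X ⧸ Subgroup.center X) = p) (a b : X) : a * b = b * a := by
  haveI : IsCyclic (X ⧸ Subgroup.center X) := isCyclic_of_prime_card h
  exact commutative_of_cyclic_center_quotient (QuotientGroup.mk' (Subgroup.center X))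
    (by rw [QuotientGroup.ker_mk']) a b

theorem class_bound {p : ℕ} [hp : Fact p.Prime] : ∀ (k : ℕ) (Y : Type u) [Group Y] [Finite Y],
    Nat.card Y = p ^ k → Group.nilpotencyClass Y + 1 ≤ max k 2 := by
  intro k
  induction k using Nat.strong_induction_on with
  | _ k ih =>
  intro Y _ _ hY
  have hYp : IsPGroup p Y := IsPGroup.of_card hY
  haveI hnil : Group.IsNilpotent Y := hYp.isNilpotent
  by_cases hs : Subsingleton Y
  · rw [nilpotencyClass_zero_iff_subsingleton.mpr hs]
    exact le_trans (by norm_num) (le_max_right _ _)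
  · haveI hnt : Nontrivial Y := not_subsingleton_iff_nontrivial.mp hs
    haveI hZnt : Nontrivial (Subgroup.center Y) := hYp.center_nontrivial
    have hclass := nilpotencyClass_eq_quotient_center_plus_one (G := Y)
    have hQp : IsPGroup p (Y ⧸ Subgroup.center Y) :=
      hYp.of_surjective (QuotientGroup.mk' _) (QuotientGroup.mk'_surjective _)
    obtain ⟨k', hk'⟩ := IsPGroup.iff_card.mp hQp
    have h1 := Subgroup.card_mul_index (Subgroup.center Y)
    have hZ1 : 1 < Nat.card (Subgroup.center Y) := Finite.one_lt_card_iff_nontrivial.mpr hZnt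
    have h2 : Nat.card (Y ⧸ Subgroup.center Y) = (Subgroup.center Y).index := rfl
    rw [← h2, hk', hY] at h1
    have hk'lt : k' < k := by
      have h3 : p ^ k' < p ^ k := by
        rw [← h1]
        have h4 : 0 < p ^ k' := pow_pos hp.out.pos _
        nlinarith
      exact (Nat.pow_lt_pow_iff_right hp.out.one_lt).mp h3
    rw [hclass]
    have hIH := ih k' hk'lt (Y ⧸ Subgroup.center Y) hk'
    rcases k' with _ | _ | k'
    · have hsub : Subsingleton (Y ⧸ Subgroup.center Y) := by
        rw [pow_zero] at hk'
        exact (Nat.card_eq_one_iff_unique.mp hk').1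
      rw [nilpotencyClass_zero_iff_subsingleton.mpr hsub]
      exact le_max_right _ _
    · exfalso
      rw [pow_one] at hk'
      have hc := comm_of_card_quotient_prime hk'
      have hZ : Subgroup.center Y = ⊤ := by
        rw [eq_top_iff]
        intro z _
        rw [Subgroup.mem_center_iff]
        exact fun g => hc g z
      have hZidx : (Subgroup.center Y).index = 1 := by rw [hZ, Subgroup.index_top]
      rw [h2, hZidx] at hk'
      exact hp.out.ne_one hk'.symm
    · have h5 : max (k' + 1 + 1) 2 = k' + 1 + 1 := max_eq_left (by omega)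
      rw [h5] at hIH
      have h6 : k' + 1 + 1 + 1 ≤ k := hk'lt
      exact le_trans (by omega) (le_max_left _ _)

/-- A group of order `p ^ n`, `n ≥ 3`, of class `n - 1` has a centre of order `p`. -/
theorem card_center {p : ℕ} [hp : Fact p.Prime] {X : Type u} [Group X] [Finite X] {n : ℕ} (hn : 3 ≤ n)
    (hX : Nat.card X = p ^ n) (hc : Group.nilpotencyClass X = n - 1) :
    Nat.card (Subgroup.center X) = p := by
  have hXp : IsPGroup p X := IsPGroup.of_card hX
  haveI hnil : Group.IsNilpotent X := hXp.isNilpotent
  haveI hnt : Nontrivial X := by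
    have h1 : 1 < Nat.card X := by
      rw [hX]
      exact Nat.one_lt_pow (by omega) hp.out.one_lt
    exact Finite.one_lt_card_iff_nontrivial.mp h1
  have hclass := nilpotencyClass_eq_quotient_center_plus_one (G := X)
  have hQp : IsPGroup p (X ⧸ Subgroup.center X) :=
    hXp.of_surjective (QuotientGroup.mk' _) (QuotientGroup.mk'_surjective _)
  obtain ⟨k, hk⟩ := IsPGroup.iff_card.mp hQp
  obtain ⟨e, he⟩ := IsPGroup.iff_card.mp (hXp.to_subgroup (Subgroup.center X))
  have h1 := Subgroup.card_mul_index (Subgroup.center X)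
  have h2 : Nat.card (X ⧸ Subgroup.center X) = (Subgroup.center X).index := rfl
  rw [← h2, hk, he, hX, ← pow_add] at h1
  have h3 : e + k = n := Nat.pow_right_injective hp.out.two_le h1
  have hbound := class_bound (p := p) k (X ⧸ Subgroup.center X) hk
  have hk2 : 2 ≤ k := by
    by_contra hlt
    have hk1 : k = 0 ∨ k = 1 := by omega
    have hcomm : ∀ a b : X, a * b = b * a := by
      rcases hk1 with rfl | rfl
      · rw [pow_zero] at hk
        have hsub := (Nat.card_eq_one_iff_unique.mp hk).1
        have hZ : Subgroup.center X = ⊤ := by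
          rw [eq_top_iff]
          intro x _
          exact (QuotientGroup.eq_one_iff x).mp (Subsingleton.elim _ _)
        intro a b
        have : a ∈ Subgroup.center X := by rw [hZ]; trivial
        exact (Subgroup.mem_center_iff.mp this b).symm
      · rw [pow_one] at hk
        exact comm_of_card_quotient_prime hk
    have := class_eq_one_of_comm hcomm
    omega
  have hZnt : Nontrivial (Subgroup.center X) := hXp.center_nontrivial
  have he0 : e ≠ 0 := by
    rintro rfl
    rw [pow_zero] at he
    have := Finite.one_lt_card_iff_nontrivial.mpr hZnt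
    omega
  have he1 : e = 1 := by
    have h4 : max k 2 = k := max_eq_left hk2
    rw [h4] at hbound
    omega
  rw [he, he1, pow_one]

section framework

variable {X : Type*} [Group X] [Finite X] (C : Subgroup X) (hi : C.index = 2)
  (hab : ∀ a ∈ C, ∀ b ∈ C, a * b = b * a) (t : X)

include hi in
theorem mem_or_mul_mem (ht : t ∉ C) (g : X) : g ∈ C ∨ g * t ∈ C := by
  by_cases hg : g ∈ C
  · exact Or.inl hg
  · right
    rw [Subgroup.mul_mem_iff_of_index_two hi]
    exact iff_of_false hg ht

include hi in
theorem sq_mem (g : X) : g ^ 2 ∈ C := by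
  rw [sq, Subgroup.mul_mem_iff_of_index_two hi]

include hi hab in
theorem mem_center_of_commute (ht : t ∉ C) {d : X} (hd : d ∈ C) (hdt : d * t = t * d) :
    d ∈ Subgroup.center X := by
  rw [Subgroup.mem_center_iff]
  intro g
  rcases mem_or_mul_mem C hi t ht g with hg | hg
  · exact hab g hg d hd
  · have h1 : (g * t) * d = d * (g * t) := hab _ hg d hd
    have h2 : g * t * d = g * d * t := by rw [mul_assoc, ← hdt, mul_assoc]
    rw [h2, ← mul_assoc] at h1
    exact mul_right_cancel h1

include hi hab in
theorem center_le_of_noncomm (hna : ¬ ∀ a b : X, a * b = b * a) : Subgroup.center X ≤ C := by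
  intro z hz
  by_contra hzC
  apply hna
  have hzc : ∀ g, g * z = z * g := fun g => Subgroup.mem_center_iff.mp hz g
  intro a b
  rcases mem_or_mul_mem C hi z hzC a with ha | ha <;> rcases mem_or_mul_mem C hi z hzC b with hb | hb
  · exact hab a ha b hb
  · have h1 : a * (b * z) = (b * z) * a := hab a ha _ hb
    have h2 : b * z * a = b * a * z := by rw [mul_assoc, ← hzc a, mul_assoc]
    rw [h2, ← mul_assoc] at h1
    exact mul_right_cancel h1
  · have h1 : (a * z) * b = b * (a * z) := hab _ ha b hb
    have h2 : a * z * b = a * b * z := by rw [mul_assoc, ← hzc b, mul_assoc]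
    rw [h2, ← mul_assoc] at h1
    exact mul_right_cancel h1
  · have h1 : (a * z) * (b * z) = (b * z) * (a * z) := hab _ ha _ hb
    have h2 : a * z * (b * z) = a * b * z * z := by
      rw [mul_assoc a z, ← mul_assoc z b, ← hzc b]; group
    have h3 : b * z * (a * z) = b * a * z * z := by
      rw [mul_assoc b z, ← mul_assoc z a, ← hzc a]; group
    rw [h2, h3] at h1
    exact mul_right_cancel (mul_right_cancel h1)

/-- The map `d ↦ [d, t]` on the abelian subgroup `C`. -/
noncomputable def phi : C →* C :=
  haveI hn : C.Normal := Subgroup.normal_of_index_eq_two hi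
  MonoidHom.mk' (fun d => ⟨(d : X) * (t * (d : X)⁻¹ * t⁻¹),
      C.mul_mem d.2 (hn.conj_mem _ (C.inv_mem d.2) t)⟩) (by
    intro a b
    apply Subtype.ext
    have hab' := hab _ (hn.conj_mem _ (C.inv_mem a.2) t) _
      (C.mul_mem b.2 (hn.conj_mem _ (C.inv_mem b.2) t))
    show ((a : X) * b) * (t * ((a : X) * b)⁻¹ * t⁻¹) =
      ((a : X) * (t * (a : X)⁻¹ * t⁻¹)) * ((b : X) * (t * (b : X)⁻¹ * t⁻¹))
    calc ((a : X) * b) * (t * ((a : X) * b)⁻¹ * t⁻¹)
        = (a : X) * (((b : X) * (t * (b : X)⁻¹ * t⁻¹)) * (t * (a : X)⁻¹ * t⁻¹)) := by group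
      _ = (a : X) * ((t * (a : X)⁻¹ * t⁻¹) * ((b : X) * (t * (b : X)⁻¹ * t⁻¹))) := by rw [← hab']
      _ = _ := by group)

theorem phi_coe (d : C) : ((phi C hi hab t d : C) : X) = (d : X) * (t * (d : X)⁻¹ * t⁻¹) := rfl

theorem phi_coe' (d : C) : ((phi C hi hab t d : C) : X) = ⁅(d : X), t⁆ := by
  rw [phi_coe, commutatorElement_def]
  group

include hab in
theorem commutator_le_range (ht : t ∉ C) :
    commutator X ≤ (phi C hi hab t).range.map C.subtype := by
  classical
  haveI hn : C.Normal := Subgroup.normal_of_index_eq_two hi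
  let D : Subgroup X := (phi C hi hab t).range.map C.subtype
  have hDC : ∀ x ∈ D, x ∈ C := by
    rintro _ ⟨a, _, rfl⟩
    exact a.2
  have hDmem : ∀ d : C, ((phi C hi hab t d : C) : X) ∈ D := fun d => ⟨_, ⟨d, rfl⟩, rfl⟩
  have hconj_t : ∀ x ∈ D, t⁻¹ * x * t ∈ D := by
    rintro _ ⟨_, ⟨d, rfl⟩, rfl⟩
    have hd' : t⁻¹ * (d : X) * t ∈ C := by
      have := hn.conj_mem _ d.2 t⁻¹
      simpa using this
    have h1 := hDmem ⟨_, hd'⟩
    rw [phi_coe] at h1
    have h2 : t⁻¹ * (C.subtype (phi C hi hab t d)) * t =
        t⁻¹ * (d : X) * t * (t * (t⁻¹ * (d : X) * t)⁻¹ * t⁻¹) := by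
      rw [Subgroup.subtype_apply, phi_coe]
      group
    rw [h2]
    exact h1
  haveI hDn : D.Normal := by
    refine ⟨fun x hx g => ?_⟩
    rcases mem_or_mul_mem C hi t ht g with hg | hg
    · rw [hab g hg x (hDC x hx), mul_assoc, mul_inv_cancel, mul_one]
      exact hx
    · have h1 := hconj_t x hx
      have h2 := hDC _ h1
      have h3 : g * x * g⁻¹ = (g * t) * (t⁻¹ * x * t) * (g * t)⁻¹ := by group
      rw [h3, hab _ hg _ h2, mul_assoc, mul_inv_cancel, mul_one]
      exact h1
  have hgen : Subgroup.closure ((C : Set X) ∪ {t}) = ⊤ := by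
    rw [eq_top_iff]
    intro g _
    rcases mem_or_mul_mem C hi t ht g with hg | hg
    · exact Subgroup.subset_closure (Or.inl hg)
    · have h1 : g = (g * t) * t⁻¹ := by group
      rw [h1]
      exact Subgroup.mul_mem _ (Subgroup.subset_closure (Or.inl hg))
        (Subgroup.inv_mem _ (Subgroup.subset_closure (Or.inr rfl)))
  refine Cfsg.Agent.Lib.H7PGroup.commutator_le_of_closure _ hgen D ?_
  rintro a (ha | ha) b (hb | hb)
  · rw [commutatorElement_def, hab a ha b hb]
    simp [D.one_mem]
  · have hb' : b = t := hb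
    subst hb'
    have := hDmem ⟨a, ha⟩
    rwa [phi_coe'] at this
  · have ha' : a = t := ha
    subst ha'
    have := hDmem ⟨b, hb⟩
    rw [phi_coe'] at this
    rw [← commutatorElement_inv]
    exact D.inv_mem this
  · have ha' : a = t := ha
    have hb' : b = t := hb
    rw [ha', hb', commutatorElement_self]
    exact D.one_mem

theorem range_le_commutator :
    (phi C hi hab t).range.map C.subtype ≤ commutator X := by
  rintro _ ⟨_, ⟨d, rfl⟩, rfl⟩
  rw [Subgroup.subtype_apply, phi_coe']
  exact Subgroup.commutator_mem_commutator (Subgroup.mem_top _) (Subgroup.mem_top _)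

theorem commutator_eq_range (ht : t ∉ C) :
    commutator X = (phi C hi hab t).range.map C.subtype :=
  le_antisymm (commutator_le_range C hi hab t ht) (range_le_commutator C hi hab t)

include hi hab in
/-- For nonabelian `X` with abelian subgroup `C` of index two: `|X| = 2 |X'| |Z(X)|`. -/
theorem card_formula (hna : ¬ ∀ a b : X, a * b = b * a) :
    Nat.card X = 2 * (Nat.card (commutator X) * Nat.card (Subgroup.center X)) := by
  classical
  haveI hn : C.Normal := Subgroup.normal_of_index_eq_two hi
  have hCne : C ≠ ⊤ := by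
    intro e
    rw [e, Subgroup.index_top] at hi
    omega
  obtain ⟨t, ht⟩ : ∃ t, t ∉ C := by
    by_contra h
    push_neg at h
    exact hCne (Subgroup.eq_top_iff' _ |>.mpr h)
  have hZC := center_le_of_noncomm C hi hab hna
  have h1 := Subgroup.card_mul_index C
  rw [hi] at h1
  rw [← h1, mul_comm]
  congr 1
  have h2 : Nat.card (commutator X) = Nat.card (phi C hi hab t).range := by
    rw [commutator_eq_range C hi hab t ht, Subgroup.card_map_of_injective C.subtype_injective]
  have h3 : Nat.card (Subgroup.center X) = Nat.card (phi C hi hab t).ker := by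
    have h4 : Subgroup.center X = (phi C hi hab t).ker.map C.subtype := by
      apply le_antisymm
      · intro z hz
        refine ⟨⟨z, hZC hz⟩, ?_, rfl⟩
        show (phi C hi hab t) ⟨z, hZC hz⟩ = 1
        apply Subtype.ext
        rw [phi_coe]
        have hzt := Subgroup.mem_center_iff.mp (Subgroup.inv_mem _ hz) t
        show z * (t * z⁻¹ * t⁻¹) = 1
        rw [hzt]
        group
      · rintro _ ⟨d, hd, rfl⟩
        have hd' : phi C hi hab t d = 1 := hd
        have h5 : (d : X) * (t * (d : X)⁻¹ * t⁻¹) = 1 := by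
          have := congrArg Subtype.val hd'
          rw [phi_coe] at this
          exact this
        refine mem_center_of_commute C hi hab t ht d.2 ?_
        calc (d : X) * t = ((d : X) * (t * (d : X)⁻¹ * t⁻¹)) * (t * d) := by group
          _ = t * d := by rw [h5, one_mul]
    rw [h4, Subgroup.card_map_of_injective C.subtype_injective]
  rw [h2, h3]
  have h6 := Subgroup.card_mul_index (phi C hi hab t).ker
  rw [Subgroup.index_ker] at h6
  rw [mul_comm]
  exact h6.symm

end framework

end Cfsg.Agent.Lib.MaxClass
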