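import Mathlib
import Cfsg.Agent.Lib.H6PGroup

/-!
Coordinates on finite metacyclic `p`-groups, `p` odd (helper2).
-/

set_option autoImplicit false
set_option linter.all false

namespace Cfsg.Agent.Lib.MetaOdd

open Subgroup
open scoped commutatorElement

/-- The geometric sum. -/
def S (t m : ℕ) : ℕ := ∑ i ∈ Finset.range m, t ^ i

theorem S_zero (t : ℕ) : S t 0 = 0 := by simp [S]

theorem S_succ (t m : ℕ) : S t (m + 1) = S t m + t ^ m := Finset.sum_range_succ _ _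

theorem S_one_left (m : ℕ) : S 1 m = m := by simp [S]

theorem S_pos (t m : ℕ) (ht : 1 ≤ t) (hm : m ≠ 0) : 0 < S t m := by
  obtain ⟨m, rfl⟩ := Nat.exists_eq_succ_of_ne_zero hm
  rw [Nat.succ_eq_add_one, S_succ]
  have : 0 < t ^ m := pow_pos ht m
  omega

theorem mul_S_add_one (t m : ℕ) (ht : 1 ≤ t) : (t - 1) * S t m + 1 = t ^ m := by
  obtain ⟨t, rfl⟩ : ∃ t', t = t' + 1 := ⟨t - 1, by omega⟩
  induction m with
  | zero => simp [S_zero]
  | succ m ih =>
    rw [S_succ, pow_succ, ← ih]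
    simp only [Nat.add_sub_cancel, mul_add, ← ih]
    ring

theorem S_add (t a b : ℕ) : S t (a + b) = S t a + t ^ a * S t b := by
  induction b with
  | zero => simp [S_zero]
  | succ b ih =>
    rw [← add_assoc, S_succ, ih, S_succ, mul_add, pow_add, add_assoc]

theorem S_mul (t m l : ℕ) : S t (m * l) = S t m * S (t ^ m) l := by
  induction l with
  | zero => simp [S_zero]
  | succ l ih =>
    rw [mul_add, mul_one, S_add, ih, S_succ, mul_add, pow_mul]
    ring

/-- A subset of the natural numbers closed under addition and subtraction, and containing a power of `p`,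
consists of the multiples of a power of `p`. -/
theorem exists_pow_of_closed {p : ℕ} (hp : p.Prime) (I : Set ℕ) (c : ℕ) (hc : p ^ c ∈ I) (h0 : 0 ∈ I)
    (hadd : ∀ x y, x ∈ I → y ∈ I → x + y ∈ I) (hsub : ∀ x y, x ∈ I → y ∈ I → y ≤ x → x - y ∈ I) :
    ∃ t, t ≤ c ∧ ∀ x, x ∈ I ↔ p ^ t ∣ x := by
  classical
  have hex : ∃ d, 0 < d ∧ d ∈ I := ⟨p ^ c, pow_pos hp.pos c, hc⟩
  let d := Nat.find hex
  obtain ⟨hd0, hdI⟩ : 0 < d ∧ d ∈ I := Nat.find_spec hex
  have hmin : ∀ e, e < d → 0 < e → e ∉ I := fun e he he0 heI => Nat.find_min hex he ⟨he0, heI⟩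
  have hmul : ∀ q, d * q ∈ I := by
    intro q
    induction q with
    | zero => simpa using h0
    | succ q ih =>
      rw [mul_add, mul_one]
      exact hadd _ _ ih hdI
  have hdvd : ∀ x, x ∈ I → d ∣ x := by
    intro x hx
    have h1 : x - d * (x / d) ∈ I := hsub _ _ hx (hmul _) (Nat.mul_div_le x d)
    have h2 : x - d * (x / d) = x % d := by
      have := Nat.div_add_mod x d
      omega
    rw [h2] at h1
    by_contra hnd
    have h3 : 0 < x % d := Nat.pos_of_ne_zero fun h => hnd (Nat.dvd_of_mod_eq_zero h)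
    exact hmin _ (Nat.mod_lt _ hd0) h3 h1
  obtain ⟨t, ht, hdt⟩ := (Nat.dvd_prime_pow hp).1 (hdvd _ hc)
  refine ⟨t, ht, fun x => ⟨fun hx => ?_, fun hx => ?_⟩⟩
  · rw [← hdt]
    exact hdvd x hx
  · obtain ⟨q, rfl⟩ := hx
    rw [← hdt]
    exact hmul q

/-- Coordinates on a metacyclic `p`-group: `a` generates a normal cyclic subgroup, `b` generates the quotient. -/
structure Data (G : Type*) [Group G] (p : ℕ) where
  a : G
  b : G
  α : ℕ
  β : ℕ
  r : ℕ
  y : ℕ
  odd_p : Odd p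
  ord_a : orderOf a = p ^ α
  conj : b * a * b⁻¹ = a ^ r
  one_lt : 1 < r
  dvd_r : p ∣ r - 1
  rep : ∀ g : G, ∃ x j : ℕ, g = a ^ x * b ^ j
  pow_b : b ^ p ^ β = a ^ y
  mem : ∀ j x : ℕ, b ^ j = a ^ x → p ^ β ∣ j

namespace Data

variable {G : Type*} [Group G] {p : ℕ} (D : Data G p)

theorem b_mul (x : ℕ) : D.b * D.a ^ x = D.a ^ (x * D.r) * D.b := by
  have h1 : D.b * D.a = D.a ^ D.r * D.b := by
    rw [← D.conj]
    group
  induction x with
  | zero => simp
  | succ x ih =>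
    calc D.b * D.a ^ (x + 1) = (D.b * D.a ^ x) * D.a := by rw [pow_succ]; group
      _ = D.a ^ (x * D.r) * (D.b * D.a) := by rw [ih]; group
      _ = D.a ^ (x * D.r) * D.a ^ D.r * D.b := by rw [h1]; group
      _ = D.a ^ ((x + 1) * D.r) * D.b := by rw [← pow_add, add_mul, one_mul]

theorem bpow_mul (j x : ℕ) : D.b ^ j * D.a ^ x = D.a ^ (x * D.r ^ j) * D.b ^ j := by
  induction j with
  | zero => simp
  | succ j ih =>
    calc D.b ^ (j + 1) * D.a ^ x = D.b * (D.b ^ j * D.a ^ x) := by rw [pow_succ']; group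
      _ = D.b * D.a ^ (x * D.r ^ j) * D.b ^ j := by rw [ih]; group
      _ = D.a ^ (x * D.r ^ j * D.r) * D.b * D.b ^ j := by rw [b_mul]
      _ = D.a ^ (x * D.r ^ (j + 1)) * D.b ^ (j + 1) := by
        rw [pow_succ' D.b j, pow_succ D.r j, mul_assoc x, mul_assoc]

theorem mul_form (x j x' j' : ℕ) :
    D.a ^ x * D.b ^ j * (D.a ^ x' * D.b ^ j') = D.a ^ (x + x' * D.r ^ j) * D.b ^ (j + j') := by
  calc D.a ^ x * D.b ^ j * (D.a ^ x' * D.b ^ j') = D.a ^ x * (D.b ^ j * D.a ^ x') * D.b ^ j' := by group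
    _ = D.a ^ x * D.a ^ (x' * D.r ^ j) * D.b ^ j * D.b ^ j' := by rw [bpow_mul]; group
    _ = _ := by rw [pow_add, pow_add]; group

theorem pow_form (x j m : ℕ) :
    (D.a ^ x * D.b ^ j) ^ m = D.a ^ (x * S (D.r ^ j) m) * D.b ^ (j * m) := by
  induction m with
  | zero => simp [S_zero]
  | succ m ih =>
    rw [pow_succ, ih, mul_form, S_succ, mul_add, mul_add, mul_one, pow_mul D.r j m, mul_comm x]

theorem a_pow_eq_iff (x x' : ℕ) : D.a ^ x = D.a ^ x' ↔ x ≡ x' [MOD p ^ D.α] := by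
  rw [pow_eq_pow_iff_modEq, D.ord_a]

theorem one_le_r_pow (j : ℕ) : 1 ≤ D.r ^ j := Nat.one_le_pow _ _ (by have := D.one_lt; omega)

theorem comm_iff (x j : ℕ) : D.a ^ x * D.b ^ j = D.b ^ j * D.a ^ x ↔ p ^ D.α ∣ x * (D.r ^ j - 1) := by
  rw [bpow_mul]
  constructor
  · intro h
    have h1 : D.a ^ x = D.a ^ (x * D.r ^ j) := mul_right_cancel h
    have h2 := (D.a_pow_eq_iff _ _).1 h1
    have h3 : x ≤ x * D.r ^ j := Nat.le_mul_of_pos_right _ (D.one_le_r_pow j)
    have h4 := (Nat.modEq_iff_dvd' h3).1 h2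
    have h5 : x * D.r ^ j - x = x * (D.r ^ j - 1) := by
      rw [Nat.mul_sub, mul_one]
    rwa [h5] at h4
  · intro h
    have h3 : x ≤ x * D.r ^ j := Nat.le_mul_of_pos_right _ (D.one_le_r_pow j)
    have h5 : x * D.r ^ j - x = x * (D.r ^ j - 1) := by
      rw [Nat.mul_sub, mul_one]
    have h2 := (Nat.modEq_iff_dvd' h3).2 (h5 ▸ h)
    rw [(D.a_pow_eq_iff _ _).2 h2]

/-- The exponent of `p` in `r - 1`. -/
noncomputable def k : ℕ := padicValNat p (D.r - 1)

/-- The exponent of the order of the derived subgroup. -/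
noncomputable def n : ℕ := D.α - D.k

variable [hp : Fact p.Prime]

theorem not_dvd_r : ¬ p ∣ D.r := by
  intro h
  have h1 := D.dvd_r
  have h2 : p ∣ D.r - (D.r - 1) := Nat.dvd_sub h h1
  have h3 : D.r - (D.r - 1) = 1 := by
    have := D.one_lt
    omega
  rw [h3] at h2
  exact hp.out.one_lt.ne' (Nat.dvd_one.1 h2)

theorem val_R {j : ℕ} (hj : j ≠ 0) : padicValNat p (D.r ^ j - 1) = D.k + padicValNat p j := by
  have h := padicValNat.pow_sub_pow (p := p) (x := D.r) (y := 1) D.odd_p D.one_lt D.dvd_r D.not_dvd_r hj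
  rwa [one_pow] at h

theorem R_ne_zero {j : ℕ} (hj : j ≠ 0) : D.r ^ j - 1 ≠ 0 := by
  have h1 : 1 < D.r ^ j := Nat.one_lt_pow hj D.one_lt
  omega

theorem dvd_R_left (x : ℕ) {j : ℕ} (hj : j ≠ 0) :
    p ^ D.α ∣ x * (D.r ^ j - 1) ↔ p ^ (D.n - padicValNat p j) ∣ x := by
  by_cases hx : x = 0
  · subst hx
    simp
  rw [padicValNat_dvd_iff_le (mul_ne_zero hx (D.R_ne_zero hj)), padicValNat_dvd_iff_le hx,
    padicValNat.mul hx (D.R_ne_zero hj), D.val_R hj]
  unfold n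
  omega

theorem dvd_R_right {x : ℕ} (hx : x ≠ 0) (j : ℕ) :
    p ^ D.α ∣ x * (D.r ^ j - 1) ↔ p ^ (D.n - padicValNat p x) ∣ j := by
  by_cases hj : j = 0
  · subst hj
    simp
  rw [padicValNat_dvd_iff_le (mul_ne_zero hx (D.R_ne_zero hj)), padicValNat_dvd_iff_le hj,
    padicValNat.mul hx (D.R_ne_zero hj), D.val_R hj]
  unfold n
  omega

theorem dvd_mul_R_pow (x m : ℕ) : p ^ D.α ∣ x * (D.r ^ (p ^ m) - 1) ↔ p ^ (D.n - m) ∣ x := by
  rw [D.dvd_R_left x (pow_ne_zero m hp.out.ne_zero), padicValNat.prime_pow]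

theorem dvd_pow_mul_R (s j : ℕ) : p ^ D.α ∣ p ^ s * (D.r ^ j - 1) ↔ p ^ (D.n - s) ∣ j := by
  rw [D.dvd_R_right (pow_ne_zero s hp.out.ne_zero), padicValNat.prime_pow]

/-- Divisibility of `r ^ j - 1`. -/
theorem pow_dvd_R {t j : ℕ} (h : p ^ t ∣ j) : p ^ (D.k + t) ∣ D.r ^ j - 1 := by
  by_cases hj : j = 0
  · subst hj
    simp
  rw [padicValNat_dvd_iff_le (D.R_ne_zero hj), D.val_R hj]
  have := (padicValNat_dvd_iff_le hj).1 h
  omega

theorem pow_k_dvd_R (j : ℕ) : p ^ D.k ∣ D.r ^ j - 1 := by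
  have := D.pow_dvd_R (t := 0) (j := j) (by simp)
  simpa using this

theorem val_S (j : ℕ) {m : ℕ} (hm : m ≠ 0) : padicValNat p (S (D.r ^ j) m) = padicValNat p m := by
  by_cases hj : j = 0
  · subst hj
    rw [pow_zero, S_one_left]
  have h1 := mul_S_add_one (D.r ^ j) m (D.one_le_r_pow j)
  have hS := S_pos (D.r ^ j) m (D.one_le_r_pow j) hm
  have h2 : D.r ^ j - 1 ≠ 0 := D.R_ne_zero hj
  have h3 : (D.r ^ j) ^ m - 1 = (D.r ^ j - 1) * S (D.r ^ j) m := by
    rw [← h1]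
    simp
  have h4 := D.val_R (j := j * m) (mul_ne_zero hj hm)
  rw [pow_mul, h3, padicValNat.mul h2 hS.ne', D.val_R hj,
    padicValNat.mul hj hm] at h4
  omega

theorem pow_dvd_S_iff (j c : ℕ) {m : ℕ} (hm : m ≠ 0) : p ^ c ∣ S (D.r ^ j) m ↔ p ^ c ∣ m := by
  have hS := S_pos (D.r ^ j) m (D.one_le_r_pow j) hm
  rw [padicValNat_dvd_iff_le hS.ne', padicValNat_dvd_iff_le hm, D.val_S j hm]

/-- There are units in the factorization of `r ^ (p ^ t) - 1`. -/
theorem exists_R_unit (t : ℕ) : ∃ u, ¬ p ∣ u ∧ D.r ^ (p ^ t) - 1 = p ^ (D.k + t) * u := by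
  have h1 : p ^ t ≠ 0 := pow_ne_zero t hp.out.ne_zero
  have h2 := D.R_ne_zero h1
  obtain ⟨u, hu⟩ := D.pow_dvd_R (t := t) (j := p ^ t) dvd_rfl
  refine ⟨u, fun hd => ?_, hu⟩
  obtain ⟨v, rfl⟩ := hd
  have h3 : p ^ (D.k + t + 1) ∣ D.r ^ (p ^ t) - 1 := by
    rw [hu, pow_succ]
    exact mul_dvd_mul_left _ (Dvd.intro _ rfl)
  have h4 := (padicValNat_dvd_iff_le h2).1 h3
  rw [D.val_R h1, padicValNat.prime_pow] at h4
  omega


section Finite

variable [Finite G]

theorem n_le_α : D.n ≤ D.α := Nat.sub_le _ _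

theorem pow_n_dvd_y : p ^ D.n ∣ D.y := by
  have h1 : D.a ^ D.y * D.b ^ 1 = D.b ^ 1 * D.a ^ D.y := by
    rw [← D.pow_b, pow_one, ← pow_succ, ← pow_succ']
  have h2 := (D.comm_iff _ _).1 h1
  have h3 := (D.dvd_mul_R_pow D.y 0).1 (by simpa using h2)
  simpa using h3

theorem n_le_β : D.n ≤ D.β := by
  have h1 : D.a ^ 1 * D.b ^ (p ^ D.β) = D.b ^ (p ^ D.β) * D.a ^ 1 := by
    rw [D.pow_b, ← pow_add, ← pow_add, add_comm]
  have h2 := (D.comm_iff _ _).1 h1
  have h3 := (D.dvd_mul_R_pow 1 D.β).1 h2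
  have h4 : D.n - D.β = 0 := by
    by_contra hne
    obtain ⟨c, hc⟩ : ∃ c, D.n - D.β = c + 1 := ⟨D.n - D.β - 1, by omega⟩
    rw [hc, pow_succ] at h3
    have h5 : p ∣ 1 := (Dvd.intro_left _ rfl).trans h3
    exact hp.out.one_lt.ne' (Nat.dvd_one.1 h5)
  omega

theorem inv_eq_pow (c : G) : c⁻¹ = c ^ (orderOf c - 1) := by
  have h1 : 0 < orderOf c := orderOf_pos c
  have h2 : c ^ (orderOf c - 1) * c = 1 := by
    rw [← pow_succ, Nat.sub_add_cancel h1, pow_orderOf_eq_one]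
  exact (eq_inv_of_mul_eq_one_left h2).symm

theorem coord_aux {x j x' j' t : ℕ} (ht : t ≤ D.n) (h : D.a ^ x * D.b ^ j = D.a ^ x' * D.b ^ j') (hjj : j ≤ j') :
    (p ^ t ∣ x ↔ p ^ t ∣ x') ∧ (p ^ t ∣ j ↔ p ^ t ∣ j') := by
  obtain ⟨m, rfl⟩ := Nat.exists_eq_add_of_le hjj
  have h1 : D.a ^ x = D.a ^ x' * D.b ^ m := by
    have h2 : D.a ^ x * D.b ^ j = D.a ^ x' * D.b ^ m * D.b ^ j := by
      rw [h, add_comm j m, pow_add, mul_assoc]
    exact mul_right_cancel h2
  have h2 : D.b ^ m = D.a ^ (x' * (orderOf D.a - 1) + x) := by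
    have h3 : D.b ^ m = (D.a ^ x')⁻¹ * D.a ^ x := by
      rw [h1]
      group
    rw [h3, pow_add, pow_mul, pow_right_comm, ← inv_eq_pow]
    simp
  have hm := D.mem _ _ h2
  obtain ⟨q, rfl⟩ := hm
  have h3 : D.b ^ (p ^ D.β * q) = D.a ^ (D.y * q) := by
    rw [pow_mul, D.pow_b, pow_mul]
  rw [h3, ← pow_add] at h1
  have h4 := (D.a_pow_eq_iff _ _).1 h1
  have htα : p ^ t ∣ p ^ D.α := pow_dvd_pow p (ht.trans D.n_le_α)
  have hty : p ^ t ∣ D.y := (pow_dvd_pow p ht).trans D.pow_n_dvd_y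
  have htβ : p ^ t ∣ p ^ D.β := pow_dvd_pow p (ht.trans D.n_le_β)
  constructor
  · have h5 : x % p ^ t = (x' + D.y * q) % p ^ t := (h4.of_dvd htα)
    constructor
    · intro hd
      have h6 : p ^ t ∣ x' + D.y * q := (Nat.ModEq.dvd_iff (h4.of_dvd htα) dvd_rfl).1 hd
      exact (Nat.dvd_add_left (hty.mul_right q)).1 h6
    · intro hd
      have h6 : p ^ t ∣ x' + D.y * q := Nat.dvd_add hd (hty.mul_right q)
      exact (Nat.ModEq.dvd_iff (h4.of_dvd htα) dvd_rfl).2 h6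
  · constructor
    · intro hd
      exact Nat.dvd_add hd (htβ.mul_right q)
    · intro hd
      exact (Nat.dvd_add_left (htβ.mul_right q)).1 hd

theorem coord {x j x' j' t : ℕ} (ht : t ≤ D.n) (h : D.a ^ x * D.b ^ j = D.a ^ x' * D.b ^ j') :
    (p ^ t ∣ x ↔ p ^ t ∣ x') ∧ (p ^ t ∣ j ↔ p ^ t ∣ j') := by
  rcases le_total j j' with hjj | hjj
  · exact D.coord_aux ht h hjj
  · obtain ⟨h1, h2⟩ := D.coord_aux ht h.symm hjj
    exact ⟨h1.symm, h2.symm⟩

theorem V_mul_aux {t : ℕ} {g g' : G} (hg : ∃ x j : ℕ, g = D.a ^ (p ^ t * x) * D.b ^ (p ^ t * j))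
    (hg' : ∃ x j : ℕ, g' = D.a ^ (p ^ t * x) * D.b ^ (p ^ t * j)) :
    ∃ x j : ℕ, g * g' = D.a ^ (p ^ t * x) * D.b ^ (p ^ t * j) := by
  obtain ⟨x, j, rfl⟩ := hg
  obtain ⟨x', j', rfl⟩ := hg'
  refine ⟨x + x' * D.r ^ (p ^ t * j), j + j', ?_⟩
  rw [mul_form, mul_add (p ^ t) j j', mul_add (p ^ t) x, mul_assoc (p ^ t) x']

theorem V_pow_aux {t : ℕ} {g : G} (hg : ∃ x j : ℕ, g = D.a ^ (p ^ t * x) * D.b ^ (p ^ t * j)) (m : ℕ) :
    ∃ x j : ℕ, g ^ m = D.a ^ (p ^ t * x) * D.b ^ (p ^ t * j) := by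
  induction m with
  | zero => exact ⟨0, 0, by simp⟩
  | succ m ih =>
    rw [pow_succ]
    exact D.V_mul_aux ih hg

/-- The subgroup generated by the `p ^ t`-th powers of the coordinates. -/
def V (t : ℕ) : Subgroup G where
  carrier := {g | ∃ x j : ℕ, g = D.a ^ (p ^ t * x) * D.b ^ (p ^ t * j)}
  mul_mem' := fun hg hg' => D.V_mul_aux hg hg'
  one_mem' := ⟨0, 0, by simp⟩
  inv_mem' := fun {g} hg => by
    show ∃ x j : ℕ, g⁻¹ = D.a ^ (p ^ t * x) * D.b ^ (p ^ t * j)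
    rw [inv_eq_pow]
    exact D.V_pow_aux hg _

theorem mem_V {t : ℕ} {g : G} : g ∈ D.V t ↔ ∃ x j : ℕ, g = D.a ^ (p ^ t * x) * D.b ^ (p ^ t * j) := Iff.rfl

theorem V_anti {t s : ℕ} (h : t ≤ s) : D.V s ≤ D.V t := by
  rintro g ⟨x, j, rfl⟩
  obtain ⟨e, rfl⟩ := Nat.exists_eq_add_of_le h
  refine ⟨p ^ e * x, p ^ e * j, ?_⟩
  rw [pow_add, mul_assoc, mul_assoc]

theorem mem_V_iff {t : ℕ} (ht : t ≤ D.n) (x j : ℕ) : D.a ^ x * D.b ^ j ∈ D.V t ↔ p ^ t ∣ x ∧ p ^ t ∣ j := by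
  constructor
  · rintro ⟨x', j', h⟩
    obtain ⟨h1, h2⟩ := D.coord ht h
    exact ⟨h1.2 (Dvd.intro _ rfl), h2.2 (Dvd.intro _ rfl)⟩
  · rintro ⟨⟨x', rfl⟩, ⟨j', rfl⟩⟩
    exact ⟨x', j', rfl⟩

theorem V_zero : D.V 0 = ⊤ := by
  rw [eq_top_iff]
  intro g _
  obtain ⟨x, j, rfl⟩ := D.rep g
  exact ⟨x, j, by simp⟩

theorem orderOf_a_pow (e : ℕ) : orderOf (D.a ^ (p ^ e)) = p ^ (D.α - e) := by
  by_cases he : e ≤ D.α
  · rw [orderOf_pow_of_dvd (pow_ne_zero e hp.out.ne_zero) (by rw [D.ord_a]; exact pow_dvd_pow p he), D.ord_a,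
      Nat.pow_div he hp.out.pos]
  · have h1 : D.a ^ (p ^ e) = 1 := by
      rw [← orderOf_dvd_iff_pow_eq_one, D.ord_a]
      exact pow_dvd_pow p (by omega)
    rw [h1, orderOf_one]
    have : D.α - e = 0 := by omega
    rw [this, pow_zero]

theorem conj_eq_aux (u v g : G) (h : u * g * u⁻¹ = v * g * v⁻¹) : u⁻¹ * v * g = g * (u⁻¹ * v) := by
  have h1 : v * g = u * g * u⁻¹ * v := by
    rw [h]
    group
  calc u⁻¹ * v * g = u⁻¹ * (v * g) := by group
    _ = u⁻¹ * (u * g * u⁻¹ * v) := by rw [h1]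
    _ = g * (u⁻¹ * v) := by group

theorem index_centralizer_le (g : G) (T : Subgroup G) (h : ∀ x : G, x * g * x⁻¹ * g⁻¹ ∈ T) :
    (centralizer ({g} : Set G)).index ≤ Nat.card T := by
  classical
  let f : G ⧸ centralizer ({g} : Set G) → T := fun q => ⟨_, h (Quotient.out q)⟩
  have hf : Function.Injective f := by
    intro q q' hqq
    have h1 : Quotient.out q * g * (Quotient.out q)⁻¹ * g⁻¹ = Quotient.out q' * g * (Quotient.out q')⁻¹ * g⁻¹ :=
      congrArg Subtype.val hqq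
    have h2 : Quotient.out q * g * (Quotient.out q)⁻¹ = Quotient.out q' * g * (Quotient.out q')⁻¹ := mul_right_cancel h1
    have h3 : (Quotient.out q)⁻¹ * Quotient.out q' ∈ centralizer ({g} : Set G) := by
      rw [mem_centralizer_singleton_iff]
      exact conj_eq_aux _ _ _ h2
    have h6 : ((Quotient.out q : G) : G ⧸ centralizer ({g} : Set G)) = (Quotient.out q' : G) :=
      QuotientGroup.eq.2 h3
    rw [QuotientGroup.out_eq', QuotientGroup.out_eq'] at h6
    exact h6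
  exact Nat.card_le_card_of_injective f hf

theorem le_index_of_pow (g x : G) (N : ℕ) (h : ∀ m : ℕ, x ^ m * g = g * x ^ m → N ∣ m) :
    N ≤ (centralizer ({g} : Set G)).index := by
  classical
  let f : Fin N → G ⧸ centralizer ({g} : Set G) := fun m => ((x ^ (m : ℕ) : G) : G ⧸ centralizer ({g} : Set G))
  have key : ∀ m m' : ℕ, m ≤ m' → m' < N → ((x ^ m : G) : G ⧸ centralizer ({g} : Set G)) = (x ^ m' : G) → m = m' := by
    intro m m' hmm hm' heq
    have h1 := QuotientGroup.eq.1 heq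
    obtain ⟨e, rfl⟩ := Nat.exists_eq_add_of_le hmm
    have h2 : (x ^ m)⁻¹ * x ^ (m + e) = x ^ e := by
      rw [pow_add]
      group
    rw [h2, mem_centralizer_singleton_iff] at h1
    have h3 := h e h1
    have h4 : e = 0 := Nat.eq_zero_of_dvd_of_lt h3 (by omega)
    omega
  have hf : Function.Injective f := by
    intro m m' hmm
    apply Fin.ext
    rcases le_total (m : ℕ) m' with h1 | h1
    · exact key _ _ h1 m'.2 hmm
    · exact (key _ _ h1 m.2 hmm.symm).symm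
  have h0 := Nat.card_le_card_of_injective f hf
  rw [Nat.card_eq_fintype_card, Fintype.card_fin] at h0
  exact h0

theorem comm_formula (i j i' j' : ℕ) :
    (D.a ^ i' * D.b ^ j') * (D.a ^ i * D.b ^ j) * (D.a ^ i' * D.b ^ j')⁻¹ * (D.a ^ i * D.b ^ j)⁻¹ =
      D.a ^ (i * (D.r ^ j' - 1)) * (D.a ^ (i' * (D.r ^ j - 1)))⁻¹ := by
  have h1 := D.mul_form i' j' i j
  have h2 := D.mul_form i j i' j'
  have e1 : i' + i * D.r ^ j' = i * (D.r ^ j' - 1) + (i + i') := by
    have := D.one_le_r_pow j'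
    obtain ⟨c, hc⟩ : ∃ c, D.r ^ j' = c + 1 := ⟨D.r ^ j' - 1, by omega⟩
    rw [hc]
    simp only [Nat.add_sub_cancel, mul_add, mul_one]
    ring
  have e2 : i + i' * D.r ^ j = i' * (D.r ^ j - 1) + (i + i') := by
    have := D.one_le_r_pow j
    obtain ⟨c, hc⟩ : ∃ c, D.r ^ j = c + 1 := ⟨D.r ^ j - 1, by omega⟩
    rw [hc]
    simp only [Nat.add_sub_cancel, mul_add, mul_one]
    ring
  rw [e1, pow_add, add_comm j' j] at h1
  rw [e2, pow_add] at h2
  generalize D.a ^ i' * D.b ^ j' = h at *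
  generalize D.a ^ i * D.b ^ j = g at *
  have h3 : h * g * h⁻¹ * g⁻¹ = (h * g) * (g * h)⁻¹ := by group
  rw [h3, h1, h2]
  group

/-- The `a`-part of the commutator subgroup of level `t`. -/
theorem comm_mem_of_V {t : ℕ} (ht : t ≤ D.n) {g : G} (hg : g ∈ D.V t) (h : G) :
    h * g * h⁻¹ * g⁻¹ ∈ zpowers (D.a ^ (p ^ (D.k + t))) := by
  obtain ⟨i', j', rfl⟩ := D.rep h
  obtain ⟨x, j, rfl⟩ := hg
  rw [comm_formula]
  have hm : ∀ z : ℕ, p ^ (D.k + t) ∣ z → D.a ^ z ∈ zpowers (D.a ^ (p ^ (D.k + t))) := by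
    rintro z ⟨c, rfl⟩
    rw [pow_mul]
    exact Subgroup.pow_mem _ (mem_zpowers _) _
  refine Subgroup.mul_mem _ (hm _ ?_) (Subgroup.inv_mem _ (hm _ ?_))
  · rw [pow_add, mul_comm (p ^ D.k)]
    exact mul_dvd_mul (Dvd.intro _ rfl) (D.pow_k_dvd_R j')
  · exact Dvd.dvd.mul_left (D.pow_dvd_R (Dvd.intro _ rfl)) _

theorem index_le {t : ℕ} (ht : t ≤ D.n) {g : G} (hg : g ∈ D.V t) :
    (centralizer ({g} : Set G)).index ≤ p ^ (D.n - t) := by
  have h1 := index_centralizer_le g _ (D.comm_mem_of_V ht hg)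
  rw [Nat.card_zpowers, D.orderOf_a_pow] at h1
  have h2 : D.α - (D.k + t) = D.n - t := by
    unfold n
    omega
  rwa [h2] at h1

theorem index_ge {t : ℕ} (ht : t < D.n) {g : G} (hg : g ∈ D.V t) (hg' : g ∉ D.V (t + 1)) :
    p ^ (D.n - t) ≤ (centralizer ({g} : Set G)).index := by
  obtain ⟨i, j, rfl⟩ := D.rep g
  have h1 := (D.mem_V_iff ht.le i j).1 hg
  have h2 : ¬ (p ^ (t + 1) ∣ i ∧ p ^ (t + 1) ∣ j) := fun h => hg' ((D.mem_V_iff ht i j).2 h)
  by_cases hj : p ^ (t + 1) ∣ j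
  · have hi : ¬ p ^ (t + 1) ∣ i := fun h => h2 ⟨h, hj⟩
    have hi0 : i ≠ 0 := by
      rintro rfl
      exact hi (dvd_zero _)
    have hvi : padicValNat p i = t := by
      have h3 := (padicValNat_dvd_iff_le hi0).1 h1.1
      have h4 : ¬ t + 1 ≤ padicValNat p i := fun h => hi ((padicValNat_dvd_iff_le hi0).2 h)
      omega
    refine le_index_of_pow _ D.b _ fun m hm => ?_
    have h5 : D.a ^ i * D.b ^ m = D.b ^ m * D.a ^ i := by
      have h6 : D.b ^ m * D.a ^ i * D.b ^ j = D.a ^ i * D.b ^ m * D.b ^ j := by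
        have h7 : D.b ^ m * (D.a ^ i * D.b ^ j) = D.a ^ i * D.b ^ j * D.b ^ m := hm
        calc D.b ^ m * D.a ^ i * D.b ^ j = D.b ^ m * (D.a ^ i * D.b ^ j) := by group
          _ = D.a ^ i * (D.b ^ j * D.b ^ m) := by rw [h7]; group
          _ = D.a ^ i * D.b ^ m * D.b ^ j := by rw [← pow_add, add_comm, pow_add]; group
      exact (mul_right_cancel h6).symm
    have h8 := (D.comm_iff _ _).1 h5
    have h9 := (D.dvd_R_right hi0 m).1 h8
    rwa [hvi] at h9
  · have hj0 : j ≠ 0 := by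
      rintro rfl
      exact hj (dvd_zero _)
    have hvj : padicValNat p j = t := by
      have h3 := (padicValNat_dvd_iff_le hj0).1 h1.2
      have h4 : ¬ t + 1 ≤ padicValNat p j := fun h => hj ((padicValNat_dvd_iff_le hj0).2 h)
      omega
    refine le_index_of_pow _ D.a _ fun m hm => ?_
    have h5 : D.a ^ m * D.b ^ j = D.b ^ j * D.a ^ m := by
      have h6 : D.a ^ i * (D.a ^ m * D.b ^ j) = D.a ^ i * (D.b ^ j * D.a ^ m) := by
        have h7 : D.a ^ m * (D.a ^ i * D.b ^ j) = D.a ^ i * D.b ^ j * D.a ^ m := hm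
        calc D.a ^ i * (D.a ^ m * D.b ^ j) = D.a ^ m * (D.a ^ i * D.b ^ j) := by
              rw [← mul_assoc, ← mul_assoc, ← pow_add, ← pow_add, add_comm]
          _ = D.a ^ i * (D.b ^ j * D.a ^ m) := by rw [h7]; group
      exact mul_left_cancel h6
    have h8 := (D.comm_iff _ _).1 h5
    have h9 := (D.dvd_R_left m hj0).1 h8
    rwa [hvj] at h9

theorem exists_level (g : G) : ∃ t, t ≤ D.n ∧ g ∈ D.V t ∧ (t = D.n ∨ g ∉ D.V (t + 1)) := by
  classical
  by_contra hcon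
  push Not at hcon
  have h : ∀ t, t ≤ D.n → g ∈ D.V t := by
    intro t
    induction t with
    | zero =>
      intro _
      rw [V_zero]
      trivial
    | succ t ih =>
      intro ht
      exact (hcon t (by omega) (ih (by omega))).2
  have h1 := hcon _ le_rfl (h _ le_rfl)
  exact h1.1 rfl

theorem index_eq {t : ℕ} (ht : t ≤ D.n) {g : G} (hg : g ∈ D.V t) (hg' : t = D.n ∨ g ∉ D.V (t + 1)) :
    (centralizer ({g} : Set G)).index = p ^ (D.n - t) := by
  refine le_antisymm (D.index_le ht hg) ?_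
  rcases hg' with h | h
  · rw [h, Nat.sub_self, pow_zero]
    exact Nat.pos_of_ne_zero Subgroup.index_ne_zero_of_finite
  · rcases Nat.lt_or_ge t D.n with h1 | h1
    · exact D.index_ge h1 hg h
    · have : t = D.n := le_antisymm ht h1
      rw [this, Nat.sub_self, pow_zero]
      exact Nat.pos_of_ne_zero Subgroup.index_ne_zero_of_finite

theorem mem_V_iff_index {s : ℕ} (hs : s ≤ D.n) (g : G) :
    g ∈ D.V s ↔ (centralizer ({g} : Set G)).index ≤ p ^ (D.n - s) := by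
  refine ⟨fun h => D.index_le hs h, fun h => ?_⟩
  obtain ⟨t, ht, hg, hg'⟩ := D.exists_level g
  rw [D.index_eq ht hg hg'] at h
  have h1 := (Nat.pow_le_pow_iff_right hp.out.one_lt).1 h
  exact D.V_anti (by omega) hg

theorem V_n_eq_center : D.V D.n = center G := by
  ext g
  rw [D.mem_V_iff_index le_rfl, Nat.sub_self, pow_zero]
  constructor
  · intro h
    have h1 : (centralizer ({g} : Set G)).index = 1 :=
      le_antisymm h (Nat.pos_of_ne_zero Subgroup.index_ne_zero_of_finite)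
    have h2 := Subgroup.index_eq_one.1 h1
    rw [Subgroup.mem_center_iff]
    intro z
    have h3 : z ∈ centralizer ({g} : Set G) := by
      rw [h2]
      trivial
    exact mem_centralizer_singleton_iff.1 h3
  · intro h
    have h2 : centralizer ({g} : Set G) = ⊤ := by
      rw [eq_top_iff]
      intro z _
      rw [mem_centralizer_singleton_iff]
      exact (Subgroup.mem_center_iff.1 h) z
    rw [h2, Subgroup.index_top]

/-- The `p ^ s`-th powers generate `V s`. -/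
theorem closure_pow_eq (s : ℕ) : closure {x : G | ∃ y : G, y ^ p ^ s = x} = D.V s := by
  apply le_antisymm
  · rw [closure_le]
    rintro _ ⟨y, rfl⟩
    obtain ⟨x, j, rfl⟩ := D.rep y
    rw [pow_form]
    have h1 : p ^ s ∣ S (D.r ^ j) (p ^ s) :=
      (D.pow_dvd_S_iff j s (pow_ne_zero s hp.out.ne_zero)).2 dvd_rfl
    obtain ⟨c, hc⟩ := h1
    refine ⟨x * c, j, ?_⟩
    rw [hc]
    congr 2
    · ring
    · ring
  · rintro g ⟨x, j, rfl⟩
    refine Subgroup.mul_mem _ (subset_closure ⟨D.a ^ x, ?_⟩) (subset_closure ⟨D.b ^ j, ?_⟩)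
    · rw [← pow_mul, mul_comm]
    · rw [← pow_mul, mul_comm]

theorem commutator_eq : commutator G = zpowers (D.a ^ (D.r - 1)) := by
  apply le_antisymm
  · rw [_root_.commutator_def, Subgroup.commutator_le]
    intro h _ g _
    obtain ⟨i, j, rfl⟩ := D.rep g
    obtain ⟨i', j', rfl⟩ := D.rep h
    rw [commutatorElement_def, comm_formula]
    have hm : ∀ z : ℕ, D.a ^ (z * (D.r - 1)) ∈ zpowers (D.a ^ (D.r - 1)) := by
      intro z
      rw [mul_comm, pow_mul]
      exact Subgroup.pow_mem _ (mem_zpowers _) _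
    have hS : ∀ (x m : ℕ), D.a ^ (x * (D.r ^ m - 1)) ∈ zpowers (D.a ^ (D.r - 1)) := by
      intro x m
      have h1 := mul_S_add_one D.r m (by have := D.one_lt; omega)
      have h2 : D.r ^ m - 1 = S D.r m * (D.r - 1) := by
        rw [← h1]
        simp [mul_comm]
      rw [h2, ← mul_assoc]
      exact hm _
    exact Subgroup.mul_mem _ (hS _ _) (Subgroup.inv_mem _ (hS _ _))
  · rw [zpowers_le]
    have h1 : D.a ^ (D.r - 1) = ⁅D.b, D.a⁆ := by
      rw [commutatorElement_def, D.conj]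
      have h2 : D.r = (D.r - 1) + 1 := by
        have := D.one_lt
        omega
      conv_rhs => rw [h2, pow_succ]
      group
    rw [h1, _root_.commutator_def]
    exact Subgroup.commutator_mem_commutator trivial trivial

theorem card_commutator : Nat.card (commutator G) = p ^ D.n := by
  rw [D.commutator_eq, Nat.card_zpowers]
  have key : ∀ e : ℕ, (D.a ^ (D.r - 1)) ^ p ^ e = 1 ↔ D.n ≤ e := by
    intro e
    rw [← pow_mul, ← orderOf_dvd_iff_pow_eq_one, D.ord_a]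
    have h1 := D.dvd_pow_mul_R e 1
    have h2 : (D.r - 1) * p ^ e = p ^ e * (D.r ^ 1 - 1) := by
      rw [pow_one, mul_comm]
    rw [h2, h1]
    constructor
    · intro h
      by_contra hlt
      obtain ⟨c, hc⟩ : ∃ c, D.n - e = c + 1 := ⟨D.n - e - 1, by omega⟩
      rw [hc, pow_succ] at h
      have h5 : p ∣ 1 := (Dvd.intro_left _ rfl).trans h
      exact hp.out.one_lt.ne' (Nat.dvd_one.1 h5)
    · intro h
      have : D.n - e = 0 := by omega
      rw [this, pow_zero]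
  rcases Nat.eq_zero_or_pos D.n with h0 | h0
  · have h1 := (key 0).2 (by omega)
    rw [pow_zero, pow_one] at h1
    rw [h1, orderOf_one, h0, pow_zero]
  · obtain ⟨c, hc⟩ : ∃ c, D.n = c + 1 := ⟨D.n - 1, by omega⟩
    rw [hc]
    apply orderOf_eq_prime_pow
    · rw [key]
      omega
    · rw [key]
      omega

theorem mem_zpowers_a {g : G} (hg : g ∈ zpowers D.a) : ∃ x : ℕ, g = D.a ^ x := by
  have h := (mem_powers_iff_mem_zpowers).2 hg
  obtain ⟨x, rfl⟩ := h
  exact ⟨x, rfl⟩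

theorem normal_a : (zpowers D.a).Normal := by
  constructor
  intro n hn g
  obtain ⟨x, rfl⟩ := D.mem_zpowers_a hn
  obtain ⟨i, j, rfl⟩ := D.rep g
  have h1 : D.a ^ i * D.b ^ j * D.a ^ x * (D.a ^ i * D.b ^ j)⁻¹ = D.a ^ (x * D.r ^ j) := by
    have h2 := D.bpow_mul j x
    calc D.a ^ i * D.b ^ j * D.a ^ x * (D.a ^ i * D.b ^ j)⁻¹
        = D.a ^ i * (D.b ^ j * D.a ^ x) * (D.b ^ j)⁻¹ * (D.a ^ i)⁻¹ := by group
      _ = D.a ^ i * D.a ^ (x * D.r ^ j) * (D.a ^ i)⁻¹ := by rw [h2]; group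
      _ = D.a ^ (x * D.r ^ j) := by
        rw [← pow_add, add_comm, pow_add]
        group
  rw [h1]
  exact Subgroup.pow_mem _ (mem_zpowers _) _

theorem inv_a_pow (x : ℕ) : ∃ z : ℕ, (D.a ^ x)⁻¹ = D.a ^ z := by
  rw [inv_eq_pow, ← pow_mul]
  exact ⟨_, rfl⟩

/-- Parameters of a subgroup. -/
structure Param (L : Subgroup G) (s t w : ℕ) : Prop where
  s_le : s ≤ D.α
  t_le : t ≤ D.β
  a_mem : ∀ x, D.a ^ x ∈ L ↔ p ^ s ∣ x
  b_dvd : ∀ x j, D.a ^ x * D.b ^ j ∈ L → p ^ t ∣ j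
  u_mem : D.a ^ w * D.b ^ (p ^ t) ∈ L

theorem exists_param (L : Subgroup G) : ∃ s t w, D.Param L s t w := by
  classical
  have hp' := hp.out
  obtain ⟨s, hs, hI⟩ := exists_pow_of_closed hp' {x | D.a ^ x ∈ L} D.α (by
      show D.a ^ p ^ D.α ∈ L
      rw [← D.ord_a, pow_orderOf_eq_one]
      exact L.one_mem) (by
      show D.a ^ 0 ∈ L
      rw [pow_zero]
      exact L.one_mem) (by
      intro x y hx hy
      show D.a ^ (x + y) ∈ L
      rw [pow_add]
      exact L.mul_mem hx hy) (by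
      intro x y hx hy hyx
      show D.a ^ (x - y) ∈ L
      have h1 : D.a ^ (x - y) = D.a ^ x * (D.a ^ y)⁻¹ := by
        rw [eq_mul_inv_iff_mul_eq, ← pow_add, Nat.sub_add_cancel hyx]
      rw [h1]
      exact L.mul_mem hx (L.inv_mem hy))
  obtain ⟨t, ht, hJ⟩ := exists_pow_of_closed hp' {j | ∃ x : ℕ, D.a ^ x * D.b ^ j ∈ L} D.β (by
      obtain ⟨z, hz⟩ := D.inv_a_pow D.y
      refine ⟨z, ?_⟩
      rw [D.pow_b, ← hz]
      simp) ⟨0, by simpa using L.one_mem⟩ (by
      rintro j j' ⟨x, hx⟩ ⟨x', hx'⟩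
      refine ⟨x + x' * D.r ^ j, ?_⟩
      rw [← mul_form]
      exact L.mul_mem hx hx') (by
      rintro j j' ⟨x, hx⟩ ⟨x', hx'⟩ hle
      obtain ⟨z, hz⟩ := D.inv_a_pow x'
      refine ⟨x + z * D.r ^ (j - j'), ?_⟩
      have h1 := L.mul_mem hx (L.inv_mem hx')
      have h2 : D.a ^ x * D.b ^ j * (D.a ^ x' * D.b ^ j')⁻¹ = D.a ^ (x + z * D.r ^ (j - j')) * D.b ^ (j - j') := by
        have h3 : D.b ^ j = D.b ^ (j - j') * D.b ^ j' := by
          rw [← pow_add, Nat.sub_add_cancel hle]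
        have h4 := D.bpow_mul (j - j') z
        calc D.a ^ x * D.b ^ j * (D.a ^ x' * D.b ^ j')⁻¹
            = D.a ^ x * (D.b ^ (j - j') * D.b ^ j') * ((D.b ^ j')⁻¹ * (D.a ^ x')⁻¹) := by rw [← h3, mul_inv_rev]
          _ = D.a ^ x * (D.b ^ (j - j') * (D.a ^ x')⁻¹) := by group
          _ = D.a ^ x * (D.b ^ (j - j') * D.a ^ z) := by rw [hz]
          _ = _ := by rw [h4, pow_add]; group
      rwa [h2] at h1)
  obtain ⟨w, hw⟩ := (hJ (p ^ t)).2 dvd_rfl
  exact ⟨s, t, w, hs, ht, fun x => hI x, fun x j h => (hJ j).1 ⟨x, h⟩, hw⟩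

variable {D}

theorem Param.u_pow {L : Subgroup G} {s t w : ℕ} (h : D.Param L s t w) (j : ℕ) :
    (D.a ^ w * D.b ^ (p ^ t)) ^ j = D.a ^ (w * S (D.r ^ (p ^ t)) j) * D.b ^ (p ^ t * j) := D.pow_form _ _ _

theorem Param.mem_form {L : Subgroup G} {s t w : ℕ} (h : D.Param L s t w) {g : G} (hg : g ∈ L) :
    ∃ x j : ℕ, g = D.a ^ (p ^ s * x) * (D.a ^ w * D.b ^ (p ^ t)) ^ j := by
  obtain ⟨X, Z, rfl⟩ := D.rep g
  obtain ⟨j, rfl⟩ := h.b_dvd _ _ hg
  obtain ⟨z, hz⟩ := D.inv_a_pow (w * S (D.r ^ (p ^ t)) j)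
  have h1 := L.mul_mem hg (L.inv_mem (L.pow_mem h.u_mem j))
  have h2 : D.a ^ X * D.b ^ (p ^ t * j) * ((D.a ^ w * D.b ^ (p ^ t)) ^ j)⁻¹ = D.a ^ (X + z) := by
    rw [h.u_pow, pow_add, ← hz]
    group
  rw [h2] at h1
  obtain ⟨x, hx⟩ := (h.a_mem _).1 h1
  refine ⟨x, j, ?_⟩
  rw [← hx, h2.symm]
  group

theorem orderOf_bbar [hN : (zpowers D.a).Normal] :
    orderOf ((D.b : G) : G ⧸ zpowers D.a) = p ^ D.β := by
  apply Nat.dvd_antisymm
  · apply orderOf_dvd_of_pow_eq_one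
    rw [← QuotientGroup.mk_pow, QuotientGroup.eq_one_iff, D.pow_b]
    exact Subgroup.pow_mem _ (mem_zpowers _) _
  · have h1 := pow_orderOf_eq_one ((D.b : G) : G ⧸ zpowers D.a)
    rw [← QuotientGroup.mk_pow, QuotientGroup.eq_one_iff] at h1
    obtain ⟨x, hx⟩ := D.mem_zpowers_a h1
    exact D.mem _ _ hx

theorem Param.card {L : Subgroup G} {s t w : ℕ} (h : D.Param L s t w) :
    Nat.card L = p ^ (D.α - s + (D.β - t)) := by
  haveI hN : (zpowers D.a).Normal := D.normal_a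
  let f : L →* G ⧸ zpowers D.a := (QuotientGroup.mk' (zpowers D.a)).comp L.subtype
  have hker : f.ker.map L.subtype = zpowers (D.a ^ (p ^ s)) := by
    apply le_antisymm
    · rintro _ ⟨z, hz, rfl⟩
      have hz' : (z : G) ∈ zpowers D.a := (QuotientGroup.eq_one_iff _).1 hz
      obtain ⟨x, hx⟩ := D.mem_zpowers_a hz'
      have h1 : D.a ^ x ∈ L := by
        rw [← hx]
        exact z.2
      obtain ⟨c, rfl⟩ := (h.a_mem x).1 h1
      show (z : G) ∈ _
      rw [hx, pow_mul]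
      exact Subgroup.pow_mem _ (mem_zpowers _) _
    · rw [zpowers_le]
      have h1 : D.a ^ (p ^ s) ∈ L := (h.a_mem _).2 dvd_rfl
      refine ⟨⟨_, h1⟩, ?_, rfl⟩
      show ((D.a ^ (p ^ s) : G) : G ⧸ zpowers D.a) = 1
      rw [QuotientGroup.eq_one_iff]
      exact Subgroup.pow_mem _ (mem_zpowers _) _
  have hrange : f.range = zpowers (((D.b : G) : G ⧸ zpowers D.a) ^ (p ^ t)) := by
    apply le_antisymm
    · rintro _ ⟨z, rfl⟩
      obtain ⟨x, j, hz⟩ := D.rep z
      have h1 : D.a ^ x * D.b ^ j ∈ L := by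
        rw [← hz]
        exact z.2
      obtain ⟨c, hc⟩ := h.b_dvd _ _ h1
      show (((z : G)) : G ⧸ zpowers D.a) ∈ _
      rw [hz, QuotientGroup.mk_mul, hc, pow_mul, QuotientGroup.mk_pow, QuotientGroup.mk_pow]
      have h2 : ((D.a : G) : G ⧸ zpowers D.a) = 1 := by
        rw [QuotientGroup.eq_one_iff]
        exact mem_zpowers _
      rw [h2, one_pow, one_mul, QuotientGroup.mk_pow]
      exact Subgroup.pow_mem _ (mem_zpowers _) _
    · rw [zpowers_le]
      refine ⟨⟨_, h.u_mem⟩, ?_⟩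
      show ((D.a ^ w * D.b ^ (p ^ t) : G) : G ⧸ zpowers D.a) = _
      have h2 : ((D.a : G) : G ⧸ zpowers D.a) = 1 := by
        rw [QuotientGroup.eq_one_iff]
        exact mem_zpowers _
      rw [QuotientGroup.mk_mul, QuotientGroup.mk_pow, h2, one_pow, one_mul, QuotientGroup.mk_pow]
  have h1 : Nat.card f.ker = p ^ (D.α - s) := by
    have h2 : Nat.card f.ker = Nat.card (f.ker.map L.subtype) :=
      Nat.card_congr (f.ker.equivMapOfInjective L.subtype L.subtype_injective).toEquiv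
    rw [h2, hker, Nat.card_zpowers, D.orderOf_a_pow]
  have h3 : Nat.card f.range = p ^ (D.β - t) := by
    rw [hrange, Nat.card_zpowers, orderOf_pow_of_dvd (pow_ne_zero t hp.out.ne_zero) (by
      rw [orderOf_bbar]
      exact pow_dvd_pow p h.t_le), orderOf_bbar, Nat.pow_div h.t_le hp.out.pos]
  have h4 := f.ker.card_mul_index
  rw [Subgroup.index_ker, h1, h3] at h4
  rw [← h4, pow_add]

theorem Param.comm_iff {L : Subgroup G} {s t w : ℕ} (h : D.Param L s t w) :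
    IsMulCommutative L ↔ D.n ≤ s + t := by
  have hA : D.a ^ (p ^ s) ∈ L := (h.a_mem _).2 dvd_rfl
  constructor
  · intro hc
    have h1 : D.a ^ (p ^ s) * (D.a ^ w * D.b ^ (p ^ t)) = (D.a ^ w * D.b ^ (p ^ t)) * D.a ^ (p ^ s) :=
      congrArg Subtype.val (hc.is_comm.comm ⟨_, hA⟩ ⟨_, h.u_mem⟩)
    have h2 : D.a ^ (p ^ s) * D.b ^ (p ^ t) = D.b ^ (p ^ t) * D.a ^ (p ^ s) := by
      rw [← mul_assoc, ← pow_add, add_comm, pow_add, mul_assoc, mul_assoc] at h1
      exact mul_left_cancel h1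
    have h3 := (D.comm_iff _ _).1 h2
    have h4 := (D.dvd_mul_R_pow _ _).1 h3
    have h5 := (Nat.pow_dvd_pow_iff_le_right hp.out.one_lt).1 h4
    omega
  · intro hle
    have hc : Commute (D.a ^ (p ^ s)) (D.a ^ w * D.b ^ (p ^ t)) := by
      have h3 : D.a ^ (p ^ s) * D.b ^ (p ^ t) = D.b ^ (p ^ t) * D.a ^ (p ^ s) := by
        rw [D.comm_iff, D.dvd_mul_R_pow]
        exact pow_dvd_pow p (by omega)
      show _ * _ = _ * _
      rw [← mul_assoc, ← pow_add, add_comm, pow_add, mul_assoc, mul_assoc, h3]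
    refine ⟨⟨fun g g' => Subtype.ext ?_⟩⟩
    obtain ⟨x, j, hg⟩ := h.mem_form g.2
    obtain ⟨x', j', hg'⟩ := h.mem_form g'.2
    show (g : G) * g' = g' * g
    rw [hg, hg', pow_mul, pow_mul]
    have hc1 : Commute ((D.a ^ p ^ s) ^ x) ((D.a ^ p ^ s) ^ x') := Commute.pow_pow (Commute.refl _) _ _
    have hc2 : Commute ((D.a ^ p ^ s) ^ x) ((D.a ^ w * D.b ^ p ^ t) ^ j') := hc.pow_pow _ _
    have hc3 : Commute ((D.a ^ w * D.b ^ p ^ t) ^ j) ((D.a ^ p ^ s) ^ x') := (hc.pow_pow _ _).symm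
    have hc4 : Commute ((D.a ^ w * D.b ^ p ^ t) ^ j) ((D.a ^ w * D.b ^ p ^ t) ^ j') := Commute.pow_pow (Commute.refl _) _ _
    exact ((hc1.mul_right hc2).mul_left (hc3.mul_right hc4)).eq

variable (D)

theorem param_top : D.Param ⊤ 0 0 0 where
  s_le := Nat.zero_le _
  t_le := Nat.zero_le _
  a_mem := fun x => by simp
  b_dvd := fun x j _ => by simp
  u_mem := trivial

theorem card_eq : Nat.card G = p ^ (D.α + D.β) := by
  have h := D.param_top.card
  rw [Subgroup.card_top] at h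
  simpa using h

theorem n_le_add : D.n ≤ D.α + D.β := (D.n_le_α).trans (Nat.le_add_right _ _)

theorem index_commutator : (commutator G).index = p ^ (D.α + D.β - D.n) := by
  have h := (commutator G).card_mul_index
  rw [D.card_commutator, D.card_eq] at h
  have h2 : D.α + D.β = D.n + (D.α + D.β - D.n) := by
    have := D.n_le_add
    omega
  rw [h2, pow_add] at h
  have h3 : p ^ D.n ≠ 0 := pow_ne_zero _ hp.out.ne_zero
  have h4 := Nat.eq_of_mul_eq_mul_left (Nat.pos_of_ne_zero h3) h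
  rw [h4]

theorem param_V {t : ℕ} (ht : t ≤ D.n) : D.Param (D.V t) t t 0 where
  s_le := ht.trans D.n_le_α
  t_le := ht.trans D.n_le_β
  a_mem := fun x => by
    have h := D.mem_V_iff ht x 0
    rw [pow_zero, mul_one] at h
    rw [h]
    simp
  b_dvd := fun x j h => ((D.mem_V_iff ht x j).1 h).2
  u_mem := ⟨0, 1, by simp⟩

theorem card_V {t : ℕ} (ht : t ≤ D.n) : Nat.card (D.V t) = p ^ (D.α - t + (D.β - t)) := (D.param_V ht).card

theorem card_center : Nat.card (center G) = p ^ (D.α - D.n + (D.β - D.n)) := by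
  rw [← D.V_n_eq_center, D.card_V le_rfl]

theorem index_center : (center G).index = p ^ (2 * D.n) := by
  have h := (center G).card_mul_index
  rw [D.card_center, D.card_eq] at h
  have h1 := D.n_le_α
  have h2 := D.n_le_β
  have h3 : D.α + D.β = (D.α - D.n + (D.β - D.n)) + 2 * D.n := by omega
  have h' : p ^ (D.α - D.n + (D.β - D.n)) * (center G).index = p ^ (D.α - D.n + (D.β - D.n)) * p ^ (2 * D.n) := by
    rw [h, ← pow_add, ← h3]
  exact Nat.eq_of_mul_eq_mul_left (pow_pos hp.out.pos _) h'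

/-- The number of elements with a given class size. -/
theorem index_eq_pow_iff {i : ℕ} (hi : 1 ≤ i) (hin : i ≤ D.n) (g : G) :
    (centralizer ({g} : Set G)).index = p ^ i ↔ g ∈ D.V (D.n - i) ∧ g ∉ D.V (D.n - i + 1) := by
  constructor
  · intro h
    obtain ⟨t, ht, hg, hg'⟩ := D.exists_level g
    rw [D.index_eq ht hg hg'] at h
    have h1 := Nat.pow_right_injective hp.out.two_le h
    have h2 : t = D.n - i := by omega
    rw [← h2]
    refine ⟨hg, ?_⟩
    rcases hg' with h3 | h3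
    · omega
    · exact h3
  · rintro ⟨h1, h2⟩
    have h3 := D.index_eq (t := D.n - i) (by omega) h1 (Or.inr h2)
    rw [h3]
    congr 1
    omega

theorem card_index_eq {i : ℕ} (hi : 1 ≤ i) (hin : i ≤ D.n) :
    Nat.card {g : G // (centralizer ({g} : Set G)).index = p ^ i} =
      Nat.card (center G) * (p ^ (2 * i) - p ^ (2 * i - 2)) := by
  classical
  letI : Fintype G := Fintype.ofFinite _
  have h1 : Nat.card {g : G // (centralizer ({g} : Set G)).index = p ^ i} =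
      ((D.V (D.n - i) : Set G) \ (D.V (D.n - i + 1) : Set G)).ncard := by
    rw [← Nat.card_coe_set_eq]
    apply Nat.card_congr
    exact Equiv.subtypeEquivRight fun g => by
      rw [D.index_eq_pow_iff hi hin]
      rfl
  rw [h1, Set.ncard_diff (fun g hg => D.V_anti (Nat.le_succ _) hg) (Set.toFinite _)]
  rw [← Nat.card_coe_set_eq, ← Nat.card_coe_set_eq]
  have h2 : Nat.card ((D.V (D.n - i) : Subgroup G) : Set G) = Nat.card (D.V (D.n - i)) := rfl
  have h3 : Nat.card ((D.V (D.n - i + 1) : Subgroup G) : Set G) = Nat.card (D.V (D.n - i + 1)) := rfl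
  rw [h2, h3, D.card_V (by omega), D.card_V (by omega), D.card_center, Nat.mul_sub, ← pow_add, ← pow_add]
  have h5 := D.n_le_α
  have h6 := D.n_le_β
  congr 2 <;> omega

theorem isPGroup (D : Data G p) : IsPGroup p G := IsPGroup.of_card (D.card_eq)

theorem n_eq_of_card {m : ℕ} (h : Nat.card (commutator G) = p ^ m) : m = D.n := by
  rw [D.card_commutator] at h
  exact (Nat.pow_right_injective hp.out.two_le h).symm

theorem comm_iff_card_le (D : Data G p) (L : Subgroup G) : IsMulCommutative L ↔ Nat.card L ≤ (commutator G).index := by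
  obtain ⟨s, t, w, h⟩ := D.exists_param L
  rw [h.comm_iff, h.card, D.index_commutator, Nat.pow_le_pow_iff_right hp.out.one_lt]
  have h1 := h.s_le
  have h2 := h.t_le
  have h3 := D.n_le_α
  omega

theorem maximal_iff (D : Data G p) (L : Subgroup G) :
    Maximal (fun K : Subgroup G => IsMulCommutative K) L ↔ Nat.card L = (commutator G).index := by
  constructor
  · intro hL
    have h1 := (D.comm_iff_card_le L).1 hL.1
    refine le_antisymm h1 ?_
    by_contra hlt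
    push Not at hlt
    obtain ⟨s, t, w, h⟩ := D.exists_param L
    have h2 := h.card
    have h3 := D.index_commutator
    rw [h2, h3, Nat.pow_lt_pow_iff_right hp.out.one_lt] at hlt
    have h4 : p ^ (D.α - s + (D.β - t) + 1) ∣ Nat.card G := by
      rw [D.card_eq]
      exact pow_dvd_pow p (by omega)
    obtain ⟨K, hK, hLK⟩ := Sylow.exists_subgroup_card_pow_succ h4 h2
    have h5 : IsMulCommutative K := by
      rw [D.comm_iff_card_le, hK, h3]
      exact Nat.pow_le_pow_right hp.out.pos (by omega)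
    have h6 : K ≤ L := hL.2 h5 hLK
    have h7 := Subgroup.card_le_of_le h6
    rw [hK, h2] at h7
    have h8 := (Nat.pow_le_pow_iff_right hp.out.one_lt).1 h7
    omega
  · intro h
    refine ⟨(D.comm_iff_card_le L).2 h.le, fun K hK hLK => ?_⟩
    have h1 := (D.comm_iff_card_le K).1 hK
    have h2 : L = K := Subgroup.eq_of_le_of_card_ge hLK (by omega)
    rw [h2]

theorem card_centralizer (g : G) :
    Nat.card (centralizer ({g} : Set G)) * (centralizer ({g} : Set G)).index = p ^ (D.α + D.β) := by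
  rw [(centralizer ({g} : Set G)).card_mul_index, D.card_eq]

theorem comm_of_zpowers_eq_top (c : G) (h : zpowers c = ⊤) : IsMulCommutative G := by
  haveI : IsCyclic G := ⟨c, fun x => (by rw [h]; trivial : x ∈ zpowers c)⟩
  exact ⟨⟨fun a b => (IsCyclic.commGroup (α := G)).mul_comm a b⟩⟩

theorem n_pos (D : Data G p) {hna : ¬ IsMulCommutative G} : 0 < D.n := by
  by_contra h0
  have h1 : D.n = 0 := by omega
  have h2 := D.V_n_eq_center
  rw [h1, D.V_zero] at h2
  apply hna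
  refine ⟨⟨fun a b => ?_⟩⟩
  have h3 : a ∈ center G := by
    rw [← h2]
    trivial
  exact (Subgroup.mem_center_iff.1 h3 b).symm

theorem V_one_le_frattini : D.V 1 ≤ frattini G := by
  rintro g ⟨x, j, rfl⟩
  have hP := D.isPGroup
  refine Subgroup.mul_mem _ ?_ ?_
  · rw [pow_one, mul_comm, pow_mul]
    exact Cfsg.Agent.Lib.H6PGroup.pow_mem_frattini hP _
  · rw [pow_one, mul_comm, pow_mul]
    exact Cfsg.Agent.Lib.H6PGroup.pow_mem_frattini hP _

theorem frattini_le_V_one (D : Data G p) (hna : ¬ IsMulCommutative G) : frattini G ≤ D.V 1 := by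
  intro g hg
  have hn1 : 1 ≤ D.n := D.n_pos (hna := hna)
  obtain ⟨x, j, rfl⟩ := D.rep g
  rw [D.mem_V_iff hn1, pow_one]
  by_contra hcon
  have hP := D.isPGroup
  have hgen : ∀ (c e : G) (m : ℕ), ¬ p ∣ m → c ^ m ∈ zpowers e ⊔ frattini G → c ∈ zpowers e ⊔ frattini G := by
    intro c e m hm hc
    obtain ⟨i, hi⟩ := IsPGroup.iff_orderOf.1 hP c
    have hcop : m.Coprime (orderOf c) := by
      rw [hi]
      exact Nat.Coprime.pow_right i ((Nat.Prime.coprime_iff_not_dvd hp.out).2 hm).symm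
    obtain ⟨l, hl⟩ := exists_pow_eq_self_of_coprime hcop
    rw [← hl]
    exact Subgroup.pow_mem _ hc l
  by_cases hxd : p ∣ x
  · have hjd : ¬ p ∣ j := fun h => hcon ⟨hxd, h⟩
    have h1 : D.b ∈ zpowers D.a ⊔ frattini G := by
      refine hgen _ _ j hjd ?_
      have h2 : D.b ^ j = (D.a ^ x)⁻¹ * (D.a ^ x * D.b ^ j) := by group
      rw [h2]
      exact Subgroup.mul_mem _ (Subgroup.mem_sup_left (Subgroup.inv_mem _ (Subgroup.pow_mem _ (mem_zpowers _) _)))
        (Subgroup.mem_sup_right hg)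
    have h3 : zpowers D.a ⊔ frattini G = ⊤ := by
      rw [eq_top_iff]
      intro h _
      obtain ⟨x', j', rfl⟩ := D.rep h
      exact Subgroup.mul_mem _ (Subgroup.mem_sup_left (Subgroup.pow_mem _ (mem_zpowers _) _))
        (Subgroup.pow_mem _ h1 _)
    exact hna (comm_of_zpowers_eq_top _ (frattini_nongenerating h3))
  · have h1 : D.a ∈ zpowers D.b ⊔ frattini G := by
      refine hgen _ _ x hxd ?_
      have h2 : D.a ^ x = (D.a ^ x * D.b ^ j) * (D.b ^ j)⁻¹ := by group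
      rw [h2]
      exact Subgroup.mul_mem _ (Subgroup.mem_sup_right hg)
        (Subgroup.mem_sup_left (Subgroup.inv_mem _ (Subgroup.pow_mem _ (mem_zpowers _) _)))
    have h3 : zpowers D.b ⊔ frattini G = ⊤ := by
      rw [eq_top_iff]
      intro h _
      obtain ⟨x', j', rfl⟩ := D.rep h
      exact Subgroup.mul_mem _ (Subgroup.pow_mem _ h1 _)
        (Subgroup.mem_sup_left (Subgroup.pow_mem _ (mem_zpowers _) _))
    exact hna (comm_of_zpowers_eq_top _ (frattini_nongenerating h3))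

theorem not_mem_frattini_iff (D : Data G p) (hna : ¬ IsMulCommutative G) (g : G) :
    g ∉ frattini G ↔ IsMulCommutative (centralizer ({g} : Set G)) := by
  have hn1 : 1 ≤ D.n := D.n_pos (hna := hna)
  have hle := D.n_le_add
  rw [D.comm_iff_card_le, D.index_commutator]
  have hcc := D.card_centralizer g
  constructor
  · intro h
    have h1 : g ∉ D.V 1 := fun h' => h (D.V_one_le_frattini h')
    have h2 : g ∈ D.V 0 := by
      rw [V_zero]
      trivial
    have h3 := D.index_eq (t := 0) (Nat.zero_le _) h2 (Or.inr h1)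
    rw [h3, Nat.sub_zero] at hcc
    have h4 : D.α + D.β = (D.α + D.β - D.n) + D.n := by omega
    rw [h4, pow_add] at hcc
    have h5 := Nat.eq_of_mul_eq_mul_right (pow_pos hp.out.pos _) hcc
    exact h5.le
  · intro h hg
    have h1 := D.frattini_le_V_one hna hg
    have h2 := D.index_le hn1 h1
    have h3 : p ^ (D.α + D.β) ≤ p ^ (D.α + D.β - D.n) * p ^ (D.n - 1) := by
      rw [← hcc]
      exact Nat.mul_le_mul h h2
    rw [← pow_add, Nat.pow_le_pow_iff_right hp.out.one_lt] at h3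
    omega

end Finite

end Data

theorem exists_data_of {G : Type*} [Group G] [Finite G] {p : ℕ} [hp : Fact p.Prime] (hodd : Odd p)
    (hG : IsPGroup p G) (a b : G) (r : ℕ) (hconj : b * a * b⁻¹ = a ^ r) (h1 : 1 < r) (hd : p ∣ r - 1)
    (hrep : ∀ g : G, ∃ x j : ℕ, g = a ^ x * b ^ j) : ∃ D : Data G p, D.a = a ∧ D.b = b ∧ D.r = r := by
  classical
  obtain ⟨α, hα⟩ := IsPGroup.iff_orderOf.1 hG a
  obtain ⟨c, hc⟩ := IsPGroup.iff_orderOf.1 hG b
  obtain ⟨β, hβ, hJ⟩ := exists_pow_of_closed hp.out {j | ∃ x : ℕ, b ^ j = a ^ x} c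
    ⟨0, by rw [← hc, pow_orderOf_eq_one, pow_zero]⟩ ⟨0, by simp⟩ (by
      rintro j j' ⟨x, hx⟩ ⟨x', hx'⟩
      exact ⟨x + x', by rw [pow_add, pow_add, hx, hx']⟩) (by
      rintro j j' ⟨x, hx⟩ ⟨x', hx'⟩ hle
      refine ⟨x + x' * (orderOf a - 1), ?_⟩
      have h2 : b ^ (j - j') = b ^ j * (b ^ j')⁻¹ := by
        rw [eq_mul_inv_iff_mul_eq, ← pow_add, Nat.sub_add_cancel hle]
      rw [h2, hx, hx', pow_add, pow_mul, pow_right_comm]
      congr 1
      have h3 : a ^ (orderOf a - 1) * a = 1 := by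
        rw [← pow_succ, Nat.sub_add_cancel (orderOf_pos a), pow_orderOf_eq_one]
      rw [eq_comm, eq_inv_of_mul_eq_one_left h3, inv_pow])
  obtain ⟨y, hy⟩ := (hJ (p ^ β)).2 dvd_rfl
  exact ⟨{ a := a, b := b, α := α, β := β, r := r, y := y, odd_p := hodd, ord_a := hα, conj := hconj,
           one_lt := h1, dvd_r := hd, rep := hrep, pow_b := hy,
           mem := fun j x hx => (hJ j).1 ⟨x, hx⟩ }, rfl, rfl, rfl⟩

theorem conj_pow_gen {G : Type*} [Group G] (a b : G) (r : ℕ) (h : b * a * b⁻¹ = a ^ r) (j : ℕ) :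
    b ^ j * a * (b ^ j)⁻¹ = a ^ (r ^ j) := by
  have h1 : ∀ x : ℕ, b * a ^ x * b⁻¹ = a ^ (r * x) := by
    intro x
    rw [pow_mul, ← h]
    have : b * a ^ x * b⁻¹ = (b * a * b⁻¹) ^ x := by
      have := map_pow (MulAut.conj b).toMonoidHom a x
      simpa using this
    exact this
  induction j with
  | zero => simp
  | succ j ih =>
    calc b ^ (j + 1) * a * (b ^ (j + 1))⁻¹ = b * (b ^ j * a * (b ^ j)⁻¹) * b⁻¹ := by
          rw [pow_succ']
          group
      _ = b * a ^ (r ^ j) * b⁻¹ := by rw [ih]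
      _ = a ^ (r * r ^ j) := h1 _
      _ = a ^ (r ^ (j + 1)) := by rw [pow_succ']

theorem exists_data {G : Type*} [Group G] [Finite G] {p : ℕ} [hp : Fact p.Prime] (hodd : Odd p)
    (hG : IsPGroup p G) (N : Subgroup G) (hN : N.Normal) (hc1 : IsCyclic N) (hc2 : IsCyclic (G ⧸ N)) :
    Nonempty (Data G p) := by
  classical
  obtain ⟨a', ha'⟩ := hc1.exists_generator
  obtain ⟨b', hb'⟩ := hc2.exists_generator
  obtain ⟨b, rfl⟩ := QuotientGroup.mk_surjective b'
  set a : G := (a' : G) with ha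
  have hNa : ∀ g ∈ N, ∃ x : ℕ, g = a ^ x := by
    intro g hg
    have h1 := (mem_powers_iff_mem_zpowers).2 (ha' ⟨g, hg⟩)
    obtain ⟨x, hx⟩ := h1
    refine ⟨x, ?_⟩
    have := congrArg Subtype.val hx
    simpa using this.symm
  have haN : a ∈ N := a'.2
  obtain ⟨r₀, hr₀⟩ := hNa _ (hN.conj_mem a haN b)
  have hrep : ∀ g : G, ∃ x j : ℕ, g = a ^ x * b ^ j := by
    intro g
    have h1 := (mem_powers_iff_mem_zpowers).2 (hb' (g : G ⧸ N))
    obtain ⟨j, hj⟩ := h1
    have hj' : ((b ^ j : G) : G ⧸ N) = g := by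
      rw [QuotientGroup.mk_pow]
      exact hj
    have h2 : g * (b ^ j)⁻¹ ∈ N := by
      rw [← QuotientGroup.eq_one_iff, QuotientGroup.mk_mul, QuotientGroup.mk_inv, hj']
      simp
    obtain ⟨x, hx⟩ := hNa _ h2
    exact ⟨x, j, by rw [← hx]; group⟩
  obtain ⟨α, hα⟩ := IsPGroup.iff_orderOf.1 hG a
  have hp2 := hp.out.two_le
  obtain ⟨r, hr1, hr2, hr3⟩ : ∃ r : ℕ, b * a * b⁻¹ = a ^ r ∧ 1 < r ∧ p ∣ r - 1 := by
    by_cases hα0 : α = 0
    · subst hα0
      have ha1 : a = 1 := by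
        rw [pow_zero] at hα
        exact orderOf_eq_one_iff.1 hα
      refine ⟨p + 1, by rw [ha1]; simp, by omega, by simp⟩
    · obtain ⟨c, hc⟩ := IsPGroup.iff_orderOf.1 hG b
      have h1 := conj_pow_gen a b r₀ hr₀ (p ^ c)
      rw [← hc, pow_orderOf_eq_one] at h1
      simp only [inv_one, mul_one, one_mul] at h1
      have h2 : a ^ 1 = a ^ (r₀ ^ orderOf b) := by
        rw [pow_one]
        exact h1
      have h3 := pow_eq_pow_iff_modEq.1 h2
      rw [hα] at h3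
      have hdα : p ∣ p ^ α := dvd_pow_self p hα0
      have h4 := h3.of_dvd hdα
      have h5 : ((r₀ : ZMod p)) = 1 := by
        have h6 := (ZMod.natCast_eq_natCast_iff _ _ _).2 h4
        rw [hc] at h6
        push_cast at h6
        rw [ZMod.pow_card_pow] at h6
        exact h6.symm
      have h6 : r₀ ≡ 1 [MOD p] := by
        rw [← ZMod.natCast_eq_natCast_iff]
        push_cast
        exact h5
      refine ⟨r₀ + p ^ α * p, ?_, ?_, ?_⟩
      · rw [pow_add, pow_mul, ← hα, pow_orderOf_eq_one, one_pow, mul_one]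
        exact hr₀
      · have : 2 ≤ p ^ α * p := le_trans hp2 (Nat.le_mul_of_pos_left _ (pow_pos hp.out.pos _))
        omega
      · have h7 : 1 ≤ r₀ + p ^ α * p := by
          have : 2 ≤ p ^ α * p := le_trans hp2 (Nat.le_mul_of_pos_left _ (pow_pos hp.out.pos _))
          omega
        have h8 : 1 ≡ r₀ + p ^ α * p [MOD p] := by
          have h9 : r₀ + p ^ α * p ≡ 1 + 0 [MOD p] := h6.add (by
            rw [Nat.modEq_zero_iff_dvd]
            exact Dvd.intro_left _ rfl)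
          exact h9.symm
        exact (Nat.modEq_iff_dvd' h7).1 h8
  obtain ⟨D, -, -, -⟩ := exists_data_of hodd hG a b r hr1 hr2 hr3 hrep
  exact ⟨D⟩

end Cfsg.Agent.Lib.MetaOdd
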