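import Cfsg.Agent.Lib.MetaOdd

/-!
Centralizers of subgroups of metacyclic `p`-groups, `p` odd, and the factorization into cyclic subgroups (helper2).
-/

set_option autoImplicit false
set_option linter.all false

namespace Cfsg.Agent.Lib.MetaOdd

open Subgroup

namespace Data

variable {G : Type*} [Group G] {p : ℕ} [hp : Fact p.Prime] [Finite G] {D : Data G p}

theorem Param.center_le {L : Subgroup G} {s t w : ℕ} (h : D.Param L s t w) (hZ : center G ≤ L) :
    s ≤ D.n ∧ t ≤ D.n ∧ p ^ t ∣ w * p ^ (D.n - s) := by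
  have hA : D.a ^ (p ^ D.n) ∈ L := hZ (by
    rw [← D.V_n_eq_center]
    exact ⟨1, 0, by simp⟩)
  have hB : D.b ^ (p ^ D.n) ∈ L := hZ (by
    rw [← D.V_n_eq_center]
    exact ⟨0, 1, by simp⟩)
  have hs : s ≤ D.n := (Nat.pow_dvd_pow_iff_le_right hp.out.one_lt).1 ((h.a_mem _).1 hA)
  have ht : t ≤ D.n := by
    have h1 : D.a ^ 0 * D.b ^ (p ^ D.n) ∈ L := by simpa using hB
    exact (Nat.pow_dvd_pow_iff_le_right hp.out.one_lt).1 (h.b_dvd _ _ h1)
  refine ⟨hs, ht, ?_⟩
  by_cases hw : w = 0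
  · subst hw
    simp
  have hu := L.pow_mem h.u_mem (p ^ (D.n - t))
  rw [h.u_pow, ← pow_add, Nat.add_sub_cancel' ht] at hu
  have h1 : D.a ^ (w * S (D.r ^ (p ^ t)) (p ^ (D.n - t))) ∈ L := by
    have h2 := L.mul_mem hu (L.inv_mem hB)
    simpa using h2
  have h2 := (h.a_mem _).1 h1
  have hm : p ^ (D.n - t) ≠ 0 := pow_ne_zero _ hp.out.ne_zero
  have hS := S_pos (D.r ^ (p ^ t)) _ (D.one_le_r_pow _) hm
  rw [padicValNat_dvd_iff_le (mul_ne_zero hw hS.ne'), padicValNat.mul hw hS.ne', D.val_S _ hm,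
    padicValNat.prime_pow] at h2
  rw [padicValNat_dvd_iff_le (mul_ne_zero hw (pow_ne_zero _ hp.out.ne_zero)),
    padicValNat.mul hw (pow_ne_zero _ hp.out.ne_zero), padicValNat.prime_pow]
  omega

theorem exists_commuting {s t w : ℕ} (hs : s ≤ D.n) (hw : p ^ t ∣ w * p ^ (D.n - s)) :
    ∃ e : ℕ, (D.a ^ e * D.b ^ (p ^ (D.n - s))) * (D.a ^ w * D.b ^ (p ^ t)) =
      (D.a ^ w * D.b ^ (p ^ t)) * (D.a ^ e * D.b ^ (p ^ (D.n - s))) := by
  obtain ⟨u₁, hu₁, e₁⟩ := D.exists_R_unit t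
  obtain ⟨u₂, hu₂, e₂⟩ := D.exists_R_unit (D.n - s)
  obtain ⟨W, hW⟩ := hw
  have hcop : Nat.Coprime u₁ (p ^ D.α) :=
    Nat.Coprime.pow_right _ ((Nat.Prime.coprime_iff_not_dvd hp.out).2 hu₁).symm
  obtain ⟨e, -, he⟩ := Nat.exists_mul_mod_eq_of_coprime (W * u₂) hcop (pow_ne_zero _ hp.out.ne_zero)
  have he' : u₁ * e ≡ W * u₂ [MOD p ^ D.α] := he
  refine ⟨e, ?_⟩
  rw [D.mul_form, D.mul_form, add_comm (p ^ (D.n - s))]
  congr 1
  rw [D.a_pow_eq_iff]
  have h1 : e + w * D.r ^ p ^ (D.n - s) = (e + w) + w * (D.r ^ p ^ (D.n - s) - 1) := by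
    have := D.one_le_r_pow (p ^ (D.n - s))
    obtain ⟨c, hc⟩ : ∃ c, D.r ^ p ^ (D.n - s) = c + 1 := ⟨_, (Nat.sub_add_cancel this).symm⟩
    rw [hc]
    simp only [Nat.add_sub_cancel, mul_add, mul_one]
    ring
  have h2 : w + e * D.r ^ p ^ t = (e + w) + e * (D.r ^ p ^ t - 1) := by
    have := D.one_le_r_pow (p ^ t)
    obtain ⟨c, hc⟩ : ∃ c, D.r ^ p ^ t = c + 1 := ⟨_, (Nat.sub_add_cancel this).symm⟩
    rw [hc]
    simp only [Nat.add_sub_cancel, mul_add, mul_one]
    ring
  rw [h1, h2]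
  apply Nat.ModEq.add_left
  have h3 : w * (D.r ^ p ^ (D.n - s) - 1) = p ^ (D.k + t) * (W * u₂) := by
    rw [e₂, pow_add, pow_add]
    calc w * (p ^ D.k * p ^ (D.n - s) * u₂) = (w * p ^ (D.n - s)) * (p ^ D.k * u₂) := by ring
      _ = _ := by rw [hW]; ring
  have h4 : e * (D.r ^ p ^ t - 1) = p ^ (D.k + t) * (u₁ * e) := by
    rw [e₁]
    ring
  rw [h3, h4]
  exact (he'.symm).mul_left _

theorem Param.commute_of_gens {L : Subgroup G} {s t w : ℕ} (h : D.Param L s t w) (c : G)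
    (h1 : Commute c (D.a ^ (p ^ s))) (h2 : Commute c (D.a ^ w * D.b ^ (p ^ t))) :
    c ∈ centralizer (L : Set G) := by
  rw [mem_centralizer_iff]
  intro g hg
  obtain ⟨x, j, rfl⟩ := h.mem_form hg
  rw [pow_mul]
  have h3 : Commute ((D.a ^ p ^ s) ^ x * (D.a ^ w * D.b ^ p ^ t) ^ j) c :=
    ((h1.pow_right x).mul_right (h2.pow_right j)).symm
  exact h3.eq

theorem Param.centralizer {L : Subgroup G} {s t w : ℕ} (h : D.Param L s t w) (hZ : center G ≤ L) :
    ∃ e : ℕ, D.Param (centralizer (L : Set G)) (D.n - t) (D.n - s) e := by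
  obtain ⟨hs, ht, hw⟩ := h.center_le hZ
  obtain ⟨e, he⟩ := exists_commuting hs hw
  have hA : D.a ^ (p ^ s) ∈ L := (h.a_mem _).2 dvd_rfl
  have hyA : Commute (D.a ^ e * D.b ^ (p ^ (D.n - s))) (D.a ^ (p ^ s)) := by
    have h1 : D.a ^ (p ^ s) * D.b ^ (p ^ (D.n - s)) = D.b ^ (p ^ (D.n - s)) * D.a ^ (p ^ s) := by
      rw [D.comm_iff, D.dvd_pow_mul_R]
    show _ * _ = _ * _
    rw [mul_assoc, ← h1, ← mul_assoc, ← mul_assoc, ← pow_add, ← pow_add, add_comm]
  refine ⟨e, (D.n_le_α.trans' (Nat.sub_le _ _)), ((D.n_le_β).trans' (Nat.sub_le _ _)), ?_, ?_, ?_⟩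
  · intro x
    constructor
    · intro hx
      have h1 := (mem_centralizer_iff.1 hx) _ h.u_mem
      have h2 : D.a ^ x * D.b ^ (p ^ t) = D.b ^ (p ^ t) * D.a ^ x := by
        have h3 : D.a ^ w * (D.b ^ p ^ t * D.a ^ x) = D.a ^ w * (D.a ^ x * D.b ^ p ^ t) := by
          calc D.a ^ w * (D.b ^ p ^ t * D.a ^ x) = D.a ^ w * D.b ^ p ^ t * D.a ^ x := by group
            _ = D.a ^ x * (D.a ^ w * D.b ^ p ^ t) := h1
            _ = D.a ^ w * (D.a ^ x * D.b ^ p ^ t) := by
              rw [← mul_assoc, ← mul_assoc, ← pow_add, ← pow_add, add_comm]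
        exact (mul_left_cancel h3).symm
      exact (D.dvd_mul_R_pow _ _).1 ((D.comm_iff _ _).1 h2)
    · intro hx
      refine h.commute_of_gens _ ((Commute.refl D.a).pow_pow _ _) ?_
      have h2 : D.a ^ x * D.b ^ (p ^ t) = D.b ^ (p ^ t) * D.a ^ x := by
        rw [D.comm_iff, D.dvd_mul_R_pow]
        exact hx
      show _ * _ = _ * _
      rw [← mul_assoc, ← pow_add, add_comm, pow_add, mul_assoc, h2, mul_assoc]
  · intro x j hxj
    have h1 := (mem_centralizer_iff.1 hxj) _ hA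
    have h2 : D.a ^ (p ^ s) * D.b ^ j = D.b ^ j * D.a ^ (p ^ s) := by
      have h3 : D.a ^ x * (D.a ^ (p ^ s) * D.b ^ j) = D.a ^ x * (D.b ^ j * D.a ^ (p ^ s)) := by
        calc D.a ^ x * (D.a ^ (p ^ s) * D.b ^ j) = D.a ^ (p ^ s) * (D.a ^ x * D.b ^ j) := by
              rw [← mul_assoc, ← mul_assoc, ← pow_add, ← pow_add, add_comm]
          _ = D.a ^ x * D.b ^ j * D.a ^ (p ^ s) := h1
          _ = _ := by group
      exact mul_left_cancel h3
    exact (D.dvd_pow_mul_R _ _).1 ((D.comm_iff _ _).1 h2)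
  · exact h.commute_of_gens _ hyA he

/-- The product of the orders of a subgroup containing the centre and its centralizer. -/
theorem Param.card_mul_centralizer {L : Subgroup G} {s t w : ℕ} (h : D.Param L s t w) (hZ : center G ≤ L) :
    Nat.card L * Nat.card (Subgroup.centralizer (L : Set G)) = p ^ (2 * (D.α + D.β - D.n)) := by
  obtain ⟨hs, ht, hw⟩ := h.center_le hZ
  obtain ⟨e, he⟩ := h.centralizer hZ
  rw [h.card, he.card, ← pow_add]
  have h1 := D.n_le_α
  have h2 := D.n_le_β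
  congr 1
  omega

variable (D)

theorem card_mul_centralizer_le (R : Subgroup G) :
    Nat.card R * Nat.card (Subgroup.centralizer (R : Set G)) ≤ p ^ (2 * (D.α + D.β - D.n)) := by
  obtain ⟨s, t, w, h⟩ := D.exists_param (R ⊔ center G)
  have h1 := h.card_mul_centralizer le_sup_right
  have h2 : Subgroup.centralizer ((R ⊔ center G : Subgroup G) : Set G) = Subgroup.centralizer (R : Set G) := by
    apply le_antisymm
    · exact Subgroup.centralizer_le (SetLike.coe_subset_coe.2 le_sup_left)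
    · intro g hg
      rw [mem_centralizer_iff]
      intro z hz
      have hsup : (R ⊔ center G : Subgroup G) ≤ Subgroup.centralizer ({g} : Set G) := by
        refine sup_le ?_ ?_
        · intro y hy
          rw [mem_centralizer_singleton_iff]
          exact ((mem_centralizer_iff.1 hg) y hy)
        · intro y hy
          rw [mem_centralizer_singleton_iff]
          exact ((Subgroup.mem_center_iff.1 hy) g).symm
      exact mem_centralizer_singleton_iff.1 (hsup hz)
  rw [h2] at h1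
  rw [← h1]
  exact Nat.mul_le_mul_right _ (Subgroup.card_le_of_le le_sup_left)

theorem card_mul_centralizer_lt (R : Subgroup G) (hR : ¬ center G ≤ R) :
    Nat.card R * Nat.card (Subgroup.centralizer (R : Set G)) < p ^ (2 * (D.α + D.β - D.n)) := by
  obtain ⟨s, t, w, h⟩ := D.exists_param (R ⊔ center G)
  have h1 := h.card_mul_centralizer le_sup_right
  have h2 : Subgroup.centralizer ((R ⊔ center G : Subgroup G) : Set G) = Subgroup.centralizer (R : Set G) := by
    apply le_antisymm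
    · exact Subgroup.centralizer_le (SetLike.coe_subset_coe.2 le_sup_left)
    · intro g hg
      rw [mem_centralizer_iff]
      intro z hz
      have hsup : (R ⊔ center G : Subgroup G) ≤ Subgroup.centralizer ({g} : Set G) := by
        refine sup_le ?_ ?_
        · intro y hy
          rw [mem_centralizer_singleton_iff]
          exact ((mem_centralizer_iff.1 hg) y hy)
        · intro y hy
          rw [mem_centralizer_singleton_iff]
          exact ((Subgroup.mem_center_iff.1 hy) g).symm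
      exact mem_centralizer_singleton_iff.1 (hsup hz)
  rw [h2] at h1
  rw [← h1]
  refine Nat.mul_lt_mul_of_pos_right ?_ Nat.card_pos
  refine lt_of_le_of_ne (Subgroup.card_le_of_le le_sup_left) fun heq => ?_
  have h3 : R = R ⊔ center G := Subgroup.eq_of_le_of_card_ge le_sup_left heq.ge
  apply hR
  rw [h3]
  exact le_sup_right

/-- The abelian subgroups containing the centre are the centres of their centralizers. -/
theorem eq_center_centralizer (D : Data G p) (K : Subgroup G) (hK : IsMulCommutative K) (hZ : center G ≤ K) :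
    K = Subgroup.centralizer (K : Set G) ⊓ Subgroup.centralizer (Subgroup.centralizer (K : Set G) : Set G) := by
  apply le_antisymm
  · intro x hx
    refine Subgroup.mem_inf.2 ⟨?_, ?_⟩
    · rw [mem_centralizer_iff]
      intro y hy
      exact congrArg Subtype.val (hK.is_comm.comm (⟨y, hy⟩ : K) ⟨x, hx⟩)
    · rw [mem_centralizer_iff]
      intro y hy
      exact (mem_centralizer_iff.1 hy x hx).symm
  · intro x hx
    obtain ⟨hx1, hx2⟩ := Subgroup.mem_inf.1 hx
    obtain ⟨s, t, w, h⟩ := D.exists_param K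
    obtain ⟨hs, ht, hw⟩ := h.center_le hZ
    obtain ⟨e, he⟩ := h.centralizer hZ
    obtain ⟨i, j, rfl⟩ := D.rep x
    -- `b ^ j` acts on `a ^ (p ^ (n - t))`
    have hc1 : D.a ^ (p ^ (D.n - t)) ∈ Subgroup.centralizer (K : Set G) := (he.a_mem _).2 dvd_rfl
    have h1 := (mem_centralizer_iff.1 hx2) _ hc1
    have h2 : D.a ^ (p ^ (D.n - t)) * D.b ^ j = D.b ^ j * D.a ^ (p ^ (D.n - t)) := by
      have h3 : D.a ^ i * (D.a ^ (p ^ (D.n - t)) * D.b ^ j) = D.a ^ i * (D.b ^ j * D.a ^ (p ^ (D.n - t))) := by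
        calc D.a ^ i * (D.a ^ (p ^ (D.n - t)) * D.b ^ j) = D.a ^ (p ^ (D.n - t)) * (D.a ^ i * D.b ^ j) := by
              rw [← mul_assoc, ← mul_assoc, ← pow_add, ← pow_add, add_comm]
          _ = D.a ^ i * D.b ^ j * D.a ^ (p ^ (D.n - t)) := h1
          _ = _ := by group
      exact mul_left_cancel h3
    have h3 := (D.dvd_pow_mul_R _ _).1 ((D.comm_iff _ _).1 h2)
    have h4 : D.n - (D.n - t) = t := by omega
    rw [h4] at h3
    obtain ⟨j', rfl⟩ := h3
    -- subtract the power of `u`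
    have hv : (D.a ^ w * D.b ^ (p ^ t)) ^ j' ∈ K := K.pow_mem h.u_mem _
    obtain ⟨z, hz⟩ := D.inv_a_pow (w * S (D.r ^ (p ^ t)) j')
    have h5 : D.a ^ i * D.b ^ (p ^ t * j') = D.a ^ (i + z) * (D.a ^ w * D.b ^ (p ^ t)) ^ j' := by
      rw [h.u_pow, pow_add, ← hz]
      group
    -- the element `y`
    have hy : D.a ^ e * D.b ^ (p ^ (D.n - s)) ∈ Subgroup.centralizer (K : Set G) := he.u_mem
    have h6 := (mem_centralizer_iff.1 hx2) _ hy
    have h7 := (mem_centralizer_iff.1 hy) _ hv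
    have h8 : D.a ^ (i + z) * (D.a ^ e * D.b ^ (p ^ (D.n - s))) = (D.a ^ e * D.b ^ (p ^ (D.n - s))) * D.a ^ (i + z) := by
      rw [h5] at h6
      generalize (D.a ^ w * D.b ^ (p ^ t)) ^ j' = v at *
      generalize D.a ^ e * D.b ^ (p ^ (D.n - s)) = c at *
      generalize D.a ^ (i + z) = d at *
      have h9 : c * d * v = d * c * v := by
        calc c * d * v = c * (d * v) := by group
          _ = d * v * c := h6
          _ = d * (v * c) := by group
          _ = d * (c * v) := by rw [h7]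
          _ = d * c * v := by group
      exact (mul_right_cancel h9).symm
    have h9 : D.a ^ (i + z) * D.b ^ (p ^ (D.n - s)) = D.b ^ (p ^ (D.n - s)) * D.a ^ (i + z) := by
      have h10 : D.a ^ e * (D.a ^ (i + z) * D.b ^ (p ^ (D.n - s))) = D.a ^ e * (D.b ^ (p ^ (D.n - s)) * D.a ^ (i + z)) := by
        calc D.a ^ e * (D.a ^ (i + z) * D.b ^ (p ^ (D.n - s))) = D.a ^ (i + z) * (D.a ^ e * D.b ^ (p ^ (D.n - s))) := by
              rw [← mul_assoc, ← mul_assoc, ← pow_add, ← pow_add, add_comm]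
          _ = (D.a ^ e * D.b ^ (p ^ (D.n - s))) * D.a ^ (i + z) := h8
          _ = _ := by group
      exact mul_left_cancel h10
    have h10 := (D.dvd_mul_R_pow _ _).1 ((D.comm_iff _ _).1 h9)
    have h11 : D.n - (D.n - s) = s := by omega
    rw [h11] at h10
    have h12 : D.a ^ (i + z) ∈ K := (h.a_mem _).2 h10
    rw [h5]
    exact K.mul_mem h12 hv

/-- A subgroup inherits coordinates. -/
theorem exists_data_sub (D : Data G p) {L : Subgroup G} {s t w : ℕ} (h : D.Param L s t w) :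
    ∃ D' : Data L p, D'.α = D.α - s ∧ D'.β = D.β - t ∧ D'.n = D.n - (s + t) := by
  have hA : D.a ^ (p ^ s) ∈ L := (h.a_mem _).2 dvd_rfl
  have hconj : (⟨_, h.u_mem⟩ : L) * ⟨_, hA⟩ * (⟨_, h.u_mem⟩ : L)⁻¹ = (⟨_, hA⟩ : L) ^ (D.r ^ (p ^ t)) := by
    apply Subtype.ext
    show (D.a ^ w * D.b ^ p ^ t) * D.a ^ p ^ s * (D.a ^ w * D.b ^ p ^ t)⁻¹ = (D.a ^ p ^ s) ^ (D.r ^ p ^ t)
    have h1 := D.bpow_mul (p ^ t) (p ^ s)
    calc (D.a ^ w * D.b ^ p ^ t) * D.a ^ p ^ s * (D.a ^ w * D.b ^ p ^ t)⁻¹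
        = D.a ^ w * (D.b ^ p ^ t * D.a ^ p ^ s) * (D.b ^ p ^ t)⁻¹ * (D.a ^ w)⁻¹ := by group
      _ = D.a ^ w * D.a ^ (p ^ s * D.r ^ p ^ t) * (D.a ^ w)⁻¹ := by rw [h1]; group
      _ = D.a ^ (p ^ s * D.r ^ p ^ t) := by
        rw [← pow_add, add_comm, pow_add]
        group
      _ = _ := by rw [pow_mul]
  have hr1 : 1 < D.r ^ (p ^ t) := Nat.one_lt_pow (pow_ne_zero _ hp.out.ne_zero) D.one_lt
  have hrd : p ∣ D.r ^ (p ^ t) - 1 := by
    have h1 := mul_S_add_one D.r (p ^ t) (by have := D.one_lt; omega)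
    have h2 : D.r ^ (p ^ t) - 1 = (D.r - 1) * S D.r (p ^ t) := by
      rw [← h1]
      simp
    rw [h2]
    exact D.dvd_r.mul_right _
  have hrep : ∀ g : L, ∃ x j : ℕ, g = (⟨_, hA⟩ : L) ^ x * (⟨_, h.u_mem⟩ : L) ^ j := by
    intro g
    obtain ⟨x, j, hg⟩ := h.mem_form g.2
    refine ⟨x, j, Subtype.ext ?_⟩
    show (g : G) = (D.a ^ p ^ s) ^ x * (D.a ^ w * D.b ^ p ^ t) ^ j
    rw [hg, pow_mul]
  obtain ⟨D', ha, hb, hr⟩ := exists_data_of D.odd_p (D.isPGroup.to_subgroup L) _ _ _ hconj hr1 hrd hrep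
  have hα : D'.α = D.α - s := by
    have h1 := D'.ord_a
    rw [ha, Subgroup.orderOf_mk, D.orderOf_a_pow] at h1
    exact (Nat.pow_right_injective hp.out.two_le h1).symm
  have hβ : D'.β = D.β - t := by
    have h1 := D'.card_eq
    rw [h.card, hα] at h1
    have h2 := Nat.pow_right_injective hp.out.two_le h1
    omega
  refine ⟨D', hα, hβ, ?_⟩
  have hk : D'.k = D.k + t := by
    show padicValNat p (D'.r - 1) = _
    rw [hr, D.val_R (pow_ne_zero _ hp.out.ne_zero), padicValNat.prime_pow]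
  unfold n
  rw [hα, hk]
  omega

variable {D}

theorem Param.comm_value {L : Subgroup G} {s t w : ℕ} (h : D.Param L s t w) (hst : D.n ≤ s + t) :
    Nat.card L * Nat.card (center L) = p ^ (2 * (D.α - s + (D.β - t))) := by
  have hc := h.comm_iff.2 hst
  have h1 : center L = ⊤ := by
    rw [eq_top_iff]
    intro x _
    rw [Subgroup.mem_center_iff]
    intro y
    exact hc.is_comm.comm y x
  rw [h1, Subgroup.card_top, h.card, ← pow_add, two_mul]

theorem Param.noncomm_value {L : Subgroup G} {s t w : ℕ} (h : D.Param L s t w) (hst : s + t < D.n) :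
    Nat.card L * Nat.card (center L) = p ^ (2 * (D.α + D.β - D.n)) := by
  obtain ⟨D', hα, hβ, hn⟩ := exists_data_sub D h
  have h1 := D'.n_le_α
  have h2 := D'.n_le_β
  have h3 := h.s_le
  have h4 := h.t_le
  rw [h.card, D'.card_center, ← pow_add]
  congr 1
  rw [hα, hβ, hn] at *
  omega

theorem central_le (D : Data G p) (R : Subgroup G) :
    Nat.card R * Nat.card (center R) ≤ p ^ (2 * (D.α + D.β - D.n)) := by
  obtain ⟨s, t, w, h⟩ := D.exists_param R
  by_cases hst : D.n ≤ s + t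
  · rw [h.comm_value hst]
    apply Nat.pow_le_pow_right hp.out.pos
    have h3 := h.s_le
    have h4 := h.t_le
    have h5 := D.n_le_α
    omega
  · exact (h.noncomm_value (by omega)).le

theorem central_top (D : Data G p) :
    Nat.card (⊤ : Subgroup G) * Nat.card (center (⊤ : Subgroup G)) = p ^ (2 * (D.α + D.β - D.n)) := by
  have h := D.param_top
  by_cases hst : D.n ≤ 0 + 0
  · rw [h.comm_value hst]
    congr 2
    omega
  · exact h.noncomm_value (by omega)

theorem central_iff (D : Data G p) (R : Subgroup G) :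
    Nat.card R * Nat.card (center R) = p ^ (2 * (D.α + D.β - D.n)) ↔
      (¬ IsMulCommutative R ∨ Maximal (fun K : Subgroup G => IsMulCommutative K) R) := by
  obtain ⟨s, t, w, h⟩ := D.exists_param R
  by_cases hst : D.n ≤ s + t
  · have hc := h.comm_iff.2 hst
    rw [h.comm_value hst, D.maximal_iff, h.card, D.index_commutator]
    have h3 := h.s_le
    have h4 := h.t_le
    have h5 := D.n_le_α
    constructor
    · intro h1
      right
      have h2 := Nat.pow_right_injective hp.out.two_le h1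
      congr 1
      omega
    · rintro (h1 | h1)
      · exact absurd hc h1
      · have h2 := Nat.pow_right_injective hp.out.two_le h1
        congr 1
        omega
  · constructor
    · intro _
      left
      rw [h.comm_iff]
      exact hst
    · intro _
      exact h.noncomm_value (by omega)

theorem S_p_modEq {p e : ℕ} (hp : p.Prime) (hodd : Odd p) (he : 1 ≤ e) {T : ℕ} (hT : 1 ≤ T) (hd : p ^ e ∣ T - 1) :
    S T p ≡ p [MOD p ^ (e + 1)] := by
  obtain ⟨x, hx⟩ : ∃ x, T = 1 + x := ⟨T - 1, by omega⟩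
  have hdx : p ^ e ∣ x := by
    rw [hx] at hd
    simpa using hd
  have hsq : p ^ (e + 1) ∣ x * x := by
    have h1 : p ^ e * p ^ e ∣ x * x := mul_dvd_mul hdx hdx
    rw [← pow_add] at h1
    exact (pow_dvd_pow p (by omega)).trans h1
  have hpow : ∀ i : ℕ, T ^ i ≡ 1 + i * x [MOD p ^ (e + 1)] := by
    intro i
    induction i with
    | zero => simp [Nat.ModEq]
    | succ i ih =>
      rw [pow_succ]
      have h1 : T ^ i * T ≡ (1 + i * x) * T [MOD p ^ (e + 1)] := ih.mul_right _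
      refine h1.trans ?_
      rw [hx]
      have h2 : (1 + i * x) * (1 + x) = 1 + (i + 1) * x + i * (x * x) := by ring
      rw [h2]
      have h3 : 1 + (i + 1) * x + i * (x * x) ≡ 1 + (i + 1) * x + 0 [MOD p ^ (e + 1)] := by
        apply Nat.ModEq.add_left
        rw [Nat.modEq_zero_iff_dvd]
        exact hsq.mul_left _
      exact h3
  have hsum : ∀ m : ℕ, S T m ≡ m + x * ∑ i ∈ Finset.range m, i [MOD p ^ (e + 1)] := by
    intro m
    induction m with
    | zero => simp [S_zero, Nat.ModEq]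
    | succ m ih =>
      rw [S_succ, Finset.sum_range_succ]
      have h1 := ih.add (hpow m)
      refine h1.trans ?_
      have h2 : m + x * ∑ i ∈ Finset.range m, i + (1 + m * x) = m + 1 + x * (∑ i ∈ Finset.range m, i + m) := by ring
      rw [h2]
  have h1 := hsum p
  refine h1.trans ?_
  obtain ⟨c, hc⟩ := hodd
  have h2 : (∑ i ∈ Finset.range p, i) = p * c := by
    have h3 := Finset.sum_range_id_mul_two p
    have h4 : p * (p - 1) = (p * c) * 2 := by
      rw [hc]
      simp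
      ring
    rw [h4] at h3
    exact Nat.eq_of_mul_eq_mul_right (by norm_num) h3
  rw [h2]
  have h3 : p + x * (p * c) ≡ p + 0 [MOD p ^ (e + 1)] := by
    apply Nat.ModEq.add_left
    rw [Nat.modEq_zero_iff_dvd, pow_succ]
    calc p ^ e * p ∣ x * p := mul_dvd_mul_right hdx p
      _ ∣ x * (p * c) := by
        rw [← mul_assoc]
        exact Dvd.intro _ rfl
  exact h3

theorem S_prime_pow {p e : ℕ} (hp : p.Prime) (hodd : Odd p) (he : 1 ≤ e) {t : ℕ} (ht : 1 ≤ t) (hd : p ^ e ∣ t - 1)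
    (c : ℕ) : p ^ (e + c) ∣ t ^ (p ^ c) - 1 ∧ S t (p ^ c) ≡ p ^ c [MOD p ^ (c + e)] := by
  induction c with
  | zero =>
    refine ⟨by simpa using hd, ?_⟩
    have : S t 1 = 1 := by simp [S]
    simp only [pow_zero, this]
    rfl
  | succ c ih =>
    obtain ⟨ih1, ih2⟩ := ih
    have hT : 1 ≤ t ^ (p ^ c) := Nat.one_le_pow _ _ (by omega)
    have h3 := S_p_modEq hp hodd (e := e + c) (by omega) hT ih1
    have h4 : p ∣ S (t ^ (p ^ c)) p := by
      have h5 : S (t ^ (p ^ c)) p ≡ p [MOD p] := h3.of_dvd (dvd_pow_self p (by omega))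
      exact (Nat.modEq_zero_iff_dvd.1 (h5.trans (by simp [Nat.ModEq])))
    constructor
    · have h5 := mul_S_add_one (t ^ (p ^ c)) p hT
      have h6 : t ^ (p ^ (c + 1)) - 1 = (t ^ (p ^ c) - 1) * S (t ^ (p ^ c)) p := by
        rw [pow_succ, pow_mul, ← h5]
        simp
      rw [h6, ← add_assoc, pow_succ]
      exact mul_dvd_mul ih1 h4
    · rw [pow_succ p c, S_mul]
      have h5 : S t (p ^ c) * S (t ^ (p ^ c)) p ≡ S t (p ^ c) * p [MOD p ^ (e + c + 1)] := h3.mul_left _
      have h6 : S t (p ^ c) * p ≡ p ^ c * p [MOD p ^ (c + e) * p] := ih2.mul_right' _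
      have h7 : p ^ (c + e) * p = p ^ (c + 1 + e) := by
        rw [← pow_succ]
        congr 1
        omega
      have h8 : e + c + 1 = c + 1 + e := by omega
      rw [h7] at h6
      rw [h8] at h5
      exact h5.trans h6

theorem one_le_k (D : Data G p) : 1 ≤ D.k := by
  have h1 : D.r - 1 ≠ 0 := by
    have := D.one_lt
    omega
  exact (padicValNat_dvd_iff_le h1).1 (by simpa using D.dvd_r)

/-- A metacyclic `p`-group, `p` odd, is the product of two cyclic subgroups with trivial intersection. -/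
theorem exists_factorization (D : Data G p) :
    ∃ A B : Subgroup G, IsCyclic A ∧ IsCyclic B ∧ A ⊓ B = ⊥ ∧ Nat.card A * Nat.card B = Nat.card G := by
  classical
  have hp' := hp.out
  have hk1 := D.one_le_k
  have hnβ := D.n_le_β
  have hαβ : D.α ≤ D.β + D.k := by
    unfold n at hnβ
    omega
  set y₀ := D.y % p ^ D.α with hy₀
  have hpow : D.b ^ p ^ D.β = D.a ^ y₀ := by
    rw [D.pow_b]
    exact (D.a_pow_eq_iff _ _).2 (Nat.mod_modEq _ _).symm
  have hbmul : ∀ m, D.b ^ (p ^ D.β * m) = D.a ^ (y₀ * m) := by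
    intro m
    rw [pow_mul, hpow, pow_mul]
  by_cases hd : p ^ D.β ∣ y₀
  · obtain ⟨q, hq⟩ := hd
    set w := q * (p ^ D.α - 1) with hw
    set b' := D.a ^ w * D.b ^ 1 with hb'
    have hS : S (D.r ^ 1) (p ^ D.β) ≡ p ^ D.β [MOD p ^ D.α] :=
      ((S_prime_pow hp' D.odd_p hk1 (D.one_le_r_pow 1) (D.pow_k_dvd_R 1) D.β).2).of_dvd (pow_dvd_pow p hαβ)
    have hb'p : b' ^ (p ^ D.β) = 1 := by
      rw [hb', D.pow_form, one_mul, hpow, ← pow_add]
      have h1 : D.a ^ (w * S (D.r ^ 1) (p ^ D.β) + y₀) = D.a ^ 0 := by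
        rw [D.a_pow_eq_iff]
        have h2 : w * S (D.r ^ 1) (p ^ D.β) + y₀ ≡ w * p ^ D.β + y₀ [MOD p ^ D.α] := (hS.mul_left _).add_right _
        refine h2.trans ?_
        rw [hq, Nat.modEq_zero_iff_dvd]
        have h3 : 1 ≤ p ^ D.α := Nat.one_le_pow _ _ hp'.pos
        have h4 : w * p ^ D.β + p ^ D.β * q = p ^ D.β * q * p ^ D.α := by
          rw [hw]
          obtain ⟨c, hc⟩ : ∃ c, p ^ D.α = c + 1 := ⟨p ^ D.α - 1, by omega⟩
          rw [hc]
          simp only [Nat.add_sub_cancel]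
          ring
        rw [h4]
        exact Dvd.intro_left _ rfl
      simpa using h1
    have hb'mem : ∀ j x : ℕ, b' ^ j = D.a ^ x → p ^ D.β ∣ j := by
      intro j x hx
      rw [hb', D.pow_form, one_mul] at hx
      obtain ⟨z, hz⟩ := D.inv_a_pow (w * S (D.r ^ 1) j)
      refine D.mem j (z + x) ?_
      rw [pow_add, ← hz, ← hx]
      group
    have hordb' : orderOf b' = p ^ D.β :=
      Nat.dvd_antisymm (orderOf_dvd_of_pow_eq_one hb'p)
        (hb'mem _ 0 (by rw [pow_orderOf_eq_one, pow_zero]))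
    refine ⟨zpowers D.a, zpowers b', inferInstance, inferInstance, ?_, ?_⟩
    · rw [eq_bot_iff]
      intro g hg
      obtain ⟨hg1, hg2⟩ := Subgroup.mem_inf.1 hg
      obtain ⟨x, hx⟩ := D.mem_zpowers_a hg1
      obtain ⟨j, hj⟩ := (mem_powers_iff_mem_zpowers).2 hg2
      have hj' : b' ^ j = g := hj
      obtain ⟨c, hc⟩ := hb'mem j x (hj'.trans hx)
      rw [Subgroup.mem_bot, ← hj', hc, pow_mul, hb'p, one_pow]
    · rw [Nat.card_zpowers, Nat.card_zpowers, D.ord_a, hordb', D.card_eq, pow_add]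
  · have hy0 : y₀ ≠ 0 := by
      intro h0
      exact hd (by rw [h0]; exact dvd_zero _)
    set γ := padicValNat p y₀ with hγ
    have hγd : p ^ γ ∣ y₀ := pow_padicValNat_dvd
    obtain ⟨y₁, hy₁⟩ := hγd
    have hy₁d : ¬ p ∣ y₁ := by
      intro h1
      have h2 : p ^ (γ + 1) ∣ y₀ := by
        rw [hy₁, pow_succ]
        exact mul_dvd_mul_left _ h1
      exact pow_succ_padicValNat_not_dvd hy0 h2
    have hγβ : γ < D.β := by
      by_contra hle
      exact hd ((pow_dvd_pow p (by omega)).trans (Dvd.intro _ hy₁.symm))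
    have hγα : γ < D.α := by
      have h1 : y₀ < p ^ D.α := Nat.mod_lt _ (pow_pos hp'.pos _)
      have h2 : p ^ γ ≤ y₀ := Nat.le_of_dvd (Nat.pos_of_ne_zero hy0) (Dvd.intro _ hy₁.symm)
      exact (Nat.pow_lt_pow_iff_right hp'.one_lt).1 (lt_of_le_of_lt h2 h1)
    have hcop : Nat.Coprime y₁ (p ^ D.α) :=
      Nat.Coprime.pow_right _ ((Nat.Prime.coprime_iff_not_dvd hp').2 hy₁d).symm
    obtain ⟨w, -, hw⟩ := Nat.exists_mul_mod_eq_of_coprime (p ^ D.α - 1) hcop (pow_ne_zero _ hp'.ne_zero)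
    have hw' : y₁ * w ≡ p ^ D.α - 1 [MOD p ^ D.α] := hw
    have hone : 1 ≤ p ^ D.α := Nat.one_le_pow _ _ hp'.pos
    have hw0 : 1 + y₁ * w ≡ 0 [MOD p ^ D.α] := by
      have h1 : 1 + y₁ * w ≡ 1 + (p ^ D.α - 1) [MOD p ^ D.α] := hw'.add_left 1
      rw [Nat.add_sub_cancel' hone] at h1
      refine h1.trans ?_
      simp [Nat.ModEq]
    set j := p ^ (D.β - γ) * w with hj
    set a' := D.a ^ 1 * D.b ^ j with ha'
    have hS : S (D.r ^ j) (p ^ γ) ≡ p ^ γ [MOD p ^ D.α] := by
      have h1 := (S_prime_pow hp' D.odd_p (e := D.k + (D.β - γ)) (by omega) (D.one_le_r_pow j)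
        (D.pow_dvd_R (Dvd.intro _ rfl)) γ).2
      exact h1.of_dvd (pow_dvd_pow p (by omega))
    have ha'p : a' ^ (p ^ γ) = 1 := by
      rw [ha', D.pow_form, one_mul]
      have h1 : j * p ^ γ = p ^ D.β * w := by
        rw [hj, mul_right_comm, ← pow_add, Nat.sub_add_cancel hγβ.le]
      rw [h1, hbmul, ← pow_add]
      have h2 : D.a ^ (S (D.r ^ j) (p ^ γ) + y₀ * w) = D.a ^ 0 := by
        rw [D.a_pow_eq_iff]
        have h3 : S (D.r ^ j) (p ^ γ) + y₀ * w ≡ p ^ γ + y₀ * w [MOD p ^ D.α] := hS.add_right _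
        refine h3.trans ?_
        have h4 : p ^ γ + y₀ * w = p ^ γ * (1 + y₁ * w) := by
          rw [hy₁]
          ring
        rw [h4]
        have h5 := hw0.mul_left (p ^ γ)
        simpa using h5
      simpa using h2
    have hmem : ∀ m z : ℕ, a' ^ m = D.b ^ z → p ^ γ ∣ m := by
      intro m z hz
      by_cases hm : m = 0
      · subst hm
        exact dvd_zero _
      rw [ha', D.pow_form, one_mul] at hz
      have h1 : D.a ^ S (D.r ^ j) m = D.b ^ (z + (j * m) * (orderOf D.b - 1)) := by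
        rw [pow_add, pow_mul D.b (j * m), pow_right_comm, ← inv_eq_pow, ← hz]
        group
      have h2 := D.mem _ _ h1.symm
      obtain ⟨c, hc⟩ := h2
      rw [hc, hbmul] at h1
      have h3 := (D.a_pow_eq_iff _ _).1 h1
      have h4 : p ^ γ ∣ y₀ * c := (Dvd.intro _ hy₁.symm).mul_right c
      have h5 : p ^ γ ∣ S (D.r ^ j) m :=
        (Nat.ModEq.dvd_iff (h3.of_dvd (pow_dvd_pow p hγα.le)) dvd_rfl).2 h4
      exact (D.pow_dvd_S_iff j γ hm).1 h5
    have horda' : orderOf a' = p ^ γ :=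
      Nat.dvd_antisymm (orderOf_dvd_of_pow_eq_one ha'p)
        (hmem _ 0 (by rw [pow_orderOf_eq_one, pow_zero]))
    have hordb : orderOf D.b = p ^ (D.β + (D.α - γ)) := by
      apply Nat.dvd_antisymm
      · apply orderOf_dvd_of_pow_eq_one
        rw [pow_add, hbmul]
        have h1 : D.a ^ (y₀ * p ^ (D.α - γ)) = D.a ^ 0 := by
          rw [D.a_pow_eq_iff, Nat.modEq_zero_iff_dvd, hy₁]
          have h2 : p ^ D.α = p ^ γ * p ^ (D.α - γ) := by
            rw [← pow_add]
            congr 1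
            omega
          rw [h2, mul_right_comm]
          exact Dvd.intro _ rfl
        simpa using h1
      · have h1 : D.b ^ orderOf D.b = D.a ^ 0 := by
          rw [pow_orderOf_eq_one, pow_zero]
        obtain ⟨c, hc⟩ := D.mem _ _ h1
        rw [hc, hbmul] at h1
        have h2 := (D.a_pow_eq_iff _ _).1 h1
        have h3 : p ^ D.α ∣ y₀ * c := (Nat.modEq_zero_iff_dvd.1 h2)
        rw [hy₁] at h3
        have h4 : p ^ D.α = p ^ γ * p ^ (D.α - γ) := by
          rw [← pow_add]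
          congr 1
          omega
        rw [h4, mul_assoc] at h3
        have h5 := Nat.dvd_of_mul_dvd_mul_left (pow_pos hp'.pos _) h3
        have h6 : p ^ (D.α - γ) ∣ c :=
          (Nat.Coprime.pow_left _ ((Nat.Prime.coprime_iff_not_dvd hp').2 hy₁d)).dvd_of_dvd_mul_left h5
        rw [hc, pow_add]
        exact mul_dvd_mul_left _ h6
    refine ⟨zpowers a', zpowers D.b, inferInstance, inferInstance, ?_, ?_⟩
    · rw [eq_bot_iff]
      intro g hg
      obtain ⟨hg1, hg2⟩ := Subgroup.mem_inf.1 hg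
      obtain ⟨m, hm⟩ := (mem_powers_iff_mem_zpowers).2 hg1
      obtain ⟨z, hz⟩ := (mem_powers_iff_mem_zpowers).2 hg2
      have hm' : a' ^ m = g := hm
      have hz' : D.b ^ z = g := hz
      obtain ⟨c, hc⟩ := hmem m z (hm'.trans hz'.symm)
      rw [Subgroup.mem_bot, ← hm', hc, pow_mul, ha'p, one_pow]
    · rw [Nat.card_zpowers, Nat.card_zpowers, horda', hordb, D.card_eq, ← pow_add]
      congr 1
      omega

end Data

end Cfsg.Agent.Lib.MetaOdd
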