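/-
Nilpotent subgroups of the symmetric groups: numerics and the order bound.
-/
import Mathlib
import Cfsg.Agent.Lib.Carter

set_option autoImplicit false
set_option linter.all false

noncomputable section

namespace Cfsg.Agent.Lib.NilpSym

open Equiv (Perm)

section numeric

/-- The order of a Sylow `2`-subgroup of the symmetric group. -/
def FF (n : ℕ) : ℕ := 2 ^ padicValNat 2 n.factorial

theorem FF_pos (n : ℕ) : 0 < FF n := by
  unfold FF
  positivity

theorem FF_mul_le (x y : ℕ) : FF x * FF y ≤ FF (x + y) := by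
  unfold FF
  rw [← pow_add]
  apply Nat.pow_le_pow_right (by norm_num)
  rw [← padicValNat.mul (Nat.factorial_ne_zero x) (Nat.factorial_ne_zero y)]
  apply (padicValNat_dvd_iff_le (p := 2) (Nat.factorial_ne_zero (x + y))).1
  exact pow_padicValNat_dvd.trans (Nat.factorial_mul_factorial_dvd_factorial_add x y)

theorem FF_mono {x y : ℕ} (h : x ≤ y) : FF x ≤ FF y := by
  obtain ⟨t, rfl⟩ := Nat.exists_eq_add_of_le h
  have h1 := FF_mul_le x t
  have h2 := FF_pos t
  nlinarith [FF_pos x]

theorem FF_two_mul (m : ℕ) : FF (2 * m) = 2 ^ m * FF m := by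
  unfold FF
  rw [padicValNat_factorial_mul, pow_add, mul_comm]

theorem FF_two_mul_add_one (m : ℕ) : FF (2 * m + 1) = FF (2 * m) := by
  unfold FF
  rw [padicValNat_factorial_mul_add m (by norm_num)]

theorem FF_zero : FF 0 = 1 := by
  simp [FF]

theorem FF_one : FF 1 = 1 := by
  simp [FF]

theorem FF_two : FF 2 = 2 := by
  have := FF_two_mul 1
  rw [FF_one] at this
  simpa using this

theorem FF_three : FF 3 = 2 := by
  have := FF_two_mul_add_one 1
  rw [show 2 * 1 = 2 from rfl, FF_two] at this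
  simpa using this

theorem FF_four : FF 4 = 8 := by
  have := FF_two_mul 2
  rw [FF_two] at this
  simpa using this

theorem FF_five : FF 5 = 8 := by
  have := FF_two_mul_add_one 2
  rw [show 2 * 2 = 4 from rfl, FF_four] at this
  simpa using this

theorem FF_six : FF 6 = 16 := by
  have := FF_two_mul 3
  rw [FF_three] at this
  simpa using this

theorem FF_eight : FF 8 = 128 := by
  have := FF_two_mul 4
  rw [FF_four] at this
  simpa using this

theorem FF_nine : FF 9 = 128 := by
  have := FF_two_mul_add_one 4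
  rw [show 2 * 4 = 8 from rfl, FF_eight] at this
  simpa using this

/-- A lower bound. -/
theorem FF_lower : ∀ a : ℕ, 1 ≤ a → 2 ^ a ≤ FF a * (2 * a) := by
  intro a
  induction a using Nat.strong_induction_on with
  | _ a ih =>
    intro ha
    have heven : ∀ m : ℕ, 1 ≤ m → m < a → 2 ^ (2 * m + 1) ≤ FF (2 * m) * (2 * (2 * m)) := by
      intro m hm hma
      have h1 := ih m hma hm
      rw [FF_two_mul]
      calc 2 ^ (2 * m + 1) = 2 ^ m * 2 * 2 ^ m := by ring
        _ ≤ 2 ^ m * 2 * (FF m * (2 * m)) := Nat.mul_le_mul_left _ h1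
        _ = 2 ^ m * FF m * (2 * m * 2) := by ring
        _ = 2 ^ m * FF m * (2 * (2 * m)) := by ring
    rcases Nat.even_or_odd' a with ⟨m, rfl | rfl⟩
    · have := heven m (by omega) (by omega)
      calc 2 ^ (2 * m) ≤ 2 ^ (2 * m + 1) := Nat.pow_le_pow_right (by norm_num) (by omega)
        _ ≤ _ := this
    · rcases Nat.eq_zero_or_pos m with rfl | hm
      · simp [FF_one]
      · have := heven m hm (by omega)
        rw [FF_two_mul_add_one]
        calc 2 ^ (2 * m + 1) ≤ FF (2 * m) * (2 * (2 * m)) := this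
          _ ≤ FF (2 * m) * (2 * (2 * m + 1)) := Nat.mul_le_mul_left _ (by omega)

theorem FF_add_three (y : ℕ) (hy : y % 4 ≠ 0) : 3 * FF y ≤ FF (y + 3) := by
  have h4 : 4 ∣ (y + 3) * ((y + 2) * (y + 1)) := by
    have h : (y + 3) % 4 = 0 ∨ (y + 2) % 4 = 0 ∨ (y + 1) % 4 = 0 := by omega
    rcases h with h | h | h
    · exact Dvd.dvd.mul_right (Nat.dvd_of_mod_eq_zero h) _
    · exact Dvd.dvd.mul_left (Dvd.dvd.mul_right (Nat.dvd_of_mod_eq_zero h) _) _
    · exact Dvd.dvd.mul_left (Dvd.dvd.mul_left (Nat.dvd_of_mod_eq_zero h) _) _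
  have h5 : (y + 3).factorial = (y + 3) * ((y + 2) * (y + 1)) * y.factorial := by
    rw [Nat.factorial_succ, Nat.factorial_succ, Nat.factorial_succ]
    ring
  have h6 : 2 ^ 2 * y.factorial ∣ (y + 3).factorial := by
    rw [h5]
    exact Nat.mul_dvd_mul (by simpa using h4) dvd_rfl
  have h7 : padicValNat 2 (2 ^ 2 * y.factorial) = 2 + padicValNat 2 y.factorial := by
    rw [padicValNat.mul (by norm_num) (Nat.factorial_ne_zero y), padicValNat.prime_pow]
  have h8 : 2 + padicValNat 2 y.factorial ≤ padicValNat 2 (y + 3).factorial := by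
    rw [← h7]
    apply (padicValNat_dvd_iff_le (p := 2) (Nat.factorial_ne_zero (y + 3))).1
    exact pow_padicValNat_dvd.trans h6
  have h9 : FF y * 4 ≤ FF (y + 3) := by
    unfold FF
    calc 2 ^ padicValNat 2 y.factorial * 4 = 2 ^ (2 + padicValNat 2 y.factorial) := by ring
      _ ≤ _ := Nat.pow_le_pow_right (by norm_num) h8
  have := FF_pos y
  nlinarith

theorem FF_four_add_three (t : ℕ) : FF (4 * t + 3) = 2 * FF (4 * t) := by
  have h1 : FF (4 * t + 3) = 2 ^ (2 * t + 1) * FF (2 * t) := by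
    rw [show 4 * t + 3 = 2 * (2 * t + 1) + 1 by ring, FF_two_mul_add_one, FF_two_mul, FF_two_mul_add_one]
  have h2 : FF (4 * t) = 2 ^ (2 * t) * FF (2 * t) := by
    rw [show 4 * t = 2 * (2 * t) by ring, FF_two_mul]
  rw [h1, h2]
  ring

/-- The bound for transitive groups. -/
def GG (a : ℕ) : ℕ := if a = 3 then 3 else FF a

/-- The bound for all groups. -/
def HH (n : ℕ) : ℕ := if n % 4 = 3 then 3 * FF (n - 3) else FF n

theorem FF_le_GG (a : ℕ) : FF a ≤ GG a := by
  unfold GG
  split_ifs with h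
  · subst h
    rw [FF_three]
    norm_num
  · exact le_rfl

theorem FF_le_HH (n : ℕ) : FF n ≤ HH n := by
  unfold HH
  split_ifs with h
  · obtain ⟨t, rfl⟩ : ∃ t, n = 4 * t + 3 := ⟨n / 4, by omega⟩
    rw [FF_four_add_three]
    simp only [Nat.add_sub_cancel]
    have := FF_pos (4 * t)
    omega
  · exact le_rfl

theorem GG_mul_HH (a r : ℕ) : GG a * HH r ≤ HH (a + r) := by
  unfold GG
  by_cases ha : a = 3
  · subst ha
    rw [if_pos rfl]
    unfold HH
    by_cases hr : r % 4 = 3
    · rw [if_pos hr, if_neg (by omega)]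
      have h1 := FF_mul_le 6 (r - 3)
      rw [FF_six, show 6 + (r - 3) = 3 + r by omega] at h1
      have := FF_pos (r - 3)
      nlinarith
    · rw [if_neg hr]
      by_cases hr0 : r % 4 = 0
      · rw [if_pos (by omega), show 3 + r - 3 = r by omega]
      · rw [if_neg (by omega), show 3 + r = r + 3 by omega]
        exact FF_add_three r hr0
  · rw [if_neg ha]
    by_cases hr : r % 4 = 3
    · unfold HH
      rw [if_pos hr]
      have h1 := FF_mul_le a (r - 3)
      have hn : a + (r - 3) = a + r - 3 := by omega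
      rw [hn] at h1
      by_cases hn3 : (a + r) % 4 = 3
      · rw [if_pos hn3]
        nlinarith
      · rw [if_neg hn3]
        have h2 := FF_add_three (a + r - 3) (by omega)
        rw [show a + r - 3 + 3 = a + r by omega] at h2
        nlinarith
    · have h1 := FF_mul_le a r
      have h2 := FF_le_HH (a + r)
      have h3 : HH r = FF r := by
        unfold HH
        rw [if_neg hr]
      rw [h3]
      exact h1.trans h2

theorem GG_mul {b c : ℕ} (hb : 2 ≤ b) (hc : 2 ≤ c) : GG b * GG c ≤ FF (b * c) := by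
  have hbc : b + c ≤ b * c := by nlinarith
  have hthree : ∀ d : ℕ, 2 ≤ d → 3 * FF d ≤ FF (3 * d) := by
    intro d hd
    have h1 := FF_mul_le d (2 * d)
    rw [show d + 2 * d = 3 * d by ring] at h1
    have h2 : FF 4 ≤ FF (2 * d) := FF_mono (by omega)
    rw [FF_four] at h2
    have := FF_pos d
    nlinarith
  unfold GG
  by_cases h3b : b = 3
  · subst h3b
    by_cases h3c : c = 3
    · subst h3c
      simp only [if_true]
      rw [show 3 * 3 = 9 from rfl, FF_nine]
      norm_num
    · rw [if_pos rfl, if_neg h3c]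
      exact hthree c hc
  · by_cases h3c : c = 3
    · subst h3c
      rw [if_neg h3b, if_pos rfl, mul_comm, mul_comm b 3]
      exact hthree b hb
    · rw [if_neg h3b, if_neg h3c]
      exact (FF_mul_le b c).trans (FF_mono hbc)

section val

variable {p : ℕ} [hp : Fact p.Prime]

theorem val_le (a : ℕ) (ha : 1 ≤ a) : (p - 1) * padicValNat p a.factorial ≤ a - 1 := by
  rw [sub_one_mul_padicValNat_factorial]
  have h0 : a ≠ 0 := by omega
  have hs : 1 ≤ (p.digits a).sum := by
    have h1 := Nat.getLast_digit_ne_zero p h0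
    have h2 := List.getLast_mem (Nat.digits_ne_nil_iff_ne_zero.2 h0 : p.digits a ≠ [])
    have h3 := List.le_sum_of_mem h2
    omega
  omega

theorem sq_le_three_pow : ∀ m : ℕ, 3 ≤ m → m ^ 2 ≤ 3 ^ (m - 1) := by
  intro m hm
  induction m, hm using Nat.le_induction with
  | base => norm_num
  | succ m hm ih =>
    have h1 : m + 1 - 1 = (m - 1) + 1 := by omega
    rw [h1, pow_succ]
    have h2 : (m + 1) ^ 2 ≤ 3 * m ^ 2 := by nlinarith
    calc (m + 1) ^ 2 ≤ 3 * m ^ 2 := h2
      _ ≤ 3 * 3 ^ (m - 1) := Nat.mul_le_mul_left _ ih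
      _ = 3 ^ (m - 1) * 3 := by ring

theorem three_four (a : ℕ) (ha : 23 ≤ a) : 3 ^ (a - 1) * a ^ 2 ≤ 4 ^ (a - 1) := by
  induction a, ha using Nat.le_induction with
  | base => norm_num
  | succ m hm ih =>
    have h1 : m + 1 - 1 = (m - 1) + 1 := by omega
    rw [h1, pow_succ, pow_succ]
    have h2 : 3 * (m + 1) ^ 2 ≤ 4 * m ^ 2 := by nlinarith
    calc 3 ^ (m - 1) * 3 * (m + 1) ^ 2 = 3 ^ (m - 1) * (3 * (m + 1) ^ 2) := by ring
      _ ≤ 3 ^ (m - 1) * (4 * m ^ 2) := Nat.mul_le_mul_left _ h2
      _ = (3 ^ (m - 1) * m ^ 2) * 4 := by ring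
      _ ≤ 4 ^ (m - 1) * 4 := Nat.mul_le_mul_right _ ih

theorem val_large (h3 : 3 ≤ p) (a : ℕ) (ha : 23 ≤ a) : p ^ padicValNat p a.factorial ≤ FF a := by
  have h1 := val_le (p := p) a (by omega)
  have h2 : (p ^ padicValNat p a.factorial) ^ 2 ≤ 3 ^ (a - 1) := by
    calc (p ^ padicValNat p a.factorial) ^ 2 = (p ^ 2) ^ padicValNat p a.factorial := by ring
      _ ≤ (3 ^ (p - 1)) ^ padicValNat p a.factorial := Nat.pow_le_pow_left (sq_le_three_pow p h3) _
      _ = 3 ^ ((p - 1) * padicValNat p a.factorial) := by rw [pow_mul]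
      _ ≤ 3 ^ (a - 1) := Nat.pow_le_pow_right (by norm_num) h1
  have h4 := FF_lower a (by omega)
  have h5 := three_four a ha
  have h6 : 2 ^ a = 2 * 2 ^ (a - 1) := by
    rw [← pow_succ']
    congr 1
    omega
  have h7 : 2 ^ (a - 1) ≤ FF a * a := by
    rw [h6] at h4
    nlinarith
  have h8 : 4 ^ (a - 1) ≤ (FF a) ^ 2 * a ^ 2 := by
    calc 4 ^ (a - 1) = (2 ^ (a - 1)) ^ 2 := by
          rw [← pow_mul, mul_comm, pow_mul]
          norm_num
      _ ≤ (FF a * a) ^ 2 := Nat.pow_le_pow_left h7 2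
      _ = _ := by ring
  have h9 : 3 ^ (a - 1) ≤ (FF a) ^ 2 := by
    have h10 : 0 < a ^ 2 := by positivity
    have h11 := h5.trans h8
    exact Nat.le_of_mul_le_mul_right h11 h10
  exact (Nat.pow_le_pow_iff_left two_ne_zero).1 (h2.trans h9)

theorem sq_two_le : ∀ a : ℕ, 7 ≤ a → a ^ 2 * 2 ≤ 2 ^ a := by
  intro a ha
  induction a, ha using Nat.le_induction with
  | base => norm_num
  | succ m hm ih =>
    rw [pow_succ 2 m]
    have h2 : (m + 1) ^ 2 ≤ m ^ 2 * 2 := by nlinarith
    calc (m + 1) ^ 2 * 2 ≤ (m ^ 2 * 2) * 2 := Nat.mul_le_mul_right _ h2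
      _ ≤ 2 ^ m * 2 := Nat.mul_le_mul_right _ ih

theorem le_FF_self (a : ℕ) (ha : 5 ≤ a) : a ≤ FF a := by
  by_cases h5 : a = 5
  · subst h5
    rw [FF_five]
    norm_num
  by_cases h6 : a = 6
  · subst h6
    rw [FF_six]
    norm_num
  have h7 : 7 ≤ a := by omega
  have h8 : a ^ 2 * 2 ≤ 2 ^ a := sq_two_le a h7
  have h4 := FF_lower a (by omega)
  have h9 : a ^ 2 * 2 ≤ FF a * (2 * a) := h8.trans h4
  have h10 : a * (2 * a) ≤ FF a * (2 * a) := by
    calc a * (2 * a) = a ^ 2 * 2 := by ring
      _ ≤ _ := h9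
  exact Nat.le_of_mul_le_mul_right h10 (by omega)

theorem base_bound (k : ℕ) (h2 : p ≠ 2) (h3' : p ^ k ≠ 3) : p ^ padicValNat p (p ^ k).factorial ≤ FF (p ^ k) := by
  have hpp : p.Prime := hp.out
  have hp3 : 3 ≤ p := by
    have := hpp.two_le
    omega
  rcases Nat.eq_zero_or_pos k with rfl | hk
  · simp [FF_one]
  by_cases hk1 : k = 1
  · subst hk1
    rw [pow_one] at h3' ⊢
    have hp5 : 5 ≤ p := by
      by_contra h
      have h4 : p = 3 ∨ p = 4 := by omega
      rcases h4 with h4 | h4
      · exact h3' h4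
      · rw [h4] at hpp
        norm_num at hpp
    have h1 := val_le (p := p) p (by omega)
    have h4 : padicValNat p p.factorial ≤ 1 := by
      by_contra h5
      have h6 : 2 ≤ padicValNat p p.factorial := by omega
      have h7 : (p - 1) * 2 ≤ (p - 1) * padicValNat p p.factorial := Nat.mul_le_mul_left _ h6
      omega
    calc p ^ padicValNat p p.factorial ≤ p ^ 1 := Nat.pow_le_pow_right (by omega) h4
      _ = p := pow_one p
      _ ≤ FF p := le_FF_self p hp5
  · have hk2 : 2 ≤ k := by omega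
    by_cases hlarge : 23 ≤ p ^ k
    · exact val_large hp3 _ hlarge
    · have h5 : p ^ 2 ≤ p ^ k := Nat.pow_le_pow_right (by omega) hk2
      have hp4 : p < 5 := by
        by_contra h
        have : 5 ^ 2 ≤ p ^ 2 := Nat.pow_le_pow_left (by omega) 2
        omega
      have hp3' : p = 3 := by
        interval_cases p
        · rfl
        · norm_num at hpp
      subst hp3'
      have hk3 : k < 3 := by
        by_contra h
        have : 3 ^ 3 ≤ 3 ^ k := Nat.pow_le_pow_right (by norm_num) (by omega)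
        omega
      have hk' : k = 2 := by omega
      subst hk'
      have h1 := val_le (p := 3) (3 ^ 2) (by norm_num)
      have h4 : padicValNat 3 (3 ^ 2).factorial ≤ 4 := by
        norm_num at h1 ⊢
        omega
      calc 3 ^ padicValNat 3 (3 ^ 2).factorial ≤ 3 ^ 4 := Nat.pow_le_pow_right (by norm_num) h4
        _ ≤ 128 := by norm_num
        _ = FF (3 ^ 2) := by rw [show 3 ^ 2 = 9 from rfl, FF_nine]

end val

end numeric

section group

variable {Ω : Type}

/-- Restriction to an invariant set. -/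
def resHom (S : Subgroup (Perm Ω)) (A : Set Ω) (hA : ∀ g ∈ S, ∀ y, g y ∈ A ↔ y ∈ A) : S →* Perm A where
  toFun g := (g.1).subtypePerm (fun y => hA g.1 g.2 y)
  map_one' := by
    ext y
    rfl
  map_mul' a b := by
    ext y
    rfl

theorem resHom_apply (S : Subgroup (Perm Ω)) (A : Set Ω) (hA : ∀ g ∈ S, ∀ y, g y ∈ A ↔ y ∈ A) (g : S) (y : A) :
    ((resHom S A hA g y : A) : Ω) = g.1 y := rfl

/-- Orbits. -/
def orb (S : Subgroup (Perm Ω)) (x : Ω) : Set Ω := {y | ∃ g ∈ S, g x = y}

theorem self_mem_orb (S : Subgroup (Perm Ω)) (x : Ω) : x ∈ orb S x := ⟨1, one_mem _, rfl⟩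

theorem orb_inv (S : Subgroup (Perm Ω)) (x : Ω) : ∀ g ∈ S, ∀ y, g y ∈ orb S x ↔ y ∈ orb S x := by
  intro g hg y
  constructor
  · rintro ⟨h, hh, e⟩
    refine ⟨g⁻¹ * h, S.mul_mem (S.inv_mem hg) hh, ?_⟩
    simp [Equiv.Perm.mul_apply, e]
  · rintro ⟨h, hh, rfl⟩
    exact ⟨g * h, S.mul_mem hg hh, rfl⟩

/-- The action on an orbit. -/
def orbHom (S : Subgroup (Perm Ω)) (x : Ω) : S →* Perm (orb S x) := resHom S (orb S x) (orb_inv S x)

theorem orb_trans (S : Subgroup (Perm Ω)) (x : Ω) : ∀ y z : orb S x, ∃ g ∈ (orbHom S x).range, g y = z := by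
  rintro ⟨y, u, hu, rfl⟩ ⟨z, v, hv, rfl⟩
  refine ⟨orbHom S x ⟨v * u⁻¹, S.mul_mem hv (S.inv_mem hu)⟩, ⟨_, rfl⟩, ?_⟩
  apply Subtype.ext
  show (v * u⁻¹) (u x) = v x
  simp

theorem nil_range {S : Subgroup (Perm Ω)} (hS : Group.IsNilpotent S) {Ω' : Type} (f : S →* Perm Ω') :
    Group.IsNilpotent f.range := by
  haveI := hS
  exact nilpotent_of_surjective f.rangeRestrict f.rangeRestrict_surjective

theorem card_range {S : Subgroup (Perm Ω)} {Ω' : Type} (f : S →* Perm Ω') (hf : Function.Injective f) :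
    Nat.card f.range = Nat.card S :=
  (Nat.card_congr (MonoidHom.ofInjective hf).toEquiv).symm

variable [Finite Ω]

theorem pgroup_bound {p : ℕ} [Fact p.Prime] (T : Subgroup (Perm Ω)) (hT : IsPGroup p T) :
    Nat.card T ≤ p ^ padicValNat p (Nat.card Ω).factorial := by
  obtain ⟨m, hm⟩ := IsPGroup.iff_card.1 hT
  have h1 : Nat.card T ∣ (Nat.card Ω).factorial := by
    rw [← Nat.card_perm]
    exact Subgroup.card_subgroup_dvd_card T
  rw [hm] at h1 ⊢
  exact Nat.pow_le_pow_right (Fact.out : p.Prime).pos ((padicValNat_dvd_iff_le (Nat.factorial_ne_zero _)).1 h1)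

theorem card_eq_pow {p : ℕ} [Fact p.Prime] (T : Subgroup (Perm Ω)) (hT : IsPGroup p T) (x : Ω)
    (htr : ∀ x y, ∃ g ∈ T, g x = y) : ∃ k, Nat.card Ω = p ^ k := by
  classical
  obtain ⟨k, hk⟩ := hT.card_orbit x
  refine ⟨k, ?_⟩
  rw [← hk]
  have h : MulAction.orbit T x = Set.univ := by
    ext y
    simp only [Set.mem_univ, iff_true]
    obtain ⟨g, hg, e⟩ := htr x y
    exact ⟨⟨g, hg⟩, e⟩
  rw [h, Nat.card_univ]

theorem fix_of_mul {P Q : Subgroup (Perm Ω)} {p : ℕ} [Fact p.Prime] (hPp : IsPGroup p P) (hQc : Nat.Coprime p (Nat.card Q))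
    {a b : Perm Ω} (ha : a ∈ P) (hb : b ∈ Q) (hc : a * b = b * a) {x : Ω} (hx : (a * b) x = x) : a x = x ∧ b x = x := by
  obtain ⟨i, hi⟩ := (IsPGroup.iff_orderOf.1 hPp) ⟨a, ha⟩
  rw [Subgroup.orderOf_mk] at hi
  have h1 : orderOf b ∣ Nat.card Q := Subgroup.orderOf_dvd_natCard Q hb
  have hcop : Nat.Coprime (orderOf b) (orderOf a) := by
    rw [hi]
    exact Nat.Coprime.pow_right i (Nat.Coprime.coprime_dvd_left h1 hQc.symm)
  have hC : Commute a b := hc
  constructor
  · obtain ⟨m, hm⟩ := exists_pow_eq_self_of_coprime hcop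
    have h2 : ((a * b) ^ orderOf b) = a ^ orderOf b := by
      rw [hC.mul_pow, pow_orderOf_eq_one, mul_one]
    have h3 : (a ^ orderOf b) x = x := by
      rw [← h2]
      exact Equiv.Perm.pow_apply_eq_self_of_apply_eq_self hx _
    have h4 := Equiv.Perm.pow_apply_eq_self_of_apply_eq_self h3 m
    rwa [hm] at h4
  · obtain ⟨m, hm⟩ := exists_pow_eq_self_of_coprime hcop.symm
    have h2 : ((a * b) ^ orderOf a) = b ^ orderOf a := by
      rw [hC.mul_pow, pow_orderOf_eq_one, one_mul]
    have h3 : (b ^ orderOf a) x = x := by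
      rw [← h2]
      exact Equiv.Perm.pow_apply_eq_self_of_apply_eq_self hx _
    have h4 := Equiv.Perm.pow_apply_eq_self_of_apply_eq_self h3 m
    rwa [hm] at h4

theorem two_le_of_inj {S : Subgroup (Perm Ω)} {A : Set Ω} (f : S →* Perm A) (hf : Function.Injective f) (hS : Nat.card S ≠ 1) :
    2 ≤ Nat.card A := by
  by_contra h
  have h1 : Nat.card A ≤ 1 := by omega
  have h2 : Nat.card S ≤ Nat.card (Perm A) := Nat.card_le_card_of_injective f hf
  rw [Nat.card_perm] at h2
  have h3 : (Nat.card A).factorial = 1 := by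
    interval_cases (Nat.card A) <;> rfl
  have h4 : 0 < Nat.card S := Nat.card_pos
  omega

end group

/-- The order bound for transitive nilpotent groups. -/
theorem trans_bound : ∀ (a : ℕ) (Ω : Type) [Finite Ω] (T : Subgroup (Perm Ω)), Nat.card Ω = a → Group.IsNilpotent T →
    (∀ x y, ∃ g ∈ T, g x = y) → Nat.card T ≤ GG a := by
  intro a
  induction a using Nat.strong_induction_on with
  | _ a ih =>
    intro Ω _ T ha hnil htr
    classical
    by_cases hE : IsEmpty Ω
    · have h1 : Nat.card T ≤ Nat.card (Perm Ω) := Subgroup.card_le_card_group T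
      rw [Nat.card_perm] at h1
      have h2 : Nat.card Ω = 0 := Nat.card_of_isEmpty
      rw [h2] at h1
      have h3 : a = 0 := by omega
      subst h3
      unfold GG
      rw [if_neg (by norm_num), FF_zero]
      simpa using h1
    obtain ⟨x⟩ := not_isEmpty_iff.1 hE
    haveI : Nonempty Ω := ⟨x⟩
    have hapos : 0 < a := ha ▸ Nat.card_pos
    by_cases hP : ∃ p : ℕ, p.Prime ∧ IsPGroup p T
    · obtain ⟨p, hp, hT⟩ := hP
      haveI : Fact p.Prime := ⟨hp⟩
      have h1 := pgroup_bound T hT
      rw [ha] at h1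
      obtain ⟨k, hk⟩ := card_eq_pow T hT x htr
      rw [ha] at hk
      by_cases h2 : p = 2
      · subst h2
        exact h1.trans (FF_le_GG a)
      · by_cases h3 : a = 3
        · subst h3
          have hp3 : p = 3 := by
            have hk0 : k ≠ 0 := by
              rintro rfl
              simp at hk
            have h4 : p ∣ 3 := by
              rw [hk]
              exact dvd_pow_self p hk0
            exact (Nat.prime_dvd_prime_iff_eq hp Nat.prime_three).1 h4
          subst hp3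
          have h5 := val_le (p := 3) 3 (by norm_num)
          have h6 : padicValNat 3 (Nat.factorial 3) ≤ 1 := by omega
          have h7 : 3 ^ padicValNat 3 (Nat.factorial 3) ≤ 3 ^ 1 := Nat.pow_le_pow_right (by norm_num) h6
          unfold GG
          rw [if_pos rfl]
          exact h1.trans (by simpa using h7)
        · unfold GG
          rw [if_neg h3]
          subst hk
          exact h1.trans (base_bound k h2 h3)
    · push Not at hP
      have hT1 : Nat.card T ≠ 1 := fun h => hP 2 Nat.prime_two (IsPGroup.of_card (n := 0) (by simpa using h))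
      obtain ⟨p, hp, hpT⟩ := Nat.exists_prime_and_dvd hT1
      haveI : Fact p.Prime := ⟨hp⟩
      obtain ⟨P, Q, hPT, hQT, hPp, hQc, hcomm, hdec⟩ := Carter.nilp_decomp_sub p T hnil
      have hQ1 : Nat.card Q ≠ 1 := by
        intro h
        apply hP p hp
        have h2 : T ≤ P := by
          intro t ht
          obtain ⟨u, hu, v, hv, rfl⟩ := hdec t ht
          have h3 : Q = ⊥ := Subgroup.eq_bot_of_card_eq Q h
          rw [h3, Subgroup.mem_bot] at hv
          rw [hv, mul_one]
          exact hu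
        exact hPp.to_le h2
      have hP1 : Nat.card P ≠ 1 := by
        intro h
        have h2 : T ≤ Q := by
          intro t ht
          obtain ⟨u, hu, v, hv, rfl⟩ := hdec t ht
          have h3 : P = ⊥ := Subgroup.eq_bot_of_card_eq P h
          rw [h3, Subgroup.mem_bot] at hu
          rw [hu, one_mul]
          exact hv
        have h3 := Subgroup.card_dvd_of_le h2
        have h4 := hpT.trans h3
        have h5 : Nat.Coprime p p := Nat.Coprime.coprime_dvd_right h4 hQc
        rw [Nat.coprime_self] at h5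
        exact hp.one_lt.ne' h5
      -- faithfulness on the orbits
      have hyrep : ∀ y : Ω, ∃ u ∈ P, ∃ v ∈ Q, y = (u * v) x := by
        intro y
        obtain ⟨t, ht, e⟩ := htr x y
        obtain ⟨u, hu, v, hv, rfl⟩ := hdec t ht
        exact ⟨u, hu, v, hv, e.symm⟩
      have hinjP : Function.Injective (orbHom P x) := by
        rw [injective_iff_map_eq_one]
        rintro ⟨u, hu⟩ h1
        apply Subtype.ext
        apply Equiv.ext
        intro y
        obtain ⟨a', ha', v, hv, rfl⟩ := hyrep y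
        have h2 : u (a' x) = a' x := by
          have h3 := congrArg (fun f : Perm (orb P x) => ((f ⟨a' x, a', ha', rfl⟩ : orb P x) : Ω)) h1
          exact h3
        have h4 : u * (a' * v) = v * (u * a') := by
          rw [← mul_assoc, hcomm (u * a') (P.mul_mem hu ha') v hv]
        show (u * (a' * v)) x = (a' * v) x
        rw [h4, Equiv.Perm.mul_apply, Equiv.Perm.mul_apply, h2, ← Equiv.Perm.mul_apply, ← hcomm a' ha' v hv]
      have hinjQ : Function.Injective (orbHom Q x) := by
        rw [injective_iff_map_eq_one]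
        rintro ⟨u, hu⟩ h1
        apply Subtype.ext
        apply Equiv.ext
        intro y
        obtain ⟨a', ha', v, hv, rfl⟩ := hyrep y
        have h2 : u (v x) = v x := by
          have h3 := congrArg (fun f : Perm (orb Q x) => ((f ⟨v x, v, hv, rfl⟩ : orb Q x) : Ω)) h1
          exact h3
        show (u * (a' * v)) x = (a' * v) x
        calc (u * (a' * v)) x = (a' * (u * v)) x := by rw [← mul_assoc, ← hcomm a' ha' u hu, mul_assoc]
          _ = a' (u (v x)) := rfl
          _ = a' (v x) := by rw [h2]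
          _ = (a' * v) x := rfl
      have hb2 := two_le_of_inj _ hinjP hP1
      have hc2 := two_le_of_inj _ hinjQ hQ1
      -- the orbits multiply
      have hbc : Nat.card (orb P x) * Nat.card (orb Q x) ≤ a := by
        rw [← Nat.card_prod, ← ha]
        have hch1 : ∀ y : orb P x, ∃ u, u ∈ P ∧ u x = y.1 := fun y => y.2
        have hch2 : ∀ y : orb Q x, ∃ u, u ∈ Q ∧ u x = y.1 := fun y => y.2
        choose U hU1 hU2 using hch1
        choose V hV1 hV2 using hch2
        apply Nat.card_le_card_of_injective (fun z : orb P x × orb Q x => U z.1 (V z.2 x))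
        rintro ⟨y, z⟩ ⟨y', z'⟩ h
        have h0 : (U y * V z) x = (U y' * V z') x := h
        have h1 : ((U y')⁻¹ * U y * ((V z')⁻¹ * V z)) x = x := by
          have h2 : (U y')⁻¹ * U y * ((V z')⁻¹ * V z) = (V z')⁻¹ * (U y')⁻¹ * (U y * V z) := by
            have h3 : U y * (V z')⁻¹ = (V z')⁻¹ * U y := hcomm _ (hU1 y) _ (Q.inv_mem (hV1 z'))
            have h4 : (U y')⁻¹ * (V z')⁻¹ = (V z')⁻¹ * (U y')⁻¹ := hcomm _ (P.inv_mem (hU1 y')) _ (Q.inv_mem (hV1 z'))
            calc (U y')⁻¹ * U y * ((V z')⁻¹ * V z) = (U y')⁻¹ * (U y * (V z')⁻¹) * V z := by group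
              _ = (U y')⁻¹ * ((V z')⁻¹ * U y) * V z := by rw [h3]
              _ = ((U y')⁻¹ * (V z')⁻¹) * U y * V z := by group
              _ = ((V z')⁻¹ * (U y')⁻¹) * U y * V z := by rw [h4]
              _ = _ := by group
          rw [h2]
          calc ((V z')⁻¹ * (U y')⁻¹ * (U y * V z)) x = ((V z')⁻¹ * (U y')⁻¹) ((U y * V z) x) := rfl
            _ = ((V z')⁻¹ * (U y')⁻¹) ((U y' * V z') x) := by rw [h0]
            _ = ((V z')⁻¹ * (U y')⁻¹ * (U y' * V z')) x := rfl
            _ = x := by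
              rw [show (V z')⁻¹ * (U y')⁻¹ * (U y' * V z') = (1 : Perm Ω) by group]
              rfl
        have h2 := fix_of_mul hPp hQc (P.mul_mem (P.inv_mem (hU1 y')) (hU1 y)) (Q.mul_mem (Q.inv_mem (hV1 z')) (hV1 z))
          (hcomm _ (P.mul_mem (P.inv_mem (hU1 y')) (hU1 y)) _ (Q.mul_mem (Q.inv_mem (hV1 z')) (hV1 z))) h1
        have h3 : y = y' := by
          apply Subtype.ext
          rw [← hU2 y, ← hU2 y']
          have h4 : ((U y')⁻¹ * U y) x = x := h2.1
          rw [Equiv.Perm.mul_apply, Equiv.Perm.inv_eq_iff_eq] at h4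
          exact h4
        have h4 : z = z' := by
          apply Subtype.ext
          rw [← hV2 z, ← hV2 z']
          have h4 : ((V z')⁻¹ * V z) x = x := h2.2
          rw [Equiv.Perm.mul_apply, Equiv.Perm.inv_eq_iff_eq] at h4
          exact h4
        rw [h3, h4]
      have hbound : ∀ (S : Subgroup (Perm Ω)), S ≤ T → Function.Injective (orbHom S x) → Nat.card (orb S x) < a →
          Nat.card S ≤ GG (Nat.card (orb S x)) := by
        intro S hST hinj hlt
        have h1 := ih _ hlt (orb S x) (orbHom S x).range rfl (nil_range (Carter.nilp_of_le hST hnil) _) (orb_trans S x)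
        rwa [card_range _ hinj] at h1
      have hb3 : Nat.card (orb P x) < a := by nlinarith
      have hc3 : Nat.card (orb Q x) < a := by nlinarith
      have h1 := hbound P hPT hinjP hb3
      have h2 := hbound Q hQT hinjQ hc3
      have h3 : Nat.card T ≤ Nat.card P * Nat.card Q := by
        rw [← Nat.card_prod]
        refine Nat.card_le_card_of_surjective (fun z : P × Q => (⟨z.1.1 * z.2.1, T.mul_mem (hPT z.1.2) (hQT z.2.2)⟩ : T)) ?_
        rintro ⟨t, ht⟩
        obtain ⟨u, hu, v, hv, rfl⟩ := hdec t ht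
        exact ⟨(⟨u, hu⟩, ⟨v, hv⟩), rfl⟩
      have h4 := GG_mul hb2 hc2
      have h5 := FF_mono hbc
      have h6 := FF_le_GG a
      calc Nat.card T ≤ Nat.card P * Nat.card Q := h3
        _ ≤ GG _ * GG _ := Nat.mul_le_mul h1 h2
        _ ≤ FF _ := h4
        _ ≤ FF a := h5
        _ ≤ GG a := h6

/-- The order bound for all nilpotent groups. -/
theorem nil_bound : ∀ (n : ℕ) (Ω : Type) [Finite Ω] (N : Subgroup (Perm Ω)), Nat.card Ω = n → Group.IsNilpotent N →
    Nat.card N ≤ HH n := by
  intro n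
  induction n using Nat.strong_induction_on with
  | _ n ih =>
    intro Ω _ N hn hnil
    classical
    by_cases hE : IsEmpty Ω
    · have h1 : Nat.card N ≤ Nat.card (Perm Ω) := Subgroup.card_le_card_group N
      rw [Nat.card_perm] at h1
      have h2 : Nat.card Ω = 0 := Nat.card_of_isEmpty
      rw [h2] at h1
      have h3 : n = 0 := by omega
      subst h3
      refine le_trans ?_ (FF_le_HH 0)
      rw [FF_zero]
      simpa using h1
    obtain ⟨x⟩ := not_isEmpty_iff.1 hE
    let O := orb N x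
    have hO := orb_inv N x
    have hOc : ∀ g ∈ N, ∀ y, g y ∈ Oᶜ ↔ y ∈ Oᶜ := fun g hg y => not_congr (hO g hg y)
    let ρ₁ := orbHom N x
    let ρ₂ := resHom N Oᶜ hOc
    have hcard : Nat.card O + Nat.card ↥Oᶜ = n := by
      rw [← hn, ← Nat.card_sum]
      exact Nat.card_congr (Equiv.Set.sumCompl O)
    have ha1 : 1 ≤ Nat.card O := by
      haveI : Nonempty O := ⟨⟨x, self_mem_orb N x⟩⟩
      exact Nat.card_pos
    have h1 := trans_bound (Nat.card O) O ρ₁.range rfl (nil_range hnil _) (orb_trans N x)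
    have h2 := ih (Nat.card ↥Oᶜ) (by omega) ↥Oᶜ ρ₂.range rfl (nil_range hnil _)
    have hinj : Function.Injective (fun g : N => ((⟨ρ₁ g, ⟨g, rfl⟩⟩ : ρ₁.range), (⟨ρ₂ g, ⟨g, rfl⟩⟩ : ρ₂.range))) := by
      intro g g' h
      have h3 : ρ₁ g = ρ₁ g' := congrArg (fun z => z.1.1) h
      have h4 : ρ₂ g = ρ₂ g' := congrArg (fun z => z.2.1) h
      apply Subtype.ext
      apply Equiv.ext
      intro y
      by_cases hy : y ∈ O
      · have h5 := congrArg (fun f : Perm O => ((f ⟨y, hy⟩ : O) : Ω)) h3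
        exact h5
      · have h5 := congrArg (fun f : Perm ↥Oᶜ => ((f ⟨y, hy⟩ : ↥Oᶜ) : Ω)) h4
        exact h5
    have h3 := Nat.card_le_card_of_injective _ hinj
    rw [Nat.card_prod] at h3
    have h4 := GG_mul_HH (Nat.card O) (Nat.card ↥Oᶜ)
    rw [hcard] at h4
    exact h3.trans ((Nat.mul_le_mul h1 h2).trans h4)

/-- The order of a Sylow `2`-subgroup. -/
theorem card_sylow (n : ℕ) (P : Sylow 2 (Perm (Fin n))) : Nat.card P = FF n := by
  rw [Sylow.card_eq_multiplicity, Nat.card_perm, Nat.card_fin, Nat.factorization_def _ Nat.prime_two]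
  rfl

end Cfsg.Agent.Lib.NilpSym
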