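/-
Nilpotent subgroups of the alternating group: the order bound by a Sylow `2`-subgroup.
-/
import Mathlib
import Cfsg.Agent.Lib.NilpSym

set_option autoImplicit false
set_option linter.all false

noncomputable section

namespace Cfsg.Agent.Lib.NilpAlt

open Equiv (Perm)
open Cfsg.Agent.Lib Cfsg.Agent.Lib.NilpSym

theorem card_orb_dvd {Ω : Type} [Finite Ω] (S : Subgroup (Perm Ω)) (x : Ω) : Nat.card (orb S x) ∣ Nat.card S := by
  have h : orb S x = MulAction.orbit S x := by
    ext y
    constructor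
    · rintro ⟨g, hg, e⟩
      exact ⟨⟨g, hg⟩, e⟩
    · rintro ⟨⟨g, hg⟩, e⟩
      exact ⟨g, hg, e⟩
  have h2 := MulAction.index_stabilizer S x
  rw [h, Nat.card_coe_set_eq, ← h2]
  exact Subgroup.index_dvd_card _

theorem num_add_le {a b c : ℕ} (hb : 2 ≤ b) (hc : 2 ≤ c) (h : b * c ≤ a) : b + c ≤ a + 1 := by
  obtain ⟨b', rfl⟩ := Nat.exists_eq_add_of_le hb
  obtain ⟨c', rfl⟩ := Nat.exists_eq_add_of_le hc
  nlinarith [Nat.zero_le (b' * c')]

theorem num_add_le_eight {b c : ℕ} (hb : 2 ≤ b) (hc : 2 ≤ c) (h : b * c ≤ 13) : b + c ≤ 8 := by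
  obtain ⟨b', rfl⟩ := Nat.exists_eq_add_of_le hb
  obtain ⟨c', rfl⟩ := Nat.exists_eq_add_of_le hc
  nlinarith [Nat.zero_le (b' * c')]

/-- The order bound for transitive nilpotent groups of odd order. -/
theorem odd_trans : ∀ (a : ℕ) (Ω : Type) [Finite Ω] (T : Subgroup (Perm Ω)), Nat.card Ω = a → 1 ≤ a → Group.IsNilpotent T →
    (∀ x y, ∃ g ∈ T, g x = y) → Nat.Coprime 2 (Nat.card T) →
    Nat.card T ^ 2 * 3 ≤ 3 ^ a ∧ (a = 13 → Nat.card T ≤ 512) := by
  intro a
  induction a using Nat.strong_induction_on with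
  | _ a ih =>
    intro Ω _ T ha ha1 hnil htr hcop
    classical
    have hne : Nonempty Ω := by
      by_contra hh
      rw [not_nonempty_iff] at hh
      have h2 : Nat.card Ω = 0 := Nat.card_of_isEmpty
      omega
    obtain ⟨x⟩ := hne
    haveI : Nonempty Ω := ⟨x⟩
    have hapos : 0 < a := ha1
    by_cases hP : ∃ p : ℕ, p.Prime ∧ IsPGroup p T
    · obtain ⟨p, hp, hT⟩ := hP
      haveI : Fact p.Prime := ⟨hp⟩
      have h1 := pgroup_bound T hT
      rw [ha] at h1
      obtain ⟨k, hk⟩ := card_eq_pow T hT x htr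
      rw [ha] at hk
      by_cases h2 : p = 2
      · subst h2
        obtain ⟨m, hm⟩ := IsPGroup.iff_card.1 hT
        have h3 : Nat.card T = 1 := by
          rw [hm] at hcop ⊢
          rcases m with _ | m
          · simp
          · exfalso
            have := Nat.Coprime.eq_one_of_dvd hcop (dvd_pow_self 2 (Nat.succ_ne_zero m))
            omega
        rw [h3]
        constructor
        · have : 3 ^ 1 ≤ 3 ^ a := Nat.pow_le_pow_right (by norm_num) ha1
          omega
        · intro _
          norm_num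
      · have hp3 : 3 ≤ p := by
          have := hp.two_le
          omega
        have hv := val_le (p := p) a ha1
        have hs := sq_le_three_pow p hp3
        have h3 : Nat.card T ^ 2 ≤ 3 ^ (a - 1) := by
          calc Nat.card T ^ 2 ≤ (p ^ padicValNat p a.factorial) ^ 2 := Nat.pow_le_pow_left h1 2
            _ = (p ^ 2) ^ padicValNat p a.factorial := by ring
            _ ≤ (3 ^ (p - 1)) ^ padicValNat p a.factorial := Nat.pow_le_pow_left hs _
            _ = 3 ^ ((p - 1) * padicValNat p a.factorial) := by rw [pow_mul]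
            _ ≤ 3 ^ (a - 1) := Nat.pow_le_pow_right (by norm_num) hv
        constructor
        · have h4 : 3 ^ a = 3 ^ (a - 1) * 3 := by
            rw [← pow_succ]
            congr 1
            omega
          rw [h4]
          exact Nat.mul_le_mul_right 3 h3
        · intro h13
          subst h13
          have hp13 : p = 13 := by
            have hk0 : k ≠ 0 := by
              rintro rfl
              simp at hk
            have h4 : p ∣ 13 := by
              rw [hk]
              exact dvd_pow_self p hk0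
            exact (Nat.prime_dvd_prime_iff_eq hp (by norm_num)).1 h4
          subst hp13
          have hv' : 12 * padicValNat 13 (Nat.factorial 13) ≤ 12 := by simpa using hv
          have hν1 : padicValNat 13 (Nat.factorial 13) ≤ 1 := by omega
          have h5 : 13 ^ padicValNat 13 (Nat.factorial 13) ≤ 13 ^ 1 := Nat.pow_le_pow_right (by norm_num) hν1
          omega
    · push Not at hP
      have hT1 : Nat.card T ≠ 1 := fun h => hP 2 Nat.prime_two (IsPGroup.of_card (n := 0) (by simpa using h))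
      obtain ⟨p, hp, hpT⟩ := Nat.exists_prime_and_dvd hT1
      haveI : Fact p.Prime := ⟨hp⟩
      obtain ⟨P, Q, hPT, hQT, hPp, hQc, hcomm, hdec⟩ := Carter.nilp_decomp_sub p T hnil
      have hQ1 : Nat.card Q ≠ 1 := by
        intro h
        apply hP p hp
        have h2 : T ≤ P := by
          intro t ht
          obtain ⟨u, hu, v, hv, rfl⟩ := hdec t ht
          have h3 : Q = ⊥ := Subgroup.eq_bot_of_card_eq Q h
          rw [h3, Subgroup.mem_bot] at hv
          rw [hv, mul_one]
          exact hu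
        exact hPp.to_le h2
      have hP1 : Nat.card P ≠ 1 := by
        intro h
        have h2 : T ≤ Q := by
          intro t ht
          obtain ⟨u, hu, v, hv, rfl⟩ := hdec t ht
          have h3 : P = ⊥ := Subgroup.eq_bot_of_card_eq P h
          rw [h3, Subgroup.mem_bot] at hu
          rw [hu, one_mul]
          exact hv
        have h3 := Subgroup.card_dvd_of_le h2
        have h4 := hpT.trans h3
        have h5 : Nat.Coprime p p := Nat.Coprime.coprime_dvd_right h4 hQc
        rw [Nat.coprime_self] at h5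
        exact hp.one_lt.ne' h5
      -- faithfulness on the orbits
      have hyrep : ∀ y : Ω, ∃ u ∈ P, ∃ v ∈ Q, y = (u * v) x := by
        intro y
        obtain ⟨t, ht, e⟩ := htr x y
        obtain ⟨u, hu, v, hv, rfl⟩ := hdec t ht
        exact ⟨u, hu, v, hv, e.symm⟩
      have hinjP : Function.Injective (orbHom P x) := by
        rw [injective_iff_map_eq_one]
        rintro ⟨u, hu⟩ h1
        apply Subtype.ext
        apply Equiv.ext
        intro y
        obtain ⟨a', ha', v, hv, rfl⟩ := hyrep y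
        have h2 : u (a' x) = a' x := by
          have h3 := congrArg (fun f : Perm (orb P x) => ((f ⟨a' x, a', ha', rfl⟩ : orb P x) : Ω)) h1
          exact h3
        have h4 : u * (a' * v) = v * (u * a') := by
          rw [← mul_assoc, hcomm (u * a') (P.mul_mem hu ha') v hv]
        show (u * (a' * v)) x = (a' * v) x
        rw [h4, Equiv.Perm.mul_apply, Equiv.Perm.mul_apply, h2, ← Equiv.Perm.mul_apply, ← hcomm a' ha' v hv]
      have hinjQ : Function.Injective (orbHom Q x) := by
        rw [injective_iff_map_eq_one]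
        rintro ⟨u, hu⟩ h1
        apply Subtype.ext
        apply Equiv.ext
        intro y
        obtain ⟨a', ha', v, hv, rfl⟩ := hyrep y
        have h2 : u (v x) = v x := by
          have h3 := congrArg (fun f : Perm (orb Q x) => ((f ⟨v x, v, hv, rfl⟩ : orb Q x) : Ω)) h1
          exact h3
        show (u * (a' * v)) x = (a' * v) x
        calc (u * (a' * v)) x = (a' * (u * v)) x := by rw [← mul_assoc, ← hcomm a' ha' u hu, mul_assoc]
          _ = a' (u (v x)) := rfl
          _ = a' (v x) := by rw [h2]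
          _ = (a' * v) x := rfl
      have hb2 := two_le_of_inj _ hinjP hP1
      have hc2 := two_le_of_inj _ hinjQ hQ1
      -- the orbits multiply
      have hbc : Nat.card (orb P x) * Nat.card (orb Q x) ≤ a := by
        rw [← Nat.card_prod, ← ha]
        have hch1 : ∀ y : orb P x, ∃ u, u ∈ P ∧ u x = y.1 := fun y => y.2
        have hch2 : ∀ y : orb Q x, ∃ u, u ∈ Q ∧ u x = y.1 := fun y => y.2
        choose U hU1 hU2 using hch1
        choose V hV1 hV2 using hch2
        apply Nat.card_le_card_of_injective (fun z : orb P x × orb Q x => U z.1 (V z.2 x))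
        rintro ⟨y, z⟩ ⟨y', z'⟩ h
        have h0 : (U y * V z) x = (U y' * V z') x := h
        have h1 : ((U y')⁻¹ * U y * ((V z')⁻¹ * V z)) x = x := by
          have h2 : (U y')⁻¹ * U y * ((V z')⁻¹ * V z) = (V z')⁻¹ * (U y')⁻¹ * (U y * V z) := by
            have h3 : U y * (V z')⁻¹ = (V z')⁻¹ * U y := hcomm _ (hU1 y) _ (Q.inv_mem (hV1 z'))
            have h4 : (U y')⁻¹ * (V z')⁻¹ = (V z')⁻¹ * (U y')⁻¹ := hcomm _ (P.inv_mem (hU1 y')) _ (Q.inv_mem (hV1 z'))
            calc (U y')⁻¹ * U y * ((V z')⁻¹ * V z) = (U y')⁻¹ * (U y * (V z')⁻¹) * V z := by group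
              _ = (U y')⁻¹ * ((V z')⁻¹ * U y) * V z := by rw [h3]
              _ = ((U y')⁻¹ * (V z')⁻¹) * U y * V z := by group
              _ = ((V z')⁻¹ * (U y')⁻¹) * U y * V z := by rw [h4]
              _ = _ := by group
          rw [h2]
          calc ((V z')⁻¹ * (U y')⁻¹ * (U y * V z)) x = ((V z')⁻¹ * (U y')⁻¹) ((U y * V z) x) := rfl
            _ = ((V z')⁻¹ * (U y')⁻¹) ((U y' * V z') x) := by rw [h0]
            _ = ((V z')⁻¹ * (U y')⁻¹ * (U y' * V z')) x := rfl
            _ = x := by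
              rw [show (V z')⁻¹ * (U y')⁻¹ * (U y' * V z') = (1 : Perm Ω) by group]
              rfl
        have h2 := fix_of_mul hPp hQc (P.mul_mem (P.inv_mem (hU1 y')) (hU1 y)) (Q.mul_mem (Q.inv_mem (hV1 z')) (hV1 z))
          (hcomm _ (P.mul_mem (P.inv_mem (hU1 y')) (hU1 y)) _ (Q.mul_mem (Q.inv_mem (hV1 z')) (hV1 z))) h1
        have h3 : y = y' := by
          apply Subtype.ext
          rw [← hU2 y, ← hU2 y']
          have h4 : ((U y')⁻¹ * U y) x = x := h2.1
          rw [Equiv.Perm.mul_apply, Equiv.Perm.inv_eq_iff_eq] at h4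
          exact h4
        have h4 : z = z' := by
          apply Subtype.ext
          rw [← hV2 z, ← hV2 z']
          have h4 : ((V z')⁻¹ * V z) x = x := h2.2
          rw [Equiv.Perm.mul_apply, Equiv.Perm.inv_eq_iff_eq] at h4
          exact h4
        rw [h3, h4]
      have hbound : ∀ (S : Subgroup (Perm Ω)), S ≤ T → Function.Injective (orbHom S x) → Nat.card (orb S x) < a →
          Nat.card S ^ 2 * 3 ≤ 3 ^ (Nat.card (orb S x)) := by
        intro S hST hinj hlt
        have hcopS : Nat.Coprime 2 (Nat.card S) := Nat.Coprime.coprime_dvd_right (Subgroup.card_dvd_of_le hST) hcop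
        haveI : Nonempty (orb S x) := ⟨⟨x, self_mem_orb S x⟩⟩
        have h1 := (ih _ hlt (orb S x) (orbHom S x).range rfl Nat.card_pos (nil_range (Carter.nilp_of_le hST hnil) _) (orb_trans S x)
          (by rw [card_range _ hinj]; exact hcopS)).1
        rwa [card_range _ hinj] at h1
      have hb3 : Nat.card (orb P x) < a := by nlinarith
      have hc3 : Nat.card (orb Q x) < a := by nlinarith
      have h1 := hbound P hPT hinjP hb3
      have h2 := hbound Q hQT hinjQ hc3
      have h3 : Nat.card T ≤ Nat.card P * Nat.card Q := by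
        rw [← Nat.card_prod]
        refine Nat.card_le_card_of_surjective (fun z : P × Q => (⟨z.1.1 * z.2.1, T.mul_mem (hPT z.1.2) (hQT z.2.2)⟩ : T)) ?_
        rintro ⟨t, ht⟩
        obtain ⟨u, hu, v, hv, rfl⟩ := hdec t ht
        exact ⟨(⟨u, hu⟩, ⟨v, hv⟩), rfl⟩
      have h4 : Nat.card T ^ 2 * 9 ≤ 3 ^ (Nat.card (orb P x) + Nat.card (orb Q x)) := by
        calc Nat.card T ^ 2 * 9 ≤ (Nat.card P * Nat.card Q) ^ 2 * 9 := Nat.mul_le_mul_right _ (Nat.pow_le_pow_left h3 2)
          _ = (Nat.card P ^ 2 * 3) * (Nat.card Q ^ 2 * 3) := by ring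
          _ ≤ 3 ^ Nat.card (orb P x) * 3 ^ Nat.card (orb Q x) := Nat.mul_le_mul h1 h2
          _ = 3 ^ (Nat.card (orb P x) + Nat.card (orb Q x)) := by rw [pow_add]
      constructor
      · have h5 := num_add_le hb2 hc2 hbc
        have h6 : 3 ^ (Nat.card (orb P x) + Nat.card (orb Q x)) ≤ 3 ^ (a + 1) := Nat.pow_le_pow_right (by norm_num) h5
        rw [pow_succ] at h6
        omega
      · intro h13
        subst h13
        have h5 := num_add_le_eight hb2 hc2 hbc
        have h6 : 3 ^ (Nat.card (orb P x) + Nat.card (orb Q x)) ≤ 3 ^ 8 := Nat.pow_le_pow_right (by norm_num) h5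
        by_contra hh
        push Not at hh
        have h7 : 512 ^ 2 < Nat.card T ^ 2 := Nat.pow_lt_pow_left hh (by norm_num)
        have h8 := h4.trans h6
        norm_num at h7 h8
        omega

/-- The order bound for nilpotent groups of odd order. -/
theorem odd_bound : ∀ (n : ℕ) (Ω : Type) [Finite Ω] (N : Subgroup (Perm Ω)), Nat.card Ω = n → Group.IsNilpotent N →
    Nat.Coprime 2 (Nat.card N) →
    ∃ r : ℕ, r % 2 = n % 2 ∧ (n ≠ 0 → 1 ≤ r) ∧ Nat.card N ^ 2 * 3 ^ r ≤ 3 ^ n ∧ (r = 1 → n = 13 → Nat.card N ≤ 512) := by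
  intro n
  induction n using Nat.strong_induction_on with
  | _ n ih =>
    intro Ω _ N hn hnil hcop
    classical
    by_cases hE : IsEmpty Ω
    · have h1 : Nat.card N ≤ Nat.card (Perm Ω) := Subgroup.card_le_card_group N
      rw [Nat.card_perm] at h1
      have h2 : Nat.card Ω = 0 := Nat.card_of_isEmpty
      rw [h2] at h1
      have h3 : n = 0 := by omega
      subst h3
      have h4 : Nat.card N = 1 := by
        have h5 : 0 < Nat.card N := Nat.card_pos
        have h6 : Nat.card N ≤ 1 := h1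
        omega
      refine ⟨0, rfl, fun h => absurd rfl h, ?_, ?_⟩
      · rw [h4]
        norm_num
      · intro h
        omega
    obtain ⟨x⟩ := not_isEmpty_iff.1 hE
    let O := orb N x
    have hO := orb_inv N x
    have hOc : ∀ g ∈ N, ∀ y, g y ∈ Oᶜ ↔ y ∈ Oᶜ := fun g hg y => not_congr (hO g hg y)
    let ρ₁ := orbHom N x
    let ρ₂ := resHom N Oᶜ hOc
    have hcard : Nat.card O + Nat.card ↥Oᶜ = n := by
      rw [← hn, ← Nat.card_sum]
      exact Nat.card_congr (Equiv.Set.sumCompl O)
    have ha1 : 1 ≤ Nat.card O := by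
      haveI : Nonempty O := ⟨⟨x, self_mem_orb N x⟩⟩
      exact Nat.card_pos
    have haodd : Nat.card O % 2 = 1 := by
      have h := card_orb_dvd N x
      have h2 : Nat.Coprime 2 (Nat.card O) := Nat.Coprime.coprime_dvd_right h hcop
      exact Nat.odd_iff.1 (Nat.coprime_two_left.1 h2)
    have h1 := odd_trans (Nat.card O) O ρ₁.range rfl ha1 (nil_range hnil _) (orb_trans N x)
      (Nat.Coprime.coprime_dvd_right (Subgroup.card_range_dvd ρ₁) hcop)
    obtain ⟨r, hr1, hr2, hr3, -⟩ := ih (Nat.card ↥Oᶜ) (by omega) ↥Oᶜ ρ₂.range rfl (nil_range hnil _)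
      (Nat.Coprime.coprime_dvd_right (Subgroup.card_range_dvd ρ₂) hcop)
    have hinj : Function.Injective (fun g : N => ((⟨ρ₁ g, ⟨g, rfl⟩⟩ : ρ₁.range), (⟨ρ₂ g, ⟨g, rfl⟩⟩ : ρ₂.range))) := by
      intro g g' h
      have h3 : ρ₁ g = ρ₁ g' := congrArg (fun z => z.1.1) h
      have h4 : ρ₂ g = ρ₂ g' := congrArg (fun z => z.2.1) h
      apply Subtype.ext
      apply Equiv.ext
      intro y
      by_cases hy : y ∈ O
      · have h5 := congrArg (fun f : Perm O => ((f ⟨y, hy⟩ : O) : Ω)) h3
        exact h5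
      · have h5 := congrArg (fun f : Perm ↥Oᶜ => ((f ⟨y, hy⟩ : ↥Oᶜ) : Ω)) h4
        exact h5
    have h3 := Nat.card_le_card_of_injective _ hinj
    rw [Nat.card_prod] at h3
    refine ⟨r + 1, by omega, fun _ => by omega, ?_, ?_⟩
    · calc Nat.card N ^ 2 * 3 ^ (r + 1) ≤ (Nat.card ρ₁.range * Nat.card ρ₂.range) ^ 2 * 3 ^ (r + 1) :=
            Nat.mul_le_mul_right _ (Nat.pow_le_pow_left h3 2)
        _ = (Nat.card ρ₁.range ^ 2 * 3) * (Nat.card ρ₂.range ^ 2 * 3 ^ r) := by ring
        _ ≤ 3 ^ Nat.card O * 3 ^ Nat.card ↥Oᶜ := Nat.mul_le_mul h1.1 hr3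
        _ = 3 ^ n := by rw [← pow_add, hcard]
    · intro hr0 h13
      have hr00 : r = 0 := by omega
      have hOc0 : Nat.card ↥Oᶜ = 0 := by
        by_contra h
        have := hr2 h
        omega
      have hO13 : Nat.card O = 13 := by omega
      have h5 := h1.2 hO13
      have h6 : Nat.card ρ₂.range ≤ 1 := by
        rw [hr00, hOc0] at hr3
        by_contra hh
        push Not at hh
        have h7 : 1 ^ 2 < Nat.card ρ₂.range ^ 2 := Nat.pow_lt_pow_left hh (by norm_num)
        simp at hr3 h7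
        omega
      calc Nat.card N ≤ Nat.card ρ₁.range * Nat.card ρ₂.range := h3
        _ ≤ 512 * 1 := Nat.mul_le_mul h5 h6
        _ = 512 := by norm_num

theorem FF_seven : FF 7 = 16 := by
  rw [show (7 : ℕ) = 2 * 3 + 1 by norm_num, FF_two_mul_add_one, show (2 * 3 : ℕ) = 6 by norm_num, FF_six]
theorem FF_ten : FF 10 = 256 := by
  rw [show (10 : ℕ) = 2 * 5 by norm_num, FF_two_mul, FF_five]
  norm_num
theorem FF_eleven : FF 11 = 256 := by
  rw [show (11 : ℕ) = 2 * 5 + 1 by norm_num, FF_two_mul_add_one, show (2 * 5 : ℕ) = 10 by norm_num, FF_ten]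
theorem FF_twelve : FF 12 = 1024 := by
  rw [show (12 : ℕ) = 2 * 6 by norm_num, FF_two_mul, FF_six]
  norm_num
theorem FF_thirteen : FF 13 = 1024 := by
  rw [show (13 : ℕ) = 2 * 6 + 1 by norm_num, FF_two_mul_add_one, show (2 * 6 : ℕ) = 12 by norm_num, FF_twelve]
theorem FF_fourteen : FF 14 = 2048 := by
  rw [show (14 : ℕ) = 2 * 7 by norm_num, FF_two_mul, FF_seven]
  norm_num

theorem FF_sq_ge : ∀ n : ℕ, 16 ≤ n → 4 * 3 ^ (n - 1) ≤ FF n ^ 2 := by
  intro n
  induction n using Nat.strong_induction_on with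
  | _ n ih =>
    intro hn
    by_cases h : n < 24
    · have hd : n = 16 ∨ n = 17 ∨ n = 18 ∨ n = 19 ∨ n = 20 ∨ n = 21 ∨ n = 22 ∨ n = 23 := by omega
      rcases hd with rfl | rfl | rfl | rfl | rfl | rfl | rfl | rfl
      · rw [show (16 : ℕ) = 2 * 8 by norm_num, FF_two_mul, FF_eight]
        norm_num
      · rw [show (17 : ℕ) = 2 * 8 + 1 by norm_num, FF_two_mul_add_one, FF_two_mul, FF_eight]
        norm_num
      · rw [show (18 : ℕ) = 2 * 9 by norm_num, FF_two_mul, FF_nine]
        norm_num
      · rw [show (19 : ℕ) = 2 * 9 + 1 by norm_num, FF_two_mul_add_one, FF_two_mul, FF_nine]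
        norm_num
      · rw [show (20 : ℕ) = 2 * 10 by norm_num, FF_two_mul, FF_ten]
        norm_num
      · rw [show (21 : ℕ) = 2 * 10 + 1 by norm_num, FF_two_mul_add_one, FF_two_mul, FF_ten]
        norm_num
      · rw [show (22 : ℕ) = 2 * 11 by norm_num, FF_two_mul, FF_eleven]
        norm_num
      · rw [show (23 : ℕ) = 2 * 11 + 1 by norm_num, FF_two_mul_add_one, FF_two_mul, FF_eleven]
        norm_num
    · obtain ⟨m, rfl⟩ : ∃ m, n = m + 8 := ⟨n - 8, by omega⟩
      have h1 := ih m (by omega) (by omega)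
      have h2 := FF_mul_le 8 m
      rw [FF_eight, show 8 + m = m + 8 by ring] at h2
      have h3 : (128 * FF m) ^ 2 ≤ FF (m + 8) ^ 2 := Nat.pow_le_pow_left h2 2
      have h4 : m + 8 - 1 = (m - 1) + 8 := by omega
      rw [h4, pow_add]
      nlinarith

theorem odd_num (n m r : ℕ) (hn : n % 4 ≠ 3) (h5 : n ≠ 5) (h6 : n ≠ 6) (h9 : n ≠ 9) (h2 : 2 ≤ n)
    (hr1 : r % 2 = n % 2) (hr2 : 1 ≤ r) (hm : m ^ 2 * 3 ^ r ≤ 3 ^ n) (h13 : r = 1 → n = 13 → m ≤ 512) : 2 * m ≤ FF n := by
  have key : ∀ e, e ≤ r → m ^ 2 * 3 ^ e ≤ 3 ^ n := fun e he =>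
    (Nat.mul_le_mul_left _ (Nat.pow_le_pow_right (by norm_num) he)).trans hm
  by_cases hl : 16 ≤ n
  · have h1 := FF_sq_ge n hl
    have h3 := key 1 hr2
    have h4 : 3 ^ n = 3 ^ (n - 1) * 3 := by
      rw [← pow_succ]
      congr 1
      omega
    rw [h4, pow_one] at h3
    have h7 : m ^ 2 ≤ 3 ^ (n - 1) := by omega
    have h8 : (2 * m) ^ 2 ≤ FF n ^ 2 := by nlinarith
    exact (Nat.pow_le_pow_iff_left (by norm_num)).1 h8
  · have hd : n = 2 ∨ n = 4 ∨ n = 8 ∨ n = 10 ∨ n = 12 ∨ n = 13 ∨ n = 14 := by omega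
    rcases hd with rfl | rfl | rfl | rfl | rfl | rfl | rfl
    · have h := key 2 (by omega)
      rw [FF_two]
      norm_num at h
      nlinarith
    · have h := key 2 (by omega)
      rw [FF_four]
      norm_num at h
      nlinarith
    · have h := key 2 (by omega)
      rw [FF_eight]
      norm_num at h
      nlinarith
    · have h := key 2 (by omega)
      rw [FF_ten]
      norm_num at h
      nlinarith
    · have h := key 2 (by omega)
      rw [FF_twelve]
      norm_num at h
      nlinarith
    · rw [FF_thirteen]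
      by_cases hr : r = 1
      · have := h13 hr rfl
        omega
      · have h := key 3 (by omega)
        norm_num at h
        nlinarith
    · have h := key 2 (by omega)
      rw [FF_fourteen]
      norm_num at h
      nlinarith

/-- An involution centralising an odd-order group yields an odd permutation centralising it. -/
theorem exists_odd_of_inv {n : ℕ} (Q : Subgroup (Perm (Fin n))) (hQ : Nat.Coprime 2 (Nat.card Q)) (t : Perm (Fin n))
    (ht2 : t * t = 1) (ht1 : t ≠ 1) (htc : ∀ q ∈ Q, t * q = q * t) :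
    ∃ τ : Perm (Fin n), (∀ q ∈ Q, τ * q = q * τ) ∧ Equiv.Perm.sign τ = -1 := by
  classical
  obtain ⟨y, hy⟩ : ∃ y, t y ≠ y := by
    by_contra h
    push Not at h
    exact ht1 (Equiv.ext h)
  have htt : ∀ z, t (t z) = z := fun z => by
    have := congrArg (fun f : Perm (Fin n) => f z) ht2
    simpa [Equiv.Perm.mul_apply] using this
  have htq : ∀ q ∈ Q, ∀ z, t (q z) = q (t z) := fun q hq z => by
    have := congrArg (fun f : Perm (Fin n) => f z) (htc q hq)
    simpa [Equiv.Perm.mul_apply] using this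
  let O : Set (Fin n) := orb Q y
  have hOinv : ∀ g ∈ Q, ∀ z, g z ∈ O ↔ z ∈ O := orb_inv Q y
  have hOodd : Nat.card O % 2 = 1 := by
    have h := card_orb_dvd Q y
    have h2 : Nat.Coprime 2 (Nat.card O) := Nat.Coprime.coprime_dvd_right h hQ
    exact Nat.odd_iff.1 (Nat.coprime_two_left.1 h2)
  have hnf : ∀ z ∈ O, t z ≠ z := by
    rintro z ⟨q, hq, rfl⟩ h
    apply hy
    have h2 : q (t y) = q y := by rw [← htq q hq, h]
    exact q.injective h2
  have hty : ∀ z ∈ O, t z ∉ O := by
    intro z hz hz'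
    have hy' : t y ∈ O := by
      obtain ⟨q, hq, rfl⟩ := hz
      rw [htq q hq] at hz'
      exact (hOinv q hq _).1 hz'
    have fwd : ∀ w, w ∈ O → t w ∈ O := by
      rintro w ⟨q, hq, rfl⟩
      rw [htq q hq]
      exact (hOinv q hq _).2 hy'
    have hmap : ∀ w, t w ∈ O ↔ w ∈ O := by
      intro w
      constructor
      · intro h
        have := fwd _ h
        rwa [htt] at this
      · exact fwd w
    haveI : Fintype O := Fintype.ofFinite _
    let σ : Perm O := t.subtypePerm (fun w => hmap w)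
    have hσ2 : σ ^ 2 = 1 := by
      ext w
      show ((t (t w.1) : Fin n) : ℕ) = ((w.1 : Fin n) : ℕ)
      rw [htt]
    have hsupp : σ.support = Finset.univ := by
      ext w
      simp only [Equiv.Perm.mem_support, Finset.mem_univ, iff_true]
      intro h
      exact hnf w.1 w.2 (congrArg Subtype.val h)
    have h2 := Equiv.Perm.two_dvd_card_support hσ2
    rw [hsupp, Finset.card_univ, ← Nat.card_eq_fintype_card] at h2
    omega
  let f : Fin n → Fin n := fun z => if z ∈ O ∨ t z ∈ O then t z else z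
  have hf : Function.Involutive f := by
    intro z
    by_cases hz : z ∈ O ∨ t z ∈ O
    · have hz2 : t z ∈ O ∨ t (t z) ∈ O := by
        rw [htt]
        tauto
      simp only [f, if_pos hz, if_pos hz2, htt]
    · simp only [f, if_neg hz]
  let τ : Perm (Fin n) := hf.toPerm
  have hτ : ∀ z, τ z = f z := fun _ => rfl
  refine ⟨τ, ?_, ?_⟩
  · intro q hq
    apply Equiv.ext
    intro z
    show f (q z) = q (f z)
    have hiff : (q z ∈ O ∨ t (q z) ∈ O) ↔ (z ∈ O ∨ t z ∈ O) := by
      rw [htq q hq, hOinv q hq, hOinv q hq]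
    by_cases hz : z ∈ O ∨ t z ∈ O
    · simp only [f, if_pos hz, if_pos (hiff.2 hz), htq q hq]
    · simp only [f, if_neg hz, if_neg (mt hiff.1 hz)]
  · have hτ2 : τ ^ 2 = 1 := by
      apply Equiv.ext
      intro z
      show f (f z) = z
      exact hf z
    have hct : ∀ m ∈ τ.cycleType, m = 2 := by
      intro m hm
      have h1 := Equiv.Perm.two_le_of_mem_cycleType hm
      have h2 := Equiv.Perm.dvd_of_mem_cycleType hm
      have h3 : orderOf τ ∣ 2 := orderOf_dvd_of_pow_eq_one hτ2
      have h4 := Nat.le_of_dvd (by norm_num) (h2.trans h3)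
      omega
    have hrep := Multiset.eq_replicate_card.2 hct
    have hsum := Equiv.Perm.sum_cycleType τ
    let F : Finset (Fin n) := Finset.univ.filter (· ∈ O)
    have hFcard : F.card = Nat.card O := by
      rw [Nat.card_eq_card_toFinset]
      congr 1
      ext w
      simp [F]
    have hsupp : τ.support = F ∪ F.image t := by
      ext w
      simp only [Equiv.Perm.mem_support, Finset.mem_union, Finset.mem_image, F, Finset.mem_filter, Finset.mem_univ, true_and]
      constructor
      · intro h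
        by_cases hw : w ∈ O ∨ t w ∈ O
        · rcases hw with hw | hw
          · exact Or.inl hw
          · exact Or.inr ⟨t w, hw, htt w⟩
        · exfalso
          apply h
          show f w = w
          simp only [f, if_neg hw]
      · rintro (hw | ⟨v, hv, rfl⟩)
        · show f w ≠ w
          simp only [f, if_pos (Or.inl hw : w ∈ O ∨ t w ∈ O)]
          exact hnf w hw
        · show f (t v) ≠ t v
          have h2 : t v ∈ O ∨ t (t v) ∈ O := by
            rw [htt]
            exact Or.inr hv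
          simp only [f, if_pos h2, htt]
          intro h3
          exact hnf v hv h3.symm
    have hdisj : Disjoint F (F.image t) := by
      rw [Finset.disjoint_left]
      intro w hw hw'
      obtain ⟨v, hv, rfl⟩ := Finset.mem_image.1 hw'
      have hv' : v ∈ O := (Finset.mem_filter.1 hv).2
      have hw'' : t v ∈ O := (Finset.mem_filter.1 hw).2
      exact hty v hv' hw''
    have hcard : τ.support.card = 2 * Nat.card O := by
      rw [hsupp, Finset.card_union_of_disjoint hdisj, Finset.card_image_of_injective _ t.injective, hFcard]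
      ring
    have hs : τ.cycleType.sum = Multiset.card τ.cycleType * 2 := by
      conv_lhs => rw [hrep]
      simp
    rw [Equiv.Perm.sign_of_cycleType]
    have hc : Multiset.card τ.cycleType = Nat.card O := by omega
    rw [hs, hc]
    have h9 : Odd (Nat.card O * 2 + Nat.card O) := by
      rw [Nat.odd_iff]
      omega
    exact h9.neg_one_pow

/-- A large `2`-subgroup of the centraliser, when the centraliser has an odd permutation. -/
theorem exists_big_two {n : ℕ} (Q : Subgroup (Perm (Fin n))) (τ : Perm (Fin n)) (hτc : ∀ q ∈ Q, τ * q = q * τ)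
    (hτs : Equiv.Perm.sign τ = -1)
    (P₂ : Subgroup (Perm (Fin n))) (hPp : IsPGroup 2 P₂) (hPc : ∀ a ∈ P₂, ∀ q ∈ Q, a * q = q * a)
    (hPe : ∀ a ∈ P₂, Equiv.Perm.sign a = 1) :
    ∃ S : Subgroup (Perm (Fin n)), IsPGroup 2 S ∧ (∀ a ∈ S, ∀ q ∈ Q, a * q = q * a) ∧ 2 * Nat.card P₂ ≤ Nat.card S := by
  classical
  let C : Subgroup (Perm (Fin n)) := Subgroup.centralizer (Q : Set (Perm (Fin n)))
  have hmemC : ∀ a, a ∈ C ↔ ∀ q ∈ Q, a * q = q * a := by
    intro a
    rw [Subgroup.mem_centralizer_iff]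
    constructor
    · intro h q hq
      exact (h q hq).symm
    · intro h q hq
      exact (h q hq).symm
  let φ : C →* ℤˣ := Equiv.Perm.sign.comp C.subtype
  let H : Subgroup C := φ.ker
  have hφs : Function.Surjective φ := by
    intro u
    rcases Int.units_eq_one_or u with rfl | rfl
    · exact ⟨1, map_one _⟩
    · exact ⟨⟨τ, (hmemC τ).2 hτc⟩, hτs⟩
  have hcardC : Nat.card C = 2 * Nat.card H := by
    have h1 := Subgroup.card_mul_index H
    have h2 : H.index = 2 := by
      show φ.ker.index = 2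
      rw [Subgroup.index_ker, MonoidHom.range_eq_top.2 hφs, Subgroup.card_top, Nat.card_eq_fintype_card]
      rfl
    rw [h2] at h1
    omega
  let ι : H →* Perm (Fin n) := C.subtype.comp H.subtype
  have hι : Function.Injective ι := Subtype.val_injective.comp Subtype.val_injective
  have hPr : P₂ ≤ ι.range := by
    intro a ha
    have h1 : a ∈ C := (hmemC a).2 (hPc a ha)
    exact ⟨⟨⟨a, h1⟩, hPe a ha⟩, rfl⟩
  let P' : Subgroup H := P₂.comap ι
  have hP' : IsPGroup 2 P' := hPp.comap_of_injective ι hι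
  have hcardP' : Nat.card P' = Nat.card P₂ := by
    have h1 : P'.map ι = P₂ := Subgroup.map_comap_eq_self hPr
    conv_rhs => rw [← h1]
    rw [Subgroup.card_map_of_injective hι]
  obtain ⟨R, hR⟩ := hP'.exists_le_sylow
  have hle : Nat.card P₂ ≤ Nat.card R := by
    rw [← hcardP']
    exact Subgroup.card_le_of_le hR
  obtain ⟨SS⟩ := (inferInstance : Nonempty (Sylow 2 C))
  have hSS : Nat.card SS = 2 * Nat.card R := by
    rw [Sylow.card_eq_multiplicity, Sylow.card_eq_multiplicity, hcardC,
      Nat.factorization_mul (by norm_num) Nat.card_pos.ne']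
    simp [Nat.Prime.factorization_self Nat.prime_two, pow_add]
  refine ⟨SS.toSubgroup.map C.subtype, SS.isPGroup'.map _, ?_, ?_⟩
  · rintro _ ⟨s, -, rfl⟩ q hq
    exact (hmemC s.1).1 s.2 q hq
  · rw [Subgroup.card_map_of_injective Subtype.val_injective]
    have h3 : Nat.card SS.toSubgroup = 2 * Nat.card R := hSS
    omega

theorem mul_bound {n : ℕ} (hn : n % 4 ≠ 3) (S Q : Subgroup (Perm (Fin n))) (hSp : IsPGroup 2 S)
    (hQc : Nat.Coprime 2 (Nat.card Q)) (hQn : Group.IsNilpotent Q)
    (hc : ∀ a ∈ S, ∀ q ∈ Q, a * q = q * a) : Nat.card S * Nat.card Q ≤ FF n := by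
  haveI hSn : Group.IsNilpotent S := hSp.isNilpotent
  let f : S × Q →* Perm (Fin n) := MonoidHom.noncommCoprod S.subtype Q.subtype (fun a b => hc a.1 a.2 b.1 b.2)
  have hinj : Function.Injective f := by
    rw [injective_iff_map_eq_one]
    rintro ⟨⟨s, hs⟩, ⟨q, hq⟩⟩ h
    have h1 : s * q = 1 := h
    have hsq : s = q⁻¹ := eq_inv_of_mul_eq_one_left h1
    have hsQ : s ∈ Q := hsq ▸ Q.inv_mem hq
    obtain ⟨k, hk⟩ := (IsPGroup.iff_orderOf.1 hSp) ⟨s, hs⟩
    rw [Subgroup.orderOf_mk] at hk
    have h2 : orderOf s ∣ Nat.card Q := Subgroup.orderOf_dvd_natCard Q hsQ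
    have h3 : orderOf s = 1 := by
      have h4 : Nat.Coprime (orderOf s) (Nat.card Q) := by
        rw [hk]
        exact Nat.Coprime.pow_left k hQc
      exact Nat.Coprime.eq_one_of_dvd h4 h2
    have hs1 : s = 1 := orderOf_eq_one_iff.1 h3
    have hq1 : q = 1 := by
      rw [hs1, one_mul] at h1
      exact h1
    subst hs1
    subst hq1
    rfl
  haveI := hQn
  have hnil : Group.IsNilpotent f.range := nilpotent_of_surjective f.rangeRestrict f.rangeRestrict_surjective
  have h1 := nil_bound n (Fin n) f.range (Nat.card_fin n) hnil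
  have h2 : Nat.card f.range = Nat.card S * Nat.card Q := by
    rw [← Nat.card_prod]
    exact (Nat.card_congr (MonoidHom.ofInjective hinj).toEquiv).symm
  have h3 : HH n = FF n := by
    unfold HH
    rw [if_neg hn]
  rw [← h2, ← h3]
  exact h1

theorem alt_bound_main {n : ℕ} (hn : n % 4 ≠ 3) (h5 : n ≠ 5) (h6 : n ≠ 6) (h9 : n ≠ 9) (h2 : 2 ≤ n)
    (N : Subgroup (Perm (Fin n))) (hN : Group.IsNilpotent N) (hev : ∀ g ∈ N, Equiv.Perm.sign g = 1) :
    2 * Nat.card N ≤ FF n := by
  classical
  obtain ⟨P₂, Q, hPN, hQN, hPp, hQc, hcomm, hdec⟩ := Carter.nilp_decomp_sub 2 N hN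
  have hNle : Nat.card N ≤ Nat.card P₂ * Nat.card Q := by
    rw [← Nat.card_prod]
    refine Nat.card_le_card_of_surjective (fun z : P₂ × Q => (⟨z.1.1 * z.2.1, N.mul_mem (hPN z.1.2) (hQN z.2.2)⟩ : N)) ?_
    rintro ⟨t, ht⟩
    obtain ⟨u, hu, v, hv, rfl⟩ := hdec t ht
    exact ⟨(⟨u, hu⟩, ⟨v, hv⟩), rfl⟩
  have hQnil : Group.IsNilpotent Q := Carter.nilp_of_le hQN hN
  by_cases hτ : ∃ τ : Perm (Fin n), (∀ q ∈ Q, τ * q = q * τ) ∧ Equiv.Perm.sign τ = -1
  · obtain ⟨τ, hτc, hτs⟩ := hτ
    obtain ⟨S, hSp, hSc, hScard⟩ := exists_big_two Q τ hτc hτs P₂ hPp hcomm (fun a ha => hev a (hPN ha))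
    have h1 := mul_bound hn S Q hSp hQc hQnil hSc
    calc 2 * Nat.card N ≤ 2 * (Nat.card P₂ * Nat.card Q) := Nat.mul_le_mul_left _ hNle
      _ = (2 * Nat.card P₂) * Nat.card Q := by ring
      _ ≤ Nat.card S * Nat.card Q := Nat.mul_le_mul_right _ hScard
      _ ≤ FF n := h1
  · have hP1 : Nat.card P₂ = 1 := by
      obtain ⟨m, hm⟩ := IsPGroup.iff_card.1 hPp
      rcases m with _ | m
      · simpa using hm
      · exfalso
        have hd : 2 ∣ Nat.card P₂ := by
          rw [hm]
          exact dvd_pow_self 2 (Nat.succ_ne_zero m)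
        obtain ⟨x, hx⟩ := exists_prime_orderOf_dvd_card' 2 hd
        have hx1 : x.1 * x.1 = 1 := by
          have h3 : x ^ 2 = 1 := by
            rw [← hx]
            exact pow_orderOf_eq_one x
          have h4 : x * x = 1 := by
            rw [← pow_two]
            exact h3
          exact congrArg Subtype.val h4
        have hxne : x.1 ≠ 1 := by
          intro h
          have h3 : x = 1 := Subtype.ext h
          rw [h3, orderOf_one] at hx
          omega
        exact hτ (exists_odd_of_inv Q hQc x.1 hx1 hxne (fun q hq => hcomm x.1 x.2 q hq))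
    obtain ⟨r, hr1, hr2, hr3, hr4⟩ := odd_bound n (Fin n) Q (Nat.card_fin n) hQnil hQc
    have h3 := odd_num n (Nat.card Q) r hn h5 h6 h9 h2 hr1 (hr2 (by omega)) hr3 hr4
    rw [hP1, one_mul] at hNle
    omega

theorem card_sylow_alt (n : ℕ) (h2 : 2 ≤ n) (P : Sylow 2 (alternatingGroup (Fin n))) : FF n = 2 * Nat.card P := by
  haveI : Nontrivial (Fin n) := Fin.nontrivial_iff_two_le.2 h2
  have h1 : 2 * Nat.card (alternatingGroup (Fin n)) = n.factorial := by
    rw [two_mul_nat_card_alternatingGroup, Nat.card_perm, Nat.card_eq_fintype_card, Fintype.card_fin]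
  rw [Sylow.card_eq_multiplicity, Nat.factorization_def _ Nat.prime_two]
  unfold FF
  rw [← h1, padicValNat.mul (by norm_num) Nat.card_pos.ne', padicValNat_self, pow_add, pow_one]

theorem alt_bound (n : ℕ) (hn : n % 4 ≠ 3) (h5 : n ≠ 5) (h6 : n ≠ 6) (h9 : n ≠ 9)
    (N : Subgroup (alternatingGroup (Fin n))) (hN : Group.IsNilpotent N)
    (P : Sylow 2 (alternatingGroup (Fin n))) : Nat.card N ≤ Nat.card P := by
  by_cases h2 : 2 ≤ n
  · let N' : Subgroup (Perm (Fin n)) := N.map (alternatingGroup (Fin n)).subtype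
    have hc : Nat.card N' = Nat.card N := Subgroup.card_map_of_injective Subtype.val_injective
    have hnil : Group.IsNilpotent N' := by
      haveI := hN
      exact nilpotent_of_surjective ((alternatingGroup (Fin n)).subtype.subgroupMap N) (MonoidHom.subgroupMap_surjective _ _)
    have hev : ∀ g ∈ N', Equiv.Perm.sign g = 1 := by
      rintro _ ⟨g, -, rfl⟩
      exact g.2
    have h1 := alt_bound_main hn h5 h6 h9 h2 N' hnil hev
    have h3 := card_sylow_alt n h2 P
    rw [hc] at h1
    omega
  · have h1 : Nat.card N ≤ Nat.card (alternatingGroup (Fin n)) := Subgroup.card_le_card_group N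
    have h3 : Nat.card (alternatingGroup (Fin n)) ≤ Nat.card (Perm (Fin n)) := Subgroup.card_le_card_group _
    rw [Nat.card_perm, Nat.card_fin] at h3
    have h4 : n.factorial = 1 := by
      have : n = 0 ∨ n = 1 := by omega
      rcases this with rfl | rfl <;> rfl
    have h7 : 0 < Nat.card P := Nat.card_pos
    omega

end Cfsg.Agent.Lib.NilpAlt
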