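/-
Nilpotent subgroups of largest order of the symmetric group on `n ≡ 3 (mod 4)` letters.
-/
import Mathlib
import Cfsg.Agent.Lib.NilpSym

set_option autoImplicit false
set_option linter.all false

noncomputable section

namespace Cfsg.Agent.Lib.NilpSym3

open Equiv (Perm)
open Cfsg.Agent.Lib Cfsg.Agent.Lib.NilpSym
open scoped Pointwise

theorem FF_strict {n k : ℕ} (hn : n % 4 = 3) (hk : 2 ≤ k) (h3 : 3 * k ≤ n) : FF (n - 3 * k) * FF k < FF (n - 3) := by
  by_cases hk2 : k = 2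
  · subst hk2
    have h1 := FF_add_three (n - 3 * 2) (by omega)
    rw [show n - 3 * 2 + 3 = n - 3 by omega] at h1
    rw [FF_two]
    have := FF_pos (n - 3 * 2)
    omega
  · have hk3 : 3 ≤ k := by omega
    have h1 := FF_mul_le (n - 3 * k) k
    have h2 := FF_mul_le (n - 3 * k + k) (2 * k - 3)
    rw [show n - 3 * k + k + (2 * k - 3) = n - 3 by omega] at h2
    have h3' : FF 3 ≤ FF (2 * k - 3) := FF_mono (by omega)
    rw [FF_three] at h3'
    have h4 := FF_pos (n - 3 * k)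
    have h5 := FF_pos k
    have h6 : 0 < FF (n - 3 * k) * FF k := by positivity
    have h7 : FF (n - 3 * k) * FF k * 2 ≤ FF (n - 3) := by
      calc FF (n - 3 * k) * FF k * 2 ≤ FF (n - 3 * k + k) * FF (2 * k - 3) := Nat.mul_le_mul h1 h3'
        _ ≤ _ := h2
    omega

/-- The shape of a nilpotent group of largest order. -/
theorem structure_lemma {n : ℕ} (hn4 : n % 4 = 3) (N : Subgroup (Perm (Fin n))) (hN : Group.IsNilpotent N)
    (hc : Nat.card N = 3 * FF (n - 3)) :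
    ∃ (x : Perm (Fin n)) (P : Subgroup (Perm (Fin n))), x ∈ N ∧ x.cycleType = {3} ∧ P ≤ N ∧ IsPGroup 2 P ∧
      Nat.card P = FF (n - 3) ∧ (∀ t ∈ P, ∀ y, x y ≠ y → t y = y) ∧ ∀ t ∈ N, ∃ a ∈ P, ∃ i : ℕ, t = a * x ^ i := by
  classical
  haveI : Fact (Nat.Prime 3) := ⟨Nat.prime_three⟩
  obtain ⟨P, Q, hPN, hQN, hPp, hQc, hcomm, hdec⟩ := Carter.nilp_decomp_sub 2 N hN
  obtain ⟨e, he⟩ := IsPGroup.iff_card.1 hPp
  have hle : Nat.card N ≤ Nat.card P * Nat.card Q := by
    rw [← Nat.card_prod]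
    refine Nat.card_le_card_of_surjective (fun z : P × Q => (⟨z.1.1 * z.2.1, N.mul_mem (hPN z.1.2) (hQN z.2.2)⟩ : N)) ?_
    rintro ⟨t, ht⟩
    obtain ⟨u, hu, v, hv, rfl⟩ := hdec t ht
    exact ⟨(⟨u, hu⟩, ⟨v, hv⟩), rfl⟩
  have hcop : Nat.Coprime (Nat.card P) (Nat.card Q) := by
    rw [he]
    exact Nat.Coprime.pow_left e hQc
  have hge : Nat.card P * Nat.card Q ∣ Nat.card N :=
    Nat.Coprime.mul_dvd_of_dvd_of_dvd hcop (Subgroup.card_dvd_of_le hPN) (Subgroup.card_dvd_of_le hQN)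
  have hNpos : 0 < Nat.card N := Nat.card_pos
  have heq : Nat.card P * Nat.card Q = Nat.card N := le_antisymm (Nat.le_of_dvd hNpos hge) hle
  obtain ⟨f, hf⟩ : ∃ f, FF (n - 3) = 2 ^ f := ⟨_, rfl⟩
  rw [hc, hf, he] at heq
  have he1 : e ≤ f := by
    have h1 : 2 ^ e ∣ 3 * 2 ^ f := ⟨Nat.card Q, heq.symm⟩
    have h2 : Nat.Coprime (2 ^ e) 3 := Nat.Coprime.pow_left e (by norm_num)
    have h3 := h2.dvd_of_dvd_mul_left h1
    exact (Nat.pow_dvd_pow_iff_le_right (by norm_num)).1 h3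
  have he2 : f ≤ e := by
    have h1 : 2 ^ f ∣ 2 ^ e * Nat.card Q := ⟨3, by rw [heq, mul_comm]⟩
    have h2 : Nat.Coprime (2 ^ f) (Nat.card Q) := Nat.Coprime.pow_left f hQc
    have h3 := h2.dvd_of_dvd_mul_right h1
    exact (Nat.pow_dvd_pow_iff_le_right (by norm_num)).1 h3
  have hef : e = f := le_antisymm he1 he2
  subst hef
  have hQ3 : Nat.card Q = 3 := by
    have h1 : 0 < 2 ^ e := by positivity
    have h2 : 2 ^ e * Nat.card Q = 2 ^ e * 3 := by rw [heq, mul_comm]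
    exact Nat.eq_of_mul_eq_mul_left h1 h2
  obtain ⟨x₀, hx₀⟩ := exists_prime_orderOf_dvd_card' (G := Q) 3 (by rw [hQ3])
  obtain ⟨x, hxdef⟩ : ∃ x : Perm (Fin n), x = x₀.1 := ⟨_, rfl⟩
  have hxQ : x ∈ Q := by
    rw [hxdef]
    exact x₀.2
  have hxo : orderOf x = 3 := by
    rw [hxdef, ← hx₀]
    exact Subgroup.orderOf_coe x₀
  have hQz : Subgroup.zpowers x = Q := by
    apply Subgroup.eq_of_le_of_card_ge
    · rw [Subgroup.zpowers_le]
      exact hxQ
    · rw [Nat.card_zpowers, hxo, hQ3]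
  obtain ⟨m, hm⟩ := Equiv.Perm.cycleType_prime_order (σ := x) (by rw [hxo]; exact Nat.prime_three)
  rw [hxo] at hm
  have hPC : P ≤ Subgroup.centralizer ({x} : Set (Perm (Fin n))) := by
    intro t ht
    rw [Subgroup.mem_centralizer_iff]
    intro h hh
    rw [Set.mem_singleton_iff] at hh
    rw [hh]
    exact (hcomm t ht x hxQ).symm
  have hC := Equiv.Perm.nat_card_centralizer x
  have hsum : x.cycleType.sum = (m + 1) * 3 := by
    rw [hm, Multiset.sum_replicate, smul_eq_mul]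
  have hprod : x.cycleType.prod = 3 ^ (m + 1) := by
    rw [hm, Multiset.prod_replicate]
  have hfin : ∏ j ∈ x.cycleType.toFinset, (x.cycleType.count j).factorial = (m + 1).factorial := by
    rw [hm, Multiset.toFinset_replicate, if_neg (by omega)]
    simp
  rw [hsum, hprod, hfin, Fintype.card_fin] at hC
  have hle3 : (m + 1) * 3 ≤ n := by
    have := Equiv.Perm.sum_cycleType_le x
    rwa [hsum, Fintype.card_fin] at this
  have hdvd : 2 ^ e ∣ (n - (m + 1) * 3).factorial * 3 ^ (m + 1) * (m + 1).factorial := by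
    rw [← hC, ← he]
    exact Subgroup.card_dvd_of_le hPC
  have hval : e ≤ padicValNat 2 (n - (m + 1) * 3).factorial + padicValNat 2 (m + 1).factorial := by
    have h1 := (padicValNat_dvd_iff_le (p := 2) (by positivity)).1 hdvd
    have h3p : padicValNat 2 (3 ^ (m + 1)) = 0 := padicValNat.eq_zero_of_not_dvd (fun h => by
      have := Nat.prime_two.dvd_of_dvd_pow h
      omega)
    rw [padicValNat.mul (by positivity) (Nat.factorial_ne_zero _), padicValNat.mul (Nat.factorial_ne_zero _) (by positivity),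
      h3p] at h1
    omega
  have hm0 : m = 0 := by
    by_contra hne
    have h2 := FF_strict (k := m + 1) hn4 (by omega) (by omega)
    rw [show 3 * (m + 1) = (m + 1) * 3 by ring] at h2
    have h3 : FF (n - 3) ≤ FF (n - (m + 1) * 3) * FF (m + 1) := by
      rw [hf]
      unfold FF
      rw [← pow_add]
      exact Nat.pow_le_pow_right (by norm_num) hval
    omega
  subst hm0
  have hcyc : x.IsCycle := by
    rw [← Equiv.Perm.card_cycleType_eq_one, hm]
    simp
  have hsupp : x.support.card = 3 := by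
    rw [← Equiv.Perm.sum_cycleType, hsum]
  have hxS : ∀ g ∈ P, ∀ y, g y ∈ (x.support : Set (Fin n)) ↔ y ∈ (x.support : Set (Fin n)) := by
    intro g hg y
    simp only [Finset.mem_coe, Equiv.Perm.mem_support]
    have h1 : x * g = g * x := hcomm g hg x hxQ ▸ (hcomm g hg x hxQ).symm ▸ (hcomm g hg x hxQ).symm
    have h2 : x (g y) = g (x y) := congrArg (fun f : Perm (Fin n) => f y) h1
    rw [h2]
    exact not_congr g.injective.eq_iff
  letI : MulAction P (x.support : Set (Fin n)) := MulAction.compHom _ (resHom P (x.support : Set (Fin n)) hxS)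
  have hodd : ¬ 2 ∣ Nat.card (x.support : Set (Fin n)) := by
    rw [Nat.card_coe_set_eq, Set.ncard_coe_finset, hsupp]
    norm_num
  obtain ⟨y₀, hy₀⟩ := hPp.nonempty_fixed_point_of_prime_not_dvd_card _ hodd
  have hy₀' : ∀ t ∈ P, t y₀.1 = y₀.1 := by
    intro t ht
    have := hy₀ ⟨t, ht⟩
    exact congrArg Subtype.val this
  have hy₀x : x y₀.1 ≠ y₀.1 := by
    exact Equiv.Perm.mem_support.1 (Finset.mem_coe.1 y₀.2)
  refine ⟨x, P, hQN hxQ, ?_, hPN, hPp, ?_, ?_, ?_⟩
  · rw [hm]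
    rfl
  · rw [he, hf]
  · intro t ht y hy
    obtain ⟨i, hi⟩ := hcyc.exists_pow_eq hy₀x hy
    have h1 : Commute t (x ^ i) := Commute.pow_right (hcomm t ht x hxQ) i
    rw [← hi]
    have h2 := congrArg (fun f : Perm (Fin n) => f y₀.1) h1.eq
    simp only [Equiv.Perm.mul_apply] at h2
    rw [h2, hy₀' t ht]
  · intro t ht
    obtain ⟨u, hu, v, hv, rfl⟩ := hdec t ht
    rw [← hQz] at hv
    have hv' := mem_powers_iff_mem_zpowers.2 hv
    obtain ⟨i, hi⟩ := (Submonoid.mem_powers_iff _ _).1 hv'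
    exact ⟨u, hu, i, by rw [hi]⟩

/-- Subgroup fixing the moved points of a permutation. -/
def fixG {n : ℕ} (x : Perm (Fin n)) : Subgroup (Perm (Fin n)) where
  carrier := {f | ∀ y, x y ≠ y → f y = y}
  mul_mem' := by
    intro a b ha hb y hy
    show a (b y) = y
    rw [hb y hy, ha y hy]
  one_mem' := fun y _ => rfl
  inv_mem' := by
    intro a ha y hy
    show a⁻¹ y = y
    rw [Equiv.Perm.inv_eq_iff_eq]
    exact (ha y hy).symm

theorem card_fixG {n : ℕ} (x : Perm (Fin n)) (hx : x.cycleType = {3}) : Nat.card (fixG x) = (n - 3).factorial := by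
  classical
  have h1 : Nat.card (fixG x) = Nat.card (Perm {a : Fin n // x a = a}) := by
    symm
    refine Nat.card_congr ((Equiv.Perm.subtypeEquivSubtypePerm (fun a => x a = a)).trans ?_)
    exact Equiv.subtypeEquivRight (fun f => by
      show _ ↔ ∀ y, x y ≠ y → f y = y
      exact Iff.rfl)
  rw [h1, Nat.card_perm]
  congr 1
  have h2 : Nat.card {a : Fin n // x a = a} = Fintype.card {a : Fin n // ¬ (a ∈ x.support)} := by
    rw [Nat.card_eq_fintype_card]
    apply Fintype.card_congr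
    exact Equiv.subtypeEquivRight (fun a => by simp [Equiv.Perm.mem_support])
  rw [h2, Fintype.card_subtype_compl, Fintype.card_coe, Fintype.card_fin, ← Equiv.Perm.sum_cycleType, hx]
  simp

theorem comm_fixG {n : ℕ} (x : Perm (Fin n)) {h : Perm (Fin n)} (hh : h ∈ fixG x) : h * x = x * h := by
  ext y
  simp only [Equiv.Perm.mul_apply]
  by_cases hy : x y = y
  · have h1 : x (h y) = h y := by
      by_contra h2
      have h3 := hh (h y) h2
      have h4 : h y = y := h.injective h3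
      rw [h4] at h2
      exact h2 hy
    rw [hy, h1]
  · have h1 : x (x y) ≠ x y := fun h2 => hy (x.injective h2)
    rw [hh (x y) h1, hh y hy]

theorem cardSub {G : Type*} [Group G] {A B : Subgroup G} (h : A ≤ B) : Nat.card (A.subgroupOf B) = Nat.card A :=
  Nat.card_congr (Subgroup.subgroupOfEquivOfLe h).toEquiv

/-- Uniqueness up to conjugacy. -/
theorem conj_lemma {n : ℕ} (hn4 : n % 4 = 3) (N₁ N₂ : Subgroup (Perm (Fin n))) (h₁ : Group.IsNilpotent N₁) (h₂ : Group.IsNilpotent N₂)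
    (hc₁ : Nat.card N₁ = 3 * FF (n - 3)) (hc₂ : Nat.card N₂ = 3 * FF (n - 3)) :
    ∃ g : Perm (Fin n), N₂ = N₁.map (MulAut.conj g).toMonoidHom := by
  classical
  obtain ⟨x₁, P₁, hx₁N, hx₁c, hP₁N, hP₁p, hP₁c, hP₁f, hN₁d⟩ := structure_lemma hn4 N₁ h₁ hc₁
  obtain ⟨x₂, P₂, hx₂N, hx₂c, hP₂N, hP₂p, hP₂c, hP₂f, hN₂d⟩ := structure_lemma hn4 N₂ h₂ hc₂
  have hconj : IsConj x₁ x₂ := Equiv.Perm.isConj_iff_cycleType_eq.2 (by rw [hx₁c, hx₂c])
  obtain ⟨g₀, hg₀⟩ := isConj_iff.1 hconj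
  let H := fixG x₂
  have hH : Nat.card H = (n - 3).factorial := card_fixG x₂ hx₂c
  let P₁' : Subgroup (Perm (Fin n)) := P₁.map (MulAut.conj g₀).toMonoidHom
  have hP₁'H : P₁' ≤ H := by
    rintro _ ⟨t, ht, rfl⟩ y hy
    show g₀ (t (g₀⁻¹ y)) = y
    have h1 : x₁ (g₀⁻¹ y) ≠ g₀⁻¹ y := by
      intro h2
      apply hy
      rw [← hg₀]
      show g₀ (x₁ (g₀⁻¹ y)) = y
      rw [h2]
      simp
    rw [hP₁f t ht _ h1]
    simp
  have hP₂H : P₂ ≤ H := fun t ht y hy => hP₂f t ht y hy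
  have hcard₁' : Nat.card P₁' = FF (n - 3) := by
    rw [Subgroup.card_map_of_injective (MulAut.conj g₀).injective, hP₁c]
  have hfac : FF (n - 3) = 2 ^ (Nat.card H).factorization 2 := by
    rw [hH, Nat.factorization_def _ Nat.prime_two]
    rfl
  let S₁ : Sylow 2 H := Sylow.ofCard (P₁'.subgroupOf H) (by
    rw [cardSub hP₁'H, hcard₁', hfac])
  let S₂ : Sylow 2 H := Sylow.ofCard (P₂.subgroupOf H) (by
    rw [cardSub hP₂H, hP₂c, hfac])
  obtain ⟨h, hh⟩ := MulAction.exists_smul_eq H S₁ S₂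
  have hmem : ∀ a ∈ P₁', (h.1 * a * h.1⁻¹) ∈ P₂ := by
    intro a ha
    have h1 : (⟨a, hP₁'H ha⟩ : H) ∈ (S₁ : Subgroup H) := ha
    have h2 : MulAut.conj h • (⟨a, hP₁'H ha⟩ : H) ∈ MulAut.conj h • (S₁ : Subgroup H) :=
      Subgroup.smul_mem_pointwise_smul _ _ _ h1
    have h3 : ((h • S₁ : Sylow 2 H) : Subgroup H) = MulAut.conj h • (S₁ : Subgroup H) := rfl
    rw [← h3, hh] at h2
    exact h2
  refine ⟨h.1 * g₀, ?_⟩
  symm
  apply Subgroup.eq_of_le_of_card_ge
  · rintro _ ⟨t, ht, rfl⟩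
    obtain ⟨a, ha, i, rfl⟩ := hN₁d t ht
    have e1 : (MulAut.conj (h.1 * g₀)).toMonoidHom (a * x₁ ^ i) =
        (h.1 * (g₀ * a * g₀⁻¹) * h.1⁻¹) * (h.1 * (g₀ * x₁ ^ i * g₀⁻¹) * h.1⁻¹) := by
      show (h.1 * g₀) * (a * x₁ ^ i) * (h.1 * g₀)⁻¹ = _
      group
    rw [e1]
    have e2 : g₀ * x₁ ^ i * g₀⁻¹ = x₂ ^ i := by
      rw [← hg₀]
      exact (conj_pow).symm
    have e3 : h.1 * x₂ ^ i * h.1⁻¹ = x₂ ^ i := by
      have h1 : Commute h.1 x₂ := comm_fixG x₂ h.2
      rw [(h1.pow_right i).eq, mul_inv_cancel_right]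
    rw [e2, e3]
    exact N₂.mul_mem (hP₂N (hmem _ ⟨a, ha, rfl⟩)) (N₂.pow_mem hx₂N i)
  · rw [Subgroup.card_map_of_injective (MulAut.conj _).injective, hc₁, hc₂]

/-- The extremal subgroup. -/
theorem exists_attain {n : ℕ} (hn4 : n % 4 = 3) (P : Sylow 2 (Perm (Fin (n - 3)))) :
    ∃ M : Subgroup (Perm (Fin n)), Group.IsNilpotent M ∧ Nat.card M = 3 * Nat.card P ∧
      Nonempty (M ≃* (↥(P : Subgroup (Perm (Fin (n - 3)))) × Multiplicative (ZMod 3))) := by
  classical
  haveI : Fact (Nat.Prime 3) := ⟨Nat.prime_three⟩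
  have hn3 : n - 3 + 3 = n := by omega
  have h36 : 3 ∣ Nat.card (Perm (Fin 3)) := by
    rw [Nat.card_perm, Nat.card_fin]
    decide
  obtain ⟨c, hc⟩ := exists_prime_orderOf_dvd_card' 3 h36
  have hcardC : Nat.card (Subgroup.zpowers c) = 3 := by
    rw [Nat.card_zpowers, hc]
  let e₁ : Multiplicative (ZMod 3) ≃* Subgroup.zpowers c :=
    (AddEquiv.toMultiplicative (ZMod.ringEquivCongr hcardC.symm).toAddEquiv).trans
      (zmodCyclicMulEquiv inferInstance)
  let f₃ : Multiplicative (ZMod 3) →* Perm (Fin 3) := (Subgroup.zpowers c).subtype.comp e₁.toMonoidHom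
  have hf₃ : Function.Injective f₃ := (Subgroup.subtype_injective _).comp e₁.injective
  let e : Fin (n - 3) ⊕ Fin 3 ≃ Fin n := finSumFinEquiv.trans (finCongr hn3)
  let κ : Perm (Fin (n - 3) ⊕ Fin 3) →* Perm (Fin n) :=
    { toFun := fun z => e.symm.trans (z.trans e)
      map_one' := by
        ext y
        simp
      map_mul' := by
        intro a b
        ext y
        simp }
  have hκ : Function.Injective κ := by
    intro a b h
    ext y
    have h1 := congrArg (fun f : Perm (Fin n) => f (e y)) h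
    have h2 : a y = b y := by
      apply e.injective
      simpa [κ] using h1
    rw [h2]
  let ι : ↥(P : Subgroup (Perm (Fin (n - 3)))) × Multiplicative (ZMod 3) →* Perm (Fin n) :=
    κ.comp ((Equiv.Perm.sumCongrHom _ _).comp (MonoidHom.prodMap (P : Subgroup (Perm (Fin (n - 3)))).subtype f₃))
  have hι : Function.Injective ι := by
    apply hκ.comp
    apply Equiv.Perm.sumCongrHom_injective.comp
    rintro ⟨a, b⟩ ⟨a', b'⟩ h
    have h1 := Prod.mk.inj h
    rw [Prod.mk.injEq]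
    exact ⟨Subtype.ext h1.1, hf₃ h1.2⟩
  refine ⟨ι.range, ?_, ?_, ⟨(MonoidHom.ofInjective hι).symm⟩⟩
  · haveI : Group.IsNilpotent ↥(P : Subgroup (Perm (Fin (n - 3)))) := P.isPGroup'.isNilpotent
    exact nilpotent_of_surjective ι.rangeRestrict ι.rangeRestrict_surjective
  · rw [← Nat.card_congr (MonoidHom.ofInjective hι).toEquiv, Nat.card_prod, mul_comm]
    congr 1
    rw [Nat.card_congr Multiplicative.toAdd, Nat.card_zmod]

end Cfsg.Agent.Lib.NilpSym3
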