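/-
Nilpotent subgroups of largest order of the alternating group on `n ≡ 3 (mod 4)` letters.
-/
import Mathlib
import Cfsg.Agent.Lib.NilpAlt
import Cfsg.Agent.Lib.NilpSym3

set_option autoImplicit false
set_option linter.all false

noncomputable section

namespace Cfsg.Agent.Lib.NilpAlt3

open Equiv (Perm)
open Cfsg.Agent.Lib Cfsg.Agent.Lib.NilpSym Cfsg.Agent.Lib.NilpAlt

theorem num_add_one {a b c : ℕ} (hb : 2 ≤ b) (hc : 2 ≤ c) (h : b * c ≤ a) (ha : 7 ≤ a) : b + c + 1 ≤ a := by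
  obtain ⟨b', rfl⟩ := Nat.exists_eq_add_of_le hb
  obtain ⟨c', rfl⟩ := Nat.exists_eq_add_of_le hc
  have e : (2 + b') * (2 + c') = b' * c' + 2 * b' + 2 * c' + 4 := by ring
  rw [e] at h
  omega

theorem odd_trans2 (a : ℕ) (Ω : Type) [Finite Ω] (T : Subgroup (Perm Ω)) (ha : Nat.card Ω = a) (h711 : a = 7 ∨ a = 11 ∨ a = 15)
    (hnil : Group.IsNilpotent T) (htr : ∀ x y, ∃ g ∈ T, g x = y) (hcop : Nat.Coprime 2 (Nat.card T)) :
    Nat.card T ^ 2 * 27 ≤ 3 ^ a := by
  classical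
  have ha1 : 7 ≤ a := by omega
  have hne : Nonempty Ω := by
    by_contra hh
    rw [not_nonempty_iff] at hh
    have h2 : Nat.card Ω = 0 := Nat.card_of_isEmpty
    omega
  obtain ⟨x⟩ := hne
  haveI : Nonempty Ω := ⟨x⟩
  have hapos : 0 < a := by omega
  by_cases hP : ∃ p : ℕ, p.Prime ∧ IsPGroup p T
  · obtain ⟨p, hp, hT⟩ := hP
    haveI : Fact p.Prime := ⟨hp⟩
    have h1 := pgroup_bound T hT
    rw [ha] at h1
    obtain ⟨k, hk⟩ := card_eq_pow T hT x htr
    rw [ha] at hk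
    have hk0 : k ≠ 0 := by
      rintro rfl
      rcases h711 with rfl | rfl | rfl <;> simp at hk
    have hpd : p ∣ a := by
      rw [hk]
      exact dvd_pow_self p hk0
    rcases h711 with rfl | rfl | rfl
    · have hp7 : p = 7 := (Nat.prime_dvd_prime_iff_eq hp (by norm_num)).1 hpd
      subst hp7
      have hv := val_le (p := 7) 7 (by norm_num)
      have hv' : 6 * padicValNat 7 (Nat.factorial 7) ≤ 6 := by simpa using hv
      have hν1 : padicValNat 7 (Nat.factorial 7) ≤ 1 := by omega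
      have h5 : 7 ^ padicValNat 7 (Nat.factorial 7) ≤ 7 ^ 1 := Nat.pow_le_pow_right (by norm_num) hν1
      have h6 : Nat.card T ≤ 7 := by omega
      norm_num
      nlinarith
    · have hp7 : p = 11 := (Nat.prime_dvd_prime_iff_eq hp (by norm_num)).1 hpd
      subst hp7
      have hv := val_le (p := 11) 11 (by norm_num)
      have hv' : 10 * padicValNat 11 (Nat.factorial 11) ≤ 10 := by simpa using hv
      have hν1 : padicValNat 11 (Nat.factorial 11) ≤ 1 := by omega
      have h5 : 11 ^ padicValNat 11 (Nat.factorial 11) ≤ 11 ^ 1 := Nat.pow_le_pow_right (by norm_num) hν1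
      have h6 : Nat.card T ≤ 11 := by omega
      norm_num
      nlinarith
    · exfalso
      have h35 : p = 3 ∨ p = 5 := by
        have h2 : p ∣ 3 * 5 := hpd
        rcases (Nat.Prime.dvd_mul hp).1 h2 with h3 | h3
        · exact Or.inl ((Nat.prime_dvd_prime_iff_eq hp (by norm_num)).1 h3)
        · exact Or.inr ((Nat.prime_dvd_prime_iff_eq hp (by norm_num)).1 h3)
      rcases h35 with rfl | rfl
      · have h3 : k < 3 := by
          by_contra hh
          have h4 : 3 ^ 3 ≤ 3 ^ k := Nat.pow_le_pow_right (by norm_num) (by omega)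
          omega
        interval_cases k <;> omega
      · have h3 : k < 2 := by
          by_contra hh
          have h4 : 5 ^ 2 ≤ 5 ^ k := Nat.pow_le_pow_right (by norm_num) (by omega)
          omega
        interval_cases k <;> omega
  · push Not at hP
    have hT1 : Nat.card T ≠ 1 := fun h => hP 2 Nat.prime_two (IsPGroup.of_card (n := 0) (by simpa using h))
    obtain ⟨p, hp, hpT⟩ := Nat.exists_prime_and_dvd hT1
    haveI : Fact p.Prime := ⟨hp⟩
    obtain ⟨P, Q, hPT, hQT, hPp, hQc, hcomm, hdec⟩ := Carter.nilp_decomp_sub p T hnil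
    have hQ1 : Nat.card Q ≠ 1 := by
      intro h
      apply hP p hp
      have h2 : T ≤ P := by
        intro t ht
        obtain ⟨u, hu, v, hv, rfl⟩ := hdec t ht
        have h3 : Q = ⊥ := Subgroup.eq_bot_of_card_eq Q h
        rw [h3, Subgroup.mem_bot] at hv
        rw [hv, mul_one]
        exact hu
      exact hPp.to_le h2
    have hP1 : Nat.card P ≠ 1 := by
      intro h
      have h2 : T ≤ Q := by
        intro t ht
        obtain ⟨u, hu, v, hv, rfl⟩ := hdec t ht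
        have h3 : P = ⊥ := Subgroup.eq_bot_of_card_eq P h
        rw [h3, Subgroup.mem_bot] at hu
        rw [hu, one_mul]
        exact hv
      have h3 := Subgroup.card_dvd_of_le h2
      have h4 := hpT.trans h3
      have h5 : Nat.Coprime p p := Nat.Coprime.coprime_dvd_right h4 hQc
      rw [Nat.coprime_self] at h5
      exact hp.one_lt.ne' h5
    -- faithfulness on the orbits
    have hyrep : ∀ y : Ω, ∃ u ∈ P, ∃ v ∈ Q, y = (u * v) x := by
      intro y
      obtain ⟨t, ht, e⟩ := htr x y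
      obtain ⟨u, hu, v, hv, rfl⟩ := hdec t ht
      exact ⟨u, hu, v, hv, e.symm⟩
    have hinjP : Function.Injective (orbHom P x) := by
      rw [injective_iff_map_eq_one]
      rintro ⟨u, hu⟩ h1
      apply Subtype.ext
      apply Equiv.ext
      intro y
      obtain ⟨a', ha', v, hv, rfl⟩ := hyrep y
      have h2 : u (a' x) = a' x := by
        have h3 := congrArg (fun f : Perm (orb P x) => ((f ⟨a' x, a', ha', rfl⟩ : orb P x) : Ω)) h1
        exact h3
      have h4 : u * (a' * v) = v * (u * a') := by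
        rw [← mul_assoc, hcomm (u * a') (P.mul_mem hu ha') v hv]
      show (u * (a' * v)) x = (a' * v) x
      rw [h4, Equiv.Perm.mul_apply, Equiv.Perm.mul_apply, h2, ← Equiv.Perm.mul_apply, ← hcomm a' ha' v hv]
    have hinjQ : Function.Injective (orbHom Q x) := by
      rw [injective_iff_map_eq_one]
      rintro ⟨u, hu⟩ h1
      apply Subtype.ext
      apply Equiv.ext
      intro y
      obtain ⟨a', ha', v, hv, rfl⟩ := hyrep y
      have h2 : u (v x) = v x := by
        have h3 := congrArg (fun f : Perm (orb Q x) => ((f ⟨v x, v, hv, rfl⟩ : orb Q x) : Ω)) h1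
        exact h3
      show (u * (a' * v)) x = (a' * v) x
      calc (u * (a' * v)) x = (a' * (u * v)) x := by rw [← mul_assoc, ← hcomm a' ha' u hu, mul_assoc]
        _ = a' (u (v x)) := rfl
        _ = a' (v x) := by rw [h2]
        _ = (a' * v) x := rfl
    have hb2 := two_le_of_inj _ hinjP hP1
    have hc2 := two_le_of_inj _ hinjQ hQ1
    -- the orbits multiply
    have hbc : Nat.card (orb P x) * Nat.card (orb Q x) ≤ a := by
      rw [← Nat.card_prod, ← ha]
      have hch1 : ∀ y : orb P x, ∃ u, u ∈ P ∧ u x = y.1 := fun y => y.2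
      have hch2 : ∀ y : orb Q x, ∃ u, u ∈ Q ∧ u x = y.1 := fun y => y.2
      choose U hU1 hU2 using hch1
      choose V hV1 hV2 using hch2
      apply Nat.card_le_card_of_injective (fun z : orb P x × orb Q x => U z.1 (V z.2 x))
      rintro ⟨y, z⟩ ⟨y', z'⟩ h
      have h0 : (U y * V z) x = (U y' * V z') x := h
      have h1 : ((U y')⁻¹ * U y * ((V z')⁻¹ * V z)) x = x := by
        have h2 : (U y')⁻¹ * U y * ((V z')⁻¹ * V z) = (V z')⁻¹ * (U y')⁻¹ * (U y * V z) := by
          have h3 : U y * (V z')⁻¹ = (V z')⁻¹ * U y := hcomm _ (hU1 y) _ (Q.inv_mem (hV1 z'))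
          have h4 : (U y')⁻¹ * (V z')⁻¹ = (V z')⁻¹ * (U y')⁻¹ := hcomm _ (P.inv_mem (hU1 y')) _ (Q.inv_mem (hV1 z'))
          calc (U y')⁻¹ * U y * ((V z')⁻¹ * V z) = (U y')⁻¹ * (U y * (V z')⁻¹) * V z := by group
            _ = (U y')⁻¹ * ((V z')⁻¹ * U y) * V z := by rw [h3]
            _ = ((U y')⁻¹ * (V z')⁻¹) * U y * V z := by group
            _ = ((V z')⁻¹ * (U y')⁻¹) * U y * V z := by rw [h4]
            _ = _ := by group
        rw [h2]
        calc ((V z')⁻¹ * (U y')⁻¹ * (U y * V z)) x = ((V z')⁻¹ * (U y')⁻¹) ((U y * V z) x) := rfl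
          _ = ((V z')⁻¹ * (U y')⁻¹) ((U y' * V z') x) := by rw [h0]
          _ = ((V z')⁻¹ * (U y')⁻¹ * (U y' * V z')) x := rfl
          _ = x := by
            rw [show (V z')⁻¹ * (U y')⁻¹ * (U y' * V z') = (1 : Perm Ω) by group]
            rfl
      have h2 := fix_of_mul hPp hQc (P.mul_mem (P.inv_mem (hU1 y')) (hU1 y)) (Q.mul_mem (Q.inv_mem (hV1 z')) (hV1 z))
        (hcomm _ (P.mul_mem (P.inv_mem (hU1 y')) (hU1 y)) _ (Q.mul_mem (Q.inv_mem (hV1 z')) (hV1 z))) h1
      have h3 : y = y' := by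
        apply Subtype.ext
        rw [← hU2 y, ← hU2 y']
        have h4 : ((U y')⁻¹ * U y) x = x := h2.1
        rw [Equiv.Perm.mul_apply, Equiv.Perm.inv_eq_iff_eq] at h4
        exact h4
      have h4 : z = z' := by
        apply Subtype.ext
        rw [← hV2 z, ← hV2 z']
        have h4 : ((V z')⁻¹ * V z) x = x := h2.2
        rw [Equiv.Perm.mul_apply, Equiv.Perm.inv_eq_iff_eq] at h4
        exact h4
      rw [h3, h4]
    have hbound : ∀ (S : Subgroup (Perm Ω)), S ≤ T → Function.Injective (orbHom S x) →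
        Nat.card S ^ 2 * 3 ≤ 3 ^ (Nat.card (orb S x)) := by
      intro S hST hinj
      have hcopS : Nat.Coprime 2 (Nat.card S) := Nat.Coprime.coprime_dvd_right (Subgroup.card_dvd_of_le hST) hcop
      haveI : Nonempty (orb S x) := ⟨⟨x, self_mem_orb S x⟩⟩
      have h1 := (odd_trans _ (orb S x) (orbHom S x).range rfl Nat.card_pos (nil_range (Carter.nilp_of_le hST hnil) _) (orb_trans S x)
        (by rw [card_range _ hinj]; exact hcopS)).1
      rwa [card_range _ hinj] at h1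
    have h1 := hbound P hPT hinjP
    have h2 := hbound Q hQT hinjQ
    have h3 : Nat.card T ≤ Nat.card P * Nat.card Q := by
      rw [← Nat.card_prod]
      refine Nat.card_le_card_of_surjective (fun z : P × Q => (⟨z.1.1 * z.2.1, T.mul_mem (hPT z.1.2) (hQT z.2.2)⟩ : T)) ?_
      rintro ⟨t, ht⟩
      obtain ⟨u, hu, v, hv, rfl⟩ := hdec t ht
      exact ⟨(⟨u, hu⟩, ⟨v, hv⟩), rfl⟩
    have h4 : Nat.card T ^ 2 * 9 ≤ 3 ^ (Nat.card (orb P x) + Nat.card (orb Q x)) := by
      calc Nat.card T ^ 2 * 9 ≤ (Nat.card P * Nat.card Q) ^ 2 * 9 := Nat.mul_le_mul_right _ (Nat.pow_le_pow_left h3 2)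
        _ = (Nat.card P ^ 2 * 3) * (Nat.card Q ^ 2 * 3) := by ring
        _ ≤ 3 ^ Nat.card (orb P x) * 3 ^ Nat.card (orb Q x) := Nat.mul_le_mul h1 h2
        _ = 3 ^ (Nat.card (orb P x) + Nat.card (orb Q x)) := by rw [pow_add]
    have h5 := num_add_one hb2 hc2 hbc ha1
    have h6 : 3 ^ (Nat.card (orb P x) + Nat.card (orb Q x) + 1) ≤ 3 ^ a := Nat.pow_le_pow_right (by norm_num) h5
    rw [pow_succ] at h6
    omega

theorem odd_whole (n : ℕ) (Ω : Type) [Finite Ω] (N : Subgroup (Perm Ω)) (hn : Nat.card Ω = n) (h711 : n = 7 ∨ n = 11 ∨ n = 15)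
    (hnil : Group.IsNilpotent N) (hcop : Nat.Coprime 2 (Nat.card N)) : Nat.card N ^ 2 * 27 ≤ 3 ^ n := by
  classical
  have hne : Nonempty Ω := by
    by_contra hh
    rw [not_nonempty_iff] at hh
    have h2 : Nat.card Ω = 0 := Nat.card_of_isEmpty
    omega
  obtain ⟨x⟩ := hne
  let O := orb N x
  by_cases hOa : ∀ y, y ∈ O
  · apply odd_trans2 n Ω N hn h711 hnil ?_ hcop
    intro u v
    obtain ⟨a, ha, rfl⟩ := hOa u
    obtain ⟨b, hb, rfl⟩ := hOa v
    exact ⟨b * a⁻¹, N.mul_mem hb (N.inv_mem ha), by simp [Equiv.Perm.mul_apply]⟩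
  · push Not at hOa
    obtain ⟨y₀, hy₀⟩ := hOa
    have hO := orb_inv N x
    have hOc : ∀ g ∈ N, ∀ y, g y ∈ Oᶜ ↔ y ∈ Oᶜ := fun g hg y => not_congr (hO g hg y)
    let ρ₁ := orbHom N x
    let ρ₂ := resHom N Oᶜ hOc
    have hcard : Nat.card O + Nat.card ↥Oᶜ = n := by
      rw [← hn, ← Nat.card_sum]
      exact Nat.card_congr (Equiv.Set.sumCompl O)
    have ha1 : 1 ≤ Nat.card O := by
      haveI : Nonempty O := ⟨⟨x, self_mem_orb N x⟩⟩
      exact Nat.card_pos
    have hc1 : Nat.card ↥Oᶜ ≠ 0 := by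
      haveI : Nonempty ↥Oᶜ := ⟨⟨y₀, hy₀⟩⟩
      exact Nat.card_pos.ne'
    have haodd : Nat.card O % 2 = 1 := by
      have h := card_orb_dvd N x
      have h2 : Nat.Coprime 2 (Nat.card O) := Nat.Coprime.coprime_dvd_right h hcop
      exact Nat.odd_iff.1 (Nat.coprime_two_left.1 h2)
    have h1 := odd_trans (Nat.card O) O ρ₁.range rfl ha1 (nil_range hnil _) (orb_trans N x)
      (Nat.Coprime.coprime_dvd_right (Subgroup.card_range_dvd ρ₁) hcop)
    obtain ⟨r, hr1, hr2, hr3, -⟩ := odd_bound (Nat.card ↥Oᶜ) ↥Oᶜ ρ₂.range rfl (nil_range hnil _)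
      (Nat.Coprime.coprime_dvd_right (Subgroup.card_range_dvd ρ₂) hcop)
    have hinj : Function.Injective (fun g : N => ((⟨ρ₁ g, ⟨g, rfl⟩⟩ : ρ₁.range), (⟨ρ₂ g, ⟨g, rfl⟩⟩ : ρ₂.range))) := by
      intro g g' h
      have h3 : ρ₁ g = ρ₁ g' := congrArg (fun z => z.1.1) h
      have h4 : ρ₂ g = ρ₂ g' := congrArg (fun z => z.2.1) h
      apply Subtype.ext
      apply Equiv.ext
      intro y
      by_cases hy : y ∈ O
      · have h5 := congrArg (fun f : Perm O => ((f ⟨y, hy⟩ : O) : Ω)) h3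
        exact h5
      · have h5 := congrArg (fun f : Perm ↥Oᶜ => ((f ⟨y, hy⟩ : ↥Oᶜ) : Ω)) h4
        exact h5
    have h3 := Nat.card_le_card_of_injective _ hinj
    rw [Nat.card_prod] at h3
    have hr5 := hr2 hc1
    have hr6 : 2 ≤ r := by omega
    have hr7 : 3 ^ 2 ≤ 3 ^ r := Nat.pow_le_pow_right (by norm_num) hr6
    calc Nat.card N ^ 2 * 27 ≤ (Nat.card ρ₁.range * Nat.card ρ₂.range) ^ 2 * 27 :=
          Nat.mul_le_mul_right _ (Nat.pow_le_pow_left h3 2)
      _ = (Nat.card ρ₁.range ^ 2 * 3) * (Nat.card ρ₂.range ^ 2 * 3 ^ 2) := by ring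
      _ ≤ (Nat.card ρ₁.range ^ 2 * 3) * (Nat.card ρ₂.range ^ 2 * 3 ^ r) :=
          Nat.mul_le_mul_left _ (Nat.mul_le_mul_left _ hr7)
      _ ≤ 3 ^ Nat.card O * 3 ^ Nat.card ↥Oᶜ := Nat.mul_le_mul h1.1 hr3
      _ = 3 ^ n := by rw [← pow_add, hcard]

theorem FF_sq_ge2 : ∀ m : ℕ, 16 ≤ m → m % 4 = 0 → 4 * 3 ^ m ≤ FF m ^ 2 := by
  intro m
  induction m using Nat.strong_induction_on with
  | _ m ih =>
    intro hm hm4
    by_cases h : m < 24
    · have hd : m = 16 ∨ m = 20 := by omega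
      rcases hd with rfl | rfl
      · rw [show (16 : ℕ) = 2 * 8 by norm_num, FF_two_mul, FF_eight]
        norm_num
      · rw [show (20 : ℕ) = 2 * 10 by norm_num, FF_two_mul, FF_ten]
        norm_num
    · obtain ⟨k, rfl⟩ : ∃ k, m = k + 8 := ⟨m - 8, by omega⟩
      have h1 := ih k (by omega) (by omega) (by omega)
      have h2 := FF_mul_le 8 k
      rw [FF_eight, show 8 + k = k + 8 by ring] at h2
      have h3 : (128 * FF k) ^ 2 ≤ FF (k + 8) ^ 2 := Nat.pow_le_pow_left h2 2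
      rw [pow_add]
      nlinarith

theorem odd_num3 (n m r : ℕ) (hn : n % 4 = 3) (h7 : 7 ≤ n) (hr2 : 1 ≤ r) (hm : m ^ 2 * 3 ^ r ≤ 3 ^ n)
    (hw : (n = 7 ∨ n = 11 ∨ n = 15) → m ^ 2 * 27 ≤ 3 ^ n) : 2 * m ≤ 3 * FF (n - 3) := by
  by_cases hl : 19 ≤ n
  · have h1 := FF_sq_ge2 (n - 3) (by omega) (by omega)
    have h3 : m ^ 2 * 3 ^ 1 ≤ 3 ^ n :=
      (Nat.mul_le_mul_left _ (Nat.pow_le_pow_right (by norm_num) hr2)).trans hm
    have h4 : 3 ^ n = 3 ^ (n - 3) * 27 := by
      rw [show (27 : ℕ) = 3 ^ 3 by norm_num, ← pow_add]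
      congr 1
      omega
    rw [h4, pow_one] at h3
    have h8 : (2 * m) ^ 2 ≤ (3 * FF (n - 3)) ^ 2 := by nlinarith
    exact (Nat.pow_le_pow_iff_left (by norm_num)).1 h8
  · have hd : n = 7 ∨ n = 11 ∨ n = 15 := by omega
    have h := hw hd
    rcases hd with rfl | rfl | rfl
    · have e : FF (7 - 3) = 8 := FF_four
      rw [e]
      norm_num at h
      nlinarith
    · have e : FF (11 - 3) = 128 := FF_eight
      rw [e]
      norm_num at h
      nlinarith
    · have e : FF (15 - 3) = 1024 := FF_twelve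
      rw [e]
      norm_num at h
      nlinarith

theorem exists_big_two' {n : ℕ} (Q : Subgroup (Perm (Fin n))) (τ : Perm (Fin n)) (hτc : ∀ q ∈ Q, τ * q = q * τ)
    (hτs : Equiv.Perm.sign τ = -1)
    (P₂ : Subgroup (Perm (Fin n))) (hPp : IsPGroup 2 P₂) (hPc : ∀ a ∈ P₂, ∀ q ∈ Q, a * q = q * a)
    (hPe : ∀ a ∈ P₂, Equiv.Perm.sign a = 1) :
    ∃ S : Subgroup (Perm (Fin n)), IsPGroup 2 S ∧ (∀ a ∈ S, ∀ q ∈ Q, a * q = q * a) ∧ 2 * Nat.card P₂ ≤ Nat.card S ∧ P₂ ≤ S := by
  classical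
  let C : Subgroup (Perm (Fin n)) := Subgroup.centralizer (Q : Set (Perm (Fin n)))
  have hmemC : ∀ a, a ∈ C ↔ ∀ q ∈ Q, a * q = q * a := by
    intro a
    rw [Subgroup.mem_centralizer_iff]
    constructor
    · intro h q hq
      exact (h q hq).symm
    · intro h q hq
      exact (h q hq).symm
  let φ : C →* ℤˣ := Equiv.Perm.sign.comp C.subtype
  let H : Subgroup C := φ.ker
  have hφs : Function.Surjective φ := by
    intro u
    rcases Int.units_eq_one_or u with rfl | rfl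
    · exact ⟨1, map_one _⟩
    · exact ⟨⟨τ, (hmemC τ).2 hτc⟩, hτs⟩
  have hcardC : Nat.card C = 2 * Nat.card H := by
    have h1 := Subgroup.card_mul_index H
    have h2 : H.index = 2 := by
      show φ.ker.index = 2
      rw [Subgroup.index_ker, MonoidHom.range_eq_top.2 hφs, Subgroup.card_top, Nat.card_eq_fintype_card]
      rfl
    rw [h2] at h1
    omega
  let ι : H →* Perm (Fin n) := C.subtype.comp H.subtype
  have hι : Function.Injective ι := Subtype.val_injective.comp Subtype.val_injective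
  have hPr : P₂ ≤ ι.range := by
    intro a ha
    have h1 : a ∈ C := (hmemC a).2 (hPc a ha)
    exact ⟨⟨⟨a, h1⟩, hPe a ha⟩, rfl⟩
  let P' : Subgroup H := P₂.comap ι
  have hP' : IsPGroup 2 P' := hPp.comap_of_injective ι hι
  have hcardP' : Nat.card P' = Nat.card P₂ := by
    have h1 : P'.map ι = P₂ := Subgroup.map_comap_eq_self hPr
    conv_rhs => rw [← h1]
    rw [Subgroup.card_map_of_injective hι]
  obtain ⟨R, hR⟩ := hP'.exists_le_sylow
  have hle : Nat.card P₂ ≤ Nat.card R := by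
    rw [← hcardP']
    exact Subgroup.card_le_of_le hR
  obtain ⟨SS, hSSle⟩ := (R.isPGroup'.map H.subtype).exists_le_sylow
  have hSS : Nat.card SS = 2 * Nat.card R := by
    rw [Sylow.card_eq_multiplicity, Sylow.card_eq_multiplicity, hcardC,
      Nat.factorization_mul (by norm_num) Nat.card_pos.ne']
    simp [Nat.Prime.factorization_self Nat.prime_two, pow_add]
  refine ⟨SS.toSubgroup.map C.subtype, SS.isPGroup'.map _, ?_, ?_, ?_⟩
  · rintro _ ⟨s, -, rfl⟩ q hq
    exact (hmemC s.1).1 s.2 q hq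
  · rw [Subgroup.card_map_of_injective Subtype.val_injective]
    have h3 : Nat.card SS.toSubgroup = 2 * Nat.card R := hSS
    omega
  · intro a ha
    obtain ⟨a', rfl⟩ := hPr ha
    have h1 : a' ∈ P' := ha
    have h2 : a' ∈ R.toSubgroup := hR h1
    have h3 : H.subtype a' ∈ SS := hSSle ⟨a', h2, rfl⟩
    exact ⟨H.subtype a', h3, rfl⟩

theorem mul_range {n : ℕ} (S Q : Subgroup (Perm (Fin n))) (hSp : IsPGroup 2 S)
    (hQc : Nat.Coprime 2 (Nat.card Q)) (hQn : Group.IsNilpotent Q)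
    (hc : ∀ a ∈ S, ∀ q ∈ Q, a * q = q * a) :
    ∃ M : Subgroup (Perm (Fin n)), Group.IsNilpotent M ∧ Nat.card M = Nat.card S * Nat.card Q ∧ S ≤ M ∧ Q ≤ M := by
  haveI hSn : Group.IsNilpotent S := hSp.isNilpotent
  let f : S × Q →* Perm (Fin n) := MonoidHom.noncommCoprod S.subtype Q.subtype (fun a b => hc a.1 a.2 b.1 b.2)
  have hinj : Function.Injective f := by
    rw [injective_iff_map_eq_one]
    rintro ⟨⟨s, hs⟩, ⟨q, hq⟩⟩ h
    have h1 : s * q = 1 := h
    have hsq : s = q⁻¹ := eq_inv_of_mul_eq_one_left h1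
    have hsQ : s ∈ Q := hsq ▸ Q.inv_mem hq
    obtain ⟨k, hk⟩ := (IsPGroup.iff_orderOf.1 hSp) ⟨s, hs⟩
    rw [Subgroup.orderOf_mk] at hk
    have h2 : orderOf s ∣ Nat.card Q := Subgroup.orderOf_dvd_natCard Q hsQ
    have h3 : orderOf s = 1 := by
      have h4 : Nat.Coprime (orderOf s) (Nat.card Q) := by
        rw [hk]
        exact Nat.Coprime.pow_left k hQc
      exact Nat.Coprime.eq_one_of_dvd h4 h2
    have hs1 : s = 1 := orderOf_eq_one_iff.1 h3
    have hq1 : q = 1 := by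
      rw [hs1, one_mul] at h1
      exact h1
    subst hs1
    subst hq1
    rfl
  haveI := hQn
  have hnil : Group.IsNilpotent f.range := nilpotent_of_surjective f.rangeRestrict f.rangeRestrict_surjective
  have h2 : Nat.card f.range = Nat.card S * Nat.card Q := by
    rw [← Nat.card_prod]
    exact (Nat.card_congr (MonoidHom.ofInjective hinj).toEquiv).symm
  refine ⟨f.range, hnil, h2, ?_, ?_⟩
  · intro s hs
    refine ⟨(⟨s, hs⟩, 1), ?_⟩
    show s * 1 = s
    exact mul_one s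
  · intro q hq
    refine ⟨(1, ⟨q, hq⟩), ?_⟩
    show 1 * q = q
    exact one_mul q

theorem no_tau_trivial {n : ℕ} (P₂ Q : Subgroup (Perm (Fin n))) (hPp : IsPGroup 2 P₂) (hQc : Nat.Coprime 2 (Nat.card Q))
    (hcomm : ∀ a ∈ P₂, ∀ q ∈ Q, a * q = q * a)
    (hτ : ¬ ∃ τ : Perm (Fin n), (∀ q ∈ Q, τ * q = q * τ) ∧ Equiv.Perm.sign τ = -1) : Nat.card P₂ = 1 := by
  obtain ⟨m, hm⟩ := IsPGroup.iff_card.1 hPp
  rcases m with _ | m
  · simpa using hm
  · exfalso
    have hd : 2 ∣ Nat.card P₂ := by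
      rw [hm]
      exact dvd_pow_self 2 (Nat.succ_ne_zero m)
    obtain ⟨x, hx⟩ := exists_prime_orderOf_dvd_card' 2 hd
    have hx1 : x.1 * x.1 = 1 := by
      have h3 : x ^ 2 = 1 := by
        rw [← hx]
        exact pow_orderOf_eq_one x
      have h4 : x * x = 1 := by
        rw [← pow_two]
        exact h3
      exact congrArg Subtype.val h4
    have hxne : x.1 ≠ 1 := by
      intro h
      have h3 : x = 1 := Subtype.ext h
      rw [h3, orderOf_one] at hx
      omega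
    exact hτ (exists_odd_of_inv Q hQc x.1 hx1 hxne (fun q hq => hcomm x.1 x.2 q hq))

theorem HH_eq {n : ℕ} (hn : n % 4 = 3) : HH n = 3 * FF (n - 3) := by
  unfold HH
  rw [if_pos hn]

theorem even_bound {n : ℕ} (hn : n % 4 = 3) (h7 : 7 ≤ n)
    (N : Subgroup (Perm (Fin n))) (hN : Group.IsNilpotent N) (hev : ∀ g ∈ N, Equiv.Perm.sign g = 1) :
    2 * Nat.card N ≤ 3 * FF (n - 3) := by
  classical
  obtain ⟨P₂, Q, hPN, hQN, hPp, hQc, hcomm, hdec⟩ := Carter.nilp_decomp_sub 2 N hN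
  have hNle : Nat.card N ≤ Nat.card P₂ * Nat.card Q := by
    rw [← Nat.card_prod]
    refine Nat.card_le_card_of_surjective (fun z : P₂ × Q => (⟨z.1.1 * z.2.1, N.mul_mem (hPN z.1.2) (hQN z.2.2)⟩ : N)) ?_
    rintro ⟨t, ht⟩
    obtain ⟨u, hu, v, hv, rfl⟩ := hdec t ht
    exact ⟨(⟨u, hu⟩, ⟨v, hv⟩), rfl⟩
  have hQnil : Group.IsNilpotent Q := Carter.nilp_of_le hQN hN
  by_cases hτ : ∃ τ : Perm (Fin n), (∀ q ∈ Q, τ * q = q * τ) ∧ Equiv.Perm.sign τ = -1
  · obtain ⟨τ, hτc, hτs⟩ := hτ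
    obtain ⟨S, hSp, hSc, hScard, -⟩ := exists_big_two' Q τ hτc hτs P₂ hPp hcomm (fun a ha => hev a (hPN ha))
    obtain ⟨M, hMn, hMc, -, -⟩ := mul_range S Q hSp hQc hQnil hSc
    have h1 := nil_bound n (Fin n) M (Nat.card_fin n) hMn
    rw [HH_eq hn, hMc] at h1
    calc 2 * Nat.card N ≤ 2 * (Nat.card P₂ * Nat.card Q) := Nat.mul_le_mul_left _ hNle
      _ = (2 * Nat.card P₂) * Nat.card Q := by ring
      _ ≤ Nat.card S * Nat.card Q := Nat.mul_le_mul_right _ hScard
      _ ≤ _ := h1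
  · have hP1 := no_tau_trivial P₂ Q hPp hQc hcomm hτ
    obtain ⟨r, hr1, hr2, hr3, hr4⟩ := odd_bound n (Fin n) Q (Nat.card_fin n) hQnil hQc
    have h3 := odd_num3 n (Nat.card Q) r hn h7 (hr2 (by omega)) hr3
      (fun hd => odd_whole n (Fin n) Q (Nat.card_fin n) hd hQnil hQc)
    rw [hP1, one_mul] at hNle
    omega

theorem four_dvd_FF {m : ℕ} (hm : 4 ≤ m) : 4 ∣ FF m := by
  have h8 : 8 ≤ FF m := FF_four ▸ FF_mono hm
  unfold FF at h8 ⊢
  have hv : 2 ≤ padicValNat 2 m.factorial := by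
    by_contra h
    have h2 : padicValNat 2 m.factorial ≤ 1 := by omega
    have h3 : 2 ^ padicValNat 2 m.factorial ≤ 2 ^ 1 := Nat.pow_le_pow_right (by norm_num) h2
    omega
  exact (pow_dvd_pow 2 hv : (2 : ℕ) ^ 2 ∣ _)

theorem exists_cover {n : ℕ} (hn : n % 4 = 3) (h7 : 7 ≤ n)
    (N : Subgroup (Perm (Fin n))) (hN : Group.IsNilpotent N) (hev : ∀ g ∈ N, Equiv.Perm.sign g = 1)
    (hc : 2 * Nat.card N = 3 * FF (n - 3)) :
    ∃ M : Subgroup (Perm (Fin n)), Group.IsNilpotent M ∧ N ≤ M ∧ Nat.card M = 3 * FF (n - 3) := by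
  classical
  obtain ⟨P₂, Q, hPN, hQN, hPp, hQc, hcomm, hdec⟩ := Carter.nilp_decomp_sub 2 N hN
  have hNle : Nat.card N ≤ Nat.card P₂ * Nat.card Q := by
    rw [← Nat.card_prod]
    refine Nat.card_le_card_of_surjective (fun z : P₂ × Q => (⟨z.1.1 * z.2.1, N.mul_mem (hPN z.1.2) (hQN z.2.2)⟩ : N)) ?_
    rintro ⟨t, ht⟩
    obtain ⟨u, hu, v, hv, rfl⟩ := hdec t ht
    exact ⟨(⟨u, hu⟩, ⟨v, hv⟩), rfl⟩
  have hQnil : Group.IsNilpotent Q := Carter.nilp_of_le hQN hN
  by_cases hτ : ∃ τ : Perm (Fin n), (∀ q ∈ Q, τ * q = q * τ) ∧ Equiv.Perm.sign τ = -1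
  · obtain ⟨τ, hτc, hτs⟩ := hτ
    obtain ⟨S, hSp, hSc, hScard, hPS⟩ := exists_big_two' Q τ hτc hτs P₂ hPp hcomm (fun a ha => hev a (hPN ha))
    obtain ⟨M, hMn, hMc, hSM, hQM⟩ := mul_range S Q hSp hQc hQnil hSc
    have h1 := nil_bound n (Fin n) M (Nat.card_fin n) hMn
    rw [HH_eq hn] at h1
    refine ⟨M, hMn, ?_, ?_⟩
    · intro t ht
      obtain ⟨u, hu, v, hv, rfl⟩ := hdec t ht
      exact M.mul_mem (hSM (hPS hu)) (hQM hv)
    · have h2 : 2 * Nat.card N ≤ Nat.card M := by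
        rw [hMc]
        calc 2 * Nat.card N ≤ 2 * (Nat.card P₂ * Nat.card Q) := Nat.mul_le_mul_left _ hNle
          _ = (2 * Nat.card P₂) * Nat.card Q := by ring
          _ ≤ Nat.card S * Nat.card Q := Nat.mul_le_mul_right _ hScard
      omega
  · exfalso
    have hP1 := no_tau_trivial P₂ Q hPp hQc hcomm hτ
    rw [hP1, one_mul] at hNle
    have h2 : Nat.card Q ≤ Nat.card N := Subgroup.card_le_of_le hQN
    have h3 : Nat.card N = Nat.card Q := by omega
    rw [← h3] at hQc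
    obtain ⟨w, hw⟩ := four_dvd_FF (m := n - 3) (by omega)
    have h4 : Nat.card N = 2 * (3 * w) := by
      rw [hw] at hc
      omega
    rw [h4] at hQc
    have := Nat.Coprime.eq_one_of_dvd hQc (Dvd.intro _ rfl)
    omega

theorem conj_in_alt {n : ℕ} (hn : n % 4 = 3) (h7 : 7 ≤ n) (N₁ N₂ : Subgroup (Perm (Fin n)))
    (h₁ : Group.IsNilpotent N₁) (h₂ : Group.IsNilpotent N₂)
    (he₁ : ∀ g ∈ N₁, Equiv.Perm.sign g = 1) (he₂ : ∀ g ∈ N₂, Equiv.Perm.sign g = 1)
    (hc₁ : 2 * Nat.card N₁ = 3 * FF (n - 3)) (hc₂ : 2 * Nat.card N₂ = 3 * FF (n - 3)) :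
    ∃ g : Perm (Fin n), Equiv.Perm.sign g = 1 ∧ N₂ = N₁.map (MulAut.conj g).toMonoidHom := by
  classical
  obtain ⟨M₁, hM₁n, hN₁M₁, hM₁c⟩ := exists_cover hn h7 N₁ h₁ he₁ hc₁
  obtain ⟨M₂, hM₂n, hN₂M₂, hM₂c⟩ := exists_cover hn h7 N₂ h₂ he₂ hc₂
  obtain ⟨g, hg⟩ := NilpSym3.conj_lemma hn M₁ M₂ hM₁n hM₂n hM₁c hM₂c
  have hFF : 0 < FF (n - 3) := FF_pos _
  -- `N = M ∩ A`
  have hmem : ∀ (M N : Subgroup (Perm (Fin n))), Group.IsNilpotent M → N ≤ M → (∀ a ∈ N, Equiv.Perm.sign a = 1) →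
      2 * Nat.card N = 3 * FF (n - 3) → ∀ a ∈ M, Equiv.Perm.sign a = 1 → a ∈ N := by
    intro M N hMn hNM hNe hNc a haM has
    let X : Subgroup (Perm (Fin n)) := M ⊓ alternatingGroup (Fin n)
    have hNX : N ≤ X := fun b hb => ⟨hNM hb, hNe b hb⟩
    have hXn : Group.IsNilpotent X := Carter.nilp_of_le inf_le_left hMn
    have hXe : ∀ b ∈ X, Equiv.Perm.sign b = 1 := fun b hb => hb.2
    have hXc := even_bound hn h7 X hXn hXe
    have hle : Nat.card X ≤ Nat.card N := by omega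
    have hEq : N = X := Subgroup.eq_of_le_of_card_ge hNX hle
    rw [hEq]
    exact ⟨haM, has⟩
  -- an odd element of `M₁`
  obtain ⟨s, hsM, hss⟩ : ∃ s ∈ M₁, Equiv.Perm.sign s = -1 := by
    by_contra hh
    push Not at hh
    have h3 : ∀ a ∈ M₁, Equiv.Perm.sign a = 1 := by
      intro a ha
      rcases Int.units_eq_one_or (Equiv.Perm.sign a) with h4 | h4
      · exact h4
      · exact absurd h4 (hh a ha)
    have h4 := even_bound hn h7 M₁ hM₁n h3
    omega
  -- conjugation by a general element in the normaliser-type situation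
  have hconj : ∀ (x : Perm (Fin n)) (M M' N N' : Subgroup (Perm (Fin n))), M' = M.map (MulAut.conj x).toMonoidHom →
      Group.IsNilpotent M → Group.IsNilpotent M' → N ≤ M → N' ≤ M' → (∀ a ∈ N, Equiv.Perm.sign a = 1) → (∀ a ∈ N', Equiv.Perm.sign a = 1) →
      2 * Nat.card N = 3 * FF (n - 3) → 2 * Nat.card N' = 3 * FF (n - 3) → N' = N.map (MulAut.conj x).toMonoidHom := by
    intro x M M' N N' hM' hMn hM'n hNM hN'M' hNe hN'e hNc hN'c
    symm
    apply Subgroup.eq_of_le_of_card_ge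
    · rintro _ ⟨b, hb, rfl⟩
      apply hmem M' N' hM'n hN'M' hN'e hN'c
      · rw [hM']
        exact ⟨b, hNM hb, rfl⟩
      · show Equiv.Perm.sign ((MulAut.conj x) b) = 1
        rw [MulAut.conj_apply, map_mul, map_mul, map_inv, hNe b hb, mul_one, mul_inv_cancel]
    · rw [Subgroup.card_map_of_injective (MulAut.conj _).injective]
      omega
  by_cases hgs : Equiv.Perm.sign g = 1
  · exact ⟨g, hgs, hconj g M₁ M₂ N₁ N₂ hg hM₁n hM₂n hN₁M₁ hN₂M₂ he₁ he₂ hc₁ hc₂⟩
  · have hgs' : Equiv.Perm.sign g = -1 := by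
      rcases Int.units_eq_one_or (Equiv.Perm.sign g) with h4 | h4
      · exact absurd h4 hgs
      · exact h4
    have hMs : M₁.map (MulAut.conj s).toMonoidHom = M₁ := by
      apply Subgroup.eq_of_le_of_card_ge
      · rintro _ ⟨b, hb, rfl⟩
        exact M₁.mul_mem (M₁.mul_mem hsM hb) (M₁.inv_mem hsM)
      · rw [Subgroup.card_map_of_injective (MulAut.conj _).injective]
    have hcomp : (MulAut.conj (g * s)).toMonoidHom = (MulAut.conj g).toMonoidHom.comp (MulAut.conj s).toMonoidHom := by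
      ext b z
      simp [MulAut.conj_apply, mul_assoc]
    have hM' : M₂ = M₁.map (MulAut.conj (g * s)).toMonoidHom := by
      rw [hcomp, ← Subgroup.map_map, hMs]
      exact hg
    refine ⟨g * s, ?_, hconj (g * s) M₁ M₂ N₁ N₂ hM' hM₁n hM₂n hN₁M₁ hN₂M₂ he₁ he₂ hc₁ hc₂⟩
    rw [map_mul, hgs', hss]
    rfl

/-- The extremal subgroup. -/
theorem exists_attain_alt {n : ℕ} (hn4 : n % 4 = 3) (P : Sylow 2 (alternatingGroup (Fin (n - 3)))) :
    ∃ M : Subgroup (alternatingGroup (Fin n)), Group.IsNilpotent M ∧ Nat.card M = 3 * Nat.card P ∧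
      Nonempty (M ≃* (↥(P : Subgroup (alternatingGroup (Fin (n - 3)))) × Multiplicative (ZMod 3))) := by
  classical
  haveI : Fact (Nat.Prime 3) := ⟨Nat.prime_three⟩
  have hn3 : n - 3 + 3 = n := by omega
  have h36 : 3 ∣ Nat.card (Perm (Fin 3)) := by
    rw [Nat.card_perm, Nat.card_fin]
    decide
  obtain ⟨c, hc⟩ := exists_prime_orderOf_dvd_card' 3 h36
  have hcardC : Nat.card (Subgroup.zpowers c) = 3 := by
    rw [Nat.card_zpowers, hc]
  let e₁ : Multiplicative (ZMod 3) ≃* Subgroup.zpowers c :=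
    (AddEquiv.toMultiplicative (ZMod.ringEquivCongr hcardC.symm).toAddEquiv).trans
      (zmodCyclicMulEquiv inferInstance)
  let f₃ : Multiplicative (ZMod 3) →* Perm (Fin 3) := (Subgroup.zpowers c).subtype.comp e₁.toMonoidHom
  have hf₃ : Function.Injective f₃ := (Subgroup.subtype_injective _).comp e₁.injective
  have hc3s : Equiv.Perm.sign c = 1 := by
    have h := congrArg Equiv.Perm.sign (pow_orderOf_eq_one c)
    rw [hc, map_pow, map_one] at h
    rcases Int.units_eq_one_or (Equiv.Perm.sign c) with h' | h'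
    · exact h'
    · rw [h'] at h
      exact absurd h (by decide)
  have hsf₃ : ∀ b, Equiv.Perm.sign (f₃ b) = 1 := by
    intro b
    obtain ⟨k, hk⟩ := (e₁ b).2
    show Equiv.Perm.sign ((e₁ b : Subgroup.zpowers c) : Perm (Fin 3)) = 1
    rw [← hk, map_zpow, hc3s, one_zpow]
  let e : Fin (n - 3) ⊕ Fin 3 ≃ Fin n := finSumFinEquiv.trans (finCongr hn3)
  let κ : Perm (Fin (n - 3) ⊕ Fin 3) →* Perm (Fin n) :=
    { toFun := fun z => e.symm.trans (z.trans e)
      map_one' := by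
        ext y
        simp
      map_mul' := by
        intro a b
        ext y
        simp }
  have hκ : Function.Injective κ := by
    intro a b h
    ext y
    have h1 := congrArg (fun f : Perm (Fin n) => f (e y)) h
    have h2 : a y = b y := by
      apply e.injective
      simpa [κ] using h1
    rw [h2]
  let ι₀ : ↥(P : Subgroup (alternatingGroup (Fin (n - 3)))) × Multiplicative (ZMod 3) →* Perm (Fin n) :=
    κ.comp ((Equiv.Perm.sumCongrHom _ _).comp (MonoidHom.prodMap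
      ((alternatingGroup (Fin (n - 3))).subtype.comp (P : Subgroup (alternatingGroup (Fin (n - 3)))).subtype) f₃))
  have hι₀ : Function.Injective ι₀ := by
    apply hκ.comp
    apply Equiv.Perm.sumCongrHom_injective.comp
    rintro ⟨a, b⟩ ⟨a', b'⟩ h
    have h1 := Prod.mk.inj h
    rw [Prod.mk.injEq]
    exact ⟨Subtype.ext (Subtype.ext h1.1), hf₃ h1.2⟩
  have hsign : ∀ z, ι₀ z ∈ alternatingGroup (Fin n) := by
    rintro ⟨a, b⟩
    show Equiv.Perm.sign (e.symm.trans ((Equiv.Perm.sumCongr a.1.1 (f₃ b)).trans e)) = 1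
    rw [← Equiv.trans_assoc, Equiv.Perm.sign_symm_trans_trans, Equiv.Perm.sign_sumCongr, hsf₃, mul_one]
    exact a.1.2
  let ι : ↥(P : Subgroup (alternatingGroup (Fin (n - 3)))) × Multiplicative (ZMod 3) →* alternatingGroup (Fin n) :=
    ι₀.codRestrict _ hsign
  have hι : Function.Injective ι := by
    intro x y h
    apply hι₀
    exact congrArg Subtype.val h
  refine ⟨ι.range, ?_, ?_, ⟨(MonoidHom.ofInjective hι).symm⟩⟩
  · haveI : Group.IsNilpotent ↥(P : Subgroup (alternatingGroup (Fin (n - 3)))) := P.isPGroup'.isNilpotent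
    exact nilpotent_of_surjective ι.rangeRestrict ι.rangeRestrict_surjective
  · rw [← Nat.card_congr (MonoidHom.ofInjective hι).toEquiv, Nat.card_prod, mul_comm]
    congr 1
    rw [Nat.card_congr Multiplicative.toAdd, Nat.card_zmod]

theorem map_facts {n : ℕ} (N : Subgroup (alternatingGroup (Fin n))) (hN : Group.IsNilpotent N) :
    Nat.card (N.map (alternatingGroup (Fin n)).subtype) = Nat.card N ∧
    Group.IsNilpotent (N.map (alternatingGroup (Fin n)).subtype) ∧
    ∀ g ∈ N.map (alternatingGroup (Fin n)).subtype, Equiv.Perm.sign g = 1 := by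
  refine ⟨Subgroup.card_map_of_injective Subtype.val_injective, ?_, ?_⟩
  · haveI := hN
    exact nilpotent_of_surjective ((alternatingGroup (Fin n)).subtype.subgroupMap N) (MonoidHom.subgroupMap_surjective _ _)
  · rintro _ ⟨g, -, rfl⟩
    exact g.2

theorem alt3_result (n : ℕ) (hn : n % 4 = 3) (h7 : 7 ≤ n)
    (P : Sylow 2 (alternatingGroup (Fin (n - 3)))) :
    (∀ N : Subgroup (alternatingGroup (Fin n)), Group.IsNilpotent N → Nat.card N ≤ 3 * Nat.card P) ∧
    (∃ M : Subgroup (alternatingGroup (Fin n)), Group.IsNilpotent M ∧ Nat.card M = 3 * Nat.card P ∧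
      Nonempty (M ≃* (↥(P : Subgroup (alternatingGroup (Fin (n - 3)))) × Multiplicative (ZMod 3)))) ∧
    (∀ N₁ N₂ : Subgroup (alternatingGroup (Fin n)), Group.IsNilpotent N₁ → Group.IsNilpotent N₂ →
      Nat.card N₁ = 3 * Nat.card P → Nat.card N₂ = 3 * Nat.card P →
      ∃ g : alternatingGroup (Fin n), N₂ = N₁.map (MulAut.conj g).toMonoidHom) := by
  have hP : FF (n - 3) = 2 * Nat.card P := card_sylow_alt (n - 3) (by omega) P
  refine ⟨?_, exists_attain_alt hn P, ?_⟩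
  · intro N hN
    obtain ⟨hc, hnil, hev⟩ := map_facts N hN
    have h1 := even_bound hn h7 _ hnil hev
    rw [hc] at h1
    omega
  · intro N₁ N₂ h₁ h₂ hc₁ hc₂
    obtain ⟨hc1, hnil1, hev1⟩ := map_facts N₁ h₁
    obtain ⟨hc2, hnil2, hev2⟩ := map_facts N₂ h₂
    obtain ⟨g, hgs, hg⟩ := conj_in_alt hn h7 _ _ hnil1 hnil2 hev1 hev2 (by rw [hc1, hc₁]; omega) (by rw [hc2, hc₂]; omega)
    refine ⟨⟨g, hgs⟩, ?_⟩
    apply Subgroup.map_injective (alternatingGroup (Fin n)).subtype_injective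
    have h : (N₁.map (MulAut.conj (⟨g, hgs⟩ : alternatingGroup (Fin n))).toMonoidHom).map (alternatingGroup (Fin n)).subtype =
        (N₁.map (alternatingGroup (Fin n)).subtype).map (MulAut.conj g).toMonoidHom := by
      rw [Subgroup.map_map, Subgroup.map_map]
      congr 1
    rw [h]
    exact hg


end Cfsg.Agent.Lib.NilpAlt3
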