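import Mathlib

/-! Sets of element orders: divisor closure, maximal orders, direct powers. -/

namespace Cfsg.Agent.Lib.OrderSets

variable {G H : Type*} [Group G] [Group H]

/-- Orders are closed under divisors. -/
theorem order_of_dvd [Finite G] {n d : ℕ} (hn : n ∈ Set.range (orderOf : G → ℕ)) (hd : d ∣ n) :
    d ∈ Set.range (orderOf : G → ℕ) := by
  obtain ⟨x, rfl⟩ := hn
  exact ⟨x ^ (orderOf x / d), orderOf_pow_orderOf_div (orderOf_pos x).ne' hd⟩

/-- The maximal orders. -/
def maxOrders (G : Type*) [Group G] : Set ℕ :=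
  {n : ℕ | n ∈ Set.range (orderOf : G → ℕ) ∧ ∀ m ∈ Set.range (orderOf : G → ℕ), n ∣ m → m = n}

theorem finite_orders [Finite G] : (Set.range (orderOf : G → ℕ)).Finite := Set.finite_range _

/-- Each order divides a maximal order. -/
theorem exists_max_dvd [Finite G] {n : ℕ} (hn : n ∈ Set.range (orderOf : G → ℕ)) :
    ∃ M ∈ maxOrders G, n ∣ M := by
  have hfin : ({m ∈ Set.range (orderOf : G → ℕ) | n ∣ m}).Finite := (finite_orders (G := G)).subset (fun _ h => h.1)
  obtain ⟨M, ⟨hM1, hM2⟩, hM3⟩ := Set.exists_max_image _ id hfin ⟨n, hn, dvd_rfl⟩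
  refine ⟨M, ⟨hM1, ?_⟩, hM2⟩
  intro m hm hdvd
  have h1 := hM3 m ⟨hm, hM2.trans hdvd⟩
  have hmpos : 0 < m := by
    obtain ⟨x, rfl⟩ := hm
    exact orderOf_pos x
  exact le_antisymm h1 (Nat.le_of_dvd hmpos hdvd)

/-- The power-of-a-group spectrum statement. -/
theorem spectrum_power [Finite G] [Finite H] (k : ℕ) (hk : 1 ≤ k)
    (hsub : maxOrders H ⊆ maxOrders G)
    (hfew : (maxOrders G \ maxOrders H).ncard < k) :
    Set.range (orderOf : (Fin k → G) → ℕ) = Set.range (orderOf : (Fin (k - 1) → G) × H → ℕ) := by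
  classical
  obtain ⟨k, rfl⟩ : ∃ k', k = k' + 1 := ⟨k - 1, by omega⟩
  show Set.range (orderOf : (Fin (k + 1) → G) → ℕ) = Set.range (orderOf : (Fin k → G) × H → ℕ)
  have hpi : ∀ {m : ℕ} (f : Fin m → G) (N : ℕ), f ^ N = 1 ↔ ∀ i, f i ^ N = 1 := by
    intro m f N
    constructor
    · intro h i
      have := congrFun h i
      simpa using this
    · intro h
      funext i
      simpa using h i
  apply Set.Subset.antisymm
  · rintro _ ⟨F, rfl⟩
    choose M hM hdvd using fun i => exists_max_dvd (G := G) (n := orderOf (F i)) ⟨F i, rfl⟩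
    by_cases hcase : ∃ i₀, M i₀ ∈ maxOrders H
    · obtain ⟨i₀, hi₀⟩ := hcase
      obtain ⟨h, hh⟩ := order_of_dvd hi₀.1 (hdvd i₀)
      refine ⟨(F ∘ i₀.succAbove, h), ?_⟩
      apply orderOf_eq_orderOf_iff.2
      intro N
      rw [Prod.pow_def, Prod.mk_eq_one, hpi, hpi, Fin.forall_iff_succAbove i₀]
      rw [← orderOf_dvd_iff_pow_eq_one (x := h), hh, orderOf_dvd_iff_pow_eq_one]
      simp only [Function.comp]
      tauto
    · push Not at hcase
      -- two maximal orders coincide
      have hfin : (maxOrders G \ maxOrders H).Finite :=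
        (finite_orders (G := G)).subset (fun _ h => h.1.1)
      rw [Set.ncard_eq_toFinset_card _ hfin] at hfew
      obtain ⟨i, _, j, _, hij, hMij⟩ := Finset.exists_ne_map_eq_of_card_lt_of_maps_to
        (s := (Finset.univ : Finset (Fin (k + 1)))) (t := hfin.toFinset) (f := M)
        (by simpa using hfew) (by
          intro x _
          simp only [Set.Finite.coe_toFinset]
          exact ⟨hM x, hcase x⟩)
      obtain ⟨j', rfl⟩ := Fin.exists_succAbove_eq hij.symm
      obtain ⟨g', hg'⟩ := order_of_dvd (d := Nat.lcm (orderOf (F i)) (orderOf (F (i.succAbove j')))) (hM i).1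
        (Nat.lcm_dvd (hdvd i) (by rw [hMij]; exact hdvd _))
      refine ⟨(Function.update (F ∘ i.succAbove) j' g', 1), ?_⟩
      apply orderOf_eq_orderOf_iff.2
      intro N
      have hg'N : g' ^ N = 1 ↔ F i ^ N = 1 ∧ F (i.succAbove j') ^ N = 1 := by
        rw [← orderOf_dvd_iff_pow_eq_one, hg', Nat.lcm_dvd_iff, orderOf_dvd_iff_pow_eq_one, orderOf_dvd_iff_pow_eq_one]
      rw [Prod.pow_def, Prod.mk_eq_one, hpi, hpi, Fin.forall_iff_succAbove i]
      simp only [one_pow, and_true]
      constructor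
      · intro h
        have h1 := h j'
        simp only [Function.update_self] at h1
        obtain ⟨h2, h3⟩ := hg'N.1 h1
        refine ⟨h2, ?_⟩
        intro t
        by_cases ht : t = j'
        · subst ht; exact h3
        · simpa [Function.update_of_ne ht] using h t
      · rintro ⟨h1, h2⟩ t
        by_cases ht : t = j'
        · subst ht
          simpa using hg'N.2 ⟨h1, h2 _⟩
        · simpa [Function.update_of_ne ht] using h2 t
  · rintro _ ⟨⟨f, h⟩, rfl⟩
    -- `orderOf h` occurs in `G`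
    obtain ⟨M, hM, hd⟩ := exists_max_dvd (G := H) (n := orderOf h) ⟨h, rfl⟩
    obtain ⟨g, hg⟩ := order_of_dvd (hsub hM).1 hd
    refine ⟨Fin.cons g f, ?_⟩
    apply orderOf_eq_orderOf_iff.2
    intro N
    rw [Prod.pow_def, Prod.mk_eq_one, hpi, hpi, Fin.forall_fin_succ]
    simp only [Fin.cons_zero, Fin.cons_succ]
    rw [← orderOf_dvd_iff_pow_eq_one (x := g), hg, orderOf_dvd_iff_pow_eq_one]
    tauto

end Cfsg.Agent.Lib.OrderSets
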