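import Mathlib
import Cfsg.Agent.Lib.SuperHall

set_option autoImplicit false
set_option linter.unusedVariables false
set_option linter.style.haveILetI false
set_option linter.unusedSectionVars false

namespace Cfsg.Agent.Lib.OrderStat

open Cfsg Subgroup

universe u v

/-- number of solutions of `x ^ n = 1`. -/
noncomputable def sol (X : Type*) [Group X] (n : ℕ) : ℕ := Nat.card {x : X // x ^ n = 1}

theorem sol_eq_sum {X : Type*} [Group X] [Finite X] (n : ℕ) (hn : n ≠ 0) :
    sol X n = ∑ d ∈ n.divisors, Nat.card {x : X // orderOf x = d} := by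
  classical
  cases nonempty_fintype X
  simp only [sol, Nat.card_eq_fintype_card, Fintype.card_subtype]
  rw [Finset.card_eq_sum_card_fiberwise (f := orderOf) (t := n.divisors)]
  · apply Finset.sum_congr rfl
    intro d hd
    congr 1
    ext x
    simp only [Finset.mem_filter, Finset.mem_univ, true_and]
    constructor
    · rintro ⟨_, h⟩; exact h
    · intro h
      refine ⟨?_, h⟩
      rw [← orderOf_dvd_iff_pow_eq_one, h]
      exact Nat.dvd_of_mem_divisors hd
  · intro x hx
    have hx' : x ^ n = 1 := by simpa using hx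
    simp only [Finset.mem_coe, Nat.mem_divisors]
    exact ⟨orderOf_dvd_of_pow_eq_one hx', hn⟩

theorem sol_of_dvd {X : Type*} [Group X] [Finite X] (n : ℕ) (hn : Nat.card X ∣ n) :
    sol X n = Nat.card X := by
  apply Nat.card_congr
  exact Equiv.subtypeUnivEquiv (fun x => by
    obtain ⟨k, rfl⟩ := hn
    rw [pow_mul, pow_card_eq_one', one_pow])

theorem sol_zero (X : Type*) [Group X] : sol X 0 = Nat.card X := by
  apply Nat.card_congr
  exact Equiv.subtypeUnivEquiv (fun x => pow_zero x)

theorem sol_gcd {X : Type*} [Group X] [Finite X] (m D : ℕ) (hD : Nat.card X ∣ D) :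
    sol X m = sol X (Nat.gcd m D) := by
  apply Nat.card_congr
  apply Equiv.subtypeEquivRight
  intro x
  have hxD : x ^ D = 1 := by
    obtain ⟨k, rfl⟩ := hD
    rw [pow_mul, pow_card_eq_one', one_pow]
  rw [pow_gcd_eq_one]
  exact ⟨fun h => ⟨h, hxD⟩, fun h => h.1⟩

theorem sol_quot {X : Type*} [Group X] [Finite X] (N : Subgroup X) [N.Normal]
    (hcop : (Nat.card N).Coprime (Nat.card (X ⧸ N))) (m : ℕ) :
    sol X (m * Nat.card N) = Nat.card N * sol (X ⧸ N) m := by
  classical
  let T : Set (X ⧸ N) := {y | y ^ m = 1}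
  have hset : ∀ x : X, x ^ (m * Nat.card N) = 1 ↔ x ∈ (QuotientGroup.mk ⁻¹' T : Set X) := by
    intro x
    constructor
    · intro h
      change ((x : X ⧸ N)) ^ m = 1
      have h1 : ((x : X ⧸ N)) ^ (m * Nat.card N) = 1 := by
        rw [← QuotientGroup.mk_pow, h, QuotientGroup.mk_one]
      have h2 : orderOf (x : X ⧸ N) ∣ m * Nat.card N := orderOf_dvd_of_pow_eq_one h1
      have h3 : orderOf (x : X ⧸ N) ∣ Nat.card (X ⧸ N) := orderOf_dvd_natCard _
      have h4 : (orderOf (x : X ⧸ N)).Coprime (Nat.card N) :=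
        Nat.Coprime.coprime_dvd_left h3 hcop.symm
      exact orderOf_dvd_iff_pow_eq_one.1 (h4.dvd_of_dvd_mul_right h2)
    · intro h
      have h1 : ((x : X ⧸ N)) ^ m = 1 := h
      have h2 : x ^ m ∈ N := by
        rw [← QuotientGroup.eq_one_iff, QuotientGroup.mk_pow]
        exact h1
      have h3 : (⟨x ^ m, h2⟩ : N) ^ Nat.card N = 1 := pow_card_eq_one'
      have h4 := congrArg Subtype.val h3
      simp only [Subgroup.coe_pow, Subgroup.coe_one] at h4
      rw [pow_mul]
      exact h4
  have e1 : sol X (m * Nat.card N) = Nat.card (QuotientGroup.mk ⁻¹' T : Set X) := by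
    apply Nat.card_congr
    exact Equiv.subtypeEquivRight hset
  rw [e1, Nat.card_congr (QuotientGroup.preimageMkEquivSubgroupProdSet N T), Nat.card_prod]
  rfl

theorem card_quotient_eq {X : Type*} [Group X] [Finite X] (N : Subgroup X) :
    Nat.card X = Nat.card (X ⧸ N) * Nat.card N := Subgroup.card_eq_card_quotient_mul_card_subgroup N

theorem main_aux : ∀ (n : ℕ) (G : Type u) (H : Type v) [Group G] [Finite G] [Group H] [Finite H],
    Nat.card G = n → (∀ k, sol G k = sol H k) → IsSupersolvable G → Group.IsSolvable H := by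
  intro n
  induction n using Nat.strong_induction_on with
  | _ n ih =>
  intro G H _ _ _ _ hn hsol hG
  classical
  have hcard : Nat.card G = Nat.card H := by
    have := hsol 0
    rwa [sol_zero, sol_zero] at this
  by_cases hn1 : n = 1
  · have : Nat.card H = 1 := by rw [← hcard, hn, hn1]
    have hs : Subsingleton H := (Nat.card_eq_one_iff_unique.1 this).1
    exact Group.isSolvable_of_top_eq_bot H (by simp [eq_iff_true_of_subsingleton])
  have hnpos : 0 < n := by rw [← hn]; exact Nat.card_pos
  -- the largest prime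
  have hne : (n.primeFactors).Nonempty := by
    rw [Nat.nonempty_primeFactors]
    omega
  let p := (n.primeFactors).max' hne
  have hpm : p ∈ n.primeFactors := Finset.max'_mem _ _
  have hp : p.Prime := Nat.prime_of_mem_primeFactors hpm
  have hpd : p ∣ n := Nat.dvd_of_mem_primeFactors hpm
  haveI : Fact p.Prime := ⟨hp⟩
  have hmax : ∀ q, q.Prime → q ∣ Nat.card G → q ≤ p := by
    intro q hq hqd
    apply Finset.le_max'
    rw [Nat.mem_primeFactors]
    exact ⟨hq, hn ▸ hqd, by omega⟩
  obtain ⟨P⟩ : Nonempty (Sylow p G) := inferInstance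
  obtain ⟨Q⟩ : Nonempty (Sylow p H) := inferInstance
  have hPn : (P : Subgroup G).Normal := Cfsg.Agent.Lib.SuperHall.normal_sylow_largest _ G rfl hG p hp hmax P
  haveI := hPn
  have hPc : Nat.card P = p ^ (Nat.card G).factorization p := Sylow.card_eq_multiplicity P
  have hQc : Nat.card Q = p ^ (Nat.card H).factorization p := Sylow.card_eq_multiplicity Q
  have hPQ : Nat.card P = Nat.card Q := by rw [hPc, hQc, hcard]
  set M := Nat.card P with hM
  -- solutions of `x ^ M = 1` in `G`
  have hsolG : sol G M = M := by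
    rw [hM]
    apply Nat.card_congr
    apply Equiv.subtypeEquivRight
    intro x
    constructor
    · intro h
      have h1 : orderOf x ∣ p ^ (Nat.card G).factorization p := by
        rw [← hPc]; exact orderOf_dvd_of_pow_eq_one h
      obtain ⟨j, _, hj⟩ := (Nat.dvd_prime_pow hp).1 h1
      have h2 : IsPGroup p (Subgroup.zpowers x) := by
        rw [IsPGroup.iff_card]
        exact ⟨j, by rw [Nat.card_zpowers, hj]⟩
      obtain ⟨R, hR⟩ := h2.exists_le_sylow
      obtain ⟨g, hg⟩ := MulAction.exists_smul_eq G P R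
      have hPnn : P.Normal := hPn
      rw [Sylow.smul_eq_of_normal] at hg
      rw [hg]
      exact hR (Subgroup.mem_zpowers x)
    · intro h
      have h3 : (⟨x, h⟩ : (P : Subgroup G)) ^ Nat.card P = 1 := pow_card_eq_one'
      exact congrArg Subtype.val h3
  have hsolH : sol H M = M := by rw [← hsol, hsolG]
  -- `Q` is the solution set
  have hQset : ∀ x : H, x ^ M = 1 ↔ x ∈ (Q : Subgroup H) := by
    have hsub : ∀ x ∈ (Q : Subgroup H), x ^ M = 1 := by
      intro x hx
      have h3 : (⟨x, hx⟩ : (Q : Subgroup H)) ^ Nat.card Q = 1 := pow_card_eq_one'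
      have h4 := congrArg Subtype.val h3
      rw [hPQ]
      exact h4
    have hfin : Set.ncard {x : H | x ^ M = 1} = M := by
      have : sol H M = Set.ncard {x : H | x ^ M = 1} := by
        simp only [sol]
        rw [← Nat.card_coe_set_eq]
        rfl
      rw [← this, hsolH]
    have hQnc : Set.ncard ((Q : Subgroup H) : Set H) = M := by
      rw [hPQ, ← Nat.card_coe_set_eq]
      rfl
    have heq : ((Q : Subgroup H) : Set H) = {x : H | x ^ M = 1} := by
      apply Set.eq_of_subset_of_ncard_le
      · intro x hx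
        exact hsub x hx
      · rw [hfin, hQnc]
      · exact Set.toFinite _
    intro x
    have := Set.ext_iff.1 heq x
    simp only [SetLike.mem_coe, Set.mem_ofPred_eq] at this
    exact this.symm
  have hQn : (Q : Subgroup H).Normal := ⟨by
    intro x hx g
    rw [← hQset] at hx ⊢
    rw [conj_pow, hx]
    simp⟩
  haveI := hQn
  have hMpos : 0 < M := Nat.card_pos
  have hPcop : (Nat.card P).Coprime (Nat.card (G ⧸ (P : Subgroup G))) := by
    have := Sylow.card_coprime_index P
    rwa [Subgroup.index_eq_card] at this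
  have hQcop : (Nat.card Q).Coprime (Nat.card (H ⧸ (Q : Subgroup H))) := by
    have := Sylow.card_coprime_index Q
    rwa [Subgroup.index_eq_card] at this
  have hGq := card_quotient_eq (P : Subgroup G)
  have hHq := card_quotient_eq (Q : Subgroup H)
  have hD : Nat.card (G ⧸ (P : Subgroup G)) = Nat.card (H ⧸ (Q : Subgroup H)) := by
    have h1 : Nat.card (G ⧸ (P : Subgroup G)) * M = Nat.card (H ⧸ (Q : Subgroup H)) * M := by
      have h2 : Nat.card (Q : Subgroup H) = M := by rw [hPQ]
      calc _ = Nat.card G := hGq.symm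
        _ = Nat.card H := hcard
        _ = Nat.card (H ⧸ (Q : Subgroup H)) * Nat.card (Q : Subgroup H) := hHq
        _ = _ := by rw [h2]
    exact Nat.eq_of_mul_eq_mul_right hMpos h1
  have hsolq : ∀ k, sol (G ⧸ (P : Subgroup G)) k = sol (H ⧸ (Q : Subgroup H)) k := by
    intro k
    set D := Nat.card (G ⧸ (P : Subgroup G)) with hDdef
    rw [sol_gcd k D (dvd_refl _), sol_gcd k D (by rw [hD])]
    have h1 := sol_quot (P : Subgroup G) hPcop (Nat.gcd k D)
    have h2 := sol_quot (Q : Subgroup H) hQcop (Nat.gcd k D)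
    have h3 : Nat.card (P : Subgroup G) = M := rfl
    have h4 : Nat.card (Q : Subgroup H) = M := by rw [hPQ]
    rw [h3] at h1
    rw [h4] at h2
    rw [hsol, h2] at h1
    exact (Nat.eq_of_mul_eq_mul_left hMpos h1).symm
  have hlt : Nat.card (G ⧸ (P : Subgroup G)) < n := by
    have h1 : 1 < M := by
      rw [hPc]
      have h2 : 0 < (Nat.card G).factorization p := by
        apply hp.factorization_pos_of_dvd (Nat.card_pos.ne') (hn ▸ hpd)
      exact Nat.one_lt_pow h2.ne' hp.one_lt
    rw [← hn, hGq]
    have h3 : 0 < Nat.card (G ⧸ (P : Subgroup G)) := Nat.card_pos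
    change _ < Nat.card (G ⧸ (P : Subgroup G)) * M
    nlinarith
  have hsolv := ih _ hlt (G ⧸ (P : Subgroup G)) (H ⧸ (Q : Subgroup H)) rfl hsolq
    (Cfsg.Agent.Lib.Supersolvable.super_quotient hG _)
  have hQsol : Group.IsSolvable (Q : Subgroup H) := by
    haveI : Group.IsNilpotent (Q : Subgroup H) := Q.isPGroup'.isNilpotent
    exact IsNilpotent.to_isSolvable
  exact Group.isSolvable_of_ker_le_range (Q : Subgroup H).subtype (QuotientGroup.mk' (Q : Subgroup H))
    (by simp)

theorem final {G : Type u} {H : Type v} [Group G] [Finite G] [Group H] [Finite H]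
    (hT : ∀ m : ℕ, Nat.card {g : G // orderOf g = m} = Nat.card {h : H // orderOf h = m})
    (hG : IsSupersolvable G) : Group.IsSolvable H := by
  refine main_aux _ G H rfl ?_ hG
  have hne : ∀ k, k ≠ 0 → sol G k = sol H k := by
    intro k hk
    rw [sol_eq_sum k hk, sol_eq_sum k hk]
    exact Finset.sum_congr rfl (fun d _ => hT d)
  have hcard : Nat.card G = Nat.card H := by
    have h1 := hne (Nat.card G * Nat.card H) (Nat.mul_ne_zero Nat.card_pos.ne' Nat.card_pos.ne')
    rwa [sol_of_dvd _ (dvd_mul_right _ _), sol_of_dvd _ (dvd_mul_left _ _)] at h1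
  intro k
  by_cases hk : k = 0
  · subst hk
    rw [sol_zero, sol_zero, hcard]
  · exact hne k hk

end Cfsg.Agent.Lib.OrderStat
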