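import Mathlib
import Cfsg.Agent.Lib.OrderStat
import Cfsg.Agent.Lib.CharBurnside
import Cfsg.Agent.Lib.FitSolv
import Cfsg.Agent.Lib.Burnside2T
import Cfsg.Agent.Lib.H5Basic
import Cfsg.Agent.Lib.SchurZ
import Cfsg.Agent.S0040
import Cfsg.Agent.S0034
import Cfsg.Agent.S0035
import Cfsg.Agent.S0042
import Cfsg.Agent.Lib.FitCore

set_option autoImplicit false
set_option linter.unusedVariables false
set_option linter.style.haveILetI false
set_option linter.unusedSectionVars false

namespace Cfsg.Agent.Lib.OrderStatFrob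

open Cfsg Subgroup
open Cfsg.Agent.Lib.OrderStat
open scoped Pointwise

universe u v

theorem sol_congr {X : Type*} {Y : Type*} [Group X] [Group Y] (e : X ≃* Y) (k : ℕ) :
    sol X k = sol Y k := by
  apply Nat.card_congr
  apply e.toEquiv.subtypeEquiv
  intro x
  change x ^ k = 1 ↔ e x ^ k = 1
  rw [← map_pow, map_eq_one_iff e e.injective]

theorem sol_of_hT {G : Type u} {H : Type v} [Group G] [Finite G] [Group H] [Finite H]
    (hT : ∀ m : ℕ, Nat.card {g : G // orderOf g = m} = Nat.card {h : H // orderOf h = m}) :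
    ∀ k, sol G k = sol H k := by
  have hne : ∀ k, k ≠ 0 → sol G k = sol H k := by
    intro k hk
    rw [sol_eq_sum k hk, sol_eq_sum k hk]
    exact Finset.sum_congr rfl (fun d _ => hT d)
  have hcard : Nat.card G = Nat.card H := by
    have h1 := hne (Nat.card G * Nat.card H) (Nat.mul_ne_zero Nat.card_pos.ne' Nat.card_pos.ne')
    rwa [sol_of_dvd _ (dvd_mul_right _ _), sol_of_dvd _ (dvd_mul_left _ _)] at h1
  intro k
  by_cases hk : k = 0
  · subst hk
    rw [sol_zero, sol_zero, hcard]
  · exact hne k hk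

theorem card_eq_of_sol {G : Type u} {H : Type v} [Group G] [Group H]
    (hsol : ∀ k, sol G k = sol H k) : Nat.card G = Nat.card H := by
  have := hsol 0
  rwa [sol_zero, sol_zero] at this

/-- solutions in a normal Sylow subgroup. -/
theorem sol_normal_sylow {G : Type*} [Group G] [Finite G] {p : ℕ} [Fact p.Prime] (P : Sylow p G)
    (hPn : (P : Subgroup G).Normal) : sol G (Nat.card P) = Nat.card P := by
  apply Nat.card_congr
  apply Equiv.subtypeEquivRight
  intro x
  have hp : p.Prime := Fact.out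
  have hPc : Nat.card P = p ^ (Nat.card G).factorization p := Sylow.card_eq_multiplicity P
  constructor
  · intro h
    have h1 : orderOf x ∣ p ^ (Nat.card G).factorization p := by
      rw [← hPc]; exact orderOf_dvd_of_pow_eq_one h
    obtain ⟨j, _, hj⟩ := (Nat.dvd_prime_pow hp).1 h1
    have h2 : IsPGroup p (Subgroup.zpowers x) := by
      rw [IsPGroup.iff_card]
      exact ⟨j, by rw [Nat.card_zpowers, hj]⟩
    obtain ⟨R, hR⟩ := h2.exists_le_sylow
    obtain ⟨g, hg⟩ := MulAction.exists_smul_eq G P R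
    have hPnn : P.Normal := hPn
    rw [Sylow.smul_eq_of_normal] at hg
    rw [hg]
    exact hR (Subgroup.mem_zpowers x)
  · intro h
    have h3 : (⟨x, h⟩ : (P : Subgroup G)) ^ Nat.card P = 1 := pow_card_eq_one'
    exact congrArg Subtype.val h3

/-- A Sylow subgroup is normal when the count of solutions is right. -/
theorem normal_of_sol {H : Type*} [Group H] [Finite H] {p : ℕ} [Fact p.Prime] (Q : Sylow p H)
    (hs : sol H (Nat.card Q) = Nat.card Q) : (Q : Subgroup H).Normal := by
  classical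
  have hsub : ∀ x ∈ (Q : Subgroup H), x ^ Nat.card Q = 1 := by
    intro x hx
    have h3 : (⟨x, hx⟩ : (Q : Subgroup H)) ^ Nat.card Q = 1 := pow_card_eq_one'
    exact congrArg Subtype.val h3
  have hfin : Set.ncard {x : H | x ^ Nat.card Q = 1} = Nat.card Q := by
    have : sol H (Nat.card Q) = Set.ncard {x : H | x ^ Nat.card Q = 1} := by
      simp only [sol]
      rw [← Nat.card_coe_set_eq]
      rfl
    rw [← this, hs]
  have hQnc : Set.ncard ((Q : Subgroup H) : Set H) = Nat.card Q := by
    rw [← Nat.card_coe_set_eq]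
    rfl
  have heq : ((Q : Subgroup H) : Set H) = {x : H | x ^ Nat.card Q = 1} := by
    apply Set.eq_of_subset_of_ncard_le
    · intro x hx
      exact hsub x hx
    · rw [hfin, hQnc]
    · exact Set.toFinite _
  have hQset : ∀ x : H, x ^ Nat.card Q = 1 ↔ x ∈ (Q : Subgroup H) := by
    intro x
    have := Set.ext_iff.1 heq x
    simp only [SetLike.mem_coe, Set.mem_ofPred_eq] at this
    exact this.symm
  exact ⟨by
    intro x hx g
    rw [← hQset] at hx ⊢
    rw [conj_pow, hx]
    simp⟩

/-- Transfer of the count to quotients by normal Hall subgroups. -/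
theorem sol_quotient {G : Type u} {H : Type v} [Group G] [Finite G] [Group H] [Finite H]
    (hsol : ∀ k, sol G k = sol H k) (A : Subgroup G) (B : Subgroup H) [A.Normal] [B.Normal]
    (hAB : Nat.card A = Nat.card B)
    (hA : (Nat.card A).Coprime (Nat.card (G ⧸ A))) (hB : (Nat.card B).Coprime (Nat.card (H ⧸ B))) :
    ∀ k, sol (G ⧸ A) k = sol (H ⧸ B) k := by
  intro k
  have hcard := card_eq_of_sol hsol
  have hGq := card_quotient_eq A
  have hHq := card_quotient_eq B
  have hMpos : 0 < Nat.card A := Nat.card_pos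
  have hD : Nat.card (G ⧸ A) = Nat.card (H ⧸ B) := by
    have h1 : Nat.card (G ⧸ A) * Nat.card A = Nat.card (H ⧸ B) * Nat.card A := by
      rw [← hGq, hcard, hHq, hAB]
    exact Nat.eq_of_mul_eq_mul_right hMpos h1
  rw [sol_gcd k (Nat.card (G ⧸ A)) (dvd_refl _), sol_gcd k (Nat.card (G ⧸ A)) (by rw [hD])]
  have h1 := sol_quot A hA (Nat.gcd k (Nat.card (G ⧸ A)))
  have h2 := sol_quot B hB (Nat.gcd k (Nat.card (G ⧸ A)))
  rw [← hAB] at h2
  rw [hsol, h2] at h1
  exact (Nat.eq_of_mul_eq_mul_left hMpos h1).symm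

/-- The property of Sylow subgroups of Frobenius complements, in a form stable under quotients. -/
def Pr (Y : Type*) [Group Y] : Prop :=
  ∀ (r : ℕ) [Fact r.Prime], ∃ R : Sylow r Y, (r ≠ 2 → IsCyclic (R : Subgroup Y)) ∧
    (r = 2 → ∃ Z : Subgroup Y, Z ≤ (R : Subgroup Y) ∧ IsCyclic Z ∧ Nat.card R ≤ 2 * Nat.card Z)

theorem Pr_quot {Y : Type*} [Group Y] [Finite Y] (h : Pr Y) (T : Subgroup Y) [T.Normal] : Pr (Y ⧸ T) := by
  intro r _
  obtain ⟨R, h1, h2⟩ := h r
  have hsurj : Function.Surjective (QuotientGroup.mk' T) := QuotientGroup.mk'_surjective T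
  refine ⟨Sylow.mapSurjective hsurj R, ?_, ?_⟩
  · intro hr
    rw [Sylow.coe_mapSurjective]
    haveI := h1 hr
    exact isCyclic_of_surjective ((QuotientGroup.mk' T).subgroupMap (R : Subgroup Y))
      ((QuotientGroup.mk' T).subgroupMap_surjective _)
  · intro hr
    obtain ⟨Z, hZR, hZc, hcard⟩ := h2 hr
    refine ⟨Z.map (QuotientGroup.mk' T), ?_, ?_, ?_⟩
    · rw [Sylow.coe_mapSurjective]
      exact Subgroup.map_mono hZR
    · haveI := hZc
      exact isCyclic_of_surjective ((QuotientGroup.mk' T).subgroupMap Z)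
        ((QuotientGroup.mk' T).subgroupMap_surjective _)
    · have hcoe : ((Sylow.mapSurjective hsurj R : Sylow r (Y ⧸ T)) : Subgroup (Y ⧸ T)) =
          (R : Subgroup Y).map (QuotientGroup.mk' T) := Sylow.coe_mapSurjective _ _
      change Nat.card ((Sylow.mapSurjective hsurj R : Sylow r (Y ⧸ T)) : Subgroup (Y ⧸ T)) ≤ _
      rw [hcoe]
      have hr1 : Nat.card Z * Z.relIndex (R : Subgroup Y) = Nat.card (R : Subgroup Y) :=
        Cfsg.Agent.Lib.H5Basic.card_mul_relIndex_of_le hZR
      have hZpos : 0 < Nat.card Z := Nat.card_pos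
      have hr2 : Z.relIndex (R : Subgroup Y) ≤ 2 := by
        have : Nat.card Z * Z.relIndex (R : Subgroup Y) ≤ Nat.card Z * 2 := by
          rw [hr1, mul_comm (Nat.card Z)]
          exact hcard
        exact Nat.le_of_mul_le_mul_left this hZpos
      have hZRm : Z.map (QuotientGroup.mk' T) ≤ (R : Subgroup Y).map (QuotientGroup.mk' T) :=
        Subgroup.map_mono hZR
      have hr3 : Nat.card (Z.map (QuotientGroup.mk' T)) *
          (Z.map (QuotientGroup.mk' T)).relIndex ((R : Subgroup Y).map (QuotientGroup.mk' T)) =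
          Nat.card ((R : Subgroup Y).map (QuotientGroup.mk' T)) :=
        Cfsg.Agent.Lib.H5Basic.card_mul_relIndex_of_le hZRm
      have hr4 : (Z.map (QuotientGroup.mk' T)).relIndex ((R : Subgroup Y).map (QuotientGroup.mk' T)) ∣
          Z.relIndex (R : Subgroup Y) := by
        let f' := (QuotientGroup.mk' T).subgroupMap (R : Subgroup Y)
        have hf' : Function.Surjective f' := (QuotientGroup.mk' T).subgroupMap_surjective _
        have heq : (Z.subgroupOf (R : Subgroup Y)).map f' =
            (Z.map (QuotientGroup.mk' T)).subgroupOf ((R : Subgroup Y).map (QuotientGroup.mk' T)) := by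
          ext ⟨x, hx⟩
          simp only [Subgroup.mem_map, Subgroup.mem_subgroupOf]
          constructor
          · rintro ⟨⟨y, hy⟩, hyZ, hyx⟩
            refine ⟨y, hyZ, ?_⟩
            exact congrArg Subtype.val hyx
          · rintro ⟨y, hyZ, hyx⟩
            refine ⟨⟨y, hZR hyZ⟩, hyZ, ?_⟩
            apply Subtype.ext
            exact hyx
        have := Subgroup.index_map_dvd (Z.subgroupOf (R : Subgroup Y)) hf'
        rw [heq] at this
        exact this
      have hr5 : (Z.map (QuotientGroup.mk' T)).relIndex ((R : Subgroup Y).map (QuotientGroup.mk' T)) ≤ 2 := by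
        have hpos : 0 < Z.relIndex (R : Subgroup Y) := by
          rcases Nat.eq_zero_or_pos (Z.relIndex (R : Subgroup Y)) with h0 | h0
          · rw [h0] at hr1
            have : 0 < Nat.card (R : Subgroup Y) := Nat.card_pos
            omega
          · exact h0
        exact (Nat.le_of_dvd hpos hr4).trans hr2
      rw [← hr3, mul_comm]
      exact Nat.mul_le_mul_right _ hr5

theorem card_le_of_cyclic {Y : Type*} [Group Y] [Finite Y] (Z : Subgroup Y) (hZ : IsCyclic Z)
    (E : Subgroup Y) (hEZ : E ≤ Z) (n : ℕ) (hn : 0 < n) (h : ∀ x ∈ E, x ^ n = 1) :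
    Nat.card E ≤ n := by
  classical
  cases nonempty_fintype Z
  have h1 := IsCyclic.card_pow_eq_one_le (α := Z) hn
  have h2 : Nat.card E ≤ Nat.card {a : Z // a ^ n = 1} := by
    apply Nat.card_le_card_of_injective
      (fun x : E => (⟨⟨x.1, hEZ x.2⟩, by
        apply Subtype.ext
        simpa using h x.1 x.2⟩ : {a : Z // a ^ n = 1}))
    intro x y hxy
    have := congrArg (fun z : {a : Z // a ^ n = 1} => ((z.1 : Z) : Y)) hxy
    exact Subtype.ext this
  have h3 : Nat.card {a : Z // a ^ n = 1} = (Finset.univ.filter (fun a : Z => a ^ n = 1)).card := by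
    rw [Nat.card_eq_fintype_card, Fintype.card_subtype]
  rw [h3] at h2
  exact h2.trans h1

theorem Pr_bound {Y : Type*} [Group Y] [Finite Y] (h : Pr Y) (r : ℕ) (hr : r.Prime) (E : Subgroup Y)
    (hexp : ∀ x ∈ E, x ^ r = 1) : Nat.card E ≤ r ∨ (r = 2 ∧ Nat.card E ≤ 4) := by
  classical
  haveI : Fact r.Prime := ⟨hr⟩
  obtain ⟨R, h1, h2⟩ := h r
  have hEp : IsPGroup r E := by
    intro x
    exact ⟨1, by
      apply Subtype.ext
      simpa using hexp x.1 x.2⟩
  obtain ⟨S, hS⟩ := hEp.exists_le_sylow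
  obtain ⟨g, hg⟩ := MulAction.exists_smul_eq Y S R
  let E' : Subgroup Y := E.map (MulAut.conj g).toMonoidHom
  have hcard : Nat.card E' = Nat.card E :=
    Subgroup.card_map_of_injective (MulAut.conj g).injective
  have hE'R : E' ≤ (R : Subgroup Y) := by
    rw [← hg]
    rintro _ ⟨x, hx, rfl⟩
    have : x ∈ (S : Subgroup Y) := hS hx
    change g * x * g⁻¹ ∈ ((g • S : Sylow r Y) : Subgroup Y)
    rw [Sylow.coe_subgroup_smul]
    exact ⟨x, this, rfl⟩
  have hE'exp : ∀ x ∈ E', x ^ r = 1 := by
    rintro _ ⟨x, hx, rfl⟩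
    change (g * x * g⁻¹) ^ r = 1
    rw [conj_pow, hexp x hx]
    simp
  by_cases hr2 : r = 2
  · right
    refine ⟨hr2, ?_⟩
    subst hr2
    obtain ⟨Z, hZR, hZc, hZcard⟩ := h2 rfl
    have h3 := Cfsg.Agent.Lib.H5Basic.card_mul_card_le E' Z
    have h4 : Nat.card ↥(E' ⊔ Z) ≤ Nat.card R :=
      Subgroup.card_le_of_le (sup_le hE'R hZR)
    have h5 : Nat.card ↥(E' ⊓ Z) ≤ 2 :=
      card_le_of_cyclic Z hZc _ inf_le_right 2 (by norm_num) (fun x hx => hE'exp x hx.1)
    have hZpos : 0 < Nat.card Z := Nat.card_pos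
    have h6 : Nat.card E' * Nat.card Z ≤ 4 * Nat.card Z := by
      calc Nat.card E' * Nat.card Z ≤ Nat.card ↥(E' ⊔ Z) * Nat.card ↥(E' ⊓ Z) := h3
        _ ≤ (2 * Nat.card Z) * 2 := Nat.mul_le_mul (h4.trans hZcard) h5
        _ = 4 * Nat.card Z := by ring
    rw [← hcard]
    exact Nat.le_of_mul_le_mul_right h6 hZpos
  · left
    rw [← hcard]
    exact card_le_of_cyclic _ (h1 hr2) E' hE'R r hr.pos hE'exp

theorem tower : ∀ (n : ℕ) (X : Type u) [Group X] [Finite X], Nat.card X = n → Group.IsSolvable X →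
    Pr X → ∀ (p : ℕ) [Fact p.Prime], 5 ≤ p → (∀ q, q.Prime → q ∣ Nat.card X → q ≤ p) →
    ∀ P : Sylow p X, (P : Subgroup X).Normal := by
  intro n
  induction n using Nat.strong_induction_on with
  | _ n ih =>
  intro X _ _ hn hsol hPr p _ hp5 hmax P
  classical
  have hpp : p.Prime := Fact.out
  by_cases hnt : Nontrivial X
  swap
  · rw [not_nontrivial_iff_subsingleton] at hnt
    exact ⟨fun x hx g => by rw [Subsingleton.elim (g * x * g⁻¹) x]; exact hx⟩
  obtain ⟨N, hNn, hNb, hNmin⟩ := Cfsg.Agent.Lib.Burnside2T.exists_minimal_normal (G := X)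
  haveI := hNn
  obtain ⟨hcomm, r, hr, hexp⟩ := Cfsg.Agent.Lib.FitSolv.minimal_normal_elementary N hNb hNmin
  have hsurj : Function.Surjective (QuotientGroup.mk' N) := QuotientGroup.mk'_surjective N
  have hlt : Nat.card (X ⧸ N) < n := by
    rw [← hn, card_quotient_eq N]
    have h1 : 1 < Nat.card N := (Subgroup.one_lt_card_iff_ne_bot N).2 hNb
    have h2 : 0 < Nat.card (X ⧸ N) := Nat.card_pos
    nlinarith
  have hsolq : Group.IsSolvable (X ⧸ N) := Group.isSolvable_of_surjective hsurj
  have hmaxq : ∀ q, q.Prime → q ∣ Nat.card (X ⧸ N) → q ≤ p := by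
    intro q hq hqd
    apply hmax q hq
    rw [card_quotient_eq N]
    exact Dvd.dvd.mul_right hqd _
  have hPb := ih _ hlt (X ⧸ N) rfl hsolq (Pr_quot hPr N) p hp5 hmaxq (Sylow.mapSurjective hsurj P)
  rw [Sylow.coe_mapSurjective] at hPb
  have hsupn : ((P : Subgroup X) ⊔ N).Normal := by
    have h1 := hPb.comap (QuotientGroup.mk' N)
    rw [Subgroup.comap_map_eq, QuotientGroup.ker_mk'] at h1
    exact h1
  by_cases hrp : r = p
  · subst hrp
    have hNp : IsPGroup r N := by
      intro x
      exact ⟨1, by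
        apply Subtype.ext
        simpa using hexp x.1 x.2⟩
    have hle : N ≤ (P : Subgroup X) := IsPGroup.le_sylow_of_normal hNp P
    rwa [sup_eq_left.2 hle] at hsupn
  -- `r < p`
  obtain ⟨x₀, hx₀, hx₀1⟩ := (Subgroup.bot_or_exists_ne_one N).resolve_left hNb
  haveI : Fact r.Prime := ⟨hr⟩
  have hordx : orderOf x₀ = r := orderOf_eq_prime (hexp x₀ hx₀) hx₀1
  have hrd : r ∣ Nat.card X := by
    rw [← hordx]; exact orderOf_dvd_natCard _
  have hrle := hmax r hr hrd
  have hrlt : r < p := lt_of_le_of_ne hrle hrp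
  have hNcard : Nat.card N ≤ p := by
    rcases Pr_bound hPr r hr N hexp with h | ⟨_, h⟩
    · omega
    · omega
  -- `P` centralises `N`
  have hcent : ∀ x ∈ (P : Subgroup X), ∀ v ∈ N, x * v * x⁻¹ = v := by
    intro x hx v hv
    by_cases hv1 : v = 1
    · subst hv1; simp
    let φ : (P : Subgroup X) →* MulAut N := (MulAut.conjNormal : X →* MulAut N).comp (P : Subgroup X).subtype
    letI : MulAction (P : Subgroup X) N := MulAction.compHom N φ
    have hsmul : ∀ (y : (P : Subgroup X)) (w : N), ((y • w : N) : X) = (y : X) * w * (y : X)⁻¹ := by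
      intro y w
      exact MulAut.conjNormal_apply (y : X) w
    obtain ⟨k, hk⟩ := IsPGroup.card_orbit P.isPGroup' (⟨v, hv⟩ : N)
    have horb1 : (1 : N) ∉ MulAction.orbit (P : Subgroup X) (⟨v, hv⟩ : N) := by
      rintro ⟨y, hy⟩
      have h1 := congrArg Subtype.val hy
      change ((y • (⟨v, hv⟩ : N) : N) : X) = 1 at h1
      rw [hsmul] at h1
      apply hv1
      have h2 : (y : X) * v * (y : X)⁻¹ = 1 := h1
      have h3 : v = (y : X)⁻¹ * ((y : X) * v * (y : X)⁻¹) * (y : X) := by group
      rw [h3, h2]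
      group
    have horbcard : Nat.card (MulAction.orbit (P : Subgroup X) (⟨v, hv⟩ : N)) < p := by
      have h1 : Nat.card (MulAction.orbit (P : Subgroup X) (⟨v, hv⟩ : N)) < Nat.card N := by
        have h2 : (MulAction.orbit (P : Subgroup X) (⟨v, hv⟩ : N)) ≠ Set.univ := by
          intro h
          apply horb1
          rw [h]
          trivial
        rw [Nat.card_coe_set_eq, ← Set.ncard_univ]
        exact Set.ncard_lt_ncard (Set.ssubset_univ_iff.2 h2) (Set.toFinite _)
      omega
    have hk0 : k = 0 := by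
      by_contra h0
      rw [hk] at horbcard
      have : p ≤ p ^ k := Nat.le_self_pow h0 p
      omega
    rw [hk0, pow_zero] at hk
    have hsub := (Nat.card_eq_one_iff_unique.1 hk).1
    have h1 : (⟨x, hx⟩ : (P : Subgroup X)) • (⟨v, hv⟩ : N) ∈ MulAction.orbit (P : Subgroup X) (⟨v, hv⟩ : N) :=
      ⟨⟨x, hx⟩, rfl⟩
    have h2 : (⟨v, hv⟩ : N) ∈ MulAction.orbit (P : Subgroup X) (⟨v, hv⟩ : N) :=
      MulAction.mem_orbit_self _
    have h3 := congrArg Subtype.val (Subsingleton.elim (⟨_, h1⟩ : MulAction.orbit (P : Subgroup X) (⟨v, hv⟩ : N)) ⟨_, h2⟩)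
    simp only at h3
    have h4 := congrArg Subtype.val h3
    rw [hsmul] at h4
    exact h4
  -- conclusion
  refine ⟨fun x hx g => ?_⟩
  have hmem : g * x * g⁻¹ ∈ (P : Subgroup X) ⊔ N :=
    hsupn.conj_mem x (Subgroup.mem_sup_left hx) g
  obtain ⟨u, hu, w, hw, huw⟩ := Subgroup.mem_sup_of_normal_right.1 hmem
  have hcuw : Commute u w := by
    have := hcent u hu w hw
    rw [mul_inv_eq_iff_eq_mul] at this
    exact this
  have hxP : x ^ Nat.card P = 1 := by
    have h3 : (⟨x, hx⟩ : (P : Subgroup X)) ^ Nat.card P = 1 := pow_card_eq_one'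
    exact congrArg Subtype.val h3
  have huP : u ^ Nat.card P = 1 := by
    have h3 : (⟨u, hu⟩ : (P : Subgroup X)) ^ Nat.card P = 1 := pow_card_eq_one'
    exact congrArg Subtype.val h3
  have hwP : w ^ Nat.card P = 1 := by
    have h1 : (g * x * g⁻¹) ^ Nat.card P = 1 := by
      rw [conj_pow, hxP]; simp
    rw [← huw, hcuw.mul_pow, huP, one_mul] at h1
    exact h1
  have hw1 : w = 1 := by
    obtain ⟨k, hk⟩ := IsPGroup.iff_card.1 P.isPGroup'
    have hc : Nat.Coprime (p ^ k) r := Nat.Coprime.pow_left _ ((Nat.coprime_primes hpp hr).2 (Ne.symm hrp))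
    rw [hk] at hwP
    have h1 := pow_gcd_eq_one.2 ⟨hwP, hexp w hw⟩
    rw [Nat.Coprime.gcd_eq_one hc, pow_one] at h1
    exact h1
  rw [← huw, hw1, mul_one]
  exact hu

/-- Main induction: order statistics transfer solvability from a group with property `Pr`. -/
theorem mainM : ∀ (n : ℕ) (X₁ : Type u) (X₂ : Type v) [Group X₁] [Finite X₁] [Group X₂] [Finite X₂],
    Nat.card X₁ = n → (∀ k, sol X₁ k = sol X₂ k) → Group.IsSolvable X₁ → Pr X₁ →
    Group.IsSolvable X₂ := by
  intro n
  induction n using Nat.strong_induction_on with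
  | _ n ih =>
  intro X₁ X₂ _ _ _ _ hn hsol hs1 hPr
  classical
  have hcard := card_eq_of_sol hsol
  by_cases hn1 : n = 1
  · subst hn1
    have h2 : Nat.card X₂ = 1 := by rw [← hcard, hn]
    haveI : Subsingleton X₂ := (Nat.card_eq_one_iff_unique.1 h2).1
    exact Group.isSolvable_of_top_eq_bot X₂ (Subsingleton.elim _ _)
  have hnpos : 0 < n := by rw [← hn]; exact Nat.card_pos
  have hne : n.primeFactors.Nonempty := Nat.nonempty_primeFactors.2 (by omega)
  set p := n.primeFactors.max' hne with hp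
  have hpmem : p ∈ n.primeFactors := Finset.max'_mem _ _
  have hpp : p.Prime := Nat.prime_of_mem_primeFactors hpmem
  have hpd : p ∣ n := Nat.dvd_of_mem_primeFactors hpmem
  have hmax : ∀ q, q.Prime → q ∣ n → q ≤ p := fun q hq hd =>
    Finset.le_max' _ _ (Nat.mem_primeFactors.2 ⟨hq, hd, by omega⟩)
  by_cases hp5 : 5 ≤ p
  · haveI : Fact p.Prime := ⟨hpp⟩
    obtain ⟨P⟩ : Nonempty (Sylow p X₁) := inferInstance
    have hPn : (P : Subgroup X₁).Normal := tower n X₁ hn hs1 hPr p hp5 (by rw [hn]; exact hmax) P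
    obtain ⟨Q⟩ : Nonempty (Sylow p X₂) := inferInstance
    have hcPQ : Nat.card P = Nat.card Q := by
      rw [Sylow.card_eq_multiplicity P, Sylow.card_eq_multiplicity Q, hcard]
    have hs : sol X₂ (Nat.card Q) = Nat.card Q := by
      rw [← hcPQ, ← hsol]
      exact sol_normal_sylow P hPn
    have hQn : (Q : Subgroup X₂).Normal := normal_of_sol Q hs
    haveI := hPn
    haveI := hQn
    have hcop1 : (Nat.card (P : Subgroup X₁)).Coprime (Nat.card (X₁ ⧸ (P : Subgroup X₁))) := by
      have := Sylow.card_coprime_index P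
      rwa [Subgroup.index_eq_card] at this
    have hcop2 : (Nat.card (Q : Subgroup X₂)).Coprime (Nat.card (X₂ ⧸ (Q : Subgroup X₂))) := by
      have := Sylow.card_coprime_index Q
      rwa [Subgroup.index_eq_card] at this
    have hq := sol_quotient hsol (P : Subgroup X₁) (Q : Subgroup X₂) hcPQ hcop1 hcop2
    have hPcard : 1 < Nat.card (P : Subgroup X₁) := by
      rw [Sylow.card_eq_multiplicity P, hn]
      have : 0 < n.factorization p := hpp.factorization_pos_of_dvd hnpos.ne' hpd
      exact Nat.one_lt_pow this.ne' hpp.one_lt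
    have hlt : Nat.card (X₁ ⧸ (P : Subgroup X₁)) < n := by
      rw [← hn, card_quotient_eq (P : Subgroup X₁)]
      have h2 : 0 < Nat.card (X₁ ⧸ (P : Subgroup X₁)) := Nat.card_pos
      nlinarith
    have hsq : Group.IsSolvable (X₁ ⧸ (P : Subgroup X₁)) :=
      Group.isSolvable_of_surjective (QuotientGroup.mk'_surjective _)
    have hq2 := ih _ hlt (X₁ ⧸ (P : Subgroup X₁)) (X₂ ⧸ (Q : Subgroup X₂)) rfl hq hsq (Pr_quot hPr _)
    haveI : Group.IsNilpotent (Q : Subgroup X₂) := Q.isPGroup'.isNilpotent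
    haveI : Group.IsSolvable (Q : Subgroup X₂) := IsNilpotent.to_isSolvable
    exact Group.isSolvable_of_ker_le_range (Q : Subgroup X₂).subtype (QuotientGroup.mk' (Q : Subgroup X₂))
      (by simp)
  · have hple : p ≤ 3 := by
      have h4 : p ≠ 4 := fun h => (by norm_num : ¬ Nat.Prime 4) (h ▸ hpp)
      omega
    have h23 : ∀ q, q.Prime → q ∣ n → q = 2 ∨ q = 3 := by
      intro q hq hd
      have h3 : q ≤ 3 := (hmax q hq hd).trans hple
      have h2 := hq.two_le
      omega
    have hform : ∃ a b, n = 2 ^ a * 3 ^ b := by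
      obtain ⟨a, m, hm, hnm⟩ := Nat.exists_eq_pow_mul_and_not_dvd hnpos.ne' 2 (by norm_num)
      obtain ⟨b, m', hm', hmm⟩ := Nat.exists_eq_pow_mul_and_not_dvd
        (by rintro rfl; simp at hm : m ≠ 0) 3 (by norm_num)
      have hm'1 : m' = 1 := by
        by_contra hne1
        obtain ⟨q, hq, hqd⟩ := Nat.exists_prime_and_dvd hne1
        have hqn : q ∣ n := by
          rw [hnm, hmm]
          exact Dvd.dvd.mul_left (Dvd.dvd.mul_left hqd _) _
        rcases h23 q hq hqn with rfl | rfl
        · apply hm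
          rw [hmm]
          exact Dvd.dvd.mul_left hqd _
        · exact hm' hqd
      refine ⟨a, b, ?_⟩
      rw [hnm, hmm, hm'1, mul_one]
    obtain ⟨a, b, hab⟩ := hform
    exact Cfsg.Agent.Lib.CharBurnside.solvable_two_prime 2 3 (by norm_num) (by norm_num) _ X₂ a b rfl
      (by rw [← hcard, hn, hab])

/-- A Hall divisor all of whose primes have normal Sylow subgroups gives a solvable normal subgroup. -/
theorem hall_normal : ∀ (n : ℕ) (X : Type u) [Group X] [Finite X], n ∣ Nat.card X →
    n.Coprime (Nat.card X / n) →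
    (∀ (r : ℕ) [Fact r.Prime], r ∣ n → ∃ R : Sylow r X, (R : Subgroup X).Normal) →
    ∃ N : Subgroup X, N.Normal ∧ Nat.card N = n ∧ Group.IsSolvable N := by
  intro n
  induction n using Nat.strong_induction_on with
  | _ n ih =>
  intro X _ _ hd hcop hS
  classical
  by_cases hn1 : n = 1
  · subst hn1
    refine ⟨⊥, inferInstance, by simp, ?_⟩
    exact Group.isSolvable_of_top_eq_bot _ (Subsingleton.elim _ _)
  have hXpos : 0 < Nat.card X := Nat.card_pos
  have hnpos : 0 < n := Nat.pos_of_dvd_of_pos hd hXpos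
  obtain ⟨t, ht⟩ := hd
  have htpos : 0 < t := by
    rcases Nat.eq_zero_or_pos t with h | h
    · subst h; omega
    · exact h
  have hdiv : Nat.card X / n = t := by rw [ht]; exact Nat.mul_div_cancel_left t hnpos
  rw [hdiv] at hcop
  set r := n.minFac with hr
  have hrp : r.Prime := Nat.minFac_prime hn1
  have hrd : r ∣ n := Nat.minFac_dvd n
  haveI : Fact r.Prime := ⟨hrp⟩
  obtain ⟨R, hRn⟩ := hS r hrd
  haveI := hRn
  have hRcard : Nat.card (R : Subgroup X) = r ^ (Nat.card X).factorization r :=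
    Sylow.card_eq_multiplicity R
  have hrt : ¬ r ∣ t := fun h => by
    have := Nat.dvd_gcd hrd h
    rw [hcop] at this
    exact hrp.one_lt.ne' (Nat.dvd_one.1 this)
  have hfac : (Nat.card X).factorization r = n.factorization r := by
    rw [ht, Nat.factorization_mul hnpos.ne' htpos.ne']
    simp [Nat.factorization_eq_zero_of_not_dvd hrt]
  have hRd : Nat.card (R : Subgroup X) ∣ n := by
    rw [hRcard, hfac]
    exact Nat.ordProj_dvd n r
  obtain ⟨n', hn'⟩ := hRd
  have hRgt : 1 < Nat.card (R : Subgroup X) := by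
    rw [hRcard, hfac]
    exact Nat.one_lt_pow (hrp.factorization_pos_of_dvd hnpos.ne' hrd).ne' hrp.one_lt
  have hn'pos : 0 < n' := by
    rcases Nat.eq_zero_or_pos n' with h | h
    · subst h; omega
    · exact h
  have hlt : n' < n := by rw [hn']; nlinarith
  have hcardq : Nat.card X = Nat.card (X ⧸ (R : Subgroup X)) * Nat.card (R : Subgroup X) :=
    card_quotient_eq (R : Subgroup X)
  have hq : Nat.card (X ⧸ (R : Subgroup X)) = n' * t := by
    have h1 : Nat.card (X ⧸ (R : Subgroup X)) * Nat.card (R : Subgroup X) =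
        (n' * t) * Nat.card (R : Subgroup X) := by
      rw [← hcardq, ht, hn']; ring
    exact Nat.eq_of_mul_eq_mul_right (by omega) h1
  have hsurj : Function.Surjective (QuotientGroup.mk' (R : Subgroup X)) :=
    QuotientGroup.mk'_surjective _
  obtain ⟨N', hN'n, hN'c, hN's⟩ := ih n' hlt (X ⧸ (R : Subgroup X)) ⟨t, hq⟩
    (by
      rw [hq, Nat.mul_div_cancel_left t hn'pos]
      exact Nat.Coprime.coprime_dvd_left ⟨_, by rw [hn']; ring⟩ hcop)
    (by
      intro s _ hsd
      obtain ⟨S, hSn⟩ := hS s (hsd.trans ⟨_, by rw [hn']; ring⟩)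
      refine ⟨Sylow.mapSurjective hsurj S, ?_⟩
      rw [Sylow.coe_mapSurjective]
      exact hSn.map _ hsurj)
  haveI := hN'n
  haveI := hN's
  refine ⟨N'.comap (QuotientGroup.mk' (R : Subgroup X)), inferInstance, ?_, ?_⟩
  · have h1 := Subgroup.index_comap_of_surjective N' hsurj
    have h2 := Subgroup.card_mul_index (N'.comap (QuotientGroup.mk' (R : Subgroup X)))
    have h3 := Subgroup.card_mul_index N'
    have hipos : 0 < N'.index := Nat.pos_of_ne_zero Subgroup.index_ne_zero_of_finite
    have h4 : Nat.card (N'.comap (QuotientGroup.mk' (R : Subgroup X))) * N'.index =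
        (Nat.card (R : Subgroup X) * n') * N'.index := by
      rw [← h1, h2, hcardq, ← h3, h1, hN'c]
      ring
    rw [hn']
    exact Nat.eq_of_mul_eq_mul_right hipos h4
  · have hle : (R : Subgroup X) ≤ N'.comap (QuotientGroup.mk' (R : Subgroup X)) := by
      intro x hx
      rw [Subgroup.mem_comap]
      have : QuotientGroup.mk' (R : Subgroup X) x = 1 :=
        (QuotientGroup.eq_one_iff x).2 hx
      rw [this]
      exact N'.one_mem
    haveI : Group.IsNilpotent (R : Subgroup X) := R.isPGroup'.isNilpotent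
    haveI : Group.IsSolvable (R : Subgroup X) := IsNilpotent.to_isSolvable
    refine Group.isSolvable_of_ker_le_range (Subgroup.inclusion hle)
      ((QuotientGroup.mk' (R : Subgroup X)).subgroupComap N') ?_
    rintro ⟨x, hx⟩ hker
    have h1 : QuotientGroup.mk' (R : Subgroup X) x = 1 := by
      have := congrArg Subtype.val (MonoidHom.mem_ker.1 hker)
      exact this
    have h2 : x ∈ (R : Subgroup X) := (QuotientGroup.eq_one_iff x).1 h1
    exact ⟨⟨x, h2⟩, rfl⟩

/-- No mixing of commuting elements of coprime orders. -/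
theorem nomix {X : Type*} [Group X] (n m : ℕ) (hc : n.Coprime m)
    (h : ∀ y : X, orderOf y ∣ n ∨ orderOf y ∣ m) (x y : X) (hxy : Commute x y)
    (hx : orderOf x ∣ n) (hy : orderOf y ∣ m) : x = 1 ∨ y = 1 := by
  have hcop : (orderOf x).Coprime (orderOf y) := Nat.Coprime.coprime_dvd_left hx (Nat.Coprime.coprime_dvd_right hy hc)
  have hxyo := hxy.orderOf_mul_eq_mul_orderOf_of_coprime hcop
  rcases h (x * y) with h1 | h1
  · right
    rw [hxyo] at h1
    have h2 : orderOf y ∣ n := (Dvd.intro_left _ rfl).trans h1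
    have h3 : orderOf y ∣ Nat.gcd n m := Nat.dvd_gcd h2 hy
    rw [hc] at h3
    exact orderOf_eq_one_iff.1 (Nat.dvd_one.1 h3)
  · left
    rw [hxyo] at h1
    have h2 : orderOf x ∣ m := (Dvd.intro _ rfl).trans h1
    have h3 : orderOf x ∣ Nat.gcd n m := Nat.dvd_gcd hx h2
    rw [hc] at h3
    exact orderOf_eq_one_iff.1 (Nat.dvd_one.1 h3)

/-- The property `Pr` for a fixed point free complement. -/
theorem Pr_of_fpf {X : Type*} [Group X] [Finite X] (K H : Subgroup X) [K.Normal]
    (hc : Subgroup.IsComplement' K H) (hK : K ≠ ⊥)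
    (hfpf : ∀ h ∈ H, h ≠ 1 → K ⊓ Subgroup.centralizer {h} = ⊥) : Pr H := by
  intro r _
  obtain ⟨R⟩ : Nonempty (Sylow r H) := inferInstance
  refine ⟨R, ?_⟩
  have hrp : r.Prime := Fact.out
  rcases Cfsg.Agent.S0040.result K H hc hK hfpf r R with hcyc | ⟨n, ⟨e⟩⟩
  · refine ⟨fun _ => hcyc, fun _ => ⟨R, le_refl _, hcyc, ?_⟩⟩
    have : 0 < Nat.card (R : Subgroup H) := Nat.card_pos
    change Nat.card (R : Subgroup H) ≤ _
    omega
  · haveI : NeZero (2 ^ n) := ⟨by positivity⟩
    have hcardQ : Nat.card (QuaternionGroup (2 ^ n)) = 4 * 2 ^ n := by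
      rw [Nat.card_eq_fintype_card, QuaternionGroup.card]
    have hcardR : Nat.card (R : Subgroup H) = 4 * 2 ^ n := by
      rw [Nat.card_congr e.toEquiv, hcardQ]
    have hr2 : r = 2 := by
      obtain ⟨k, hk⟩ := IsPGroup.iff_card.1 R.isPGroup'
      rw [hcardR] at hk
      have h2 : 2 ∣ r ^ k := by
        rw [← hk]
        exact ⟨2 * 2 ^ n, by ring⟩
      have h3 := Nat.prime_two.dvd_of_dvd_pow h2
      exact ((Nat.prime_dvd_prime_iff_eq Nat.prime_two hrp).1 h3).symm
    refine ⟨fun h => absurd hr2 h, fun _ => ?_⟩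
    let z : (R : Subgroup H) := e.symm (QuaternionGroup.a 1)
    refine ⟨Subgroup.zpowers (z : H), ?_, inferInstance, ?_⟩
    · rw [Subgroup.zpowers_le]
      exact z.2
    · change Nat.card (R : Subgroup H) ≤ _
      rw [hcardR, Nat.card_zpowers, Subgroup.orderOf_coe, MulEquiv.orderOf_eq, QuaternionGroup.orderOf_a_one]
      apply le_of_eq
      ring

/-- Elements outside a Frobenius kernel lie in a conjugate of the complement. -/
theorem order_dvd_of_frob {F : Type*} [Group F] [Finite F] (C N : Subgroup F)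
    (hN : (N : Set F) = Cfsg.frobeniusKernel C) (y : F) :
    orderOf y ∣ Nat.card N ∨ orderOf y ∣ Nat.card C := by
  by_cases hy : y ∈ N
  · left
    have := orderOf_dvd_natCard (⟨y, hy⟩ : N)
    rwa [Subgroup.orderOf_mk] at this
  · right
    have h1 : y ∉ Cfsg.frobeniusKernel C := by
      rw [← hN]; exact hy
    simp only [Cfsg.frobeniusKernel, Set.mem_ofPred_eq, not_or, not_forall, not_not] at h1
    obtain ⟨_, g, hg⟩ := h1
    rw [Subgroup.mem_pointwise_smul_iff_inv_smul_mem] at hg
    have h2 := orderOf_dvd_natCard (⟨_, hg⟩ : C)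
    rw [Subgroup.orderOf_mk] at h2
    have h3 : orderOf ((MulAut.conj g)⁻¹ • y) = orderOf y := by
      change orderOf ((MulAut.conj g)⁻¹ y) = orderOf y
      exact MulEquiv.orderOf_eq _ _
    rwa [h3] at h2

/-- Normal Sylow subgroups for primes dividing a nilpotent normal Hall subgroup. -/
theorem normal_sylow_of_nilp {F : Type*} [Group F] [Finite F] (K : Subgroup F) [K.Normal]
    (hK : Group.IsNilpotent K) (hcop : (Nat.card K).Coprime K.index)
    (r : ℕ) [Fact r.Prime] (hr : r ∣ Nat.card K) :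
    ∃ R : Sylow r F, (R : Subgroup F).Normal := by
  classical
  have hrp : r.Prime := Fact.out
  obtain ⟨R₀⟩ : Nonempty (Sylow r K) := inferInstance
  have hR₀n : (R₀ : Subgroup K).Normal :=
    ((Group.isNilpotent_of_finite_tfae (G := K)).out 0 3 rfl rfl).1 hK r inferInstance R₀
  haveI hchar : (R₀ : Subgroup K).Characteristic := Sylow.characteristic_of_normal R₀ hR₀n
  have hnorm := Cfsg.Agent.Lib.FitCore.map_subtype_normal_of_char K (R₀ : Subgroup K)
  have hcard : Nat.card ((R₀ : Subgroup K).map K.subtype) = r ^ (Nat.card F).factorization r := by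
    rw [Subgroup.card_map_of_injective K.subtype_injective, Sylow.card_eq_multiplicity R₀]
    congr 1
    have hpos : 0 < Nat.card K := Nat.card_pos
    have hipos : 0 < K.index := Nat.pos_of_ne_zero Subgroup.index_ne_zero_of_finite
    rw [← Subgroup.card_mul_index K, Nat.factorization_mul hpos.ne' hipos.ne']
    have hnd : ¬ r ∣ K.index := fun h => by
      have := Nat.dvd_gcd hr h
      rw [hcop] at this
      exact hrp.one_lt.ne' (Nat.dvd_one.1 this)
    simp [Nat.factorization_eq_zero_of_not_dvd hnd]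
  refine ⟨Sylow.ofCard _ hcard, ?_⟩
  exact hnorm

/-- Transfer of normal Sylow subgroups along order statistics. -/
theorem normal_sylow_transfer {F : Type u} {G : Type v} [Group F] [Finite F] [Group G] [Finite G]
    (hsol : ∀ k, sol F k = sol G k) (r : ℕ) [Fact r.Prime] (R : Sylow r F)
    (hR : (R : Subgroup F).Normal) : ∃ Q : Sylow r G, (Q : Subgroup G).Normal ∧ Nat.card Q = Nat.card R := by
  obtain ⟨Q⟩ : Nonempty (Sylow r G) := inferInstance
  have hcard := card_eq_of_sol hsol
  have hcPQ : Nat.card R = Nat.card Q := by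
    rw [Sylow.card_eq_multiplicity R, Sylow.card_eq_multiplicity Q, hcard]
  refine ⟨Q, normal_of_sol Q ?_, hcPQ.symm⟩
  rw [← hcPQ, ← hsol]
  exact sol_normal_sylow R hR

theorem frob_of_complement {X : Type*} [Group X] [Finite X] (N H : Subgroup X) [N.Normal]
    (hc : Subgroup.IsComplement' N H) (hN : N ≠ ⊥) (hH : H ≠ ⊥)
    (hcomm : ∀ u ∈ N, ∀ z ∈ H, Commute u z → u = 1 ∨ z = 1) : Cfsg.IsFrobeniusComplement H := by
  have hdis : ∀ {x : X}, x ∈ N → x ∈ H → x = 1 := fun {x} => Subgroup.disjoint_def.1 hc.disjoint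
  refine ⟨hH, ?_, ?_⟩
  · rintro rfl
    apply hN
    rw [eq_bot_iff]
    intro x hx
    exact hdis hx (Subgroup.mem_top x)
  · intro g hg
    rw [eq_bot_iff]
    rintro z ⟨hz, hz2⟩
    have hz2' : z ∈ MulAut.conj g • H := hz2
    rw [Subgroup.mem_pointwise_smul_iff_inv_smul_mem] at hz2'
    have hz3 : g⁻¹ * z * g ∈ H := by
      have : (MulAut.conj g)⁻¹ • z = g⁻¹ * z * g := by
        change (MulAut.conj g)⁻¹ z = _
        simp [MulAut.conj_inv_apply]
      rwa [this] at hz2'
    have hgt : g ∈ N ⊔ H := by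
      rw [hc.sup_eq_top]; exact Subgroup.mem_top g
    obtain ⟨u, hu, h₀, hh₀, hgu⟩ := Subgroup.mem_sup_of_normal_left.1 hgt
    have hu1 : u ≠ 1 := by
      rintro rfl
      apply hg
      rw [← hgu, one_mul]
      exact hh₀
    set h₁ := h₀ * (g⁻¹ * z * g) * h₀⁻¹ with hh₁
    have hh₁H : h₁ ∈ H := H.mul_mem (H.mul_mem hh₀ hz3) (H.inv_mem hh₀)
    have hz4 : z = u * h₁ * u⁻¹ := by
      rw [hh₁, ← hgu]
      group
    have hw : z * h₁⁻¹ = 1 := by
      apply hdis
      · have : z * h₁⁻¹ = u * (h₁ * u⁻¹ * h₁⁻¹) := by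
          rw [hz4]; group
        rw [this]
        exact N.mul_mem hu (‹N.Normal›.conj_mem _ (N.inv_mem hu) _)
      · exact H.mul_mem hz (H.inv_mem hh₁H)
    have hzh : z = h₁ := by
      rw [mul_inv_eq_one] at hw
      exact hw
    have hcm : Commute u z := by
      rw [hzh] at hz4 ⊢
      have := hz4
      rw [eq_mul_inv_iff_mul_eq] at this
      exact this.symm
    rcases hcomm u hu z hz hcm with h | h
    · exact absurd h hu1
    · simpa using h

theorem fpf_of {X : Type*} [Group X] (A B : Subgroup X)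
    (hAB : ∀ u ∈ A, ∀ z ∈ B, Commute u z → u = 1 ∨ z = 1) :
    ∀ h ∈ B, h ≠ 1 → A ⊓ Subgroup.centralizer {h} = ⊥ := by
  intro h hB hne
  rw [eq_bot_iff]
  rintro v ⟨hvA, hvc⟩
  have hvc' : Commute v h := by
    have := Subgroup.mem_centralizer_singleton_iff.1 hvc
    exact this
  rcases hAB v hvA h hB hvc' with h1 | h1
  · simpa using h1
  · exact absurd h1 hne

theorem main {F : Type u} {G : Type v} [Group F] [Finite F] [Group G] [Finite G]
    (hF : ∃ C : Subgroup F, Cfsg.IsFrobeniusComplement C)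
    (hT : ∀ m : ℕ, Nat.card {g : F // orderOf g = m} = Nat.card {h : G // orderOf h = m}) :
    (∃ C : Subgroup G, Cfsg.IsFrobeniusComplement C) ∧ (Group.IsSolvable G ↔ Group.IsSolvable F) := by
  classical
  obtain ⟨C, hC⟩ := hF
  obtain ⟨K, hKset, hKn, hKC⟩ := Cfsg.Agent.S0035.result C hC
  obtain ⟨K', hK'set, _, hKnil⟩ := Cfsg.Agent.S0042.result C hC
  have hKK' : K' = K := SetLike.ext' (hK'set.trans hKset.symm)
  subst hKK'
  haveI := hKn
  have hsol := sol_of_hT hT
  have hcard : Nat.card F = Nat.card G := card_eq_of_sol hsol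
  have hmul : Nat.card K' * Nat.card C = Nat.card F := hKC.card_mul_card
  have hidx : C.index = Nat.card K' := by
    have h1 := Subgroup.card_mul_index C
    have h2 : 0 < Nat.card C := Nat.card_pos
    have h3 : Nat.card C * C.index = Nat.card C * Nat.card K' := by
      rw [h1, ← hmul]; ring
    exact Nat.eq_of_mul_eq_mul_left h2 h3
  have hKidx : K'.index = Nat.card C := by
    have h1 := Subgroup.card_mul_index K'
    have h2 : 0 < Nat.card K' := Nat.card_pos
    have h3 : Nat.card K' * K'.index = Nat.card K' * Nat.card C := by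
      rw [h1, hmul]
    exact Nat.eq_of_mul_eq_mul_left h2 h3
  have hcop : (Nat.card K').Coprime (Nat.card C) := by
    have h1 := (Cfsg.Agent.S0034.result C hC).2
    rw [hidx] at h1
    have h2 : Nat.card K' ≡ 1 [MOD Nat.card C] := h1
    have h3 := h2.gcd_eq
    simpa using h3
  have hK'ne : K' ≠ ⊥ := by
    rintro rfl
    apply hC.2.1
    have h1 : Nat.card C = Nat.card F := by
      rw [← hmul]; simp
    exact Subgroup.eq_top_of_card_eq C h1
  have hn1 : 1 < Nat.card K' := (Subgroup.one_lt_card_iff_ne_bot K').2 hK'ne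
  have hm1 : 1 < Nat.card C := (Subgroup.one_lt_card_iff_ne_bot C).2 hC.1
  have hordF := order_dvd_of_frob C K' hK'set
  have hordG : ∀ y : G, orderOf y ∣ Nat.card K' ∨ orderOf y ∣ Nat.card C := by
    intro y
    have h1 : Nonempty {h : G // orderOf h = orderOf y} := ⟨⟨y, rfl⟩⟩
    have h2 : Nat.card {g : F // orderOf g = orderOf y} ≠ 0 := by
      rw [hT]; exact Nat.card_pos.ne'
    have h3 : Nonempty {g : F // orderOf g = orderOf y} := by
      by_contra hne
      rw [not_nonempty_iff] at hne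
      exact h2 (Nat.card_of_isEmpty)
    obtain ⟨⟨x, hx⟩⟩ := h3
    rw [← hx]
    exact hordF x
  have hcopK : (Nat.card K').Coprime K'.index := by rwa [hKidx]
  have hGmul : Nat.card G = Nat.card K' * Nat.card C := by rw [← hcard, hmul]
  obtain ⟨NG, hNGn, hNGc, hNGs⟩ := hall_normal (Nat.card K') G ⟨Nat.card C, hGmul⟩
    (by rw [hGmul, Nat.mul_div_cancel_left _ (by omega)]; exact hcop)
    (by
      intro r _ hrd
      obtain ⟨R, hR⟩ := normal_sylow_of_nilp K' hKnil hcopK r hrd
      obtain ⟨Q, hQ, _⟩ := normal_sylow_transfer hsol r R hR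
      exact ⟨Q, hQ⟩)
  haveI := hNGn
  have hNGidx : NG.index = Nat.card C := by
    have h1 := Subgroup.card_mul_index NG
    have h2 : 0 < Nat.card NG := Nat.card_pos
    have h3 : Nat.card NG * NG.index = Nat.card NG * Nat.card C := by
      rw [h1, hGmul, hNGc]
    exact Nat.eq_of_mul_eq_mul_left h2 h3
  obtain ⟨H, hH⟩ := Subgroup.exists_right_complement'_of_coprime (N := NG)
    (by rw [hNGc, hNGidx]; exact hcop)
  have hHcard : Nat.card H = Nat.card C := by
    have h1 := hH.card_mul_card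
    rw [hNGc, hGmul] at h1
    exact Nat.eq_of_mul_eq_mul_left (by omega) h1
  have hNGne : NG ≠ ⊥ := by
    rw [← Subgroup.one_lt_card_iff_ne_bot, hNGc]; exact hn1
  have hHne : H ≠ ⊥ := by
    rw [← Subgroup.one_lt_card_iff_ne_bot, hHcard]; exact hm1
  have hcommG : ∀ u ∈ NG, ∀ z ∈ H, Commute u z → u = 1 ∨ z = 1 := by
    intro u hu z hz huz
    apply nomix (Nat.card K') (Nat.card C) hcop hordG u z huz
    · rw [← hNGc]
      have := orderOf_dvd_natCard (⟨u, hu⟩ : NG)
      rwa [Subgroup.orderOf_mk] at this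
    · rw [← hHcard]
      have := orderOf_dvd_natCard (⟨z, hz⟩ : H)
      rwa [Subgroup.orderOf_mk] at this
  have hcommF : ∀ u ∈ K', ∀ z ∈ C, Commute u z → u = 1 ∨ z = 1 := by
    intro u hu z hz huz
    apply nomix (Nat.card K') (Nat.card C) hcop hordF u z huz
    · have := orderOf_dvd_natCard (⟨u, hu⟩ : K')
      rwa [Subgroup.orderOf_mk] at this
    · have := orderOf_dvd_natCard (⟨z, hz⟩ : C)
      rwa [Subgroup.orderOf_mk] at this
  have hPrC : Pr C := Pr_of_fpf K' C hKC hK'ne (fpf_of K' C hcommF)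
  have hPrH : Pr H := Pr_of_fpf NG H hH hNGne (fpf_of NG H hcommG)
  have hq := sol_quotient hsol K' NG hNGc.symm (by
      rw [← Subgroup.index_eq_card]; exact hcopK) (by
      rw [← Subgroup.index_eq_card, hNGc, hNGidx]; exact hcop)
  have eF : F ⧸ K' ≃* C := hKC.symm.QuotientMulEquiv
  have eG : G ⧸ NG ≃* H := hH.symm.QuotientMulEquiv
  have hCH : ∀ k, sol C k = sol H k := by
    intro k
    rw [← sol_congr eF, ← sol_congr eG]
    exact hq k
  have hHC : ∀ k, sol H k = sol C k := fun k => (hCH k).symm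
  refine ⟨⟨H, frob_of_complement NG H hH hNGne hHne hcommG⟩, ?_, ?_⟩
  · intro hG
    haveI : Group.IsSolvable H := Group.isSolvable_of_isSolvable_injective H.subtype_injective
    haveI hCs : Group.IsSolvable C := mainM _ H C rfl hHC inferInstance hPrH
    haveI : Group.IsSolvable (F ⧸ K') :=
      Group.isSolvable_of_surjective (f := eF.symm.toMonoidHom) eF.symm.surjective
    haveI : Group.IsNilpotent K' := hKnil
    haveI : Group.IsSolvable K' := IsNilpotent.to_isSolvable
    exact Group.isSolvable_of_ker_le_range K'.subtype (QuotientGroup.mk' K') (by simp)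
  · intro hFs
    haveI : Group.IsSolvable C := Group.isSolvable_of_isSolvable_injective C.subtype_injective
    haveI hHs : Group.IsSolvable H := mainM _ C H rfl hCH inferInstance hPrC
    haveI : Group.IsSolvable (G ⧸ NG) :=
      Group.isSolvable_of_surjective (f := eG.symm.toMonoidHom) eG.symm.surjective
    haveI := hNGs
    exact Group.isSolvable_of_ker_le_range NG.subtype (QuotientGroup.mk' NG) (by simp)

end Cfsg.Agent.Lib.OrderStatFrob
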