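import Cfsg.Agent.Lib.OrthChain
import Cfsg.Agent.Lib.QuadPlus
import Cfsg.Agent.Lib.QuadStab
import Cfsg.Agent.S0289
import Cfsg.Agent.S0291

/-! Orders of the orthogonal groups of plus type and of odd dimension. -/

set_option autoImplicit false
set_option linter.unusedSectionVars false
set_option linter.unusedVariables false

namespace Cfsg.Agent.Lib.OrthFam

open Cfsg Cfsg.Geo Cfsg.Agent.Lib.IsomChain Cfsg.Agent.Lib.QuadBase Cfsg.Agent.Lib.OrthChain
open scoped Matrix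
open QuadraticMap (polar)

variable {F : Type*} [Field F] [Fintype F]

theorem trivial_Isom {V : Type*} [AddCommGroup V] [Module F V] [Subsingleton V] (T : V → V → F) :
    Nat.card (Isom T) = 1 := by
  have : Subsingleton (Isom T) := by
    refine ⟨fun a b ↦ Subtype.ext ?_⟩
    ext x
    exact Subsingleton.elim _ _
  exact Nat.card_eq_one_iff_unique.2 ⟨this, ⟨1⟩⟩

/-! ### Plus type -/

theorem card_hyp_plus {q : ℕ} (hF : Fintype.card F = q) (k : ℕ) :
    Nat.card (Hyp (quadFormPlus (k + 1) F)) = (q ^ (k + 1) - 1) * (q ^ k + 1) * q ^ (2 * k) := by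
  have hq : 0 < q := by rw [← hF]; exact Fintype.card_pos
  have h1 := card_hyp (F := F) (QuadPlus.quadFormPlus_nondeg (F := F) (k + 1))
  have h2 := Cfsg.Agent.S0289.result hF (k + 1) (by omega)
  rw [h2, hF] at h1
  have h3 : Nat.card (Fin (k + 1) ⊕ Fin (k + 1) → F) = q ^ (2 * k + 2) := by
    simp [Nat.card_eq_fintype_card, hF]
    congr 1
    ring
  rw [h3] at h1
  have h4 : 1 ≤ q ^ k := Nat.one_le_pow _ _ hq
  have h5 : 1 ≤ q ^ (k + 1) := Nat.one_le_pow _ _ hq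
  have h6 : q ^ k ≤ q ^ (k + 1) := Nat.pow_le_pow_right hq (by omega)
  have h7 : q ^ (2 * (k + 1) - 1) + q ^ (k + 1) - q ^ (k + 1 - 1) - 1 = (q ^ (k + 1) - 1) * (q ^ k + 1) := by
    simp only [Nat.add_sub_cancel]
    have e1 : 2 * (k + 1) - 1 = 2 * k + 1 := by omega
    rw [e1]
    have e2 : q ^ k ≤ q ^ (2 * k + 1) + q ^ (k + 1) := by
      have : q ^ (k + 1) ≤ q ^ (2 * k + 1) + q ^ (k + 1) := by omega
      omega
    have e3 : 1 ≤ q ^ (2 * k + 1) + q ^ (k + 1) - q ^ k := by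
      have : q ^ (2 * k + 1) ≥ 1 := Nat.one_le_pow _ _ hq
      omega
    zify [e2, e3, h5]
    ring
  rw [h7] at h1
  have hq2 : 0 < q ^ 2 := by positivity
  apply Nat.eq_of_mul_eq_mul_left hq2
  rw [h1]
  ring

theorem plus_split (k : ℕ) (x : Fin (k + 1) ⊕ Fin (k + 1) → F) :
    quadFormPlus (k + 1) F x = (eSp F k x).1.1 * (eSp F k x).1.2 + quadFormPlus k F (eSp F k x).2 := by
  rw [quadFormPlus, quadFormPlus, Fin.sum_univ_succ]
  rfl

theorem quadFormPlus_zero (k : ℕ) : quadFormPlus k F 0 = 0 := by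
  simp [quadFormPlus]

theorem card_isom_plus {q : ℕ} (hF : Fintype.card F = q) (k : ℕ) :
    Nat.card (Isom (TQ (quadFormPlus (k + 1) F))) =
      2 * q ^ ((k + 1) * k) * (q ^ (k + 1) - 1) * ∏ i ∈ Finset.range k, (q ^ (2 * (i + 1)) - 1) := by
  have hq : 0 < q := by rw [← hF]; exact Fintype.card_pos
  induction k with
  | zero =>
    rw [card_chain_orth (QuadPlus.quadFormPlus_nondeg (F := F) 1) (quadFormPlus_zero 0) (eSp F 0) (plus_split 0),
      card_hyp_plus hF 0, trivial_Isom]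
    simp
    ring
  | succ k ih =>
    rw [card_chain_orth (QuadPlus.quadFormPlus_nondeg (F := F) (k + 2)) (quadFormPlus_zero (k + 1)) (eSp F (k + 1)) (plus_split (k + 1)),
      card_hyp_plus hF (k + 1), ih, Finset.prod_range_succ]
    have h1 : 1 ≤ q ^ (k + 1) := Nat.one_le_pow _ _ hq
    have h2 : (q ^ (k + 1) + 1) * (q ^ (k + 1) - 1) = q ^ (2 * (k + 1)) - 1 := by
      have h3 : 1 ≤ q ^ (2 * (k + 1)) := Nat.one_le_pow _ _ hq
      zify [h1, h3]
      ring
    have e1 : q ^ ((k + 1 + 1) * (k + 1)) = q ^ (2 * (k + 1)) * q ^ ((k + 1) * k) := by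
      rw [← pow_add]
      congr 1
      ring
    rw [e1, ← h2]
    generalize q ^ (k + 1 + 1) - 1 = A
    generalize (q ^ (k + 1) - 1) = B
    ring

/-- Order of `GO⁺_{2m}`. -/
theorem card_plus {q : ℕ} (hF : Fintype.card F = q) (m : ℕ) (hm : 1 ≤ m) :
    Nat.card (isometryGroup F (quadFormPlus m F)) =
      2 * q ^ (m * (m - 1)) * (q ^ m - 1) * ∏ i ∈ Finset.range (m - 1), (q ^ (2 * (i + 1)) - 1) := by
  obtain ⟨k, rfl⟩ : ∃ k, m = k + 1 := ⟨m - 1, by omega⟩
  rw [card_isometryGroup, card_isom_plus hF]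
  simp

/-! ### Odd dimension -/

/-- The splitting of `F^(2k+3)`. -/
def eOdd (F : Type*) [Field F] (k : ℕ) : (Unit ⊕ (Fin (k + 1) ⊕ Fin (k + 1)) → F) ≃ₗ[F] (F × F) × (Unit ⊕ (Fin k ⊕ Fin k) → F) where
  toFun v := ((v (.inr (.inl 0)), v (.inr (.inr 0))), fun s ↦ v (Sum.map id (Sum.map Fin.succ Fin.succ) s))
  invFun p := Sum.elim (fun _ ↦ p.2 (.inl ())) (Sum.elim (Fin.cons p.1.1 (fun i ↦ p.2 (.inr (.inl i)))) (Fin.cons p.1.2 (fun i ↦ p.2 (.inr (.inr i)))))
  map_add' x y := rfl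
  map_smul' c x := rfl
  left_inv v := by
    funext s
    rcases s with s | s | s
    · rfl
    · refine Fin.cases ?_ (fun i ↦ ?_) s <;> rfl
    · refine Fin.cases ?_ (fun i ↦ ?_) s <;> rfl
  right_inv p := by
    rcases p with ⟨⟨a, b⟩, w⟩
    simp only [Sum.elim_inr, Sum.elim_inl, Fin.cons_zero]
    congr 1
    funext s
    rcases s with s | s | s <;> simp

theorem odd_split (k : ℕ) (x : Unit ⊕ (Fin (k + 1) ⊕ Fin (k + 1)) → F) :
    quadFormOdd (k + 1) F x = (eOdd F k x).1.1 * (eOdd F k x).1.2 + quadFormOdd k F (eOdd F k x).2 := by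
  rw [quadFormOdd, quadFormOdd, Fin.sum_univ_succ]
  change _ = x (.inr (.inl 0)) * x (.inr (.inr 0)) + _
  change x (.inl ()) ^ 2 + _ = _ + (x (.inl ()) ^ 2 + ∑ i : Fin k, x (.inr (.inl i.succ)) * x (.inr (.inr i.succ)))
  ring

theorem quadFormOdd_zero (k : ℕ) : quadFormOdd k F 0 = 0 := by
  simp [quadFormOdd]

theorem card_hyp_odd {q : ℕ} (hF : Fintype.card F = q) (hodd : Odd q) (h2 : (2 : F) ≠ 0) (k : ℕ) :
    Nat.card (Hyp (quadFormOdd (k + 1) F)) = (q ^ (2 * k + 2) - 1) * q ^ (2 * k + 1) := by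
  have hq : 0 < q := by rw [← hF]; exact Fintype.card_pos
  have h1 := card_hyp (F := F) (QuadStab.quadFormOdd_nondeg h2 (k + 1))
  have h3 := Cfsg.Agent.S0291.result hF hodd (k + 1)
  rw [h3, hF] at h1
  have h4 : Nat.card (Unit ⊕ (Fin (k + 1) ⊕ Fin (k + 1)) → F) = q ^ (2 * k + 3) := by
    simp [Nat.card_eq_fintype_card, hF]
    congr 1
    ring
  rw [h4] at h1
  have e1 : 2 * (k + 1) = 2 * k + 2 := by ring
  rw [e1] at h1
  have hq2 : 0 < q ^ 2 := by positivity
  apply Nat.eq_of_mul_eq_mul_left hq2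
  rw [h1]
  ring

local notation "V₁" => (Unit ⊕ (Fin 0 ⊕ Fin 0) → F)

/-- The case of dimension one. -/
theorem card_isom_odd_zero {q : ℕ} (hF : Fintype.card F = q) (h2 : (2 : F) ≠ 0) :
    Nat.card (Isom (TQ (quadFormOdd 0 F))) = 2 := by
  classical
  -- the one-dimensional space
  let e₀ : Unit ⊕ (Fin 0 ⊕ Fin 0) → F := fun _ ↦ 1
  have hv : ∀ v : Unit ⊕ (Fin 0 ⊕ Fin 0) → F, v = v (.inl ()) • e₀ := by
    intro v
    funext s
    rcases s with s | s | s
    · simp [e₀]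
    · exact s.elim0
    · exact s.elim0
  have hQ : ∀ v : Unit ⊕ (Fin 0 ⊕ Fin 0) → F, quadFormOdd 0 F v = v (.inl ()) ^ 2 := by
    intro v
    simp [quadFormOdd]
  let S : F → ((Unit ⊕ (Fin 0 ⊕ Fin 0) → F) ≃ₗ[F] (Unit ⊕ (Fin 0 ⊕ Fin 0) → F)) := fun c ↦
    if hc : c = 0 then 1 else LinearEquiv.smulOfNeZero F _ c hc
  have hS : ∀ c : F, c ≠ 0 → ∀ v, S c v = c • v := by
    intro c hc v
    simp [S, hc]
  have hone : (1 : F) ≠ 0 := one_ne_zero
  have hneg : (-1 : F) ≠ 0 := by simp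
  have hmem : ∀ c : F, c * c = 1 → S c ∈ Isom (TQ (quadFormOdd 0 F)) := by
    intro c hc
    have hc0 : c ≠ 0 := by
      rintro rfl
      simp at hc
    rw [Isom_TQ_iff rfl]
    intro x
    rw [hS c hc0, hQ, hQ]
    simp only [Pi.smul_apply, smul_eq_mul]
    linear_combination (x (.inl ()) ^ 2) * hc
  rw [Nat.card_eq_two_iff]
  refine ⟨⟨S 1, hmem 1 (by simp)⟩, ⟨S (-1), hmem (-1) (by simp)⟩, ?_, ?_⟩
  · intro h
    have h3 := congrArg (fun g : Isom (TQ (quadFormOdd 0 F)) ↦ (g : V₁ ≃ₗ[F] V₁) e₀ (.inl ())) h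
    simp only [hS 1 hone, hS (-1) hneg] at h3
    simp [e₀] at h3
    apply h2
    linear_combination h3
  · ext g
    simp only [Set.mem_insert_iff, Set.mem_singleton_iff, Set.mem_univ, iff_true]
    set c := (g : V₁ ≃ₗ[F] V₁) e₀ (.inl ()) with hc
    have hgv : ∀ v, (g : V₁ ≃ₗ[F] V₁) v = c • v := by
      intro v
      conv_lhs => rw [hv v, map_smul]
      rw [hv ((g : V₁ ≃ₗ[F] V₁) e₀)]
      funext s
      rcases s with s | s | s
      · simp [e₀, ← hc]
        rw [mul_comm]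
      · exact s.elim0
      · exact s.elim0
    have hcc : c * c = 1 := by
      have h3 := (Isom_TQ_iff rfl).1 g.2 e₀
      rw [hgv, hQ, hQ] at h3
      simp only [Pi.smul_apply, smul_eq_mul, e₀] at h3
      linear_combination h3
    have h4 : (c - 1) * (c + 1) = 0 := by linear_combination hcc
    rcases mul_eq_zero.1 h4 with h5 | h5
    · left
      apply Subtype.ext
      ext1 v
      have : c = 1 := sub_eq_zero.1 h5
      change (g : V₁ ≃ₗ[F] V₁) v = S 1 v
      rw [hgv, hS 1 hone, this]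
    · right
      apply Subtype.ext
      ext1 v
      have : c = -1 := by linear_combination h5
      change (g : V₁ ≃ₗ[F] V₁) v = S (-1) v
      rw [hgv, hS (-1) hneg, this]

theorem card_isom_odd {q : ℕ} (hF : Fintype.card F = q) (hodd : Odd q) (h2 : (2 : F) ≠ 0) (m : ℕ) :
    Nat.card (Isom (TQ (quadFormOdd m F))) =
      2 * q ^ (m ^ 2) * ∏ i ∈ Finset.range m, (q ^ (2 * (i + 1)) - 1) := by
  have hq : 0 < q := by rw [← hF]; exact Fintype.card_pos
  induction m with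
  | zero =>
    rw [card_isom_odd_zero hF h2]
    simp
  | succ k ih =>
    rw [card_chain_orth (QuadStab.quadFormOdd_nondeg h2 (k + 1)) (quadFormOdd_zero k) (eOdd F k) (odd_split k),
      card_hyp_odd hF hodd h2, ih, Finset.prod_range_succ]
    have e1 : q ^ ((k + 1) ^ 2) = q ^ (2 * k + 1) * q ^ (k ^ 2) := by
      rw [← pow_add]
      congr 1
      ring
    have e2 : 2 * (k + 1) = 2 * k + 2 := by ring
    rw [e1, e2]
    generalize q ^ (2 * k + 2) - 1 = A
    ring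

/-- Order of `GO_{2m+1}`. -/
theorem card_odd {q : ℕ} (hF : Fintype.card F = q) (hodd : Odd q) (m : ℕ) :
    Nat.card (isometryGroup F (quadFormOdd m F)) =
      2 * q ^ (m ^ 2) * ∏ i ∈ Finset.range m, (q ^ (2 * (i + 1)) - 1) := by
  have h2 : (2 : F) ≠ 0 := by
    apply Ring.two_ne_zero
    intro h
    have := FiniteField.even_card_iff_char_two.1 h
    rw [hF, Nat.odd_iff.1 hodd] at this
    omega
  rw [card_isometryGroup, card_isom_odd hF hodd h2]

end Cfsg.Agent.Lib.OrthFam
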