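import Mathlib

/-! Sylow `2`-subgroups of `PGL₂(q)`, `q` a Mersenne prime, pairwise intersect. -/

namespace Cfsg.Agent.Lib.PGLMersenne

open Matrix
open scoped Pointwise

variable {F : Type*} [Field F]

/-- Anticommuting matrices. -/
theorem exists_anti (hns : ∀ s : F, s * s ≠ -1) (A₁ A₂ : Matrix (Fin 2) (Fin 2) F)
    (t₁ : A₁ 0 0 + A₁ 1 1 = 0) (t₂ : A₂ 0 0 + A₂ 1 1 = 0) (d₁ : A₁ 0 0 * A₁ 1 1 - A₁ 0 1 * A₁ 1 0 = 1) :
    ∃ B : Matrix (Fin 2) (Fin 2) F, B.det ≠ 0 ∧ B * A₁ = -(A₁ * B) ∧ B * A₂ = -(A₂ * B) := by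
  classical
  set a := A₁ 0 0 with ha
  set b := A₁ 0 1 with hb
  set c := A₁ 1 0 with hc
  have h11 : A₁ 1 1 = -a := by linear_combination t₁
  set d := A₂ 0 0 with hd
  set e := A₂ 0 1 with he
  set f := A₂ 1 0 with hf
  have h22 : A₂ 1 1 = -d := by linear_combination t₂
  rw [h11] at d₁
  let M : Matrix (Fin 2) (Fin 3) F := !![2 * a, c, b; 2 * d, f, e]
  have hker : LinearMap.ker (Matrix.mulVecLin M) ≠ ⊥ :=
    LinearMap.ker_ne_bot_of_finrank_lt (by simp)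
  obtain ⟨z, hzk, hz0⟩ := (Submodule.ne_bot_iff _).1 hker
  have hz : M *ᵥ z = 0 := hzk
  have eq1 : 2 * a * z 0 + c * z 1 + b * z 2 = 0 := by
    have := congrFun hz 0
    simpa [M, Matrix.mulVec, dotProduct, Fin.sum_univ_three] using this
  have eq2 : 2 * d * z 0 + f * z 1 + e * z 2 = 0 := by
    have := congrFun hz 1
    simpa [M, Matrix.mulVec, dotProduct, Fin.sum_univ_three] using this
  set u := z 0 with hu
  set v := z 1 with hv
  set w := z 2 with hw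
  refine ⟨!![u, v; w, -u], ?_, ?_, ?_⟩
  · rw [Matrix.det_fin_two_of]
    intro h0
    have h1 : u * u + v * w = 0 := by linear_combination -h0
    have hbne : b ≠ 0 := by
      rintro hb0
      apply hns a
      rw [hb0] at d₁
      linear_combination -d₁
    have hv0 : v = 0 := by
      by_contra hv0
      apply hns ((a * v - b * u) / v)
      have e1 : 2 * a * u * v + c * v * v - b * u * u = 0 := by
        linear_combination v * eq1 - b * h1
      field_simp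
      linear_combination (-b) * e1 + (-(v ^ 2)) * d₁
    have hu0 : u = 0 := by
      have : u * u = 0 := by rw [hv0] at h1; simpa using h1
      exact mul_self_eq_zero.1 this
    have hw0 : w = 0 := by
      rw [hu0, hv0] at eq1
      have : b * w = 0 := by simpa using eq1
      exact (mul_eq_zero.1 this).resolve_left hbne
    apply hz0
    ext i
    fin_cases i
    · exact hu0
    · exact hv0
    · exact hw0
  · ext i j
    fin_cases i <;> fin_cases j <;> simp [Matrix.mul_apply, Fin.sum_univ_two, h11, ← ha, ← hb, ← hc]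
    · linear_combination eq1
    · ring
    · ring
    · linear_combination eq1
  · ext i j
    fin_cases i <;> fin_cases j <;> simp [Matrix.mul_apply, Fin.sum_univ_two, h22, ← hd, ← he, ← hf]
    · linear_combination eq2
    · ring
    · ring
    · linear_combination eq2

/-- The standard element. -/
def A₀ : Matrix (Fin 2) (Fin 2) F := !![0, -1; 1, 0]

theorem A₀_sq : (A₀ : Matrix (Fin 2) (Fin 2) F) * A₀ = -1 := by
  ext i j
  fin_cases i <;> fin_cases j <;> simp [A₀, Matrix.mul_apply, Fin.sum_univ_two]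

/-- Elements commuting with `A₀`: the power `q + 1` is scalar. -/
theorem pow_scalar {q : ℕ} [hq : Fact q.Prime] (h3 : q % 4 = 3) (e : Matrix (Fin 2) (Fin 2) (ZMod q))
    (he : e * A₀ = A₀ * e) : ∃ c : ZMod q, e ^ (q + 1) = c • (1 : Matrix (Fin 2) (Fin 2) (ZMod q)) := by
  classical
  have h01 : e 0 1 = - e 1 0 := by
    have := congrFun (congrFun he 0) 0
    simpa [A₀, Matrix.mul_apply, Fin.sum_univ_two] using this
  have h11 : e 1 1 = e 0 0 := by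
    have := congrFun (congrFun he 0) 1
    simpa [A₀, Matrix.mul_apply, Fin.sum_univ_two, eq_comm] using this
  set p := e 0 0 with hp
  set s := e 1 0 with hs
  have hform : e = p • (1 : Matrix (Fin 2) (Fin 2) (ZMod q)) + s • A₀ := by
    ext i j
    fin_cases i <;> fin_cases j <;> simp [A₀, h01, h11, ← hp, ← hs]
  haveI : CharP (Matrix (Fin 2) (Fin 2) (ZMod q)) q := Matrix.charP q
  have hcomm : Commute (p • (1 : Matrix (Fin 2) (Fin 2) (ZMod q))) (s • A₀) :=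
    (Commute.one_left _).smul_left p
  have hpow4 : (A₀ : Matrix (Fin 2) (Fin 2) (ZMod q)) ^ 4 = 1 := by
    have : (A₀ : Matrix (Fin 2) (Fin 2) (ZMod q)) ^ 4 = (A₀ * A₀) * (A₀ * A₀) := by noncomm_ring
    rw [this, A₀_sq]
    simp
  have hAq : (A₀ : Matrix (Fin 2) (Fin 2) (ZMod q)) ^ q = - A₀ := by
    have key : ∀ n : ℕ, n % 4 = 3 → (A₀ : Matrix (Fin 2) (Fin 2) (ZMod q)) ^ n = - A₀ := by
      intro n hn
      obtain ⟨t, rfl⟩ : ∃ t, n = 4 * t + 3 := ⟨n / 4, by omega⟩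
      rw [pow_add, pow_mul, hpow4, one_pow, one_mul]
      have : (A₀ : Matrix (Fin 2) (Fin 2) (ZMod q)) ^ 3 = (A₀ * A₀) * A₀ := by noncomm_ring
      rw [this, A₀_sq]
      simp
    exact key q h3
  have heq : e ^ q = p • (1 : Matrix (Fin 2) (Fin 2) (ZMod q)) - s • A₀ := by
    rw [hform, add_pow_char_of_commute q hcomm, smul_pow, smul_pow, one_pow, hAq, ZMod.pow_card, ZMod.pow_card, smul_neg]
    abel
  refine ⟨p ^ 2 + s ^ 2, ?_⟩
  rw [pow_succ, heq]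
  nth_rewrite 1 [hform]
  ext i j
  fin_cases i <;> fin_cases j <;> simp [A₀, Matrix.mul_apply, Fin.sum_univ_two, sq] <;> ring

/-- The subgroup of `GL₂` normalizing `⟨a⟩` and acting by `±1`. -/
def Nhat {G : Type*} [Group G] (a : G) : Subgroup G where
  carrier := {g | g * a * g⁻¹ = a ∨ g * a * g⁻¹ = a⁻¹}
  one_mem' := by simp
  mul_mem' := by
    intro x y hx hy
    have e : x * y * a * (x * y)⁻¹ = x * (y * a * y⁻¹) * x⁻¹ := by group
    have e' : x * a⁻¹ * x⁻¹ = (x * a * x⁻¹)⁻¹ := by group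
    show x * y * a * (x * y)⁻¹ = a ∨ x * y * a * (x * y)⁻¹ = a⁻¹
    rw [e]
    rcases hy with hy | hy <;> rw [hy]
    · exact hx
    · rw [e']
      rcases hx with hx | hx <;> rw [hx]
      · exact Or.inr rfl
      · exact Or.inl (inv_inv a)
  inv_mem' := by
    intro x hx
    show x⁻¹ * a * x⁻¹⁻¹ = a ∨ x⁻¹ * a * x⁻¹⁻¹ = a⁻¹
    rcases hx with hx | hx
    · left
      calc x⁻¹ * a * x⁻¹⁻¹ = x⁻¹ * (x * a * x⁻¹) * x := by rw [hx]; group
        _ = a := by group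
    · right
      have : a = (x * a * x⁻¹)⁻¹ := by rw [hx, inv_inv]
      calc x⁻¹ * a * x⁻¹⁻¹ = x⁻¹ * (x * a * x⁻¹)⁻¹ * x := by rw [← this]; group
        _ = a⁻¹ := by group

theorem Nhat_sq {G : Type*} [Group G] {a g : G} (h : g ∈ Nhat a) : g * g * a = a * (g * g) := by
  have e' : g * a⁻¹ * g⁻¹ = (g * a * g⁻¹)⁻¹ := by group
  have key : g * g * a * (g * g)⁻¹ = a := by
    have e : g * g * a * (g * g)⁻¹ = g * (g * a * g⁻¹) * g⁻¹ := by group
    rw [e]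
    rcases h with h | h <;> rw [h]
    · exact h
    · rw [e', h, inv_inv]
  calc g * g * a = g * g * a * (g * g)⁻¹ * (g * g) := by group
    _ = a * (g * g) := by rw [key]

/-- The group element `A₀`. -/
def a₀ : GL (Fin 2) F := ⟨A₀, -A₀, by rw [mul_neg, A₀_sq, neg_neg], by rw [neg_mul, A₀_sq, neg_neg]⟩

theorem anti_conj {u v : GL (Fin 2) F} (hv : (v : Matrix (Fin 2) (Fin 2) F) * v = -1)
    (h : (u : Matrix (Fin 2) (Fin 2) F) * v = -((v : Matrix (Fin 2) (Fin 2) F) * u)) : u * v * u⁻¹ = v⁻¹ := by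
  have hinv : ((v⁻¹ : GL (Fin 2) F) : Matrix (Fin 2) (Fin 2) F) = -v := by
    have h1 : ((v⁻¹ : GL (Fin 2) F) : Matrix (Fin 2) (Fin 2) F) * v = 1 := by
      rw [← Units.val_mul, inv_mul_cancel]; rfl
    have h2 : (-(v : Matrix (Fin 2) (Fin 2) F)) * v = 1 := by rw [neg_mul, hv, neg_neg]
    have h3 : (v : Matrix (Fin 2) (Fin 2) F) * ((v⁻¹ : GL (Fin 2) F) : Matrix (Fin 2) (Fin 2) F) = 1 := by
      rw [← Units.val_mul, mul_inv_cancel]; rfl
    calc ((v⁻¹ : GL (Fin 2) F) : Matrix (Fin 2) (Fin 2) F)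
        = ((-(v : Matrix (Fin 2) (Fin 2) F)) * v) * ((v⁻¹ : GL (Fin 2) F) : Matrix (Fin 2) (Fin 2) F) := by rw [h2, one_mul]
      _ = -v := by rw [mul_assoc, h3, mul_one]
  have h4 : u * v = v⁻¹ * u := by
    apply Units.ext
    rw [Units.val_mul, Units.val_mul, hinv, h, neg_mul]
  calc u * v * u⁻¹ = v⁻¹ * u * u⁻¹ := by rw [h4]
    _ = v⁻¹ := by group

theorem conj_sq (g : GL (Fin 2) F) :
    ((g * a₀ * g⁻¹ : GL (Fin 2) F) : Matrix (Fin 2) (Fin 2) F) * ((g * a₀ * g⁻¹ : GL (Fin 2) F) : Matrix (Fin 2) (Fin 2) F) = -1 := by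
  have h1 : ((g⁻¹ : GL (Fin 2) F) : Matrix (Fin 2) (Fin 2) F) * g = 1 := by
    rw [← Units.val_mul, inv_mul_cancel]; rfl
  have h2 : (g : Matrix (Fin 2) (Fin 2) F) * ((g⁻¹ : GL (Fin 2) F) : Matrix (Fin 2) (Fin 2) F) = 1 := by
    rw [← Units.val_mul, mul_inv_cancel]; rfl
  have h3 : ((a₀ : GL (Fin 2) F) : Matrix (Fin 2) (Fin 2) F) = A₀ := rfl
  simp only [Units.val_mul, h3]
  generalize ((g⁻¹ : GL (Fin 2) F) : Matrix (Fin 2) (Fin 2) F) = Gi at h1 h2 ⊢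
  generalize (g : Matrix (Fin 2) (Fin 2) F) = G at h1 h2 ⊢
  calc G * A₀ * Gi * (G * A₀ * Gi) = G * A₀ * (Gi * G) * A₀ * Gi := by noncomm_ring
    _ = G * (A₀ * A₀) * Gi := by rw [h1]; noncomm_ring
    _ = -1 := by rw [A₀_sq]; simp [h2]

theorem conj_trace (g : GL (Fin 2) F) :
    ((g * a₀ * g⁻¹ : GL (Fin 2) F) : Matrix (Fin 2) (Fin 2) F) 0 0 + ((g * a₀ * g⁻¹ : GL (Fin 2) F) : Matrix (Fin 2) (Fin 2) F) 1 1 = 0 := by
  have h := Matrix.trace_units_conj g (A₀ : Matrix (Fin 2) (Fin 2) F)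
  rw [Matrix.trace_fin_two] at h
  have e : ((g * a₀ * g⁻¹ : GL (Fin 2) F) : Matrix (Fin 2) (Fin 2) F) = (g : Matrix (Fin 2) (Fin 2) F) * A₀ * ((g⁻¹ : GL (Fin 2) F) : Matrix (Fin 2) (Fin 2) F) := rfl
  rw [e, h, Matrix.trace_fin_two]
  simp [A₀]

theorem conj_det (g : GL (Fin 2) F) :
    ((g * a₀ * g⁻¹ : GL (Fin 2) F) : Matrix (Fin 2) (Fin 2) F) 0 0 * ((g * a₀ * g⁻¹ : GL (Fin 2) F) : Matrix (Fin 2) (Fin 2) F) 1 1 -
      ((g * a₀ * g⁻¹ : GL (Fin 2) F) : Matrix (Fin 2) (Fin 2) F) 0 1 * ((g * a₀ * g⁻¹ : GL (Fin 2) F) : Matrix (Fin 2) (Fin 2) F) 1 0 = 1 := by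
  rw [← Matrix.det_fin_two]
  have h3 : ((a₀ : GL (Fin 2) F) : Matrix (Fin 2) (Fin 2) F) = A₀ := rfl
  have h1 : (g : Matrix (Fin 2) (Fin 2) F) * ((g⁻¹ : GL (Fin 2) F) : Matrix (Fin 2) (Fin 2) F) = 1 := by
    rw [← Units.val_mul, mul_inv_cancel]; rfl
  have h2 : (g : Matrix (Fin 2) (Fin 2) F).det * ((g⁻¹ : GL (Fin 2) F) : Matrix (Fin 2) (Fin 2) F).det = 1 := by
    rw [← Matrix.det_mul, h1, Matrix.det_one]
  simp only [Units.val_mul, h3, Matrix.det_mul]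
  have h4 : (A₀ : Matrix (Fin 2) (Fin 2) F).det = 1 := by
    simp [A₀, Matrix.det_fin_two]
  rw [h4, mul_one, h2]

/-- The main statement. -/
theorem core_aux {q k : ℕ} [hqp : Fact q.Prime] (hk : q + 1 = 2 ^ k) (hq : 7 ≤ q)
    {P : Type*} [Group P] [Finite P] (mk : GL (Fin 2) (ZMod q) →* P) (hmks : Function.Surjective mk)
    (hmk1 : ∀ g, mk g = 1 ↔ g ∈ Subgroup.center (GL (Fin 2) (ZMod q)))
    (H : Sylow 2 P) (x : P) :
    (H : Subgroup P) ⊓ MulAut.conj x • (H : Subgroup P) ≠ ⊥ := by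
  classical
  have hk3 : 3 ≤ k := by
    by_contra h
    have hk2 : k ≤ 2 := by omega
    have : 2 ^ k ≤ 2 ^ 2 := Nat.pow_le_pow_right (by norm_num) hk2
    omega
  have h3 : q % 4 = 3 := by
    obtain ⟨t, rfl⟩ : ∃ t, k = t + 2 := ⟨k - 2, by omega⟩
    have : 2 ^ (t + 2) = 4 * 2 ^ t := by rw [pow_add]; ring
    omega
  have hns : ∀ s : ZMod q, s * s ≠ -1 := by
    intro s hs
    have h4 : IsSquare (-1 : ZMod q) := ⟨s, hs.symm⟩
    have h5 := FiniteField.isSquare_neg_one_iff.1 h4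
    rw [ZMod.card] at h5
    exact h5 h3
  have h20 : (2 : ZMod q) ≠ 0 := by
    intro h
    have h6 : ((2 : ℕ) : ZMod q) = 0 := by exact_mod_cast h
    rw [ZMod.natCast_eq_zero_iff] at h6
    have := Nat.le_of_dvd (by norm_num) h6
    omega
  set N₀ := (Nhat (a₀ : GL (Fin 2) (ZMod q))).map mk with hN₀
  have h2grp : IsPGroup 2 N₀ := by
    rintro ⟨y, g, hg, rfl⟩
    refine ⟨k + 1, Subtype.ext ?_⟩
    show mk g ^ (2 ^ (k + 1)) = 1
    rw [← map_pow, hmk1]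
    have e : g ^ (2 ^ (k + 1)) = (g * g) ^ (q + 1) := by
      rw [hk, ← pow_two, ← pow_mul, pow_succ 2 k, mul_comm]
    rw [e]
    have hsq := Nhat_sq hg
    have hsq' : ((g * g : GL (Fin 2) (ZMod q)) : Matrix (Fin 2) (Fin 2) (ZMod q)) * A₀ = A₀ * ((g * g : GL (Fin 2) (ZMod q)) : Matrix (Fin 2) (Fin 2) (ZMod q)) :=
      congrArg (fun z : GL (Fin 2) (ZMod q) => (z : Matrix (Fin 2) (Fin 2) (ZMod q))) hsq
    obtain ⟨c, hc⟩ := pow_scalar h3 _ hsq'
    rw [Subgroup.mem_center_iff]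
    intro w
    apply Units.ext
    rw [Units.val_mul, Units.val_mul, Units.val_pow_eq_pow_val, hc]
    simp
  obtain ⟨Q, hQ⟩ := h2grp.exists_le_sylow
  obtain ⟨r, hr⟩ := MulAction.exists_smul_eq P Q H
  have hHr : (H : Subgroup P) = MulAut.conj r • (Q : Subgroup P) := by
    rw [← hr, Sylow.coe_subgroup_smul]
  obtain ⟨g, rfl⟩ := hmks r
  obtain ⟨y, hy⟩ := hmks x
  obtain ⟨B, hdet, hB1, hB2⟩ := exists_anti hns _ _ (conj_trace g) (conj_trace (y * g)) (conj_det g)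
  set b : GL (Fin 2) (ZMod q) := Matrix.GeneralLinearGroup.mkOfDetNeZero B hdet with hb
  have hbv : (b : Matrix (Fin 2) (Fin 2) (ZMod q)) = B := rfl
  have hc1 : b * (g * a₀ * g⁻¹) * b⁻¹ = (g * a₀ * g⁻¹)⁻¹ := anti_conj (conj_sq g) hB1
  have hc2 : b * ((y * g) * a₀ * (y * g)⁻¹) * b⁻¹ = ((y * g) * a₀ * (y * g)⁻¹)⁻¹ := anti_conj (conj_sq (y * g)) hB2
  have hm1 : g⁻¹ * b * g ∈ Nhat (a₀ : GL (Fin 2) (ZMod q)) := by
    right
    calc g⁻¹ * b * g * a₀ * (g⁻¹ * b * g)⁻¹ = g⁻¹ * (b * (g * a₀ * g⁻¹) * b⁻¹) * g := by group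
      _ = a₀⁻¹ := by rw [hc1]; group
  have hm2 : (y * g)⁻¹ * b * (y * g) ∈ Nhat (a₀ : GL (Fin 2) (ZMod q)) := by
    right
    calc (y * g)⁻¹ * b * (y * g) * a₀ * ((y * g)⁻¹ * b * (y * g))⁻¹ = (y * g)⁻¹ * (b * ((y * g) * a₀ * (y * g)⁻¹) * b⁻¹) * (y * g) := by group
      _ = a₀⁻¹ := by rw [hc2]; group
  have hmemH : ∀ m ∈ Nhat (a₀ : GL (Fin 2) (ZMod q)), mk g * mk m * (mk g)⁻¹ ∈ (H : Subgroup P) := by
    intro m hm
    rw [hHr]
    have h1 : mk m ∈ (Q : Subgroup P) := hQ ⟨m, hm, rfl⟩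
    exact Subgroup.smul_mem_pointwise_smul _ (MulAut.conj (mk g)) _ h1
  have ht1 : mk b ∈ (H : Subgroup P) := by
    have := hmemH _ hm1
    have e : mk g * mk (g⁻¹ * b * g) * (mk g)⁻¹ = mk b := by
      simp only [map_mul, map_inv]
      group
    rwa [e] at this
  have ht2 : mk b ∈ MulAut.conj (mk y) • (H : Subgroup P) := by
    rw [Subgroup.mem_pointwise_smul_iff_inv_smul_mem, MulAut.smul_def, MulAut.conj_inv_apply]
    have := hmemH _ hm2
    have e : mk g * mk ((y * g)⁻¹ * b * (y * g)) * (mk g)⁻¹ = (mk y)⁻¹ * mk b * mk y := by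
      simp only [map_mul, map_inv]
      group
    rwa [e] at this
  have htne : mk b ≠ 1 := by
    intro h
    rw [hmk1] at h
    have hcomm := Subgroup.mem_center_iff.1 h (g * a₀ * g⁻¹)
    have hcomm' : ((g * a₀ * g⁻¹ : GL (Fin 2) (ZMod q)) : Matrix (Fin 2) (Fin 2) (ZMod q)) * B = B * ((g * a₀ * g⁻¹ : GL (Fin 2) (ZMod q)) : Matrix (Fin 2) (Fin 2) (ZMod q)) :=
      congrArg (fun z : GL (Fin 2) (ZMod q) => (z : Matrix (Fin 2) (Fin 2) (ZMod q))) hcomm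
    rw [hB1] at hcomm'
    set W := ((g * a₀ * g⁻¹ : GL (Fin 2) (ZMod q)) : Matrix (Fin 2) (Fin 2) (ZMod q)) with hW
    have h5 : (2 : ZMod q) • (W * B) = 0 := by
      rw [two_smul]
      nth_rewrite 1 [hcomm']
      simp
    have h6 : W * B = 0 := by
      have := smul_eq_zero.1 h5
      exact this.resolve_left h20
    have h7 : B = 0 := by
      have h8 : ((g * a₀ * g⁻¹)⁻¹ : GL (Fin 2) (ZMod q)).val * W = 1 := by
        rw [hW, ← Units.val_mul, inv_mul_cancel]; rfl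
      calc B = (((g * a₀ * g⁻¹)⁻¹ : GL (Fin 2) (ZMod q)).val * W) * B := by rw [h8, one_mul]
        _ = 0 := by rw [mul_assoc, h6, mul_zero]
    rw [h7] at hdet
    simp at hdet
  subst hy
  intro hbot
  exact htne ((Subgroup.ext_iff.1 hbot (mk b)).1 ⟨ht1, ht2⟩)

theorem core {q k : ℕ} [hqp : Fact q.Prime] (hk : q + 1 = 2 ^ k) (hq : 7 ≤ q)
    (H : Sylow 2 (GL (Fin 2) (ZMod q) ⧸ Subgroup.center (GL (Fin 2) (ZMod q))))
    (x : GL (Fin 2) (ZMod q) ⧸ Subgroup.center (GL (Fin 2) (ZMod q))) :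
    (H : Subgroup (GL (Fin 2) (ZMod q) ⧸ Subgroup.center (GL (Fin 2) (ZMod q)))) ⊓ MulAut.conj x • (H : Subgroup (GL (Fin 2) (ZMod q) ⧸ Subgroup.center (GL (Fin 2) (ZMod q)))) ≠ ⊥ :=
  core_aux hk hq (QuotientGroup.mk' _) (QuotientGroup.mk'_surjective _) (fun g => QuotientGroup.eq_one_iff g) H x

end Cfsg.Agent.Lib.PGLMersenne
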