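import Mathlib
import Cfsg.Prelude.Def_Local
import Cfsg.Agent.Lib.UpperP
import Cfsg.Agent.Lib.TwoMaxClass
import Cfsg.Agent.Lib.H7Basic
import Cfsg.Agent.Lib.FitCore
import Cfsg.Agent.Lib.SchurZ
import Cfsg.Agent.Lib.PNilp

/-! Groups all of whose maximal subgroups have a normal `p`-complement or prime index have
`p`-length at most two. -/

namespace Cfsg.Agent.Lib.PLenTwo

open Cfsg
open Cfsg.Agent.Lib
open scoped commutatorElement

universe u

/-- The chain of normal subgroups in the conclusion. -/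
def Chain (p : ℕ) (G : Type*) [Group G] : Prop :=
  ∃ A B C D : Subgroup G, A.Normal ∧ B.Normal ∧ C.Normal ∧ D.Normal ∧ A ≤ B ∧ B ≤ C ∧ C ≤ D ∧ ¬ p ∣ Nat.card A ∧
    (∃ k : ℕ, A.relIndex B = p ^ k) ∧ ¬ p ∣ B.relIndex C ∧ (∃ k : ℕ, C.relIndex D = p ^ k) ∧ ¬ p ∣ D.index ∧
    (p = 2 → D = ⊤)

/-- The same chain above a normal subgroup `N`. -/
def RelChain (p : ℕ) {G : Type*} [Group G] (N : Subgroup G) : Prop :=
  ∃ A B C D : Subgroup G, A.Normal ∧ B.Normal ∧ C.Normal ∧ D.Normal ∧ N ≤ A ∧ A ≤ B ∧ B ≤ C ∧ C ≤ D ∧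
    ¬ p ∣ N.relIndex A ∧
    (∃ k : ℕ, A.relIndex B = p ^ k) ∧ ¬ p ∣ B.relIndex C ∧ (∃ k : ℕ, C.relIndex D = p ^ k) ∧ ¬ p ∣ D.index ∧
    (p = 2 → D = ⊤)

/-- The hypothesis on maximal subgroups. -/
def MaxCond (p : ℕ) (G : Type*) [Group G] : Prop :=
  ∀ M : Subgroup G, IsCoatom M →
    (∃ K : Subgroup ↥M, K.Normal ∧ ¬ p ∣ Nat.card K ∧ ∃ k : ℕ, K.index = p ^ k) ∨ (M.index).Prime

variable {p : ℕ} {G : Type*} [Group G]

theorem relChain_of_quot (N : Subgroup G) [hN : N.Normal] (h : Chain p (G ⧸ N)) : RelChain p N := by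
  obtain ⟨A, B, C, D, hA, hB, hC, hD, hAB, hBC, hCD, h1, ⟨k1, h2⟩, h3, ⟨k2, h4⟩, h5, h6⟩ := h
  let f := QuotientGroup.mk' N
  have hf : Function.Surjective f := QuotientGroup.mk'_surjective N
  have hmap : ∀ X : Subgroup (G ⧸ N), (X.comap f).map f = X := fun X =>
    Subgroup.map_comap_eq_self_of_surjective hf X
  have hrel : ∀ X Y : Subgroup (G ⧸ N), (X.comap f).relIndex (Y.comap f) = X.relIndex Y := by
    intro X Y
    rw [Subgroup.relIndex_comap, hmap]
  refine ⟨A.comap f, B.comap f, C.comap f, D.comap f, hA.comap f, hB.comap f, hC.comap f, hD.comap f,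
    ?_, Subgroup.comap_mono hAB, Subgroup.comap_mono hBC, Subgroup.comap_mono hCD, ?_, ⟨k1, ?_⟩, ?_, ⟨k2, ?_⟩, ?_, ?_⟩
  · intro x hx
    have : f x = 1 := (QuotientGroup.eq_one_iff x).2 hx
    change f x ∈ A
    rw [this]; exact A.one_mem
  · have hk : N = (⊥ : Subgroup (G ⧸ N)).comap f := by
      ext x
      simp only [Subgroup.mem_comap, Subgroup.mem_bot]
      exact (QuotientGroup.eq_one_iff x).symm
    have e : N.relIndex (A.comap f) = Nat.card A := by
      have := hrel ⊥ A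
      rw [← hk, Subgroup.relIndex_bot_left] at this
      exact this
    rw [e]
    exact h1
  · rw [hrel]; exact h2
  · rw [hrel]; exact h3
  · rw [hrel]; exact h4
  · rw [Subgroup.index_comap_of_surjective _ hf]; exact h5
  · intro hp
    rw [h6 hp]; exact Subgroup.comap_top f

theorem chain_of_relChain [Finite G] (N : Subgroup G) (hNp : ¬ p ∣ Nat.card N) (hp : p.Prime) (h : RelChain p N) : Chain p G := by
  obtain ⟨A, B, C, D, hA, hB, hC, hD, hNA, hAB, hBC, hCD, h1, h2, h3, h4, h5, h6⟩ := h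
  refine ⟨A, B, C, D, hA, hB, hC, hD, hAB, hBC, hCD, ?_, h2, h3, h4, h5, h6⟩
  have := Subgroup.relIndex_mul_relIndex (⊥ : Subgroup G) N A bot_le hNA
  rw [Subgroup.relIndex_bot_left, Subgroup.relIndex_bot_left] at this
  rw [← this]
  intro hd
  rcases (Nat.Prime.dvd_mul hp).1 hd with h' | h'
  · exact hNp h'
  · exact h1 h'

theorem rel_dvd [Finite G] {X L Y : Subgroup G} [hX : X.Normal] (hXY : X ≤ Y) (hLY : L ≤ Y) :
    X.relIndex L ∣ X.relIndex Y := by
  rw [← Subgroup.relIndex_sup_right (H := L) (K := X)]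
  exact Dvd.intro _ (Subgroup.relIndex_mul_relIndex X (L ⊔ X) Y le_sup_right (sup_le hLY hXY))

theorem rel_inf [Finite G] {X₁ Y₁ X₂ Y₂ : Subgroup G} [h1 : X₁.Normal] [h2 : X₂.Normal] (h₁ : X₁ ≤ Y₁) (h₂ : X₂ ≤ Y₂) :
    (X₁ ⊓ X₂).relIndex (Y₁ ⊓ Y₂) ∣ X₁.relIndex Y₁ * X₂.relIndex Y₂ := by
  have hle1 : X₁ ⊓ X₂ ≤ X₁ ⊓ Y₂ := inf_le_inf_left _ h₂
  have hle2 : X₁ ⊓ Y₂ ≤ Y₁ ⊓ Y₂ := inf_le_inf_right _ h₁
  rw [← Subgroup.relIndex_mul_relIndex _ _ _ hle1 hle2, mul_comm]
  apply mul_dvd_mul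
  · have e : (X₁ ⊓ Y₂).relIndex (Y₁ ⊓ Y₂) = X₁.relIndex (Y₁ ⊓ Y₂) := by
      have e1 : (X₁ ⊓ Y₂) ⊓ (Y₁ ⊓ Y₂) = X₁ ⊓ (Y₁ ⊓ Y₂) := by
        rw [inf_assoc]
        congr 1
        exact inf_eq_right.2 inf_le_right
      rw [← Subgroup.inf_relIndex_right, e1, Subgroup.inf_relIndex_right]
    rw [e]
    exact rel_dvd h₁ inf_le_left
  · have e : (X₁ ⊓ X₂).relIndex (X₁ ⊓ Y₂) = X₂.relIndex (X₁ ⊓ Y₂) := by
      have e1 : (X₁ ⊓ X₂) ⊓ (X₁ ⊓ Y₂) = X₂ ⊓ (X₁ ⊓ Y₂) := by
        ext x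
        simp only [Subgroup.mem_inf]
        tauto
      rw [← Subgroup.inf_relIndex_right, e1, Subgroup.inf_relIndex_right]
    rw [e]
    exact rel_dvd h₂ inf_le_right

theorem not_dvd_of_dvd_mul {a x y : ℕ} (hp : p.Prime) (h : a ∣ x * y) (hx : ¬ p ∣ x) (hy : ¬ p ∣ y) : ¬ p ∣ a := by
  intro ha
  rcases (Nat.Prime.dvd_mul hp).1 (ha.trans h) with h' | h'
  · exact hx h'
  · exact hy h'

theorem pow_of_dvd_mul {a x y : ℕ} (hp : p.Prime) (h : a ∣ x * y) (hx : ∃ k : ℕ, x = p ^ k) (hy : ∃ k : ℕ, y = p ^ k) :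
    ∃ k : ℕ, a = p ^ k := by
  obtain ⟨i, rfl⟩ := hx
  obtain ⟨j, rfl⟩ := hy
  rw [← pow_add] at h
  obtain ⟨k, -, hk⟩ := (Nat.dvd_prime_pow hp).1 h
  exact ⟨k, hk⟩

theorem chain_of_inf [Finite G] {N₁ N₂ : Subgroup G} [hN₁ : N₁.Normal] [hN₂ : N₂.Normal] (hp : p.Prime) (hinf : N₁ ⊓ N₂ = ⊥) (h₁ : RelChain p N₁) (h₂ : RelChain p N₂) :
    Chain p G := by
  obtain ⟨A, B, C, D, hA, hB, hC, hD, hNA, hAB, hBC, hCD, h1, h2, h3, h4, h5, h6⟩ := h₁
  obtain ⟨A', B', C', D', hA', hB', hC', hD', hNA', hAB', hBC', hCD', h1', h2', h3', h4', h5', h6'⟩ := h₂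
  refine ⟨A ⊓ A', B ⊓ B', C ⊓ C', D ⊓ D', Subgroup.normal_inf_normal _ _, Subgroup.normal_inf_normal _ _,
    Subgroup.normal_inf_normal _ _, Subgroup.normal_inf_normal _ _, inf_le_inf hAB hAB', inf_le_inf hBC hBC',
    inf_le_inf hCD hCD', ?_, ?_, ?_, ?_, ?_, ?_⟩
  · have h := rel_inf hNA hNA'
    rw [hinf, Subgroup.relIndex_bot_left] at h
    exact not_dvd_of_dvd_mul hp h h1 h1'
  · exact pow_of_dvd_mul hp (rel_inf hAB hAB') (by obtain ⟨k, hk⟩ := h2; exact ⟨k, hk⟩) (by obtain ⟨k, hk⟩ := h2'; exact ⟨k, hk⟩)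
  · exact not_dvd_of_dvd_mul hp (rel_inf hBC hBC') h3 h3'
  · exact pow_of_dvd_mul hp (rel_inf hCD hCD') (by obtain ⟨k, hk⟩ := h4; exact ⟨k, hk⟩) (by obtain ⟨k, hk⟩ := h4'; exact ⟨k, hk⟩)
  · have h := rel_inf (X₁ := D) (Y₁ := ⊤) (X₂ := D') (Y₂ := ⊤) le_top le_top
    rw [inf_idem, Subgroup.relIndex_top_right, Subgroup.relIndex_top_right, Subgroup.relIndex_top_right] at h
    exact not_dvd_of_dvd_mul hp h h5 h5'
  · intro h2'
    rw [h6 h2', h6' h2', inf_idem]

section Quot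

variable [Finite G] [hp : Fact p.Prime]

theorem maxCond_quot (N : Subgroup G) [hN : N.Normal] (h : MaxCond p G) : MaxCond p (G ⧸ N) := by
  intro M hM
  let f := QuotientGroup.mk' N
  have hf : Function.Surjective f := QuotientGroup.mk'_surjective N
  have hM' : IsCoatom (M.comap f) := TwoMaxClass.comap_coatom f hf hM
  rcases h _ hM' with ⟨K', hK'n, hK'p, k, hk⟩ | hprime
  · left
    let ψ : ↥(M.comap f) →* ↥M := (f.comp (M.comap f).subtype).codRestrict M (fun x => x.2)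
    have hψ : Function.Surjective ψ := by
      rintro ⟨y, hy⟩
      obtain ⟨z, rfl⟩ := hf y
      exact ⟨⟨z, hy⟩, rfl⟩
    refine ⟨K'.map ψ, hK'n.map ψ hψ, ?_, ?_⟩
    · intro hd
      exact hK'p (hd.trans (Subgroup.card_map_dvd K' ψ))
    · have hd : (K'.map ψ).index ∣ p ^ k := hk ▸ Subgroup.index_map_dvd K' hψ
      obtain ⟨j, -, hj⟩ := (Nat.dvd_prime_pow hp.out).1 hd
      exact ⟨j, hj⟩
  · right
    rw [Subgroup.index_comap_of_surjective _ hf] at hprime
    exact hprime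

end Quot

section Main

variable [Finite G] [hp : Fact p.Prime]

theorem le_core_of_coprime (W : Subgroup G) (hWn : W.Normal) (hW : ¬ p ∣ Nat.card W) :
    W ≤ pPrimeCore p G :=
  le_sSup ⟨hWn, ((Nat.Prime.coprime_iff_not_dvd hp.out).2 hW).symm⟩

theorem mem_norm_of_map_eq {W : Subgroup G} {g n : G}
    (he : W.map (MulAut.conj n).toMonoidHom = W.map (MulAut.conj g).toMonoidHom) :
    n⁻¹ * g ∈ Subgroup.normalizer (W : Set G) := by
  rw [Subgroup.mem_normalizer_iff]
  intro x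
  constructor
  · intro hx
    have h1 : g * x * g⁻¹ ∈ W.map (MulAut.conj g).toMonoidHom := ⟨x, hx, by simp⟩
    rw [← he] at h1
    obtain ⟨w, hw, hwe⟩ := h1
    simp only [MulEquiv.coe_toMonoidHom, MulAut.conj_apply] at hwe
    have e : n⁻¹ * g * x * (n⁻¹ * g)⁻¹ = w := by
      calc n⁻¹ * g * x * (n⁻¹ * g)⁻¹ = n⁻¹ * (g * x * g⁻¹) * n := by group
        _ = n⁻¹ * (n * w * n⁻¹) * n := by rw [hwe]
        _ = w := by group
    rw [e]; exact hw
  · intro hx
    have h1 : n * (n⁻¹ * g * x * (n⁻¹ * g)⁻¹) * n⁻¹ ∈ W.map (MulAut.conj n).toMonoidHom := ⟨_, hx, by simp⟩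
    rw [he] at h1
    obtain ⟨w, hw, hwe⟩ := h1
    simp only [MulEquiv.coe_toMonoidHom, MulAut.conj_apply] at hwe
    have e : x = w := by
      have e1 : g * w * g⁻¹ = g * x * g⁻¹ := by
        rw [hwe]; group
      have e2 := congrArg (fun t => g⁻¹ * t * g) e1
      have a1 : g⁻¹ * (g * w * g⁻¹) * g = w := by group
      have a2 : g⁻¹ * (g * x * g⁻¹) * g = x := by group
      simp only [a1, a2] at e2
      exact e2.symm
    rw [e]; exact hw

/-- Frattini step. -/
theorem frattini_step {V A : Subgroup G} [hV : V.Normal] [hA : A.Normal] (hVp : IsPGroup p V)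
    (hVA : V ≤ A) (hrel : ¬ p ∣ V.relIndex A) (hO : pPrimeCore p G = ⊥)
    (hΦ : ∀ M : Subgroup G, IsCoatom M → V ≤ M) : A = V := by
  classical
  let N₀ : Subgroup A := V.subgroupOf A
  haveI hN₀ : N₀.Normal := Subgroup.normal_subgroupOf
  have hN₀c : Nat.card N₀ = Nat.card V := Nat.card_congr (Subgroup.subgroupOfEquivOfLe hVA).toEquiv
  obtain ⟨k, hk⟩ := IsPGroup.iff_card.1 hVp
  have hN₀i : N₀.index = V.relIndex A := rfl
  have hcop : Nat.Coprime (Nat.card N₀) N₀.index := by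
    rw [hN₀c, hk, hN₀i]
    exact Nat.Coprime.pow_left k ((Nat.Prime.coprime_iff_not_dvd hp.out).2 hrel)
  obtain ⟨W₀, hW₀⟩ := Subgroup.exists_right_complement'_of_coprime hcop
  let W : Subgroup G := W₀.map A.subtype
  have hWcard : Nat.card W = V.relIndex A := by
    have h1 : Nat.card W = Nat.card W₀ := Subgroup.card_map_of_injective A.subtype_injective
    rw [h1, ← hW₀.symm.index_eq_card, hN₀i]
  have hWA : W ≤ A := by rintro _ ⟨x, -, rfl⟩; exact x.2
  have hcopVW : Nat.Coprime (Nat.card V) (Nat.card W) := by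
    rw [hWcard, hk]
    exact Nat.Coprime.pow_left k ((Nat.Prime.coprime_iff_not_dvd hp.out).2 hrel)
  have hsup : V ⊔ W = A := by
    apply le_antisymm (sup_le hVA hWA)
    intro a ha
    have h1 : (⟨a, ha⟩ : A) ∈ N₀ ⊔ W₀ := by rw [hW₀.sup_eq_top]; trivial
    rw [Subgroup.mem_sup_of_normal_left] at h1
    obtain ⟨y, hy, z, hz, e⟩ := h1
    have e' : ((y : A) : G) * ((z : A) : G) = a := congrArg Subtype.val e
    rw [← e']
    exact Subgroup.mul_mem_sup (Subgroup.mem_subgroupOf.1 hy) ⟨z, hz, rfl⟩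
  have hVs : Group.IsSolvable V := by
    haveI : Group.IsNilpotent V := hVp.isNilpotent
    infer_instance
  have hNtop : Subgroup.normalizer (W : Set G) = ⊤ := by
    by_contra hne
    obtain ⟨M, hM, hNM⟩ := (eq_top_or_exists_le_coatom (Subgroup.normalizer (W : Set G))).resolve_left hne
    apply hM.1
    rw [eq_top_iff]
    intro g _
    let B : Subgroup G := W.map (MulAut.conj g).toMonoidHom
    have hB : B ≤ V ⊔ W := by
      rw [hsup]
      rintro _ ⟨w, hw, rfl⟩
      exact hA.conj_mem w (hWA hw) g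
    have hc : Nat.card B = Nat.card W :=
      Subgroup.card_map_of_injective (MulAut.conj g).injective
    have hAN : W ≤ Subgroup.normalizer (V : Set G) := by
      rw [Subgroup.normalizer_eq_top]; exact le_top
    obtain ⟨n, hn, he⟩ := Cfsg.Agent.Lib.SchurZ.sz_conj_ambient V W B hAN hB hc hcopVW (Or.inl hVs)
    have hy := mem_norm_of_map_eq he
    have : g = n * (n⁻¹ * g) := by group
    rw [this]
    exact M.mul_mem (hΦ M hM hn) (hNM hy)
  have hWn : W.Normal := Subgroup.normalizer_eq_top_iff.1 hNtop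
  have hWbot : W = ⊥ := by
    have h1 := le_core_of_coprime W hWn (by rw [hWcard]; exact hrel)
    rw [hO] at h1
    exact le_bot_iff.1 h1
  have h1 : V.relIndex A = 1 := by
    rw [← hWcard, hWbot, Subgroup.card_bot]
  exact le_antisymm (Subgroup.relIndex_eq_one.1 h1) hVA

theorem sup_inf_of_not_le {V M : Subgroup G} [hV : V.Normal] (hVab : ∀ a ∈ V, ∀ b ∈ V, a * b = b * a)
    (hmin : ∀ N : Subgroup G, N.Normal → N ≤ V → N ≠ ⊥ → N = V) (hM : IsCoatom M) (hVM : ¬ V ≤ M) :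
    V ⊔ M = ⊤ ∧ V ⊓ M = ⊥ := by
  have hsup : V ⊔ M = ⊤ := by
    apply hM.2
    refine lt_of_le_of_ne le_sup_right ?_
    intro he
    exact hVM (he ▸ le_sup_left)
  refine ⟨hsup, ?_⟩
  by_contra hne
  have hn : (V ⊓ M).Normal := by
    constructor
    intro x hx g
    have hg : g ∈ V ⊔ M := by rw [hsup]; trivial
    rw [Subgroup.mem_sup_of_normal_left] at hg
    obtain ⟨v, hv, m, hm, rfl⟩ := hg
    have hy1 : m * x * m⁻¹ ∈ V := hV.conj_mem x hx.1 m
    have hy2 : m * x * m⁻¹ ∈ M := M.mul_mem (M.mul_mem hm hx.2) (M.inv_mem hm)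
    have hc := hVab v hv _ hy1
    have e : v * m * x * (v * m)⁻¹ = m * x * m⁻¹ := by
      calc v * m * x * (v * m)⁻¹ = (v * (m * x * m⁻¹)) * v⁻¹ := by group
        _ = ((m * x * m⁻¹) * v) * v⁻¹ := by rw [hc]
        _ = _ := by group
    rw [e]
    exact ⟨hy1, hy2⟩
  have := hmin _ hn inf_le_left hne
  exact hVM (inf_eq_left.1 this)

theorem chain_of_npc {V M : Subgroup G} [hV : V.Normal] (hVp : IsPGroup p V)
    (hsup : V ⊔ M = ⊤) (K : Subgroup ↥M) (hKn : K.Normal) (hKp : ¬ p ∣ Nat.card K) {k : ℕ} (hk : K.index = p ^ k) :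
    Chain p G := by
  let K' : Subgroup G := K.map M.subtype
  have hK'M : K' ≤ M := by rintro _ ⟨x, -, rfl⟩; exact x.2
  have hK'c : Nat.card K' = Nat.card K := Subgroup.card_map_of_injective M.subtype_injective
  let C : Subgroup G := V ⊔ K'
  have hCn : C.Normal := by
    constructor
    intro c hc g
    rw [Subgroup.mem_sup_of_normal_left] at hc
    obtain ⟨v, hv, k', hk', rfl⟩ := hc
    have hg : g ∈ V ⊔ M := by rw [hsup]; trivial
    rw [Subgroup.mem_sup_of_normal_left] at hg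
    obtain ⟨v₁, hv₁, m, hm, rfl⟩ := hg
    obtain ⟨x, hx, rfl⟩ := hk'
    have hx1 : m * (x : G) * m⁻¹ ∈ K' := by
      refine ⟨⟨m, hm⟩ * x * ⟨m, hm⟩⁻¹, hKn.conj_mem x hx _, by simp⟩
    have e : v₁ * m * (v * (M.subtype x)) * (v₁ * m)⁻¹
        = (v₁ * (m * v * m⁻¹) * ((m * (x : G) * m⁻¹) * v₁⁻¹ * (m * (x : G) * m⁻¹)⁻¹)) * (m * (x : G) * m⁻¹) := by
      simp only [Subgroup.subtype_apply]; group
    rw [e]
    refine Subgroup.mul_mem _ (Subgroup.mem_sup_left (V.mul_mem (V.mul_mem hv₁ (hV.conj_mem v hv m)) ?_)) (Subgroup.mem_sup_right hx1)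
    exact hV.conj_mem _ (V.inv_mem hv₁) _
  refine ⟨⊥, V, C, ⊤, inferInstance, hV, hCn, inferInstance, bot_le, le_sup_left, le_top, ?_, ?_, ?_, ?_, ?_, fun _ => rfl⟩
  · simpa using hp.out.one_lt.ne'
  · obtain ⟨j, hj⟩ := IsPGroup.iff_card.1 hVp
    exact ⟨j, by rw [Subgroup.relIndex_bot_left, hj]⟩
  · have e : V.relIndex C = V.relIndex K' := Subgroup.relIndex_sup_left K' V
    rw [e]
    intro hd
    exact hKp (hK'c ▸ hd.trans (Subgroup.relIndex_dvd_card _ _))
  · rw [Subgroup.relIndex_top_right]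
    have hsup2 : C ⊔ M = ⊤ := by
      rw [eq_top_iff, ← hsup]
      exact sup_le_sup_right le_sup_left _
    haveI := hCn
    have e : C.index = C.relIndex M := by
      rw [← Subgroup.relIndex_top_right, ← hsup2]
      exact Subgroup.relIndex_sup_left M C
    have hd : C.relIndex M ∣ K'.relIndex M := Subgroup.relIndex_dvd_of_le_left M le_sup_right
    have e2 : K'.relIndex M = K.index := by
      have : K'.subgroupOf M = K := by
        ext x
        simp only [Subgroup.mem_subgroupOf, K']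
        constructor
        · rintro ⟨y, hy, hye⟩
          have : y = x := Subtype.ext hye
          exact this ▸ hy
        · intro hx
          exact ⟨x, hx, rfl⟩
      rw [Subgroup.relIndex, this]
    rw [e2, hk] at hd
    obtain ⟨j, -, hj⟩ := (Nat.dvd_prime_pow hp.out).1 hd
    exact ⟨j, by rw [e, hj]⟩
  · simpa using hp.out.one_lt.ne'

theorem prime_case {V M : Subgroup G} [hV : V.Normal] (hVp : IsPGroup p V) (hVne : V ≠ ⊥)
    (hsup : V ⊔ M = ⊤) (hinf : V ⊓ M = ⊥) (hprime : M.index.Prime)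
    (hquot : ∀ N : Subgroup G, N.Normal → N ≠ ⊥ → RelChain p N) : Chain p G := by
  classical
  have hVi : V.index = Nat.card M := by
    rw [← Subgroup.relIndex_top_right, ← hsup, Subgroup.relIndex_sup_left M V, ← Subgroup.inf_relIndex_right,
      hinf, Subgroup.relIndex_bot_left]
  have hcard : Nat.card V = M.index := by
    have h1 := Subgroup.card_mul_index V
    have h2 := Subgroup.card_mul_index M
    rw [hVi] at h1
    have h3 : Nat.card M * Nat.card V = Nat.card M * M.index := by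
      rw [h2, mul_comm, h1]
    exact Nat.eq_of_mul_eq_mul_left Nat.card_pos h3
  obtain ⟨j, hj⟩ := IsPGroup.iff_card.1 hVp
  have hj0 : j ≠ 0 := by
    rintro rfl
    rw [pow_zero] at hj
    exact hVne ((Subgroup.card_eq_one).1 hj)
  have hcardp : Nat.card V = p := by
    have hd : p ∣ M.index := by
      rw [← hcard, hj]; exact dvd_pow_self p hj0
    have := (Nat.prime_dvd_prime_iff_eq hp.out hprime).1 hd
    rw [hcard, this]
  let T : Subgroup G := Subgroup.centralizer (V : Set G) ⊓ M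
  have hCn : (Subgroup.centralizer (V : Set G)).Normal := Subgroup.normal_centralizer
  have hTn : T.Normal := by
    constructor
    intro x hx g
    have hg : g ∈ V ⊔ M := by rw [hsup]; trivial
    rw [Subgroup.mem_sup_of_normal_left] at hg
    obtain ⟨v, hv, m, hm, rfl⟩ := hg
    have hy1 : m * x * m⁻¹ ∈ Subgroup.centralizer (V : Set G) := hCn.conj_mem x hx.1 m
    have hy2 : m * x * m⁻¹ ∈ M := M.mul_mem (M.mul_mem hm hx.2) (M.inv_mem hm)
    have hc := (Subgroup.mem_centralizer_iff.1 hy1) v hv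
    have e : v * m * x * (v * m)⁻¹ = m * x * m⁻¹ := by
      calc v * m * x * (v * m)⁻¹ = (v * (m * x * m⁻¹)) * v⁻¹ := by group
        _ = ((m * x * m⁻¹) * v) * v⁻¹ := by rw [hc]
        _ = _ := by group
    rw [e]
    exact ⟨hy1, hy2⟩
  by_cases hT : T = ⊥
  · -- faithful action on a group of order p
    let φ : ↥M →* MulAut ↥V := (MulAut.conjNormal (H := V)).comp M.subtype
    have hφ : Function.Injective φ := by
      rw [injective_iff_map_eq_one]
      intro m hm
      have hmem : (m : G) ∈ T := by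
        refine Subgroup.mem_inf.2 ⟨?_, m.2⟩
        rw [Subgroup.mem_centralizer_iff]
        intro v hv
        have h1 : φ m ⟨v, hv⟩ = ⟨v, hv⟩ := by rw [hm]; rfl
        have h2 : ((φ m ⟨v, hv⟩ : ↥V) : G) = (m : G) * v * (m : G)⁻¹ := rfl
        have h3 := congrArg Subtype.val h1
        rw [h2] at h3
        calc v * (m : G) = ((m : G) * v * (m : G)⁻¹) * m := by rw [h3]
          _ = (m : G) * v := by group
      rw [hT] at hmem
      exact Subtype.ext hmem
    haveI hcyc : IsCyclic ↥V := by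
      haveI : Fact (Nat.card V).Prime := ⟨by rw [hcardp]; exact hp.out⟩
      exact isCyclic_of_prime_card rfl
    have hdvd : Nat.card M ∣ p - 1 := by
      have h1 := Subgroup.card_dvd_of_injective φ hφ
      rw [IsCyclic.card_mulAut, hcardp, Nat.totient_prime hp.out] at h1
      exact h1
    have hnd : ¬ p ∣ V.index := by
      rw [hVi]
      intro h
      have h1 := h.trans hdvd
      have h2 := Nat.le_of_dvd (by have := hp.out.two_le; omega) h1
      have := hp.out.two_le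
      omega
    refine ⟨⊥, V, V, V, inferInstance, hV, hV, hV, bot_le, le_rfl, le_rfl, ?_, ?_, ?_, ⟨0, ?_⟩, hnd, ?_⟩
    · simpa using hp.out.one_lt.ne'
    · exact ⟨j, by rw [Subgroup.relIndex_bot_left, hj]⟩
    · rw [Subgroup.relIndex_self]; simpa using hp.out.one_lt.ne'
    · rw [Subgroup.relIndex_self, pow_zero]
    · intro h2
      have h1 : Nat.card M = 1 := by
        have : Nat.card M ∣ 1 := by
          have h3 := hdvd
          rw [h2] at h3
          simpa using h3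
        exact Nat.dvd_one.1 this
      rw [← Subgroup.index_eq_one, hVi, h1]
  · have h1 := hquot V hV hVne
    have h2 := hquot T hTn hT
    haveI := hTn
    refine chain_of_inf hp.out ?_ h1 h2
    rw [eq_bot_iff, ← hinf]
    exact inf_le_inf_left _ inf_le_right

end Main

section Induction

variable (p) [hp : Fact p.Prime]

theorem chain_main : ∀ (n : ℕ) (G : Type u) [Group G] [Finite G], Nat.card G = n →
    (Group.IsSolvable G ∨ IsPSolvable p G) → MaxCond p G → Chain p G := by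
  intro n
  induction n using Nat.strong_induction_on with
  | _ n IH =>
  intro G _ _ hn hS hmax
  classical
  by_cases hnt : Nontrivial G
  swap
  · rw [not_nontrivial_iff_subsingleton] at hnt
    refine ⟨⊥, ⊥, ⊥, ⊥, inferInstance, inferInstance, inferInstance, inferInstance, le_rfl, le_rfl, le_rfl, ?_, ⟨0, ?_⟩, ?_, ⟨0, ?_⟩, ?_, fun _ => Subsingleton.elim _ _⟩
    · simpa using hp.out.one_lt.ne'
    · rw [Subgroup.relIndex_self, pow_zero]
    · rw [Subgroup.relIndex_self]; simpa using hp.out.one_lt.ne'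
    · rw [Subgroup.relIndex_self, pow_zero]
    · have : (⊥ : Subgroup G) = ⊤ := Subsingleton.elim _ _
      rw [this, Subgroup.index_top]; simpa using hp.out.one_lt.ne'
  have hquot : ∀ N : Subgroup G, N.Normal → N ≠ ⊥ → RelChain p N := by
    intro N hN hne
    haveI := hN
    apply relChain_of_quot
    refine IH (Nat.card (G ⧸ N)) ?_ (G ⧸ N) rfl ?_ (maxCond_quot N hmax)
    · have h1 := Subgroup.card_eq_card_quotient_mul_card_subgroup N
      have h2 : 1 < Nat.card N := by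
        have : Nontrivial N := (Subgroup.nontrivial_iff_ne_bot N).2 hne
        exact Finite.one_lt_card
      have h3 : 0 < Nat.card (G ⧸ N) := Nat.card_pos
      rw [← hn, h1]
      nlinarith
    · rcases hS with h | h
      · left; infer_instance
      · right; exact UpperP.isPSolvable_quotient h N
  by_cases hO : pPrimeCore p G = ⊥
  swap
  · haveI hOn : (pPrimeCore p G).Normal := FitCore.pPrimeCore_normal p
    exact chain_of_relChain _ (FitCore.not_dvd_card_pPrimeCore p hp.out) hp.out (hquot _ hOn hO)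
  have hpn : pCore p G ≠ ⊥ := by
    intro hb
    rcases hS with h | h
    · obtain ⟨q, A, hq, hAn, hAne, hAq, -⟩ := H7Basic.exists_normal_pGroup h
      by_cases hqp : q = p
      · subst hqp
        haveI : Fact q.Prime := ⟨hq⟩
        have := FitCore.le_pCore q A hAn hAq
        rw [hb] at this
        exact hAne (le_bot_iff.1 this)
      · haveI : Fact q.Prime := ⟨hq⟩
        have hnd : ¬ p ∣ Nat.card A := by
          obtain ⟨k, hk⟩ := IsPGroup.iff_card.1 hAq
          rw [hk]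
          intro hd
          have := hp.out.dvd_of_dvd_pow hd
          exact hqp ((Nat.prime_dvd_prime_iff_eq hp.out hq).1 this).symm
        have := le_core_of_coprime A hAn hnd
        rw [hO] at this
        exact hAne (le_bot_iff.1 this)
    · have := CharBlockPSolv.centralizer_pCore_le_of_pSolvable h hO
      rw [hb] at this
      have h2 : Subgroup.centralizer ((⊥ : Subgroup G) : Set G) = ⊤ := by
        simp
      rw [h2] at this
      exact top_ne_bot (le_bot_iff.1 this)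
  have hVS : ∃ V : Subgroup G, Minimal (fun N : Subgroup G => N.Normal ∧ N ≤ pCore p G ∧ N ≠ ⊥) V := by
    haveI hcn : (pCore p G).Normal := FitCore.pCore_normal p
    exact (Set.toFinite {N : Subgroup G | N.Normal ∧ N ≤ pCore p G ∧ N ≠ ⊥}).exists_minimal ⟨_, hcn, le_rfl, hpn⟩
  obtain ⟨V, hVm⟩ := hVS
  obtain ⟨hVn, hVle, hVne⟩ := hVm.prop
  haveI := hVn
  have hVp : IsPGroup p V := (FitCore.pCore_isPGroup p).to_le hVle
  have hmin : ∀ N : Subgroup G, N.Normal → N ≤ V → N ≠ ⊥ → N = V := by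
    intro N hN hNV hne
    exact le_antisymm hNV (hVm.le_of_le ⟨hN, hNV.trans hVle, hne⟩ hNV)
  have hVab : ∀ a ∈ V, ∀ b ∈ V, a * b = b * a := by
    have hcn : (⁅V, V⁆ : Subgroup G).Normal := Subgroup.commutator_normal V V
    have hle : ⁅V, V⁆ ≤ V := Subgroup.commutator_le_left V V
    have hne : ⁅V, V⁆ ≠ V := PNilp.commutator_ne_self_of_isPGroup hVp hVne
    have hbot : ⁅V, V⁆ = ⊥ := by
      by_contra h
      exact hne (hmin _ hcn hle h)
    intro a ha b hb
    have h1 : ⁅a, b⁆ ∈ ⁅V, V⁆ := Subgroup.commutator_mem_commutator ha hb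
    rw [hbot] at h1
    exact commutatorElement_eq_one_iff_mul_comm.1 h1
  by_cases hΦ : ∀ M : Subgroup G, IsCoatom M → V ≤ M
  · obtain ⟨A, B, C, D, hA, hB, hC, hD, hNA, hAB, hBC, hCD, h1, h2, h3, h4, h5, h6⟩ := hquot V hVn hVne
    haveI := hA
    have hAV : A = V := frattini_step hVp hNA h1 hO hΦ
    subst hAV
    refine ⟨⊥, B, C, D, inferInstance, hB, hC, hD, bot_le, hBC, hCD, ?_, ?_, h3, h4, h5, h6⟩
    · simpa using hp.out.one_lt.ne'
    · obtain ⟨k, hk⟩ := h2
      obtain ⟨j, hj⟩ := IsPGroup.iff_card.1 hVp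
      refine ⟨j + k, ?_⟩
      have := Subgroup.relIndex_mul_relIndex (⊥ : Subgroup G) A B bot_le hAB
      rw [Subgroup.relIndex_bot_left, Subgroup.relIndex_bot_left] at this
      rw [Subgroup.relIndex_bot_left, ← this, hj, hk, pow_add]
  · push Not at hΦ
    obtain ⟨M, hM, hVM⟩ := hΦ
    obtain ⟨hsup, hinf⟩ := sup_inf_of_not_le hVab hmin hM hVM
    rcases hmax M hM with ⟨K, hKn, hKp, k, hk⟩ | hprime
    · exact chain_of_npc hVp hsup K hKn hKp hk
    · exact prime_case hVp hVne hsup hinf hprime hquot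

end Induction

end Cfsg.Agent.Lib.PLenTwo
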