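import Mathlib
import Cfsg.Agent.Lib.PSL2Spec

/-! `PSL₂(2^t) = A B A` with `A` cyclic of order `q + 1`, `B` elementary abelian of order `q`. -/

namespace Cfsg.Agent.Lib.GL2Conj

open Matrix
open scoped MatrixGroups
open Cfsg
open Cfsg.Agent.Lib.MkSL

variable {F : Type*} [Field F] [Fintype F] [DecidableEq F]

/-- Companion form of a matrix with no eigenvector. -/
theorem exists_noeig_cS : ∃ t : F, NoEig (cS t : SL(2, F)) := by
  classical
  have hns : ¬ Function.Surjective (fun a : {d : F // d ≠ 0} => a.1 + a.1⁻¹) := by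
    intro hs
    have h1 := Fintype.card_le_of_surjective _ hs
    rw [Fintype.card_subtype_compl] at h1
    simp only [Fintype.card_unique] at h1
    have h2 : 1 ≤ Fintype.card F := Fintype.card_pos
    have h3 : Fintype.card {x : F // x = 0} = 1 := by simp
    omega
  simp only [Function.Surjective, not_forall, not_exists] at hns
  obtain ⟨t, ht⟩ := hns
  refine ⟨t, ?_⟩
  rw [noeig_iff, mem_Sp]
  have e : (cS t : SL(2, F)) 0 0 + (cS t : SL(2, F)) 1 1 = t := by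
    simp [cS]
  rw [e]
  rintro ⟨a, ha, hat⟩
  exact ht ⟨a, ha⟩ hat

/-- Unitriangular subgroup. -/
def Uni (F : Type*) [Field F] : Subgroup (SL(2, F)) where
  carrier := {g | g 0 0 = 1 ∧ g 1 0 = 0}
  one_mem' := by simp
  mul_mem' := by
    rintro a b ⟨h1, h2⟩ ⟨h3, h4⟩
    refine ⟨?_, ?_⟩
    · rw [mul_ij, h1, h3, h4]; ring
    · rw [mul_ij, h2, h3, h4]; ring
  inv_mem' := by
    rintro a ⟨h1, h2⟩
    have hd := det2 a
    rw [h1, h2] at hd
    have h11 : a 1 1 = 1 := by linear_combination hd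
    obtain ⟨i0, _, i1, _⟩ := inv_ij a
    exact ⟨by rw [i0, h11], by rw [i1, h2, neg_zero]⟩

theorem mem_Uni {g : SL(2, F)} : g ∈ Uni F ↔ g 0 0 = 1 ∧ g 1 0 = 0 := Iff.rfl

theorem Uni_11 {g : SL(2, F)} (h : g ∈ Uni F) : g 1 1 = 1 := by
  have hd := det2 g
  rw [h.1, h.2] at hd
  linear_combination hd

theorem Uni_comm {g h : SL(2, F)} (hg : g ∈ Uni F) (hh : h ∈ Uni F) : g * h = h * g := by
  apply ext2
  · rw [mul_ij, mul_ij, hg.1, hg.2, hh.1, hh.2]; ring
  · rw [mul_ij, mul_ij, hg.1, hh.1, Uni_11 hg, Uni_11 hh]; ring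
  · rw [mul_ij, mul_ij, hg.1, hg.2, hh.1, hh.2]; ring
  · rw [mul_ij, mul_ij, hg.2, hh.2, Uni_11 hg, Uni_11 hh]; ring

theorem Uni_sq [CharP F 2] {g : SL(2, F)} (hg : g ∈ Uni F) : g * g = 1 := by
  have h20 : (2 : F) = 0 := by exact_mod_cast CharP.cast_eq_zero F 2
  apply ext2
  · rw [mul_ij, hg.1, hg.2]; simp
  · rw [mul_ij, hg.1, Uni_11 hg]
    simp
    linear_combination (g 0 1) * h20
  · rw [mul_ij, hg.1, hg.2]; simp
  · rw [mul_ij, hg.2, Uni_11 hg]; simp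

theorem card_Uni : Nat.card (Uni F) = Fintype.card F := by
  rw [← Nat.card_eq_fintype_card]
  refine Nat.card_congr ⟨fun g => g.1 0 1, fun x => ⟨mkSL 1 x 0 1 (by ring), by simp [mem_Uni]⟩, ?_, ?_⟩
  · rintro ⟨g, hg⟩
    apply Subtype.ext
    apply ext2
    · simpa using hg.1.symm
    · simp
    · simpa using hg.2.symm
    · simpa using (Uni_11 hg).symm
  · intro x; simp

omit [Fintype F] [DecidableEq F] in
/-- Torus element with given first column. -/
theorem el_det (t x y : F) (h : x ^ 2 + t * x * y + y ^ 2 = 1) : x * (x + t * y) - (-y) * y = 1 := by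
  linear_combination h

theorem el_mem (t x y : F) (h) :
    mkSL x (-y) y (x + t * y) (el_det t x y h) ∈ Subgroup.centralizer ({(cS t : SL(2, F))} : Set (SL(2, F))) := by
  rw [Subgroup.mem_centralizer_singleton_iff]
  apply ext2
  · rw [mul_ij, mul_ij]; simp [cS]
  · rw [mul_ij, mul_ij]; simp [cS] <;> ring
  · rw [mul_ij, mul_ij]; simp [cS] <;> ring
  · rw [mul_ij, mul_ij]; simp [cS] <;> ring

/-- The norm form of a matrix with no eigenvector is anisotropic. -/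
theorem aniso {t : F} (hn : NoEig (cS t : SL(2, F))) {x y : F} (hxy : x ^ 2 + t * x * y + y ^ 2 = 0) :
    x = 0 ∧ y = 0 := by
  classical
  by_cases hy : y = 0
  · subst hy
    have : x ^ 2 = 0 := by linear_combination hxy
    exact ⟨by simpa using this, rfl⟩
  · exfalso
    have h1 := noeig_char hn (- (x / y))
    apply h1
    simp [cS]
    field_simp
    linear_combination hxy

/-- Two values: solve for a vector at which both forms equal 1. -/
theorem exists_vec [CharP F 2] {t : F} (hn : NoEig (cS t : SL(2, F))) (g : SL(2, F)) :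
    ∃ x y : F, x ^ 2 + t * x * y + y ^ 2 = 1 ∧
      (g 0 0 * x + g 0 1 * y) ^ 2 + t * (g 0 0 * x + g 0 1 * y) * (g 1 0 * x + g 1 1 * y) + (g 1 0 * x + g 1 1 * y) ^ 2 = 1 := by
  have h20 : (2 : F) = 0 := by exact_mod_cast CharP.cast_eq_zero F 2
  have hd := det2 g
  set a := g 0 0
  set b := g 0 1
  set c := g 1 0
  set d := g 1 1
  obtain ⟨r, hr⟩ := isSquare_of_charTwo' (a ^ 2 + t * a * c + c ^ 2 + 1)
  obtain ⟨s, hs⟩ := isSquare_of_charTwo' (b ^ 2 + t * b * d + d ^ 2 + 1)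
  -- vector `(x₀, y₀)` with vanishing difference
  obtain ⟨x₀, y₀, hne, hzero⟩ : ∃ x₀ y₀ : F, (x₀ ≠ 0 ∨ y₀ ≠ 0) ∧
      (a ^ 2 + t * a * c + c ^ 2 + 1) * x₀ ^ 2 + (b ^ 2 + t * b * d + d ^ 2 + 1) * y₀ ^ 2 = 0 := by
    by_cases h : r = 0 ∧ s = 0
    · refine ⟨1, 0, Or.inl one_ne_zero, ?_⟩
      rw [hr, h.1]; ring
    · refine ⟨s, r, ?_, ?_⟩
      · by_contra hc
        push Not at hc
        exact h ⟨hc.2, hc.1⟩
      · rw [hr, hs]
        linear_combination (r ^ 2 * s ^ 2) * h20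
  set Q₀ := x₀ ^ 2 + t * x₀ * y₀ + y₀ ^ 2 with hQ
  have hQ0 : Q₀ ≠ 0 := by
    intro h0
    obtain ⟨h1, h2⟩ := aniso hn h0
    rcases hne with h | h
    · exact h h1
    · exact h h2
  obtain ⟨e, he⟩ := isSquare_of_charTwo' Q₀
  have he0 : e ≠ 0 := by
    rintro rfl
    apply hQ0
    rw [he]; ring
  refine ⟨x₀ / e, y₀ / e, ?_, ?_⟩
  · have : (x₀ / e) ^ 2 + t * (x₀ / e) * (y₀ / e) + (y₀ / e) ^ 2 = Q₀ / (e * e) := by
      rw [hQ]; field_simp
    rw [this, he]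
    field_simp
  · have hkey : (a * x₀ + b * y₀) ^ 2 + t * (a * x₀ + b * y₀) * (c * x₀ + d * y₀) + (c * x₀ + d * y₀) ^ 2 = Q₀ := by
      rw [hQ]
      linear_combination hzero + (x₀ * y₀ * t) * hd + (x₀ * y₀ * (a * b + c * d + t * b * c) - x₀ ^ 2 * 0 - x₀ ^ 2 - y₀ ^ 2 - t * x₀ * y₀ + x₀ * y₀ * t) * h20
    have : (a * (x₀ / e) + b * (y₀ / e)) ^ 2 + t * (a * (x₀ / e) + b * (y₀ / e)) * (c * (x₀ / e) + d * (y₀ / e)) + (c * (x₀ / e) + d * (y₀ / e)) ^ 2
        = ((a * x₀ + b * y₀) ^ 2 + t * (a * x₀ + b * y₀) * (c * x₀ + d * y₀) + (c * x₀ + d * y₀) ^ 2) / (e * e) := by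
      field_simp
    rw [this, hkey, he]
    field_simp

/-- The factorization `SL₂ = T U T` for `q` even. -/
theorem exists_TUT [CharP F 2] {t : F} (hn : NoEig (cS t : SL(2, F))) (g : SL(2, F)) :
    ∃ a ∈ Subgroup.centralizer ({(cS t : SL(2, F))} : Set (SL(2, F))), ∃ b ∈ Uni F,
      ∃ c ∈ Subgroup.centralizer ({(cS t : SL(2, F))} : Set (SL(2, F))), g = a * b * c := by
  obtain ⟨x, y, h1, h2⟩ := exists_vec hn g
  set X := g 0 0 * x + g 0 1 * y with hX
  set Y := g 1 0 * x + g 1 1 * y with hY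
  set a₂ := mkSL x (-y) y (x + t * y) (el_det t x y h1) with ha₂
  set a₁ := mkSL X (-Y) Y (X + t * Y) (el_det t X Y h2) with ha₁
  have ma₂ : a₂ ∈ Subgroup.centralizer ({(cS t : SL(2, F))} : Set (SL(2, F))) := el_mem t x y h1
  have ma₁ : a₁ ∈ Subgroup.centralizer ({(cS t : SL(2, F))} : Set (SL(2, F))) := el_mem t X Y h2
  refine ⟨a₁, ma₁, a₁⁻¹ * g * a₂, ?_, a₂⁻¹, inv_mem ma₂, ?_⟩
  · obtain ⟨i0, i1, i2, i3⟩ := inv_ij a₁
    have e0 : (g * a₂) 0 0 = X := by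
      rw [mul_ij, ha₂]; simp [hX]
    have e1 : (g * a₂) 1 0 = Y := by
      rw [mul_ij, ha₂]; simp [hY]
    rw [mem_Uni, mul_assoc]
    constructor
    · rw [mul_ij, i0, i1, e0, e1, ha₁]
      simp
      linear_combination h2
    · rw [mul_ij, i2, i3, e0, e1, ha₁]
      simp
      ring
  · group

/-- The core statement. -/
theorem S2503_core [CharP F 2] (h4 : 4 ≤ Fintype.card F) :
    ∃ A B : Subgroup (Matrix.ProjectiveSpecialLinearGroup (Fin 2) F),
      IsCyclic A ∧ Nat.card A = Fintype.card F + 1 ∧ IsMulCommutative B ∧ (∀ b ∈ B, b * b = 1) ∧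
        Nat.card B = Fintype.card F ∧
        ∀ g : Matrix.ProjectiveSpecialLinearGroup (Fin 2) F, ∃ a ∈ A, ∃ b ∈ B, ∃ c ∈ A, g = a * b * c := by
  obtain ⟨t, hn⟩ := exists_noeig_cS (F := F)
  have hinj : Function.Injective (pr : SL(2, F) →* _) := by
    rw [injective_iff_map_eq_one]
    intro x hx
    exact scalar_even (scalar_of_pr hx)
  set T := Subgroup.centralizer ({(cS t : SL(2, F))} : Set (SL(2, F))) with hT
  refine ⟨T.map pr, (Uni F).map pr, ?_, ?_, ?_, ?_, ?_, ?_⟩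
  · haveI : IsCyclic T := torus_cyclic hn
    exact isCyclic_of_surjective (pr.subgroupMap T) (MonoidHom.subgroupMap_surjective _ _)
  · rw [Subgroup.card_map_of_injective hinj]
    exact card_torus _ hn
  · constructor
    constructor
    rintro ⟨_, a, ha, rfl⟩ ⟨_, b, hb, rfl⟩
    apply Subtype.ext
    show pr a * pr b = pr b * pr a
    rw [← map_mul, ← map_mul, Uni_comm ha hb]
  · rintro _ ⟨a, ha, rfl⟩
    rw [← map_mul, Uni_sq ha, map_one]
  · rw [Subgroup.card_map_of_injective hinj, card_Uni]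
  · intro g
    obtain ⟨g', rfl⟩ := pr_surjective g
    obtain ⟨a, ha, b, hb, c, hc, e⟩ := exists_TUT hn g'
    refine ⟨pr a, ⟨a, ha, rfl⟩, pr b, ⟨b, hb, rfl⟩, pr c, ⟨c, hc, rfl⟩, ?_⟩
    rw [e, map_mul, map_mul]

end Cfsg.Agent.Lib.GL2Conj
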