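/-
`PSU₃(2) ≅ 3² : Q₈`, computed in the concrete model of the field with four elements.
-/
import Mathlib
import Cfsg.Agent.Lib.F4Model

set_option autoImplicit false
set_option linter.all false
set_option maxRecDepth 100000

open scoped MatrixGroups Matrix
open Finset Cfsg
open Cfsg.Agent.Lib.F4Model
open K4

namespace Cfsg.Agent.Lib.PSU32a

abbrev M3 := Matrix (Fin 3) (Fin 3) K4

/-- The Hermitian form. -/
def hK (u v : Fin 3 → K4) : K4 := u 0 * (v 0 * v 0) + u 1 * (v 1 * v 1) + u 2 * (v 2 * v 2)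

/-- A matrix from columns. -/
def cols (c₁ c₂ c₃ : Fin 3 → K4) : M3 := Matrix.of fun i j => ![c₁ i, c₂ i, c₃ i] j

/-- The adjoint. -/
def dag (M : M3) : M3 := Matrix.of fun i j => M j i * M j i

/-- Quantification over the group. -/
abbrev enumG (P : M3 → Prop) : Prop :=
  ∀ c₁, hK c₁ c₁ = 1 → ∀ c₂, hK c₂ c₂ = 1 → hK c₁ c₂ = 0 → ∀ c₃, hK c₃ c₃ = 1 → hK c₁ c₃ = 0 → hK c₂ c₃ = 0 →
    (cols c₁ c₂ c₃).det = 1 → P (cols c₁ c₂ c₃)

/-- `ζ^k`. -/
def zetaP : Fin 3 → K4
  | 0 => i
  | 1 => w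
  | 2 => v

/-- The elements of the normal subgroup of order 27. -/
def eE (t : Fin 3 × Fin 3 × Fin 3) : M3 :=
  Matrix.of fun r s => if s = r + t.2.2 then zetaP (t.1 + t.2.1 * r) else 0

/-- Representatives. -/
def mI : M3 := !![i, i, i; i, w, v; i, v, w]

def mJ : M3 := !![i, i, v; i, w, w; w, i, w]

def Rq : QuaternionGroup 2 → M3
  | .a k => mI ^ k.val
  | .xa k => mJ * mI ^ k.val

theorem eE_one : eE (0, 0, 0) = 1 := by decide +kernel

theorem eE_mul : ∀ t t', ∃ t'', eE t * eE t' = eE t'' := by decide +kernel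

theorem eE_inv : ∀ t, ∃ t', eE t * eE t' = 1 := by decide +kernel

theorem eE_inj : ∀ t t', eE t = eE t' → t = t' := by decide +kernel

theorem eE_cube : ∀ t, ∃ w, eE t * eE t * eE t = eE (w, 0, 0) := by decide +kernel

theorem eE_dag : ∀ t, dag (eE t) * eE t = 1 ∧ (eE t).det = 1 := by decide +kernel

theorem R_dag : ∀ q, dag (Rq q) * Rq q = 1 ∧ (Rq q).det = 1 := by decide +kernel

theorem R_mul : ∀ q q', ∃ t, dag (Rq (q * q')) * (Rq q * Rq q') = eE t := by decide +kernel

theorem R_inj : ∀ q q', (∃ t, dag (Rq q) * Rq q' = eE t) → q = q' := by decide +kernel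

set_option synthInstance.maxSize 1000 in
set_option synthInstance.maxHeartbeats 200000 in
theorem R_surj : enumG fun M => ∃ q, ∃ t, dag (Rq q) * M = eE t := by decide +kernel

set_option synthInstance.maxSize 1000 in
set_option synthInstance.maxHeartbeats 200000 in
theorem eE_normal : enumG fun M => ∀ t, ∃ t', M * eE t * dag M = eE t' := by decide +kernel

set_option synthInstance.maxSize 1000 in
set_option synthInstance.maxHeartbeats 200000 in
theorem center_check : enumG fun M => (∃ w, M = eE (w, 0, 0)) ∨ M * eE (0, 1, 0) ≠ eE (0, 1, 0) * M ∨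
    M * eE (0, 0, 1) ≠ eE (0, 0, 1) * M ∨ M * mI ≠ mI * M := by decide +kernel

theorem scalar_eE : ∀ w, ∃ c : K4, eE (w, 0, 0) = c • 1 := by decide +kernel

end Cfsg.Agent.Lib.PSU32a
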