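/-
`PSU₃(2) ≅ 3² : Q₈`: the group theory.
-/
import Mathlib
import Cfsg.Agent.Lib.PSU32a
import Cfsg.Prelude.Def_Classical

set_option autoImplicit false
set_option linter.all false
set_option maxRecDepth 100000

open scoped MatrixGroups Matrix
open Finset Cfsg
open Cfsg.Agent.Lib.F4Model
open Cfsg.Agent.Lib.PSU32a
open K4

namespace Cfsg.Agent.Lib.PSU32b

/-- The group. -/
abbrev G := SU 3 K4 2

/-- The matrix of an element. -/
def mat (g : G) : M3 := ((g : SL(3, K4)) : Matrix (Fin 3) (Fin 3) K4)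

theorem mat_mul (g h : G) : mat (g * h) = mat g * mat h := rfl

theorem mat_one : mat (1 : G) = 1 := rfl

theorem mat_inj {g h : G} (e : mat g = mat h) : g = h := Subtype.ext (Subtype.ext e)

theorem herm_eq (u v : Fin 3 → K4) : hermForm 3 K4 2 u v = hK u v := by
  simp only [hermForm, hK, Fin.sum_univ_three, sq]

theorem hK_pres (g : G) (u v : Fin 3 → K4) : hK (mat g *ᵥ u) (mat g *ᵥ v) = hK u v := by
  rw [← herm_eq, ← herm_eq]
  exact g.2 u v

theorem mat_det (g : G) : (mat g).det = 1 := (g : SL(3, K4)).2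

theorem col_apply (M : M3) (j i : Fin 3) : (M *ᵥ Pi.single j 1) i = M i j := by
  simp

theorem hK_basis : ∀ j l : Fin 3, hK (Pi.single j 1) (Pi.single l 1) = (1 : M3) l j := by
  decide +kernel

theorem dag_mul (g : G) : dag (mat g) * mat g = 1 := by
  ext j l
  have h := hK_pres g (Pi.single l 1) (Pi.single j 1)
  have e1 : hK (mat g *ᵥ Pi.single l 1) (mat g *ᵥ Pi.single j 1) = (dag (mat g) * mat g) j l := by
    simp only [hK, col_apply, dag, Matrix.mul_apply, Fin.sum_univ_three, Matrix.of_apply]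
    ring
  rw [← e1, h]
  exact hK_basis l j

theorem mat_inv (g : G) : mat g⁻¹ = dag (mat g) := by
  have h1 : mat g⁻¹ * mat g = 1 := by
    rw [← mat_mul, inv_mul_cancel, mat_one]
  have h2 := dag_mul g
  have h3 : mat g * mat g⁻¹ = 1 := by
    rw [← mat_mul, mul_inv_cancel, mat_one]
  calc mat g⁻¹ = (dag (mat g) * mat g) * mat g⁻¹ := by rw [h2, one_mul]
    _ = dag (mat g) := by rw [mul_assoc, h3, mul_one]

theorem enum_apply {P : M3 → Prop} (h : enumG P) (g : G) : P (mat g) := by
  have hcols : cols (mat g *ᵥ Pi.single 0 1) (mat g *ᵥ Pi.single 1 1) (mat g *ᵥ Pi.single 2 1) = mat g := by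
    ext i j
    fin_cases j <;> simp [cols]
  have hb : ∀ j l : Fin 3, hK (mat g *ᵥ Pi.single j 1) (mat g *ᵥ Pi.single l 1) = if j = l then 1 else 0 := by
    intro j l
    rw [hK_pres, hK_basis, Matrix.one_apply]
    simp only [eq_comm]
  have := h _ (hb 0 0) _ (hb 1 1) (hb 0 1) _ (hb 2 2) (hb 0 2) (hb 1 2) (by rw [hcols]; exact mat_det g)
  rwa [hcols] at this

/-- Frobenius on vectors. -/
def frobV (v : Fin 3 → K4) : Fin 3 → K4 := fun i => v i * v i

theorem sq3 : ∀ a b c : K4, (a + b + c) * (a + b + c) = a * a + b * b + c * c := by decide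

theorem pres_of_dag {M : M3} (h : dag M * M = 1) (u v : Fin 3 → K4) :
    hK (M *ᵥ u) (M *ᵥ v) = hK u v := by
  have e1 : ∀ x y : Fin 3 → K4, hK x y = x ⬝ᵥ frobV y := by
    intro x y
    simp only [hK, frobV, dotProduct, Fin.sum_univ_three]
  have e2 : frobV (M *ᵥ v) = M.map (fun x => x * x) *ᵥ frobV v := by
    funext i
    simp only [frobV, Matrix.mulVec, dotProduct, Fin.sum_univ_three, Matrix.map_apply]
    rw [sq3]
    ring
  have e3 : Mᵀ * M.map (fun x => x * x) = 1 := by
    ext j l
    have := congrFun (congrFun h l) j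
    simp only [dag, Matrix.mul_apply, Matrix.of_apply, Fin.sum_univ_three, Matrix.transpose_apply,
      Matrix.map_apply] at this ⊢
    rw [Matrix.one_apply] at this ⊢
    by_cases hjl : j = l
    · subst hjl
      simp only [if_true] at this ⊢
      linear_combination this
    · rw [if_neg hjl]
      rw [if_neg (Ne.symm hjl)] at this
      linear_combination this
  rw [e1, e1, e2, Matrix.dotProduct_mulVec, Matrix.vecMul_mulVec, ← Matrix.dotProduct_mulVec, e3,
    Matrix.one_mulVec]

/-- An element from a matrix. -/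
def mkG (M : M3) (h : dag M * M = 1 ∧ M.det = 1) : G :=
  ⟨⟨M, h.2⟩, fun u v => by
    rw [herm_eq, herm_eq]
    exact pres_of_dag h.1 u v⟩

@[simp] theorem mat_mkG (M : M3) (h : dag M * M = 1 ∧ M.det = 1) : mat (mkG M h) = M := rfl

/-- The elements of `E`. -/
def gE (t : Fin 3 × Fin 3 × Fin 3) : G := mkG (eE t) (eE_dag t)

/-- The elements `R q`. -/
def gR (q : QuaternionGroup 2) : G := mkG (Rq q) (R_dag q)

/-- The normal subgroup of order 27. -/
def E : Subgroup G where
  carrier := {g | ∃ t, mat g = eE t}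
  one_mem' := ⟨(0, 0, 0), by rw [mat_one, eE_one]⟩
  mul_mem' := by
    rintro a b ⟨s, hs⟩ ⟨t, ht⟩
    obtain ⟨r, hr⟩ := eE_mul s t
    exact ⟨r, by rw [mat_mul, hs, ht, hr]⟩
  inv_mem' := by
    rintro a ⟨s, hs⟩
    obtain ⟨r, hr⟩ := eE_inv s
    refine ⟨r, ?_⟩
    have h1 : mat a⁻¹ * mat a = 1 := by
      rw [← mat_mul, inv_mul_cancel, mat_one]
    calc mat a⁻¹ = mat a⁻¹ * (eE s * eE r) := by rw [hr, mul_one]
      _ = (mat a⁻¹ * mat a) * eE r := by rw [hs, mul_assoc]
      _ = eE r := by rw [h1, one_mul]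

theorem mem_E {g : G} : g ∈ E ↔ ∃ t, mat g = eE t := Iff.rfl

instance E_normal : E.Normal where
  conj_mem := by
    rintro a ⟨s, hs⟩ g
    obtain ⟨r, hr⟩ := enum_apply eE_normal g s
    refine ⟨r, ?_⟩
    rw [mat_mul, mat_mul, mat_inv, hs, hr]

theorem gE_mem (t) : gE t ∈ E := ⟨t, rfl⟩

theorem card_E : Nat.card E = 27 := by
  have hb : Function.Bijective (fun t : Fin 3 × Fin 3 × Fin 3 => (⟨gE t, gE_mem t⟩ : E)) := by
    constructor
    · intro s t h
      exact eE_inj s t (congrArg (fun x : E => mat x.1) h)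
    · rintro ⟨g, t, ht⟩
      exact ⟨t, Subtype.ext (mat_inj ht.symm)⟩
  rw [← Nat.card_congr (Equiv.ofBijective _ hb)]
  simp

theorem scalar_central (w : Fin 3) (g : G) : gE (w, 0, 0) * g = g * gE (w, 0, 0) := by
  apply mat_inj
  rw [mat_mul, mat_mul]
  obtain ⟨c, hc⟩ := scalar_eE w
  change eE (w, 0, 0) * mat g = mat g * eE (w, 0, 0)
  rw [hc]
  simp

theorem mem_center_iff' {z : G} : z ∈ Subgroup.center G ↔ ∃ w, mat z = eE (w, 0, 0) := by
  constructor
  · intro hz
    rw [Subgroup.mem_center_iff] at hz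
    rcases enum_apply center_check z with h | h | h | h
    · exact h
    · exfalso
      apply h
      have := hz (gE (0, 1, 0))
      have h2 := congrArg mat this
      exact h2.symm
    · exfalso
      apply h
      have := hz (gE (0, 0, 1))
      have h2 := congrArg mat this
      exact h2.symm
    · exfalso
      apply h
      have := hz (gR (.a 1))
      have h2 := congrArg mat this
      have e : Rq (.a 1) = mI := by decide +kernel
      change Rq (.a 1) * mat z = mat z * Rq (.a 1) at h2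
      rw [e] at h2
      exact h2.symm
  · rintro ⟨w, hw⟩
    have : z = gE (w, 0, 0) := mat_inj hw
    rw [this, Subgroup.mem_center_iff]
    intro g
    exact (scalar_central w g).symm

theorem center_le : Subgroup.center G ≤ E := by
  intro z hz
  obtain ⟨w, hw⟩ := mem_center_iff'.1 hz
  exact ⟨_, hw⟩

theorem card_center : Nat.card (Subgroup.center G) = 3 := by
  have hb : Function.Bijective (fun w : Fin 3 => (⟨gE (w, 0, 0), mem_center_iff'.2 ⟨w, rfl⟩⟩ : Subgroup.center G)) := by
    constructor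
    · intro s t h
      have := eE_inj _ _ (congrArg (fun x : Subgroup.center G => mat x.1) h)
      exact congrArg Prod.fst this
    · rintro ⟨g, hg⟩
      obtain ⟨w, hw⟩ := mem_center_iff'.1 hg
      exact ⟨w, Subtype.ext (mat_inj hw.symm)⟩
  rw [← Nat.card_congr (Equiv.ofBijective _ hb)]
  simp

/-- The quotient by `E` is the quaternion group. -/
noncomputable def fQ : QuaternionGroup 2 →* G ⧸ E :=
  MonoidHom.mk' (fun q => (QuotientGroup.mk (gR q) : G ⧸ E)) (fun q q' => by
    rw [← QuotientGroup.mk_mul, QuotientGroup.eq]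
    obtain ⟨t, ht⟩ := R_mul q q'
    refine ⟨t, ?_⟩
    rw [mat_mul, mat_inv, mat_mul]
    exact ht)

theorem fQ_bij : Function.Bijective fQ := by
  constructor
  · intro q q' h
    have h1 : (QuotientGroup.mk (gR q) : G ⧸ E) = QuotientGroup.mk (gR q') := h
    rw [QuotientGroup.eq] at h1
    obtain ⟨t, ht⟩ := h1
    rw [mat_mul, mat_inv] at ht
    exact R_inj q q' ⟨t, ht⟩
  · intro x
    obtain ⟨g, rfl⟩ := QuotientGroup.mk_surjective x
    obtain ⟨q, t, ht⟩ := enum_apply R_surj g
    refine ⟨q, ?_⟩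
    change (QuotientGroup.mk (gR q) : G ⧸ E) = QuotientGroup.mk g
    rw [QuotientGroup.eq]
    refine ⟨t, ?_⟩
    rw [mat_mul, mat_inv]
    exact ht

/-- The structure of `PSU₃(2)` in the model. -/
theorem main : ∃ (N : Subgroup (PSU 3 K4 2)) (_ : N.Normal), Nat.card N = 9 ∧ (∀ x ∈ N, x ^ 3 = 1) ∧
    Nonempty (PSU 3 K4 2 ⧸ N ≃* QuaternionGroup 2) := by
  set Z := Subgroup.center G with hZ
  refine ⟨E.map (QuotientGroup.mk' Z), inferInstance, ?_, ?_, ?_⟩
  · -- the count
    set ρ : E →* G ⧸ Z := (QuotientGroup.mk' Z).comp E.subtype with hρ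
    have hker : ρ.ker = Z.subgroupOf E := by
      ext x
      rw [MonoidHom.mem_ker, Subgroup.mem_subgroupOf]
      exact QuotientGroup.eq_one_iff _
    have hr : ρ.range = E.map (QuotientGroup.mk' Z) := by
      ext x
      constructor
      · rintro ⟨y, rfl⟩
        exact ⟨y.1, y.2, rfl⟩
      · rintro ⟨y, hy, rfl⟩
        exact ⟨⟨y, hy⟩, rfl⟩
    have h1 := Subgroup.card_mul_index ρ.ker
    rw [Subgroup.index_ker, hr, hker, card_E,
      Nat.card_congr (Subgroup.subgroupOfEquivOfLe center_le).toEquiv, card_center] at h1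
    refine Nat.eq_of_mul_eq_mul_left (by norm_num : 0 < 3) ?_
    exact h1
  · rintro _ ⟨g, ⟨t, ht⟩, rfl⟩
    obtain ⟨w, hw⟩ := eE_cube t
    have h1 : g ^ 3 ∈ Z := by
      rw [hZ, mem_center_iff']
      refine ⟨w, ?_⟩
      rw [pow_succ, pow_succ, pow_one, mat_mul, mat_mul, ht, hw]
    change (QuotientGroup.mk g : G ⧸ Z) ^ 3 = 1
    rw [← QuotientGroup.mk_pow]
    exact (QuotientGroup.eq_one_iff _).2 h1
  · exact ⟨(QuotientGroup.quotientQuotientEquivQuotient Z E center_le).trans
      (MulEquiv.ofBijective fQ fQ_bij).symm⟩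

section Transfer

variable {F K : Type*} [Field F] [Field K] (e : F ≃+* K) (n q : ℕ)

/-- The group `SU` under a ring isomorphism. -/
noncomputable def suEquiv : SU n F q ≃* SU n K q where
  toFun g := ⟨Matrix.SpecialLinearGroup.map (e : F →+* K) g.1, fun u v => by
    have key : ∀ x : Fin n → F, (slToMat n K (Matrix.SpecialLinearGroup.map (e : F →+* K) g.1)) *ᵥ (fun i => e (x i)) =
        fun i => e ((slToMat n F g.1 *ᵥ x) i) := by
      intro x
      funext i
      simp [Matrix.mulVec, dotProduct, map_sum]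
    have hh : ∀ x y : Fin n → F, hermForm n K q (fun i => e (x i)) (fun i => e (y i)) = e (hermForm n F q x y) := by
      intro x y
      simp [hermForm, map_sum]
    obtain ⟨u', rfl⟩ : ∃ u' : Fin n → F, u = fun i => e (u' i) := ⟨fun i => e.symm (u i), by simp⟩
    obtain ⟨v', rfl⟩ : ∃ v' : Fin n → F, v = fun i => e (v' i) := ⟨fun i => e.symm (v i), by simp⟩
    rw [key, key, hh, hh, g.2 u' v']⟩
  invFun g := ⟨Matrix.SpecialLinearGroup.map (e.symm : K →+* F) g.1, fun u v => by
    have key : ∀ x : Fin n → K, (slToMat n F (Matrix.SpecialLinearGroup.map (e.symm : K →+* F) g.1)) *ᵥ (fun i => e.symm (x i)) =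
        fun i => e.symm ((slToMat n K g.1 *ᵥ x) i) := by
      intro x
      funext i
      simp [Matrix.mulVec, dotProduct, map_sum]
    have hh : ∀ x y : Fin n → K, hermForm n F q (fun i => e.symm (x i)) (fun i => e.symm (y i)) = e.symm (hermForm n K q x y) := by
      intro x y
      simp [hermForm, map_sum]
    obtain ⟨u', rfl⟩ : ∃ u' : Fin n → K, u = fun i => e.symm (u' i) := ⟨fun i => e (u i), by simp⟩
    obtain ⟨v', rfl⟩ : ∃ v' : Fin n → K, v = fun i => e.symm (v' i) := ⟨fun i => e (v i), by simp⟩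
    rw [key, key, hh, hh, g.2 u' v']⟩
  left_inv g := by
    apply Subtype.ext
    apply Subtype.ext
    ext i j
    simp
  right_inv g := by
    apply Subtype.ext
    apply Subtype.ext
    ext i j
    simp
  map_mul' x y := by
    apply Subtype.ext
    exact map_mul _ _ _

/-- The map on projective groups. -/
noncomputable def psuEquiv : PSU n F q ≃* PSU n K q :=
  QuotientGroup.congr _ _ (suEquiv e n q) (by
    ext x
    constructor
    · rintro ⟨y, hy, rfl⟩
      rw [SetLike.mem_coe, Subgroup.mem_center_iff] at hy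
      rw [Subgroup.mem_center_iff]
      intro g
      obtain ⟨g', rfl⟩ := (suEquiv e n q).surjective g
      change suEquiv e n q g' * suEquiv e n q y = suEquiv e n q y * suEquiv e n q g'
      rw [← map_mul, ← map_mul, hy g']
    · intro hx
      refine ⟨(suEquiv e n q).symm x, ?_, by simp⟩
      rw [Subgroup.mem_center_iff] at hx
      rw [SetLike.mem_coe, Subgroup.mem_center_iff]
      intro g
      apply (suEquiv e n q).injective
      rw [map_mul, map_mul, MulEquiv.apply_symm_apply]
      exact hx _)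

end Transfer

theorem result_gen {F : Type*} [Field F] [Fintype F] (hF : Fintype.card F = 4) :
    ∃ (N : Subgroup (PSU 3 F 2)) (_ : N.Normal), Nat.card N = 9 ∧ (∀ x ∈ N, x ^ 3 = 1) ∧
      Nonempty (PSU 3 F 2 ⧸ N ≃* QuaternionGroup 2) := by
  obtain ⟨N', hN', h1, h2, ⟨e₀⟩⟩ := main
  let ε : PSU 3 F 2 ≃* PSU 3 K4 2 := psuEquiv (equivK4 hF) 3 2
  have hmap : (N'.comap ε.toMonoidHom).map ε.toMonoidHom = N' :=
    Subgroup.map_comap_eq_self_of_surjective ε.surjective N'
  refine ⟨N'.comap ε.toMonoidHom, inferInstance, ?_, ?_, ?_⟩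
  · rw [← h1]
    exact Nat.card_congr (Equiv.subtypeEquiv ε.toEquiv (fun x => Iff.rfl))
  · intro x hx
    apply ε.injective
    rw [map_pow, map_one]
    exact h2 _ hx
  · exact ⟨(QuotientGroup.congr _ _ ε hmap).trans e₀⟩

end Cfsg.Agent.Lib.PSU32b
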