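import Mathlib

/-! Recognising symmetric and alternating groups from a faithful permutation representation. -/

namespace Cfsg.Agent.Lib.PermIso

variable {G X : Type*} [Group G] [Finite G] [Finite X]

theorem nonempty_mulEquiv_perm (n : ℕ) (hX : Nat.card X = n) (φ : G →* Equiv.Perm X)
    (hφ : Function.Injective φ) (hcard : Nat.card G = n.factorial) :
    Nonempty (G ≃* Equiv.Perm (Fin n)) := by
  let e : X ≃ Fin n := Finite.equivFinOfCardEq hX
  let ψ : G →* Equiv.Perm (Fin n) := (Equiv.permCongrHom e).toMonoidHom.comp φ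
  have hψ : Function.Injective ψ := (Equiv.permCongrHom e).injective.comp hφ
  have hb : Function.Bijective ψ := (Nat.bijective_iff_injective_and_card ψ).2
    ⟨hψ, by rw [hcard, Nat.card_eq_fintype_card, Fintype.card_perm, Fintype.card_fin]⟩
  exact ⟨MulEquiv.ofBijective ψ hb⟩

theorem nonempty_mulEquiv_alternating (n : ℕ) (hX : Nat.card X = n) (φ : G →* Equiv.Perm X)
    (hφ : Function.Injective φ) (hcard : 2 * Nat.card G = n.factorial) :
    Nonempty (G ≃* alternatingGroup (Fin n)) := by
  let e : X ≃ Fin n := Finite.equivFinOfCardEq hX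
  let ψ : G →* Equiv.Perm (Fin n) := (Equiv.permCongrHom e).toMonoidHom.comp φ
  have hψ : Function.Injective ψ := (Equiv.permCongrHom e).injective.comp hφ
  have hr : ψ.range.index = 2 := by
    have h1 := Subgroup.card_mul_index ψ.range
    have h2 : Nat.card ψ.range = Nat.card G := (Nat.card_congr (MonoidHom.ofInjective hψ).toEquiv).symm
    rw [h2, Nat.card_eq_fintype_card (α := Equiv.Perm (Fin n)), Fintype.card_perm, Fintype.card_fin, ← hcard] at h1
    have h3 : 0 < Nat.card G := Nat.card_pos
    nlinarith
  exact ⟨(MonoidHom.ofInjective hψ).trans (MulEquiv.subgroupCongr (Equiv.Perm.eq_alternatingGroup_of_index_eq_two hr))⟩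

end Cfsg.Agent.Lib.PermIso
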