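import Mathlib
import Cfsg.Agent.Lib.QdAbelian
import Cfsg.Agent.Lib.AltSyl

/-! `Qd(p)` in the alternating groups: it acts faithfully on the `p²` points of the affine plane. -/

set_option autoImplicit false
set_option linter.all false

namespace Cfsg.Agent.Lib.QdAlt

open Cfsg Cfsg.Agent.Lib.QdSection Cfsg.Agent.Lib.DicksonLite Equiv

variable {p : ℕ} [hpp : Fact p.Prime]

/-- The affine plane: the points of `(ZMod p)³` with last coordinate 1. -/
abbrev Pl (p : ℕ) := {v : Fin 3 → ZMod p // v 2 = 1}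

theorem act_mem (M : ↥(Cfsg.qd p)) (v : Pl p) :
    ((M.1 : Matrix (Fin 3) (Fin 3) (ZMod p)).mulVec v.1) 2 = 1 := by
  obtain ⟨h0, h1, h2⟩ := (mem_qd_iff M.1).1 M.2
  simp [Matrix.mulVec, dotProduct, Fin.sum_univ_three, h0, h1, h2, v.2]

instance actPl : MulAction ↥(Cfsg.qd p) (Pl p) where
  smul M v := ⟨(M.1 : Matrix (Fin 3) (Fin 3) (ZMod p)).mulVec v.1, act_mem M v⟩
  one_smul v := by
    apply Subtype.ext
    show ((1 : Matrix.SpecialLinearGroup (Fin 3) (ZMod p)) : Matrix (Fin 3) (Fin 3) (ZMod p)).mulVec v.1 = v.1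
    simp
  mul_smul M N v := by
    apply Subtype.ext
    show ((M.1 * N.1 : Matrix.SpecialLinearGroup (Fin 3) (ZMod p)) : Matrix (Fin 3) (Fin 3) (ZMod p)).mulVec v.1 =
      (M.1 : Matrix (Fin 3) (Fin 3) (ZMod p)).mulVec ((N.1 : Matrix (Fin 3) (Fin 3) (ZMod p)).mulVec v.1)
    rw [Matrix.SpecialLinearGroup.coe_mul, Matrix.mulVec_mulVec]

theorem smul_val (M : ↥(Cfsg.qd p)) (v : Pl p) :
    (M • v).1 = (M.1 : Matrix (Fin 3) (Fin 3) (ZMod p)).mulVec v.1 := rfl

/-- The action is faithful. -/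
theorem act_faithful (M : ↥(Cfsg.qd p)) (h : ∀ v : Pl p, M • v = v) : M = 1 := by
  obtain ⟨h0, h1, h2⟩ := (mem_qd_iff M.1).1 M.2
  have e (a b : ZMod p) : ∀ i, ((M.1 : Matrix (Fin 3) (Fin 3) (ZMod p)).mulVec ![a, b, 1]) i = ![a, b, 1] i := by
    intro i
    have := congrArg Subtype.val (h ⟨![a, b, 1], rfl⟩)
    rw [smul_val] at this
    exact congrFun this i
  have e0 := e 0 0
  have e1 := e 1 0
  have e2 := e 0 1
  have a00 := e0 0
  have a10 := e0 1
  have b00 := e1 0
  have b10 := e1 1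
  have c00 := e2 0
  have c10 := e2 1
  simp [Matrix.mulVec, dotProduct, Fin.sum_univ_three] at a00 a10 b00 b10 c00 c10
  rw [a00] at b00 c00
  rw [a10] at b10 c10
  simp at b00 b10 c00 c10
  apply Subtype.ext
  apply Subtype.ext
  ext i j
  fin_cases i <;> fin_cases j <;> simp [a00, a10, b00, b10, c00, c10, h0, h1, h2]

/-- The plane has at most `p²` points. -/
theorem card_plane_le (n : ℕ) (h : p ^ 2 ≤ n) : Nonempty (Pl p ↪ Fin n) := by
  classical
  have hinj : Function.Injective (fun v : Pl p => ((v.1 0, v.1 1) : ZMod p × ZMod p)) := by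
    intro v w hvw
    apply Subtype.ext
    ext i
    simp only [Prod.mk.injEq] at hvw
    fin_cases i
    · exact hvw.1
    · exact hvw.2
    · exact v.2.trans w.2.symm
  haveI : Fintype (Pl p) := Fintype.ofInjective _ hinj
  apply Function.Embedding.nonempty_of_card_le
  calc Fintype.card (Pl p) ≤ Fintype.card (ZMod p × ZMod p) := Fintype.card_le_of_injective _ hinj
    _ = p ^ 2 := by rw [Fintype.card_prod, ZMod.card, sq]
    _ ≤ Fintype.card (Fin n) := by simpa using h

/-- A homomorphism to `ℤˣ` kills elements of odd prime order. -/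
theorem sign_of_pow {G : Type*} [Group G] (hp : p ≠ 2) (f : G →* ℤˣ) {x : G} (hx : x ^ p = 1) : f x = 1 := by
  have hodd : Odd p := hpp.out.odd_of_ne_two hp
  have h1 : (f x) ^ p = 1 := by rw [← map_pow, hx, map_one]
  rcases Int.units_eq_one_or (f x) with h | h
  · exact h
  · rw [h, hodd.neg_one_pow] at h1
    exact absurd h1 (by decide)

theorem blk_one_one : blk (1 : Matrix.SpecialLinearGroup (Fin 2) (ZMod p)) (0 : Fin 2 → ZMod p) = 1 := by
  apply Subtype.ext
  ext i j
  fin_cases i <;> fin_cases j <;> simp [blk]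

/-- Every element of `Qd(p)` acts evenly. -/
theorem qd_even (hp : p ≠ 2) (f : ↥(Cfsg.qd p) →* ℤˣ) (M : ↥(Cfsg.qd p)) : f M = 1 := by
  have hmem : ∀ (B : Matrix.SpecialLinearGroup (Fin 2) (ZMod p)) (u : Fin 2 → ZMod p), blk B u ∈ Cfsg.qd p := blk_mem
  -- the block homomorphism
  let β : Matrix.SpecialLinearGroup (Fin 2) (ZMod p) →* ↥(Cfsg.qd p) :=
    { toFun := fun B => ⟨blk B 0, hmem B 0⟩
      map_one' := by
        apply Subtype.ext
        exact blk_one_one
      map_mul' := by
        intro B B'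
        apply Subtype.ext
        show blk (B * B') 0 = blk B 0 * blk B' 0
        rw [blk_mul]
        simp }
  have hβ : ∀ B, f (β B) = 1 := by
    have hH : (f.comp β).ker = ⊤ := by
      apply sl2_gen
      · rw [MonoidHom.mem_ker]
        apply sign_of_pow hp
        rw [t₁_pow]
        simp [t₁_zero]
      · rw [MonoidHom.mem_ker]
        apply sign_of_pow hp
        have hpow : ∀ (a : ZMod p) (n : ℕ), t₂ a ^ n = t₂ ((n : ZMod p) * a) := by
          intro a n
          induction n with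
          | zero => simp [t₂_zero]
          | succ n ih =>
            rw [pow_succ, ih, t₂_add]
            congr 1
            push_cast
            ring
        rw [hpow]
        simp [t₂_zero]
    intro B
    have : B ∈ (f.comp β).ker := by rw [hH]; trivial
    exact this
  have htr : ∀ u : Fin 2 → ZMod p, f ⟨blk 1 u, hmem 1 u⟩ = 1 := by
    intro u
    apply sign_of_pow hp
    have hpow : ∀ n : ℕ, (⟨blk 1 u, hmem 1 u⟩ : ↥(Cfsg.qd p)) ^ n = ⟨blk 1 ((n : ZMod p) • u), hmem 1 _⟩ := by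
      intro n
      induction n with
      | zero =>
        apply Subtype.ext
        simp [blk_one_one]
      | succ n ih =>
        rw [pow_succ, ih]
        apply Subtype.ext
        show blk 1 ((n : ZMod p) • u) * blk 1 u = blk 1 (((n + 1 : ℕ) : ZMod p) • u)
        rw [blk_mul]
        congr 1
        · simp
        · simp [add_smul]
    rw [hpow]
    apply Subtype.ext
    simp [blk_one_one]
  obtain ⟨B, u, hBu⟩ := exists_blk M.1 M.2
  have hM : M = ⟨blk 1 u, hmem 1 u⟩ * β B := by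
    apply Subtype.ext
    show M.1 = blk 1 u * blk B 0
    rw [blk_mul, ← hBu]
    simp
  rw [hM, map_mul, htr, hβ, one_mul]

/-- `Qd(p)` embeds in the alternating group of degree `n` when `p² ≤ n`. -/
theorem exists_sub (hp : p ≠ 2) (n : ℕ) (h : p ^ 2 ≤ n) :
    ∃ H : Subgroup (alternatingGroup (Fin n)), Nonempty (↥H ≃* ↥(Cfsg.qd p)) := by
  classical
  obtain ⟨ι⟩ := card_plane_le (p := p) n h
  haveI : Fintype (Pl p) := Fintype.ofInjective ι ι.injective
  let ρ : ↥(Cfsg.qd p) →* Perm (Fin n) := (Perm.viaEmbeddingHom ι).comp (MulAction.toPermHom ↥(Cfsg.qd p) (Pl p))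
  have hρinj : Function.Injective ρ := by
    rw [injective_iff_map_eq_one]
    intro M hM
    apply act_faithful
    intro v
    have h1 : (MulAction.toPermHom ↥(Cfsg.qd p) (Pl p)) M = 1 := by
      apply Perm.viaEmbeddingHom_injective ι
      rw [map_one]
      exact hM
    exact congrArg (fun g : Perm (Pl p) => g v) h1
  have hρ : ∀ M, ρ M ∈ alternatingGroup (Fin n) := by
    intro M
    rw [Equiv.Perm.mem_alternatingGroup]
    exact qd_even hp (Perm.sign.comp ρ) M
  let ψ : ↥(Cfsg.qd p) →* alternatingGroup (Fin n) := ρ.codRestrict _ hρ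
  have hψ : Function.Injective ψ := by
    intro a b hab
    apply hρinj
    exact congrArg Subtype.val hab
  exact ⟨ψ.range, ⟨(MonoidHom.ofInjective hψ).symm⟩⟩

/-- The non-involvement for small degree. -/
theorem not_involves (hp : p ≠ 2) (n : ℕ) (h : n < p ^ 2) :
    ¬ Cfsg.Involves ↥(Cfsg.qd p) ↥(alternatingGroup (Fin n)) := by
  apply Cfsg.Agent.Lib.QdAbelian.not_involves_of_comm hp
  intro H hH a ha b hb
  have hP : IsPGroup p (H.map (alternatingGroup (Fin n)).subtype) := hH.map _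
  have := Cfsg.Agent.Lib.AltSyl.pgroup_comm (α := Fin n) (by simpa using h) _ hP
    (x := ((a : alternatingGroup (Fin n)) : Perm (Fin n))) (y := ((b : alternatingGroup (Fin n)) : Perm (Fin n)))
    ⟨a, ha, rfl⟩ ⟨b, hb, rfl⟩
  apply Subtype.ext
  exact this

theorem main (hp : p ≠ 2) (n : ℕ) :
    ((∃ H : Subgroup (alternatingGroup (Fin n)), Nonempty (↥H ≃* ↥(Cfsg.qd p))) ↔ p ^ 2 ≤ n) ∧
      (n < p ^ 2 → ¬ Cfsg.Involves ↥(Cfsg.qd p) ↥(alternatingGroup (Fin n))) := by
  refine ⟨⟨?_, exists_sub hp n⟩, not_involves hp n⟩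
  rintro ⟨H, ⟨e⟩⟩
  by_contra hlt
  push Not at hlt
  apply not_involves hp n hlt
  rw [involves_iff]
  exact ⟨H, e.toMonoidHom, e.surjective⟩

end Cfsg.Agent.Lib.QdAlt
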