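import Mathlib
import Cfsg.Agent.Lib.QdFusion

/-! Fusion in a Sylow subgroup when only the normalizers of subgroups containing `Z(S)` are `SL₂(p)`-free. -/

set_option autoImplicit false
set_option linter.all false

universe u

namespace Cfsg.Agent.Lib.QdFree

open Cfsg Cfsg.Agent.Lib.ConjFamily Cfsg.Agent.Lib.SylowIn Cfsg.Agent.Lib.FamilyFusion
  Cfsg.Agent.Lib.ZJControl Cfsg.Agent.Lib.ZJ Cfsg.Agent.Lib.ZJGood Cfsg.Agent.Lib.ZJQuot
  Cfsg.Agent.Lib.PCore Cfsg.Agent.Lib.SecFunctor Cfsg.Agent.Lib.QdFusion Cfsg.Agent.Lib.WeakCl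

section control

variable {G : Type*} [Group G] [Finite G] {p : ℕ} [Fact p.Prime]

/-- The inner induction along a chain of tame subgroups, restricted to a family. -/
theorem psi' (S : Sylow p G) (F : Subgroup G → Subgroup G) (Pr : Subgroup G → Prop)
    (hPrcj : ∀ V x, Pr V → Pr (cj x V))
    (hPrF : ∀ V : Subgroup G, V ≤ (S : Subgroup G) → Pr V →
      Pr (F ((S : Subgroup G) ⊓ Subgroup.normalizer (V : Set G))))
    (hF2 : ∀ R : Subgroup G, R ≤ (S : Subgroup G) → F R ≤ R)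
    (hF3 : ∀ R : Subgroup G, R ≤ (S : Subgroup G) →
      (S : Subgroup G) ⊓ Subgroup.normalizer (R : Set G) ≤ Subgroup.normalizer (F R : Set G))
    (hF1 : ∀ V : Subgroup G, V ≤ (S : Subgroup G) → V ≠ ⊥ →
      F ((S : Subgroup G) ⊓ Subgroup.normalizer (V : Set G)) ≠ ⊥)
    (hLoc : ∀ V : Subgroup G, V ≤ (S : Subgroup G) → V ≠ ⊥ → Pr V →
      IsSylowIn p ((S : Subgroup G) ⊓ Subgroup.normalizer (V : Set G))
        (Subgroup.normalizer (V : Set G)) →
      ∀ T : Subgroup G, T ≤ (S : Subgroup G) ⊓ Subgroup.normalizer (V : Set G) →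
      ∀ k ∈ Subgroup.normalizer (V : Set G),
        cj k T ≤ (S : Subgroup G) ⊓ Subgroup.normalizer (V : Set G) →
        Ct (Subgroup.normalizer
          (F ((S : Subgroup G) ⊓ Subgroup.normalizer (V : Set G)) : Set G)) T k)
    {c : ℕ}
    (hup : ∀ E : Subgroup G, E ≤ (S : Subgroup G) → c < Nat.card E →
      Pr E →
      ∀ g : G, cj g E ≤ (S : Subgroup G) →
        Ct (Subgroup.normalizer (F (S : Subgroup G) : Set G)) E g)
    (hPrE : ∀ E : Subgroup G, ∀ V : Subgroup G, V ≤ (S : Subgroup G) →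
      (S : Subgroup G) ⊓ Subgroup.normalizer (V : Set G) ≤ E → E ≤ (S : Subgroup G) → Pr E) :
    ∀ (n : ℕ) (V : Subgroup G), V ≤ (S : Subgroup G) → V ≠ ⊥ → Pr V →
      IsSylowIn p ((S : Subgroup G) ⊓ Subgroup.normalizer (V : Set G))
        (Subgroup.normalizer (V : Set G)) →
      Nat.card (S : Subgroup G) - Nat.card ↥((S : Subgroup G) ⊓ Subgroup.normalizer (V : Set G)) ≤ n →
      c ≤ Nat.card ↥((S : Subgroup G) ⊓ Subgroup.normalizer (V : Set G)) →
      ∀ T : Subgroup G, T ≤ (S : Subgroup G) ⊓ Subgroup.normalizer (V : Set G) →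
      ∀ k ∈ Subgroup.normalizer (V : Set G),
        cj k T ≤ (S : Subgroup G) ⊓ Subgroup.normalizer (V : Set G) →
        Ct (Subgroup.normalizer (F (S : Subgroup G) : Set G)) T k := by
  intro n
  induction n with
  | zero =>
    intro V hVS hVne hVpr hVt hn hc T hT k hk hkT
    have hR : (S : Subgroup G) ⊓ Subgroup.normalizer (V : Set G) = S := by
      refine Subgroup.eq_of_le_of_card_ge inf_le_left ?_
      omega
    have := hLoc V hVS hVne hVpr hVt T hT k hk hkT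
    rwa [hR] at this
  | succ n ih =>
    intro V hVS hVne hVpr hVt hn hc T hT k hk hkT
    by_cases hR : (S : Subgroup G) ⊓ Subgroup.normalizer (V : Set G) = S
    · have := hLoc V hVS hVne hVpr hVt T hT k hk hkT
      rwa [hR] at this
    obtain ⟨m₀, hm₀, hact⟩ := hLoc V hVS hVne hVpr hVt T hT k hk hkT
    set R₀ := (S : Subgroup G) ⊓ Subgroup.normalizer (V : Set G) with hR₀
    have hR₀S : R₀ ≤ S := inf_le_left
    have hlt : R₀ < S := lt_of_le_of_ne hR₀S hR
    have hV'ne : F R₀ ≠ ⊥ := hF1 V hVS hVne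
    have hV'R : F R₀ ≤ R₀ := hF2 R₀ hR₀S
    have hV'S : F R₀ ≤ S := hV'R.trans hR₀S
    set E := (S : Subgroup G) ⊓ Subgroup.normalizer (F R₀ : Set G) with hE
    have hE1 : (S : Subgroup G) ⊓ Subgroup.normalizer (R₀ : Set G) ≤ E :=
      le_inf inf_le_left (hF3 R₀ hR₀S)
    have hE2 : R₀ < E := (lt_inf_normalizer S.isPGroup' hlt).trans_le hE1
    have hES : E ≤ S := inf_le_left
    have hEp : IsPGroup p E := S.isPGroup'.to_le hES
    obtain ⟨x, hxS, hxt⟩ := exists_conj_tame S (F R₀) hV'S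
    set V₁ := cj x (F R₀) with hV₁
    have hV₁ne : V₁ ≠ ⊥ := cj_ne_bot hV'ne x
    have hV₁pr : Pr V₁ := hPrcj _ _ (hPrF V hVS hVpr)
    set R₁ := (S : Subgroup G) ⊓ Subgroup.normalizer (V₁ : Set G) with hR₁
    have h1 : cj x E ≤ Subgroup.normalizer (V₁ : Set G) := by
      refine (cj_mono x inf_le_right).trans ?_
      rw [hV₁, normalizer_cj]
    obtain ⟨z, hz, hzE⟩ := exists_conj_le_of_isSylowIn hxt h1 (hEp.map _)
    have hyV : cj (z * x) (F R₀) = V₁ := by
      rw [← cj_cj, ← hV₁, cj_eq_of_mem_normalizer hz]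
    have hyE : cj (z * x) E ≤ R₁ := by
      rw [← cj_cj]
      exact hzE
    have hcard : Nat.card E ≤ Nat.card R₁ := by
      rw [← card_cj (z * x) E]
      exact Subgroup.card_le_of_le hyE
    have hlt2 : Nat.card R₀ < Nat.card E := card_lt_of_lt hE2
    obtain ⟨m₁, hm₁, hact₁⟩ := hup E hES (by omega) (hPrE E V hVS hE2.le hES) (z * x) (hyE.trans inf_le_left)
    set y := z * x with hy
    have hk' : y * m₀ * y⁻¹ ∈ Subgroup.normalizer (V₁ : Set G) := by
      apply mem_normalizer_of_cj_eq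
      rw [← hyV, cj_cj]
      have e : y * m₀ * y⁻¹ * y = y * m₀ := by group
      rw [e, ← cj_cj, cj_eq_of_mem_normalizer hm₀]
    have hTE : T ≤ E := hT.trans hE2.le
    have hT' : cj y T ≤ R₁ := (cj_mono y hTE).trans hyE
    have hkT' : cj (y * m₀ * y⁻¹) (cj y T) ≤ R₁ := by
      rw [cj_cj]
      have e : y * m₀ * y⁻¹ * y = y * m₀ := by group
      rw [e, ← cj_cj, ← cj_congr hact]
      exact (cj_mono y (hkT.trans hE2.le)).trans hyE
    have hcard1 : Nat.card ↥R₁ ≤ Nat.card (S : Subgroup G) := Subgroup.card_le_of_le inf_le_left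
    have hcard2 : Nat.card ↥R₀ ≤ Nat.card (S : Subgroup G) := Subgroup.card_le_of_le inf_le_left
    have hn1 : Nat.card (S : Subgroup G) - Nat.card R₁ ≤ n := by omega
    have hn2 : c ≤ Nat.card R₁ := by omega
    obtain ⟨m₂, hm₂, hact₂⟩ := ih V₁ hxS hV₁ne hV₁pr hxt hn1 hn2 (cj y T) hT'
      (y * m₀ * y⁻¹) hk' hkT'
    refine ⟨m₁⁻¹ * m₂ * m₁, (Subgroup.mul_mem _ (Subgroup.mul_mem _ (Subgroup.inv_mem _ hm₁) hm₂) hm₁),
      fun t ht => ?_⟩
    have a1 := hact t ht
    have a2 := hact₁ t (hTE ht)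
    have a3 : y * (m₀ * t * m₀⁻¹) * y⁻¹ = m₁ * (m₀ * t * m₀⁻¹) * m₁⁻¹ := by
      apply hact₁
      rw [← a1]
      exact hE2.le (hkT (cj_mem ht))
    have a4 := hact₂ (y * t * y⁻¹) (cj_mem ht)
    calc k * t * k⁻¹ = m₀ * t * m₀⁻¹ := a1
      _ = m₁⁻¹ * (m₁ * (m₀ * t * m₀⁻¹) * m₁⁻¹) * m₁ := by group
      _ = m₁⁻¹ * (y * (m₀ * t * m₀⁻¹) * y⁻¹) * m₁ := by rw [a3]
      _ = m₁⁻¹ * ((y * m₀ * y⁻¹) * (y * t * y⁻¹) * (y * m₀ * y⁻¹)⁻¹) * m₁ := by group
      _ = m₁⁻¹ * (m₂ * (y * t * y⁻¹) * m₂⁻¹) * m₁ := by rw [a4]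
      _ = m₁⁻¹ * (m₂ * (m₁ * t * m₁⁻¹) * m₂⁻¹) * m₁ := by rw [a2]
      _ = (m₁⁻¹ * m₂ * m₁) * t * (m₁⁻¹ * m₂ * m₁)⁻¹ := by group

/-- Global control from local control on a family of subgroups. -/
theorem fusion_of_local' (S : Sylow p G) (F : Subgroup G → Subgroup G) (Pr : Subgroup G → Prop)
    (hPrcj : ∀ V x, Pr V → Pr (cj x V))
    (hPrF : ∀ V : Subgroup G, V ≤ (S : Subgroup G) → Pr V →
      Pr (F ((S : Subgroup G) ⊓ Subgroup.normalizer (V : Set G))))
    (hF2 : ∀ R : Subgroup G, R ≤ (S : Subgroup G) → F R ≤ R)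
    (hF3 : ∀ R : Subgroup G, R ≤ (S : Subgroup G) →
      (S : Subgroup G) ⊓ Subgroup.normalizer (R : Set G) ≤ Subgroup.normalizer (F R : Set G))
    (hF1 : ∀ V : Subgroup G, V ≤ (S : Subgroup G) → V ≠ ⊥ →
      F ((S : Subgroup G) ⊓ Subgroup.normalizer (V : Set G)) ≠ ⊥)
    (hLoc : ∀ V : Subgroup G, V ≤ (S : Subgroup G) → V ≠ ⊥ → Pr V →
      IsSylowIn p ((S : Subgroup G) ⊓ Subgroup.normalizer (V : Set G))
        (Subgroup.normalizer (V : Set G)) →
      ∀ T : Subgroup G, T ≤ (S : Subgroup G) ⊓ Subgroup.normalizer (V : Set G) →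
      ∀ k ∈ Subgroup.normalizer (V : Set G),
        cj k T ≤ (S : Subgroup G) ⊓ Subgroup.normalizer (V : Set G) →
        Ct (Subgroup.normalizer
          (F ((S : Subgroup G) ⊓ Subgroup.normalizer (V : Set G)) : Set G)) T k)
    (hPrE : ∀ E : Subgroup G, ∀ V : Subgroup G, V ≤ (S : Subgroup G) →
      (S : Subgroup G) ⊓ Subgroup.normalizer (V : Set G) ≤ E → E ≤ (S : Subgroup G) → Pr E) :
    ∀ X : Subgroup G, X ≤ (S : Subgroup G) → Pr X → ∀ g : G, cj g X ≤ (S : Subgroup G) →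
      Ct (Subgroup.normalizer (F (S : Subgroup G) : Set G)) X g := by
  classical
  have hcardS : ∀ X : Subgroup G, X ≤ (S : Subgroup G) → Nat.card X ≤ Nat.card (S : Subgroup G) :=
    fun X hX => Subgroup.card_le_of_le hX
  suffices H : ∀ (n : ℕ) (X : Subgroup G), X ≤ (S : Subgroup G) → Pr X →
      Nat.card (S : Subgroup G) - Nat.card X = n → ∀ g : G, cj g X ≤ (S : Subgroup G) →
      Ct (Subgroup.normalizer (F (S : Subgroup G) : Set G)) X g from
    fun X hX hXpr g hg => H _ X hX hXpr rfl g hg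
  intro n
  induction n using Nat.strong_induction_on with
  | _ n IH =>
  intro X hXS hXpr hn g hg
  have hup : ∀ E : Subgroup G, E ≤ (S : Subgroup G) → Nat.card X < Nat.card E → Pr E →
      ∀ g : G, cj g E ≤ (S : Subgroup G) →
        Ct (Subgroup.normalizer (F (S : Subgroup G) : Set G)) E g := by
    intro E hES hlt hEpr g' hg'
    have := hcardS E hES
    exact IH _ (by omega) E hES hEpr rfl g' hg'
  by_cases hX0 : X = ⊥
  · refine ⟨1, Subgroup.one_mem _, fun t ht => ?_⟩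
    rw [hX0, Subgroup.mem_bot] at ht
    simp [ht]
  have hP := psi' S F Pr hPrcj hPrF hF2 hF3 hF1 hLoc hup hPrE
  by_cases hXT : X = S
  · obtain ⟨x, hxS, hxt⟩ := exists_conj_tame S X hXS
    have hx : cj x X = X := by
      refine Subgroup.eq_of_le_of_card_ge (hxS.trans hXT.ge) ?_
      rw [card_cj]
    rw [hx] at hxt
    have hgn : cj g X = X := by
      refine Subgroup.eq_of_le_of_card_ge (hg.trans hXT.ge) ?_
      rw [card_cj]
    have hle : X ≤ (S : Subgroup G) ⊓ Subgroup.normalizer (X : Set G) :=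
      le_inf hXS Subgroup.le_normalizer
    exact hP _ X hXS hX0 hXpr hxt le_rfl (Subgroup.card_le_of_le hle) X hle g
      (mem_normalizer_of_cj_eq hgn) (by rw [hgn]; exact hle)
  -- the general case
  obtain ⟨x, hxS, hxt⟩ := exists_conj_tame S X hXS
  set X₀ := cj x X with hX₀
  have hX₀ne : X₀ ≠ ⊥ := cj_ne_bot hX0 x
  have hX₀pr : Pr X₀ := hPrcj _ _ hXpr
  have hlink : ∀ (X' : Subgroup G) (c₀ : G), X' ≤ (S : Subgroup G) → Nat.card X' = Nat.card X →
      cj c₀ X' = X₀ → ∃ c', cj c' X' = X₀ ∧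
        Ct (Subgroup.normalizer (F (S : Subgroup G) : Set G)) X' c' := by
    intro X' c₀ hX'S hX'c hc₀
    have hX'lt : X' < S := by
      refine lt_of_le_of_ne hX'S fun he => hXT ?_
      refine Subgroup.eq_of_le_of_card_ge hXS ?_
      rw [← hX'c, he]
    set E' := (S : Subgroup G) ⊓ Subgroup.normalizer (X' : Set G) with hE'
    have hE'1 : X' < E' := lt_inf_normalizer S.isPGroup' hX'lt
    have hE'S : E' ≤ S := inf_le_left
    have hE'p : IsPGroup p E' := S.isPGroup'.to_le hE'S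
    have h1 : cj c₀ E' ≤ Subgroup.normalizer (X₀ : Set G) := by
      refine (cj_mono c₀ inf_le_right).trans ?_
      rw [← hc₀, normalizer_cj]
    obtain ⟨z, hz, hzE⟩ := exists_conj_le_of_isSylowIn hxt h1 (hE'p.map _)
    refine ⟨z * c₀, ?_, ?_⟩
    · rw [← cj_cj, hc₀, cj_eq_of_mem_normalizer hz]
    · have h2 : cj (z * c₀) E' ≤ (S : Subgroup G) := by
        rw [← cj_cj]
        exact hzE.trans inf_le_left
      have hlt2 : Nat.card X' < Nat.card E' := card_lt_of_lt hE'1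
      exact (hup E' hE'S (by omega) (hPrE E' X' hX'S le_rfl hE'S) _ h2).mono hE'1.le
  obtain ⟨c₁, hc₁, hct₁⟩ := hlink X x hXS rfl rfl
  obtain ⟨c₂, hc₂, hct₂⟩ := hlink (cj g X) (x * g⁻¹) hg (card_cj _ _) (by
    rw [cj_cj]
    have e : x * g⁻¹ * g = x := by group
    rw [e])
  set k := c₂ * g * c₁⁻¹ with hk
  have hkX : cj k X₀ = X₀ := by
    have e : cj k X₀ = cj (c₂ * g) X := by
      rw [← hc₁, cj_cj]
      congr 1
      rw [hk]
      group
    rw [e, ← cj_cj, hc₂]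
  have hX₀S : X₀ ≤ (S : Subgroup G) ⊓ Subgroup.normalizer (X₀ : Set G) :=
    le_inf hxS Subgroup.le_normalizer
  have hcardle : Nat.card X ≤ Nat.card ↥((S : Subgroup G) ⊓ Subgroup.normalizer (X₀ : Set G)) := by
    have := Subgroup.card_le_of_le hX₀S
    rwa [hX₀, card_cj] at this
  have hkct := hP _ X₀ hxS hX₀ne hX₀pr hxt le_rfl hcardle X₀ hX₀S k (mem_normalizer_of_cj_eq hkX)
    (by rw [hkX]; exact hX₀S)
  have h3 : Ct (Subgroup.normalizer (F (S : Subgroup G) : Set G)) X (k * c₁) :=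
    hct₁.comp (by rw [hc₁]; exact hkct)
  have e1 : k * c₁ = c₂ * g := by
    rw [hk]
    group
  rw [e1] at h3
  have h4 := hct₂.inv
  rw [cj_cj] at h4
  have h5 := h3.comp h4
  have e2 : c₂⁻¹ * (c₂ * g) = g := by group
  rwa [e2] at h5

end control

section free

variable {p : ℕ} [hpp : Fact p.Prime] {G : Type u} [Group G] [Finite G]

/-- The normalizer of `V` has no section isomorphic to `SL₂(p)`. -/
def Hf (p : ℕ) [Fact p.Prime] (V : Subgroup G) : Prop :=
  ¬ ∃ (H K : Subgroup G) (hK : (K.subgroupOf H).Normal), H ≤ Subgroup.normalizer (V : Set G) ∧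
    Nonempty ((H ⧸ K.subgroupOf H) ≃* Matrix.SpecialLinearGroup (Fin 2) (ZMod p))

theorem Hf.cj {V : Subgroup G} (h : Hf p V) (x : G) : Hf p (cj x V) := by
  classical
  rintro ⟨H, K, hK, hHN, ⟨e⟩⟩
  haveI := hK
  apply h
  -- the conjugate section
  let f := MulAut.conj x⁻¹
  let H' : Subgroup G := H.map f.toMonoidHom
  have hsurj : Function.Surjective ((QuotientGroup.mk' (K.subgroupOf H))) := QuotientGroup.mk'_surjective _
  have hH'N : H' ≤ Subgroup.normalizer (V : Set G) := by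
    rintro _ ⟨h', hh', rfl⟩
    have h1 := hHN hh'
    rw [normalizer_cj] at h1
    obtain ⟨n, hn, rfl⟩ := h1
    have e' : f.toMonoidHom ((MulAut.conj x).toMonoidHom n) = n := by
      show x⁻¹ * (x * n * x⁻¹) * x⁻¹⁻¹ = n
      group
    rw [e']
    exact hn
  -- the map from `H'` to `SL₂`
  let eH : H ≃* H' := H.equivMapOfInjective f.toMonoidHom f.injective
  let φ : H' →* Matrix.SpecialLinearGroup (Fin 2) (ZMod p) :=
    (e.toMonoidHom.comp (QuotientGroup.mk' (K.subgroupOf H))).comp eH.symm.toMonoidHom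
  have hφ : Function.Surjective φ := e.surjective.comp (hsurj.comp eH.symm.surjective)
  have h2 : (φ.ker.map H'.subtype).subgroupOf H' = φ.ker :=
    Subgroup.comap_map_eq_self_of_injective H'.subtype_injective _
  have hn : ((φ.ker.map H'.subtype).subgroupOf H').Normal := by
    rw [h2]
    infer_instance
  exact ⟨H', φ.ker.map H'.subtype, hn, hH'N,
    ⟨(QuotientGroup.quotientMulEquivOfEq h2).trans (QuotientGroup.quotientKerEquivOfSurjective φ hφ)⟩⟩

theorem ctl_of_hf (hp : p ≠ 2) {Y : ∀ (X : Type u) [Group X], Subgroup X → Subgroup X} (hY : GoodY p Y)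
    {V : Subgroup G} (h : Hf p V) : Ctl p Y ↥(Subgroup.normalizer (V : Set G)) := by
  classical
  refine ctl_main hY _ _ rfl fun X _ _ hX => ?_
  apply Cfsg.Agent.Lib.QdControl.stable_of_sec hp ?_ hX
  intro hinv
  obtain ⟨K₀, Θ, hΘ⟩ := (Cfsg.Agent.Lib.QdSection.involves_iff).1 hinv
  obtain ⟨D⟩ := Cfsg.Agent.Lib.QdControl.qdData_qd (p := p) hp
  -- from a subgroup of the normalizer to a subgroup of `G`
  let H : Subgroup G := K₀.map (Subgroup.normalizer (V : Set G)).subtype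
  let eH : K₀ ≃* H := K₀.equivMapOfInjective (Subgroup.normalizer (V : Set G)).subtype (Subgroup.normalizer (V : Set G)).subtype_injective
  let φ : H →* Matrix.SpecialLinearGroup (Fin 2) (ZMod p) :=
    ((D.τ.comp Θ)).comp eH.symm.toMonoidHom
  have hφ : Function.Surjective φ := (D.hτ.comp hΘ).comp eH.symm.surjective
  have h2 : (φ.ker.map H.subtype).subgroupOf H = φ.ker :=
    Subgroup.comap_map_eq_self_of_injective H.subtype_injective _
  have hn : ((φ.ker.map H.subtype).subgroupOf H).Normal := by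
    rw [h2]
    infer_instance
  refine h ⟨H, φ.ker.map H.subtype, hn, Subgroup.map_subtype_le _,
    ⟨(QuotientGroup.quotientMulEquivOfEq h2).trans (QuotientGroup.quotientKerEquivOfSurjective φ hφ)⟩⟩

end free

end Cfsg.Agent.Lib.QdFree
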