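import Mathlib
import Cfsg.Agent.Lib.QdControl
import Cfsg.Agent.Lib.QdAbelian
import Cfsg.Agent.Lib.H6Regular
import Cfsg.Agent.Lib.FrattiniExt

/-! A Sylow `p`-subgroup of `Qd(p)` is extraspecial of order `p³` and exponent `p`. -/

set_option autoImplicit false
set_option linter.all false

namespace Cfsg.Agent.Lib.QdSylow

open Cfsg Cfsg.Agent.Lib.QdSection Cfsg.Agent.Lib.QdControl
open scoped commutatorElement

variable {p : ℕ} [hpp : Fact p.Prime]

/-- A non-abelian group of order `p³` is extraspecial. -/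
theorem extra_of_card {P : Type*} [Group P] [Finite P] (hc : Nat.card P = p ^ 3)
    (hna : ∃ a b : P, a * b ≠ b * a) : Cfsg.IsExtraspecial p P := by
  have hp' := hpp.out
  have hP : IsPGroup p P := IsPGroup.of_card hc
  obtain ⟨a₀, b₀, hab₀⟩ := hna
  haveI : Nontrivial P := by
    refine ⟨a₀, 1, ?_⟩
    rintro rfl
    simp at hab₀
  have hsub : ∀ H : Subgroup P, ∃ k ≤ 3, Nat.card H = p ^ k := by
    intro H
    have := Subgroup.card_subgroup_dvd_card H
    rw [hc] at this
    exact (Nat.dvd_prime_pow hp').1 this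
  let Z := Subgroup.center P
  obtain ⟨k, hk, hZk⟩ := hsub Z
  haveI hZnt : Nontrivial Z := hP.center_nontrivial
  have hcardZ1 : 1 < Nat.card Z := Finite.one_lt_card
  have hZtop : Z ≠ ⊤ := by
    intro h
    apply hab₀
    have : b₀ ∈ Z := by rw [h]; trivial
    exact (Subgroup.mem_center_iff.1 this a₀)
  have hidx : Nat.card Z * Z.index = p ^ 3 := by rw [Subgroup.card_mul_index, hc]
  have hk1 : k = 1 := by
    have hk0 : k ≠ 0 := by
      rintro rfl
      simp [hZk] at hcardZ1
    have hk3 : k ≠ 3 := by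
      rintro rfl
      apply hZtop
      apply Subgroup.eq_top_of_card_eq
      rw [hZk, hc]
    have hk2 : k ≠ 2 := by
      rintro rfl
      rw [hZk] at hidx
      have hi : Z.index = p := by
        have : p ^ 2 * Z.index = p ^ 2 * p := by rw [hidx]; ring
        exact Nat.eq_of_mul_eq_mul_left (pow_pos hp'.pos 2) this
      have hcq : Nat.card (P ⧸ Z) = p := by rw [← Subgroup.index_eq_card, hi]
      haveI : IsCyclic (P ⧸ Z) := isCyclic_of_prime_card hcq
      apply hab₀
      exact commutative_of_cyclic_center_quotient (QuotientGroup.mk' Z) (by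
        rw [QuotientGroup.ker_mk']) a₀ b₀
    omega
  subst hk1
  rw [pow_one] at hZk
  have hcq : Nat.card (P ⧸ Z) = p ^ 2 := by
    rw [← Subgroup.index_eq_card]
    rw [hZk] at hidx
    have : p * Z.index = p * p ^ 2 := by rw [hidx]; ring
    exact Nat.eq_of_mul_eq_mul_left hp'.pos this
  have hcommq := IsPGroup.commutative_of_card_eq_prime_sq hcq
  have hcomm_le : commutator P ≤ Z := by
    unfold _root_.commutator
    rw [Subgroup.commutator_le]
    intro x _ y _
    have h1 : ((x * y * x⁻¹ * y⁻¹ : P) : P ⧸ Z) = 1 := by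
      simp only [QuotientGroup.mk_mul, QuotientGroup.mk_inv]
      rw [hcommq (x : P ⧸ Z) (y : P ⧸ Z)]
      group
    rw [commutatorElement_def]
    exact (QuotientGroup.eq_one_iff _).1 h1
  have hcomm_ne : commutator P ≠ ⊥ := by
    intro h
    apply hab₀
    have h1 : ⁅a₀, b₀⁆ ∈ commutator P := Subgroup.commutator_mem_commutator (Subgroup.mem_top a₀) (Subgroup.mem_top b₀)
    rw [h, Subgroup.mem_bot, commutatorElement_eq_one_iff_mul_comm] at h1
    exact h1
  have hcomm_eq : commutator P = Z := by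
    obtain ⟨j, hj, hCj⟩ := hsub (commutator P)
    have hd : Nat.card (commutator P) ∣ Nat.card Z := Subgroup.card_dvd_of_le hcomm_le
    rw [hZk, hCj] at hd
    rcases (Nat.dvd_prime hp').1 hd with h | h
    · exfalso
      apply hcomm_ne
      apply Subgroup.eq_bot_of_card_eq
      rw [hCj, h]
    · apply Subgroup.eq_of_le_of_card_ge hcomm_le
      rw [hCj, h, hZk]
  have hfr1 : Z ≤ frattini P := by
    rw [← hcomm_eq]
    exact Cfsg.Agent.Lib.H6Regular.commutator_le_frattini hP
  have hfr2 : frattini P ≤ Z := by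
    intro x hx
    by_contra hxZ
    rw [Subgroup.mem_center_iff] at hxZ
    push Not at hxZ
    obtain ⟨y, hy⟩ := hxZ
    let M : Subgroup P := Subgroup.zpowers y ⊔ Z
    have hM_cent : M ≤ Subgroup.centralizer {y} := by
      apply sup_le
      · rw [Subgroup.zpowers_le, Subgroup.mem_centralizer_singleton_iff]
      · intro z hz
        rw [Subgroup.mem_centralizer_singleton_iff]
        exact (Subgroup.mem_center_iff.1 hz y).symm
    have hxM : x ∉ M := by
      intro h
      have := hM_cent h
      rw [Subgroup.mem_centralizer_singleton_iff] at this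
      exact hy this.symm
    have hyM : y ∈ M := Subgroup.mem_sup_left (Subgroup.mem_zpowers y)
    have hyZ : y ∉ Z := by
      intro h
      exact hy (Subgroup.mem_center_iff.1 h x).symm
    have hZM : Z ≤ M := le_sup_right
    obtain ⟨m, hm, hMm⟩ := hsub M
    have hM_top : M ≠ ⊤ := by
      intro h
      exact hxM (h ▸ trivial)
    have hm3 : m ≠ 3 := by
      rintro rfl
      apply hM_top
      apply Subgroup.eq_top_of_card_eq
      rw [hMm, hc]
    have hm1 : 1 < m := by
      by_contra hm1
      have hcardle : Nat.card M ≤ Nat.card Z := by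
        rw [hMm, hZk]
        have : m ≤ 1 := by omega
        calc p ^ m ≤ p ^ 1 := Nat.pow_le_pow_right hp'.pos this
          _ = p := pow_one p
      have := Subgroup.eq_of_le_of_card_ge hZM hcardle
      exact hyZ (this ▸ hyM)
    have hm2 : m = 2 := by omega
    subst hm2
    have hcoat : IsCoatom M := by
      refine ⟨hM_top, ?_⟩
      intro L hL
      obtain ⟨l, hl, hLl⟩ := hsub L
      have hd : p ^ 2 ∣ p ^ l := by
        rw [← hMm, ← hLl]
        exact Subgroup.card_dvd_of_le hL.le
      have h2l : 2 ≤ l := (Nat.pow_dvd_pow_iff_le_right hp'.one_lt).1 hd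
      have hl2 : l ≠ 2 := by
        rintro rfl
        have := Subgroup.eq_of_le_of_card_ge hL.le (by rw [hMm, hLl])
        exact hL.ne this
      have hl3 : l = 3 := by omega
      subst hl3
      apply Subgroup.eq_top_of_card_eq
      rw [hLl, hc]
    exact hxM ((Cfsg.Agent.Lib.FrattiniExt.mem_frattini_iff.1 hx) M hcoat)
  exact ⟨⟨hP, le_antisymm hfr2 hfr1, hcomm_eq⟩, hZk⟩

/-- A `p`-element of `SL₃(p)`, `p ≥ 3`, has order dividing `p`. -/
theorem pow_eq_one (hp : p ≠ 2) {X : Matrix (Fin 3) (Fin 3) (ZMod p)} {n : ℕ} (h : X ^ (p ^ n) = 1) : X ^ p = 1 := by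
  have hp' := hpp.out
  have hp3 : 3 ≤ p := by
    have := hp'.two_le
    omega
  have h0 : (X - 1) ^ (p ^ n) = 0 := by
    haveI : ExpChar (Matrix (Fin 3) (Fin 3) (ZMod p)) p := ExpChar.prime hp'
    rw [sub_pow_expChar_pow_of_commute p n (Commute.one_right X), h, one_pow, sub_self]
  have hnil : IsNilpotent (X - 1) := ⟨_, h0⟩
  have hch : (X - 1).charpoly = Polynomial.X ^ 3 := by
    have := Matrix.isNilpotent_charpoly_sub_pow_of_isNilpotent hnil
    have h2 := eq_of_sub_eq_zero (IsReduced.eq_zero _ this)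
    simpa using h2
  have h3 : (X - 1) ^ 3 = 0 := by
    have := Matrix.aeval_self_charpoly (X - 1)
    rw [hch] at this
    simpa using this
  have hp0 : (X - 1) ^ p = 0 := by
    obtain ⟨m, hm⟩ := Nat.exists_eq_add_of_le hp3
    have : (X - 1) ^ p = (X - 1) ^ (3 + m) := congrArg _ hm
    rw [this, pow_add, h3, zero_mul]
  have hX : X = (X - 1) + 1 := by abel
  rw [hX]
  haveI : ExpChar (Matrix (Fin 3) (Fin 3) (ZMod p)) p := ExpChar.prime hp'
  rw [add_pow_expChar_of_commute p (Commute.one_right _), hp0, one_pow, zero_add]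

theorem main (hp : p ≠ 2) (P : Sylow p ↥(Cfsg.qd p)) :
    Cfsg.IsExtraspecial p ↥P ∧ Nat.card P = p ^ 3 ∧ Monoid.exponent ↥P = p := by
  obtain ⟨D⟩ := qdData_qd (p := p) hp
  have hp' := hpp.out
  haveI : Finite ↥(Cfsg.qd p) := inferInstance
  obtain ⟨a, ha, b, hb, hab⟩ := Cfsg.Agent.Lib.QdAbelian.QdData.not_comm_sylow D P
  have hna : ∃ a b : ↥P, a * b ≠ b * a := by
    refine ⟨⟨a, ha⟩, ⟨b, hb⟩, ?_⟩
    intro h
    exact hab (congrArg Subtype.val h)
  have hle : Nat.card ↥P ≤ p ^ 3 := D.card_sylow_le P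
  have hPp : IsPGroup p ↥P := P.isPGroup'
  obtain ⟨k, hk⟩ := IsPGroup.iff_card.1 hPp
  have hcard : Nat.card P = p ^ 3 := by
    have hk3 : k ≤ 3 := by
      rw [hk] at hle
      exact (Nat.pow_le_pow_iff_right hp'.one_lt).1 hle
    have hk' : k = 3 := by
      by_contra hne
      obtain ⟨a', b', hab'⟩ := hna
      have hk2 : k ≤ 2 := by omega
      apply hab'
      interval_cases k
      · have h1 : Subsingleton ↥P := (Nat.card_eq_one_iff_unique.1 (by simpa using hk)).1
        exact Subsingleton.elim _ _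
      · haveI : IsCyclic ↥P := isCyclic_of_prime_card (by simpa using hk)
        exact mul_comm' a' b'
      · exact IsPGroup.commutative_of_card_eq_prime_sq hk a' b'
    exact hk.trans (by rw [hk'])
  refine ⟨extra_of_card hcard hna, hcard, ?_⟩
  haveI : Nontrivial ↥P := by
    obtain ⟨a', b', hab'⟩ := hna
    refine ⟨a', 1, ?_⟩
    rintro rfl
    simp at hab'
  rw [Monoid.exponent_eq_prime_iff hp']
  intro g hg
  obtain ⟨n, hn⟩ := IsPGroup.iff_orderOf.1 hPp g
  have h1 : g ^ (p ^ n) = 1 := by rw [← hn]; exact pow_orderOf_eq_one g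
  have h2 : (((g : ↥(Cfsg.qd p)).1 : Matrix (Fin 3) (Fin 3) (ZMod p))) ^ (p ^ n) = 1 := by
    have := congrArg (fun z : ↥P => (((z : ↥(Cfsg.qd p)).1 : Matrix (Fin 3) (Fin 3) (ZMod p)))) h1
    simpa using this
  have h3 := pow_eq_one hp h2
  have h4 : g ^ p = 1 := by
    apply Subtype.ext
    apply Subtype.ext
    apply Subtype.ext
    simpa using h3
  exact orderOf_eq_prime h4 hg

end Cfsg.Agent.Lib.QdSylow
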