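/-
Quaternion frames in `SL₂(F)`, `F` finite of odd order, and embeddings of groups given by tables of
quaternions with coordinates in `ℤ[√d]`.
-/
import Mathlib
import Cfsg.Agent.Lib.PSL2Inv

set_option autoImplicit false
set_option linter.all false

open scoped MatrixGroups Matrix
open Cfsg.Agent.Lib.MkSL Cfsg.Agent.Lib.GL2Conj Cfsg.Agent.Lib.PSL2Inv

namespace Cfsg.Agent.Lib.QuatFrame

section Frame

variable {F : Type*} [Field F]

/-- The matrix of a quaternion of norm one. -/
def qS (x y : F) (hxy : x * x + y * y = -1) (c0 c1 c2 c3 : F)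
    (h : c0 * c0 + c1 * c1 + c2 * c2 + c3 * c3 = 1) : SL(2, F) :=
  mkSL (c0 + c2 * x - c3 * y) (-c1 + c2 * y + c3 * x) (c1 + c2 * y + c3 * x) (c0 - c2 * x + c3 * y) (by
    linear_combination h - (c2 * c2 + c3 * c3) * hxy)

theorem qS_mul (x y : F) (hxy : x * x + y * y = -1) {c0 c1 c2 c3 d0 d1 d2 d3 e0 e1 e2 e3 : F}
    (hc : c0 * c0 + c1 * c1 + c2 * c2 + c3 * c3 = 1) (hd : d0 * d0 + d1 * d1 + d2 * d2 + d3 * d3 = 1)
    (he : e0 * e0 + e1 * e1 + e2 * e2 + e3 * e3 = 1)
    (h0 : c0 * d0 - c1 * d1 - c2 * d2 - c3 * d3 = e0)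
    (h1 : c0 * d1 + c1 * d0 + c2 * d3 - c3 * d2 = e1)
    (h2 : c0 * d2 - c1 * d3 + c2 * d0 + c3 * d1 = e2)
    (h3 : c0 * d3 + c1 * d2 - c2 * d1 + c3 * d0 = e3) :
    qS x y hxy c0 c1 c2 c3 hc * qS x y hxy d0 d1 d2 d3 hd = qS x y hxy e0 e1 e2 e3 he := by
  subst h0 h1 h2 h3
  apply ext2 <;> simp only [mul_ij, qS, mkSL_00, mkSL_01, mkSL_10, mkSL_11]
  · linear_combination (c2 * d2 + c3 * d3) * hxy
  · linear_combination (c2 * d3 - c3 * d2) * hxy
  · linear_combination (-(c2 * d3 - c3 * d2)) * hxy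
  · linear_combination (c2 * d2 + c3 * d3) * hxy

theorem mO_mul_qS (x y : F) (hxy : x * x + y * y = -1) {c0 c1 c2 c3 : F}
    (hc : c0 * c0 + c1 * c1 + c2 * c2 + c3 * c3 = 1)
    (he : (-c0) * (-c0) + (-c1) * (-c1) + (-c2) * (-c2) + (-c3) * (-c3) = 1) :
    qS x y hxy (-c0) (-c1) (-c2) (-c3) he = mO * qS x y hxy c0 c1 c2 c3 hc := by
  apply ext2 <;> simp only [mul_ij, qS, mO, mkSL_00, mkSL_01, mkSL_10, mkSL_11] <;> ring

theorem coords_zero_of_center (x y : F) (hxy : x * x + y * y = -1) (h2 : (2 : F) ≠ 0) {c0 c1 c2 c3 : F}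
    (hc : c0 * c0 + c1 * c1 + c2 * c2 + c3 * c3 = 1)
    (h : qS x y hxy c0 c1 c2 c3 hc = 1 ∨ qS x y hxy c0 c1 c2 c3 hc = mO) : c1 = 0 ∧ c2 = 0 ∧ c3 = 0 := by
  have h3 : qS x y hxy c0 c1 c2 c3 hc 0 1 = 0 ∧ qS x y hxy c0 c1 c2 c3 hc 1 0 = 0 ∧
      qS x y hxy c0 c1 c2 c3 hc 0 0 = qS x y hxy c0 c1 c2 c3 hc 1 1 := by
    rcases h with h | h <;> rw [h] <;> simp [mO]
  obtain ⟨h4, h5, h6⟩ := h3
  simp only [qS, mkSL_00, mkSL_01, mkSL_10, mkSL_11] at h4 h5 h6
  have e1 : c1 = 0 := by
    have : (2 : F) * c1 = 0 := by linear_combination h5 - h4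
    exact (mul_eq_zero.1 this).resolve_left h2
  have e2 : c2 * x = c3 * y := by
    have : (2 : F) * (c2 * x - c3 * y) = 0 := by linear_combination h6
    have := (mul_eq_zero.1 this).resolve_left h2
    linear_combination this
  have e3 : c2 * y = - (c3 * x) := by
    rw [e1] at h5
    linear_combination h5
  refine ⟨e1, ?_, ?_⟩
  · have : c2 * (x * x + y * y) = 0 := by linear_combination x * e2 + y * e3
    rw [hxy] at this
    simpa using this
  · have : c3 * (x * x + y * y) = 0 := by linear_combination (-y) * e2 + x * e3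
    rw [hxy] at this
    simpa using this

end Frame

/-! ### Coordinates in `ℤ[√d]` -/

/-- Elements `a + b √d`. -/
abbrev Z2 := ℤ × ℤ

/-- Product in `ℤ[√d]`. -/
def mZ (d : ℤ) (u v : Z2) : Z2 := (u.1 * v.1 + d * (u.2 * v.2), u.1 * v.2 + u.2 * v.1)

/-- Sum. -/
def aZ (u v : Z2) : Z2 := (u.1 + v.1, u.2 + v.2)

/-- Difference. -/
def sZ (u v : Z2) : Z2 := (u.1 - v.1, u.2 - v.2)

/-- Quaternions with coordinates in `ℤ[√d]`. -/
structure Q4 where
  c0 : Z2
  c1 : Z2
  c2 : Z2
  c3 : Z2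
  deriving DecidableEq

/-- The Hamilton product. -/
def hamZ (d : ℤ) (p q : Q4) : Q4 :=
  ⟨sZ (sZ (sZ (mZ d p.c0 q.c0) (mZ d p.c1 q.c1)) (mZ d p.c2 q.c2)) (mZ d p.c3 q.c3),
   sZ (aZ (aZ (mZ d p.c0 q.c1) (mZ d p.c1 q.c0)) (mZ d p.c2 q.c3)) (mZ d p.c3 q.c2),
   aZ (aZ (sZ (mZ d p.c0 q.c2) (mZ d p.c1 q.c3)) (mZ d p.c2 q.c0)) (mZ d p.c3 q.c1),
   aZ (sZ (aZ (mZ d p.c0 q.c3) (mZ d p.c1 q.c2)) (mZ d p.c2 q.c1)) (mZ d p.c3 q.c0)⟩

/-- Scaling by an integer. -/
def scZ (D : ℤ) (u : Z2) : Z2 := (D * u.1, D * u.2)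

/-- Scaling a quaternion by an integer. -/
def scale (D : ℤ) (p : Q4) : Q4 := ⟨scZ D p.c0, scZ D p.c1, scZ D p.c2, scZ D p.c3⟩

/-- The norm of a quaternion. -/
def normZ (d : ℤ) (p : Q4) : Z2 := aZ (aZ (aZ (mZ d p.c0 p.c0) (mZ d p.c1 p.c1)) (mZ d p.c2 p.c2)) (mZ d p.c3 p.c3)

/-- The norm of `a + b √d`. -/
def nZ (d : ℤ) (u : Z2) : ℤ := u.1 * u.1 - d * (u.2 * u.2)

/-- The units that will be allowed as witnesses of non-vanishing. -/
def okZ (n : ℤ) : Prop := n = 1 ∨ n = -2 ∨ n = 4 ∨ n = -4 ∨ n = 16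

instance (n : ℤ) : Decidable (okZ n) := by
  unfold okZ
  infer_instance

/-- A witness of non-triviality. -/
def neZ (d : ℤ) (p : Q4) : Prop := okZ (nZ d p.c1) ∨ okZ (nZ d p.c2) ∨ okZ (nZ d p.c3)

instance (d : ℤ) (p : Q4) : Decidable (neZ d p) := by
  unfold neZ
  infer_instance

section Eval

variable {F : Type*} [Field F]

/-- Evaluation. -/
def ev (s : F) (u : Z2) : F := (u.1 : F) + (u.2 : F) * s

theorem ev_mZ {s : F} {d : ℤ} (hs : s * s = d) (u v : Z2) : ev s (mZ d u v) = ev s u * ev s v := by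
  simp only [ev, mZ]
  push_cast
  linear_combination (-(u.2 : F) * (v.2 : F)) * hs

theorem ev_aZ (s : F) (u v : Z2) : ev s (aZ u v) = ev s u + ev s v := by
  simp only [ev, aZ]
  push_cast
  ring

theorem ev_sZ (s : F) (u v : Z2) : ev s (sZ u v) = ev s u - ev s v := by
  simp only [ev, sZ]
  push_cast
  ring

theorem ev_scZ (s : F) (D : ℤ) (u : Z2) : ev s (scZ D u) = (D : F) * ev s u := by
  simp only [ev, scZ]
  push_cast
  ring

theorem ev_ne_of_ok {s : F} {d : ℤ} (hs : s * s = d) (h2 : (2 : F) ≠ 0) {u : Z2} (h : okZ (nZ d u)) : ev s u ≠ 0 := by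
  intro h0
  have e : ((nZ d u : ℤ) : F) = ev s u * ((u.1 : F) - (u.2 : F) * s) := by
    simp only [nZ, ev]
    push_cast
    linear_combination (-(u.2 : F) * (u.2 : F)) * hs * (-1)
  rw [h0, zero_mul] at e
  have h4 : (4 : F) ≠ 0 := by
    have : (4 : F) = 2 * 2 := by norm_num
    rw [this]
    exact mul_ne_zero h2 h2
  have h16 : (16 : F) ≠ 0 := by
    have : (16 : F) = 4 * 4 := by norm_num
    rw [this]
    exact mul_ne_zero h4 h4
  rcases h with h | h | h | h | h <;> rw [h] at e <;> push_cast at e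
  · exact one_ne_zero e
  · exact h2 (by linear_combination -e)
  · exact h4 e
  · exact h4 (by linear_combination -e)
  · exact h16 e

end Eval

section Hom

variable {F : Type*} [Field F] [Fintype F] (hodd : Odd (Fintype.card F))

include hodd in
theorem exists_frame : ∃ x y : F, x * x + y * y = -1 := by
  have h2 := two_ne_zero_of_odd hodd
  obtain ⟨x, y, h⟩ := norm_surj_odd hodd (0 : F) (-1) (by
    intro h
    have h4 : (4 : F) = 2 * 2 := by norm_num
    rw [h4] at h
    have h5 : (2 : F) * 2 ≠ 0 := mul_ne_zero h2 h2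
    apply h5
    rw [← h]
    simp)
  exact ⟨x, y, by linear_combination h⟩

variable {G : Type*} [Group G]

include hodd in
theorem exists_embedding (s : F) (d D : ℤ) (hs : s * s = d) (hD : (D : F) ≠ 0) (L : G → Q4)
    (hnorm : ∀ g, normZ d (L g) = (D * D, 0))
    (hmul : ∀ g h, hamZ d (L g) (L h) = scale D (L (g * h)) ∨ hamZ d (L g) (L h) = scale (-D) (L (g * h)))
    (hne : ∀ g, g ≠ 1 → neZ d (L g)) :
    ∃ H : Subgroup (PSL(2, F)), Nonempty (H ≃* G) := by
  obtain ⟨x, y, hxy⟩ := exists_frame hodd (F := F)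
  have h2 := two_ne_zero_of_odd hodd
  -- coordinates
  let c : G → Fin 4 → F := fun g i =>
    match i with
    | 0 => ev s (L g).c0 / D
    | 1 => ev s (L g).c1 / D
    | 2 => ev s (L g).c2 / D
    | 3 => ev s (L g).c3 / D
  have hc : ∀ g, c g 0 * c g 0 + c g 1 * c g 1 + c g 2 * c g 2 + c g 3 * c g 3 = 1 := by
    intro g
    have h1 := congrArg (ev s) (hnorm g)
    simp only [normZ, ev_aZ, ev_mZ hs] at h1
    simp only [c]
    have e : ev s ((D * D, 0) : Z2) = (D : F) * D := by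
      simp [ev]
    rw [e] at h1
    field_simp
    linear_combination h1
  let Φ : G → SL(2, F) := fun g => qS x y hxy (c g 0) (c g 1) (c g 2) (c g 3) (hc g)
  have hΦ : ∀ g h, Φ g * Φ h = Φ (g * h) ∨ Φ g * Φ h = mO * Φ (g * h) := by
    intro g h
    rcases hmul g h with e | e
    · left
      have e0 := congrArg (fun p => ev s p.c0) e
      have e1 := congrArg (fun p => ev s p.c1) e
      have e2 := congrArg (fun p => ev s p.c2) e
      have e3 := congrArg (fun p => ev s p.c3) e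
      simp only [hamZ, scale, ev_aZ, ev_sZ, ev_mZ hs, ev_scZ] at e0 e1 e2 e3
      apply qS_mul
      · simp only [c]
        field_simp
        linear_combination e0
      · simp only [c]
        field_simp
        linear_combination e1
      · simp only [c]
        field_simp
        linear_combination e2
      · simp only [c]
        field_simp
        linear_combination e3
    · right
      have e0 := congrArg (fun p => ev s p.c0) e
      have e1 := congrArg (fun p => ev s p.c1) e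
      have e2 := congrArg (fun p => ev s p.c2) e
      have e3 := congrArg (fun p => ev s p.c3) e
      simp only [hamZ, scale, ev_aZ, ev_sZ, ev_mZ hs, ev_scZ] at e0 e1 e2 e3
      push_cast at e0 e1 e2 e3
      have hneg : (-c (g * h) 0) * (-c (g * h) 0) + (-c (g * h) 1) * (-c (g * h) 1) +
          (-c (g * h) 2) * (-c (g * h) 2) + (-c (g * h) 3) * (-c (g * h) 3) = 1 := by
        linear_combination hc (g * h)
      show _ = mO * qS x y hxy _ _ _ _ (hc (g * h))
      rw [← mO_mul_qS x y hxy (hc (g * h)) hneg]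
      apply qS_mul
      · simp only [c]
        field_simp
        linear_combination e0
      · simp only [c]
        field_simp
        linear_combination e1
      · simp only [c]
        field_simp
        linear_combination e2
      · simp only [c]
        field_simp
        linear_combination e3
  let φ : G →* PSL(2, F) := MonoidHom.mk' (fun g => mkP (Φ g)) (by
    intro g h
    rw [← map_mul]
    rcases hΦ g h with e | e
    · rw [e]
    · symm
      rw [mkP_eq h2]
      exact Or.inr e)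
  have hφ : Function.Injective φ := by
    rw [injective_iff_map_eq_one]
    intro g hg
    by_contra hg1
    have h3 := (mkP_eq_one h2 (Φ g)).1 hg
    obtain ⟨h4, h5, h6⟩ := coords_zero_of_center x y hxy h2 (hc g) h3
    have hD' := hD
    simp only [c] at h4 h5 h6
    rcases hne g hg1 with h | h | h
    · have := ev_ne_of_ok hs h2 h
      exact this (by
        have := (div_eq_zero_iff.1 h4).resolve_right hD
        exact this)
    · have := ev_ne_of_ok hs h2 h
      exact this (by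
        have := (div_eq_zero_iff.1 h5).resolve_right hD
        exact this)
    · have := ev_ne_of_ok hs h2 h
      exact this (by
        have := (div_eq_zero_iff.1 h6).resolve_right hD
        exact this)
  exact ⟨φ.range, ⟨(MonoidHom.ofInjective hφ).symm⟩⟩

end Hom

end Cfsg.Agent.Lib.QuatFrame
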