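import Mathlib
import Cfsg.Prelude
import Cfsg.Agent.Lib.ZStarElem
import Cfsg.Agent.Lib.Quaternion

/-!
# Sylow 2-subgroups of the form quaternion times a group with central involutions
-/

set_option autoImplicit false
set_option linter.all false

namespace Cfsg.Agent.Lib.QuatTimes

open Cfsg

universe u

variable {G : Type u} [Group G]

/-- Burnside: conjugate elements central in a Sylow subgroup are conjugate in its normalizer. -/
theorem burnside_conj [Finite G] (S : Sylow 2 G) {u : G} (g : G)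
    (h1 : ∀ s ∈ (S : Subgroup G), s * u = u * s)
    (h2 : ∀ s ∈ (S : Subgroup G), s * (g * u * g⁻¹) = (g * u * g⁻¹) * s) :
    ∃ n ∈ Subgroup.normalizer ((S : Subgroup G) : Set G), n * u * n⁻¹ = g * u * g⁻¹ := by
  haveI : Fact (Nat.Prime 2) := ⟨Nat.prime_two⟩
  let C : Subgroup G := Subgroup.centralizer ({g * u * g⁻¹} : Set G)
  let T : Sylow 2 G := g • S
  have hSC : (S : Subgroup G) ≤ C := fun s hs => Subgroup.mem_centralizer_singleton_iff.2 (h2 s hs)
  have hTC : (T : Subgroup G) ≤ C := by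
    intro t ht
    have h3 : g⁻¹ * t * g ∈ (S : Subgroup G) := (Cfsg.Agent.Lib.SylowCount.mem_smul_sylow g t S).1 ht
    have h4 := h1 _ h3
    apply Subgroup.mem_centralizer_singleton_iff.2
    calc t * (g * u * g⁻¹) = g * ((g⁻¹ * t * g) * u) * g⁻¹ := by group
      _ = g * (u * (g⁻¹ * t * g)) * g⁻¹ := by rw [h4]
      _ = g * u * g⁻¹ * t := by group
  obtain ⟨c, hc⟩ := MulAction.exists_smul_eq C (T.subtype hTC) (S.subtype hSC)
  have hmem : ∀ y : C, (y : G) ∈ (S : Subgroup G) ↔ ((c⁻¹ * y * c : C) : G) ∈ (T : Subgroup G) := by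
    intro y
    have h5 : y ∈ ((S.subtype hSC : Sylow 2 C)) ↔ c⁻¹ * y * c ∈ (T.subtype hTC : Sylow 2 C) := by
      rw [← hc, Cfsg.Agent.Lib.SylowCount.mem_smul_sylow]
      exact Iff.rfl
    have h6 : y ∈ ((S.subtype hSC : Sylow 2 C)) ↔ (y : G) ∈ (S : Subgroup G) := by
      show y ∈ ((S.subtype hSC : Sylow 2 C) : Subgroup C) ↔ _
      rw [Sylow.coe_subtype]
      rfl
    have h7 : c⁻¹ * y * c ∈ (T.subtype hTC : Sylow 2 C) ↔ ((c⁻¹ * y * c : C) : G) ∈ (T : Subgroup G) := by
      show c⁻¹ * y * c ∈ ((T.subtype hTC : Sylow 2 C) : Subgroup C) ↔ _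
      rw [Sylow.coe_subtype]
      rfl
    rw [← h6, h5, h7]
  refine ⟨c * g, ?_, ?_⟩
  · rw [Subgroup.mem_normalizer_iff]
    intro x
    constructor
    · intro hx
      have h8 : g * x * g⁻¹ ∈ (T : Subgroup G) := by
        apply (Cfsg.Agent.Lib.SylowCount.mem_smul_sylow g _ S).2
        have e : g⁻¹ * (g * x * g⁻¹) * g = x := by group
        rw [e]
        exact hx
      let y : C := c * ⟨g * x * g⁻¹, hTC h8⟩ * c⁻¹
      have h9 := (hmem y).2 (by
        have e : ((c⁻¹ * y * c : C) : G) = g * x * g⁻¹ := by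
          show (c : G)⁻¹ * ((c : G) * (g * x * g⁻¹) * (c : G)⁻¹) * c = g * x * g⁻¹
          group
        rw [e]
        exact h8)
      have e : (y : G) = (c : G) * g * x * ((c : G) * g)⁻¹ := by
        show (c : G) * (g * x * g⁻¹) * (c : G)⁻¹ = _
        group
      rwa [e] at h9
    · intro hx
      let y : C := ⟨(c : G) * g * x * ((c : G) * g)⁻¹, hSC hx⟩
      have h9 := (hmem y).1 hx
      have e : ((c⁻¹ * y * c : C) : G) = g * x * g⁻¹ := by
        show (c : G)⁻¹ * ((c : G) * g * x * ((c : G) * g)⁻¹) * c = g * x * g⁻¹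
        group
      rw [e] at h9
      have h10 : g⁻¹ * (g * x * g⁻¹) * g ∈ (S : Subgroup G) :=
        (Cfsg.Agent.Lib.SylowCount.mem_smul_sylow g _ S).1 h9
      have e2 : g⁻¹ * (g * x * g⁻¹) * g = x := by group
      rwa [e2] at h10
  · have h11 := Subgroup.mem_centralizer_singleton_iff.1 c.2
    calc (c : G) * g * u * ((c : G) * g)⁻¹ = ((c : G) * (g * u * g⁻¹)) * (c : G)⁻¹ := by group
      _ = ((g * u * g⁻¹) * c) * (c : G)⁻¹ := by rw [h11]
      _ = g * u * g⁻¹ := by group

section decomp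

variable {Q R S : Subgroup G}

theorem exists_decomp (h : IsInternalDirectProduct Q R S) {s : G} (hs : s ∈ S) :
    ∃ a ∈ Q, ∃ b ∈ R, s = a * b := by
  obtain ⟨hQ, hR, hc, hd, he⟩ := h
  let T : Subgroup G :=
    { carrier := {x | ∃ a ∈ Q, ∃ b ∈ R, x = a * b}
      mul_mem' := by
        rintro _ _ ⟨a, ha, b, hb, rfl⟩ ⟨a', ha', b', hb', rfl⟩
        refine ⟨a * a', Q.mul_mem ha ha', b * b', R.mul_mem hb hb', ?_⟩
        calc a * b * (a' * b') = a * (b * a') * b' := by group
          _ = a * (a' * b) * b' := by rw [hc a' ha' b hb]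
          _ = a * a' * (b * b') := by group
      one_mem' := ⟨1, Q.one_mem, 1, R.one_mem, by simp⟩
      inv_mem' := by
        rintro _ ⟨a, ha, b, hb, rfl⟩
        refine ⟨a⁻¹, Q.inv_mem ha, b⁻¹, R.inv_mem hb, ?_⟩
        have h1 := hc a⁻¹ (Q.inv_mem ha) b⁻¹ (R.inv_mem hb)
        rw [mul_inv_rev, h1] }
  have hle : Q ⊔ R ≤ T := sup_le (fun a ha => ⟨a, ha, 1, R.one_mem, by simp⟩)
    (fun b hb => ⟨1, Q.one_mem, b, hb, by simp⟩)
  rw [← he] at hs
  exact hle hs

theorem decomp_unique (h : IsInternalDirectProduct Q R S) {a a' b b' : G} (ha : a ∈ Q) (ha' : a' ∈ Q)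
    (hb : b ∈ R) (hb' : b' ∈ R) (e : a * b = a' * b') : a = a' ∧ b = b' := by
  obtain ⟨hQ, hR, hc, hd, he⟩ := h
  have h1 : a'⁻¹ * a = b' * b⁻¹ := by
    calc a'⁻¹ * a = a'⁻¹ * (a * b) * b⁻¹ := by group
      _ = a'⁻¹ * (a' * b') * b⁻¹ := by rw [e]
      _ = b' * b⁻¹ := by group
  have h2 : a'⁻¹ * a ∈ Q ⊓ R := ⟨Q.mul_mem (Q.inv_mem ha') ha, h1 ▸ R.mul_mem hb' (R.inv_mem hb)⟩
  rw [hd, Subgroup.mem_bot] at h2
  have h3 : a = a' := by
    have := mul_eq_one_iff_eq_inv.1 h2
    exact (inv_inj.1 this).symm ▸ rfl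
  refine ⟨h3, ?_⟩
  subst h3
  exact (mul_left_cancel e)

/-- The number of square roots of `v` in `T`. -/
noncomputable def nroots (T : Subgroup G) (v : G) : ℕ := Nat.card {x : G // x ∈ T ∧ x * x = v}

theorem nroots_mul [Finite G] (h : IsInternalDirectProduct Q R S) {e r : G} (he : e ∈ Q) (hr : r ∈ R) :
    nroots S (e * r) = nroots Q e * nroots R r := by
  unfold nroots
  rw [← Nat.card_prod]
  symm
  have hc := h.2.2.1
  let F : {x : G // x ∈ Q ∧ x * x = e} × {x : G // x ∈ R ∧ x * x = r} → {x : G // x ∈ S ∧ x * x = e * r} :=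
    fun p => ⟨(p.1 : G) * (p.2 : G), S.mul_mem (h.1 p.1.2.1) (h.2.1 p.2.2.1), by
      calc (p.1 : G) * (p.2 : G) * ((p.1 : G) * (p.2 : G)) = (p.1 : G) * ((p.2 : G) * (p.1 : G)) * (p.2 : G) := by group
        _ = (p.1 : G) * ((p.1 : G) * (p.2 : G)) * (p.2 : G) := by rw [hc _ p.1.2.1 _ p.2.2.1]
        _ = ((p.1 : G) * (p.1 : G)) * ((p.2 : G) * (p.2 : G)) := by group
        _ = e * r := by rw [p.1.2.2, p.2.2.2]⟩
  refine Nat.card_congr (Equiv.ofBijective F ⟨?_, ?_⟩)
  · rintro ⟨⟨a, ha, ha2⟩, ⟨b, hb, hb2⟩⟩ ⟨⟨a', ha', ha2'⟩, ⟨b', hb', hb2'⟩⟩ e0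
    have e1 : a * b = a' * b' := congrArg Subtype.val e0
    obtain ⟨rfl, rfl⟩ := decomp_unique h ha ha' hb hb' e1
    rfl
  · rintro ⟨x, hxS, hx2⟩
    obtain ⟨a, ha, b, hb, rfl⟩ := exists_decomp h hxS
    have e1 : (a * a) * (b * b) = e * r := by
      rw [← hx2]
      calc a * a * (b * b) = a * (a * b) * b := by group
        _ = a * (b * a) * b := by rw [hc a ha b hb]
        _ = a * b * (a * b) := by group
    obtain ⟨e2, e3⟩ := decomp_unique h (Q.mul_mem ha ha) he (R.mul_mem hb hb) hr e1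
    exact ⟨⟨⟨a, ha, e2⟩, ⟨b, hb, e3⟩⟩, rfl⟩

theorem nroots_conj {T : Subgroup G} {m : G} (hm : m ∈ Subgroup.normalizer (T : Set G)) (v : G) :
    nroots T (m * v * m⁻¹) = nroots T v := by
  unfold nroots
  have hm' := Subgroup.mem_normalizer_iff.1 hm
  refine Nat.card_congr ⟨fun x => ⟨m⁻¹ * x * m, ?_, ?_⟩, fun x => ⟨m * x * m⁻¹, ?_, ?_⟩, ?_, ?_⟩
  · have := (hm' (m⁻¹ * x * m)).2
    apply this
    have e : m * (m⁻¹ * (x : G) * m) * m⁻¹ = x := by group
    rw [e]
    exact x.2.1
  · calc m⁻¹ * (x : G) * m * (m⁻¹ * x * m) = m⁻¹ * ((x : G) * x) * m := by group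
      _ = m⁻¹ * (m * v * m⁻¹) * m := by rw [x.2.2]
      _ = v := by group
  · exact (hm' x).1 x.2.1
  · calc m * (x : G) * m⁻¹ * (m * x * m⁻¹) = m * ((x : G) * x) * m⁻¹ := by group
      _ = m * v * m⁻¹ := by rw [x.2.2]
  · rintro ⟨x, hx⟩
    apply Subtype.ext
    show m * (m⁻¹ * x * m) * m⁻¹ = x
    group
  · rintro ⟨x, hx⟩
    apply Subtype.ext
    show m⁻¹ * (m * x * m⁻¹) * m = x
    group

end decomp

section main

variable [Finite G]

/-- **Main theorem.** -/
theorem not_simple (S : Sylow 2 G) (Q R : Subgroup G) (hQR : IsInternalDirectProduct Q R (S : Subgroup G))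
    (n : ℕ) (hn : 1 ≤ n) (eQ : Q ≃* QuaternionGroup (2 ^ n))
    (hR : ∀ r ∈ R, orderOf r = 2 → ∀ s ∈ R, r * s = s * r) : ¬ IsSimpleGroup G := by
  classical
  haveI : Fact (Nat.Prime 2) := ⟨Nat.prime_two⟩
  intro hsimple
  set H := 2 ^ n with hH
  haveI hH0 : NeZero H := ⟨by positivity⟩
  have hH2 : 2 ≤ H := by
    rw [hH]
    calc 2 = 2 ^ 1 := rfl
      _ ≤ 2 ^ n := Nat.pow_le_pow_right (by norm_num) hn
  obtain ⟨hQS, hRS, hc, hd, he⟩ := id hQR
  -- the central involution of `Q`
  let z' : QuaternionGroup H := QuaternionGroup.a (H : ZMod (2 * H))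
  have hz'z' : z' * z' = 1 := by
    show QuaternionGroup.a (H : ZMod (2 * H)) * QuaternionGroup.a (H : ZMod (2 * H)) = 1
    rw [QuaternionGroup.a_mul_a, QuaternionGroup.one_def]
    congr 1
    have : ((H + H : ℕ) : ZMod (2 * H)) = 0 := by
      rw [ZMod.natCast_eq_zero_iff]
      exact ⟨1, by ring⟩
    exact_mod_cast this
  have hz'1 : z' ≠ 1 := by
    intro e
    have e1 : (H : ZMod (2 * H)) = 0 := by
      have := congrArg (fun k : QuaternionGroup H => k) e
      rw [QuaternionGroup.one_def] at this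
      exact QuaternionGroup.a.inj this
    exact Cfsg.Agent.Lib.Quaternion.natCast_ne_zero_zmod H e1
  let zQ : Q := eQ.symm z'
  let z : G := zQ
  have hzQ : z ∈ Q := zQ.2
  have hzz : z * z = 1 := by
    have : zQ * zQ = 1 := by
      show eQ.symm z' * eQ.symm z' = 1
      rw [← map_mul, hz'z', map_one]
    exact congrArg Subtype.val this
  have hz1 : z ≠ 1 := by
    intro e
    have e1 : zQ = 1 := Subtype.ext e
    have e2 : eQ zQ = 1 := by rw [e1, map_one]
    have e3 : eQ zQ = z' := eQ.apply_symm_apply z'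
    exact hz'1 (e3.symm.trans e2)
  have hzR : z ∉ R := by
    intro h
    have : z ∈ Q ⊓ R := ⟨hzQ, h⟩
    rw [hd, Subgroup.mem_bot] at this
    exact hz1 this
  have hQinv : ∀ a ∈ Q, a * a = 1 → a = 1 ∨ a = z := by
    intro a ha haa
    by_cases ha1 : a = 1
    · exact Or.inl ha1
    right
    let a' : Q := ⟨a, ha⟩
    have h1 : eQ a' * eQ a' = 1 := by
      rw [← map_mul]
      have : a' * a' = 1 := Subtype.ext haa
      rw [this, map_one]
    have h2 : eQ a' ≠ 1 := by
      intro e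
      have : a' = 1 := eQ.injective (by rw [e, map_one])
      exact ha1 (congrArg Subtype.val this)
    have h3 := Cfsg.Agent.Lib.Quaternion.q_invol H _ h1 h2
    have h4 : a' = zQ := eQ.injective (by rw [h3]; exact (eQ.apply_symm_apply z').symm)
    exact congrArg Subtype.val h4
  have hzcen : ∀ a ∈ Q, a * z = z * a := by
    intro a ha
    let a' : Q := ⟨a, ha⟩
    have h1 := Cfsg.Agent.Lib.Quaternion.q_involution_central H (eQ a')
    have h2 : a' * zQ = zQ * a' := by
      apply eQ.injective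
      rw [map_mul, map_mul]
      have e3 : eQ zQ = z' := eQ.apply_symm_apply z'
      rw [e3]
      exact h1.symm
    exact congrArg Subtype.val h2
  -- involutions of `S` are central in `S`
  have hinv : ∀ v ∈ (S : Subgroup G), v * v = 1 → ∃ a ∈ Q, ∃ b ∈ R, v = a * b ∧ (a = 1 ∨ a = z) ∧ b * b = 1 := by
    intro v hv hvv
    obtain ⟨a, ha, b, hb, rfl⟩ := exists_decomp hQR hv
    have e1 : (a * a) * (b * b) = 1 * 1 := by
      rw [mul_one, ← hvv]
      calc a * a * (b * b) = a * (a * b) * b := by group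
        _ = a * (b * a) * b := by rw [hc a ha b hb]
        _ = a * b * (a * b) := by group
    obtain ⟨e2, e3⟩ := decomp_unique hQR (Q.mul_mem ha ha) Q.one_mem (R.mul_mem hb hb) R.one_mem e1
    exact ⟨a, ha, b, hb, rfl, hQinv a ha e2, e3⟩
  have hRcen : ∀ b ∈ R, b * b = 1 → ∀ s ∈ R, b * s = s * b := by
    intro b hb hbb s hs
    by_cases hb1 : b = 1
    · rw [hb1, one_mul, mul_one]
    · exact hR b hb (orderOf_eq_prime (by rw [pow_two]; exact hbb) hb1) s hs
  have hcen : ∀ v ∈ (S : Subgroup G), v * v = 1 → ∀ s ∈ (S : Subgroup G), s * v = v * s := by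
    intro v hv hvv s hs
    obtain ⟨a, ha, b, hb, rfl, ha1, hbb⟩ := hinv v hv hvv
    obtain ⟨a', ha', b', hb', rfl⟩ := exists_decomp hQR hs
    have h1 : a' * a = a * a' := by
      rcases ha1 with rfl | rfl
      · rw [one_mul, mul_one]
      · exact hzcen a' ha'
    have h2 : b' * b = b * b' := (hRcen b hb hbb b' hb').symm
    calc a' * b' * (a * b) = a' * (b' * a) * b := by group
      _ = a' * (a * b') * b := by rw [hc a ha b' hb']
      _ = (a' * a) * (b' * b) := by group
      _ = (a * a') * (b * b') := by rw [h1, h2]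
      _ = a * (a' * b) * b' := by group
      _ = a * (b * a') * b' := by rw [hc a' ha' b hb]
      _ = a * b * (a' * b') := by group
  -- the subgroup of involutions
  let V : Subgroup G :=
    { carrier := {v | v ∈ (S : Subgroup G) ∧ v * v = 1}
      mul_mem' := by
        rintro v w ⟨hv, hvv⟩ ⟨hw, hww⟩
        refine ⟨(S : Subgroup G).mul_mem hv hw, ?_⟩
        calc v * w * (v * w) = v * (w * v) * w := by group
          _ = v * (v * w) * w := by rw [hcen v hv hvv w hw]
          _ = (v * v) * (w * w) := by group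
          _ = 1 := by rw [hvv, hww, one_mul]
      one_mem' := ⟨(S : Subgroup G).one_mem, by simp⟩
      inv_mem' := by
        rintro v ⟨hv, hvv⟩
        refine ⟨(S : Subgroup G).inv_mem hv, ?_⟩
        have : v⁻¹ = v := inv_eq_of_mul_eq_one_left hvv
        rw [this]
        exact hvv }
  have hVS : ∀ v ∈ V, v ∈ (S : Subgroup G) := fun v hv => hv.1
  have hVV : ∀ v ∈ V, v * v = 1 := fun v hv => hv.2
  -- the counting function
  have hQ1 : nroots Q 1 ≤ 2 := by
    unfold nroots
    have h1 : {x : G | x ∈ Q ∧ x * x = 1} ⊆ ({1, z} : Set G) := by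
      rintro x ⟨hx, hxx⟩
      rcases hQinv x hx hxx with rfl | rfl
      · simp
      · simp
    have h2 := Set.ncard_le_ncard h1 (Set.toFinite _)
    have h3 : ({1, z} : Set G).ncard = 2 := Set.ncard_pair hz1.symm
    rw [h3] at h2
    rw [show Nat.card {x : G // x ∈ Q ∧ x * x = 1} = ({x : G | x ∈ Q ∧ x * x = 1} : Set G).ncard from
      Nat.card_coe_set_eq _]
    exact h2
  have hQz : 4 ≤ nroots Q z := by
    unfold nroots
    have h1 : ∀ i : ZMod (2 * H), ((eQ.symm (QuaternionGroup.xa i) : Q) : G) * ((eQ.symm (QuaternionGroup.xa i) : Q) : G) = z := by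
      intro i
      have : (eQ.symm (QuaternionGroup.xa i) : Q) * (eQ.symm (QuaternionGroup.xa i) : Q) = zQ := by
        rw [← map_mul, QuaternionGroup.xa_mul_xa]
        show eQ.symm _ = eQ.symm z'
        congr 1
        show QuaternionGroup.a _ = QuaternionGroup.a _
        congr 1
        ring
      exact congrArg Subtype.val this
    let F : ZMod (2 * H) → {x : G // x ∈ Q ∧ x * x = z} := fun i => ⟨_, (eQ.symm (QuaternionGroup.xa i)).2, h1 i⟩
    have hF : Function.Injective F := by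
      intro i j e
      have e0 : ((F i : {x : G // x ∈ Q ∧ x * x = z}) : G) = (F j : {x : G // x ∈ Q ∧ x * x = z}) := congrArg Subtype.val e
      have e1 : (eQ.symm (QuaternionGroup.xa i) : Q) = eQ.symm (QuaternionGroup.xa j) :=
        Subtype.ext e0
      have e2 := eQ.symm.injective e1
      exact QuaternionGroup.xa.inj e2
    have h2 := Nat.card_le_card_of_injective F hF
    rw [Nat.card_zmod] at h2
    omega
  set N : Subgroup G := Subgroup.normalizer ((S : Subgroup G) : Set G) with hN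
  have hNV : ∀ m ∈ N, ∀ v ∈ V, m * v * m⁻¹ ∈ V := by
    intro m hm v hv
    refine ⟨(Subgroup.mem_normalizer_iff.1 hm v).1 hv.1, ?_⟩
    calc m * v * m⁻¹ * (m * v * m⁻¹) = m * (v * v) * m⁻¹ := by group
      _ = 1 := by rw [hv.2]; group
  obtain ⟨p, hpV, hpmax⟩ := Set.exists_max_image (V : Set G) (nroots (S : Subgroup G)) (Set.toFinite _)
    ⟨1, V.one_mem⟩
  -- maximal elements lie in the coset `z R`
  have hmax : ∀ v ∈ V, (∀ w ∈ V, nroots (S : Subgroup G) w ≤ nroots (S : Subgroup G) v) → ∃ b ∈ R, v = z * b := by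
    intro v hv hvmax
    obtain ⟨a, ha, b, hb, rfl, ha1, hbb⟩ := hinv v hv.1 hv.2
    rcases ha1 with rfl | rfl
    · exfalso
      have hzb : z * b ∈ V := by
        refine ⟨(S : Subgroup G).mul_mem (hQS hzQ) (hRS hb), ?_⟩
        calc z * b * (z * b) = z * (b * z) * b := by group
          _ = z * (z * b) * b := by rw [hc z hzQ b hb]
          _ = (z * z) * (b * b) := by group
          _ = 1 := by rw [hzz, hbb, one_mul]
      have h1 := hvmax _ hzb
      rw [nroots_mul hQR hzQ hb, nroots_mul hQR Q.one_mem hb] at h1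
      have h2 := hvmax 1 V.one_mem
      have h3 : 0 < nroots (S : Subgroup G) 1 := by
        unfold nroots
        haveI : Nonempty {x : G // x ∈ (S : Subgroup G) ∧ x * x = 1} := ⟨⟨1, (S : Subgroup G).one_mem, by simp⟩⟩
        exact Nat.card_pos
      rw [nroots_mul hQR Q.one_mem hb] at h2
      have h4 : 0 < nroots R b := by
        rcases Nat.eq_zero_or_pos (nroots R b) with h5 | h5
        · rw [h5, mul_zero] at h2
          omega
        · exact h5
      nlinarith
    · exact ⟨b, hb, rfl⟩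
  -- the norm of `p`
  haveI hVcomm : IsMulCommutative V := by
    constructor
    constructor
    rintro ⟨v, hv⟩ ⟨w, hw⟩
    apply Subtype.ext
    exact hcen w hw.1 hw.2 v hv.1
  letI : CommGroup V := { (inferInstance : Group V) with mul_comm := fun a b => mul_comm' a b }
  have hSN : (S : Subgroup G) ≤ N := Subgroup.le_normalizer
  let S' : Subgroup N := (S : Subgroup G).subgroupOf N
  let X := N ⧸ S'
  letI : Fintype X := Fintype.ofFinite X
  let f : X → V := fun c => ⟨((c : X).out : G) * p * ((c : X).out : G)⁻¹, hNV _ (c : X).out.2 p hpV⟩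
  have hf : ∀ a : N, ((f (a : X) : V) : G) = (a : G) * p * (a : G)⁻¹ := by
    intro a
    obtain ⟨s, hs⟩ := QuotientGroup.mk_out_eq_mul S' a
    show (((a : X).out : N) : G) * p * (((a : X).out : N) : G)⁻¹ = _
    have hs2 : (((a : X).out : N) : G) = (a : G) * ((s : N) : G) := by
      rw [hs]
      rfl
    rw [hs2]
    have hs' : ((s : N) : G) ∈ (S : Subgroup G) := s.2
    have h1 := hcen p hpV.1 hpV.2 _ hs'
    calc (a : G) * ((s : N) : G) * p * ((a : G) * ((s : N) : G))⁻¹
        = (a : G) * (((s : N) : G) * p) * ((s : N) : G)⁻¹ * (a : G)⁻¹ := by group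
      _ = (a : G) * (p * ((s : N) : G)) * ((s : N) : G)⁻¹ * (a : G)⁻¹ := by rw [h1]
      _ = (a : G) * p * (a : G)⁻¹ := by group
  let conjV : N → (V →* V) := fun m =>
    { toFun := fun v => ⟨(m : G) * v * (m : G)⁻¹, hNV m m.2 v v.2⟩
      map_one' := Subtype.ext (by simp)
      map_mul' := fun a b => Subtype.ext (by
        show (m : G) * ((a : G) * (b : G)) * (m : G)⁻¹ = (m : G) * a * (m : G)⁻¹ * ((m : G) * b * (m : G)⁻¹)
        group) }
  have hfix : ∀ m : N, conjV m (∏ c, f c) = ∏ c, f c := by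
    intro m
    rw [map_prod]
    have h1 : ∀ c, conjV m (f c) = f (m • c) := by
      intro c
      induction c using QuotientGroup.induction_on with
      | H a =>
        apply Subtype.ext
        have e1 : m • (a : X) = ((m * a : N) : X) := rfl
        rw [e1, hf]
        show (m : G) * ((f (a : X) : V) : G) * (m : G)⁻¹ = _
        rw [hf]
        show _ = (m : G) * (a : G) * p * ((m : G) * (a : G))⁻¹
        group
    simp only [h1]
    exact Equiv.prod_comp (MulAction.toPerm m) f
  have hfz : ∀ c, ∃ b ∈ R, ((f c : V) : G) = z * b := by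
    intro c
    induction c using QuotientGroup.induction_on with
    | H a =>
      rw [hf]
      apply hmax _ (hNV a a.2 p hpV)
      intro w hw
      rw [nroots_conj a.2]
      exact hpmax w hw
  have hprod : ∀ F : Finset X, ∃ r ∈ R, ((∏ c ∈ F, f c : V) : G) = z ^ F.card * r := by
    intro F
    induction F using Finset.induction_on with
    | empty => exact ⟨1, R.one_mem, by simp⟩
    | insert c F hc' ih =>
      obtain ⟨r, hr, e⟩ := ih
      rw [Finset.prod_insert hc', Finset.card_insert_of_notMem hc']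
      obtain ⟨b, hb, e2⟩ := hfz c
      refine ⟨b * r, R.mul_mem hb hr, ?_⟩
      show ((f c : V) : G) * ((∏ c ∈ F, f c : V) : G) = _
      rw [e2, e, pow_succ']
      have h1 : Commute z b := hc z hzQ b hb
      have h2 : Commute (z ^ F.card) b := h1.pow_left _
      calc z * b * (z ^ F.card * r) = z * (b * z ^ F.card) * r := by group
        _ = z * (z ^ F.card * b) * r := by rw [h2.eq]
        _ = z * z ^ F.card * (b * r) := by group
  have hodd : Odd (Fintype.card X) := by
    rw [← Nat.card_eq_fintype_card, ← Nat.not_even_iff_odd, even_iff_two_dvd]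
    intro h2
    have h3 : Nat.card X = (S : Subgroup G).relIndex N := rfl
    rw [h3] at h2
    exact S.not_dvd_index (h2.trans (Subgroup.relIndex_dvd_index_of_le hSN))
  set u : V := ∏ c, f c with hu
  obtain ⟨r, hr, hur⟩ := hprod Finset.univ
  rw [Finset.card_univ] at hur
  obtain ⟨k, hk⟩ := hodd
  have hzk : z ^ Fintype.card X = z := by
    rw [hk, pow_succ, pow_mul, pow_two, hzz, one_pow, one_mul]
  rw [hzk] at hur
  have hu1 : (u : G) ≠ 1 := by
    intro e
    rw [← hu] at hur
    rw [e] at hur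
    have h5 : z = r⁻¹ := eq_inv_of_mul_eq_one_left hur.symm
    exact hzR (h5 ▸ R.inv_mem hr)
  have hufix : ∀ m ∈ N, m * (u : G) * m⁻¹ = u := by
    intro m hm
    have := hfix ⟨m, hm⟩
    exact congrArg Subtype.val this
  have huS : (u : G) ∈ (S : Subgroup G) := (u : V).2.1
  have huu : (u : G) * u = 1 := (u : V).2.2
  have huo : orderOf (u : G) = 2 := orderOf_eq_prime (by rw [pow_two]; exact huu) hu1
  have hiso : ∀ g : G, g * (u : G) * g⁻¹ ∈ (S : Subgroup G) → g * (u : G) * g⁻¹ = u := by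
    intro g hg
    have h2 : (g * (u : G) * g⁻¹) * (g * (u : G) * g⁻¹) = 1 := by
      calc (g * (u : G) * g⁻¹) * (g * (u : G) * g⁻¹) = g * ((u : G) * u) * g⁻¹ := by group
        _ = 1 := by rw [huu]; group
    obtain ⟨m, hm, e⟩ := burnside_conj S g (hcen _ huS huu) (hcen _ hg h2)
    rw [← e, hufix m hm]
  obtain ⟨N₀, hN₀n, hN₀o, hN₀⟩ := Cfsg.Agent.Lib.ZStar.zstar (u : G)
    (Cfsg.Agent.Lib.ZStar.iso_of_isolated (Cfsg.Agent.Lib.ZStar.isolated_of_sylow S _ huo huS hiso))
  rcases hsimple.eq_bot_or_eq_top_of_normal N₀ hN₀n with h | h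
  · -- `u` is central
    have hucen : (u : G) ∈ Subgroup.center G := by
      rw [Subgroup.mem_center_iff]
      intro g
      have h3 := hN₀ g
      rw [h, Subgroup.mem_bot] at h3
      have h4 : (u : G) * g * (u : G)⁻¹ = g := mul_inv_eq_one.1 h3
      calc g * (u : G) = ((u : G) * g * (u : G)⁻¹) * u := by rw [h4]
        _ = (u : G) * g := by group
    have hZ : Subgroup.center G = ⊤ := by
      rcases hsimple.eq_bot_or_eq_top_of_normal (Subgroup.center G) inferInstance with h5 | h5
      · rw [h5, Subgroup.mem_bot] at hucen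
        exact absurd hucen hu1
      · exact h5
    apply Cfsg.Agent.Lib.Quaternion.q_noncomm H hH2
    intro g k
    have h6 : ((eQ.symm g : Q) : G) * ((eQ.symm k : Q) : G) = ((eQ.symm k : Q) : G) * ((eQ.symm g : Q) : G) := by
      have : ((eQ.symm g : Q) : G) ∈ Subgroup.center G := by rw [hZ]; exact Subgroup.mem_top _
      exact ((Subgroup.mem_center_iff.1 this) _).symm
    have h7 : (eQ.symm g : Q) * eQ.symm k = eQ.symm k * eQ.symm g := Subtype.ext h6
    apply eQ.symm.injective
    rw [map_mul, map_mul, h7]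
  · rw [h] at hN₀o
    have h8 : Odd (Nat.card G) := by
      have : Nat.card (⊤ : Subgroup G) = Nat.card G := Subgroup.card_top
      rwa [this] at hN₀o
    have h9 : orderOf (u : G) ∣ Nat.card G := orderOf_dvd_natCard _
    rw [huo] at h9
    exact (Nat.not_even_iff_odd.2 h8) (even_iff_two_dvd.2 h9)

end main

end Cfsg.Agent.Lib.QuatTimes
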