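import Mathlib
import Cfsg.Agent.Lib.CrossChar

/-! `SL_n(F)` acting on non-zero vectors and on independent pairs: counting. -/

set_option autoImplicit false
set_option linter.style.haveILetI false
set_option linter.unusedSectionVars false

namespace Cfsg.Agent.Lib.SLVec

open Matrix

section count
variable {G X : Type*} [Group G] [Fintype G] [Fintype X]

theorem fiber_count [DecidableEq X] (act : G → X → X) (hone : ∀ x, act 1 x = x)
    (hmul : ∀ g h x, act (g * h) x = act g (act h x))
    (htrans : ∀ x y, ∃ g, act g x = y) (x y : X) :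
    Fintype.card X * Fintype.card {g : G // act g x = y} = Fintype.card G := by
  classical
  have h1 : ∀ z, Fintype.card {g : G // act g x = z} = Fintype.card {g : G // act g x = y} := by
    intro z
    obtain ⟨t, ht⟩ := htrans y z
    have ht' : act t⁻¹ z = y := by
      rw [← ht, ← hmul, inv_mul_cancel, hone]
    refine Fintype.card_congr
      { toFun := fun g => ⟨t⁻¹ * g.1, by rw [hmul, g.2, ht']⟩
        invFun := fun g => ⟨t * g.1, by rw [hmul, g.2, ht]⟩
        left_inv := fun g => Subtype.ext (by simp)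
        right_inv := fun g => Subtype.ext (by simp) }
  rw [Fintype.card_congr (Equiv.sigmaFiberEquiv (fun g : G => act g x)).symm, Fintype.card_sigma]
  simp only [h1]
  simp

theorem fiber_count_complex [DecidableEq X] (act : G → X → X) (hone : ∀ x, act 1 x = x)
    (hmul : ∀ g h x, act (g * h) x = act g (act h x))
    (htrans : ∀ x y, ∃ g, act g x = y) (x y : X) :
    ((Fintype.card {g : G // act g x = y} : ℕ) : ℂ) = (Fintype.card G : ℂ) / (Fintype.card X : ℂ) := by
  have h := fiber_count act hone hmul htrans x y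
  have hX : (Fintype.card X : ℂ) ≠ 0 := by
    haveI : Nonempty X := ⟨x⟩
    exact_mod_cast Fintype.card_ne_zero
  rw [eq_div_iff hX, mul_comm]
  exact_mod_cast h

end count

variable {F : Type*} [Field F] [Fintype F] {n : ℕ}

/-- Non-zero vectors. -/
abbrev Om (F : Type*) [Field F] (n : ℕ) := {v : Fin n → F // v ≠ 0}

/-- The group. -/
abbrev SS (F : Type*) [Field F] (n : ℕ) := Matrix.SpecialLinearGroup (Fin n) F

theorem mv_inj (g : SS F n) {v w : Fin n → F} (h : (g : Matrix (Fin n) (Fin n) F) *ᵥ v = (g : Matrix (Fin n) (Fin n) F) *ᵥ w) :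
    v = w := by
  have h1 := congrArg (fun u => ((g⁻¹ : SS F n) : Matrix (Fin n) (Fin n) F) *ᵥ u) h
  simp only [Matrix.mulVec_mulVec, ← Matrix.SpecialLinearGroup.coe_mul, inv_mul_cancel,
    Matrix.SpecialLinearGroup.coe_one, Matrix.one_mulVec] at h1
  exact h1

/-- The action on non-zero vectors. -/
noncomputable def actOm (g : SS F n) (v : Om F n) : Om F n :=
  ⟨(g : Matrix (Fin n) (Fin n) F) *ᵥ v.1, fun h => v.2 (mv_inj g (by rw [h, Matrix.mulVec_zero]))⟩

theorem actOm_one (v : Om F n) : actOm 1 v = v := Subtype.ext (by simp [actOm])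
theorem actOm_mul (g h : SS F n) (v : Om F n) : actOm (g * h) v = actOm g (actOm h v) :=
  Subtype.ext (by simp [actOm, Matrix.mulVec_mulVec])

theorem actOm_trans (hn : 2 ≤ n) (v w : Om F n) : ∃ g, actOm g v = w := by
  obtain ⟨g, hg⟩ := Cfsg.Agent.Lib.CrossChar.sl_transitive (ι := Fin n) (F := F) (by simpa using hn) v.2 w.2
  exact ⟨g, Subtype.ext hg⟩

/-- Independent pairs of non-zero vectors. -/
abbrev Ip (F : Type*) [Field F] (n : ℕ) := {p : Om F n × Om F n // ∀ a : F, p.2.1 ≠ a • p.1.1}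

/-- The action on independent pairs. -/
noncomputable def actIp (g : SS F n) (p : Ip F n) : Ip F n :=
  ⟨(actOm g p.1.1, actOm g p.1.2), fun a h => p.2 a (mv_inj g (by
    have h' : (g : Matrix (Fin n) (Fin n) F) *ᵥ p.1.2.1 = a • (g : Matrix (Fin n) (Fin n) F) *ᵥ p.1.1.1 := h
    rw [h', Matrix.mulVec_smul]))⟩

theorem actIp_one (p : Ip F n) : actIp 1 p = p :=
  Subtype.ext (Prod.ext (actOm_one _) (actOm_one _))
theorem actIp_mul (g h : SS F n) (p : Ip F n) : actIp (g * h) p = actIp g (actIp h p) :=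
  Subtype.ext (Prod.ext (actOm_mul _ _ _) (actOm_mul _ _ _))

theorem exists_pair_image (hn : 3 ≤ n) (p : Ip F n) :
    ∃ g : SS F n, ((g : Matrix (Fin n) (Fin n) F) *ᵥ Pi.single ⟨0, by omega⟩ 1 = p.1.1.1) ∧
      ((g : Matrix (Fin n) (Fin n) F) *ᵥ Pi.single ⟨1, by omega⟩ 1 = p.1.2.1) := by
  classical
  obtain ⟨⟨⟨v, hv⟩, ⟨w, hw⟩⟩, hp⟩ := p
  simp only at hp ⊢
  have hli : LinearIndependent F ![v, w] := by
    rw [LinearIndependent.pair_iff' hv]
    exact fun a h => hp a h.symm
  let B := Module.Basis.sumExtend hli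
  have hcard : Fintype.card (Fin 2 ⊕ Module.Basis.sumExtendIndex hli) = n := by
    have := Module.finrank_eq_card_basis B
    simpa using this.symm
  have hBl : ∀ i, B (Sum.inl i) = ![v, w] i := by
    intro i
    simp only [B, Module.Basis.sumExtend, Module.Basis.reindex_apply]
    simp only [Module.Basis.extend_apply_self, Equiv.symm_symm, Equiv.trans_apply, Equiv.sumCongr_apply, Sum.map_inl,
      Equiv.Set.sumDiffSubset_apply_inl]
    rfl
  rw [Fintype.card_sum, Fintype.card_fin] at hcard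
  let e : Module.Basis.sumExtendIndex hli ≃ Fin (n - 2) := Fintype.equivFinOfCardEq (by omega)
  have h2 : 2 + (n - 2) = n := by omega
  let φ : Fin 2 ⊕ Module.Basis.sumExtendIndex hli ≃ Fin n :=
    (Equiv.sumCongr (Equiv.refl _) e).trans (finSumFinEquiv.trans (finCongr h2))
  have hφ0 : φ (Sum.inl 0) = ⟨0, by omega⟩ := by
    apply Fin.ext
    simp [φ]
  have hφ1 : φ (Sum.inl 1) = ⟨1, by omega⟩ := by
    apply Fin.ext
    simp [φ]
  let B' := B.reindex φ
  have hB0 : B' ⟨0, by omega⟩ = v := by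
    rw [← hφ0]
    simp only [B', Module.Basis.reindex_apply, Equiv.symm_apply_apply]
    rw [hBl]
    rfl
  have hB1 : B' ⟨1, by omega⟩ = w := by
    rw [← hφ1]
    simp only [B', Module.Basis.reindex_apply, Equiv.symm_apply_apply]
    rw [hBl]
    rfl
  let M : Matrix (Fin n) (Fin n) F := Matrix.of fun i j => B' j i
  have hM : LinearIndependent F M.col := by
    have := B'.linearIndependent
    exact this
  have hu := (Matrix.linearIndependent_cols_iff_isUnit.1 hM)
  have hd : M.det ≠ 0 := ((Matrix.isUnit_iff_isUnit_det _).1 hu).ne_zero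
  let D : Fin n → F := Function.update 1 ⟨2, by omega⟩ (M.det)⁻¹
  have hD0 : D ⟨0, by omega⟩ = 1 := by
    simp [D, Function.update_apply]
  have hD1 : D ⟨1, by omega⟩ = 1 := by
    simp [D, Function.update_apply]
  have hDp : ∏ i, D i = (M.det)⁻¹ := by
    simp only [D]
    rw [Finset.prod_update_of_mem (Finset.mem_univ _)]
    simp
  let M' : Matrix (Fin n) (Fin n) F := M * Matrix.diagonal D
  have hdet : M'.det = 1 := by
    rw [Matrix.det_mul, Matrix.det_diagonal, hDp, mul_inv_cancel₀ hd]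
  refine ⟨⟨M', hdet⟩, ?_, ?_⟩
  · funext i
    change (M' *ᵥ Pi.single _ 1) i = v i
    rw [Matrix.mulVec_single_one]
    change (M * Matrix.diagonal D) i _ = v i
    rw [Matrix.mul_diagonal, hD0, mul_one, ← hB0]
    rfl
  · funext i
    change (M' *ᵥ Pi.single _ 1) i = w i
    rw [Matrix.mulVec_single_one]
    change (M * Matrix.diagonal D) i _ = w i
    rw [Matrix.mul_diagonal, hD1, mul_one, ← hB1]
    rfl

theorem e0_ne (hn : 3 ≤ n) : (Pi.single ⟨0, by omega⟩ 1 : Fin n → F) ≠ 0 := by
  intro h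
  have := congrFun h ⟨0, by omega⟩
  simp at this

theorem e1_ne (hn : 3 ≤ n) : (Pi.single ⟨1, by omega⟩ 1 : Fin n → F) ≠ 0 := by
  intro h
  have := congrFun h ⟨1, by omega⟩
  simp at this

/-- The standard pair. -/
noncomputable def stdP (hn : 3 ≤ n) : Ip F n :=
  ⟨(⟨_, e0_ne hn⟩, ⟨_, e1_ne hn⟩), by
    intro a h
    have := congrFun h ⟨1, by omega⟩
    simp at this⟩

theorem actIp_trans (hn : 3 ≤ n) (p q : Ip F n) : ∃ g, actIp g p = q := by
  obtain ⟨g₁, h₁, h₂⟩ := exists_pair_image hn p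
  obtain ⟨g₃, h₃, h₄⟩ := exists_pair_image hn q
  refine ⟨g₃ * g₁⁻¹, ?_⟩
  have e1 : (((g₁⁻¹ : SS F n) : Matrix (Fin n) (Fin n) F)) *ᵥ p.1.1.1 = Pi.single ⟨0, by omega⟩ 1 := by
    rw [← h₁, Matrix.mulVec_mulVec, ← Matrix.SpecialLinearGroup.coe_mul, inv_mul_cancel,
      Matrix.SpecialLinearGroup.coe_one, Matrix.one_mulVec]
  have e2 : (((g₁⁻¹ : SS F n) : Matrix (Fin n) (Fin n) F)) *ᵥ p.1.2.1 = Pi.single ⟨1, by omega⟩ 1 := by
    rw [← h₂, Matrix.mulVec_mulVec, ← Matrix.SpecialLinearGroup.coe_mul, inv_mul_cancel,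
      Matrix.SpecialLinearGroup.coe_one, Matrix.one_mulVec]
  apply Subtype.ext
  apply Prod.ext
  · apply Subtype.ext
    change ((g₃ * g₁⁻¹ : SS F n) : Matrix (Fin n) (Fin n) F) *ᵥ p.1.1.1 = q.1.1.1
    rw [Matrix.SpecialLinearGroup.coe_mul, ← Matrix.mulVec_mulVec, e1, h₃]
  · apply Subtype.ext
    change ((g₃ * g₁⁻¹ : SS F n) : Matrix (Fin n) (Fin n) F) *ᵥ p.1.2.1 = q.1.2.1
    rw [Matrix.SpecialLinearGroup.coe_mul, ← Matrix.mulVec_mulVec, e2, h₄]

section sums

variable [DecidableEq F] [Fintype (SS F n)]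

open Classical in
/-- The number of non-zero vectors with `g v = c v`. -/
noncomputable def NN (c : F) (g : SS F n) : ℂ :=
  ∑ v : Om F n, if (g : Matrix (Fin n) (Fin n) F) *ᵥ v.1 = c • v.1 then 1 else 0

/-- Scaling by a unit. -/
def sc (c : Fˣ) (v : Om F n) : Om F n := ⟨(c : F) • v.1, smul_ne_zero c.ne_zero v.2⟩

omit [DecidableEq F] in
theorem sum_if_eq_card (P : SS F n → Prop) [DecidablePred P] :
    (∑ g : SS F n, (if P g then (1 : ℂ) else 0)) = ((Fintype.card {g : SS F n // P g} : ℕ) : ℂ) := by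
  rw [Finset.sum_boole, Fintype.card_subtype]

open Classical in
theorem count_om (hn : 2 ≤ n) (v w : Om F n) :
    (∑ g : SS F n, if (g : Matrix (Fin n) (Fin n) F) *ᵥ v.1 = w.1 then (1 : ℂ) else 0) =
      (Fintype.card (SS F n) : ℂ) / (Fintype.card (Om F n) : ℂ) := by
  rw [sum_if_eq_card, ← fiber_count_complex actOm actOm_one actOm_mul (actOm_trans hn) v w]
  congr 1
  exact Fintype.card_congr (Equiv.subtypeEquivRight fun g => by
    rw [Subtype.ext_iff]
    rfl)

omit [DecidableEq F] in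
theorem card_om_ne (hn : 2 ≤ n) [Fintype (Om F n)] : (Fintype.card (Om F n) : ℂ) ≠ 0 := by
  haveI : Nonempty (Om F n) := ⟨⟨Pi.single ⟨0, by omega⟩ 1, by
    intro h
    have := congrFun h ⟨0, by omega⟩
    simp at this⟩⟩
  exact_mod_cast Fintype.card_ne_zero

theorem sum_NN (hn : 2 ≤ n) (c : Fˣ) : ∑ g : SS F n, NN (c : F) g = (Fintype.card (SS F n) : ℂ) := by
  classical
  simp only [NN]
  rw [Finset.sum_comm]
  have h1 : ∀ v : Om F n, (∑ g : SS F n, if (g : Matrix (Fin n) (Fin n) F) *ᵥ v.1 = (c : F) • v.1 then (1 : ℂ) else 0) =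
      (Fintype.card (SS F n) : ℂ) / (Fintype.card (Om F n) : ℂ) := fun v => by
    have := count_om hn v (sc c v)
    convert this using 3
    exact Iff.rfl
  simp only [h1, Finset.sum_const, Finset.card_univ, nsmul_eq_mul]
  exact mul_div_cancel₀ _ (card_om_ne (F := F) hn)

theorem sum_NN2 (hn : 3 ≤ n) (c d : Fˣ) :
    ∑ g : SS F n, NN (c : F) g * NN (d : F) g =
      (Fintype.card (SS F n) : ℂ) * (1 + if c = d then (Fintype.card Fˣ : ℂ) else 0) := by
  classical
  have hn2 : 2 ≤ n := by omega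
  let f : Om F n × Om F n → ℂ := fun p => ∑ g : SS F n,
    if ((g : Matrix (Fin n) (Fin n) F) *ᵥ p.1.1 = (c : F) • p.1.1 ∧ (g : Matrix (Fin n) (Fin n) F) *ᵥ p.2.1 = (d : F) • p.2.1)
      then (1 : ℂ) else 0
  have h1 : ∑ g : SS F n, NN (c : F) g * NN (d : F) g = ∑ p, f p := by
    calc ∑ g : SS F n, NN (c : F) g * NN (d : F) g
        = ∑ g : SS F n, ∑ p : Om F n × Om F n,
            (if (g : Matrix (Fin n) (Fin n) F) *ᵥ p.1.1 = (c : F) • p.1.1 then (1 : ℂ) else 0) *
            (if (g : Matrix (Fin n) (Fin n) F) *ᵥ p.2.1 = (d : F) • p.2.1 then (1 : ℂ) else 0) := by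
          apply Finset.sum_congr rfl
          intro g _
          simp only [NN]
          rw [Finset.sum_mul_sum, ← Finset.univ_product_univ, Finset.sum_product]
      _ = ∑ p : Om F n × Om F n, ∑ g : SS F n,
            (if (g : Matrix (Fin n) (Fin n) F) *ᵥ p.1.1 = (c : F) • p.1.1 then (1 : ℂ) else 0) *
            (if (g : Matrix (Fin n) (Fin n) F) *ᵥ p.2.1 = (d : F) • p.2.1 then (1 : ℂ) else 0) := Finset.sum_comm
      _ = ∑ p, f p := by
          apply Finset.sum_congr rfl
          intro p _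
          apply Finset.sum_congr rfl
          intro g _
          split_ifs <;> simp_all
  rw [h1, ← Fintype.sum_subtype_add_sum_subtype (fun p : Om F n × Om F n => ∀ a : F, p.2.1 ≠ a • p.1.1) f]
  -- independent pairs
  have hI : ∑ p : Ip F n, f p.1 = (Fintype.card (SS F n) : ℂ) := by
    have hτ : ∀ p : Ip F n, f p.1 = (Fintype.card (SS F n) : ℂ) / (Fintype.card (Ip F n) : ℂ) := by
      intro p
      let τ : Ip F n := ⟨(sc c p.1.1, sc d p.1.2), by
        intro a h
        apply p.2 ((d : F)⁻¹ * a * c)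
        have h' : (d : F) • p.1.2.1 = a • (c : F) • p.1.1.1 := h
        rw [mul_smul, mul_smul, ← h', smul_smul, inv_mul_cancel₀ d.ne_zero, one_smul]⟩
      rw [← fiber_count_complex actIp actIp_one actIp_mul (actIp_trans hn) p τ]
      simp only [f]
      rw [sum_if_eq_card]
      congr 1
      exact Fintype.card_congr (Equiv.subtypeEquivRight fun g => by
        rw [Subtype.ext_iff, Prod.ext_iff, Subtype.ext_iff, Subtype.ext_iff]
        rfl)
    simp only [hτ, Finset.sum_const, Finset.card_univ, nsmul_eq_mul]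
    have hne : (Fintype.card (Ip F n) : ℂ) ≠ 0 := by
      haveI : Nonempty (Ip F n) := ⟨stdP hn⟩
      exact_mod_cast Fintype.card_ne_zero
    field_simp
  -- dependent pairs
  let Φ : Om F n × Fˣ → {p : Om F n × Om F n // ¬ ∀ a : F, p.2.1 ≠ a • p.1.1} := fun q =>
    ⟨(q.1, sc q.2 q.1), fun h => h q.2 rfl⟩
  have hΦ : Function.Bijective Φ := by
    constructor
    · rintro ⟨v, a⟩ ⟨v', a'⟩ h
      have h1 := congrArg (fun p => p.1.1) h
      have h2 := congrArg (fun p => (p.1.2 : Fin n → F)) h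
      simp only [Φ] at h1 h2
      subst h1
      have h3 : (a : F) • v.1 = (a' : F) • v.1 := h2
      have h4 : (a : F) = a' := smul_left_injective F v.2 h3
      rw [Units.ext h4]
    · rintro ⟨⟨v, w⟩, h⟩
      push Not at h
      obtain ⟨a, ha⟩ := h
      have ha0 : a ≠ 0 := by
        rintro rfl
        rw [zero_smul] at ha
        exact w.2 ha
      refine ⟨(v, Units.mk0 a ha0), ?_⟩
      apply Subtype.ext
      change ((v, sc (Units.mk0 a ha0) v) : Om F n × Om F n) = (v, w)
      congr 1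
      exact Subtype.ext ha.symm
  have hD : ∑ p : {p : Om F n × Om F n // ¬ ∀ a : F, p.2.1 ≠ a • p.1.1}, f p.1 =
      (Fintype.card (SS F n) : ℂ) * (if c = d then (Fintype.card Fˣ : ℂ) else 0) := by
    rw [← hΦ.sum_comp]
    rw [Fintype.sum_prod_type]
    by_cases hcd : c = d
    · subst hcd
      rw [if_pos rfl]
      have h2 : ∀ (v : Om F n) (a : Fˣ), f (Φ (v, a)).1 = (Fintype.card (SS F n) : ℂ) / (Fintype.card (Om F n) : ℂ) := by
        intro v a
        rw [← count_om hn2 v (sc c v)]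
        simp only [f, Φ]
        apply Finset.sum_congr rfl
        intro g _
        have : (g : Matrix (Fin n) (Fin n) F) *ᵥ (sc a v).1 = (c : F) • (sc a v).1 ↔
            (g : Matrix (Fin n) (Fin n) F) *ᵥ v.1 = (c : F) • v.1 := by
          simp only [sc]
          rw [Matrix.mulVec_smul, smul_comm (c : F)]
          exact smul_right_injective _ a.ne_zero |>.eq_iff
        simp only [this, and_self]
        rfl
      simp only [h2, Finset.sum_const, Finset.card_univ, nsmul_eq_mul]
      have := card_om_ne (F := F) hn2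
      field_simp
    · rw [if_neg hcd, mul_zero]
      apply Finset.sum_eq_zero
      intro v _
      apply Finset.sum_eq_zero
      intro a _
      simp only [f, Φ]
      apply Finset.sum_eq_zero
      intro g _
      rw [if_neg]
      rintro ⟨h1, h2⟩
      apply hcd
      simp only [sc] at h2
      rw [Matrix.mulVec_smul, h1, smul_comm (d : F)] at h2
      have h3 := smul_right_injective _ a.ne_zero h2
      exact Units.ext (smul_left_injective F v.2 h3)
  rw [hI, hD]
  ring

end sums

end Cfsg.Agent.Lib.SLVec
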