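import Mathlib
import Cfsg.Agent.Lib.SLVec
import Cfsg.Agent.Lib.CharAb

/-! The characters of `SL_n(F)` on the non-zero vectors. -/

set_option autoImplicit false
set_option linter.style.haveILetI false
set_option linter.unusedSectionVars false

namespace Cfsg.Agent.Lib.SLVecChar

open Matrix Cfsg Cfsg.Agent.Lib.SLVec Cfsg.Agent.Lib.CharOps Cfsg.Agent.Lib.CharAb
open scoped ComplexConjugate

section dual
variable {C : Type*} [CommGroup C] [Fintype C]

instance hasEnough : HasEnoughRootsOfUnity ℂ (Monoid.exponent C) := by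
  haveI : NeZero (Monoid.exponent C) := ⟨Monoid.exponent_ne_zero_of_finite⟩
  infer_instance

theorem sum_hom (φ : C →* ℂˣ) : (∑ c, (φ c : ℂ)) = if φ = 1 then (Fintype.card C : ℂ) else 0 := by
  classical
  by_cases h : φ = 1
  · subst h
    simp
  · rw [if_neg h]
    obtain ⟨c₀, hc₀⟩ : ∃ c₀, φ c₀ ≠ 1 := by
      by_contra hcon
      push Not at hcon
      exact h (MonoidHom.ext hcon)
    have hne : (φ c₀ : ℂ) ≠ 1 := fun h => hc₀ (Units.ext h)
    refine eq_zero_of_mul_eq_self_left hne ?_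
    rw [Finset.mul_sum]
    refine Fintype.sum_equiv (Equiv.mulLeft c₀) _ _ fun c => ?_
    simp

theorem exists_ne (c : C) (h : c ≠ 1) : ∃ φ : C →* ℂˣ, φ c ≠ 1 :=
  CommGroup.exists_apply_ne_one_of_hasEnoughRootsOfUnity C ℂ h

theorem card_dual : Nat.card (C →* ℂˣ) = Nat.card C :=
  CommGroup.card_monoidHom_of_hasEnoughRootsOfUnity C ℂ

instance finite_dual : Finite (C →* ℂˣ) := by
  apply Nat.finite_of_card_ne_zero
  rw [card_dual]
  exact Nat.card_pos.ne'

open Classical in
theorem sum_dual [Fintype (C →* ℂˣ)] (c : C) :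
    (∑ φ : C →* ℂˣ, (φ c : ℂ)) = if c = 1 then (Fintype.card C : ℂ) else 0 := by
  classical
  by_cases h : c = 1
  · subst h
    simp only [map_one, Units.val_one, Finset.sum_const, Finset.card_univ, nsmul_eq_mul, mul_one, if_true]
    rw [← Nat.card_eq_fintype_card, card_dual, Nat.card_eq_fintype_card]
  · rw [if_neg h]
    obtain ⟨φ₀, hφ₀⟩ := exists_ne c h
    have hne : (φ₀ c : ℂ) ≠ 1 := fun h => hφ₀ (Units.ext h)
    refine eq_zero_of_mul_eq_self_left hne ?_
    rw [Finset.mul_sum]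
    refine Fintype.sum_equiv (Equiv.mulLeft φ₀) _ _ fun φ => ?_
    simp

theorem conj_hom (φ : C →* ℂˣ) (c : C) : conj (φ c : ℂ) = (φ⁻¹ c : ℂ) := by
  have h1 : (φ c : ℂ) ^ Fintype.card C = 1 := by
    rw [← Units.val_pow_eq_pow_val, ← map_pow, pow_card_eq_one]
    simp
  have hnorm := Complex.norm_eq_one_of_pow_eq_one h1 Fintype.card_ne_zero
  rw [← Complex.inv_eq_conj hnorm]
  simp

end dual

section main

variable {F : Type*} [Field F] [Fintype F] [DecidableEq F] {n : ℕ} [Fintype (SS F n)]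

/-- The values of the character attached to `l`. -/
noncomputable def theta (l : Fˣ →* ℂˣ) (g : SS F n) : ℂ :=
  (Fintype.card Fˣ : ℂ)⁻¹ * ∑ c : Fˣ, (l c : ℂ) * NN (c : F) g

theorem Q_ne : (Fintype.card Fˣ : ℂ) ≠ 0 := by
  exact_mod_cast Fintype.card_ne_zero

theorem conj_NN (c : F) (g : SS F n) : conj (NN c g) = NN c g := by
  classical
  simp only [NN, map_sum]
  apply Finset.sum_congr rfl
  intro v _
  split_ifs <;> simp

theorem conj_theta (l : Fˣ →* ℂˣ) (g : SS F n) :
    conj (theta l g) = (Fintype.card Fˣ : ℂ)⁻¹ * ∑ c : Fˣ, (l⁻¹ c : ℂ) * NN (c : F) g := by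
  simp only [theta, map_mul, map_inv₀, map_natCast, map_sum, conj_NN, conj_hom]

theorem sum_theta (hn : 2 ≤ n) (l : Fˣ →* ℂˣ) :
    ∑ g : SS F n, theta l g = (Fintype.card (SS F n) : ℂ) * if l = 1 then 1 else 0 := by
  classical
  simp only [theta]
  rw [← Finset.mul_sum]
  simp only [Finset.mul_sum]
  rw [Finset.sum_comm]
  simp only [← Finset.mul_sum, sum_NN hn]
  rw [← Finset.sum_mul, sum_hom]
  have := Q_ne (F := F)
  split_ifs
  · field_simp
  · simp

theorem sum_conj_theta (hn : 2 ≤ n) (l : Fˣ →* ℂˣ) :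
    ∑ g : SS F n, conj (theta l g) = (Fintype.card (SS F n) : ℂ) * if l = 1 then 1 else 0 := by
  rw [← map_sum, sum_theta hn]
  split_ifs <;> simp

theorem inner_theta (hn : 3 ≤ n) (l m : Fˣ →* ℂˣ) :
    ∑ g : SS F n, theta l g * conj (theta m g) =
      (Fintype.card (SS F n) : ℂ) * ((if l = m then 1 else 0) + (if l = 1 ∧ m = 1 then 1 else 0)) := by
  classical
  have hQ := Q_ne (F := F)
  have h1 : ∀ g : SS F n, theta l g * conj (theta m g) =
      ((Fintype.card Fˣ : ℂ)⁻¹ * (Fintype.card Fˣ : ℂ)⁻¹) *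
        ∑ c : Fˣ, ∑ d : Fˣ, (l c : ℂ) * (m⁻¹ d : ℂ) * (NN (c : F) g * NN (d : F) g) := by
    intro g
    rw [conj_theta, theta, mul_mul_mul_comm, Finset.sum_mul_sum]
    congr 1
    apply Finset.sum_congr rfl
    intro c _
    apply Finset.sum_congr rfl
    intro d _
    ring
  simp only [h1]
  rw [← Finset.mul_sum, Finset.sum_comm]
  have h2 : ∀ c : Fˣ, ∑ g : SS F n, ∑ d : Fˣ, (l c : ℂ) * (m⁻¹ d : ℂ) * (NN (c : F) g * NN (d : F) g) =
      ∑ d : Fˣ, (l c : ℂ) * (m⁻¹ d : ℂ) * ((Fintype.card (SS F n) : ℂ) * (1 + if c = d then (Fintype.card Fˣ : ℂ) else 0)) := by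
    intro c
    rw [Finset.sum_comm]
    apply Finset.sum_congr rfl
    intro d _
    rw [← Finset.mul_sum, sum_NN2 hn]
  simp only [h2]
  have h3 : ∀ c : Fˣ, ∑ d : Fˣ, (l c : ℂ) * (m⁻¹ d : ℂ) * ((Fintype.card (SS F n) : ℂ) * (1 + if c = d then (Fintype.card Fˣ : ℂ) else 0)) =
      (Fintype.card (SS F n) : ℂ) * ((l c : ℂ) * (∑ d : Fˣ, (m⁻¹ d : ℂ)) + (Fintype.card Fˣ : ℂ) * ((l c : ℂ) * (m⁻¹ c : ℂ))) := by
    intro c
    have e : ∀ d : Fˣ, (l c : ℂ) * (m⁻¹ d : ℂ) * ((Fintype.card (SS F n) : ℂ) * (1 + if c = d then (Fintype.card Fˣ : ℂ) else 0)) =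
        (Fintype.card (SS F n) : ℂ) * ((l c : ℂ) * (m⁻¹ d : ℂ)) +
          (Fintype.card (SS F n) : ℂ) * ((Fintype.card Fˣ : ℂ) * ((l c : ℂ) * (if c = d then (m⁻¹ d : ℂ) else 0))) := by
      intro d
      split_ifs <;> ring
    simp only [e]
    rw [Finset.sum_add_distrib, ← Finset.mul_sum, ← Finset.mul_sum, ← Finset.mul_sum, ← Finset.mul_sum, ← Finset.mul_sum,
      Finset.sum_ite_eq]
    simp only [Finset.mem_univ, if_true]
    ring
  simp only [h3]
  rw [← Finset.mul_sum, Finset.sum_add_distrib, ← Finset.sum_mul, ← Finset.mul_sum, sum_hom l, sum_hom m⁻¹]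
  have h4 : ∑ c : Fˣ, (l c : ℂ) * (m⁻¹ c : ℂ) = ∑ c : Fˣ, ((l * m⁻¹) c : ℂ) := by
    apply Finset.sum_congr rfl
    intro c _
    simp
  rw [h4, sum_hom (l * m⁻¹)]
  have e1 : (m⁻¹ = 1) ↔ m = 1 := by
    constructor
    · intro h
      apply MonoidHom.ext
      intro c
      have := DFunLike.congr_fun h c
      simpa using this
    · rintro rfl
      apply MonoidHom.ext
      intro c
      simp
  have e2 : (l * m⁻¹ = 1) ↔ l = m := by
    constructor
    · intro h
      apply MonoidHom.ext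
      intro c
      have := DFunLike.congr_fun h c
      simp only [MonoidHom.mul_apply, MonoidHom.inv_apply, MonoidHom.one_apply] at this
      exact mul_inv_eq_one.1 this
    · rintro rfl
      apply MonoidHom.ext
      intro c
      simp
  simp only [e1, e2]
  generalize (Fintype.card (SS F n) : ℂ) = N
  generalize (Fintype.card Fˣ : ℂ) = Q at hQ ⊢
  by_cases hlm : l = m
  · by_cases hm : m = 1
    · have hl : l = 1 := hlm.trans hm
      rw [if_pos hl, if_pos hm, if_pos hlm, if_pos hlm, if_pos (And.intro hl hm)]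
      field_simp
      try ring
    · have hl : ¬ l = 1 := fun h => hm (hlm.symm.trans h)
      rw [if_neg hl, if_neg hm, if_pos hlm, if_pos hlm, if_neg (fun h => hl h.1)]
      field_simp
      try ring
  · by_cases hl : l = 1
    · have hm : ¬ m = 1 := fun h => hlm (hl.trans h.symm)
      rw [if_pos hl, if_neg hm, if_neg hlm, if_neg hlm, if_neg (fun h => hm h.2)]
      ring
    · by_cases hm : m = 1
      · rw [if_neg hl, if_pos hm, if_neg hlm, if_neg hlm, if_neg (fun h => hl h.1)]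
        ring
      · rw [if_neg hl, if_neg hm, if_neg hlm, if_neg hlm, if_neg (fun h => hl h.1)]
        ring

/-- The stabilizer of the line through `e`. -/
def PP (e : Fin n → F) : Subgroup (SS F n) where
  carrier := {g | ∃ c : Fˣ, (g : Matrix (Fin n) (Fin n) F) *ᵥ e = (c : F) • e}
  one_mem' := ⟨1, by simp⟩
  mul_mem' := by
    rintro a b ⟨c, hc⟩ ⟨d, hd⟩
    refine ⟨c * d, ?_⟩
    rw [Matrix.SpecialLinearGroup.coe_mul, ← Matrix.mulVec_mulVec, hd, Matrix.mulVec_smul, hc, smul_smul, Units.val_mul,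
      mul_comm]
  inv_mem' := by
    rintro a ⟨c, hc⟩
    refine ⟨c⁻¹, ?_⟩
    have h : ((a⁻¹ : SS F n) : Matrix (Fin n) (Fin n) F) *ᵥ ((a : Matrix (Fin n) (Fin n) F) *ᵥ e) = e := by
      rw [Matrix.mulVec_mulVec, ← Matrix.SpecialLinearGroup.coe_mul, inv_mul_cancel,
        Matrix.SpecialLinearGroup.coe_one, Matrix.one_mulVec]
    rw [hc, Matrix.mulVec_smul] at h
    calc ((a⁻¹ : SS F n) : Matrix (Fin n) (Fin n) F) *ᵥ e
        = ((c⁻¹ : Fˣ) : F) • ((c : F) • (((a⁻¹ : SS F n) : Matrix (Fin n) (Fin n) F) *ᵥ e)) := by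
          rw [smul_smul]
          simp
      _ = ((c⁻¹ : Fˣ) : F) • e := by rw [h]

theorem eps_unique {e : Fin n → F} (he : e ≠ 0) {c d : Fˣ} (h : (c : F) • e = (d : F) • e) : c = d :=
  Units.ext (smul_left_injective F he h)

/-- The eigenvalue on the line through `e`. -/
noncomputable def eps (e : Fin n → F) (he : e ≠ 0) : PP e →* Fˣ where
  toFun p := Classical.choose p.2
  map_one' := by
    apply eps_unique he
    rw [← Classical.choose_spec (PP e).one_mem]
    simp
  map_mul' := by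
    intro p q
    apply eps_unique he
    have h1 := Classical.choose_spec p.2
    have h2 := Classical.choose_spec q.2
    have h3 := Classical.choose_spec (p * q).2
    change ((Classical.choose (p * q).2 : Fˣ) : F) • e =
      ((Classical.choose p.2 * Classical.choose q.2 : Fˣ) : F) • e
    generalize Classical.choose p.2 = a at h1 ⊢
    generalize Classical.choose q.2 = b at h2 ⊢
    rw [← h3]
    simp only [Subgroup.coe_mul, Matrix.SpecialLinearGroup.coe_mul, ← Matrix.mulVec_mulVec]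
    rw [h2, Matrix.mulVec_smul, h1, smul_smul, Units.val_mul, mul_comm]

theorem eps_spec (e : Fin n → F) (he : e ≠ 0) (p : PP e) :
    ((p : SS F n) : Matrix (Fin n) (Fin n) F) *ᵥ e = (eps e he p : F) • e :=
  Classical.choose_spec p.2

open Classical in
theorem extend_formula (e : Fin n → F) (he : e ≠ 0) (l : Fˣ →* ℂˣ) (y : SS F n) :
    extendByZero (PP e) (fun p => (l (eps e he p) : ℂ)) y =
      ∑ c : Fˣ, (l c : ℂ) * if (y : Matrix (Fin n) (Fin n) F) *ᵥ e = (c : F) • e then 1 else 0 := by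
  by_cases hy : y ∈ PP e
  · rw [Cfsg.Agent.Lib.CharOps.extendByZero_of_mem _ _ hy]
    rw [Finset.sum_eq_single (eps e he ⟨y, hy⟩)]
    · rw [if_pos (eps_spec e he ⟨y, hy⟩), mul_one]
    · intro c _ hc
      rw [if_neg, mul_zero]
      intro h
      apply hc
      apply eps_unique he
      rw [← h]
      exact eps_spec e he ⟨y, hy⟩
    · simp
  · rw [Cfsg.Agent.Lib.CharOps.extendByZero_of_not_mem _ _ hy]
    symm
    apply Finset.sum_eq_zero
    intro c _
    rw [if_neg, mul_zero]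
    intro h
    exact hy ⟨c, h⟩

open Classical in
theorem sum_x (hn : 2 ≤ n) (e : Fin n → F) (he : e ≠ 0) (c : F) (g : SS F n) :
    (∑ x : SS F n, if (g : Matrix (Fin n) (Fin n) F) *ᵥ ((x : Matrix (Fin n) (Fin n) F) *ᵥ e) =
        c • ((x : Matrix (Fin n) (Fin n) F) *ᵥ e) then (1 : ℂ) else 0) =
      NN c g * ((Fintype.card (SS F n) : ℂ) / (Fintype.card (Om F n) : ℂ)) := by
  let e' : Om F n := ⟨e, he⟩
  have h1 : ∀ x : SS F n, (if (g : Matrix (Fin n) (Fin n) F) *ᵥ ((x : Matrix (Fin n) (Fin n) F) *ᵥ e) =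
        c • ((x : Matrix (Fin n) (Fin n) F) *ᵥ e) then (1 : ℂ) else 0) =
      ∑ v : Om F n, (if (g : Matrix (Fin n) (Fin n) F) *ᵥ v.1 = c • v.1 then (1 : ℂ) else 0) *
        (if (x : Matrix (Fin n) (Fin n) F) *ᵥ e = v.1 then 1 else 0) := by
    intro x
    rw [Finset.sum_eq_single (actOm x e')]
    · rw [if_pos (show (x : Matrix (Fin n) (Fin n) F) *ᵥ e = (actOm x e').1 from rfl), mul_one]
      rfl
    · intro v _ hv
      have h9 : ¬ ((x : Matrix (Fin n) (Fin n) F) *ᵥ e = v.1) := fun h => hv (Subtype.ext h.symm)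
      rw [if_neg h9, mul_zero]
    · simp
  simp only [h1]
  rw [Finset.sum_comm]
  simp only [← Finset.mul_sum]
  have h2 : ∀ v : Om F n, (∑ x : SS F n, if (x : Matrix (Fin n) (Fin n) F) *ᵥ e = v.1 then (1 : ℂ) else 0) =
      (Fintype.card (SS F n) : ℂ) / (Fintype.card (Om F n) : ℂ) := fun v => count_om hn e' v
  simp only [h2]
  rw [← Finset.sum_mul]
  rfl

open Classical in
theorem theta_eq_ind (hn : 2 ≤ n) (e : Fin n → F) (he : e ≠ 0) (l : Fˣ →* ℂˣ) :
    theta (n := n) l = indFun (PP e) (fun p => (l (eps e he p) : ℂ)) := by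
  funext g
  rw [Cfsg.Agent.Lib.CharOps.indFun_apply]
  simp only [extend_formula]
  rw [Finset.sum_comm]
  have h1 : ∀ c : Fˣ, (∑ x : SS F n, (l c : ℂ) *
      if ((x⁻¹ * g * x : SS F n) : Matrix (Fin n) (Fin n) F) *ᵥ e = (c : F) • e then 1 else 0) =
      (l c : ℂ) * (NN (c : F) g * ((Fintype.card (SS F n) : ℂ) / (Fintype.card (Om F n) : ℂ))) := by
    intro c
    rw [← Finset.mul_sum, ← sum_x hn e he]
    congr 1
    apply Finset.sum_congr rfl
    intro x _
    have hiff : ((x⁻¹ * g * x : SS F n) : Matrix (Fin n) (Fin n) F) *ᵥ e = (c : F) • e ↔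
        (g : Matrix (Fin n) (Fin n) F) *ᵥ ((x : Matrix (Fin n) (Fin n) F) *ᵥ e) =
          (c : F) • ((x : Matrix (Fin n) (Fin n) F) *ᵥ e) := by
      simp only [Matrix.SpecialLinearGroup.coe_mul, ← Matrix.mulVec_mulVec]
      constructor
      · intro h
        have hc : ∀ z, (x : Matrix (Fin n) (Fin n) F) *ᵥ (((x⁻¹ : SS F n) : Matrix (Fin n) (Fin n) F) *ᵥ z) = z := by
          intro z
          rw [Matrix.mulVec_mulVec, ← Matrix.SpecialLinearGroup.coe_mul, mul_inv_cancel,
            Matrix.SpecialLinearGroup.coe_one, Matrix.one_mulVec]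
        have h2 := congrArg (fun u => (x : Matrix (Fin n) (Fin n) F) *ᵥ u) h
        simp only [hc, Matrix.mulVec_smul] at h2
        exact h2
      · intro h
        rw [h, Matrix.mulVec_smul, Matrix.mulVec_mulVec, ← Matrix.SpecialLinearGroup.coe_mul, inv_mul_cancel,
          Matrix.SpecialLinearGroup.coe_one, Matrix.one_mulVec]
    simp only [hiff]
  simp only [h1]
  -- the order of the stabilizer
  have hP : (Nat.card (PP e) : ℂ) = (Fintype.card Fˣ : ℂ) * ((Fintype.card (SS F n) : ℂ) / (Fintype.card (Om F n) : ℂ)) := by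
    have h2 := Cfsg.Agent.Lib.CharOps.sum_ite_subgroup (PP e) (1 : ℂ)
    rw [mul_one] at h2
    rw [← h2]
    have h3 : ∀ x : SS F n, (if x ∈ PP e then (1 : ℂ) else 0) =
        ∑ c : Fˣ, if (x : Matrix (Fin n) (Fin n) F) *ᵥ e = (c : F) • e then (1 : ℂ) else 0 := by
      intro x
      have h4 := extend_formula e he 1 x
      simp only [MonoidHom.one_apply, Units.val_one, one_mul] at h4
      rw [← h4]
      by_cases hx : x ∈ PP e
      · rw [if_pos hx, Cfsg.Agent.Lib.CharOps.extendByZero_of_mem _ _ hx]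
      · rw [if_neg hx, Cfsg.Agent.Lib.CharOps.extendByZero_of_not_mem _ _ hx]
    simp only [h3]
    rw [Finset.sum_comm]
    have h5 : ∀ c : Fˣ, (∑ x : SS F n, if (x : Matrix (Fin n) (Fin n) F) *ᵥ e = (c : F) • e then (1 : ℂ) else 0) =
        (Fintype.card (SS F n) : ℂ) / (Fintype.card (Om F n) : ℂ) := fun c =>
      count_om hn ⟨e, he⟩ ⟨(c : F) • e, smul_ne_zero c.ne_zero he⟩
    simp only [h5, Finset.sum_const, Finset.card_univ, nsmul_eq_mul]
  rw [hP, theta]
  have hQ := Q_ne (F := F)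
  have hO := card_om_ne (F := F) hn
  have hG : (Fintype.card (SS F n) : ℂ) ≠ 0 := by exact_mod_cast Fintype.card_ne_zero
  rw [mul_inv, inv_div]
  have e3 : ∀ c : Fˣ, (l c : ℂ) * (NN (c : F) g * ((Fintype.card (SS F n) : ℂ) / (Fintype.card (Om F n) : ℂ))) =
      ((Fintype.card (SS F n) : ℂ) / (Fintype.card (Om F n) : ℂ)) * ((l c : ℂ) * NN (c : F) g) := fun c => by ring
  simp only [e3]
  rw [← Finset.mul_sum]
  field_simp

/-- The character `θ_l` minus the principal part. -/
noncomputable def psi (l : Fˣ →* ℂˣ) (g : SS F n) : ℂ := by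
  classical
  exact theta l g - if l = 1 then 1 else 0

theorem isCharacter_theta (hn : 2 ≤ n) (e : Fin n → F) (he : e ≠ 0) (l : Fˣ →* ℂˣ) :
    IsCharacter (SS F n) (theta (n := n) l) := by
  classical
  rw [theta_eq_ind hn e he l]
  apply isCharacter_indFun
  exact IsIrrCharacter.isCharacter' (isIrrCharacter_of_hom (l.comp (eps e he)))

theorem inner_psi (hn : 3 ≤ n) (l m : Fˣ →* ℂˣ) :
    classInner (psi (n := n) l) (psi (n := n) m) = if l = m then 1 else 0 := by
  classical
  have hn2 : 2 ≤ n := by omega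
  have hG : (Nat.card (SS F n) : ℂ) ≠ 0 := by exact_mod_cast Nat.card_pos.ne'
  have hcard : (Fintype.card (SS F n) : ℂ) = Nat.card (SS F n) := by rw [Nat.card_eq_fintype_card]
  rw [classInner]
  have h1 : ∀ g : SS F n, psi l g * conj (psi m g) =
      theta l g * conj (theta m g) - (if m = 1 then 1 else 0) * theta l g -
        (if l = 1 then 1 else 0) * conj (theta m g) + (if l = 1 then 1 else 0) * (if m = 1 then 1 else 0) := by
    intro g
    simp only [psi]
    rw [map_sub]
    have : conj (if m = 1 then (1 : ℂ) else 0) = if m = 1 then 1 else 0 := by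
      split_ifs <;> simp
    rw [this]
    ring
  simp only [h1]
  rw [Finset.sum_add_distrib, Finset.sum_sub_distrib, Finset.sum_sub_distrib, ← Finset.mul_sum, ← Finset.mul_sum,
    inner_theta hn, sum_theta hn2, sum_conj_theta hn2, Finset.sum_const, Finset.card_univ, nsmul_eq_mul, hcard]
  field_simp
  by_cases hl : l = 1 <;> by_cases hm : m = 1 <;> by_cases hlm : l = m <;>
    simp only [hl, hm, hlm] <;> simp_all

theorem isCharacter_psi (hn : 3 ≤ n) (l : Fˣ →* ℂˣ) : IsCharacter (SS F n) (psi (n := n) l) := by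
  classical
  have hn2 : 2 ≤ n := by omega
  have hc := isCharacter_theta (n := n) hn2 _ (e0_ne (F := F) hn) l
  by_cases hl : l = 1
  · have hm : classInner (theta (n := n) l) (fun _ : SS F n => (1 : ℂ)) = ((1 : ℕ) : ℂ) := by
      rw [classInner]
      have h1 : ∀ g : SS F n, theta l g * conj (1 : ℂ) = theta l g := by
        intro g
        simp
      simp only [h1]
      rw [sum_theta hn2, if_pos hl, mul_one, Nat.card_eq_fintype_card]
      have hG : (Fintype.card (SS F n) : ℂ) ≠ 0 := by exact_mod_cast Fintype.card_ne_zero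
      simp [hG]
    have h2 := sub_isCharacter hc Cfsg.Agent.Lib.CharBurnside.isIrrCharacter_one 1 hm
    convert h2 using 1
    funext g
    simp [psi, hl]
  · convert hc using 1
    funext g
    simp [psi, hl]

theorem isIrr_psi (hn : 3 ≤ n) (l : Fˣ →* ℂˣ) : IsIrrCharacter (SS F n) (psi (n := n) l) := by
  apply isIrr_of_norm_one (isCharacter_psi hn l)
  rw [inner_psi hn, if_pos rfl]

theorem psi_injective (hn : 3 ≤ n) : Function.Injective (psi (F := F) (n := n)) := by
  intro l m h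
  by_contra hne
  have h1 := inner_psi (F := F) (n := n) hn l m
  have h2 := inner_psi (F := F) (n := n) hn m m
  rw [h, h2, if_pos rfl, if_neg hne] at h1
  exact one_ne_zero h1

theorem NN_one (g : SS F n) :
    NN (1 : F) g = (Nat.card {v : Fin n → F // v ≠ 0 ∧ (g : Matrix (Fin n) (Fin n) F).mulVec v = v} : ℂ) := by
  classical
  rw [NN, Finset.sum_boole, Nat.card_eq_fintype_card]
  congr 1
  rw [← Fintype.card_subtype]
  refine Fintype.card_congr
    { toFun := fun v => ⟨v.1.1, v.1.2, by simpa using v.2⟩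
      invFun := fun v => ⟨⟨v.1, v.2.1⟩, by simpa using v.2.2⟩
      left_inv := fun v => rfl
      right_inv := fun v => rfl }

theorem sum_theta_dual [Fintype (Fˣ →* ℂˣ)] (g : SS F n) :
    ∑ l : Fˣ →* ℂˣ, theta l g = NN (1 : F) g := by
  classical
  simp only [theta]
  rw [← Finset.mul_sum, Finset.sum_comm]
  simp only [← Finset.sum_mul, sum_dual]
  rw [Finset.sum_eq_single 1]
  · simp only [if_true, Units.val_one]
    exact inv_mul_cancel_left₀ Q_ne _
  · intro c _ hc
    rw [if_neg hc, zero_mul]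
  · simp

theorem exists_chars (hn : 3 ≤ n) :
    ∃ χ : Fin (Fintype.card F - 1) → (SS F n → ℂ),
      (∀ i, IsIrrCharacter (SS F n) (χ i)) ∧ Function.Injective χ ∧
      ∀ g : SS F n, (Nat.card {v : Fin n → F // v ≠ 0 ∧ (g : Matrix (Fin n) (Fin n) F).mulVec v = v} : ℂ) = 1 + ∑ i, χ i g := by
  classical
  letI : Fintype (Fˣ →* ℂˣ) := Fintype.ofFinite _
  have hcard : Fintype.card (Fˣ →* ℂˣ) = Fintype.card F - 1 := by
    rw [← Nat.card_eq_fintype_card, card_dual, Nat.card_eq_fintype_card, Fintype.card_units]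
  let e : Fin (Fintype.card F - 1) ≃ (Fˣ →* ℂˣ) := (Fintype.equivFinOfCardEq hcard).symm
  refine ⟨fun i => psi (e i), fun i => isIrr_psi hn _, ?_, ?_⟩
  · intro i j h
    exact e.injective (psi_injective hn h)
  · intro g
    rw [← NN_one, ← sum_theta_dual, Equiv.sum_comp e (fun l => psi (n := n) l g)]
    simp only [psi]
    rw [Finset.sum_sub_distrib, Finset.sum_ite_eq' Finset.univ (1 : Fˣ →* ℂˣ)]
    simp

end main

end Cfsg.Agent.Lib.SLVecChar
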