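import Cfsg.Agent.Lib.Unitary3
import Cfsg.Agent.Lib.UnitaryOrder
import Cfsg.Agent.Lib.UnitaryHerm
import Cfsg.Agent.Lib.SLn

/-! The centre of the special unitary group. -/

set_option autoImplicit false
set_option linter.unusedSectionVars false
set_option linter.unusedVariables false

namespace Cfsg.Agent.Lib.SUCenter

open Cfsg Cfsg.Geo
open Cfsg.Agent.Lib.Transvection Cfsg.Agent.Lib.UnitaryBase Cfsg.Agent.Lib.Unitary3 Cfsg.Agent.Lib.UnitaryHerm
open Cfsg.Agent.Lib.SymplecticTv (IsIsom)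
open scoped Matrix MatrixGroups

variable {F : Type*} [Field F] [Fintype F] {q n : ℕ}

theorem card_roots (hF : Fintype.card F = q ^ 2) : Nat.card (rootsOfUnity (q + 1) F) = q + 1 := by
  have hq := q_two_le hF
  rw [SLn.card_rootsOfUnity', hF]
  apply Nat.gcd_eq_right
  refine ⟨q - 1, ?_⟩
  obtain ⟨r, rfl⟩ : ∃ r, q = r + 1 := ⟨q - 1, by omega⟩
  simp only [Nat.add_sub_cancel]
  have : (r + 1) ^ 2 = r * (r + 1 + 1) + (r + 1) * 0 + 1 := by ring
  rw [this]
  simp
  ring

/-- Three different elements of norm `-1`. -/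
theorem exists_three (hF : Fintype.card F = q ^ 2) :
    ∃ e₁ e₂ e₃ : F, e₁ ^ (q + 1) = -1 ∧ e₂ ^ (q + 1) = -1 ∧ e₃ ^ (q + 1) = -1 ∧ e₁ ≠ e₂ ∧ e₁ ≠ e₃ ∧ e₂ ≠ e₃ := by
  classical
  obtain ⟨σ, hσ⟩ := exists_sigma hF
  have hq := q_two_le hF
  obtain ⟨ε, hε⟩ := norm_surjective hF hσ (-1) (by
    rw [map_neg, map_one])
  rw [hσ] at hε
  have hε' : ε ^ (q + 1) = -1 := by
    rw [pow_succ']
    exact hε
  have hε0 : ε ≠ 0 := by
    rintro rfl
    rw [zero_pow (by omega)] at hε'
    simp at hε'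
  obtain ⟨γ, hγ⟩ := IsCyclic.exists_generator (α := rootsOfUnity (q + 1) F)
  have hord : orderOf γ = q + 1 := (orderOf_eq_card_of_forall_mem_zpowers hγ).trans (card_roots hF)
  have hval : ((γ : Fˣ) : F) ^ (q + 1) = 1 := by
    have := γ.2
    rw [mem_rootsOfUnity] at this
    have h2 := congrArg Units.val this
    simpa using h2
  set u : F := ((γ : Fˣ) : F) with hu
  have hinj : ∀ i j : ℕ, i < q + 1 → j < q + 1 → u ^ i = u ^ j → i = j := by
    intro i j hi hj h
    have h1 : γ ^ i = γ ^ j := by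
      apply Subtype.ext
      apply Units.ext
      simpa using h
    have := pow_injOn_Iio_orderOf (x := γ)
    rw [hord] at this
    exact this (by simpa using hi) (by simpa using hj) h1
  have hu0 : u ≠ 0 := Units.ne_zero _
  refine ⟨ε, ε * u, ε * u ^ 2, hε', ?_, ?_, ?_, ?_, ?_⟩
  · rw [mul_pow, hε', hval, mul_one]
  · rw [mul_pow, hε', show (u ^ 2) ^ (q + 1) = (u ^ (q + 1)) ^ 2 by ring, hval, one_pow, mul_one]
  · intro h
    have h1 : u ^ 0 = u ^ 1 := by
      apply mul_left_cancel₀ hε0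
      simpa using h
    have := hinj 0 1 (by omega) (by omega) h1
    omega
  · intro h
    have h1 : u ^ 0 = u ^ 2 := by
      apply mul_left_cancel₀ hε0
      simpa using h
    have := hinj 0 2 (by omega) (by omega) h1
    omega
  · intro h
    have h1 : u ^ 1 = u ^ 2 := by
      apply mul_left_cancel₀ hε0
      simpa using h
    have := hinj 1 2 (by omega) (by omega) h1
    omega

variable {σ : F ≃+* F} (hσ : ∀ x, σ x = x ^ q) (hf : IsUnitaryForm σ (hermForm n F q))

theorem herm_single (i : Fin n) (v : Fin n → F) (h1 : 1 ≤ q) : hermForm n F q (Pi.single i 1) v = v i ^ q := by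
  simp [hermForm, Pi.single_apply]

include hf

/-- A central element has every isotropic vector as an eigenvector. -/
theorem eigen (z : SU n F q) (hz : z ∈ Subgroup.center (SU n F q)) {v : Fin n → F} (hvv : hermForm n F q v v = 0)
    {i : Fin n} (hvi : v i = 1) (hq : 1 ≤ q) :
    ∃ l : F, ((z.1 : Matrix (Fin n) (Fin n) F)) *ᵥ v = l • v := by
  obtain ⟨c, hc0, hc⟩ := exists_tr0 hf
  have hiso := tt_isIsom hf hvv hc
  obtain ⟨T, hT⟩ := exists_suHom_eq (q := q) hiso (tt_mem_specialLinear hf v c)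
  have hcomm : z * T * z⁻¹ = T := by
    rw [← Subgroup.mem_center_iff.1 hz T, mul_assoc, mul_inv_cancel, mul_one]
  have h1 := congrArg (suHom n q F) hcomm
  rw [map_mul, map_mul, map_inv, hT, conj_tt hf (suHom_isIsom z) c hvv] at h1
  have h2 : ((tt hf (((suHom n q F z : GL (Fin n) F) : Matrix (Fin n) (Fin n) F) *ᵥ v) c : GL (Fin n) F) : Matrix (Fin n) (Fin n) F) *ᵥ (Pi.single i 1 : Fin n → F) =
      ((tt hf v c : GL (Fin n) F) : Matrix (Fin n) (Fin n) F) *ᵥ (Pi.single i 1 : Fin n → F) := by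
    rw [h1]
  have hZv : hermForm n F q (((suHom n q F z : GL (Fin n) F) : Matrix (Fin n) (Fin n) F) *ᵥ v)
      (((suHom n q F z : GL (Fin n) F) : Matrix (Fin n) (Fin n) F) *ᵥ v) = 0 := by
    rw [suHom_isIsom z v v, hvv]
  rw [tt_mulVec hf c hZv, tt_mulVec hf c hvv, herm_single i v hq, hvi, one_pow, mul_one] at h2
  have h3 := add_left_cancel h2
  set t := hermForm n F q (Pi.single i 1) (((suHom n q F z : GL (Fin n) F) : Matrix (Fin n) (Fin n) F) *ᵥ v) with ht
  have h4 : t ≠ 0 := by
    intro h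
    rw [h, mul_zero, zero_smul] at h3
    have := congrFun h3 i
    simp [hvi] at this
    exact hc0 this.symm
  refine ⟨t⁻¹, ?_⟩
  have h5 : (c * t) • (((suHom n q F z : GL (Fin n) F) : Matrix (Fin n) (Fin n) F) *ᵥ v) = c • v := h3
  have h6 : (((suHom n q F z : GL (Fin n) F) : Matrix (Fin n) (Fin n) F) *ᵥ v) = t⁻¹ • v := by
    have h7 : (c * t) • (t⁻¹ • v) = c • v := by
      rw [smul_smul]
      congr 1
      field_simp
    have h8 : (c * t) ≠ 0 := mul_ne_zero hc0 h4
    exact smul_right_injective _ h8 (h5.trans h7.symm)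
  exact h6

/-- The matrix of a central element is scalar. -/
theorem center_scalar (hF : Fintype.card F = q ^ 2) (z : SU n F q) (hz : z ∈ Subgroup.center (SU n F q)) (i j : Fin n) (hij : i ≠ j) :
    (z.1 : Matrix (Fin n) (Fin n) F) i j = 0 ∧ (z.1 : Matrix (Fin n) (Fin n) F) i i = (z.1 : Matrix (Fin n) (Fin n) F) j j := by
  classical
  have hq := q_two_le hF
  obtain ⟨e₁, e₂, e₃, h₁, h₂, h₃, h12, h13, h23⟩ := exists_three hF
  set M : Matrix (Fin n) (Fin n) F := (z.1 : Matrix (Fin n) (Fin n) F) with hM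
  have key : ∀ e : F, e ^ (q + 1) = -1 → M i j * e ^ 2 + (M i i - M j j) * e - M j i = 0 := by
    intro e he
    let v : Fin n → F := Pi.single i 1 + e • Pi.single j 1
    have hvi : v i = 1 := by simp [v, Pi.single_apply, hij.symm]
    have hvj : v j = e := by simp [v, Pi.single_apply, hij]
    have hvv : hermForm n F q v v = 0 := by
      rw [hermForm, Finset.sum_eq_add i j hij (by
        intro k _ hk
        have : v k = 0 := by
          simp [v, Pi.single_apply, hk.1, hk.2]
        rw [this, zero_mul]) (by simp) (by simp), hvi, hvj, one_pow, one_mul, ← pow_succ', he]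
      ring
    obtain ⟨l, hl⟩ := eigen hf z hz hvv hvi (by omega)
    have hi := congrFun hl i
    have hj := congrFun hl j
    have hMv : ∀ k, (M *ᵥ v) k = M k i + e * M k j := by
      intro k
      simp [Matrix.mulVec, dotProduct, v, Pi.single_apply, add_mul, mul_add, Finset.sum_add_distrib]
      ring
    rw [hMv] at hi hj
    simp only [Pi.smul_apply, smul_eq_mul, hvi, hvj, mul_one] at hi hj
    rw [← hi] at hj
    linear_combination (-1 : F) * hj
  have k1 := key e₁ h₁
  have k2 := key e₂ h₂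
  have k3 := key e₃ h₃
  have d12 : (e₁ - e₂) * (M i j * (e₁ + e₂) + (M i i - M j j)) = 0 := by linear_combination k1 - k2
  have d13 : (e₁ - e₃) * (M i j * (e₁ + e₃) + (M i i - M j j)) = 0 := by linear_combination k1 - k3
  have d12' := (mul_eq_zero.1 d12).resolve_left (sub_ne_zero.2 h12)
  have d13' := (mul_eq_zero.1 d13).resolve_left (sub_ne_zero.2 h13)
  have d : (e₂ - e₃) * M i j = 0 := by linear_combination d12' - d13'
  have c0 : M i j = 0 := (mul_eq_zero.1 d).resolve_left (sub_ne_zero.2 h23)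
  refine ⟨c0, ?_⟩
  rw [c0] at d12'
  linear_combination d12'

omit hf in
/-- The scalar element attached to a root of unity. -/
theorem scalar_mem {d : F} (h1 : d ^ (q + 1) = 1) (h2 : d ^ n = 1) (hq : Fintype.card F = q ^ 2) :
    ∃ z : SU n F q, (z.1 : Matrix (Fin n) (Fin n) F) = d • (1 : Matrix (Fin n) (Fin n) F) := by
  refine ⟨⟨⟨d • (1 : Matrix (Fin n) (Fin n) F), ?_⟩, ?_⟩, rfl⟩
  · simp [Matrix.det_smul, h2]
  · intro u v
    change hermForm n F q ((d • (1 : Matrix (Fin n) (Fin n) F)) *ᵥ u) ((d • (1 : Matrix (Fin n) (Fin n) F)) *ᵥ v) = _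
    rw [Matrix.smul_mulVec, Matrix.smul_mulVec, Matrix.one_mulVec, Matrix.one_mulVec]
    simp only [hermForm, Pi.smul_apply, smul_eq_mul, mul_pow]
    refine Finset.sum_congr rfl fun i _ ↦ ?_
    have : d * d ^ q = 1 := by rw [← pow_succ']; exact h1
    linear_combination (u i * v i ^ q) * this

omit hf in
/-- The isomorphism type of the centre, as a bijection. -/
theorem card_center (hF : Fintype.card F = q ^ 2) (hn : 2 ≤ n) :
    Nat.card (Subgroup.center (SU n F q)) = Nat.gcd n (q + 1) := by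
  classical
  obtain ⟨σ, hσ⟩ := exists_sigma hF
  have hf : IsUnitaryForm σ (hermForm n F q) := hermForm_isUnitary hF hσ
  have hq := q_two_le hF
  set k := Nat.gcd n (q + 1) with hk
  have hdvd : k ∣ Fintype.card F - 1 := by
    rw [hF]
    refine dvd_trans (Nat.gcd_dvd_right _ _) ⟨q - 1, ?_⟩
    obtain ⟨r, rfl⟩ : ∃ r, q = r + 1 := ⟨q - 1, by omega⟩
    simp only [Nat.add_sub_cancel]
    have : (r + 1) ^ 2 = r * (r + 1 + 1) + (r + 1) * 0 + 1 := by ring
    rw [this]
    simp
    ring
  have hcard : Nat.card (rootsOfUnity k F) = k := by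
    rw [SLn.card_rootsOfUnity']
    exact Nat.gcd_eq_right hdvd
  rw [← hcard]
  have hval : ∀ u : rootsOfUnity k F, ((u : Fˣ) : F) ^ k = 1 := by
    intro u
    have := u.2
    rw [mem_rootsOfUnity] at this
    have h2 := congrArg Units.val this
    simpa using h2
  have hchoose : ∀ u : rootsOfUnity k F, ∃ z : SU n F q, (z.1 : Matrix (Fin n) (Fin n) F) = ((u : Fˣ) : F) • (1 : Matrix (Fin n) (Fin n) F) := by
    intro u
    refine scalar_mem ?_ ?_ hF
    · obtain ⟨a, ha⟩ := Nat.gcd_dvd_right n (q + 1)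
      rw [ha, pow_mul, hval, one_pow]
    · obtain ⟨a, ha⟩ := Nat.gcd_dvd_left n (q + 1)
      rw [ha, pow_mul, hval, one_pow]
  choose ζ hζ using hchoose
  have hcen : ∀ u, ζ u ∈ Subgroup.center (SU n F q) := by
    intro u
    rw [Subgroup.mem_center_iff]
    intro g
    apply Subtype.ext
    apply Subtype.ext
    change (g.1 : Matrix (Fin n) (Fin n) F) * ((ζ u).1 : Matrix (Fin n) (Fin n) F) = ((ζ u).1 : Matrix (Fin n) (Fin n) F) * (g.1 : Matrix (Fin n) (Fin n) F)
    rw [hζ]
    rw [Matrix.smul_mul, Matrix.mul_smul, one_mul, mul_one]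
  have hi0 : Nonempty (Fin n) := ⟨⟨0, by omega⟩⟩
  obtain ⟨i0⟩ := hi0
  refine (Nat.card_congr (Equiv.ofBijective (fun u : rootsOfUnity k F ↦ (⟨ζ u, hcen u⟩ : Subgroup.center (SU n F q))) ⟨?_, ?_⟩)).symm
  · intro u v huv
    have h1 : ζ u = ζ v := congrArg Subtype.val huv
    have h2 := congrArg (fun z : SU n F q ↦ (z.1 : Matrix (Fin n) (Fin n) F) i0 i0) h1
    simp only [hζ, Matrix.smul_apply, Matrix.one_apply_eq, smul_eq_mul, mul_one] at h2
    exact Subtype.ext (Units.ext h2)
  · rintro ⟨z, hz⟩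
    set d := (z.1 : Matrix (Fin n) (Fin n) F) i0 i0 with hd
    have hscal : (z.1 : Matrix (Fin n) (Fin n) F) = d • (1 : Matrix (Fin n) (Fin n) F) := by
      ext i j
      rw [Matrix.smul_apply, Matrix.one_apply, smul_eq_mul]
      split_ifs with hij
      · subst hij
        rw [mul_one]
        by_cases hi : i = i0
        · rw [hi]
        · exact (center_scalar hf hF z hz i i0 hi).2
      · rw [mul_zero]
        exact (center_scalar hf hF z hz i j hij).1
    have hdn : d ^ n = 1 := by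
      have h1 : (z.1 : Matrix (Fin n) (Fin n) F).det = 1 := z.1.2
      rw [hscal, Matrix.det_smul] at h1
      simpa using h1
    have hd1 : d ^ (q + 1) = 1 := by
      have h1 := z.2 (Pi.single i0 1) (Pi.single i0 1)
      change hermForm n F q ((z.1 : Matrix (Fin n) (Fin n) F) *ᵥ _) ((z.1 : Matrix (Fin n) (Fin n) F) *ᵥ _) = _ at h1
      rw [hscal, Matrix.smul_mulVec, Matrix.one_mulVec] at h1
      simp only [hermForm, Pi.smul_apply, smul_eq_mul, mul_pow] at h1
      rw [Finset.sum_eq_single i0 (by intro j _ hj; simp [Pi.single_apply, hj]) (by simp),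
        Finset.sum_eq_single i0 (by intro j _ hj; simp [Pi.single_apply, hj]) (by simp)] at h1
      simp at h1
      rw [pow_succ']
      exact h1
    have hd0 : d ≠ 0 := by
      rintro h
      rw [h, zero_pow (by omega)] at hd1
      exact zero_ne_one hd1
    have hdk : d ^ k = 1 := pow_gcd_eq_one.2 ⟨hdn, hd1⟩
    let u : rootsOfUnity k F := ⟨Units.mk0 d hd0, by
      rw [mem_rootsOfUnity]
      apply Units.ext
      simpa using hdk⟩
    refine ⟨u, ?_⟩
    apply Subtype.ext
    apply Subtype.ext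
    apply Subtype.ext
    change ((ζ u).1 : Matrix (Fin n) (Fin n) F) = (z.1 : Matrix (Fin n) (Fin n) F)
    rw [hζ, hscal]
    rfl

omit hf in
/-- Order of `PSU`. -/
theorem card_PSU (hF : Fintype.card F = q ^ 2) (hn : 2 ≤ n) :
    Nat.gcd n (q + 1) * ((q + 1) * Nat.card (PSU n F q)) = Nat.card (GU n F q) := by
  rw [← UnitaryOrder.card_SU hF (by omega), ← card_center hF hn]
  have h1 := Subgroup.card_eq_card_quotient_mul_card_subgroup (Subgroup.center (SU n F q))
  rw [h1]
  ring

end Cfsg.Agent.Lib.SUCenter
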