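/-
Maximal parabolic subgroups of `SU_n(q)`: counting totally isotropic tuples.
-/
import Mathlib
import Cfsg.Agent.Lib.UnitaryOrder
import Cfsg.Agent.Lib.UnitaryBase
import Cfsg.Agent.Lib.SylowCount
import Cfsg.Agent.Lib.FormCount

set_option autoImplicit false
set_option linter.all false

open scoped Matrix
open Cfsg Cfsg.Geo Cfsg.Agent.Lib.UnitaryBase Cfsg.Agent.Lib.IsomChain

namespace Cfsg.Agent.Lib.SUParab

variable {F : Type*} [Field F] {n q : ℕ}

/-- Independent totally isotropic tuples. -/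
def HT (n k : ℕ) (F : Type*) [Field F] (q : ℕ) :=
  {c : Fin k → (Fin n → F) // LinearIndependent F c ∧ ∀ i j, hermForm n F q (c i) (c j) = 0}

section Forms

variable {σ : F ≃+* F} (hf : IsUnitaryForm σ (hermForm n F q))
include hf

theorem h_span_left {s : Set (Fin n → F)} {y : Fin n → F} (h : ∀ x ∈ s, hermForm n F q x y = 0)
    {x : Fin n → F} (hx : x ∈ Submodule.span F s) : hermForm n F q x y = 0 := by
  induction hx using Submodule.span_induction with
  | mem x hx => exact h x hx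
  | zero => exact f_zero_left hf y
  | add u v _ _ hu hv => rw [hf.add_left, hu, hv, add_zero]
  | smul c u _ hu => rw [hf.smul_left, hu, mul_zero]

theorem h_span_right {s : Set (Fin n → F)} {y : Fin n → F} (h : ∀ x ∈ s, hermForm n F q y x = 0)
    {x : Fin n → F} (hx : x ∈ Submodule.span F s) : hermForm n F q y x = 0 := by
  induction hx using Submodule.span_induction with
  | mem x hx => exact h x hx
  | zero => exact f_zero_right hf y
  | add u v _ _ hu hv => rw [f_add_right hf, hu, hv, add_zero]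
  | smul c u _ hu => rw [f_smul_right hf, hu, mul_zero]

theorem h_span_span {s : Set (Fin n → F)} (h : ∀ x ∈ s, ∀ y ∈ s, hermForm n F q x y = 0)
    {x y : Fin n → F} (hx : x ∈ Submodule.span F s) (hy : y ∈ Submodule.span F s) : hermForm n F q x y = 0 := by
  apply h_span_right hf (s := s) _ hy
  intro z hz
  exact h_span_left hf (fun w hw => h w hw z hz) hx

end Forms

/-- The unitary group. -/
abbrev GG (n : ℕ) (F : Type*) [Field F] (q : ℕ) := GU n F q

theorem gu_pres (A : GG n F q) (u v : Fin n → F) :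
    hermForm n F q (A.1.1 *ᵥ u) (A.1.1 *ᵥ v) = hermForm n F q u v := A.2 u v

theorem gu_mul_mulVec (A B : GG n F q) (v : Fin n → F) : (A * B).1.1 *ᵥ v = A.1.1 *ᵥ (B.1.1 *ᵥ v) := by
  rw [Matrix.mulVec_mulVec]
  rfl

theorem gu_inv_mul (A : GG n F q) (v : Fin n → F) : (A⁻¹).1.1 *ᵥ (A.1.1 *ᵥ v) = v := by
  rw [← gu_mul_mulVec, inv_mul_cancel]
  exact Matrix.one_mulVec v

theorem gu_mul_inv (A : GG n F q) (v : Fin n → F) : A.1.1 *ᵥ ((A⁻¹).1.1 *ᵥ v) = v := by
  rw [← gu_mul_mulVec, mul_inv_cancel]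
  exact Matrix.one_mulVec v

theorem gu_injective (A : GG n F q) : Function.Injective (fun v : Fin n → F => A.1.1 *ᵥ v) := by
  intro u v h
  have := congrArg (fun x => (A⁻¹).1.1 *ᵥ x) h
  simpa only [gu_inv_mul] using this

/-- The action on tuples. -/
def moveT {k : ℕ} (A : GG n F q) (b : HT n k F q) : HT n k F q :=
  ⟨fun i => A.1.1 *ᵥ b.1 i, b.2.1.map' (Matrix.mulVecLin A.1.1) (by
    rw [LinearMap.ker_eq_bot]
    exact gu_injective A), fun i j => by rw [gu_pres]; exact b.2.2 i j⟩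

section Move

variable [Fintype F]

theorem exists_gu_move (hF : Fintype.card F = q ^ 2) {k : ℕ} (b c : HT n k F q) :
    ∃ A : GG n F q, ∀ i, A.1.1 *ᵥ b.1 i = c.1 i := by
  classical
  obtain ⟨σ, hσ⟩ := Cfsg.Agent.Lib.UnitaryHerm.exists_sigma hF
  have hf := Cfsg.Agent.Lib.UnitaryHerm.hermForm_isUnitary (n := n) hF hσ
  let X : Submodule F (Fin n → F) := Submodule.span F (Set.range b.1)
  let Y : Submodule F (Fin n → F) := Submodule.span F (Set.range c.1)
  let e₁ := Module.Basis.span b.2.1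
  let e₂ := Module.Basis.span c.2.1
  let E : X ≃ₗ[F] Y := e₁.equiv e₂ (Equiv.refl _)
  let f : X →ₗ[F] (Fin n → F) := Y.subtype ∘ₗ E.toLinearMap
  have hfi : Function.Injective f := Y.injective_subtype.comp E.injective
  have hT : ∀ x x' : X, hermForm n F q (f x) (f x') = hermForm n F q x x' := by
    intro x x'
    have h1 : hermForm n F q (x : Fin n → F) x' = 0 := by
      apply h_span_span hf _ x.2 x'.2
      rintro _ ⟨i, rfl⟩ _ ⟨j, rfl⟩
      exact b.2.2 i j
    have h2 : hermForm n F q (f x) (f x') = 0 := by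
      apply h_span_span hf (s := Set.range c.1) _ (E x).2 (E x').2
      rintro _ ⟨i, rfl⟩ _ ⟨j, rfl⟩
      exact c.2.2 i j
    rw [h1, h2]
  obtain ⟨g, hg, hgf⟩ := Cfsg.Agent.Lib.Witt.extend (Cfsg.Agent.Lib.UnitaryOrder.hasStep_herm hF n) X f hfi hT
  refine ⟨⟨glLE.symm g, ?_⟩, ?_⟩
  · intro u v
    have e1 : ∀ x, ((glLE.symm g : Matrix.GeneralLinearGroup (Fin n) F) : Matrix _ _ F) *ᵥ x = g x := by
      intro x
      rw [← glLE_apply, Equiv.apply_symm_apply]
    show hermForm n F q (((glLE.symm g : Matrix.GeneralLinearGroup (Fin n) F) : Matrix _ _ F) *ᵥ u)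
      (((glLE.symm g : Matrix.GeneralLinearGroup (Fin n) F) : Matrix _ _ F) *ᵥ v) = _
    rw [e1, e1]
    exact hg u v
  · intro i
    have e1 : ∀ x, ((glLE.symm g : Matrix.GeneralLinearGroup (Fin n) F) : Matrix _ _ F) *ᵥ x = g x := by
      intro x
      rw [← glLE_apply, Equiv.apply_symm_apply]
    show ((glLE.symm g : Matrix.GeneralLinearGroup (Fin n) F) : Matrix _ _ F) *ᵥ b.1 i = c.1 i
    rw [e1]
    have h1 : ((e₁ i : X) : Fin n → F) = b.1 i := congrArg Subtype.val (Module.Basis.span_apply b.2.1 i)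
    have h2 := hgf (e₁ i)
    rw [h1] at h2
    rw [h2]
    show ((E (e₁ i) : Y) : Fin n → F) = c.1 i
    have h3 : E (e₁ i) = e₂ i := by simp [E]
    rw [h3]
    exact congrArg Subtype.val (Module.Basis.span_apply c.2.1 i)

/-- The pointwise stabiliser of a tuple. -/
abbrev Fix {k : ℕ} (b : HT n k F q) := {A : GG n F q // ∀ i, A.1.1 *ᵥ b.1 i = b.1 i}

theorem card_fiber_move (hF : Fintype.card F = q ^ 2) {k : ℕ} (b c : HT n k F q) :
    Nat.card {A : GG n F q // moveT A b = c} = Nat.card (Fix b) := by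
  obtain ⟨A₀, hA₀⟩ := exists_gu_move hF b c
  have hc : ∀ i, A₀.1.1 *ᵥ b.1 i = c.1 i := hA₀
  refine Nat.card_congr ⟨fun A => ⟨A₀⁻¹ * A.1, ?_⟩, fun B => ⟨A₀ * B.1, ?_⟩, ?_, ?_⟩
  · intro i
    rw [gu_mul_mulVec]
    have : A.1.1.1 *ᵥ b.1 i = c.1 i := congrFun (congrArg Subtype.val A.2) i
    rw [this, ← hc, gu_inv_mul]
  · apply Subtype.ext
    funext i
    show (A₀ * B.1).1.1 *ᵥ b.1 i = c.1 i
    rw [gu_mul_mulVec, B.2 i, hc]
  · intro A
    apply Subtype.ext
    simp
  · intro B
    apply Subtype.ext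
    simp

instance {k : ℕ} : Finite (HT n k F q) := by
  unfold HT
  infer_instance

theorem card_gu_eq (hF : Fintype.card F = q ^ 2) {k : ℕ} (b : HT n k F q) :
    Nat.card (GG n F q) = Nat.card (HT n k F q) * Nat.card (Fix b) := by
  exact Cfsg.Agent.Lib.SylowCount.card_eq_mul_of_fibers (fun A => moveT A b) _ (card_fiber_move hF b)

end Move

/-- The stabiliser of a subspace in the unitary group. -/
abbrev StabG (W : Submodule F (Fin n → F)) : Subgroup (GG n F q) :=
  (stabilizing (glToMat (Fin n) F) (W : Set (Fin n → F))).subgroupOf (GU n F q)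

theorem mem_StabG {W : Submodule F (Fin n → F)} {A : GG n F q} :
    A ∈ StabG (q := q) W ↔ ∀ v, v ∈ W ↔ A.1.1 *ᵥ v ∈ W := by
  rw [Subgroup.mem_subgroupOf]
  exact Iff.rfl

/-- Membership in the stabiliser from the image of a basis. -/
theorem mem_stab_of_move {k : ℕ} {W : Submodule F (Fin n → F)} (b c : HT n k F q)
    (hb : Submodule.span F (Set.range b.1) = W) (hc : Submodule.span F (Set.range c.1) = W) {A : GG n F q}
    (hA : ∀ i, A.1.1 *ᵥ b.1 i = c.1 i) : A ∈ StabG (q := q) W := by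
  rw [mem_StabG]
  intro v
  have h1 : Submodule.map (Matrix.mulVecLin A.1.1) W = W := by
    rw [← hb, Submodule.map_span, ← Set.range_comp]
    rw [hb] at *
    conv_rhs => rw [← hc]
    congr 2
    funext i
    exact hA i
  constructor
  · intro hv
    have : Matrix.mulVecLin A.1.1 v ∈ Submodule.map (Matrix.mulVecLin A.1.1) W := Submodule.mem_map_of_mem hv
    rw [h1] at this
    exact this
  · intro hv
    have h2 : A.1.1 *ᵥ v ∈ Submodule.map (Matrix.mulVecLin A.1.1) W := by
      rw [h1]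
      exact hv
    obtain ⟨u, hu, hu2⟩ := h2
    have : u = v := gu_injective A hu2
    rw [← this]
    exact hu

theorem card_stab_eq [Fintype F] (hF : Fintype.card F = q ^ 2) {k : ℕ} (W : Submodule F (Fin n → F))
    (hWk : Module.finrank F W = k)
    (hW : ∀ u ∈ W, ∀ v ∈ W, hermForm n F q u v = 0) (b : HT n k F q) (hb : Submodule.span F (Set.range b.1) = W) :
    Nat.card (StabG (q := q) W) = Nat.card {c : Fin k → W // LinearIndependent F c} * Nat.card (Fix b) := by
  have hbW : ∀ i, b.1 i ∈ W := fun i => by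
    rw [← hb]
    exact Submodule.subset_span ⟨i, rfl⟩
  haveI : Finite {c : Fin k → W // LinearIndependent F c} := inferInstance
  -- the map to bases
  have hmem : ∀ (A : StabG (q := q) W) (i : Fin k), A.1.1.1 *ᵥ b.1 i ∈ W :=
    fun A i => (mem_StabG.1 A.2 (b.1 i)).1 (hbW i)
  let f : StabG (q := q) W → {c : Fin k → W // LinearIndependent F c} :=
    fun A => ⟨fun i => ⟨A.1.1.1 *ᵥ b.1 i, hmem A i⟩, by
      apply LinearIndependent.of_comp W.subtype
      exact (moveT A.1 b).2.1⟩
  refine Cfsg.Agent.Lib.SylowCount.card_eq_mul_of_fibers f _ ?_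
  intro c
  -- the target tuple
  let c' : HT n k F q := ⟨fun i => (c.1 i : Fin n → F),
    c.2.map' W.subtype (Submodule.ker_subtype W), fun i j => hW _ (c.1 i).2 _ (c.1 j).2⟩
  have hc' : Submodule.span F (Set.range c'.1) = W := by
    apply Submodule.eq_of_le_of_finrank_eq
    · rw [Submodule.span_le]
      rintro _ ⟨i, rfl⟩
      exact (c.1 i).2
    · have := finrank_span_eq_card c'.2.1
      rw [this, hWk]
      simp
  obtain ⟨A₀, hA₀⟩ := exists_gu_move hF b c'
  have hA₀S := mem_stab_of_move b c' hb hc' hA₀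
  refine Nat.card_congr ⟨fun A => ⟨A₀⁻¹ * A.1.1, ?_⟩, fun B => ⟨⟨A₀ * B.1, ?_⟩, ?_⟩, ?_, ?_⟩
  · intro i
    rw [gu_mul_mulVec]
    have h1 : A.1.1.1.1 *ᵥ b.1 i = c'.1 i := by
      have := congrFun (congrArg Subtype.val A.2) i
      exact congrArg Subtype.val this
    rw [h1, ← hA₀, gu_inv_mul]
  · apply Subgroup.mul_mem _ hA₀S
    exact mem_stab_of_move b b hb hb B.2
  · apply Subtype.ext
    funext i
    apply Subtype.ext
    show (A₀ * B.1).1.1 *ᵥ b.1 i = c'.1 i
    rw [gu_mul_mulVec, B.2 i, hA₀]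
  · intro A
    apply Subtype.ext
    apply Subtype.ext
    simp
  · intro B
    apply Subtype.ext
    simp

theorem exists_tuple {k : ℕ} (W : Submodule F (Fin n → F)) (hWk : Module.finrank F W = k)
    (hW : ∀ u ∈ W, ∀ v ∈ W, hermForm n F q u v = 0) :
    ∃ b : HT n k F q, Submodule.span F (Set.range b.1) = W := by
  let e := Module.finBasisOfFinrankEq F W hWk
  refine ⟨⟨fun i => (e i : Fin n → F), e.linearIndependent.map' W.subtype (Submodule.ker_subtype W),
    fun i j => hW _ (e i).2 _ (e j).2⟩, ?_⟩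
  have h1 := e.span_eq
  have h2 := congrArg (Submodule.map W.subtype) h1
  rw [Submodule.map_span, ← Set.range_comp] at h2
  simpa [Function.comp_def] using h2

section Count

/-- Forgetting the last vector. -/
def initT {k : ℕ} (c : HT n (k + 1) F q) : HT n k F q := ⟨Fin.init c.1, by
  have := c.2.1
  rw [← Fin.snoc_init_self c.1, linearIndependent_fin_snoc] at this
  exact this.1, fun i j => c.2.2 _ _⟩

/-- Vectors extending a tuple. -/
abbrev FIB {k : ℕ} (b : HT n k F q) :=
  {v : Fin n → F // (∀ j, hermForm n F q (b.1 j) v = 0) ∧ hermForm n F q v v = 0 ∧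
    v ∉ Submodule.span F (Set.range b.1)}

variable [Fintype F]

theorem fiber_equiv (hF : Fintype.card F = q ^ 2) {k : ℕ} (b : HT n k F q) :
    Nat.card {c : HT n (k + 1) F q // initT c = b} = Nat.card (FIB b) := by
  obtain ⟨σ, hσ⟩ := Cfsg.Agent.Lib.UnitaryHerm.exists_sigma hF
  have hf := Cfsg.Agent.Lib.UnitaryHerm.hermForm_isUnitary (n := n) hF hσ
  refine Nat.card_congr ⟨fun c => ⟨c.1.1 (Fin.last k), ?_, ?_, ?_⟩,
    fun v => ⟨⟨Fin.snoc b.1 v.1, ?_, ?_⟩, ?_⟩, ?_, ?_⟩
  · obtain ⟨c, rfl⟩ := c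
    intro j
    exact c.2.2 _ _
  · exact c.1.2.2 _ _
  · obtain ⟨c, rfl⟩ := c
    have := c.2.1
    rw [← Fin.snoc_init_self c.1, linearIndependent_fin_snoc] at this
    simpa [initT] using this.2
  · rw [linearIndependent_fin_snoc]
    exact ⟨b.2.1, v.2.2.2⟩
  · intro i j
    have hv := v.2.1
    refine Fin.lastCases ?_ (fun i => ?_) i <;> refine Fin.lastCases ?_ (fun j => ?_) j
    · simp only [Fin.snoc_last]
      exact v.2.2.1
    · simp only [Fin.snoc_last, Fin.snoc_castSucc]
      exact f_comm_zero hf (hv j)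
    · simp only [Fin.snoc_last, Fin.snoc_castSucc]
      exact hv i
    · simp only [Fin.snoc_castSucc]
      exact b.2.2 i j
  · apply Subtype.ext
    funext i
    simp [initT, Fin.init]
  · intro c
    apply Subtype.ext
    apply Subtype.ext
    obtain ⟨c, rfl⟩ := c
    simp [initT]
  · intro v
    apply Subtype.ext
    simp

theorem card_FIB_le (hF : Fintype.card F = q ^ 2) {k : ℕ} (b c : HT n k F q) :
    Nat.card (FIB b) ≤ Nat.card (FIB c) := by
  obtain ⟨A, hA⟩ := exists_gu_move hF b c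
  have hspan : Submodule.span F (Set.range c.1) =
      Submodule.map (Matrix.mulVecLin A.1.1) (Submodule.span F (Set.range b.1)) := by
    rw [Submodule.map_span, ← Set.range_comp]
    congr 2
    funext i
    exact (hA i).symm
  refine Nat.card_le_card_of_injective (fun v => ⟨A.1.1 *ᵥ v.1, ?_, ?_, ?_⟩) ?_
  · intro j
    rw [← hA j, gu_pres]
    exact v.2.1 j
  · rw [gu_pres]
    exact v.2.2.1
  · rw [hspan]
    rintro ⟨u, hu, hu2⟩
    have : u = v.1 := gu_injective A hu2
    exact v.2.2.2 (this ▸ hu)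
  · intro u v h
    apply Subtype.ext
    exact gu_injective A (congrArg Subtype.val h)

theorem card_FIB_eq (hF : Fintype.card F = q ^ 2) {k : ℕ} (b c : HT n k F q) :
    Nat.card (FIB b) = Nat.card (FIB c) :=
  le_antisymm (card_FIB_le hF b c) (card_FIB_le hF c b)

theorem card_HT_succ (hF : Fintype.card F = q ^ 2) {k : ℕ} (b : HT n k F q) :
    Nat.card (HT n (k + 1) F q) = Nat.card (HT n k F q) * Nat.card (FIB b) := by
  refine Cfsg.Agent.Lib.SylowCount.card_eq_mul_of_fibers initT _ ?_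
  intro c
  rw [fiber_equiv hF c, card_FIB_eq hF c b]

end Count

section Split

variable [Fintype F] {i r : ℕ} (ψ : Fin n ≃ (Fin i ⊕ Fin i) ⊕ Fin r)

theorem herm_split (u v : Fin n → F) :
    hermForm n F q u v =
      (∑ j, u (ψ.symm (.inl (.inl j))) * v (ψ.symm (.inl (.inl j))) ^ q) +
      (∑ j, u (ψ.symm (.inl (.inr j))) * v (ψ.symm (.inl (.inr j))) ^ q) +
      hermForm r F q (fun l => u (ψ.symm (.inr l))) (fun l => v (ψ.symm (.inr l))) := by
  unfold hermForm
  rw [← Equiv.sum_comp ψ.symm, Fintype.sum_sum_type, Fintype.sum_sum_type]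

/-- The standard tuple. -/
def stdv (t : F) (j : Fin i) : Fin n → F := fun x => Sum.elim (Sum.elim (Pi.single j 1) (Pi.single j t)) 0 (ψ x)

theorem stdv_a (t : F) (j j' : Fin i) : stdv ψ t j (ψ.symm (.inl (.inl j'))) = (Pi.single j 1 : Fin i → F) j' := by
  simp [stdv]

theorem stdv_b (t : F) (j j' : Fin i) : stdv ψ t j (ψ.symm (.inl (.inr j'))) = (Pi.single j t : Fin i → F) j' := by
  simp [stdv]

theorem stdv_w (t : F) (j : Fin i) (l : Fin r) : stdv ψ t j (ψ.symm (.inr l)) = 0 := by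
  simp [stdv]

theorem herm_stdv (t : F) (j : Fin i) (v : Fin n → F) :
    hermForm n F q (stdv ψ t j) v = v (ψ.symm (.inl (.inl j))) ^ q + t * v (ψ.symm (.inl (.inr j))) ^ q := by
  rw [herm_split ψ]
  simp only [stdv_a, stdv_b, stdv_w]
  have h0 : hermForm r F q (fun _ => (0 : F)) (fun l => v (ψ.symm (.inr l))) = 0 := by
    simp [hermForm]
  rw [h0, add_zero]
  congr 1
  · rw [Finset.sum_eq_single j]
    · simp
    · intro b _ hb
      simp [Pi.single_eq_of_ne hb]
    · simp
  · rw [Finset.sum_eq_single j]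
    · simp
    · intro b _ hb
      simp [Pi.single_eq_of_ne hb]
    · simp

theorem pow_q_inj (hF : Fintype.card F = q ^ 2) {x y : F} (h : x ^ q = y ^ q) : x = y := by
  have := congrArg (· ^ q) h
  simpa only [Cfsg.Agent.Lib.UnitaryHerm.pow_q_q hF] using this

theorem hb_iff (hF : Fintype.card F = q ^ 2) {t : F} (ht : t * t ^ q = -1) (v : Fin n → F) (j : Fin i) :
    hermForm n F q (stdv ψ t j) v = 0 ↔ v (ψ.symm (.inl (.inr j))) = t * v (ψ.symm (.inl (.inl j))) := by
  rw [herm_stdv]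
  constructor
  · intro h
    apply pow_q_inj hF
    rw [mul_pow]
    linear_combination (-t ^ q) * h + (v (ψ.symm (.inl (.inr j))) ^ q) * ht
  · intro h
    rw [h, mul_pow]
    linear_combination (v (ψ.symm (.inl (.inl j))) ^ q) * ht

theorem stdv_iso (hF : Fintype.card F = q ^ 2) {t : F} (ht : t * t ^ q = -1) (j j' : Fin i) :
    hermForm n F q (stdv ψ t j) (stdv ψ t j') = 0 := by
  rw [hb_iff ψ hF ht, stdv_a, stdv_b]
  by_cases h : j = j'
  · subst h
    simp
  · simp [Pi.single_eq_of_ne h]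

theorem stdv_li (t : F) : LinearIndependent F (stdv ψ t : Fin i → Fin n → F) := by
  let L : (Fin n → F) →ₗ[F] (Fin i → F) := LinearMap.funLeft F F (fun j => ψ.symm (.inl (.inl j)))
  apply LinearIndependent.of_comp L
  have : (L ∘ stdv ψ t : Fin i → Fin i → F) = (Pi.basisFun F (Fin i)) := by
    funext j j'
    simp only [Function.comp, L, LinearMap.funLeft_apply, stdv_a, Pi.basisFun_apply]
  rw [this]
  exact (Pi.basisFun F (Fin i)).linearIndependent

/-- The standard tuple as an element of `HT`. -/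
def stdT (hF : Fintype.card F = q ^ 2) {t : F} (ht : t * t ^ q = -1) : HT n i F q :=
  ⟨stdv ψ t, stdv_li ψ t, stdv_iso ψ hF ht⟩

theorem herm_self_of (hF : Fintype.card F = q ^ 2) {t : F} (ht : t * t ^ q = -1) {v : Fin n → F}
    (hv : ∀ j, v (ψ.symm (.inl (.inr j))) = t * v (ψ.symm (.inl (.inl j)))) :
    hermForm n F q v v = hermForm r F q (fun l => v (ψ.symm (.inr l))) (fun l => v (ψ.symm (.inr l))) := by
  rw [herm_split ψ]
  simp only [hv, mul_pow]
  rw [← Finset.sum_add_distrib, Finset.sum_eq_zero, zero_add]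
  intro j _
  linear_combination (v (ψ.symm (.inl (.inl j))) * v (ψ.symm (.inl (.inl j))) ^ q) * ht

theorem mem_span_iff {t : F} {v : Fin n → F}
    (hv : ∀ j, v (ψ.symm (.inl (.inr j))) = t * v (ψ.symm (.inl (.inl j)))) :
    v ∈ Submodule.span F (Set.range (stdv ψ t : Fin i → Fin n → F)) ↔ (fun l => v (ψ.symm (.inr l))) = 0 := by
  constructor
  · intro h
    let L : (Fin n → F) →ₗ[F] (Fin r → F) := LinearMap.funLeft F F (fun l => ψ.symm (.inr l))
    have h2 : Submodule.span F (Set.range (stdv ψ t : Fin i → Fin n → F)) ≤ LinearMap.ker L := by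
      rw [Submodule.span_le]
      rintro _ ⟨j, rfl⟩
      rw [SetLike.mem_coe, LinearMap.mem_ker]
      funext l
      simp only [L, LinearMap.funLeft_apply, stdv_w, Pi.zero_apply]
    exact h2 h
  · intro h
    have e : v = ∑ j, v (ψ.symm (.inl (.inl j))) • stdv ψ t j := by
      funext x
      obtain ⟨y, rfl⟩ := ψ.symm.surjective x
      simp only [Finset.sum_apply, Pi.smul_apply, smul_eq_mul]
      rcases y with (j | j) | l
      · simp only [stdv_a]
        rw [Finset.sum_eq_single j]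
        · simp
        · intro b _ hb
          simp [Pi.single_eq_of_ne (Ne.symm hb)]
        · simp
      · simp only [stdv_b]
        rw [Finset.sum_eq_single j, hv j]
        · simp [mul_comm]
        · intro b _ hb
          simp [Pi.single_eq_of_ne (Ne.symm hb)]
        · simp
      · simp only [stdv_w]
        simpa using congrFun h l
    rw [e]
    exact Submodule.sum_mem _ (fun j _ => Submodule.smul_mem _ _ (Submodule.subset_span ⟨j, rfl⟩))

/-- Non-zero isotropic vectors. -/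
abbrev RR (r : ℕ) (F : Type*) [Field F] (q : ℕ) := {w : Fin r → F // hermForm r F q w w = 0 ∧ w ≠ 0}

theorem card_FIB_std (hF : Fintype.card F = q ^ 2) {t : F} (ht : t * t ^ q = -1) :
    Nat.card (FIB (stdT ψ hF ht)) = (q ^ 2) ^ i * Nat.card (RR r F q) := by
  have e : FIB (stdT ψ hF ht) ≃ (Fin i → F) × RR r F q := by
    refine ⟨fun v => (fun j => v.1 (ψ.symm (.inl (.inl j))), ⟨fun l => v.1 (ψ.symm (.inr l)), ?_, ?_⟩),
      fun p => ⟨fun x => Sum.elim (Sum.elim p.1 (t • p.1)) p.2.1 (ψ x), ?_⟩, ?_, ?_⟩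
    · have hv := fun j => (hb_iff ψ hF ht v.1 j).1 (v.2.1 j)
      rw [← herm_self_of ψ hF ht hv]
      exact v.2.2.1
    · have hv := fun j => (hb_iff ψ hF ht v.1 j).1 (v.2.1 j)
      intro h
      exact v.2.2.2 ((mem_span_iff ψ hv).2 h)
    · have hv : ∀ j, (fun x => Sum.elim (Sum.elim p.1 (t • p.1)) p.2.1 (ψ x)) (ψ.symm (.inl (.inr j))) =
          t * (fun x => Sum.elim (Sum.elim p.1 (t • p.1)) p.2.1 (ψ x)) (ψ.symm (.inl (.inl j))) := by
        intro j
        simp
      have hw : (fun l => (fun x => Sum.elim (Sum.elim p.1 (t • p.1)) p.2.1 (ψ x)) (ψ.symm (.inr l))) = p.2.1 := by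
        funext l
        simp
      refine ⟨fun j => (hb_iff ψ hF ht _ j).2 (hv j), ?_, ?_⟩
      · rw [herm_self_of ψ hF ht hv, hw]
        exact p.2.2.1
      · show _ ∉ Submodule.span F (Set.range (stdv ψ t : Fin i → Fin n → F))
        rw [mem_span_iff ψ hv, hw]
        exact p.2.2.2
    · intro v
      apply Subtype.ext
      funext x
      obtain ⟨y, rfl⟩ := ψ.symm.surjective x
      have hv := fun j => (hb_iff ψ hF ht v.1 j).1 (v.2.1 j)
      rcases y with (j | j) | l
      · simp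
      · simp [hv j]
      · simp
    · rintro ⟨a, w⟩
      apply Prod.ext
      · funext j
        simp
      · apply Subtype.ext
        funext l
        simp
  rw [Nat.card_congr e, Nat.card_prod, Nat.card_fun, Nat.card_fin, Nat.card_eq_fintype_card, hF]

theorem card_RR (r : ℕ) (q : ℕ) (hq : q ≠ 0) :
    Nat.card (RR r F q) + 1 = Nat.card {w : Fin r → F // hermForm r F q w w = 0} := by
  have h := Set.ncard_diff_singleton_add_one (s := {w : Fin r → F | hermForm r F q w w = 0}) (a := 0)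
    (by simp [hermForm, hq]) (Set.toFinite _)
  have e1 : Nat.card {w : Fin r → F // hermForm r F q w w = 0} = ({w : Fin r → F | hermForm r F q w w = 0}).ncard :=
    (Nat.card_coe_set_eq _)
  have e2 : Nat.card (RR r F q) = ({w : Fin r → F | hermForm r F q w w = 0} \ {0}).ncard :=
    (Nat.card_coe_set_eq _)
  rw [e1, e2, h]

end Split

section Arith

variable [Fintype F]

/-- The factors in the order of the unitary group. -/
def dd (q i : ℕ) : ℕ := if Even i then q ^ (i + 1) + 1 else q ^ (i + 1) - 1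

/-- The order of the unitary group. -/
def GO (q r : ℕ) : ℕ := q ^ (r * (r - 1) / 2) * ∏ i ∈ Finset.range r, dd q i

theorem dd_cast (hq : 1 ≤ q) (i : ℕ) : (dd q i : ℤ) = (q : ℤ) ^ (i + 1) + (-1) ^ i := by
  unfold dd
  by_cases h : Even i
  · simp [h, h.neg_one_pow]
  · have h2 : Odd i := Nat.not_even_iff_odd.1 h
    rw [if_neg h, h2.neg_one_pow, Nat.cast_sub (Nat.one_le_pow _ _ hq)]
    simp [sub_eq_add_neg]

theorem tri_step (r : ℕ) : (r + 2) * (r + 2 - 1) / 2 = r * (r - 1) / 2 + (2 * r + 1) := by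
  have h : (r + 2) * (r + 2 - 1) = r * (r - 1) + 2 * (2 * r + 1) := by
    cases r with
    | zero => simp
    | succ s =>
      simp only [Nat.add_sub_cancel, show s + 1 + 2 - 1 = s + 2 by omega]
      ring
  rw [h, Nat.add_mul_div_left _ _ (by norm_num)]

theorem GO_step (q r : ℕ) : GO q (r + 2) = q ^ (2 * r + 1) * (dd q (r + 1) * dd q r) * GO q r := by
  unfold GO
  rw [tri_step, Finset.prod_range_succ, Finset.prod_range_succ, pow_add]
  ring

theorem card_RR_add_two (hF : Fintype.card F = q ^ 2) (r : ℕ) :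
    Nat.card (RR (r + 2) F q) = dd q (r + 1) * dd q r := by
  have hq := Cfsg.Agent.Lib.UnitaryHerm.q_two_le hF
  have h1 := card_RR (F := F) (r + 2) q (by omega)
  have h2 := Cfsg.Agent.Lib.FormCount.herm_zero_closed hF (r + 1)
  rw [show r + 1 + 1 = r + 2 by omega, ← h1] at h2
  have h3 : (Nat.card (RR (r + 2) F q) : ℤ) = ((dd q (r + 1) * dd q r : ℕ) : ℤ) := by
    push_cast at h2 ⊢
    rw [dd_cast (by omega), dd_cast (by omega)]
    rw [show r + 1 + 1 = r + 2 by omega, pow_succ (-1 : ℤ) r] at *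
    linear_combination h2
  exact_mod_cast h3

theorem exists_t (hF : Fintype.card F = q ^ 2) : ∃ t : F, t * t ^ q = -1 := by
  obtain ⟨σ, hσ⟩ := Cfsg.Agent.Lib.UnitaryHerm.exists_sigma hF
  obtain ⟨l, hl⟩ := Cfsg.Agent.Lib.UnitaryHerm.norm_surjective hF hσ (-1) (by simp)
  exact ⟨l, by rwa [hσ] at hl⟩

theorem card_HT_succ' (hF : Fintype.card F = q ^ 2) {k r : ℕ} (h : n = k + k + r) :
    Nat.card (HT n (k + 1) F q) = Nat.card (HT n k F q) * ((q ^ 2) ^ k * Nat.card (RR r F q)) := by
  have ψ : Fin n ≃ (Fin k ⊕ Fin k) ⊕ Fin r := Fintype.equivOfCardEq (by simp [h])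
  obtain ⟨t, ht⟩ := exists_t hF
  rw [card_HT_succ hF (stdT ψ hF ht), card_FIB_std ψ hF ht]

theorem card_HT_mul (hF : Fintype.card F = q ^ 2) (k : ℕ) (hk : 2 * k ≤ n) :
    Nat.card (HT n k F q) * (q ^ (k * (2 * n - 3 * k)) * GO q (n - 2 * k)) = GO q n := by
  induction k with
  | zero =>
    haveI : Unique (HT n 0 F q) := ⟨⟨⟨Fin.elim0, linearIndependent_empty_type, fun i => i.elim0⟩⟩, by
      intro a
      apply Subtype.ext
      funext i
      exact i.elim0⟩
    simp
  | succ k ih =>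
    obtain ⟨r, rfl⟩ : ∃ r, n = k + k + (r + 2) := ⟨n - 2 * k - 2, by omega⟩
    have ih' := ih (by omega)
    rw [show k + k + (r + 2) - 2 * k = r + 2 by omega, GO_step] at ih'
    rw [show k + k + (r + 2) - 2 * (k + 1) = r by omega, card_HT_succ' hF (k := k) (r := r + 2) rfl, card_RR_add_two hF,
      ← ih']
    rw [show 2 * (k + k + (r + 2)) - 3 * (k + 1) = k + 2 * r + 1 by omega,
      show 2 * (k + k + (r + 2)) - 3 * k = k + 2 * r + 4 by omega]
    have e : (k + 1) * (k + 2 * r + 1) + 2 * k = k * (k + 2 * r + 4) + (2 * r + 1) := by ring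
    have e2 : (q ^ 2) ^ k * q ^ ((k + 1) * (k + 2 * r + 1)) = q ^ (k * (k + 2 * r + 4)) * q ^ (2 * r + 1) := by
      rw [← pow_mul, ← pow_add, ← pow_add, add_comm (2 * k), e]
    calc _ = Nat.card (HT (k + k + (r + 2)) k F q) * ((q ^ 2) ^ k * q ^ ((k + 1) * (k + 2 * r + 1))) * (dd q (r + 1) * dd q r) * GO q r := by ring
      _ = _ := by rw [e2]; ring

theorem card_GU_GO (hF : Fintype.card F = q ^ 2) (n : ℕ) : Nat.card (GU n F q) = GO q n := by
  rw [Cfsg.Agent.Lib.UnitaryOrder.card_GU hF n]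
  rfl

theorem card_Fix (hF : Fintype.card F = q ^ 2) {k : ℕ} (hk : 2 * k ≤ n) (b : HT n k F q) :
    Nat.card (Fix b) = q ^ (k * (2 * n - 3 * k)) * GO q (n - 2 * k) := by
  have h1 := card_gu_eq hF b
  have h2 := card_HT_mul (F := F) hF k hk
  rw [card_GU_GO hF] at h1
  have hpos : 0 < Nat.card (HT n k F q) := by
    haveI : Nonempty (HT n k F q) := ⟨b⟩
    exact Nat.card_pos
  exact Nat.eq_of_mul_eq_mul_left hpos (h1.symm.trans h2.symm)

theorem card_StabG (hF : Fintype.card F = q ^ 2) {k : ℕ} (hk : 2 * k ≤ n) (W : Submodule F (Fin n → F))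
    (hWk : Module.finrank F W = k) (hW : ∀ u ∈ W, ∀ v ∈ W, hermForm n F q u v = 0) :
    Nat.card (StabG (q := q) W) =
      (∏ i : Fin k, ((q ^ 2) ^ k - (q ^ 2) ^ (i : ℕ))) * (q ^ (k * (2 * n - 3 * k)) * GO q (n - 2 * k)) := by
  obtain ⟨b, hb⟩ := exists_tuple (q := q) W hWk hW
  rw [card_stab_eq hF W hWk hW b hb, card_Fix hF hk b]
  congr 1
  have := card_linearIndependent (K := F) (V := W) (k := k) (by rw [hWk])
  rw [this, hWk, hF]

/-- Hilbert 90. -/
theorem exists_lam (hF : Fintype.card F = q ^ 2) {z : F} (hz : z * z ^ q = 1) :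
    ∃ l : F, l ≠ 0 ∧ l = z * l ^ q := by
  obtain ⟨σ, hσ⟩ := Cfsg.Agent.Lib.UnitaryHerm.exists_sigma hF
  have hf := Cfsg.Agent.Lib.UnitaryHerm.hermForm_isUnitary (n := 1) hF hσ
  by_cases h : z = -1
  · obtain ⟨d, hd, hd2⟩ := exists_tr0 hf
    refine ⟨d, hd, ?_⟩
    rw [hσ] at hd2
    subst h
    linear_combination hd2
  · refine ⟨1 + z, fun h0 => h (by linear_combination h0), ?_⟩
    have : (1 + z) ^ q = 1 + z ^ q := by
      rw [← hσ, map_add, map_one, hσ]
    rw [this]
    linear_combination -hz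

end Arith

section Oper

variable [Fintype F]

/-- The diagonal unitary transformation on a hyperbolic pair. -/
def PP (e f : Fin n → F) (l m : F) : Matrix (Fin n) (Fin 2) F :=
  Matrix.of (fun i => ![(l - 1) * e i, (m - 1) * f i])

/-- The diagonal unitary transformation on a hyperbolic pair. -/
def QQ (q : ℕ) (e f : Fin n → F) : Matrix (Fin 2) (Fin n) F :=
  Matrix.of ![fun i => f i ^ q, fun i => e i ^ q]

theorem TT_mulVec (e f : Fin n → F) (l m : F) (x : Fin n → F) :
    (1 + PP e f l m * QQ q e f) *ᵥ x = x + ((l - 1) * hermForm n F q x f) • e + ((m - 1) * hermForm n F q x e) • f := by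
  rw [Matrix.add_mulVec, Matrix.one_mulVec, ← Matrix.mulVec_mulVec, add_assoc]
  congr 1
  funext i
  simp [PP, QQ, Matrix.mulVec, dotProduct, Fin.sum_univ_two, hermForm, mul_comm]
  ring

theorem TT_det (e f : Fin n → F) (l m : F) (h1 : hermForm n F q e f = 1) (h2 : hermForm n F q f e = 1)
    (h3 : hermForm n F q e e = 0) (h4 : hermForm n F q f f = 0) :
    (1 + PP e f l m * QQ q e f).det = l * m := by
  rw [Matrix.det_one_add_mul_comm]
  have e1 : ∑ x, f x ^ q * e x = 1 := by
    rw [← h1]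
    simp [hermForm, mul_comm]
  have e2 : ∑ x, e x ^ q * f x = 1 := by
    rw [← h2]
    simp [hermForm, mul_comm]
  have e3 : ∑ x, e x ^ q * e x = 0 := by
    rw [← h3]
    simp [hermForm, mul_comm]
  have e4 : ∑ x, f x ^ q * f x = 0 := by
    rw [← h4]
    simp [hermForm, mul_comm]
  have : 1 + QQ q e f * PP e f l m = !![l, 0; 0, m] := by
    ext i j
    have key : ∀ (a b : Fin n → F) (c : F), ∑ x, a x * (c * b x) = c * ∑ x, a x * b x := by
      intro a b c
      rw [Finset.mul_sum]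
      exact Finset.sum_congr rfl (fun _ _ => by ring)
    fin_cases i <;> fin_cases j <;>
      simp [PP, QQ, Matrix.mul_apply, Matrix.vecMul, dotProduct, key, e1, e2, e3, e4]
  rw [this, Matrix.det_fin_two_of]
  ring

theorem TT_pres (hF : Fintype.card F = q ^ 2) {σ : F ≃+* F} (hf : IsUnitaryForm σ (hermForm n F q))
    (e f : Fin n → F) (l m : F) (h1 : hermForm n F q e f = 1) (h2 : hermForm n F q f e = 1)
    (h3 : hermForm n F q e e = 0) (h4 : hermForm n F q f f = 0) (h5 : l * σ m = 1) (h6 : m * σ l = 1)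
    (x y : Fin n → F) :
    hermForm n F q ((1 + PP e f l m * QQ q e f) *ᵥ x) ((1 + PP e f l m * QQ q e f) *ᵥ y) = hermForm n F q x y := by
  rw [TT_mulVec, TT_mulVec]
  simp only [hf.add_left, f_add_right hf, hf.smul_left, f_smul_right hf, h1, h2, h3, h4, map_mul, map_sub, map_one]
  rw [hf.herm e y, hf.herm f y]
  linear_combination (hermForm n F q x e * σ (hermForm n F q y f)) * h6 +
    (hermForm n F q x f * σ (hermForm n F q y e)) * h5

theorem stab_of_le {W : Submodule F (Fin n → F)} (A : GG n F q) (h : ∀ v ∈ W, A.1.1 *ᵥ v ∈ W) :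
    A ∈ StabG (q := q) W := by
  rw [mem_StabG]
  intro v
  refine ⟨h v, fun hv => ?_⟩
  have hinj : Function.Injective (Matrix.mulVecLin A.1.1) := gu_injective A
  have h1 : Submodule.map (Matrix.mulVecLin A.1.1) W = W := by
    apply Submodule.eq_of_le_of_finrank_eq
    · rintro _ ⟨u, hu, rfl⟩
      exact h u hu
    · exact (Submodule.equivMapOfInjective _ hinj W).finrank_eq.symm
  have h2 : A.1.1 *ᵥ v ∈ Submodule.map (Matrix.mulVecLin A.1.1) W := by
    rw [h1]
    exact hv
  obtain ⟨u, hu, hu2⟩ := h2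
  have : u = v := gu_injective A hu2
  rw [← this]
  exact hu

theorem exists_stab_det (hF : Fintype.card F = q ^ 2) {k : ℕ} (hk1 : 1 ≤ k) (W : Submodule F (Fin n → F))
    (hWk : Module.finrank F W = k) (hW : ∀ u ∈ W, ∀ v ∈ W, hermForm n F q u v = 0) {z : F} (hz : z ^ (q + 1) = 1) :
    ∃ A : StabG (q := q) W, (A.1.1.1).det = z := by
  obtain ⟨σ, hσ⟩ := Cfsg.Agent.Lib.UnitaryHerm.exists_sigma hF
  have hf := Cfsg.Agent.Lib.UnitaryHerm.hermForm_isUnitary (n := n) hF hσ
  obtain ⟨b, hb⟩ := exists_tuple (q := q) W hWk hW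
  let e : Fin n → F := b.1 ⟨0, hk1⟩
  have heW : e ∈ W := by
    rw [← hb]
    exact Submodule.subset_span ⟨_, rfl⟩
  have he0 : e ≠ 0 := b.2.1.ne_zero _
  have hee : hermForm n F q e e = 0 := hW _ heW _ heW
  obtain ⟨f, -, hfe, hff⟩ := Proj.exists_partner hf (proj_top _) Submodule.mem_top he0 hee
  have hef : hermForm n F q e f = 1 := by
    rw [hf.herm, hfe, map_one]
  obtain ⟨l, hl0, hl⟩ := exists_lam hF (z := z) (by rw [← hz, pow_succ'])
  have hσl : σ l ≠ 0 := by simpa using hl0
  let m : F := (σ l)⁻¹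
  have h6 : m * σ l = 1 := inv_mul_cancel₀ hσl
  have h5 : l * σ m = 1 := by
    simp only [m, map_inv₀, hf.involutive]
    exact mul_inv_cancel₀ hl0
  have hdet := TT_det (q := q) e f l m hef hfe hee hff
  have hlm : l * m = z := by
    have : l ^ q = σ l := (hσ l).symm
    rw [this] at hl
    simp only [m]
    field_simp
    linear_combination hl
  have hz0 : z ≠ 0 := by
    intro h
    rw [h, zero_pow (by omega)] at hz
    exact zero_ne_one hz
  let A : Matrix.GeneralLinearGroup (Fin n) F :=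
    Matrix.GeneralLinearGroup.mkOfDetNeZero (1 + PP e f l m * QQ q e f) (by rw [hdet, hlm]; exact hz0)
  have hA : A.1 = 1 + PP e f l m * QQ q e f := rfl
  have hAG : A ∈ GU n F q := by
    intro u v
    exact TT_pres hF hf e f l m hef hfe hee hff h5 h6 u v
  refine ⟨⟨⟨A, hAG⟩, stab_of_le _ ?_⟩, ?_⟩
  · intro v hv
    show A.1 *ᵥ v ∈ W
    rw [hA, TT_mulVec, hW v hv e heW, mul_zero, zero_smul, add_zero]
    exact W.add_mem hv (W.smul_mem _ heW)
  · show A.1.det = z
    rw [hA, hdet, hlm]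

theorem card_Stab_rel (hF : Fintype.card F = q ^ 2) {k : ℕ} (hk : 1 ≤ k) (W : Submodule F (Fin n → F))
    (hWk : Module.finrank F W = k) (hW : ∀ u ∈ W, ∀ v ∈ W, hermForm n F q u v = 0) :
    (q + 1) * Nat.card ((stabilizing (slToMat n F) (W : Set (Fin n → F))).subgroupOf (SU n F q)) =
      Nat.card (StabG (q := q) W) := by
  classical
  have hq := Cfsg.Agent.Lib.UnitaryHerm.q_two_le hF
  let D : StabG (q := q) W →* Fˣ :=
    Matrix.GeneralLinearGroup.det.comp ((GU n F q).subtype.comp (StabG (q := q) W).subtype)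
  have hD : ∀ g : StabG (q := q) W, ((D g : Fˣ) : F) = (g.1.1.1).det := fun g ↦ rfl
  have hker : Nat.card D.ker = Nat.card ((stabilizing (slToMat n F) (W : Set (Fin n → F))).subgroupOf (SU n F q)) := by
    refine Nat.card_congr ?_
    refine
      { toFun := fun g ↦ ⟨⟨⟨g.1.1.1.1, ?_⟩, ?_⟩, ?_⟩
        invFun := fun s ↦ ⟨⟨⟨Matrix.SpecialLinearGroup.toGL s.1.1, ?_⟩, ?_⟩, ?_⟩
        left_inv := ?_
        right_inv := ?_ }
    · have h1 := congrArg Units.val g.2
      simpa [hD] using h1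
    · intro u v
      exact g.1.1.2 u v
    · rw [Subgroup.mem_subgroupOf]
      exact mem_StabG.1 g.1.2
    · intro u v
      exact s.1.2 u v
    · rw [mem_StabG]
      exact Subgroup.mem_subgroupOf.1 s.2
    · rw [MonoidHom.mem_ker]
      apply Units.ext
      rw [hD]
      exact s.1.1.2
    · rintro ⟨⟨⟨g, hg⟩, hg2⟩, hk⟩
      apply Subtype.ext
      apply Subtype.ext
      apply Subtype.ext
      apply Units.ext
      rfl
    · rintro ⟨⟨s, hs⟩, hs2⟩
      apply Subtype.ext
      apply Subtype.ext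
      apply Subtype.ext
      rfl
  have hrange : Nat.card D.range = q + 1 := by
    have h1 := Cfsg.Agent.Lib.FormCount.card_norm_fiber hF (one_ne_zero) (one_pow q)
    rw [← h1]
    refine Nat.card_congr (Equiv.ofBijective
      (fun z ↦ ⟨((z.1 : Fˣ) : F), ?_⟩) ⟨?_, ?_⟩)
    · obtain ⟨g, hg⟩ := z.2
      rw [← hg, hD]
      exact Cfsg.Agent.Lib.UnitaryOrder.det_norm hF g.1.2
    · intro a b hab
      apply Subtype.ext
      apply Units.ext
      exact congrArg Subtype.val hab
    · rintro ⟨z, hz⟩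
      obtain ⟨A, hA⟩ := exists_stab_det hF hk W hWk hW hz
      refine ⟨⟨D A, ⟨A, rfl⟩⟩, ?_⟩
      apply Subtype.ext
      exact hA
  have h := Subgroup.card_mul_index D.ker
  rw [Subgroup.index_ker, hker, hrange] at h
  rw [← h, mul_comm]

theorem card_Stab_rel_zero (hF : Fintype.card F = q ^ 2) (hn : 1 ≤ n) (W : Submodule F (Fin n → F))
    (hWk : Module.finrank F W = 0) :
    (q + 1) * Nat.card ((stabilizing (slToMat n F) (W : Set (Fin n → F))).subgroupOf (SU n F q)) =
      Nat.card (StabG (q := q) W) := by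
  have hW0 : W = ⊥ := Submodule.finrank_eq_zero.1 hWk
  subst hW0
  have h1 : StabG (q := q) (⊥ : Submodule F (Fin n → F)) = ⊤ := by
    rw [eq_top_iff]
    intro A _
    apply stab_of_le
    intro v hv
    rw [Submodule.mem_bot] at hv ⊢
    rw [hv, Matrix.mulVec_zero]
  have h2 : (stabilizing (slToMat n F) (((⊥ : Submodule F (Fin n → F))) : Set (Fin n → F))).subgroupOf (SU n F q) = ⊤ := by
    rw [eq_top_iff]
    intro A _
    rw [Subgroup.mem_subgroupOf]
    intro v
    have hinj : Function.Injective (fun v : Fin n → F => (slToMat n F A.1) *ᵥ v) := by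
      intro u w h
      have h3 := gu_injective (⟨Matrix.SpecialLinearGroup.toGL A.1, fun u v => A.2 u v⟩ : GG n F q) h
      exact h3
    constructor
    · intro hv
      have hv' : v = 0 := by simpa using hv
      rw [hv', Matrix.mulVec_zero]
      simp
    · intro hv
      have hv' : (slToMat n F A.1) *ᵥ v = 0 := by simpa using hv
      have : v = 0 := hinj (by simpa using hv')
      simp [this]
  rw [h1, h2, Subgroup.card_top, Subgroup.card_top]
  exact Cfsg.Agent.Lib.UnitaryOrder.card_SU hF hn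

theorem main (hF : Fintype.card F = q ^ 2) (n k : ℕ) (hn : 1 ≤ n) (hk : 2 * k ≤ n) (W : Submodule F (Fin n → F))
    (hWk : Module.finrank F W = k) (hW : ∀ u ∈ W, ∀ v ∈ W, hermForm n F q u v = 0) :
    (q + 1) * Nat.card ↥((stabilizing (slToMat n F) (W : Set (Fin n → F))).subgroupOf (SU n F q)) =
      q ^ (k * (2 * n - 3 * k)) * (∏ i : Fin k, ((q ^ 2) ^ k - (q ^ 2) ^ (i : ℕ))) *
        (q ^ ((n - 2 * k) * ((n - 2 * k) - 1) / 2) *
          ∏ i ∈ Finset.range (n - 2 * k), (if Even i then q ^ (i + 1) + 1 else q ^ (i + 1) - 1)) := by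
  have h : (q + 1) * Nat.card ↥((stabilizing (slToMat n F) (W : Set (Fin n → F))).subgroupOf (SU n F q)) =
      Nat.card (StabG (q := q) W) := by
    by_cases hk0 : k = 0
    · subst hk0
      exact card_Stab_rel_zero hF hn W hWk
    · exact card_Stab_rel hF (by omega) W hWk hW
  rw [h, card_StabG hF hk W hWk hW]
  unfold GO dd
  ring

end Oper

end Cfsg.Agent.Lib.SUParab
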