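import Mathlib
import Cfsg.Agent.Lib.WreathMax
import Cfsg.Agent.Lib.SymIndex

set_option autoImplicit false

namespace Cfsg.Agent.Lib.SecondMax

open Equiv Equiv.Perm Cfsg.Agent.Lib.WreathMax

theorem coatom_transfer {A B : Type*} [Group A] [Group B] (e : A ≃* B) (P : Subgroup A)
    (Q : Subgroup B) (hP : IsCoatom P) (h : ∀ a, a ∈ P ↔ e a ∈ Q) : IsCoatom Q := by
  have h1 : e.mapSubgroup P = Q := by
    ext b
    rw [MulEquiv.coe_mapSubgroup]
    constructor
    · rintro ⟨a, ha, rfl⟩
      exact (h a).1 ha
    · intro hb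
      refine ⟨e.symm b, (h _).2 (by simpa using hb), by simp⟩
  rw [← h1]
  exact (OrderIso.isCoatom_iff (e.mapSubgroup) P).mpr hP

variable {Ω : Type*} [DecidableEq Ω] [Fintype Ω]

/-- `Perm` of the complement of a point is the point stabilizer. -/
noncomputable def stabEquiv (x : Ω) :
    Equiv.Perm {y : Ω // y ≠ x} ≃* MulAction.stabilizer (Equiv.Perm Ω) x :=
  (MonoidHom.ofInjective (f := (Equiv.Perm.ofSubtype : Equiv.Perm {y : Ω // y ≠ x} →* Equiv.Perm Ω))
    Equiv.Perm.ofSubtype_injective).trans
    (MulEquiv.subgroupCongr (by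
      ext g
      rw [MonoidHom.mem_range, MulAction.mem_stabilizer_iff, Equiv.Perm.smul_def]
      constructor
      · rintro ⟨p, rfl⟩
        exact Equiv.Perm.ofSubtype_apply_of_not_mem (p := fun z => z ≠ x) p (by simp)
      · intro hg
        have h2 : ∀ y, g y ≠ x ↔ y ≠ x := by
          intro y
          constructor
          · rintro hy rfl
            exact hy hg
          · intro hy h3
            apply hy
            apply g.injective
            rw [h3, hg]
        refine ⟨g.subtypePerm h2, ?_⟩
        ext y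
        by_cases hy : y = x
        · subst hy
          have e : Equiv.Perm.ofSubtype (g.subtypePerm h2) y = y :=
            Equiv.Perm.ofSubtype_apply_of_not_mem (p := fun z => z ≠ y) _ (by simp)
          exact e.trans hg.symm
        · have := Equiv.Perm.ofSubtype_apply_of_mem (p := fun z => z ≠ x) (g.subtypePerm h2) hy
          rw [this]
          rfl))

omit [Fintype Ω] in
theorem stabEquiv_apply (x : Ω) (p : Equiv.Perm {y : Ω // y ≠ x}) :
    (stabEquiv x p : Equiv.Perm Ω) = Equiv.Perm.ofSubtype p := rfl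

omit [Fintype Ω] in
theorem stabEquiv_apply' (x : Ω) (p : Equiv.Perm {y : Ω // y ≠ x}) (y : {y : Ω // y ≠ x}) :
    (stabEquiv x p : Equiv.Perm Ω) y = p y := by
  rw [stabEquiv_apply]
  exact Equiv.Perm.ofSubtype_apply_coe p y

/-- the fibre map -/
def chi (m : ℕ) (i : Fin (2 * m)) : Fin 2 := if i.val < m then 0 else 1

theorem chi_eq_zero {m : ℕ} (i : Fin (2 * m)) : chi m i = 0 ↔ i.val < m := by
  unfold chi; split_ifs with h <;> simp [h]

theorem chi_eq_one {m : ℕ} (i : Fin (2 * m)) : chi m i = 1 ↔ ¬ i.val < m := by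
  unfold chi; split_ifs with h <;> simp [h]

theorem card_fib0 (m : ℕ) : Nat.card {x : Fin (2 * m) // chi m x = 0} = m := by
  refine (Nat.card_congr (⟨fun y => ⟨y.1.val, (chi_eq_zero _).1 y.2⟩,
      fun j => ⟨⟨j.val, by omega⟩, (chi_eq_zero _).2 j.2⟩, ?_, ?_⟩ :
      {x : Fin (2 * m) // chi m x = 0} ≃ Fin m)).trans (by simp)
  · intro y; apply Subtype.ext; apply Fin.ext; rfl
  · intro j; apply Fin.ext; rfl

theorem card_fib1 (m : ℕ) : Nat.card {x : Fin (2 * m) // chi m x = 1} = m := by
  have h1 : ∀ y : {x : Fin (2 * m) // chi m x = (1 : Fin 2)}, m ≤ y.1.val := fun y => by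
    have := (chi_eq_one _).1 y.2; omega
  refine (Nat.card_congr (⟨fun y => ⟨y.1.val - m, by have := h1 y; have := y.1.2; omega⟩,
      fun j => ⟨⟨j.val + m, by omega⟩, (chi_eq_one _).2 (by simp)⟩, ?_, ?_⟩ :
      {x : Fin (2 * m) // chi m x = 1} ≃ Fin m)).trans (by simp)
  · intro y; apply Subtype.ext; apply Fin.ext; have := h1 y; simp; omega
  · intro j; apply Fin.ext; simp

theorem card_fib (m : ℕ) : ∀ i : Fin 2, Nat.card {x : Fin (2 * m) // chi m x = i} = m := by
  rw [Fin.forall_fin_two]
  exact ⟨card_fib0 m, card_fib1 m⟩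

open scoped Pointwise in
theorem main5894 (m : ℕ) (hm : 2 ≤ m) :
    ∃ M H K : Subgroup (Equiv.Perm (Fin (2 * m))), IsCoatom M ∧ M.index = 2 * m ∧ H ≤ M ∧
      IsCoatom (H.subgroupOf M) ∧ IsCoatom K ∧ H ≤ K ∧ ¬ IsCoatom (H.subgroupOf K) := by
  classical
  let x : Fin (2 * m) := ⟨2 * m - 1, by omega⟩
  let O : Set (Fin (2 * m)) := {i | i.val < m}
  let M : Subgroup (Equiv.Perm (Fin (2 * m))) := MulAction.stabilizer _ x
  let L : Subgroup (Equiv.Perm (Fin (2 * m))) := MulAction.stabilizer _ O
  let H : Subgroup (Equiv.Perm (Fin (2 * m))) := M ⊓ L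
  let K := Wr (chi m)
  have memL : ∀ g : Equiv.Perm (Fin (2 * m)), g ∈ L ↔ ∀ i, (g i).val < m ↔ i.val < m := by
    intro g
    constructor
    · intro hg i
      have h1 : g • O = O := hg
      constructor
      · intro hi
        have h2 : g i ∈ g • O := by rw [h1]; exact hi
        have h3 : i ∈ O := Set.smul_mem_smul_set_iff.1 (show g • i ∈ g • O from h2)
        exact h3
      · intro hi
        have h2 : g i ∈ g • O := Set.smul_mem_smul_set (a := g) hi
        rw [h1] at h2
        exact h2
    · intro hg
      show g • O = O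
      ext i
      rw [Set.mem_smul_set_iff_inv_smul_mem]
      have := hg (g⁻¹ i)
      have e : g (g⁻¹ i) = i := by simp
      rw [e] at this
      exact this.symm
  have hMc : IsCoatom M := by
    have := Equiv.Perm.isCoatom_stabilizer (α := Fin (2 * m)) (s := {x}) (by simp)
      (by
        refine ⟨⟨0, by omega⟩, ?_⟩
        simp only [Set.mem_compl_iff, Set.mem_singleton_iff, x, Fin.mk.injEq]
        omega)
      (by simp; omega)
    simpa [M, MulAction.stabilizer_singleton] using this
  have hHL : H ≤ L := inf_le_right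
  have hLK : L ≤ K := by
    intro g hg
    rw [mem_Wr]
    have h3 := (memL g).1 hg
    have h4 : ∀ i, chi m (g i) = chi m i := by
      intro i
      have := h3 i
      unfold chi
      simp only [this]
    intro a b
    rw [h4, h4]
  refine ⟨M, H, K, hMc, ?_, inf_le_left, ?_, ?_, hHL.trans hLK, ?_⟩
  · have := Cfsg.Agent.Lib.SymIndex.stab_index x
    simpa [M] using this
  · -- `H` is maximal in `M`
    let O' : Set {y : Fin (2 * m) // y ≠ x} := {y | y.1.val < m}
    have hO' : O'.ncard = m := by
      have hn : O'.ncard = Nat.card O' := rfl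
      rw [hn]
      refine (Nat.card_congr (⟨fun y => ⟨y.1.1.val, y.2⟩,
        fun j => ⟨⟨⟨j.val, by omega⟩, by
          simp only [x, ne_eq, Fin.mk.injEq]; have := j.2; omega⟩, j.2⟩, ?_, ?_⟩ : O' ≃ Fin m)).trans (by simp)
      · intro y; apply Subtype.ext; apply Subtype.ext; apply Fin.ext; rfl
      · intro j; apply Fin.ext; rfl
    have hcard : Nat.card {y : Fin (2 * m) // y ≠ x} = 2 * m - 1 := by
      rw [Nat.card_eq_fintype_card, Fintype.card_subtype_compl, Fintype.card_fin]
      simp
    have hc : IsCoatom (MulAction.stabilizer (Equiv.Perm {y : Fin (2 * m) // y ≠ x}) O') := by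
      apply Equiv.Perm.isCoatom_stabilizer
      · refine ⟨⟨⟨0, by omega⟩, ?_⟩, ?_⟩
        · simp only [x, ne_eq, Fin.mk.injEq]; omega
        · show 0 < m
          omega
      · refine ⟨⟨⟨m, by omega⟩, ?_⟩, ?_⟩
        · simp only [x, ne_eq, Fin.mk.injEq]; omega
        · show ¬ (m < m)
          omega
      · rw [hcard, hO']; omega
    refine coatom_transfer (stabEquiv x) _ _ hc ?_
    intro p
    rw [Subgroup.mem_subgroupOf]
    have h5 : ((stabEquiv x p : MulAction.stabilizer (Equiv.Perm (Fin (2 * m))) x) :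
      Equiv.Perm (Fin (2 * m))) ∈ M := (stabEquiv x p).2
    constructor
    · intro hp
      refine ⟨h5, (memL _).2 ?_⟩
      intro i
      by_cases hi : i = x
      · subst hi
        have h6 : ((stabEquiv x p : MulAction.stabilizer (Equiv.Perm (Fin (2 * m))) x) :
          Equiv.Perm (Fin (2 * m))) x = x := h5
        rw [h6]
      · have h7 := stabEquiv_apply' x p ⟨i, hi⟩
        simp only at h7
        rw [h7]
        have h8 : p • O' = O' := hp
        have h9 : p ⟨i, hi⟩ ∈ O' ↔ (⟨i, hi⟩ : {y : Fin (2 * m) // y ≠ x}) ∈ O' := by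
          conv_lhs => rw [← h8]
          exact Set.smul_mem_smul_set_iff
        exact h9
    · rintro ⟨-, h6⟩
      replace h6 := (memL _).1 h6
      show p • O' = O'
      ext y
      rw [Set.mem_smul_set_iff_inv_smul_mem]
      have h7 := stabEquiv_apply' x p (p⁻¹ • y)
      have h8 := h6 ((p⁻¹ • y : {y : Fin (2 * m) // y ≠ x}) : Fin (2 * m))
      rw [h7] at h8
      have e : p (p⁻¹ • y) = y := by simp
      rw [e] at h8
      exact h8.symm
  · exact isCoatom_Wr (a := m) hm (le_refl 2) (chi m) (card_fib m)
  · -- `H` is not maximal in `K`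
    intro hco
    have hlt : H.subgroupOf K < L.subgroupOf K := by
      refine lt_of_le_of_ne (fun a (ha : (a : Equiv.Perm (Fin (2 * m))) ∈ H) => (hHL ha : (a : Equiv.Perm (Fin (2 * m))) ∈ L)) ?_
      intro heq
      -- the swap of `x` with `m`
      let y : Fin (2 * m) := ⟨m, by omega⟩
      have hxy : y ≠ x := by
        simp only [x, y, ne_eq, Fin.mk.injEq]; omega
      have hsL : Equiv.swap y x ∈ L := by
        rw [memL]
        intro i
        simp only [Equiv.swap_apply_def]
        split_ifs with h1 h2
        · subst h1; simp [x, y]; omega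
        · subst h2; simp [x, y]; omega
        · rfl
      have hsK : Equiv.swap y x ∈ K := hLK hsL
      have h1 : (⟨_, hsK⟩ : K) ∈ L.subgroupOf K := hsL
      rw [← heq] at h1
      have h2 : Equiv.swap y x ∈ M := h1.1
      have h3 : Equiv.swap y x x = x := h2
      rw [Equiv.swap_apply_right] at h3
      exact hxy h3
    have htop := hco.2 _ hlt
    -- the block swap
    let w : Equiv.Perm (Fin (2 * m)) :=
      Function.Involutive.toPerm (fun i => ⟨if i.val < m then i.val + m else i.val - m, by
        have := i.2; split_ifs <;> omega⟩) (by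
        intro i
        apply Fin.ext
        have := i.2
        show (if (if i.val < m then i.val + m else i.val - m) < m then
          (if i.val < m then i.val + m else i.val - m) + m else
          (if i.val < m then i.val + m else i.val - m) - m) = i.val
        split_ifs <;> omega)
    have hw : ∀ i, (w i).val = if i.val < m then i.val + m else i.val - m := fun i => rfl
    have hwK : w ∈ K := by
      rw [mem_Wr]
      have h4 : ∀ i, chi m (w i) = 1 ↔ chi m i = 0 := by
        intro i
        rw [chi_eq_one, chi_eq_zero, hw]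
        have := i.2
        split_ifs <;> omega
      have h5 : ∀ i, chi m (w i) = 0 ↔ chi m i = 1 := by
        intro i
        rw [chi_eq_one, chi_eq_zero, hw]
        have := i.2
        split_ifs <;> omega
      intro a b
      have cases2 : ∀ z : Fin 2, z = 0 ∨ z = 1 := by decide
      rcases cases2 (chi m a) with ha | ha <;> rcases cases2 (chi m b) with hb | hb
      · have e1 := (h4 a).2 ha
        have e2 := (h4 b).2 hb
        rw [ha, hb, e1, e2]
        decide
      · have e1 := (h4 a).2 ha
        have e2 := (h5 b).2 hb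
        rw [ha, hb, e1, e2]
        decide
      · have e1 := (h5 a).2 ha
        have e2 := (h4 b).2 hb
        rw [ha, hb, e1, e2]
        decide
      · have e1 := (h5 a).2 ha
        have e2 := (h5 b).2 hb
        rw [ha, hb, e1, e2]
        decide
    have h1 : (⟨w, hwK⟩ : K) ∈ L.subgroupOf K := by rw [htop]; trivial
    have h2 : w ∈ L := h1
    rw [memL] at h2
    have h3 := h2 ⟨0, by omega⟩
    rw [hw] at h3
    have h0 : (0 : ℕ) < m := by omega
    simp only [if_pos h0] at h3
    have := h3.2 h0
    omega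

theorem coatom_comap {A B : Type*} [Group A] [Group B] (φ : A →* B)
    (hφ : Function.Surjective φ) (P : Subgroup B) (hP : IsCoatom P) : IsCoatom (P.comap φ) := by
  constructor
  · intro htop
    apply hP.1
    rw [eq_top_iff]
    intro b _
    obtain ⟨a, rfl⟩ := hφ b
    have : a ∈ P.comap φ := by rw [htop]; trivial
    exact this
  · intro L hL
    have h1 : P ≤ L.map φ := by
      intro b hb
      obtain ⟨a, rfl⟩ := hφ b
      exact ⟨a, hL.le hb, rfl⟩
    obtain ⟨l, hlL, hlP⟩ := SetLike.exists_of_lt hL
    have h2 : P < L.map φ := by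
      refine lt_of_le_of_ne h1 ?_
      intro h3
      apply hlP
      show φ l ∈ P
      rw [h3]
      exact ⟨l, hlL, rfl⟩
    have h3 := hP.2 _ h2
    rw [eq_top_iff]
    intro a _
    have h4 : φ a ∈ L.map φ := by rw [h3]; trivial
    obtain ⟨l', hl', he⟩ := h4
    have h5 : a * l'⁻¹ ∈ P.comap φ := by
      show φ (a * l'⁻¹) ∈ P
      rw [map_mul, map_inv, he, mul_inv_cancel]
      exact P.one_mem
    have h6 := L.mul_mem (hL.le h5) hl'
    simpa using h6

section Affine

variable {F V : Type*} [Field F] [AddCommGroup V] [Module F V]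

/-- Any two linearly independent families of the same shape are conjugate under `GL`. -/
theorem exists_gl_of_li [FiniteDimensional F V] {ι : Type*} [Fintype ι] (v v' : ι → V)
    (hv : LinearIndependent F v) (hv' : LinearIndependent F v') :
    ∃ g : V ≃ₗ[F] V, ∀ i, g (v i) = v' i := by
  classical
  let f := hv.linearCombinationEquiv.symm ≪≫ₗ hv'.linearCombinationEquiv
  have : FiniteDimensional F (Submodule.span F (Set.range v)) :=
    FiniteDimensional.span_of_finite F (Set.finite_range _)
  obtain ⟨g, hg⟩ := Submodule.exists_linearEquiv_restrict_eq f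
  refine ⟨g, fun i => ?_⟩
  have h1 := hg (hv.linearCombinationEquiv (Finsupp.single i 1))
  have h2 : (hv.linearCombinationEquiv (Finsupp.single i 1) : V) = v i := by simp
  rw [h2] at h1
  rw [← h1]
  simp [f]

/-- the stabilizer of a subspace, in `GL`. -/
def lineStab (W : Submodule F V) : Subgroup (V ≃ₗ[F] V) where
  carrier := {g | ∀ x, g x ∈ W ↔ x ∈ W}
  mul_mem' := by
    intro a b ha hb x
    show a (b x) ∈ W ↔ x ∈ W
    rw [ha, hb]
  one_mem' := fun x => Iff.rfl
  inv_mem' := by
    intro a ha x
    have := ha (a⁻¹ x)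
    have e : a (a⁻¹ x) = x := a.apply_symm_apply x
    rw [e] at this
    exact this.symm

theorem mem_lineStab {W : Submodule F V} {g : V ≃ₗ[F] V} : g ∈ lineStab W ↔ ∀ x, g x ∈ W ↔ x ∈ W :=
  Iff.rfl

theorem mem_lineStab_of_apply {e : V} (he : e ≠ 0) {g : V ≃ₗ[F] V}
    (h : g e ∈ Submodule.span F {e}) : g ∈ lineStab (Submodule.span F {e}) := by
  obtain ⟨c, hc⟩ := Submodule.mem_span_singleton.1 h
  have hc0 : c ≠ 0 := by
    rintro rfl
    rw [zero_smul] at hc
    exact he (g.injective (by rw [← hc, map_zero]))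
  intro x
  constructor
  · intro hx
    obtain ⟨a, ha⟩ := Submodule.mem_span_singleton.1 hx
    rw [Submodule.mem_span_singleton]
    refine ⟨a * c⁻¹, g.injective ?_⟩
    rw [← ha, map_smul, ← hc, smul_smul, inv_mul_cancel_right₀ hc0]
  · intro hx
    obtain ⟨a, rfl⟩ := Submodule.mem_span_singleton.1 hx
    rw [map_smul]
    exact Submodule.smul_mem _ _ h

/-- The stabilizer of a line is a maximal subgroup of `GL`. -/
theorem isCoatom_lineStab [FiniteDimensional F V] {e u₀ : V} (he : e ≠ 0)
    (hu₀ : u₀ ∉ Submodule.span F {e}) : IsCoatom (lineStab (Submodule.span F {e})) := by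
  classical
  have hli : ∀ u : V, u ∉ Submodule.span F {e} → LinearIndependent F ![e, u] := by
    intro u hu
    rw [LinearIndependent.pair_iff' he]
    intro a ha
    apply hu
    rw [← ha]
    exact Submodule.smul_mem _ _ (Submodule.mem_span_singleton_self e)
  constructor
  · intro htop
    obtain ⟨g, hg⟩ := exists_gl_of_li (ι := Unit) (fun _ => e) (fun _ => u₀)
      (LinearIndependent.of_subsingleton (R := F) () he)
      (LinearIndependent.of_subsingleton (R := F) () (by
        rintro rfl
        exact hu₀ (Submodule.zero_mem _)))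
    have h1 : g ∈ lineStab (Submodule.span F {e}) := by rw [htop]; trivial
    apply hu₀
    rw [← hg ()]
    exact (h1 e).2 (Submodule.mem_span_singleton_self e)
  · intro L hL
    obtain ⟨g, hgL, hg⟩ := SetLike.exists_of_lt hL
    have hge : g e ∉ Submodule.span F {e} := fun h => hg (mem_lineStab_of_apply he h)
    rw [eq_top_iff]
    intro h _
    by_cases hhe : h e ∈ Submodule.span F {e}
    · exact hL.le (mem_lineStab_of_apply he hhe)
    · obtain ⟨t, ht⟩ := exists_gl_of_li ![e, g e] ![e, h e] (hli _ hge) (hli _ hhe)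
      have ht0 : t e = e := ht 0
      have ht1 : t (g e) = h e := ht 1
      have h1 : t ∈ L := hL.le (mem_lineStab_of_apply he (by
        rw [ht0]; exact Submodule.mem_span_singleton_self e))
      have h2 : (t * g)⁻¹ * h ∈ L := by
        apply hL.le
        apply mem_lineStab_of_apply he
        have : ((t * g)⁻¹ * h) e = e := by
          show (t * g)⁻¹ (h e) = e
          rw [← ht1]
          exact (t * g).symm_apply_apply e
        rw [this]
        exact Submodule.mem_span_singleton_self e
      have h3 := L.mul_mem (L.mul_mem h1 hgL) h2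
      rwa [mul_inv_cancel_left] at h3

theorem aff_apply (f : V ≃ᵃ[F] V) (x : V) : f x = f.linear x + f 0 := by
  have := f.map_vadd (0 : V) x
  simpa using this

/-- the stabilizer of the origin -/
def orig : Subgroup (V ≃ᵃ[F] V) where
  carrier := {f | f 0 = 0}
  mul_mem' := by
    intro a b ha hb
    show a (b 0) = 0
    rw [hb, ha]
  one_mem' := rfl
  inv_mem' := by
    intro a ha
    show a.symm 0 = 0
    rw [a.symm_apply_eq, ha]

theorem mem_orig {f : V ≃ᵃ[F] V} : f ∈ orig (F := F) (V := V) ↔ f 0 = 0 := Iff.rfl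

/-- affine maps with linear part in `lineStab W`, translation part in `W` -/
def aff (W : Submodule F V) : Subgroup (V ≃ᵃ[F] V) where
  carrier := {f | f.linear ∈ lineStab W ∧ f 0 ∈ W}
  mul_mem' := by
    rintro a b ⟨ha, ha'⟩ ⟨hb, hb'⟩
    refine ⟨(lineStab W).mul_mem ha hb, ?_⟩
    show a (b 0) ∈ W
    rw [aff_apply a]
    exact W.add_mem ((ha _).2 hb') ha'
  one_mem' := ⟨(lineStab W).one_mem, W.zero_mem⟩
  inv_mem' := by
    rintro a ⟨ha, ha'⟩
    have h1 : a.linear⁻¹ ∈ lineStab W := (lineStab W).inv_mem ha
    refine ⟨h1, ?_⟩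
    show a.symm 0 ∈ W
    have h2 := aff_apply a (a.symm 0)
    rw [a.apply_symm_apply] at h2
    have h3 : a.linear (a.symm 0) = - a 0 := by
      rw [eq_neg_iff_add_eq_zero]; exact h2.symm
    rw [← ha, h3]
    exact W.neg_mem ha'

theorem isCoatom_orig [FiniteDimensional F V] {e : V} (he : e ≠ 0) :
    IsCoatom (orig (F := F) (V := V)) := by
  classical
  have hne : ∀ v : V, v ≠ 0 → LinearIndependent F (fun _ : Unit => v) := fun v hv =>
    LinearIndependent.of_subsingleton (R := F) () hv
  constructor
  · intro htop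
    have : AffineEquiv.constVAdd F V e ∈ orig (F := F) (V := V) := by rw [htop]; trivial
    apply he
    have h2 : AffineEquiv.constVAdd F V e 0 = 0 := this
    simpa using h2
  · intro L hL
    obtain ⟨f, hfL, hf⟩ := SetLike.exists_of_lt hL
    rw [eq_top_iff]
    intro h _
    by_cases hh : h 0 = 0
    · exact hL.le hh
    · obtain ⟨s, hs⟩ := exists_gl_of_li (ι := Unit) (fun _ => f 0) (fun _ => h 0) (hne _ hf) (hne _ hh)
      have hs0 : s (f 0) = h 0 := hs ()
      have h1 : s.toAffineEquiv ∈ L := hL.le (by
        show s.toAffineEquiv 0 = 0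
        simp)
      have h2 : (s.toAffineEquiv * f)⁻¹ * h ∈ L := by
        apply hL.le
        show ((s.toAffineEquiv * f)⁻¹ * h) 0 = 0
        show (s.toAffineEquiv * f).symm (h 0) = 0
        rw [AffineEquiv.symm_apply_eq]
        show h 0 = s.toAffineEquiv (f 0)
        rw [← hs0]
        rfl
      have h3 := L.mul_mem (L.mul_mem h1 hfL) h2
      rwa [mul_inv_cancel_left] at h3

end Affine

section Affine2

variable {F V : Type*} [Field F] [AddCommGroup V] [Module F V]

theorem index_orig [Finite V] : (orig (F := F) (V := V)).index = Nat.card V := by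
  classical
  rw [Subgroup.index]
  let φ : (V ≃ᵃ[F] V) ⧸ (orig (F := F) (V := V)) → V := Quotient.lift (fun f : V ≃ᵃ[F] V => f 0) (by
    intro a b hab
    have h1 : a⁻¹ * b ∈ orig (F := F) (V := V) := QuotientGroup.leftRel_apply.1 hab
    have h2 : a.symm (b 0) = 0 := h1
    rw [AffineEquiv.symm_apply_eq] at h2
    exact h2.symm)
  refine Nat.card_congr (Equiv.ofBijective φ ⟨?_, ?_⟩)
  · intro a b
    induction a using QuotientGroup.induction_on with | H a => ?_
    induction b using QuotientGroup.induction_on with | H b => ?_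
    intro hab
    have hab' : a 0 = b 0 := hab
    rw [QuotientGroup.eq]
    show a.symm (b 0) = 0
    rw [AffineEquiv.symm_apply_eq, hab']
  · intro v
    refine ⟨QuotientGroup.mk (AffineEquiv.constVAdd F V v), ?_⟩
    show AffineEquiv.constVAdd F V v 0 = v
    simp

theorem main_aff [FiniteDimensional F V] [Finite V] {e u : V} (he : e ≠ 0)
    (hu : u ∉ Submodule.span F {e}) :
    ∃ M H K : Subgroup (V ≃ᵃ[F] V), IsCoatom M ∧ M.index = Nat.card V ∧
      H ≤ M ∧ IsCoatom (H.subgroupOf M) ∧ IsCoatom K ∧ H ≤ K ∧ ¬ IsCoatom (H.subgroupOf K) := by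
  classical
  set W : Submodule F V := Submodule.span F {e} with hW
  have heW : e ∈ W := Submodule.mem_span_singleton_self e
  let M := orig (F := F) (V := V)
  let K : Subgroup (V ≃ᵃ[F] V) := (lineStab W).comap (AffineEquiv.linearHom)
  let H : Subgroup (V ≃ᵃ[F] V) := M ⊓ K
  let J : Subgroup (V ≃ᵃ[F] V) := aff W
  have hHJ : H ≤ J := by
    rintro f ⟨h1, h2⟩
    refine ⟨h2, ?_⟩
    have : f 0 = 0 := h1
    rw [this]
    exact W.zero_mem
  have hJK : J ≤ K := fun f hf => hf.1
  have hcl := isCoatom_lineStab he hu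
  refine ⟨M, H, K, isCoatom_orig he, index_orig, inf_le_left, ?_,
    coatom_comap _ ?_ _ hcl, inf_le_right, ?_⟩
  · -- `GL ≃* M`
    let ψ : (V ≃ₗ[F] V) ≃* M :=
      { toFun := fun g => ⟨g.toAffineEquiv, by
          show g.toAffineEquiv 0 = 0
          simp⟩
        invFun := fun f => f.1.linear
        left_inv := by
          intro g
          ext x
          rfl
        right_inv := by
          rintro ⟨f, hf⟩
          apply Subtype.ext
          ext x
          have h1 : f 0 = 0 := hf
          have h2 := aff_apply f x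
          rw [h1, add_zero] at h2
          exact h2.symm
        map_mul' := by
          intro a b
          apply Subtype.ext
          ext x
          rfl }
    refine coatom_transfer ψ (lineStab W) _ hcl ?_
    intro g
    rw [Subgroup.mem_subgroupOf]
    constructor
    · intro hg
      exact ⟨(ψ g).2, hg⟩
    · rintro ⟨-, h2⟩
      exact h2
  · intro g
    exact ⟨g.toAffineEquiv, by ext x; rfl⟩
  · intro hco
    have hlt : H.subgroupOf K < J.subgroupOf K := by
      refine lt_of_le_of_ne (fun a (ha : (a : V ≃ᵃ[F] V) ∈ H) => (hHJ ha : (a : V ≃ᵃ[F] V) ∈ J)) ?_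
      intro heq
      have h1 : AffineEquiv.constVAdd F V e ∈ J := by
        refine ⟨?_, ?_⟩
        · have : (AffineEquiv.constVAdd F V e).linear = 1 := by ext x; simp
          rw [this]
          exact (lineStab W).one_mem
        · simpa using heW
      have h2 : (⟨_, hJK h1⟩ : K) ∈ J.subgroupOf K := h1
      rw [← heq] at h2
      have h3 : AffineEquiv.constVAdd F V e 0 = 0 := h2.1
      apply he
      simpa using h3
    have htop := hco.2 _ hlt
    have h1 : AffineEquiv.constVAdd F V u ∈ K := by
      show (AffineEquiv.constVAdd F V u).linear ∈ lineStab W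
      have : (AffineEquiv.constVAdd F V u).linear = 1 := by ext x; simp
      rw [this]
      exact (lineStab W).one_mem
    have h2 : (⟨_, h1⟩ : K) ∈ J.subgroupOf K := by rw [htop]; trivial
    have h3 : AffineEquiv.constVAdd F V u 0 ∈ W := (show AffineEquiv.constVAdd F V u ∈ J from h2).2
    apply hu
    simpa using h3

end Affine2

theorem main5895 (p d : ℕ) (hp : p.Prime) (hd : 2 ≤ d) :
    ∃ (G : Type) (_ : Group G) (_ : Finite G) (M H K : Subgroup G), IsCoatom M ∧ M.index = p ^ d ∧
      H ≤ M ∧ IsCoatom (H.subgroupOf M) ∧ IsCoatom K ∧ H ≤ K ∧ ¬ IsCoatom (H.subgroupOf K) := by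
  classical
  haveI := Fact.mk hp
  obtain ⟨i0, i1, h01⟩ : ∃ i0 i1 : Fin d, i0 ≠ i1 :=
    ⟨⟨0, by omega⟩, ⟨1, by omega⟩, by simp [Fin.ext_iff]⟩
  let e : Fin d → ZMod p := Pi.single i0 1
  let u : Fin d → ZMod p := Pi.single i1 1
  have he : e ≠ 0 := by
    intro h
    have := congrFun h i0
    simp [e] at this
  have hu : u ∉ Submodule.span (ZMod p) {e} := by
    intro h
    obtain ⟨c, hc⟩ := Submodule.mem_span_singleton.1 h
    have h1 := congrFun hc i1
    have h2 := congrFun hc i0
    simp only [e, u, Pi.smul_apply, Pi.single_eq_same, Pi.single_eq_of_ne h01,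
      Pi.single_eq_of_ne h01.symm, smul_eq_mul, mul_one, mul_zero] at h1 h2
    exact zero_ne_one h1
  obtain ⟨M, H, K, h1, h2, h3, h4, h5, h6, h7⟩ := main_aff (F := ZMod p) he hu
  haveI : Finite ((Fin d → ZMod p) ≃ᵃ[ZMod p] (Fin d → ZMod p)) :=
    Finite.of_injective (fun f => (f.toEquiv : Equiv.Perm (Fin d → ZMod p)))
      (fun a b hab => by
        ext x
        have := congrFun (congrArg DFunLike.coe hab) x
        exact congrFun this _)
  refine ⟨_, inferInstance, inferInstance, M, H, K, h1, ?_, h3, h4, h5, h6, h7⟩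
  rw [h2]
  simp [Nat.card_eq_fintype_card, ZMod.card]

end Cfsg.Agent.Lib.SecondMax
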