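import Mathlib

set_option autoImplicit false

namespace Cfsg.Agent.Lib.Singer

variable {F K : Type*} [Field F] [Fintype F] [Field K] [Fintype K] [Algebra F K]

omit [Fintype F] [Fintype K] in
theorem u_inv_apply (φ : (Module.End F K)ˣ) (x : K) :
    ((φ⁻¹ : (Module.End F K)ˣ) : Module.End F K) ((φ : Module.End F K) x) = x := by
  have h2 : (((φ⁻¹ : (Module.End F K)ˣ) : Module.End F K) * (φ : Module.End F K)) x = (1 : Module.End F K) x := by
    rw [Units.inv_mul]
  exact h2

omit [Fintype F] [Fintype K] in
theorem u_apply_inv (φ : (Module.End F K)ˣ) (x : K) :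
    (φ : Module.End F K) (((φ⁻¹ : (Module.End F K)ˣ) : Module.End F K) x) = x := by
  have h2 : ((φ : Module.End F K) * ((φ⁻¹ : (Module.End F K)ˣ) : Module.End F K)) x = (1 : Module.End F K) x := by
    rw [Units.mul_inv]
  exact h2

/-- The Singer group. -/
abbrev singer (F K : Type*) [Field F] [Field K] [Algebra F K] : Subgroup (Module.End F K)ˣ :=
  (Units.map ((Algebra.lmul F K : K →ₐ[F] Module.End F K) : K →* Module.End F K)).range

omit [Fintype F] [Fintype K] in
theorem singer_apply (a : Kˣ) (x : K) :
    ((Units.map ((Algebra.lmul F K : K →ₐ[F] Module.End F K) : K →* Module.End F K) a : (Module.End F K)ˣ) : Module.End F K) x = a * x := rfl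

omit [Fintype F] [Fintype K] in
theorem mem_singer_iff (φ : (Module.End F K)ˣ) :
    φ ∈ singer F K ↔ ∃ b : K, ∀ x, (φ : Module.End F K) x = b * x := by
  constructor
  · rintro ⟨a, rfl⟩
    exact ⟨a, fun x => rfl⟩
  · rintro ⟨b, hb⟩
    have hb0 : b ≠ 0 := by
      rintro rfl
      have h1 := hb 1
      rw [zero_mul] at h1
      have h2 := u_inv_apply φ 1
      rw [h1, map_zero] at h2
      exact zero_ne_one h2
    refine ⟨Units.mk0 b hb0, ?_⟩
    ext x
    rw [hb x]
    rfl

/-- `k ∘ σ` as a unit of the endomorphism ring. -/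
noncomputable def semi (k : Kˣ) (σ : K ≃ₐ[F] K) : (Module.End F K)ˣ where
  val := { toFun := fun x => k * σ x
           map_add' := fun x y => by simp [mul_add]
           map_smul' := fun c x => by simp }
  inv := { toFun := fun x => σ.symm ((k⁻¹ : Kˣ) * x)
           map_add' := fun x y => by simp [mul_add]
           map_smul' := fun c x => by simp }
  val_inv := by
    ext x
    simp
  inv_val := by
    ext x
    simp

omit [Fintype F] [Fintype K] in
theorem semi_apply (k : Kˣ) (σ : K ≃ₐ[F] K) (x : K) :
    ((semi k σ : (Module.End F K)ˣ) : Module.End F K) x = k * σ x := rfl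

omit [Fintype F] [Fintype K] in
theorem semi_inv_apply (k : Kˣ) (σ : K ≃ₐ[F] K) (x : K) :
    (((semi k σ)⁻¹ : (Module.End F K)ˣ) : Module.End F K) x = σ.symm ((k⁻¹ : Kˣ) * x) := rfl

omit [Fintype F] [Fintype K] in
theorem semi_conj (k : Kˣ) (σ : K ≃ₐ[F] K) (a : Kˣ) :
    ∀ x, ((semi k σ * Units.map ((Algebra.lmul F K : K →ₐ[F] Module.End F K) : K →* Module.End F K) a * (semi k σ)⁻¹ : (Module.End F K)ˣ) : Module.End F K) x = σ a * x := by
  intro x
  simp only [Units.val_mul, Module.End.mul_apply, semi_apply, semi_inv_apply, singer_apply]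
  simp only [map_mul, AlgEquiv.apply_symm_apply]
  have : ((k⁻¹ : Kˣ) : K) = (k : K)⁻¹ := Units.val_inv_eq_inv_val k
  rw [this]
  have hk : (k : K) ≠ 0 := k.ne_zero
  field_simp

omit [Fintype F] [Fintype K] in
theorem semi_mem_normalizer (k : Kˣ) (σ : K ≃ₐ[F] K) :
    semi k σ ∈ Subgroup.normalizer ((singer F K : Subgroup (Module.End F K)ˣ) : Set (Module.End F K)ˣ) := by
  rw [Subgroup.mem_set_normalizer_iff]
  intro h
  constructor
  · rintro ⟨a, rfl⟩
    exact (mem_singer_iff _).mpr ⟨σ a, semi_conj k σ a⟩
  · intro hh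
    obtain ⟨b, hb⟩ := (mem_singer_iff _).mp hh
    refine (mem_singer_iff _).mpr ⟨σ.symm b, fun x => ?_⟩
    -- apply the conjugate at `semi x`
    have h1 := hb (((semi k σ : (Module.End F K)ˣ) : Module.End F K) x)
    simp only [Units.val_mul, Module.End.mul_apply] at h1
    rw [u_inv_apply] at h1
    rw [semi_apply, semi_apply] at h1
    have hk : (k : K) ≠ 0 := k.ne_zero
    have h2 : σ ((h : Module.End F K) x) = b * σ x := by
      have h3 : (k : K) * σ ((h : Module.End F K) x) = (k : K) * (b * σ x) := by
        rw [h1]; ring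
      exact mul_left_cancel₀ hk h3
    apply σ.injective
    rw [h2, map_mul, AlgEquiv.apply_symm_apply]

/-- Every element of the normalizer of the Singer group is semilinear. -/
theorem exists_semi_of_mem_normalizer (φ : (Module.End F K)ˣ)
    (hφ : φ ∈ Subgroup.normalizer ((singer F K : Subgroup (Module.End F K)ˣ) : Set (Module.End F K)ˣ)) :
    ∃ (k : Kˣ) (σ : K ≃ₐ[F] K), φ = semi k σ := by
  classical
  rw [Subgroup.mem_set_normalizer_iff] at hφ
  set c : K := ((φ⁻¹ : (Module.End F K)ˣ) : Module.End F K) 1 with hc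
  have hc1 : (φ : Module.End F K) c = 1 := u_apply_inv φ 1
  let s : K →ₗ[F] K :=
    (φ : Module.End F K).comp ((Algebra.lmul F K : K →ₐ[F] Module.End F K) c)
  have hs : ∀ x, s x = (φ : Module.End F K) (c * x) := fun x => rfl
  have hs' : ∀ x, s x = (φ : Module.End F K) (x * c) := fun x => by rw [hs, mul_comm]
  have hmul : ∀ a y : K, (φ : Module.End F K) (a * y) = s a * (φ : Module.End F K) y := by
    intro a y
    by_cases ha : a = 0
    · subst ha
      simp
    · have hm : Units.map ((Algebra.lmul F K : K →ₐ[F] Module.End F K) : K →* Module.End F K) (Units.mk0 a ha) ∈ singer F K :=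
        ⟨_, rfl⟩
      have hm' := (hφ _).mp hm
      obtain ⟨b, hb⟩ := (mem_singer_iff _).mp hm'
      have h1 := hb ((φ : Module.End F K) y)
      simp only [Units.val_mul, Module.End.mul_apply] at h1
      rw [u_inv_apply, singer_apply] at h1
      have h2 := hb 1
      simp only [Units.val_mul, Module.End.mul_apply] at h2
      rw [singer_apply, mul_one, ← hc, Units.val_mk0, ← hs'] at h2
      rw [Units.val_mk0] at h1
      rw [h2]
      exact h1
  let f : K →ₐ[F] K := AlgHom.ofLinearMap s (by rw [hs', one_mul, hc1]) (by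
    intro x y
    rw [hs', hs', hs', mul_assoc, hmul, hs' x])
  have hf : ∀ x, f x = s x := fun x => rfl
  let σ : K ≃ₐ[F] K := AlgEquiv.ofBijective f (Algebra.IsAlgebraic.algHom_bijective f)
  have hσ : ∀ x, σ x = s x := fun x => rfl
  have hk0 : (φ : Module.End F K) 1 ≠ 0 := by
    intro h
    have h2 := u_inv_apply φ 1
    rw [h, map_zero] at h2
    exact zero_ne_one h2
  refine ⟨Units.mk0 _ hk0, σ, ?_⟩
  ext x
  rw [semi_apply, hσ, Units.val_mk0]
  have := hmul x 1
  rw [mul_one] at this
  rw [this, mul_comm]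

theorem card_normalizer (n : ℕ) (hdim : Module.finrank F K = n) :
    Nat.card (Subgroup.normalizer ((singer F K : Subgroup (Module.End F K)ˣ) : Set (Module.End F K)ˣ)) = n * (Fintype.card K - 1) := by
  classical
  haveI : FiniteDimensional F K := Module.Finite.of_finite
  let f : (K ≃ₐ[F] K) × Kˣ → Subgroup.normalizer ((singer F K : Subgroup (Module.End F K)ˣ) : Set (Module.End F K)ˣ) :=
    fun p => ⟨semi p.2 p.1, semi_mem_normalizer _ _⟩
  have hinj : Function.Injective f := by
    rintro ⟨σ, k⟩ ⟨σ', k'⟩ h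
    have h1 : semi k σ = semi k' σ' := congrArg Subtype.val h
    have h2 : ∀ x : K, (k : K) * σ x = k' * σ' x := by
      intro x
      have := congrArg (fun u : (Module.End F K)ˣ => (u : Module.End F K) x) h1
      exact this
    have hkk : k = k' := by
      have := h2 1
      simp only [map_one, mul_one] at this
      exact Units.ext this
    subst hkk
    have hσσ : σ = σ' := by
      ext x
      exact mul_left_cancel₀ k.ne_zero (h2 x)
    rw [hσσ]
  have hsurj : Function.Surjective f := by
    rintro ⟨φ, hφ⟩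
    obtain ⟨k, σ, h⟩ := exists_semi_of_mem_normalizer φ hφ
    exact ⟨(σ, k), Subtype.ext h.symm⟩
  rw [← Nat.card_congr (Equiv.ofBijective f ⟨hinj, hsurj⟩), Nat.card_prod,
    IsGalois.card_aut_eq_finrank, hdim, Nat.card_units, Nat.card_eq_fintype_card]

/-- Main statement on the intersection of two Singer groups. -/
theorem card_inter (n : ℕ) (hn : 2 ≤ n) (hdim : Module.finrank F K = n)
    (g : (Module.End F K)ˣ) (hg : (singer F K).map (MulAut.conj g).toMonoidHom ≠ singer F K) :
    ∃ r : ℕ, 1 ≤ r ∧ r ∣ n ∧ r < n ∧ Nat.card ↥((singer F K).map (MulAut.conj g).toMonoidHom ⊓ singer F K) ∣ Fintype.card F ^ r - 1 := by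
  classical
  haveI : FiniteDimensional F K := Module.Finite.of_finite
  -- the subfield
  let P : K → Prop := fun a => ∃ b : K, ∀ x, a * x = (g : Module.End F K) (b * ((g⁻¹ : (Module.End F K)ˣ) : Module.End F K) x)
  have hP0 : ∀ a b : K, (∀ x, a * x = (g : Module.End F K) (b * ((g⁻¹ : (Module.End F K)ˣ) : Module.End F K) x)) → a ≠ 0 → b ≠ 0 := by
    rintro a _ hb ha rfl
    have := hb 1
    simp only [mul_one, zero_mul, map_zero] at this
    exact ha this
  let E : IntermediateField F K :=
    { carrier := {a | P a}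
      mul_mem' := by
        rintro a a' ⟨b, hb⟩ ⟨b', hb'⟩
        refine ⟨b * b', fun x => ?_⟩
        rw [mul_assoc, hb', hb, u_inv_apply, mul_assoc]
      add_mem' := by
        rintro a a' ⟨b, hb⟩ ⟨b', hb'⟩
        refine ⟨b + b', fun x => ?_⟩
        rw [add_mul, add_mul, map_add, hb, hb']
      algebraMap_mem' := by
        intro c
        refine ⟨algebraMap F K c, fun x => ?_⟩
        rw [← Algebra.smul_def, ← Algebra.smul_def, map_smul, u_apply_inv]
      inv_mem' := by
        rintro a ⟨b, hb⟩
        by_cases ha : a = 0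
        · subst ha
          exact ⟨0, fun x => by simp⟩
        · have hb0 := hP0 a b hb ha
          refine ⟨b⁻¹, fun x => ?_⟩
          have h1 := hb ((g : Module.End F K) (b⁻¹ * ((g⁻¹ : (Module.End F K)ˣ) : Module.End F K) x))
          rw [u_inv_apply, mul_inv_cancel_left₀ hb0, u_apply_inv] at h1
          exact ((eq_inv_mul_iff_mul_eq₀ ha).mpr h1).symm }
  have hE : ∀ a : K, a ∈ E ↔ P a := fun a => Iff.rfl
  -- the intersection is E^×
  let ι : Eˣ →* (Module.End F K)ˣ :=
    (Units.map ((Algebra.lmul F K : K →ₐ[F] Module.End F K) : K →* Module.End F K)).comp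
      (Units.map (E.val : E →* K))
  have hι : Function.Injective ι := by
    intro u v h
    have h1 := congrArg (fun w : (Module.End F K)ˣ => (w : Module.End F K) 1) h
    simp only [ι, MonoidHom.comp_apply, singer_apply, mul_one] at h1
    exact Units.ext (Subtype.ext h1)
  have hrange : ι.range = (singer F K).map (MulAut.conj g).toMonoidHom ⊓ singer F K := by
    ext φ
    constructor
    · rintro ⟨u, rfl⟩
      have hu : ((u : E) : K) ∈ E := (u : E).2
      obtain ⟨b, hb⟩ := hu
      have hb0 := hP0 _ b hb (by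
        intro h
        exact u.ne_zero (Subtype.ext h))
      refine ⟨⟨Units.map ((Algebra.lmul F K : K →ₐ[F] Module.End F K) : K →* Module.End F K) (Units.mk0 b hb0), ⟨_, rfl⟩, ?_⟩, ⟨_, rfl⟩⟩
      ext x
      simp only [MulEquiv.toMonoidHom_eq_coe, MonoidHom.coe_coe, MulAut.conj_apply, Units.val_mul,
        Module.End.mul_apply, singer_apply, Units.val_mk0]
      exact (hb x).symm
    · rintro ⟨⟨_, ⟨b, rfl⟩, hb⟩, ⟨a, rfl⟩⟩
      have hmem : (a : K) ∈ E := by
        refine ⟨b, fun x => ?_⟩
        have := congrArg (fun w : (Module.End F K)ˣ => (w : Module.End F K) x) hb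
        simp only [MulEquiv.toMonoidHom_eq_coe, MonoidHom.coe_coe, MulAut.conj_apply, Units.val_mul,
          Module.End.mul_apply, singer_apply] at this
        exact this.symm
      have ha0 : (⟨a, hmem⟩ : E) ≠ 0 := by
        intro h
        exact a.ne_zero (congrArg Subtype.val h)
      refine ⟨Units.mk0 ⟨a, hmem⟩ ha0, ?_⟩
      ext x
      rfl
  have hcardA : Nat.card ↥((singer F K).map (MulAut.conj g).toMonoidHom ⊓ singer F K) = Fintype.card F ^ Module.finrank F E - 1 := by
    rw [← hrange, ← Nat.card_congr (MonoidHom.ofInjective hι).toEquiv, Nat.card_units,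
      Module.natCard_eq_pow_finrank (K := F) (V := E), Nat.card_eq_fintype_card]
  refine ⟨Module.finrank F E, Module.finrank_pos, ?_, ?_, ?_⟩
  · rw [← hdim]
    exact ⟨_, (Module.finrank_mul_finrank F E K).symm⟩
  · have hle : Module.finrank F E ≤ n := by
      rw [← hdim]
      exact Nat.le_of_dvd Module.finrank_pos ⟨_, (Module.finrank_mul_finrank F E K).symm⟩
    refine lt_of_le_of_ne hle (fun heq => hg ?_)
    -- E = K
    have hEtop : E = ⊤ := by
      have h1 := Module.finrank_mul_finrank F E K
      rw [heq, hdim] at h1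
      have h2 : Module.finrank E K = 1 := by
        have hn0 : 0 < n := by omega
        exact Nat.eq_of_mul_eq_mul_left hn0 (by rw [h1, mul_one])
      exact IntermediateField.finrank_eq_one_iff_eq_top.mp h2
    have hle2 : singer F K ≤ (singer F K).map (MulAut.conj g).toMonoidHom := by
      rintro _ ⟨a, rfl⟩
      have ha : (a : K) ∈ E := by rw [hEtop]; exact IntermediateField.mem_top
      obtain ⟨b, hb⟩ := ha
      have hb0 := hP0 _ b hb a.ne_zero
      refine ⟨Units.map ((Algebra.lmul F K : K →ₐ[F] Module.End F K) : K →* Module.End F K) (Units.mk0 b hb0), ⟨_, rfl⟩, ?_⟩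
      ext x
      simp only [MulEquiv.toMonoidHom_eq_coe, MonoidHom.coe_coe, MulAut.conj_apply, Units.val_mul,
        Module.End.mul_apply, singer_apply, Units.val_mk0]
      exact (hb x).symm
    symm
    haveI : Finite (Module.End F K) :=
      Finite.of_injective (fun f : Module.End F K => (f : K → K)) DFunLike.coe_injective
    apply Subgroup.eq_of_le_of_card_ge hle2
    exact (Subgroup.card_map_of_injective (MulAut.conj g).injective).le
  · rw [hcardA]

end Cfsg.Agent.Lib.Singer
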