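import Mathlib

/-!
# Wielandt's join theorem for subnormal subgroups

All subgroups live in one ambient group; `SN K H` says `H` is subnormal in `K`.
-/

set_option autoImplicit false
set_option linter.unusedSectionVars false
set_option linter.style.haveILetI false
set_option linter.constructorNameAsVariable false

namespace Cfsg.Agent.Lib.SubnormalJoin

open Subgroup

universe u

variable {G : Type u} [Group G]

/-- `H` is subnormal in `K`. -/
inductive SN (K : Subgroup G) : Subgroup G → Prop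
  | refl : SN K K
  | step {H L : Subgroup G} (hHL : H ≤ L) (hL : SN K L) (hn : L ≤ normalizer (H : Set G)) : SN K H

theorem SN.le {K H : Subgroup G} (h : SN K H) : H ≤ K := by
  induction h with
  | refl => exact le_rfl
  | step hHL _ _ ih => exact hHL.trans ih

theorem SN.trans {K L H : Subgroup G} (h1 : SN K L) (h2 : SN L H) : SN K H := by
  induction h2 with
  | refl => exact h1
  | step hHL _ hn ih => exact SN.step hHL ih hn

theorem SN.of_normal {K H : Subgroup G} (hle : H ≤ K) (hn : K ≤ normalizer (H : Set G)) : SN K H :=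
  SN.step hle SN.refl hn

/-- Subgroups normalized by `Y`: it suffices to check one inclusion. -/
theorem le_normalizer_of_conj {Y H : Subgroup G} (h : ∀ y ∈ Y, ∀ x ∈ H, y * x * y⁻¹ ∈ H) :
    Y ≤ normalizer (H : Set G) := by
  intro y hy
  rw [mem_normalizer_iff]
  intro x
  constructor
  · intro hx
    exact h y hy x hx
  · intro hx
    have := h y⁻¹ (Y.inv_mem hy) _ hx
    simpa [mul_assoc] using this

theorem conj_mem_of_le_normalizer {Y H : Subgroup G} (h : Y ≤ normalizer (H : Set G)) {y x : G} (hy : y ∈ Y)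
    (hx : x ∈ H) : y * x * y⁻¹ ∈ H :=
  (mem_normalizer_iff.mp (h hy) x).mp hx

/-- Intersections. -/
theorem SN.inf {K H : Subgroup G} (h : SN K H) (U : Subgroup G) : SN (K ⊓ U) (H ⊓ U) := by
  induction h with
  | refl => exact SN.refl
  | @step H L hHL _ hn ih =>
    refine SN.step (inf_le_inf_right U hHL) ih ?_
    apply le_normalizer_of_conj
    intro y hy x hx
    exact ⟨conj_mem_of_le_normalizer hn hy.1 hx.1, U.mul_mem (U.mul_mem hy.2 hx.2) (U.inv_mem hy.2)⟩

theorem SN.restrict {K H U : Subgroup G} (h : SN K H) (hU : U ≤ K) : SN U (H ⊓ U) := by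
  have := h.inf U
  rwa [inf_eq_right.mpr hU] at this

theorem SN.restrict' {K H U : Subgroup G} (h : SN K H) (hU : U ≤ K) (hHU : H ≤ U) : SN U H := by
  have := h.restrict hU
  rwa [inf_eq_left.mpr hHU] at this

/-- Conjugates. -/
def cj (g : G) (H : Subgroup G) : Subgroup G := H.map (MulAut.conj g).toMonoidHom

theorem mem_cj {g x : G} {H : Subgroup G} : x ∈ cj g H ↔ g⁻¹ * x * g ∈ H := by
  constructor
  · rintro ⟨y, hy, rfl⟩
    simpa [mul_assoc] using hy
  · intro h
    exact ⟨_, h, by simp [mul_assoc]⟩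

theorem conj_mem_cj {g x : G} {H : Subgroup G} (hx : x ∈ H) : g * x * g⁻¹ ∈ cj g H :=
  ⟨x, hx, rfl⟩

theorem cj_mono {g : G} {H L : Subgroup G} (h : H ≤ L) : cj g H ≤ cj g L := Subgroup.map_mono h

theorem cj_one (H : Subgroup G) : cj 1 H = H := by
  ext x
  rw [mem_cj]
  simp

theorem cj_mul (a b : G) (H : Subgroup G) : cj (a * b) H = cj a (cj b H) := by
  ext x
  simp only [mem_cj]
  simp [mul_assoc]

theorem cj_eq_self {g : G} {K : Subgroup G} (hg : g ∈ K) : cj g K = K := by
  ext x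
  rw [mem_cj]
  constructor
  · intro h
    have := K.mul_mem (K.mul_mem hg h) (K.inv_mem hg)
    simpa [mul_assoc] using this
  · intro h
    exact K.mul_mem (K.mul_mem (K.inv_mem hg) h) hg

theorem cj_eq_of_normalizer {g : G} {H : Subgroup G} (hg : g ∈ normalizer (H : Set G)) : cj g H = H := by
  ext x
  rw [mem_cj]
  have := mem_normalizer_iff.mp hg (g⁻¹ * x * g)
  rw [this]
  simp [mul_assoc]

theorem SN.map_cj {K H : Subgroup G} (h : SN K H) (g : G) : SN (Cfsg.Agent.Lib.SubnormalJoin.cj g K) (Cfsg.Agent.Lib.SubnormalJoin.cj g H) := by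
  induction h with
  | refl => exact SN.refl
  | @step H L hHL _ hn ih =>
    refine SN.step (cj_mono hHL) ih ?_
    apply le_normalizer_of_conj
    intro y hy x hx
    rw [mem_cj] at hy hx ⊢
    have h1 := conj_mem_of_le_normalizer hn hy hx
    have h2 : g⁻¹ * (y * x * y⁻¹) * g = g⁻¹ * y * g * (g⁻¹ * x * g) * (g⁻¹ * y * g)⁻¹ := by group
    rw [h2]
    exact h1

theorem SN.cj_of_mem {K H : Subgroup G} (h : SN K H) {g : G} (hg : g ∈ K) : SN K (cj g H) := by
  have := h.map_cj g
  rwa [cj_eq_self hg] at this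

/-- The normal closure of `H` in `K`. -/
def nc (K H : Subgroup G) : Subgroup G := ⨆ g : K, cj (g : G) H

theorem cj_le_nc {K H : Subgroup G} {g : G} (hg : g ∈ K) : cj g H ≤ nc K H :=
  le_iSup (fun g : K => cj (g : G) H) ⟨g, hg⟩

theorem le_nc (K H : Subgroup G) : H ≤ nc K H := by
  have h1 : cj (1 : G) H ≤ nc K H := cj_le_nc K.one_mem
  rwa [cj_one] at h1

theorem nc_le {K H L : Subgroup G} (h : ∀ g ∈ K, cj g H ≤ L) : nc K H ≤ L :=
  iSup_le fun g => h g g.2

theorem nc_le_self {K H : Subgroup G} (hle : H ≤ K) : nc K H ≤ K :=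
  nc_le fun g hg => by
    have := cj_mono (g := g) hle
    rwa [cj_eq_self hg] at this

theorem le_normalizer_nc (K H : Subgroup G) : K ≤ normalizer (nc K H : Set G) := by
  apply le_normalizer_of_conj
  intro y hy x hx
  have h1 : nc K H ≤ (nc K H).comap (MulAut.conj y).toMonoidHom := by
    apply nc_le
    intro g hg z hz
    rw [mem_cj] at hz
    show y * z * y⁻¹ ∈ nc K H
    apply cj_le_nc (K.mul_mem hy hg)
    rw [mem_cj]
    have : (y * g)⁻¹ * (y * z * y⁻¹) * (y * g) = g⁻¹ * z * g := by group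
    rw [this]
    exact hz
  exact h1 hx

theorem nc_eq_of_normalizes {K H : Subgroup G} (hle : H ≤ K) (hn : K ≤ normalizer (H : Set G)) : nc K H = H :=
  le_antisymm (nc_le fun _ hg => (cj_eq_of_normalizer (hn hg)).le) (le_nc K H)

theorem nc_mono {K H L : Subgroup G} (h : H ≤ L) : nc K H ≤ nc K L :=
  nc_le fun _ hg => (cj_mono h).trans (cj_le_nc hg)

/-- A proper subnormal subgroup has a proper normal closure. -/
theorem SN.nc_ne {K H : Subgroup G} (h : SN K H) : H ≠ K → nc K H ≠ K := by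
  induction h with
  | refl => exact fun h => absurd rfl h
  | @step H L hHL hL hn ih =>
    intro hne
    by_cases hLK : L = K
    · subst hLK
      rw [nc_eq_of_normalizes hHL hn]
      exact hne
    · have h1 := ih hLK
      intro h2
      apply h1
      apply le_antisymm (nc_le_self hL.le)
      exact h2.symm.le.trans (nc_mono hHL)

/-- Finite joins, given binary joins. -/
theorem SN.iSup_of_binary {ι : Type*} [Finite ι] {U : Subgroup G}
    (hb : ∀ X Y, SN U X → SN U Y → SN U (X ⊔ Y)) (f : ι → Subgroup G) (hf : ∀ i, SN U (f i)) :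
    SN U (⨆ i, f i) := by
  classical
  haveI := Fintype.ofFinite ι
  rw [← Finset.sup_univ_eq_iSup]
  refine Finset.induction_on (Finset.univ : Finset ι) ?_ ?_
  · simp only [Finset.sup_empty]
    refine SN.of_normal bot_le (le_normalizer_of_conj ?_)
    intro y _ x hx
    rw [Subgroup.mem_bot] at hx ⊢
    simp [hx]
  · intro a s _ ih
    rw [Finset.sup_insert]
    exact hb _ _ (hf a) ih

/-- The commutator situation: `H ⊔ Y` is subnormal in `M ⊔ Y`. -/
theorem SN.sup_of_comm {M Y L H : Subgroup G} (hLY : L ≤ Y) (hMY : M ≤ normalizer (Y : Set G))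
    (hY : ∀ W ≤ M, Y ≤ normalizer ((W ⊔ L : Subgroup G) : Set G)) (h : SN M H) : SN (M ⊔ Y) (H ⊔ Y) := by
  induction h with
  | refl => exact SN.refl
  | @step H H' hHL hL hn ih =>
    refine SN.step (sup_le_sup_right hHL Y) ih ?_
    refine sup_le ?_ ?_
    · -- `H'` normalizes `H ⊔ Y`
      apply le_normalizer_of_conj
      intro y hy x hx
      have h1 : H ⊔ Y ≤ (H ⊔ Y).comap (MulAut.conj y).toMonoidHom := by
        refine sup_le ?_ ?_
        · intro z hz
          exact mem_sup_left (conj_mem_of_le_normalizer hn hy hz)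
        · intro z hz
          exact mem_sup_right (conj_mem_of_le_normalizer hMY (hL.le hy) hz)
      exact h1 hx
    · apply le_normalizer_of_conj
      intro y hy x hx
      have h1 : H ⊔ Y ≤ (H ⊔ Y).comap (MulAut.conj y).toMonoidHom := by
        refine sup_le ?_ ?_
        · intro z hz
          have h2 : z ∈ H ⊔ L := mem_sup_left hz
          have h3 := conj_mem_of_le_normalizer (hY H (hHL.trans hL.le)) hy h2
          have h4 : H ⊔ L ≤ H ⊔ Y := sup_le_sup_left hLY H
          exact h4 h3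
        · intro z hz
          exact mem_sup_right (Y.mul_mem (Y.mul_mem hy hz) (Y.inv_mem hy))
      exact h1 hx

/-- Commutators of subgroups normalizing each other lie in the intersection. -/
theorem comm_mem_inf {M N : Subgroup G} (hM : N ≤ normalizer (M : Set G)) (hN : M ≤ normalizer (N : Set G))
    {x y : G} (hx : x ∈ M) (hy : y ∈ N) : x * y * x⁻¹ * y⁻¹ ∈ M ⊓ N := by
  constructor
  · have h1 := conj_mem_of_le_normalizer hM hy (M.inv_mem hx)
    have h2 : x * y * x⁻¹ * y⁻¹ = x * (y * x⁻¹ * y⁻¹) := by group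
    rw [h2]
    exact M.mul_mem hx h1
  · have h1 := conj_mem_of_le_normalizer hN hx hy
    exact N.mul_mem h1 (N.inv_mem hy)

theorem le_normalizer_sup_of_comm {Y W L : Subgroup G} (hL : Y ≤ normalizer (L : Set G))
    (hc : ∀ y ∈ Y, ∀ w ∈ W, y * w * y⁻¹ * w⁻¹ ∈ L) : Y ≤ normalizer ((W ⊔ L : Subgroup G) : Set G) := by
  apply le_normalizer_of_conj
  intro y hy x hx
  have h1 : W ⊔ L ≤ (W ⊔ L).comap (MulAut.conj y).toMonoidHom := by
    refine sup_le ?_ ?_
    · intro z hz
      show y * z * y⁻¹ ∈ W ⊔ L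
      have h2 : y * z * y⁻¹ = (y * z * y⁻¹ * z⁻¹) * z := by group
      rw [h2]
      exact (W ⊔ L).mul_mem (mem_sup_right (hc y hy z hz)) (mem_sup_left hz)
    · intro z hz
      exact mem_sup_right (conj_mem_of_le_normalizer hL hy hz)
  exact h1 hx

theorem card_lt_of_lt' [Finite G] {A B : Subgroup G} (h : A < B) : Nat.card A < Nat.card B := by
  by_contra hcon
  exact h.ne (Subgroup.eq_of_le_of_card_ge h.le (not_lt.mp hcon))

/-- The reduction step. -/
theorem key_step [Finite G] {K M X Y : Subgroup G} (IHM : ∀ A B, SN M A → SN M B → SN M (A ⊔ B))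
    (hMK : M ≤ K) (hSNM : SN K M) (hX : SN K X) (hY : SN K Y) (hXM : X ≤ M) (hcj : ∀ a ∈ Y, cj a X ≤ M)
    (hbig : ∀ X', X < X' → SN K X' → SN K (X' ⊔ Y)) :
    SN K (X ⊔ Y) ∨ (Y ≤ normalizer (X : Set G) ∧ Y ⊓ M ≤ X) := by
  obtain ⟨Xs, hXsdef⟩ : ∃ Xs : Subgroup G, Xs = ⨆ a : Y, cj (a : G) X := ⟨_, rfl⟩
  have hXs1 : SN M Xs := by
    rw [hXsdef]
    apply SN.iSup_of_binary IHM
    intro a
    exact (hX.cj_of_mem (hY.le a.2)).restrict' hMK (hcj a a.2)
  have hXs2 : SN K Xs := hSNM.trans hXs1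
  have hcjXs : ∀ a ∈ Y, cj a X ≤ Xs := by
    intro a ha
    rw [hXsdef]
    exact le_iSup (fun a : Y => cj (a : G) X) ⟨a, ha⟩
  have hXXs : X ≤ Xs := by
    have h1 := hcjXs 1 Y.one_mem
    rwa [cj_one] at h1
  have hXs3 : Xs ≤ X ⊔ Y := by
    rw [hXsdef]
    refine iSup_le fun a => ?_
    intro z hz
    rw [mem_cj] at hz
    have h1 : z = (a : G) * ((a : G)⁻¹ * z * a) * (a : G)⁻¹ := by group
    rw [h1]
    exact (X ⊔ Y).mul_mem ((X ⊔ Y).mul_mem (mem_sup_right a.2) (mem_sup_left hz))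
      ((X ⊔ Y).inv_mem (mem_sup_right a.2))
  have hsup : Xs ⊔ Y = X ⊔ Y := le_antisymm (sup_le hXs3 le_sup_right) (sup_le_sup_right hXXs Y)
  by_cases hXsX : X = Xs
  · have hnorm : Y ≤ normalizer (X : Set G) := by
      apply le_normalizer_of_conj
      intro y hy x hx
      have h1 := hcjXs y hy (conj_mem_cj hx)
      rwa [← hXsX] at h1
    have hYM : SN M (Y ⊓ M) := hY.restrict hMK
    have hXM' : SN M X := hX.restrict' hMK hXM
    have hW := IHM X (Y ⊓ M) hXM' hYM
    have hW' : SN K (X ⊔ (Y ⊓ M)) := hSNM.trans hW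
    have hsup2 : (X ⊔ (Y ⊓ M)) ⊔ Y = X ⊔ Y :=
      le_antisymm (sup_le (sup_le le_sup_left (inf_le_left.trans le_sup_right)) le_sup_right)
        (sup_le_sup_right le_sup_left Y)
    by_cases hWX : X = X ⊔ (Y ⊓ M)
    · right
      refine ⟨hnorm, ?_⟩
      rw [hWX]
      exact le_sup_right
    · left
      have := hbig _ (lt_of_le_of_ne le_sup_left hWX) hW'
      rwa [hsup2] at this
  · left
    have := hbig _ (lt_of_le_of_ne hXXs hXsX) hXs2
    rwa [hsup] at this

theorem normalizes_nc {Y L H : Subgroup G} (hYL : Y ≤ normalizer (L : Set G)) (hYH : Y ≤ normalizer (H : Set G)) :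
    Y ≤ normalizer (nc L H : Set G) := by
  apply le_normalizer_of_conj
  intro y hy x hx
  have h1 : nc L H ≤ (nc L H).comap (MulAut.conj y).toMonoidHom := by
    apply nc_le
    intro l hl z hz
    show y * z * y⁻¹ ∈ nc L H
    rw [mem_cj] at hz
    have h2 : y * l * y⁻¹ ∈ L := conj_mem_of_le_normalizer hYL hy hl
    have h3 : y * ((l⁻¹ * z * l)) * y⁻¹ ∈ H := conj_mem_of_le_normalizer hYH hy hz
    apply cj_le_nc h2
    rw [mem_cj]
    have h4 : (y * l * y⁻¹)⁻¹ * (y * z * y⁻¹) * (y * l * y⁻¹) = y * (l⁻¹ * z * l) * y⁻¹ := by group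
    rw [h4]
    exact h3
  exact h1 hx

theorem nc_le_of_normalized {K H Z : Subgroup G} (hHZ : H ≤ Z) (hK : K ≤ normalizer (Z : Set G)) : nc K H ≤ Z :=
  nc_le fun g hg => (cj_mono hHZ).trans (cj_eq_of_normalizer (hK hg)).le

/-- The final case. -/
theorem final_case {K M L H A : Subgroup G} (hS : H ⊔ (A ⊔ L) = K) (hM : M = nc K H) (hLM : L ≤ M)
    (hHM : SN M H) (hAH : A ≤ normalizer (H : Set G)) (hLK : K ≤ normalizer (L : Set G)) : H = M := by
  have hSle : H ⊔ (A ⊔ L) ≤ K := hS.le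
  have hLK' : L ≤ K := le_sup_right.trans (le_sup_right.trans hSle)
  have hHK : H ≤ K := le_sup_left.trans hSle
  have hAK : A ≤ K := le_sup_left.trans (le_sup_right.trans hSle)
  have hZ : K ≤ normalizer (nc L H : Set G) := by
    rw [← hS]
    refine sup_le ?_ (sup_le ?_ ?_)
    · exact normalizes_nc (hHK.trans hLK) Subgroup.le_normalizer
    · exact normalizes_nc (hAK.trans hLK) hAH
    · exact le_normalizer_nc L H
  have h1 : M ≤ nc L H := by
    rw [hM]
    exact nc_le_of_normalized (le_nc L H) hZ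
  have h2 : nc L H ≤ nc M H := nc_le fun g hg => cj_le_nc (hLM hg)
  by_contra hne
  apply hHM.nc_ne hne
  exact le_antisymm (nc_le_self hHM.le) (h1.trans h2)

/-- The commutator analysis. -/
theorem comm_case [Finite G] {K M N H A : Subgroup G}
    (IHK : ∀ U, U < K → ∀ X Y, SN U X → SN U Y → SN U (X ⊔ Y))
    (hH : SN K H) (hA : SN K A) (hMK : M < K) (hNK : N < K)
    (hM : M = nc K H) (hN : N = nc K A)
    (hHM : H ≤ M) (hAN : A ≤ N)
    (hAH : A ≤ normalizer (H : Set G)) (hHA : H ≤ normalizer (A : Set G)) : SN K (H ⊔ A) := by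
  have hMn : K ≤ normalizer (M : Set G) := hM ▸ le_normalizer_nc K H
  have hNn : K ≤ normalizer (N : Set G) := hN ▸ le_normalizer_nc K A
  obtain ⟨L, hLdef⟩ : ∃ L, L = M ⊓ N := ⟨_, rfl⟩
  have hLM : L ≤ M := hLdef ▸ inf_le_left
  have hLN : L ≤ N := hLdef ▸ inf_le_right
  have hLn : K ≤ normalizer (L : Set G) := by
    apply le_normalizer_of_conj
    intro y hy x hx
    rw [hLdef] at hx ⊢
    exact ⟨conj_mem_of_le_normalizer hMn hy hx.1, conj_mem_of_le_normalizer hNn hy hx.2⟩
  have hc : ∀ x ∈ M, ∀ y ∈ N, x * y * x⁻¹ * y⁻¹ ∈ L := fun x hx y hy => by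
    rw [hLdef]
    exact comm_mem_inf (hNK.le.trans hMn) (hMK.le.trans hNn) hx hy
  have hc' : ∀ y ∈ N, ∀ x ∈ M, y * x * y⁻¹ * x⁻¹ ∈ L := by
    intro y hy x hx
    have h1 := hc x hx y hy
    have h2 := L.inv_mem h1
    have h3 : (x * y * x⁻¹ * y⁻¹)⁻¹ = y * x * y⁻¹ * x⁻¹ := by group
    rwa [h3] at h2
  have hY1 : ∀ W ≤ M, (A ⊔ L) ≤ normalizer ((W ⊔ L : Subgroup G) : Set G) := by
    intro W hW
    apply le_normalizer_sup_of_comm
    · exact (sup_le hA.le (hLM.trans hMK.le)).trans hLn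
    · intro y hy w hw
      have hyN : y ∈ N := (sup_le hAN hLN) hy
      exact hc' y hyN w (hW hw)
  have hM1 : M ≤ normalizer ((A ⊔ L : Subgroup G) : Set G) :=
    le_normalizer_sup_of_comm (Y := M) (W := A) (L := L) (hMK.le.trans hLn)
      (fun y hy w hw => hc y hy w (hAN hw))
  have hs1 : SN (M ⊔ (A ⊔ L)) (H ⊔ (A ⊔ L)) :=
    (hH.restrict' hMK.le hHM).sup_of_comm (le_sup_right) hM1 hY1
  have hY2 : ∀ W ≤ N, M ≤ normalizer ((W ⊔ L : Subgroup G) : Set G) := by
    intro W hW
    apply le_normalizer_sup_of_comm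
    · exact hMK.le.trans hLn
    · intro y hy w hw
      exact hc y hy w (hW hw)
  have hs2 : SN (N ⊔ M) (A ⊔ M) :=
    (hA.restrict' hNK.le hAN).sup_of_comm hLM (hNK.le.trans hMn) hY2
  have hs3 : SN K (N ⊔ M) := by
    refine SN.of_normal (sup_le hNK.le hMK.le) (le_normalizer_of_conj ?_)
    intro y hy x hx
    have h1 : N ⊔ M ≤ (N ⊔ M).comap (MulAut.conj y).toMonoidHom := by
      refine sup_le ?_ ?_
      · intro z hz
        exact mem_sup_left (conj_mem_of_le_normalizer hNn hy hz)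
      · intro z hz
        exact mem_sup_right (conj_mem_of_le_normalizer hMn hy hz)
    exact h1 hx
  have he1 : M ⊔ (A ⊔ L) = A ⊔ M := by
    apply le_antisymm
    · exact sup_le le_sup_right (sup_le le_sup_left (hLM.trans le_sup_right))
    · exact sup_le (le_sup_left.trans le_sup_right) le_sup_left
  rw [he1] at hs1
  have hs4 : SN K (H ⊔ (A ⊔ L)) := (hs3.trans hs2).trans hs1
  by_cases hSK : H ⊔ (A ⊔ L) = K
  · have hHeq : H = M := final_case hSK hM hLM (hH.restrict' hMK.le hHM) hAH hLn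
    have hS' : A ⊔ (H ⊔ L) = K := by
      rw [← hSK, ← sup_assoc, ← sup_assoc, sup_comm A H]
    have hAeq : A = N := final_case hS' hN hLN (hA.restrict' hNK.le hAN) hHA hLn
    refine SN.of_normal (sup_le hH.le hA.le) ?_
    apply le_normalizer_of_conj
    intro y hy x hx
    have h1 : H ⊔ A ≤ (H ⊔ A).comap (MulAut.conj y).toMonoidHom := by
      refine sup_le ?_ ?_
      · intro z hz
        rw [hHeq] at hz ⊢
        exact mem_sup_left (conj_mem_of_le_normalizer hMn hy hz)
      · intro z hz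
        rw [hAeq] at hz ⊢
        exact mem_sup_right (conj_mem_of_le_normalizer hNn hy hz)
    exact h1 hx
  · have hS1 : H ⊔ (A ⊔ L) < K := lt_of_le_of_ne hs4.le hSK
    have h1 := IHK _ hS1 H A (hH.restrict' hS1.le le_sup_left)
      (hA.restrict' hS1.le (le_sup_left.trans le_sup_right))
    exact hs4.trans h1

/-- The join theorem, with fixed `K`, given the theorem below `K`. -/
theorem join_aux (K : Subgroup G) [Finite G]
    (IHK : ∀ U, U < K → ∀ X Y, SN U X → SN U Y → SN U (X ⊔ Y)) :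
    ∀ (m : ℕ) (H A : Subgroup G), SN K H → SN K A →
      2 * Nat.card K - Nat.card H - Nat.card A ≤ m → SN K (H ⊔ A) := by
  intro m
  induction m using Nat.strong_induction_on with
  | _ m ih =>
  intro H A hH hA hm
  by_cases hHK : H = K
  · subst hHK
    rw [sup_eq_left.mpr hA.le]
    exact SN.refl
  by_cases hAK : A = K
  · subst hAK
    rw [sup_eq_right.mpr hH.le]
    exact SN.refl
  have hcardle : ∀ X : Subgroup G, X ≤ K → Nat.card X ≤ Nat.card K := fun X hX =>
    Subgroup.card_le_of_le hX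
  have hbigH : ∀ H', H < H' → SN K H' → SN K (H' ⊔ A) := by
    intro H' hH' hs
    have h1 : Nat.card H < Nat.card H' := card_lt_of_lt' hH'
    have h2 := hcardle H' hs.le
    have h3 := hcardle A hA.le
    have h4 := hcardle H hH.le
    exact ih (2 * Nat.card K - Nat.card H' - Nat.card A) (by omega) H' A hs hA le_rfl
  have hbigA : ∀ A', A < A' → SN K A' → SN K (A' ⊔ H) := by
    intro A' hA' hs
    have h1 : Nat.card A < Nat.card A' := card_lt_of_lt' hA'
    have h2 := hcardle A' hs.le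
    have h3 := hcardle H hH.le
    have h4 := hcardle A hA.le
    have := ih (2 * Nat.card K - Nat.card H - Nat.card A') (by omega) H A' hH hs le_rfl
    rwa [sup_comm] at this
  obtain ⟨M, hM⟩ : ∃ M, M = nc K H := ⟨_, rfl⟩
  obtain ⟨N, hN⟩ : ∃ N, N = nc K A := ⟨_, rfl⟩
  have hMK : M < K := by
    rw [hM]
    exact lt_of_le_of_ne (nc_le_self hH.le) (hH.nc_ne hHK)
  have hNK : N < K := by
    rw [hN]
    exact lt_of_le_of_ne (nc_le_self hA.le) (hA.nc_ne hAK)
  have hHM : H ≤ M := hM ▸ le_nc K H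
  have hAN : A ≤ N := hN ▸ le_nc K A
  have hSM : SN K M := SN.of_normal hMK.le (hM ▸ le_normalizer_nc K H)
  have hSN : SN K N := SN.of_normal hNK.le (hN ▸ le_normalizer_nc K A)
  rcases key_step (IHK M hMK) hMK.le hSM hH hA hHM (fun a ha => by
    rw [hM]
    exact cj_le_nc (hA.le ha)) hbigH with h1 | ⟨hAH, _⟩
  · exact h1
  rcases key_step (IHK N hNK) hNK.le hSN hA hH hAN (fun a ha => by
    rw [hN]
    exact cj_le_nc (hH.le ha)) hbigA with h1 | ⟨hHA, _⟩
  · rwa [sup_comm] at h1
  exact comm_case IHK hH hA hMK hNK hM hN hHM hAN hAH hHA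

/-- The join theorem. -/
theorem join [Finite G] (n : ℕ) : ∀ (K : Subgroup G), Nat.card K = n → ∀ X Y, SN K X → SN K Y → SN K (X ⊔ Y) := by
  induction n using Nat.strong_induction_on with
  | _ n ih =>
  intro K hK X Y hX hY
  refine join_aux K ?_ _ X Y hX hY le_rfl
  intro U hU A B hA hB
  exact ih _ (hK ▸ card_lt_of_lt' hU) U rfl A B hA hB

theorem isSubnormal_iff_SN {H : Subgroup G} : H.IsSubnormal ↔ SN ⊤ H := by
  constructor
  · intro h
    induction h with
    | top => exact SN.refl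
    | step H K h_le _ hN ih =>
      exact SN.step h_le ih ((normal_subgroupOf_iff_le_normalizer h_le).mp hN)
  · intro h
    induction h with
    | refl => exact IsSubnormal.top
    | @step H L hHL _ hn ih =>
      exact IsSubnormal.step H L hHL ih ((normal_subgroupOf_iff_le_normalizer hHL).mpr hn)

/-- S0538. -/
theorem isSubnormal_sup [Finite G] {A B : Subgroup G} (hA : A.IsSubnormal) (hB : B.IsSubnormal) :
    (A ⊔ B).IsSubnormal := by
  rw [isSubnormal_iff_SN] at *
  exact join _ ⊤ rfl A B hA hB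

/-- Joins of finite families. -/
theorem SN.sSup [Finite G] {K : Subgroup G} {T : Set (Subgroup G)} (h : ∀ U ∈ T, SN K U) : SN K (sSup T) := by
  rw [sSup_eq_iSup']
  exact SN.iSup_of_binary (fun X Y hX hY => join _ K rfl X Y hX hY) _ (fun i => h i i.2)

/-- Wielandt's lemma on families of subnormal subgroups. -/
theorem fam_normalizer [Finite G] (n : ℕ) : ∀ (K : Subgroup G), Nat.card K = n → ∀ (S S₀ : Set (Subgroup G)),
    (∀ U ∈ S, SN K U) → (∀ U ∈ S, ∀ g ∈ K, cj g U ∈ S) → S₀ ⊂ S →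
    ∃ X ∈ S, X ∉ S₀ ∧ X ≤ normalizer ((sSup S₀ : Subgroup G) : Set G) := by
  induction n using Nat.strong_induction_on with
  | _ n ih =>
  intro K hK S S₀ hS hconj h₀
  obtain ⟨U, hU, hU0⟩ := Set.exists_of_ssubset h₀
  obtain ⟨J, hJ⟩ : ∃ J, J = sSup S₀ := ⟨_, rfl⟩
  rw [← hJ]
  by_cases hnorm : K ≤ normalizer (J : Set G)
  · exact ⟨U, hU, hU0, (hS U hU).le.trans hnorm⟩
  have hJS : SN K J := by
    rw [hJ]
    exact SN.sSup fun V hV => hS V (h₀.subset hV)
  have hJK : J ≠ K := by
    intro h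
    apply hnorm
    rw [h]
    exact Subgroup.le_normalizer
  obtain ⟨M, hM⟩ : ∃ M, M = nc K J := ⟨_, rfl⟩
  have hMK : M < K := by
    rw [hM]
    exact lt_of_le_of_ne (nc_le_self hJS.le) (hJS.nc_ne hJK)
  have hJM : J ≤ M := hM ▸ le_nc K J
  have hMn : K ≤ normalizer (M : Set G) := hM ▸ le_normalizer_nc K J
  have hS0M : ∀ V ∈ S₀, V ≤ M := fun V hV => (le_sSup hV).trans (hJ ▸ hJM)
  let SM : Set (Subgroup G) := {V | V ∈ S ∧ V ≤ M}
  have hS0SM : S₀ ⊆ SM := fun V hV => ⟨h₀.subset hV, hS0M V hV⟩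
  by_cases heq : SM ⊆ S₀
  · exfalso
    apply hnorm
    apply le_normalizer_of_conj
    intro y hy x hx
    have h1 : J ≤ J.comap (MulAut.conj y).toMonoidHom := by
      rw [hJ]
      apply sSup_le
      intro V hV z hz
      show y * z * y⁻¹ ∈ sSup S₀
      have h2 : cj y V ∈ SM := by
        refine ⟨hconj V (h₀.subset hV) y hy, ?_⟩
        have h3 := cj_mono (g := y) (hS0M V hV)
        rwa [cj_eq_of_normalizer (hMn hy)] at h3
      exact (le_sSup (heq h2)) (conj_mem_cj hz)
    exact h1 hx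
  · have hss : S₀ ⊂ SM := ⟨hS0SM, heq⟩
    obtain ⟨X, hX, hX0, hXn⟩ := ih _ (hK ▸ card_lt_of_lt' hMK) M rfl SM S₀
      (fun V hV => (hS V hV.1).restrict' hMK.le hV.2)
      (fun V hV g hg => by
        refine ⟨hconj V hV.1 g (hMK.le hg), ?_⟩
        have h3 := cj_mono (g := g) hV.2
        rwa [cj_eq_self hg] at h3) hss
    rw [← hJ] at hXn
    exact ⟨X, hX.1, hX0, hXn⟩

/-- Relative subnormality in terms of `subgroupOf`. -/
theorem subgroupOf_isSubnormal_iff {B V : Subgroup G} (hBV : B ≤ V) :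
    (B.subgroupOf V).IsSubnormal ↔ SN V B := by
  rw [isSubnormal_iff_SN]
  constructor
  · intro h
    have key : ∀ H' : Subgroup V, SN ⊤ H' → SN V (H'.map V.subtype) := by
      intro H' hH'
      induction hH' with
      | refl =>
        rw [← MonoidHom.range_eq_map, Subgroup.range_subtype]
        exact SN.refl
      | @step H L hHL _ hn ih =>
        refine SN.step (Subgroup.map_mono hHL) ih ?_
        apply le_normalizer_of_conj
        rintro _ ⟨y, hy, rfl⟩ _ ⟨x, hx, rfl⟩
        exact ⟨y * x * y⁻¹, conj_mem_of_le_normalizer hn hy hx, by simp⟩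
    have h1 := key _ h
    rwa [Subgroup.subgroupOf_map_subtype, inf_eq_left.mpr hBV] at h1
  · intro h
    induction h with
    | refl =>
      rw [Subgroup.subgroupOf_self]
      exact SN.refl
    | @step H L hHL hL hn ih =>
      refine SN.step (fun x hx => ?_) (ih hL.le) ?_
      · exact Subgroup.mem_subgroupOf.mpr (hHL (Subgroup.mem_subgroupOf.mp hx))
      · apply le_normalizer_of_conj
        intro y hy x hx
        rw [Subgroup.mem_subgroupOf] at hy hx ⊢
        simpa using conj_mem_of_le_normalizer hn hy hx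

end Cfsg.Agent.Lib.SubnormalJoin
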