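import Mathlib
import Cfsg.Agent.Lib.ZJFunctor
import Cfsg.Agent.Lib.ThompsonFpf
import Cfsg.Agent.Lib.SuborbitFaithful

/-!
A nonabelian simple group does not admit a group of automorphisms and anti-automorphisms containing
the inner automorphisms all of whose point stabilisers on nontrivial elements are maximal.
-/

set_option autoImplicit false
set_option linter.unusedVariables false
set_option linter.style.haveILetI false
set_option linter.unusedSectionVars false

namespace Cfsg.Agent.Lib.SuborbitSimple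

open Cfsg MulAction

universe u v

theorem W_map {T : Type u} [Group T] (R : Subgroup T) (e : T ≃* T)
    (hR : R.map e.toMonoidHom = R) :
    (centerThompsonAOf R).map e.toMonoidHom = centerThompsonAOf R := by
  have h0 : ∀ (D : Subgroup T), centerThompsonAOf D =
      (Cfsg.Agent.Lib.ZJFunctor.WG 0 ↥D).map D.subtype := by
    intro D
    rw [Cfsg.Agent.Lib.ZJApps.centerThompsonAOf_eq, ← Cfsg.Agent.Lib.ZJFunctor.induced_WG]
    rfl
  have hmem : ∀ x ∈ R, e x ∈ R := by
    intro x hx
    rw [← hR]
    exact ⟨x, hx, rfl⟩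
  have hmem' : ∀ x ∈ R, e.symm x ∈ R := by
    intro x hx
    rw [← hR] at hx
    obtain ⟨y, hy, rfl⟩ := hx
    have : e.symm (e.toMonoidHom y) = y := e.symm_apply_apply y
    rwa [this]
  let φ : ↥R ≃* ↥R :=
    { toFun := fun x => ⟨e x, hmem x x.2⟩
      invFun := fun x => ⟨e.symm x, hmem' x x.2⟩
      left_inv := fun x => Subtype.ext (e.symm_apply_apply x)
      right_inv := fun x => Subtype.ext (e.apply_symm_apply x)
      map_mul' := fun x y => Subtype.ext (map_mul e _ _) }
  have h1 := Cfsg.Agent.Lib.ZJFunctor.map_WG 0 φ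
  rw [h0 R, Subgroup.map_map]
  conv_rhs => rw [← h1, Subgroup.map_map]
  rfl

theorem no_action {T : Type u} {A : Type v} [Group T] [Finite T] [Group A] [Finite A] [MulAction A T]
    (hsimple : IsSimpleGroup T) (hnc : ∃ x y : T, x * y ≠ y * x)
    (hauto : ∀ a : A, ∃ e : T ≃* T, (∀ t, a • t = e t) ∨ (∀ t, a • t = (e t)⁻¹))
    (hinner : ∀ n : T, ∃ m : A, ∀ u : T, m • u = n * u * n⁻¹)
    (hmax : ∀ z : T, z ≠ 1 → IsCoatom (stabilizer A z)) : False := by
  classical
  haveI := hsimple
  -- trivial centre
  have hcenter : Subgroup.center T = ⊥ := by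
    rcases IsSimpleGroup.eq_bot_or_eq_top_of_normal (Subgroup.center T) inferInstance with h | h
    · exact h
    · exfalso
      obtain ⟨x, y, hxy⟩ := hnc
      have hx : x ∈ Subgroup.center T := by rw [h]; trivial
      exact hxy ((Subgroup.mem_center_iff.1 hx y).symm)
  have hnp : ∀ (p : ℕ) [Fact p.Prime], ¬ IsPGroup p T := by
    intro p _ hp
    have := hp.center_nontrivial
    rw [hcenter] at this
    exact not_nontrivial _ this
  -- action is compatible with powers
  have hpow : ∀ (a : A) (t : T) (k : ℕ), a • (t ^ k) = (a • t) ^ k := by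
    intro a t k
    obtain ⟨e, h | h⟩ := hauto a
    · rw [h, h, map_pow]
    · rw [h, h, map_pow, inv_pow]
  have hone : ∀ a : A, a • (1 : T) = 1 := by
    intro a
    have := hpow a 1 0
    simpa using this
  have hcomm : ∀ (a : A) (s t : T), Commute s t → Commute (a • s) (a • t) := by
    intro a s t hst
    obtain ⟨e, h | h⟩ := hauto a
    · rw [h, h]
      exact hst.map e
    · rw [h, h]
      exact (hst.map e).inv_inv
  have hord : ∀ (a : A) (t : T), orderOf (a • t) = orderOf t := by
    intro a t
    obtain ⟨e, h | h⟩ := hauto a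
    · rw [h]; exact MulEquiv.orderOf_eq e t
    · rw [h, orderOf_inv]; exact MulEquiv.orderOf_eq e t
  -- an odd prime
  obtain ⟨r, hrp, hr2, hrd⟩ : ∃ r : ℕ, r.Prime ∧ r ≠ 2 ∧ r ∣ Nat.card T := by
    by_contra hcon
    push Not at hcon
    haveI : Fact (Nat.Prime 2) := ⟨Nat.prime_two⟩
    apply hnp 2
    apply IsPGroup.of_card (n := (Nat.card T).primeFactorsList.length)
    apply Nat.eq_prime_pow_of_unique_prime_dvd Nat.card_pos.ne'
    intro d hd hdd
    by_contra hd2
    exact hcon d hd hd2 hdd
  haveI : Fact r.Prime := ⟨hrp⟩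
  obtain ⟨R⟩ : Nonempty (Sylow r T) := inferInstance
  have hRp : IsPGroup r (R : Subgroup T) := R.isPGroup'
  have hRcard : 1 < Nat.card (R : Subgroup T) := by
    rw [Sylow.card_eq_multiplicity R]
    exact Nat.one_lt_pow (hrp.factorization_pos_of_dvd Nat.card_pos.ne' hrd).ne' hrp.one_lt
  haveI hRnt : Nontrivial (R : Subgroup T) := Finite.one_lt_card_iff_nontrivial.1 hRcard
  have hRtop : (R : Subgroup T) ≠ ⊤ := by
    intro h
    apply hnp r
    intro g
    have hg : g ∈ (R : Subgroup T) := by rw [h]; trivial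
    obtain ⟨k, hk⟩ := hRp ⟨g, hg⟩
    exact ⟨k, congrArg Subtype.val hk⟩
  -- central element of order `r`
  haveI hcnt := hRp.center_nontrivial
  have hcp : IsPGroup r (Subgroup.center (R : Subgroup T)) := hRp.to_subgroup _
  obtain ⟨n₀, hn₀, hn₀c⟩ := hcp.nontrivial_iff_card.1 hcnt
  obtain ⟨x₀, hx₀⟩ := exists_prime_orderOf_dvd_card' (G := Subgroup.center (R : Subgroup T)) r
    (by rw [hn₀c]; exact dvd_pow_self r hn₀.ne')
  set z : T := ((x₀ : (R : Subgroup T)) : T) with hz
  have hzo : orderOf z = r := by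
    rw [hz, Subgroup.orderOf_coe, Subgroup.orderOf_coe]
    exact hx₀
  have hzR : z ∈ (R : Subgroup T) := (x₀ : (R : Subgroup T)).2
  have hz1 : z ≠ 1 := by
    intro h
    rw [h, orderOf_one] at hzo
    exact hrp.one_lt.ne hzo
  have hzc : ∀ u ∈ (R : Subgroup T), Commute u z := by
    intro u hu
    have h1 := Subgroup.mem_center_iff.1 x₀.2 ⟨u, hu⟩
    exact congrArg Subtype.val h1
  have heq_of_le : ∀ x y : T, x ≠ 1 → y ≠ 1 → stabilizer A x ≤ stabilizer A y →
      stabilizer A x = stabilizer A y := fun x y hx hy h =>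
    (((hmax x hx).le_iff_eq (hmax y hy).1).1 h).symm
  have hstab_pow : ∀ (x : T) (k : ℕ), stabilizer A x ≤ stabilizer A (x ^ k) := by
    intro x k a ha
    rw [mem_stabilizer_iff] at ha ⊢
    rw [hpow, ha]
  -- (i)
  have key1 : ∀ b : T, Commute b z → b ≠ 1 → (orderOf b).Coprime r →
      stabilizer A b = stabilizer A z := by
    intro b hbz hb1 hcop
    have hs1 : 1 < orderOf b := by
      have h1 := orderOf_pos b
      have h2 : orderOf b ≠ 1 := fun h => hb1 (orderOf_eq_one_iff.1 h)
      omega
    obtain ⟨u, hu⟩ := Nat.exists_mul_mod_eq_one_of_coprime hcop hrp.one_lt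
    obtain ⟨v, hv⟩ := Nat.exists_mul_mod_eq_one_of_coprime hcop.symm hs1
    have hzr : z ^ r = 1 := by rw [← hzo]; exact pow_orderOf_eq_one z
    have hbs : b ^ orderOf b = 1 := pow_orderOf_eq_one b
    have hxz : (z * b) ^ (orderOf b * u) = z := by
      rw [hbz.symm.mul_pow, pow_mul b, hbs, one_pow, mul_one]
      have h1 := pow_mod_orderOf z (orderOf b * u)
      rw [hzo, hu.2, pow_one] at h1
      exact h1.symm
    have hxb : (z * b) ^ (r * v) = b := by
      rw [hbz.symm.mul_pow, pow_mul z, hzr, one_pow, one_mul]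
      have h1 := pow_mod_orderOf b (r * v)
      rw [hv.2, pow_one] at h1
      exact h1.symm
    have hx1 : z * b ≠ 1 := by
      intro h
      rw [h, one_pow] at hxz
      exact hz1 hxz.symm
    have h1 : stabilizer A (z * b) ≤ stabilizer A z := by
      have := hstab_pow (z * b) (orderOf b * u)
      rwa [hxz] at this
    have h2 : stabilizer A (z * b) ≤ stabilizer A b := by
      have := hstab_pow (z * b) (r * v)
      rwa [hxb] at this
    rw [← heq_of_le _ _ hx1 hb1 h2, heq_of_le _ _ hx1 hz1 h1]
  -- (ii)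
  have key2 : ∀ b n : T, Commute b z → Commute n z → (orderOf b).Coprime r → n * b * n⁻¹ = b := by
    intro b n hbz hnz hcop
    by_cases hb1 : b = 1
    · subst hb1; simp
    obtain ⟨m, hm⟩ := hinner n
    have h1 : m ∈ stabilizer A z := by
      rw [mem_stabilizer_iff, hm]
      rw [mul_inv_eq_iff_eq_mul]
      exact hnz
    rw [← key1 b hbz hb1 hcop, mem_stabilizer_iff, hm] at h1
    exact h1
  let C : Subgroup T := Subgroup.centralizer {z}
  have hCmem : ∀ u : T, u ∈ C ↔ Commute u z := by
    intro u
    exact Subgroup.mem_centralizer_singleton_iff.trans ⟨fun h => h, fun h => h⟩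
  -- (iii)
  have hCnil : Group.IsNilpotent C := by
    have hp : IsPGroup r (C ⧸ Subgroup.center C) := by
      intro q
      obtain ⟨g, rfl⟩ := QuotientGroup.mk_surjective q
      obtain ⟨a, s, hs, hg⟩ := Nat.exists_eq_pow_mul_and_not_dvd (orderOf_pos g).ne' r hrp.ne_one
      refine ⟨a, ?_⟩
      rw [← QuotientGroup.mk_pow, QuotientGroup.eq_one_iff, Subgroup.mem_center_iff]
      intro n
      apply Subtype.ext
      have hb : orderOf ((g : T) ^ (r ^ a)) ∣ s := by
        apply orderOf_dvd_of_pow_eq_one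
        rw [← pow_mul, ← Subgroup.coe_pow]
        rw [← hg, pow_orderOf_eq_one]
        rfl
      have hcop : (orderOf ((g : T) ^ (r ^ a))).Coprime r :=
        Nat.Coprime.coprime_dvd_left hb ((Nat.Prime.coprime_iff_not_dvd hrp).2 hs).symm
      have hbz : Commute ((g : T) ^ (r ^ a)) z := ((hCmem _).1 g.2).pow_left _
      have h2 := key2 _ (n : T) hbz ((hCmem _).1 n.2) hcop
      rw [mul_inv_eq_iff_eq_mul] at h2
      simpa using h2
    haveI : Group.IsNilpotent (C ⧸ Subgroup.center C) := hp.isNilpotent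
    exact _root_.isNilpotent_of_ker_le_center (QuotientGroup.mk' (Subgroup.center C))
      (by rw [QuotientGroup.ker_mk'])
  -- (iv)
  haveI := hCnil
  obtain ⟨R₁⟩ : Nonempty (Sylow r C) := inferInstance
  have hR₁n : (R₁ : Subgroup C).Normal :=
    ((Group.isNilpotent_of_finite_tfae (G := C)).out 0 3 rfl rfl).1 hCnil r inferInstance R₁
  haveI hunique := Sylow.unique_of_normal R₁ hR₁n
  have hRC : (R : Subgroup T) ≤ C := fun u hu => (hCmem u).2 (hzc u hu)
  have hReq : (R₁ : Subgroup C).map C.subtype = (R : Subgroup T) := by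
    apply R.is_maximal' (R₁.isPGroup'.map C.subtype)
    intro x hx
    have hxC := hRC hx
    have h0 : IsPGroup r ((R : Subgroup T).subgroupOf C) :=
      hRp.comap_of_injective (C.subtype) C.subtype_injective
    obtain ⟨S, hS⟩ := h0.exists_le_sylow
    have hSeq : S = R₁ := Subsingleton.elim _ _
    rw [hSeq] at hS
    exact ⟨⟨x, hxC⟩, hS (by
      rw [Subgroup.mem_subgroupOf]
      exact hx), rfl⟩
  have hrel : ∀ g : T, Commute g z → (∃ k : ℕ, g ^ (r ^ k) = 1) → g ∈ (R : Subgroup T) := by
    rintro g hgz ⟨k, hk⟩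
    let g' : C := ⟨g, (hCmem g).2 hgz⟩
    have hg' : g' ^ (r ^ k) = 1 := Subtype.ext hk
    have hzp : IsPGroup r (Subgroup.zpowers g') := by
      rw [IsPGroup.iff_card, Nat.card_zpowers]
      have := orderOf_dvd_of_pow_eq_one hg'
      obtain ⟨j, _, hj⟩ := (Nat.dvd_prime_pow hrp).1 this
      exact ⟨j, hj⟩
    obtain ⟨S, hS⟩ := hzp.exists_le_sylow
    have hSeq : S = R₁ := Subsingleton.elim _ _
    rw [hSeq] at hS
    rw [← hReq]
    exact ⟨g', hS (Subgroup.mem_zpowers g'), rfl⟩
  have hYR : ∀ a ∈ stabilizer A z, ∀ u ∈ (R : Subgroup T), a • u ∈ (R : Subgroup T) := by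
    intro a ha u hu
    rw [mem_stabilizer_iff] at ha
    apply hrel
    · have := hcomm a u z (hzc u hu)
      rwa [ha] at this
    · obtain ⟨k, hk⟩ := hRp ⟨u, hu⟩
      refine ⟨k, ?_⟩
      rw [← hpow]
      have : u ^ (r ^ k) = 1 := congrArg Subtype.val hk
      rw [this, hone]
  -- (v)
  have h0 : centerThompsonAOf (R : Subgroup T) =
      (Cfsg.Agent.Lib.ZJFunctor.WG 0 ↥(R : Subgroup T)).map (R : Subgroup T).subtype := by
    rw [Cfsg.Agent.Lib.ZJApps.centerThompsonAOf_eq, ← Cfsg.Agent.Lib.ZJFunctor.induced_WG]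
    rfl
  set W : Subgroup T := centerThompsonAOf (R : Subgroup T) with hW
  have hzW : z ∈ W := by
    rw [h0]
    exact ⟨(x₀ : (R : Subgroup T)),
      Cfsg.Agent.Lib.ZJFunctor.central_mem_WG x₀.2 (by simp), rfl⟩
  have hWR : W ≤ (R : Subgroup T) := by
    rw [h0]
    exact Subgroup.map_subtype_le _
  have hYW : ∀ a ∈ stabilizer A z, ∀ u : T, u ∈ W ↔ a • u ∈ W := by
    intro a ha u
    obtain ⟨e, he⟩ := hauto a
    have hRmem : ∀ x ∈ (R : Subgroup T), e x ∈ (R : Subgroup T) := by
      intro x hx
      have h1 := hYR a ha x hx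
      rcases he with h | h
      · rwa [h] at h1
      · rw [h] at h1
        exact inv_mem_iff.1 h1
    have hRe : (R : Subgroup T).map e.toMonoidHom = (R : Subgroup T) := by
      apply Subgroup.eq_of_le_of_card_ge
      · rintro _ ⟨x, hx, rfl⟩
        exact hRmem x hx
      · rw [Subgroup.card_map_of_injective e.injective]
    have hWe : W.map e.toMonoidHom = W := W_map _ e hRe
    have hWmem : ∀ v : T, v ∈ W ↔ e v ∈ W := by
      intro v
      constructor
      · intro hv
        rw [← hWe]
        exact ⟨v, hv, rfl⟩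
      · intro hv
        rw [← hWe] at hv
        obtain ⟨w, hw, hwv⟩ := hv
        have : w = v := e.injective hwv
        rwa [← this]
    rcases he with h | h
    · rw [h, ← hWmem]
    · rw [h, inv_mem_iff, ← hWmem]
  let SW : Subgroup A :=
    { carrier := {a | ∀ u : T, u ∈ W ↔ a • u ∈ W}
      one_mem' := by
        intro u
        simp
      mul_mem' := by
        intro a b ha hb u
        rw [mul_smul, hb u, ha (b • u)]
      inv_mem' := by
        intro a ha u
        have := ha (a⁻¹ • u)
        rw [smul_inv_smul] at this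
        exact this.symm }
  have hSne : SW ≠ ⊤ := by
    intro htop
    have hWn : W.Normal := by
      constructor
      intro u hu n
      obtain ⟨m, hm⟩ := hinner n
      have hmS : m ∈ SW := by rw [htop]; trivial
      rw [← hm]
      exact (hmS u).1 hu
    rcases IsSimpleGroup.eq_bot_or_eq_top_of_normal W hWn with h | h
    · rw [h, Subgroup.mem_bot] at hzW
      exact hz1 hzW
    · apply hRtop
      rw [eq_top_iff, ← h]
      exact hWR
  have hYS : SW = stabilizer A z := ((hmax z hz1).le_iff_eq hSne).1 (fun a ha => hYW a ha)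
  -- (vi)
  have hLC : Subgroup.normalizer (W : Set T) ≤ C := by
    intro n hn
    rw [hCmem]
    obtain ⟨m, hm⟩ := hinner n
    have hmS : m ∈ SW := by
      intro u
      rw [hm]
      exact Subgroup.mem_normalizer_iff.1 hn u
    rw [hYS, mem_stabilizer_iff, hm, mul_inv_eq_iff_eq_mul] at hmS
    exact hmS
  haveI hLnil : Group.IsNilpotent (Subgroup.normalizer (W : Set T)) :=
    _root_.isNilpotent_of_ker_le_center (Subgroup.inclusion hLC)
      (by
        rw [(MonoidHom.ker_eq_bot_iff _).2 (Subgroup.inclusion_injective hLC)]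
        exact bot_le)
  have hN : HasNormalPComplement r (Subgroup.normalizer (W : Set T)) :=
    Cfsg.Agent.Lib.ThompsonFpf.npc_of_nilpotent r
  obtain ⟨P, K, hKn, hK⟩ := Cfsg.Agent.Lib.ZJFunctor.npc_centerA hr2 R hN
  have hcm := hK.card_mul_card
  rcases IsSimpleGroup.eq_bot_or_eq_top_of_normal K hKn with h | h
  · subst h
    simp only [Subgroup.card_bot, one_mul] at hcm
    have hPtop : (P : Subgroup T) = ⊤ := Subgroup.eq_top_of_card_eq _ hcm
    apply hnp r
    intro g
    have hg : g ∈ (P : Subgroup T) := by rw [hPtop]; trivial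
    obtain ⟨k, hk⟩ := P.isPGroup' ⟨g, hg⟩
    exact ⟨k, congrArg Subtype.val hk⟩
  · subst h
    have hP1 : Nat.card (P : Subgroup T) = 1 := by
      have h1 : Nat.card (⊤ : Subgroup T) * Nat.card (P : Subgroup T) = Nat.card (⊤ : Subgroup T) * 1 := by
        rw [hcm, mul_one, Subgroup.card_top]
      exact Nat.eq_of_mul_eq_mul_left Nat.card_pos h1
    rw [Sylow.card_eq_multiplicity P] at hP1
    have := Nat.one_lt_pow (hrp.factorization_pos_of_dvd Nat.card_pos.ne' hrd).ne' hrp.one_lt
    omega

/-- A stabiliser in a point stabiliser is a coatom as soon as it is proper. -/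
theorem coatom_stab {G : Type u} {Ω : Type v} [Group G] [MulAction G Ω] [Finite G]
    (hep : ∀ α ω : Ω, IsPreprimitive (stabilizer G α) (orbit (stabilizer G α) ω))
    (α β : Ω) (hmove : ∃ a : stabilizer G α, a • β ≠ β) :
    IsCoatom (stabilizer (stabilizer G α) β) := by
  haveI := hep α β
  obtain ⟨a, ha⟩ := hmove
  haveI : Nontrivial (orbit (stabilizer G α) β) := by
    refine ⟨⟨⟨β, mem_orbit_self β⟩, ⟨a • β, mem_orbit β a⟩, ?_⟩⟩
    intro h
    exact ha (congrArg Subtype.val h).symm
  have h1 := IsPreprimitive.isCoatom_stabilizer_of_isPreprimitive (stabilizer G α)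
    (⟨β, mem_orbit_self β⟩ : orbit (stabilizer G α) β)
  have h2 : stabilizer (stabilizer G α) (⟨β, mem_orbit_self β⟩ : orbit (stabilizer G α) β) =
      stabilizer (stabilizer G α) β := by
    ext a
    rw [mem_stabilizer_iff, mem_stabilizer_iff]
    constructor
    · intro h
      exact congrArg Subtype.val h
    · intro h
      exact Subtype.ext h
  rwa [h2] at h1

theorem regular_pair_false {G : Type u} {Ω : Type v} [Group G] [Finite G] [MulAction G Ω] [Finite Ω]
    (hep : ∀ α ω : Ω, IsPreprimitive (stabilizer G α) (orbit (stabilizer G α) ω))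
    (α : Ω) (T T' : Subgroup G)
    (hsimple : IsSimpleGroup T) (hnc : ∃ x y : T, x * y ≠ y * x)
    (htrans : ∀ γ : Ω, ∃ t ∈ T, t • α = γ)
    (hreg : ∀ t ∈ T, t • α = α → t = 1)
    (htrans' : ∀ γ : Ω, ∃ t ∈ T', t • α = γ)
    (hcomm : ∀ t ∈ T, ∀ s ∈ T', t * s = s * t)
    (hperm : ∀ h : G, h • α = α → (∀ t ∈ T, h * t * h⁻¹ ∈ T) ∨ (∀ t ∈ T, h * t * h⁻¹ ∈ T')) :
    False := by
  classical
  have hinj : ∀ u v : T, (u : G) • α = (v : G) • α → u = v := by
    intro u v h
    have h1 : (v : G)⁻¹ * (u : G) ∈ T := T.mul_mem (T.inv_mem v.2) u.2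
    have h2 := hreg _ h1 (by rw [mul_smul, h, inv_smul_smul])
    rw [inv_mul_eq_one] at h2
    exact Subtype.ext h2.symm
  let f : T ≃ Ω := Equiv.ofBijective (fun t : T => (t : G) • α)
    ⟨fun u v h => hinj u v h, fun γ => by
      obtain ⟨t, ht, h⟩ := htrans γ
      exact ⟨⟨t, ht⟩, h⟩⟩
  have hf : ∀ t : T, f t = (t : G) • α := fun t => rfl
  let H := stabilizer G α
  letI : MulAction H T :=
    { smul := fun a t => f.symm (a • f t)
      one_smul := fun t => by
        change f.symm ((1 : H) • f t) = t
        rw [one_smul, Equiv.symm_apply_apply]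
      mul_smul := fun a b t => by
        change f.symm ((a * b) • f t) = f.symm (a • f (f.symm (b • f t)))
        rw [Equiv.apply_symm_apply, mul_smul] }
  have hsm : ∀ (a : H) (t : T), f (a • t) = (a : G) • f t := by
    intro a t
    change f (f.symm (a • f t)) = _
    rw [Equiv.apply_symm_apply]
    rfl
  have hfα : ∀ a : H, (a : G) • α = α := fun a => a.2
  have hsm2 : ∀ (a : H) (t : T), ((a • t : T) : G) • α = ((a : G) * (t : G) * (a : G)⁻¹) • α := by
    intro a t
    have h1 := hsm a t
    rw [hf, hf] at h1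
    rw [h1, mul_smul, mul_smul]
    congr 2
    rw [eq_inv_smul_iff, hfα]
  have hcenter : ∀ z : T, z ≠ 1 → ∃ n : T, n * z * n⁻¹ ≠ z := by
    intro z hz
    by_contra hcon
    push Not at hcon
    haveI := hsimple
    have hc : z ∈ Subgroup.center T := by
      rw [Subgroup.mem_center_iff]
      intro g
      have := hcon g
      rwa [mul_inv_eq_iff_eq_mul] at this
    rcases IsSimpleGroup.eq_bot_or_eq_top_of_normal (Subgroup.center T) inferInstance with h | h
    · rw [h, Subgroup.mem_bot] at hc
      exact hz hc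
    · obtain ⟨x, y, hxy⟩ := hnc
      have hx : x ∈ Subgroup.center T := by rw [h]; trivial
      exact hxy ((Subgroup.mem_center_iff.1 hx y).symm)
  have hinner : ∀ n : T, ∃ m : H, ∀ u : T, m • u = n * u * n⁻¹ := by
    intro n
    obtain ⟨c, hc, hcα⟩ := htrans' ((n : G)⁻¹ • α)
    have hm : (n : G) * c ∈ H := by
      rw [mem_stabilizer_iff, mul_smul, hcα, smul_inv_smul]
    refine ⟨⟨_, hm⟩, fun u => ?_⟩
    apply f.injective
    rw [hsm, hf, hf]
    change ((n : G) * c) • (u : G) • α = ((n : G) * (u : G) * (n : G)⁻¹) • α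
    rw [mul_smul, ← mul_smul c, ← hcomm u u.2 c hc, mul_smul, hcα, ← mul_smul, ← mul_smul]
  apply no_action (A := H) (T := T) hsimple hnc ?_ hinner ?_
  · intro a
    rcases hperm a a.2 with h | h
    · let φ : T →* T :=
        { toFun := fun t => ⟨(a : G) * t * (a : G)⁻¹, h t t.2⟩
          map_one' := Subtype.ext (by simp)
          map_mul' := fun x y => Subtype.ext (by simp [mul_assoc]) }
      have hφinj : Function.Injective φ := by
        intro x y hxy
        have h1 : (a : G) * x * (a : G)⁻¹ = (a : G) * y * (a : G)⁻¹ := congrArg Subtype.val hxy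
        apply Subtype.ext
        simpa using h1
      let e : T ≃* T := MulEquiv.ofBijective φ (Finite.injective_iff_bijective.1 hφinj)
      refine ⟨e, Or.inl fun t => ?_⟩
      apply hinj
      rw [hsm2]
      rfl
    · have hτ : ∀ t₁ t₂ : T, a • (t₁ * t₂) = (a • t₂) * (a • t₁) := by
        intro t₁ t₂
        apply hinj
        rw [hsm2]
        have hs₁ := h t₁ t₁.2
        have h₂ := hsm2 a t₂
        have h₁ := hsm2 a t₁
        calc ((a : G) * ((t₁ * t₂ : T) : G) * (a : G)⁻¹) • α
            = ((a : G) * t₁ * (a : G)⁻¹) • ((a : G) * t₂ * (a : G)⁻¹) • α := by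
              rw [← mul_smul]
              congr 1
              simp only [Subgroup.coe_mul]
              group
          _ = ((a : G) * t₁ * (a : G)⁻¹) • ((a • t₂ : T) : G) • α := by rw [h₂]
          _ = ((a • t₂ : T) : G) • ((a : G) * t₁ * (a : G)⁻¹) • α := by
              rw [← mul_smul, ← mul_smul, (hcomm _ (a • t₂).2 _ hs₁)]
          _ = ((a • t₂ : T) : G) • ((a • t₁ : T) : G) • α := by rw [h₁]
          _ = (((a • t₂) * (a • t₁) : T) : G) • α := by
              rw [Subgroup.coe_mul, mul_smul]
      let φ : T →* T :=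
        { toFun := fun t => (a • t)⁻¹
          map_one' := by
            have h1 : a • (1 : T) = 1 := by
              apply hinj
              rw [hsm2]
              simp [hfα]
            rw [h1, inv_one]
          map_mul' := fun x y => by
            rw [hτ, mul_inv_rev] }
      have hφinj : Function.Injective φ := by
        intro x y hxy
        have h1 : a • x = a • y := inv_injective hxy
        exact MulAction.injective a h1
      let e : T ≃* T := MulEquiv.ofBijective φ (Finite.injective_iff_bijective.1 hφinj)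
      refine ⟨e, Or.inr fun t => ?_⟩
      change a • t = ((a • t)⁻¹)⁻¹
      rw [inv_inv]
  · intro z hz
    have hstab : stabilizer H z = stabilizer H (f z) := by
      ext a
      rw [mem_stabilizer_iff, mem_stabilizer_iff]
      constructor
      · intro h
        have := hsm a z
        rw [h] at this
        exact this.symm
      · intro h
        apply f.injective
        rw [hsm]
        exact h
    rw [hstab]
    apply coatom_stab hep
    obtain ⟨n, hn⟩ := hcenter z hz
    obtain ⟨m, hm⟩ := hinner n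
    refine ⟨m, fun h => hn ?_⟩
    rw [← hm]
    apply f.injective
    rw [hsm]
    exact h

end Cfsg.Agent.Lib.SuborbitSimple
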