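import Mathlib
import Cfsg.Agent.Lib.SuborbitSimple
import Cfsg.Agent.Lib.Burnside2T

/-!
A primitive group whose point stabilisers act primitively on all their orbits has either a regular
abelian normal subgroup or a nonabelian simple normal subgroup with trivial centraliser.
-/

set_option autoImplicit false
set_option linter.unusedVariables false
set_option linter.style.haveILetI false
set_option linter.unusedSectionVars false

namespace Cfsg.Agent.Lib.SuborbitMain

open Cfsg MulAction
open Cfsg.Agent.Lib.SuborbitSimple Cfsg.Agent.Lib.SuborbitFaithful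

universe u v

section basics

variable {G : Type u} [Group G]

/-- Conjugate of a subgroup. -/
def cj (g : G) (T : Subgroup G) : Subgroup G := T.map (MulAut.conj g).toMonoidHom

theorem mem_cj {g x : G} {T : Subgroup G} : x ∈ cj g T ↔ g⁻¹ * x * g ∈ T := by
  constructor
  · rintro ⟨t, ht, rfl⟩
    have : g⁻¹ * (MulAut.conj g).toMonoidHom t * g = t := by
      change g⁻¹ * (g * t * g⁻¹) * g = t
      group
    rwa [this]
  · intro h
    refine ⟨_, h, ?_⟩
    change g * (g⁻¹ * x * g) * g⁻¹ = x
    group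

theorem conj_mem_cj {g t : G} {T : Subgroup G} (h : t ∈ T) : g * t * g⁻¹ ∈ cj g T :=
  ⟨t, h, rfl⟩

/-- Nontrivial subgroups of `N` normalised by `N`. -/
def PP (N T : Subgroup G) : Prop := T ≠ ⊥ ∧ T ≤ N ∧ ∀ n ∈ N, ∀ t ∈ T, n * t * n⁻¹ ∈ T

theorem PP_cj {N T : Subgroup G} (hN : N.Normal) (h : PP N T) (g : G) : PP N (cj g T) := by
  obtain ⟨h1, h2, h3⟩ := h
  refine ⟨?_, ?_, ?_⟩
  · intro hb
    apply h1
    rw [cj, Subgroup.map_eq_bot_iff_of_injective _ (MulAut.conj g).injective] at hb
    exact hb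
  · rintro _ ⟨t, ht, rfl⟩
    exact hN.conj_mem t (h2 ht) g
  · intro n hn x hx
    rw [mem_cj] at hx ⊢
    have h4 := h3 (g⁻¹ * n * g) (by
      have := hN.conj_mem n hn g⁻¹
      rwa [inv_inv] at this) _ hx
    have h5 : g⁻¹ * (n * x * n⁻¹) * g = (g⁻¹ * n * g) * (g⁻¹ * x * g) * (g⁻¹ * n * g)⁻¹ := by group
    rwa [h5]

theorem min_cj {N T : Subgroup G} (hN : N.Normal) (h : Minimal (PP N) T) (g : G) :
    Minimal (PP N) (cj g T) := by
  refine ⟨PP_cj hN h.1 g, ?_⟩
  intro U hU hle
  have h1 : cj g⁻¹ U ≤ T := by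
    intro x hx
    rw [mem_cj, inv_inv] at hx
    have := hle hx
    rw [mem_cj] at this
    have h2 : g⁻¹ * (g * x * g⁻¹) * g = x := by group
    rwa [h2] at this
  have h2 := h.2 (PP_cj hN hU g⁻¹) h1
  intro x hx
  rw [mem_cj] at hx
  have h3 := h2 hx
  rw [mem_cj, inv_inv] at h3
  have h4 : g * (g⁻¹ * x * g) * g⁻¹ = x := by group
  rwa [h4] at h3

theorem min_inf {N U V : Subgroup G} (hU : Minimal (PP N) U) (hV : Minimal (PP N) V) (hne : U ≠ V) :
    U ⊓ V = ⊥ := by
  by_contra hb
  have hP : PP N (U ⊓ V) := by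
    refine ⟨hb, inf_le_left.trans hU.1.2.1, ?_⟩
    intro n hn t ht
    exact ⟨hU.1.2.2 n hn t ht.1, hV.1.2.2 n hn t ht.2⟩
  have h1 : U ≤ U ⊓ V := hU.2 hP inf_le_left
  have h2 : V ≤ U ⊓ V := hV.2 hP inf_le_right
  exact hne (le_antisymm (h1.trans inf_le_right) (h2.trans inf_le_left))

theorem min_comm {N U V : Subgroup G} (hU : Minimal (PP N) U) (hV : Minimal (PP N) V) (hne : U ≠ V) :
    ∀ u ∈ U, ∀ v ∈ V, u * v = v * u := by
  intro u hu v hv
  have h0 := min_inf hU hV hne
  have h1 : u * v * u⁻¹ * v⁻¹ ∈ U ⊓ V := by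
    refine ⟨?_, ?_⟩
    · have := hU.1.2.2 v (hV.1.2.1 hv) u⁻¹ (U.inv_mem hu)
      have h2 : u * v * u⁻¹ * v⁻¹ = u * (v * u⁻¹ * v⁻¹) := by group
      rw [h2]
      exact U.mul_mem hu this
    · have := hV.1.2.2 u (hU.1.2.1 hu) v hv
      exact V.mul_mem this (V.inv_mem hv)
  rw [h0, Subgroup.mem_bot] at h1
  have h2 : u * v * u⁻¹ = v := by
    rwa [mul_inv_eq_one] at h1
  rwa [mul_inv_eq_iff_eq_mul] at h2

theorem simple_of (T : Subgroup G) (hTb : T ≠ ⊥)
    (hU : ∀ U : Subgroup G, U ≠ ⊥ → U ≤ T → (∀ t ∈ T, ∀ u ∈ U, t * u * t⁻¹ ∈ U) → T ≤ U) :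
    IsSimpleGroup T := by
  haveI : Nontrivial T := (Subgroup.nontrivial_iff_ne_bot T).2 hTb
  refine ⟨fun U₀ hU₀ => ?_⟩
  by_cases hb : U₀ = ⊥
  · exact Or.inl hb
  right
  have h1 : T ≤ U₀.map T.subtype := by
    apply hU
    · rw [Ne, Subgroup.map_eq_bot_iff_of_injective _ T.subtype_injective]
      exact hb
    · exact Subgroup.map_subtype_le _
    · rintro t ht _ ⟨u, hu, rfl⟩
      exact ⟨⟨t, ht⟩ * u * ⟨t, ht⟩⁻¹, hU₀.conj_mem u hu _, rfl⟩
  rw [eq_top_iff]
  intro x _
  obtain ⟨y, hy, hyx⟩ := h1 x.2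
  have : y = x := Subtype.ext hyx
  rwa [← this]

/-- Invariance of a commuting product under a bijective homomorphism. -/
theorem conj_fix [DecidableEq G] (s : Finset G) (comm) (c : G ≃* G) (hs : ∀ x, x ∈ s ↔ c x ∈ s) :
    c (s.noncommProd id comm) = s.noncommProd id comm := by
  rw [Finset.map_noncommProd]
  simp only [Finset.noncommProd]
  congr 1
  have h1 : s.map c.toEquiv.toEmbedding = s := by
    ext x
    rw [Finset.mem_map]
    constructor
    · rintro ⟨y, hy, rfl⟩
      exact (hs y).1 hy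
    · intro hx
      refine ⟨c.symm x, ?_, c.apply_symm_apply x⟩
      rw [hs, c.apply_symm_apply]
      exact hx
  have h2 := congrArg Finset.val h1
  rw [Finset.map_val] at h2
  simp only [Multiset.map_id', id]
  exact h2

end basics

section main

variable {G : Type u} {Ω : Type v} [Group G] [Finite G] [MulAction G Ω] [Finite Ω] [FaithfulSMul G Ω]

theorem mem_norm_of_cj {g : G} {L : Subgroup G} (h : cj g L = L) :
    g ∈ Subgroup.normalizer (L : Set G) := by
  rw [Subgroup.mem_normalizer_iff]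
  intro x
  constructor
  · intro hx
    have := conj_mem_cj (g := g) hx
    rwa [h] at this
  · intro hx
    rw [← h] at hx
    rw [mem_cj] at hx
    have h2 : g⁻¹ * (g * x * g⁻¹) * g = x := by group
    rwa [h2] at hx

theorem main_thm [Nontrivial Ω] (hprim : IsPreprimitive G Ω)
    (hep : ∀ (α ω : Ω), IsPreprimitive (stabilizer G α) (orbit (stabilizer G α) ω)) :
    (∃ N : Subgroup G, N.Normal ∧ N ≠ ⊥ ∧ IsMulCommutative N ∧ ∀ ω : Ω, stabilizer N ω = ⊥) ∨
    (∃ T : Subgroup G, T.Normal ∧ IsSimpleGroup T ∧ ¬ IsMulCommutative T ∧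
      Subgroup.centralizer (T : Set G) = ⊥) := by
  classical
  haveI := hprim
  obtain ⟨α⟩ : Nonempty Ω := inferInstance
  haveI : IsPretransitive G Ω := hprim.toIsPretransitive
  haveI : Nontrivial G := by
    obtain ⟨β, hβ⟩ := exists_ne α
    obtain ⟨g, hg⟩ := exists_smul_eq G α β
    refine ⟨⟨g, 1, ?_⟩⟩
    rintro rfl
    rw [one_smul] at hg
    exact hβ hg.symm
  have hfaith : ∀ g : G, (∀ γ : Ω, g • γ = γ) → g = 1 := by
    intro g hg
    apply FaithfulSMul.eq_of_smul_eq_smul (α := Ω)
    intro w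
    rw [hg, one_smul]
  have htr : ∀ M : Subgroup G, M.Normal → M ≠ ⊥ → ∀ γ δ : Ω, ∃ m ∈ M, m • γ = δ := by
    intro M hM hne γ δ
    haveI := hM
    have hfp : fixedPoints M Ω ≠ Set.univ := by
      intro h
      apply hne
      rw [eq_bot_iff]
      intro m hm
      rw [Subgroup.mem_bot]
      apply hfaith
      intro γ
      have : γ ∈ fixedPoints M Ω := by rw [h]; trivial
      exact this ⟨m, hm⟩
    haveI : IsPretransitive M Ω := IsQuasiPreprimitive.isPretransitive_of_normal hfp
    obtain ⟨m, hm⟩ := exists_smul_eq M γ δ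
    exact ⟨m, m.2, hm⟩
  have hsemi : ∀ (A B : Subgroup G), (∀ γ δ : Ω, ∃ m ∈ B, m • γ = δ) →
      (∀ a ∈ A, ∀ b ∈ B, a * b = b * a) → ∀ a ∈ A, ∀ γ : Ω, a • γ = γ → a = 1 := by
    intro A B hB hAB a ha γ hγ
    apply hfaith
    intro δ
    obtain ⟨b, hb, rfl⟩ := hB γ δ
    rw [← mul_smul, hAB a ha b hb, mul_smul, hγ]
  have hmax : ∀ (x : Ω) (S : Subgroup G) (g : G), stabilizer G x ≤ S → g ∈ S → g • x ≠ x → S = ⊤ := by
    intro x S g hS hg hgx
    have hco : IsCoatom (stabilizer G x) := IsPreprimitive.isCoatom_stabilizer_of_isPreprimitive G x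
    apply hco.2
    refine lt_of_le_of_ne hS ?_
    intro he
    apply hgx
    have : g ∈ stabilizer G x := by rw [he]; exact hg
    exact this
  obtain ⟨N, hNn, hNb, hNmin⟩ := Cfsg.Agent.Lib.Burnside2T.exists_minimal_normal (G := G)
  haveI := hNn
  have htrN := htr N hNn hNb
  by_cases hNc : ∀ a ∈ N, ∀ b ∈ N, a * b = b * a
  · left
    refine ⟨N, hNn, hNb, ⟨⟨fun a b => Subtype.ext (hNc a a.2 b b.2)⟩⟩, fun ω => ?_⟩
    rw [eq_bot_iff]
    rintro ⟨n, hn⟩ hnω
    rw [Subgroup.mem_bot]
    exact Subtype.ext (hsemi N N htrN hNc n hn ω hnω)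
  -- nonabelian case
  have hNP : PP N N := ⟨hNb, le_rfl, fun n hn t ht => hNn.conj_mem t ht n⟩
  obtain ⟨T, hT⟩ := exists_minimal_of_wellFoundedLT (PP N) ⟨N, hNP⟩
  have hTnc : ∃ x ∈ T, ∃ y ∈ T, x * y ≠ y * x := by
    by_contra hcon
    push Not at hcon
    let K : Subgroup G := ⨆ g : G, cj g T
    have hKmem : ∀ g, cj g T ≤ K := fun g => le_iSup (fun g : G => cj g T) g
    have hKn : K.Normal := by
      constructor
      intro x hx g
      have h1 : K ≤ K.comap (MulAut.conj g).toMonoidHom := by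
        apply iSup_le
        rintro g' y hy
        rw [Subgroup.mem_comap]
        apply hKmem (g * g')
        rw [mem_cj] at hy ⊢
        have h2 : (g * g')⁻¹ * ((MulAut.conj g).toMonoidHom y) * (g * g') = g'⁻¹ * y * g' := by
          change (g * g')⁻¹ * (g * y * g⁻¹) * (g * g') = g'⁻¹ * y * g'
          group
        rwa [h2]
      exact h1 hx
    have hKN : K ≤ N := iSup_le fun g => (min_cj hNn hT g).1.2.1
    have hKb : K ≠ ⊥ := by
      intro hb
      apply hT.1.1
      rw [eq_bot_iff]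
      intro t ht
      have := hKmem 1 (conj_mem_cj (g := 1) ht)
      rw [hb, Subgroup.mem_bot] at this
      simpa using this
    have hKeq : K = N := (hNmin K hKn hKN).resolve_left hKb
    have hgen : ∀ g g' : G, ∀ x ∈ cj g T, ∀ y ∈ cj g' T, x * y = y * x := by
      intro g g' x hx y hy
      by_cases heq : cj g T = cj g' T
      · rw [heq] at hx
        rw [mem_cj] at hx hy
        have h1 := hcon _ hx _ hy
        have h2 : g'⁻¹ * (x * y) * g' = g'⁻¹ * (y * x) * g' := by
          calc g'⁻¹ * (x * y) * g' = (g'⁻¹ * x * g') * (g'⁻¹ * y * g') := by group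
            _ = (g'⁻¹ * y * g') * (g'⁻¹ * x * g') := h1
            _ = g'⁻¹ * (y * x) * g' := by group
        simpa using h2
      · exact min_comm (min_cj hNn hT g) (min_cj hNn hT g') heq x hx y hy
    apply hNc
    rw [← hKeq]
    have h1 : ∀ g' : G, ∀ y ∈ cj g' T, K ≤ Subgroup.centralizer {y} := by
      intro g' y hy
      apply iSup_le
      intro g x hx
      rw [Subgroup.mem_centralizer_singleton_iff]
      exact hgen g g' x hx y hy
    intro a ha b hb
    have h2 : K ≤ Subgroup.centralizer {a} := by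
      apply iSup_le
      intro g' y hy
      have h3 := h1 g' y hy ha
      rw [Subgroup.mem_centralizer_singleton_iff] at h3 ⊢
      exact h3.symm
    have h3 := h2 hb
    rw [Subgroup.mem_centralizer_singleton_iff] at h3
    exact h3.symm
  obtain ⟨x₀, hx₀, y₀, hy₀, hxy₀⟩ := hTnc
  have hnc : ∃ x y : T, x * y ≠ y * x :=
    ⟨⟨x₀, hx₀⟩, ⟨y₀, hy₀⟩, fun h => hxy₀ (congrArg Subtype.val h)⟩
  by_cases hTN : T = N
  · -- `N` is simple
    subst hTN
    have hsimple : IsSimpleGroup T := by
      apply simple_of T hNb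
      intro U hU hUT hUn
      exact hT.2 ⟨hU, hUT, hUn⟩ hUT
    by_cases hC : Subgroup.centralizer (T : Set G) = ⊥
    · right
      refine ⟨T, hNn, hsimple, ?_, hC⟩
      intro hcom
      apply hNc
      intro a ha b hb
      have h1 := hcom.is_comm.comm ⟨a, ha⟩ ⟨b, hb⟩
      exact congrArg Subtype.val h1
    · exfalso
      have hCn : (Subgroup.centralizer (T : Set G)).Normal := inferInstance
      have htrC := htr _ hCn hC
      have hcomm : ∀ t ∈ T, ∀ s ∈ Subgroup.centralizer (T : Set G), t * s = s * t :=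
        fun t ht s hs => (Subgroup.mem_centralizer_iff.1 hs t ht)
      exact regular_pair_false hep α T _ hsimple hnc (htrN α)
        (fun t ht hα => hsemi T _ htrC hcomm t ht α hα) (htrC α) hcomm
        (fun h _ => Or.inl fun t ht => hNn.conj_mem t ht h)
  -- a conjugate of `T` differs from `T`
  obtain ⟨h₀, hh₀, t₁, ht₁, hmv⟩ : ∃ h : G, h • α = α ∧ ∃ t ∈ T, h * t * h⁻¹ ∉ T := by
    by_contra hcon
    push Not at hcon
    have hTn : T.Normal := by
      constructor
      intro t ht g
      obtain ⟨n, hn, hnα⟩ := htrN α (g • α)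
      have hh : (n⁻¹ * g) • α = α := by
        rw [mul_smul, ← hnα, inv_smul_smul]
      have h1 := hcon _ hh t ht
      have h2 := hT.1.2.2 n hn _ h1
      have h3 : n * ((n⁻¹ * g) * t * (n⁻¹ * g)⁻¹) * n⁻¹ = g * t * g⁻¹ := by group
      rwa [h3] at h2
    exact hTN ((hNmin T hTn hT.1.2.1).resolve_left hT.1.1)
  have hT' := min_cj hNn hT h₀
  have hTne : T ≠ cj h₀ T := by
    intro h
    apply hmv
    rw [h]
    exact conj_mem_cj ht₁
  have hcommTT' := min_comm hT hT' hTne
  let R : Subgroup G := N ⊓ stabilizer G α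
  have hconjpt : ∀ h : G, h • α = α → ∀ x : G, h • (x • α) = (h * x * h⁻¹) • α := by
    intro h hh x
    have hi : h⁻¹ • α = α := by rw [inv_smul_eq_iff, hh]
    rw [mul_smul, mul_smul, hi]
  by_cases hR : R = ⊥
  · -- `N` regular
    exfalso
    have hNreg : ∀ n ∈ N, n • α = α → n = 1 := by
      intro n hn hnα
      have : n ∈ R := ⟨hn, hnα⟩
      rw [hR, Subgroup.mem_bot] at this
      exact this
    have hptinj : ∀ a ∈ N, ∀ b ∈ N, a • α = b • α → a = b := by
      intro a ha b hb hab
      have h1 : b⁻¹ * a ∈ N := N.mul_mem (N.inv_mem hb) ha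
      have h2 := hNreg _ h1 (by rw [mul_smul, hab, inv_smul_smul])
      rw [inv_mul_eq_one] at h2
      exact h2.symm
    have key : ∀ t ∈ T, ∀ h : G, h • α = α → cj h T = T → h * t * h⁻¹ = t := by
      intro t ht h hh hcj
      by_cases ht1 : t = 1
      · subst ht1; simp
      let H := stabilizer G α
      let H₁ : Subgroup H := (Subgroup.normalizer (T : Set G)).subgroupOf H
      have hYH₁ : stabilizer H (t • α) ≤ H₁ := by
        intro a ha
        rw [mem_stabilizer_iff] at ha
        have h1 : (a : G) • t • α = t • α := ha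
        rw [hconjpt (a : G) a.2] at h1
        have h2 := hptinj _ (hNn.conj_mem t (hT.1.2.1 ht) a) _ (hT.1.2.1 ht) h1
        rw [Subgroup.mem_subgroupOf]
        apply mem_norm_of_cj
        by_contra hne
        have h3 := min_inf hT (min_cj hNn hT (a : G)) (Ne.symm hne)
        have h4 : t ∈ T ⊓ cj (a : G) T := ⟨ht, by
          have := conj_mem_cj (g := (a : G)) ht
          rwa [h2] at this⟩
        rw [h3, Subgroup.mem_bot] at h4
        exact ht1 h4
      have hh₀H : h₀ ∈ H := hh₀
      have hnot : (⟨h₀, hh₀H⟩ : H) ∉ H₁ := by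
        intro hm
        rw [Subgroup.mem_subgroupOf] at hm
        exact hmv ((Subgroup.mem_normalizer_iff.1 hm t₁).1 ht₁)
      have hne : H₁ ≠ ⊤ := fun h => hnot (by rw [h]; trivial)
      have hmove : ∃ a : H, a • (t • α) ≠ t • α :=
        ⟨⟨h₀, hh₀H⟩, fun h => hnot (hYH₁ h)⟩
      have hco := coatom_stab hep α (t • α) hmove
      have hEq : H₁ = stabilizer H (t • α) := (hco.le_iff_eq hne).1 hYH₁
      have hhH : h ∈ H := hh
      have hm1 : (⟨h, hhH⟩ : H) ∈ H₁ := by
        rw [Subgroup.mem_subgroupOf]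
        exact mem_norm_of_cj hcj
      rw [hEq, mem_stabilizer_iff] at hm1
      have hm2 : h • t • α = t • α := hm1
      rw [hconjpt h hh] at hm2
      exact hptinj _ (hNn.conj_mem t (hT.1.2.1 ht) h) _ (hT.1.2.1 ht) hm2
    have hcenterT : ∀ t ∈ T, (∀ τ ∈ T, τ * t = t * τ) → t = 1 := by
      intro t ht hτ
      by_contra ht1
      let Z : Subgroup G := T ⊓ Subgroup.centralizer (T : Set G)
      have htZ : t ∈ Z := ⟨ht, Subgroup.mem_centralizer_iff.2 fun τ hτ' => hτ τ hτ'⟩
      have hZ : PP N Z := by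
        refine ⟨?_, inf_le_left.trans hT.1.2.1, ?_⟩
        · intro hb
          rw [hb, Subgroup.mem_bot] at htZ
          exact ht1 htZ
        · rintro n hn z ⟨hz1, hz2⟩
          refine ⟨hT.1.2.2 n hn z hz1, Subgroup.mem_centralizer_iff.2 fun τ hτ' => ?_⟩
          have h1 : n⁻¹ * τ * n ∈ T := by
            have := hT.1.2.2 n⁻¹ (N.inv_mem hn) τ hτ'
            simpa using this
          have h2 := Subgroup.mem_centralizer_iff.1 hz2 _ h1
          calc τ * (n * z * n⁻¹) = n * ((n⁻¹ * τ * n) * z) * n⁻¹ := by group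
            _ = n * (z * (n⁻¹ * τ * n)) * n⁻¹ := by rw [h2]
            _ = n * z * n⁻¹ * τ := by group
      have hle : T ≤ Z := hT.2 hZ inf_le_left
      have h1 := Subgroup.mem_centralizer_iff.1 (hle hx₀).2 y₀ hy₀
      exact hxy₀ h1.symm
    obtain ⟨t₀, ht₀, ht₀1⟩ := (Subgroup.bot_or_exists_ne_one T).resolve_left hT.1.1
    let O : Set G := {x | ∃ h : G, h • α = α ∧ x = h * t₀ * h⁻¹}
    have ht₀O : t₀ ∈ O := ⟨1, one_smul _ _, by simp⟩
    have hpair : ∀ x ∈ O, ∀ y ∈ O, Commute x y := by
      rintro _ ⟨h, hh, rfl⟩ _ ⟨h', hh', rfl⟩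
      by_cases heq : cj h T = cj h' T
      · have hcj : cj (h⁻¹ * h') T = T := by
          ext u
          rw [mem_cj]
          have e1 : (h⁻¹ * h')⁻¹ * u * (h⁻¹ * h') = h'⁻¹ * (h * u * h⁻¹) * h' := by group
          rw [e1, ← mem_cj, ← heq]
          exact ⟨fun hu => by
            rw [mem_cj] at hu
            have e2 : h⁻¹ * (h * u * h⁻¹) * h = u := by group
            rwa [e2] at hu, fun hu => conj_mem_cj hu⟩
        have hs : (h⁻¹ * h') • α = α := by
          rw [mul_smul, hh', inv_smul_eq_iff, hh]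
        have h1 := key t₀ ht₀ _ hs hcj
        have h2 : h' * t₀ * h'⁻¹ = h * t₀ * h⁻¹ := by
          calc h' * t₀ * h'⁻¹ = h * ((h⁻¹ * h') * t₀ * (h⁻¹ * h')⁻¹) * h⁻¹ := by group
            _ = h * t₀ * h⁻¹ := by rw [h1]
        rw [h2]
      · exact min_comm (min_cj hNn hT h) (min_cj hNn hT h') heq _
          (conj_mem_cj ht₀) _ (conj_mem_cj ht₀)
    let s : Finset G := (Set.toFinite O).toFinset
    have hsmem : ∀ y, y ∈ s ↔ y ∈ O := fun y => (Set.toFinite O).mem_toFinset
    have hcomm : (s : Set G).Pairwise (Function.onFun Commute id) := by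
      intro a ha b hb _
      exact hpair a ((hsmem a).1 ha) b ((hsmem b).1 hb)
    let x : G := s.noncommProd id hcomm
    have hxfix : ∀ h : G, h • α = α → h * x * h⁻¹ = x := by
      intro h hh
      have := conj_fix s hcomm (MulAut.conj h) (fun y => by
        rw [hsmem, hsmem]
        constructor
        · rintro ⟨a, ha, rfl⟩
          refine ⟨h * a, by rw [mul_smul, ha, hh], ?_⟩
          change h * (a * t₀ * a⁻¹) * h⁻¹ = _
          group
        · rintro ⟨a, ha, hy⟩
          have hi : h⁻¹ • α = α := by rw [inv_smul_eq_iff, hh]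
          refine ⟨h⁻¹ * a, by rw [mul_smul, ha, hi], ?_⟩
          have hy' : h * y * h⁻¹ = a * t₀ * a⁻¹ := hy
          calc y = h⁻¹ * (h * y * h⁻¹) * h := by group
            _ = h⁻¹ * (a * t₀ * a⁻¹) * h := by rw [hy']
            _ = _ := by group)
      exact this
    have hxN : x ∈ N := by
      apply Subgroup.noncommProd_mem N hcomm
      intro o ho
      obtain ⟨h, hh, rfl⟩ := (hsmem o).1 ho
      exact hNn.conj_mem _ (hT.1.2.1 ht₀) h
    have hxne : x ≠ 1 := by
      intro hx1
      have ht₀s : t₀ ∈ s := (hsmem t₀).2 ht₀O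
      have h1 := Finset.mul_noncommProd_erase s ht₀s id hcomm
      have hw : ∀ τ ∈ T, τ * t₀ = t₀ * τ := by
        intro τ hτ
        have hcw := Finset.noncommProd_commute (s.erase t₀) id
          (hcomm.mono (by
            intro a ha
            exact Finset.mem_of_mem_erase ha)) τ (by
            intro o ho
            have ho1 : o ≠ t₀ := Finset.ne_of_mem_erase ho
            obtain ⟨h, hh, ho2⟩ := (hsmem o).1 (Finset.mem_of_mem_erase ho)
            have hne : cj h T ≠ T := by
              intro he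
              apply ho1
              rw [ho2]
              exact key t₀ ht₀ h hh he
            have := min_comm hT (min_cj hNn hT h) (Ne.symm hne) τ hτ o
              (by rw [ho2]; exact conj_mem_cj ht₀)
            exact this)
        have hx1' : t₀ * (s.erase t₀).noncommProd id (hcomm.mono (by
            intro a ha
            exact Finset.mem_of_mem_erase ha)) = 1 := by
          have h2 : id t₀ * (s.erase t₀).noncommProd id (hcomm.mono (by
            intro a ha
            exact Finset.mem_of_mem_erase ha)) = x := h1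
          rw [hx1] at h2
          exact h2
        have h3 := eq_inv_of_mul_eq_one_right hx1'
        rw [h3] at hcw
        exact (Commute.inv_right_iff.1 hcw)
      exact ht₀1 (hcenterT t₀ ht₀ hw)
    have hω : x • α ≠ α := fun h => hxne (hNreg x hxN h)
    have hh₀1 : h₀ = 1 := by
      apply main_faithful hprim hep α (x • α) hω h₀ hh₀
      rintro y ⟨a, rfl⟩
      have ha : ∀ a : stabilizer G α, a • (x • α) = x • α := by
        intro a
        change (a : G) • x • α = x • α
        rw [hconjpt (a : G) a.2, hxfix (a : G) a.2]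
      change h₀ • (a • (x • α)) = a • (x • α)
      rw [ha, hconjpt h₀ hh₀, hxfix h₀ hh₀]
    apply hmv
    rw [hh₀1]
    simpa using ht₁
  -- `R ≠ 1`
  exfalso
  have hRle : R ≤ N := inf_le_left
  have hRnorm : ∀ h : G, h • α = α → ∀ r ∈ R, h * r * h⁻¹ ∈ R := by
    intro h hh r hr
    refine ⟨hNn.conj_mem r hr.1 h, ?_⟩
    change (h * r * h⁻¹) • α = α
    rw [← hconjpt h hh, (hr.2 : r • α = α), hh]
  have hTR : ¬ T ≤ R := by
    intro hle
    apply hT.1.1
    rw [eq_bot_iff]
    intro t ht
    rw [Subgroup.mem_bot]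
    apply hfaith
    intro γ
    obtain ⟨n, hn, rfl⟩ := htrN α γ
    have h1 : n⁻¹ * t * n ∈ T := by
      have := hT.1.2.2 n⁻¹ (N.inv_mem hn) t ht
      simpa using this
    have h2 : (n⁻¹ * t * n) • α = α := (hle h1).2
    rw [mul_smul, mul_smul, inv_smul_eq_iff] at h2
    exact h2
  obtain ⟨L, hL⟩ := exists_minimal_of_wellFoundedLT (fun L : Subgroup G => R < L ∧ L ≤ T ⊔ R)
    ⟨T ⊔ R, lt_of_le_of_ne le_sup_right (fun h => hTR (by rw [h]; exact le_sup_left)), le_rfl⟩
  have hTRN : T ⊔ R ≤ N := sup_le hT.1.2.1 hRle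
  have hLN : L ≤ N := hL.1.2.trans hTRN
  obtain ⟨l, hlL, hlR⟩ := SetLike.exists_of_lt hL.1.1
  have hlα : l • α ≠ α := fun h => hlR ⟨hLN hlL, h⟩
  have hclaim : ∀ h : G, h • α = α → h • (l • α) = l • α → cj h L = L := by
    intro h hh hβ
    rw [hconjpt h hh] at hβ
    have hw : l⁻¹ * (h * l * h⁻¹) ∈ R := by
      refine ⟨N.mul_mem (N.inv_mem (hLN hlL)) (hNn.conj_mem l (hLN hlL) h), ?_⟩
      change (l⁻¹ * (h * l * h⁻¹)) • α = α
      rw [mul_smul, hβ, inv_smul_smul]
    have hwL : h * l * h⁻¹ ∈ L := by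
      have h1 := L.mul_mem hlL (hL.1.1.le hw)
      have h2 : l * (l⁻¹ * (h * l * h⁻¹)) = h * l * h⁻¹ := by group
      rwa [h2] at h1
    have hRcj : R ≤ cj h L := by
      intro r hr
      rw [mem_cj]
      have hi : h⁻¹ • α = α := by rw [inv_smul_eq_iff, hh]
      have := hRnorm h⁻¹ hi r hr
      rw [inv_inv] at this
      exact hL.1.1.le this
    have hI : R < L ⊓ cj h L := by
      refine lt_of_le_of_ne (le_inf hL.1.1.le hRcj) ?_
      intro he
      have h1 : h * l * h⁻¹ ∈ L ⊓ cj h L := ⟨hwL, conj_mem_cj hlL⟩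
      rw [← he] at h1
      apply hlα
      have h2 : (h * l * h⁻¹) • α = α := h1.2
      rw [← hβ]
      exact h2
    have hLle := hL.2 (y := L ⊓ cj h L) ⟨hI, inf_le_left.trans hL.1.2⟩ inf_le_left
    have hle : L ≤ cj h L := hLle.trans inf_le_right
    refine (Subgroup.eq_of_le_of_card_ge hle ?_).symm
    rw [cj, Subgroup.card_map_of_injective (MulAut.conj h).injective]
  have hLeq : L = N := by
    let H := stabilizer G α
    let H₂ : Subgroup H := (Subgroup.normalizer (L : Set G)).subgroupOf H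
    have hYH₂ : stabilizer H (l • α) ≤ H₂ := by
      intro a ha
      rw [Subgroup.mem_subgroupOf]
      exact mem_norm_of_cj (hclaim (a : G) a.2 ha)
    have hnormal : L.Normal := by
      by_cases hH₂ : H₂ = ⊤
      · have hS := hmax α (Subgroup.normalizer (L : Set G)) l
          (fun g hg => by
            have h1 : (⟨g, hg⟩ : H) ∈ H₂ := by rw [hH₂]; trivial
            rw [Subgroup.mem_subgroupOf] at h1
            exact h1)
          (Subgroup.le_normalizer hlL) hlα
        exact Subgroup.normalizer_eq_top_iff.1 hS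
      · exfalso
        have hmove : ∃ a : H, a • (l • α) ≠ l • α := by
          by_contra hcon
          push Not at hcon
          apply hH₂
          rw [eq_top_iff]
          intro a _
          exact hYH₂ (hcon a)
        have hco := coatom_stab hep α (l • α) hmove
        have hEq : H₂ = stabilizer H (l • α) := (hco.le_iff_eq hH₂).1 hYH₂
        have hRfix : ∀ r ∈ R, r • (l • α) = l • α := by
          intro r hr
          have h1 : (⟨r, hr.2⟩ : H) ∈ H₂ := by
            rw [Subgroup.mem_subgroupOf]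
            exact Subgroup.le_normalizer (hL.1.1.le hr)
          rw [hEq] at h1
          exact h1
        apply hR
        rw [eq_bot_iff]
        intro r hr
        rw [Subgroup.mem_bot]
        apply main_faithful hprim hep α (l • α) hlα r hr.2
        rintro y ⟨a, rfl⟩
        have h1 := hRfix _ (hRnorm (a : G)⁻¹ (by
          have := a.2
          rw [mem_stabilizer_iff] at this
          rw [inv_smul_eq_iff, this]) r hr)
        rw [mul_smul, mul_smul, inv_inv] at h1
        have h2 : (a : G)⁻¹ • r • (a : G) • (l • α) = l • α := h1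
        rw [inv_smul_eq_iff] at h2
        exact h2
    refine (hNmin L hnormal hLN).resolve_left ?_
    intro hb
    have := hL.1.1
    rw [hb] at this
    exact not_lt_bot this
  have hTRtop : T ⊔ R = N := le_antisymm hTRN (by rw [← hLeq]; exact hL.1.2)
  -- `T` is transitive
  have hTtrans : ∀ γ : Ω, ∃ t ∈ T, t • α = γ := by
    let S : Subgroup G :=
      { carrier := {g | ∀ t ∈ T, ∃ t' ∈ T, g • t • α = t' • α}
        one_mem' := fun t ht => ⟨t, ht, one_smul _ _⟩
        mul_mem' := by
          intro a b ha hb t ht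
          obtain ⟨t', ht', h1⟩ := hb t ht
          obtain ⟨t'', ht'', h2⟩ := ha t' ht'
          exact ⟨t'', ht'', by rw [mul_smul, h1, h2]⟩
        inv_mem' := by
          intro a ha
          haveI : Finite (Subgroup.zpowers a) := inferInstance
          have hpow : ∀ k : ℕ, a ^ k ∈ {g | ∀ t ∈ T, ∃ t' ∈ T, g • t • α = t' • α} := by
            intro k
            induction k with
            | zero => exact fun t ht => ⟨t, ht, by simp⟩
            | succ k ih =>
              intro t ht
              obtain ⟨t', ht', h1⟩ := ha t ht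
              obtain ⟨t'', ht'', h2⟩ := ih t' ht'
              exact ⟨t'', ht'', by rw [pow_succ, mul_smul, h1, h2]⟩
          have h1 : a⁻¹ = a ^ (orderOf a - 1) := by
            rw [eq_comm, ← mul_eq_one_iff_eq_inv, ← pow_succ, Nat.sub_add_cancel (orderOf_pos a),
              pow_orderOf_eq_one]
          change a⁻¹ ∈ {g | ∀ t ∈ T, ∃ t' ∈ T, g • t • α = t' • α}
          rw [h1]
          exact hpow _ }
    have hTS : T ≤ S := by
      intro t ht t' ht'
      exact ⟨t * t', T.mul_mem ht ht', by rw [mul_smul]⟩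
    have hRS : R ≤ S := by
      intro r hr t ht
      refine ⟨r * t * r⁻¹, hT.1.2.2 r hr.1 t ht, ?_⟩
      have hri : r⁻¹ • α = α := by
        rw [inv_smul_eq_iff]
        exact (hr.2 : r • α = α).symm
      rw [mul_smul, mul_smul, hri]
    have hNS : N ≤ S := by
      rw [← hTRtop]
      exact sup_le hTS hRS
    intro γ
    obtain ⟨n, hn, rfl⟩ := htrN α γ
    obtain ⟨t', ht', h⟩ := hNS hn 1 T.one_mem
    rw [one_smul] at h
    exact ⟨t', ht', h.symm⟩
  have hh₀i : h₀⁻¹ • α = α := by rw [inv_smul_eq_iff, hh₀]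
  have hT'trans : ∀ γ : Ω, ∃ s ∈ cj h₀ T, s • α = γ := by
    intro γ
    obtain ⟨t, ht, hγ⟩ := hTtrans (h₀⁻¹ • γ)
    refine ⟨h₀ * t * h₀⁻¹, conj_mem_cj ht, ?_⟩
    rw [mul_smul, mul_smul, hh₀i, hγ, smul_inv_smul]
  have hfull : ∀ B : Subgroup G, (∀ γ : Ω, ∃ t ∈ B, t • α = γ) → ∀ γ δ : Ω, ∃ m ∈ B, m • γ = δ := by
    intro B hB γ δ
    obtain ⟨t₁, ht₁', h1⟩ := hB γ
    obtain ⟨t₂, ht₂', h2⟩ := hB δ
    refine ⟨t₂ * t₁⁻¹, B.mul_mem ht₂' (B.inv_mem ht₁'), ?_⟩
    rw [mul_smul, ← h1, inv_smul_smul, h2]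
  have hTreg : ∀ t ∈ T, t • α = α → t = 1 :=
    fun t ht hα => hsemi T _ (hfull _ hT'trans) hcommTT' t ht α hα
  have hperm : ∀ h : G, h • α = α → (∀ t ∈ T, h * t * h⁻¹ ∈ T) ∨ (∀ t ∈ T, h * t * h⁻¹ ∈ cj h₀ T) := by
    intro h hh
    by_cases hcj : cj h T = T
    · left
      intro t ht
      have := conj_mem_cj (g := h) ht
      rwa [hcj] at this
    · right
      intro t ht
      obtain ⟨s', hs', hs'α⟩ := hT'trans ((h * t * h⁻¹) • α)
      have hA : s'⁻¹ * (h * t * h⁻¹) ∈ Subgroup.centralizer (T : Set G) := by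
        rw [Subgroup.mem_centralizer_iff]
        intro τ hτ
        have h1 := hcommTT' τ hτ s' hs'
        have h2 := min_comm hT (min_cj hNn hT h) (Ne.symm hcj) τ hτ _ (conj_mem_cj ht)
        have h1' : τ * s'⁻¹ = s'⁻¹ * τ := by
          rw [eq_inv_mul_iff_mul_eq, ← mul_assoc, ← h1, mul_assoc, mul_inv_cancel, mul_one]
        calc τ * (s'⁻¹ * (h * t * h⁻¹)) = (τ * s'⁻¹) * (h * t * h⁻¹) := by group
          _ = s'⁻¹ * (τ * (h * t * h⁻¹)) := by rw [h1']; group
          _ = s'⁻¹ * ((h * t * h⁻¹) * τ) := by rw [h2]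
          _ = s'⁻¹ * (h * t * h⁻¹) * τ := by group
      have h3 := hsemi _ T (hfull _ hTtrans) (fun a ha b hb => (Subgroup.mem_centralizer_iff.1 ha b hb).symm)
        _ hA α (by rw [mul_smul, ← hs'α, inv_smul_smul])
      rw [inv_mul_eq_one] at h3
      rw [← h3]
      exact hs'
  -- `T` is simple
  have hKN : N ≤ T ⊔ cj h₀ T := by
    have hKn : (T ⊔ cj h₀ T).Normal := by
      constructor
      intro x hx g
      obtain ⟨n, hn, hnα⟩ := htrN α (g • α)
      have hh : (n⁻¹ * g) • α = α := by
        rw [mul_smul, ← hnα, inv_smul_smul]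
      have hstep : ∀ h : G, h • α = α → T ⊔ cj h₀ T ≤ (T ⊔ cj h₀ T).comap (MulAut.conj h).toMonoidHom := by
        intro h hh'
        apply sup_le
        · intro t ht
          rw [Subgroup.mem_comap]
          rcases hperm h hh' with h1 | h1
          · exact Subgroup.mem_sup_left (h1 t ht)
          · exact Subgroup.mem_sup_right (h1 t ht)
        · intro y hy
          rw [Subgroup.mem_comap]
          have hy' : h₀⁻¹ * y * h₀ ∈ T := mem_cj.1 hy
          have e : (MulAut.conj h).toMonoidHom y = (h * h₀) * (h₀⁻¹ * y * h₀) * (h * h₀)⁻¹ := by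
            change h * y * h⁻¹ = _
            group
          rw [e]
          rcases hperm (h * h₀) (by rw [mul_smul, hh₀, hh']) with h1 | h1
          · exact Subgroup.mem_sup_left (h1 _ hy')
          · exact Subgroup.mem_sup_right (h1 _ hy')
      have hstepN : ∀ n ∈ N, T ⊔ cj h₀ T ≤ (T ⊔ cj h₀ T).comap (MulAut.conj n).toMonoidHom := by
        intro n hn
        apply sup_le
        · intro t ht
          exact Subgroup.mem_sup_left (hT.1.2.2 n hn t ht)
        · intro y hy
          exact Subgroup.mem_sup_right (hT'.1.2.2 n hn y hy)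
      have h1 := hstep _ hh hx
      rw [Subgroup.mem_comap] at h1
      have h2 := hstepN n hn h1
      rw [Subgroup.mem_comap] at h2
      have e : g * x * g⁻¹ = (MulAut.conj n).toMonoidHom ((MulAut.conj (n⁻¹ * g)).toMonoidHom x) := by
        change g * x * g⁻¹ = n * ((n⁻¹ * g) * x * (n⁻¹ * g)⁻¹) * n⁻¹
        group
      rw [e]
      exact h2
    have hKle : T ⊔ cj h₀ T ≤ N := sup_le hT.1.2.1 hT'.1.2.1
    have hKb : T ⊔ cj h₀ T ≠ ⊥ := by
      intro hb
      apply hT.1.1
      rw [eq_bot_iff, ← hb]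
      exact le_sup_left
    rw [(hNmin _ hKn hKle).resolve_left hKb]
  have hsimple : IsSimpleGroup T := by
    apply simple_of T hT.1.1
    intro U hU hUT hUn
    refine hT.2 ⟨hU, hUT.trans hT.1.2.1, ?_⟩ hUT
    have hle : T ⊔ cj h₀ T ≤ Subgroup.normalizer (U : Set G) := by
      apply sup_le
      · intro t ht
        rw [Subgroup.mem_normalizer_iff]
        intro u
        refine ⟨hUn t ht u, fun h => ?_⟩
        have := hUn t⁻¹ (T.inv_mem ht) _ h
        have e : t⁻¹ * (t * u * t⁻¹) * t⁻¹⁻¹ = u := by group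
        rwa [e] at this
      · intro y hy
        rw [Subgroup.mem_normalizer_iff]
        intro u
        constructor
        · intro hu
          have h1 := hcommTT' u (hUT hu) y hy
          have e : y * u * y⁻¹ = u := by
            rw [mul_inv_eq_iff_eq_mul]
            exact h1.symm
          rwa [e]
        · intro hu
          by_cases huT : u ∈ T
          · have h1 := hcommTT' u huT y hy
            have e : y * u * y⁻¹ = u := by
              rw [mul_inv_eq_iff_eq_mul]
              exact h1.symm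
            rwa [e] at hu
          · exfalso
            have h2 := hUT hu
            have hyi : y⁻¹ ∈ cj h₀ T := (cj h₀ T).inv_mem hy
            have h3 := hcommTT' _ h2 y⁻¹ hyi
            apply huT
            have e : u = y⁻¹ * (y * u * y⁻¹) * y := by group
            rw [e]
            have h4 : y⁻¹ * (y * u * y⁻¹) * y = y * u * y⁻¹ := by
              rw [← h3]
              group
            rwa [h4]
    intro n hn t ht
    exact (Subgroup.mem_normalizer_iff.1 (hle (hKN hn)) t).1 ht
  exact regular_pair_false hep α T (cj h₀ T) hsimple hnc hTtrans hTreg hT'trans hcommTT' hperm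

end main

end Cfsg.Agent.Lib.SuborbitMain
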