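import Cfsg.Agent.Lib.Suzuki8

/-! Elementary abelian trivial-intersection subgroups of the Suzuki groups. -/

set_option autoImplicit false
set_option linter.unusedSectionVars false
set_option linter.unusedVariables false
set_option linter.unusedSimpArgs false

namespace Cfsg.Agent.Lib.Suzuki

open Cfsg
open scoped Matrix MatrixGroups LinearAlgebra.Projectivization Pointwise commutatorElement

variable {F : Type*} [Field F] [Fintype F] {m : ℕ} [CharP F 2]
variable (hs : SqProp F m)
include hs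

theorem trS0_mul (a b : F) : trS hs 0 a * trS hs 0 b = trS hs 0 (a + b) := by
  rw [trS_mul, zero_pow (by positivity), zero_mul, add_zero, add_zero]

theorem trS0_inv (a : F) : (trS hs 0 a)⁻¹ = trS hs 0 a := by
  rw [trS_inv, zero_pow (by positivity), zero_mul, add_zero]

theorem trS0_inj {a b : F} (h : trS hs 0 a = trS hs 0 b) : a = b := by
  have h1 : tr m (0 : F) a = tr m 0 b := congrArg Subtype.val h
  have h2 := congrArg (fun z ↦ z • P m (0 : F) 0) h1
  simp only [tr_smul_zero hs] at h2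
  exact (P_inj h2).2

theorem trS0_comm (b c e : F) : trS hs c e * trS hs 0 b = trS hs 0 b * trS hs c e := by
  rw [trS_mul, trS_mul, mul_zero, add_zero, zero_add, zero_pow (by positivity), zero_mul, add_zero, add_zero, add_comm e b]

/-- The central subgroup attached to an additive subgroup. -/
def ZA (hs : SqProp F m) (A : AddSubgroup F) : Subgroup (Sz F m) where
  carrier := {g | ∃ a ∈ A, g = trS hs 0 a}
  mul_mem' := by
    rintro _ _ ⟨a, ha, rfl⟩ ⟨b, hb, rfl⟩
    exact ⟨a + b, A.add_mem ha hb, trS0_mul hs a b⟩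
  one_mem' := ⟨0, A.zero_mem, (trS_zero hs).symm⟩
  inv_mem' := by
    rintro _ ⟨a, ha, rfl⟩
    exact ⟨a, ha, trS0_inv hs a⟩

theorem card_ZA (A : AddSubgroup F) : Nat.card (ZA hs A) = Nat.card A := by
  symm
  apply Nat.card_congr
  refine Equiv.ofBijective (fun a : A ↦ (⟨trS hs 0 a.1, a.1, a.2, rfl⟩ : ZA hs A)) ⟨?_, ?_⟩
  · intro a b h
    exact Subtype.ext (trS0_inj hs (congrArg Subtype.val h))
  · rintro ⟨_, a, ha, rfl⟩
    exact ⟨⟨a, ha⟩, rfl⟩

theorem ZA_elem (A : AddSubgroup F) : IsElementaryAbelian 2 (ZA hs A) := by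
  have h2 : (2 : F) = 0 := two_eq
  constructor
  · constructor
    constructor
    rintro ⟨_, a, ha, rfl⟩ ⟨_, b, hb, rfl⟩
    apply Subtype.ext
    change trS hs 0 a * trS hs 0 b = trS hs 0 b * trS hs 0 a
    rw [trS0_mul, trS0_mul, add_comm]
  · rintro _ ⟨a, ha, rfl⟩
    rw [pow_two, trS0_mul, show a + a = 0 by linear_combination a * h2, trS_zero]

variable (h4 : 4 ≤ 2 ^ (m + 1)) (hq : 2 ^ (m + 1) + 2 < Fintype.card F)
include h4 hq

theorem conj_Z (c e b : F) (δ : Fˣ) :
    (trS hs c e * dgHom hs δ) * trS hs 0 b * (trS hs c e * dgHom hs δ)⁻¹ =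
      trS hs 0 ((δ : F) ^ (2 ^ (m + 1) + 1) * b) := by
  have e1 := dgS_trS hs h4 hq δ 0 b
  rw [mul_zero] at e1
  calc (trS hs c e * dgHom hs δ) * trS hs 0 b * (trS hs c e * dgHom hs δ)⁻¹
      = trS hs c e * (dgHom hs δ * trS hs 0 b) * (dgHom hs δ)⁻¹ * (trS hs c e)⁻¹ := by group
    _ = trS hs c e * trS hs 0 ((δ : F) ^ (2 ^ (m + 1) + 1) * b) * (trS hs c e)⁻¹ := by
        rw [e1]
        group
    _ = _ := by
        rw [trS0_comm]
        group

theorem fixed_inf_of_conj {a a' : F} (ha : a ≠ 0) (x : Sz F m)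
    (h : x * trS hs 0 a' * x⁻¹ = trS hs 0 a) : x.1 • suzukiPointInfinity F = suzukiPointInfinity F := by
  have hne : ¬ ((0 : F) = 0 ∧ a = 0) := fun h ↦ ha h.2
  have h0 : x.1 • suzukiPointInfinity F ∈ suzukiOvoid F m := smul_mem_ovoid x.2 (mem_ovoid.2 (Or.inl rfl))
  rcases mem_ovoid.1 h0 with h3 | ⟨u, v, h3⟩
  · exact h3
  · exfalso
    have h5 : (x * trS hs 0 a' * x⁻¹).1 • (x.1 • suzukiPointInfinity F) = x.1 • suzukiPointInfinity F := by
      change (x.1 * tr m 0 a' * x.1⁻¹) • (x.1 • suzukiPointInfinity F) = x.1 • suzukiPointInfinity F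
      rw [← mul_smul]
      rw [show x.1 * tr m 0 a' * x.1⁻¹ * x.1 = x.1 * tr m 0 a' by group, mul_smul, tr_smul_inf]
    rw [h, h3] at h5
    exact tr_no_fixed hs hne u v h5

/-- Subfields give trivial-intersection subgroups. -/
theorem ZA_TI (S : Subfield F) (x : Sz F m)
    (hx : ZA hs S.toAddSubgroup ⊓ (ZA hs S.toAddSubgroup).map (MulAut.conj x).toMonoidHom ≠ ⊥) :
    x ∈ Subgroup.normalizer ((ZA hs S.toAddSubgroup : Subgroup (Sz F m)) : Set (Sz F m)) := by
  obtain ⟨⟨g, hg1, y, hy, hyg⟩, hne⟩ := (Subgroup.ne_bot_iff_exists_ne_one).1 hx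
  obtain ⟨a, ha, rfl⟩ := hg1
  obtain ⟨a', ha', rfl⟩ := hy
  have ha0 : a ≠ 0 := by
    rintro rfl
    apply hne
    apply Subtype.ext
    exact trS_zero hs
  have hyg' : x * trS hs 0 a' * x⁻¹ = trS hs 0 a := hyg
  have hfix := fixed_inf_of_conj hs h4 hq ha0 x hyg'
  obtain ⟨c, e, δ, hδ⟩ := stab_inf hs h4 hq x.2 hfix
  have hx1 : x = trS hs c e * dgHom hs δ := Subtype.ext hδ
  have hconj : ∀ b, x * trS hs 0 b * x⁻¹ = trS hs 0 ((δ : F) ^ (2 ^ (m + 1) + 1) * b) := by
    intro b
    rw [hx1]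
    exact conj_Z hs h4 hq c e b δ
  have hδ2 : (δ : F) ^ (2 ^ (m + 1) + 1) ≠ 0 := pow_ne_zero _ δ.ne_zero
  have ha'0 : a' ≠ 0 := by
    rintro rfl
    have h1 := hconj 0
    rw [hyg', mul_zero] at h1
    exact ha0 (trS0_inj hs h1)
  have hlam : (δ : F) ^ (2 ^ (m + 1) + 1) ∈ S := by
    have h1 : a = (δ : F) ^ (2 ^ (m + 1) + 1) * a' := trS0_inj hs (by rw [← hconj, hyg'])
    have h2 : (δ : F) ^ (2 ^ (m + 1) + 1) = a * a'⁻¹ := by
      rw [h1]
      field_simp
    rw [h2]
    exact S.mul_mem ha (S.inv_mem ha')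
  rw [Subgroup.mem_normalizer_iff]
  intro h
  constructor
  · rintro ⟨b, hb, rfl⟩
    exact ⟨_, S.mul_mem hlam hb, hconj b⟩
  · rintro ⟨b, hb, hbe⟩
    have e1 : h = x⁻¹ * trS hs 0 b * x := by
      rw [← hbe]
      group
    refine ⟨((δ : F) ^ (2 ^ (m + 1) + 1))⁻¹ * b, S.mul_mem (S.inv_mem hlam) hb, ?_⟩
    rw [e1]
    have e2 := hconj (((δ : F) ^ (2 ^ (m + 1) + 1))⁻¹ * b)
    rw [mul_inv_cancel_left₀ hδ2] at e2
    rw [← e2]
    group

/-- A subfield of order `2^n` exists when `n` divides the degree. -/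
theorem exists_subfield (hF : Fintype.card F = 2 ^ (2 * m + 1)) {n : ℕ} (hn : n ≠ 0) (hd : n ∣ 2 * m + 1) :
    ∃ S : Subfield F, Nat.card S = 2 ^ n := by
  haveI : Fact (Nat.Prime 2) := ⟨Nat.prime_two⟩
  letI : Algebra (ZMod 2) F := ZMod.algebra F 2
  have h1 : Module.finrank (ZMod 2) (GaloisField 2 n) = n := GaloisField.finrank 2 hn
  have h2 : Module.finrank (ZMod 2) F = 2 * m + 1 := by
    have h3 := FiniteField.pow_finrank_eq_natCard 2 F
    rw [Nat.card_eq_fintype_card, hF] at h3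
    exact Nat.pow_right_injective (le_refl 2) h3
  obtain ⟨f⟩ := FiniteField.nonempty_algHom_of_finrank_dvd (F := ZMod 2) (K := GaloisField 2 n) (L := F)
    (by rw [h1, h2]; exact hd)
  refine ⟨f.toRingHom.fieldRange, ?_⟩
  rw [← GaloisField.card 2 n hn]
  symm
  apply Nat.card_congr
  refine Equiv.ofBijective (fun x ↦ (⟨f x, x, rfl⟩ : f.toRingHom.fieldRange)) ⟨?_, ?_⟩
  · intro x y h
    exact f.toRingHom.injective (congrArg Subtype.val h)
  · rintro ⟨_, x, rfl⟩
    exact ⟨x, rfl⟩

/-- The statement on trivial-intersection subgroups. -/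
theorem TI_iff (hm : 1 ≤ m) (hF : Fintype.card F = 2 ^ (2 * m + 1)) (n : ℕ) (hn : 2 ≤ n) :
    (∃ E : Subgroup (Sz F m), IsElementaryAbelian 2 E ∧ Nat.card E = 2 ^ n ∧
      ∀ x : Sz F m, E ⊓ E.map (MulAut.conj x).toMonoidHom ≠ ⊥ → x ∈ Subgroup.normalizer (E : Set (Sz F m))) ↔
    n ∣ 2 * m + 1 := by
  have h2 : (2 : F) = 0 := two_eq
  have hs₂ : 2 < Fintype.card F := (Nat.le_add_left 2 _).trans_lt hq
  constructor
  · rintro ⟨E, hE, hcard, hTI⟩
    have hpE : IsPGroup 2 E := by
      rintro ⟨g, hg⟩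
      refine ⟨1, ?_⟩
      apply Subtype.ext
      simpa using hE.2 g hg
    obtain ⟨Q, hP⟩ := hpE.exists_le_sylow
    obtain ⟨k, hk⟩ := exists_conj_T hs hm hF Q
    have hZ : ∀ g ∈ E, ∃ b, k * g * k⁻¹ = trS hs 0 b := by
      intro g hg
      obtain ⟨a, b, hab⟩ := (hk g).1 (hP hg)
      have hsq : g * g = 1 := by
        rw [← pow_two]
        exact hE.2 g hg
      have h3 : trS hs a b * trS hs a b = 1 := by
        have h5 : k * g * k⁻¹ = trS hs a b := Subtype.ext hab
        rw [← h5]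
        calc k * g * k⁻¹ * (k * g * k⁻¹) = k * (g * g) * k⁻¹ := by group
          _ = 1 := by rw [hsq]; group
      rw [trS_mul, ← trS_zero hs] at h3
      have h5 : tr m (a + a) (b + b + a ^ (2 ^ (m + 1)) * a) = tr m 0 0 := congrArg Subtype.val h3
      have h6 := congrArg (fun z ↦ z • P m (0 : F) 0) h5
      simp only [tr_smul_zero hs] at h6
      have h7 := (P_inj h6).2
      have h8 : a ^ (2 ^ (m + 1)) * a = 0 := by linear_combination h7 - b * h2
      have ha : a = 0 := by
        rcases mul_eq_zero.1 h8 with h9 | h9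
        · exact eq_zero_of_pow_eq_zero h9
        · exact h9
      subst ha
      exact ⟨b, Subtype.ext hab⟩
    let A : AddSubgroup F :=
      { carrier := {b | k⁻¹ * trS hs 0 b * k ∈ E}
        add_mem' := by
          intro a b ha hb
          have h3 := E.mul_mem ha hb
          have e : k⁻¹ * trS hs 0 a * k * (k⁻¹ * trS hs 0 b * k) = k⁻¹ * trS hs 0 (a + b) * k := by
            rw [← trS0_mul]
            group
          change k⁻¹ * trS hs 0 (a + b) * k ∈ E
          rwa [e] at h3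
        zero_mem' := by
          change k⁻¹ * trS hs 0 0 * k ∈ E
          rw [trS_zero]
          have : k⁻¹ * 1 * k = 1 := by group
          rw [this]
          exact E.one_mem
        neg_mem' := by
          intro a ha
          change k⁻¹ * trS hs 0 (-a) * k ∈ E
          have : -a = a := by linear_combination (-a) * h2
          rw [this]
          exact ha }
    have hAmem : ∀ b, b ∈ A ↔ k⁻¹ * trS hs 0 b * k ∈ E := fun b ↦ Iff.rfl
    have hcardA : Nat.card A = 2 ^ n := by
      rw [← hcard]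
      apply Nat.card_congr
      refine Equiv.ofBijective (fun b : A ↦ (⟨k⁻¹ * trS hs 0 b.1 * k, b.2⟩ : E)) ⟨?_, ?_⟩
      · intro a b h
        have h3 : k⁻¹ * trS hs 0 a.1 * k = k⁻¹ * trS hs 0 b.1 * k := congrArg Subtype.val h
        have h5 : trS hs 0 a.1 = trS hs 0 b.1 := by
          simpa using h3
        exact Subtype.ext (trS0_inj hs h5)
      · rintro ⟨g, hg⟩
        obtain ⟨b, hb⟩ := hZ g hg
        have e : k⁻¹ * trS hs 0 b * k = g := by
          rw [← hb]
          group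
        refine ⟨⟨b, ?_⟩, Subtype.ext e⟩
        rw [hAmem, e]
        exact hg
    -- the key property
    have hkey : ∀ a a' b : F, a ∈ A → a' ∈ A → a ≠ 0 → a' ≠ 0 → b ∈ A → a / a' * b ∈ A := by
      intro a a' b ha ha' ha0 ha'0 hb
      obtain ⟨δ, hδ0, hδ⟩ := exists_root hs hs₂ (a / a') (div_ne_zero ha0 ha'0)
      set δU : Fˣ := Units.mk0 δ hδ0 with hδU
      have hU : (δU : F) ^ (2 ^ (m + 1) + 1) = a / a' := hδ
      have hconj : ∀ c, dgHom hs δU * trS hs 0 c * (dgHom hs δU)⁻¹ = trS hs 0 (a / a' * c) := by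
        intro c
        have e1 := dgS_trS hs h4 hq δU 0 c
        rw [mul_zero, hU] at e1
        rw [e1]
        group
      set x := k⁻¹ * dgHom hs δU * k with hx
      have hxconj : ∀ c, x * (k⁻¹ * trS hs 0 c * k) * x⁻¹ = k⁻¹ * trS hs 0 (a / a' * c) * k := by
        intro c
        rw [← hconj c, hx]
        group
      have hne : E ⊓ E.map (MulAut.conj x).toMonoidHom ≠ ⊥ := by
        rw [Subgroup.ne_bot_iff_exists_ne_one]
        refine ⟨⟨k⁻¹ * trS hs 0 a * k, ha, k⁻¹ * trS hs 0 a' * k, ha', ?_⟩, ?_⟩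
        · change x * (k⁻¹ * trS hs 0 a' * k) * x⁻¹ = _
          rw [hxconj, div_mul_cancel₀ _ ha'0]
        · intro h
          have h3 : k⁻¹ * trS hs 0 a * k = 1 := congrArg Subtype.val h
          have h5 : trS hs 0 a = trS hs 0 0 := by
            rw [trS_zero]
            have h6 : trS hs 0 a = k * (k⁻¹ * trS hs 0 a * k) * k⁻¹ := by group
            rw [h6, h3]
            group
          exact ha0 (trS0_inj hs h5)
      have hN := hTI x hne
      rw [Subgroup.mem_normalizer_iff] at hN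
      have h3 := (hN (k⁻¹ * trS hs 0 b * k)).1 hb
      rw [hxconj] at h3
      exact h3
    -- a nonzero element
    obtain ⟨a₀, ha₀, ha₀0⟩ : ∃ a₀ ∈ A, a₀ ≠ 0 := by
      have h1 : 1 < Nat.card A := by
        rw [hcardA]
        exact Nat.one_lt_two_pow (by omega)
      haveI := (Finite.one_lt_card_iff_nontrivial).1 h1
      obtain ⟨y, hy⟩ := exists_ne (0 : A)
      exact ⟨y.1, y.2, fun h ↦ hy (Subtype.ext h)⟩
    let S : Subfield F :=
      { carrier := {u | u * a₀ ∈ A}
        mul_mem' := by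
          intro u v hu hv
          change u * v * a₀ ∈ A
          by_cases hu0 : u = 0
          · subst hu0
            simp
          · have h3 := hkey (u * a₀) a₀ (v * a₀) hu ha₀ (mul_ne_zero hu0 ha₀0) ha₀0 hv
            have e : u * a₀ / a₀ * (v * a₀) = u * v * a₀ := by
              field_simp
            rwa [e] at h3
        one_mem' := by
          change 1 * a₀ ∈ A
          rwa [one_mul]
        add_mem' := by
          intro u v hu hv
          change (u + v) * a₀ ∈ A
          rw [add_mul]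
          exact A.add_mem hu hv
        zero_mem' := by
          change 0 * a₀ ∈ A
          rw [zero_mul]
          exact A.zero_mem
        neg_mem' := by
          intro u hu
          change -u * a₀ ∈ A
          rw [neg_mul]
          exact A.neg_mem hu
        inv_mem' := by
          intro u hu
          change u⁻¹ * a₀ ∈ A
          by_cases hu0 : u = 0
          · subst hu0
            simp
          · have h3 := hkey a₀ (u * a₀) a₀ ha₀ hu ha₀0 (mul_ne_zero hu0 ha₀0) ha₀
            have e : a₀ / (u * a₀) * a₀ = u⁻¹ * a₀ := by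
              field_simp
            rwa [e] at h3 }
    have hcardS : Nat.card S = 2 ^ n := by
      rw [← hcardA]
      apply Nat.card_congr
      refine Equiv.ofBijective (fun u : S ↦ (⟨u.1 * a₀, u.2⟩ : A)) ⟨?_, ?_⟩
      · intro u v h
        have h3 : u.1 * a₀ = v.1 * a₀ := congrArg Subtype.val h
        exact Subtype.ext (mul_right_cancel₀ ha₀0 h3)
      · rintro ⟨b, hb⟩
        refine ⟨⟨b / a₀, ?_⟩, ?_⟩
        · change b / a₀ * a₀ ∈ A
          rwa [div_mul_cancel₀ _ ha₀0]
        · apply Subtype.ext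
          change b / a₀ * a₀ = b
          rw [div_mul_cancel₀ _ ha₀0]
    haveI : Module.Finite S F := Module.Finite.of_finite
    have h3 := Module.natCard_eq_pow_finrank (K := S) (V := F)
    rw [Nat.card_eq_fintype_card, hF, hcardS, ← pow_mul] at h3
    have h5 : 2 * m + 1 = n * Module.finrank S F := Nat.pow_right_injective (le_refl 2) h3
    exact ⟨_, h5⟩
  · intro hd
    obtain ⟨S, hS⟩ := exists_subfield hs h4 hq hF (by omega : n ≠ 0) hd
    refine ⟨ZA hs S.toAddSubgroup, ZA_elem hs _, ?_, ZA_TI hs h4 hq S⟩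
    rw [card_ZA]
    exact hS

end Cfsg.Agent.Lib.Suzuki
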