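import Mathlib

set_option autoImplicit false

namespace Cfsg.Agent.Lib.Sylow8

/-- The iterated wreath product `C₂ ≀ C₂ ≀ C₂` of order 128 inside `S₈`. -/
def H0 : Subgroup (Equiv.Perm (Fin 8)) where
  carrier := {g | (∀ i j, (g i).val / 2 = (g j).val / 2 ↔ i.val / 2 = j.val / 2) ∧
    (∀ i j, (g i).val / 4 = (g j).val / 4 ↔ i.val / 4 = j.val / 4)}
  mul_mem' := by
    rintro a b ⟨ha, ha'⟩ ⟨hb, hb'⟩
    refine ⟨fun i j => ?_, fun i j => ?_⟩
    · exact (ha _ _).trans (hb _ _)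
    · exact (ha' _ _).trans (hb' _ _)
  one_mem' := ⟨fun _ _ => Iff.rfl, fun _ _ => Iff.rfl⟩
  inv_mem' := by
    rintro a ⟨ha, ha'⟩
    refine ⟨fun i j => ?_, fun i j => ?_⟩
    · have := ha (a⁻¹ i) (a⁻¹ j)
      simpa using this.symm
    · have := ha' (a⁻¹ i) (a⁻¹ j)
      simpa using this.symm

theorem mem_H0 {g : Equiv.Perm (Fin 8)} : g ∈ H0 ↔
    (∀ i j, (g i).val / 2 = (g j).val / 2 ↔ i.val / 2 = j.val / 2) ∧
    (∀ i j, (g i).val / 4 = (g j).val / 4 ↔ i.val / 4 = j.val / 4) := Iff.rfl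

/-- Boolean bounded quantifier. -/
def all8 (p : Fin 8 → Bool) : Bool :=
  p 0 && p 1 && p 2 && p 3 && p 4 && p 5 && p 6 && p 7

theorem all8_spec {p : Fin 8 → Bool} (h : all8 p = true) (i : Fin 8) : p i = true := by
  simp only [all8, Bool.and_eq_true] at h
  obtain ⟨⟨⟨⟨⟨⟨⟨h0, h1⟩, h2⟩, h3⟩, h4⟩, h5⟩, h6⟩, h7⟩ := h
  fin_cases i <;> assumption

/-- lazy implication -/
def imp (b c : Bool) : Bool := match b with
  | true => c
  | false => true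

theorem imp_spec {b c : Bool} (h : imp b c = true) (hb : b = true) : c = true := by
  subst hb; exact h

/-- the table of involutions -/
def I : Fin 21 → Fin 8 → Fin 8 := ![
  ![0,1,2,3,4,5,7,6],
  ![0,1,2,3,5,4,6,7],
  ![0,1,3,2,4,5,6,7],
  ![1,0,2,3,4,5,6,7],
  ![1,0,3,2,5,4,7,6],
  ![1,0,3,2,6,7,4,5],
  ![1,0,3,2,7,6,5,4],
  ![2,3,0,1,5,4,7,6],
  ![2,3,0,1,6,7,4,5],
  ![2,3,0,1,7,6,5,4],
  ![3,2,1,0,5,4,7,6],
  ![3,2,1,0,6,7,4,5],
  ![3,2,1,0,7,6,5,4],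
  ![4,5,6,7,0,1,2,3],
  ![4,5,7,6,0,1,3,2],
  ![5,4,6,7,1,0,2,3],
  ![5,4,7,6,1,0,3,2],
  ![6,7,4,5,2,3,0,1],
  ![6,7,5,4,3,2,0,1],
  ![7,6,4,5,2,3,1,0],
  ![7,6,5,4,3,2,1,0]]

/-- the table of witnesses -/
def pr : List (Fin 21 × Fin 21) := [(3,3), (0,0), (4,13), (1,0), (5,13), (6,13), (4,8), (2,0), (2,2), (1,2), (2,1), (7,13), (0,2), (10,17), (20,20), (19,20), (18,20), (17,20), (8,7), (9,7), (14,18), (13,18), (8,5), (16,18), (15,18), (9,5), (11,5), (12,5), (11,7), (12,7), (15,15), (15,19), (17,16), (19,16), (18,16), (20,16), (13,15), (14,15), (16,15), (16,19), (14,19), (13,19)]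

/-- leaf test -/
def leaf (u : Fin 8 → Fin 8) : Bool :=
  pr.any fun t => all8 fun i => decide (I t.1 (u i) = u (I t.2 i))

/-- guard -/
def L7 (u0 u1 u2 u3 u4 u5 u6 : Fin 8) : Bool :=
  all8 fun u7 => imp (decide (u6 < u7 ∧ u7 ≠ u0 ∧ u7 ≠ u1 ∧ u7 ≠ u2 ∧ u7 ≠ u3 ∧ u7 ≠ u4 ∧ u7 ≠ u5))
    (leaf ![u0, u1, u2, u3, u4, u5, u6, u7])

/-- guard -/
def L6 (u0 u1 u2 u3 u4 u5 : Fin 8) : Bool :=
  all8 fun u6 => imp (decide (u4 < u6 ∧ u6 ≠ u0 ∧ u6 ≠ u1 ∧ u6 ≠ u2 ∧ u6 ≠ u3 ∧ u6 ≠ u5))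
    (L7 u0 u1 u2 u3 u4 u5 u6)

/-- guard -/
def L5 (u0 u1 u2 u3 u4 : Fin 8) : Bool :=
  all8 fun u5 => imp (decide (u4 < u5 ∧ u5 ≠ u0 ∧ u5 ≠ u1 ∧ u5 ≠ u2 ∧ u5 ≠ u3))
    (L6 u0 u1 u2 u3 u4 u5)

/-- guard -/
def L4 (u0 u1 u2 u3 : Fin 8) : Bool :=
  all8 fun u4 => imp (decide (u0 < u4 ∧ u4 ≠ u1 ∧ u4 ≠ u2 ∧ u4 ≠ u3))
    (L5 u0 u1 u2 u3 u4)

/-- guard -/
def L3 (u0 u1 u2 : Fin 8) : Bool :=
  all8 fun u3 => imp (decide (u2 < u3 ∧ u3 ≠ u0 ∧ u3 ≠ u1))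
    (L4 u0 u1 u2 u3)

/-- guard -/
def L2 (u0 u1 : Fin 8) : Bool :=
  all8 fun u2 => imp (decide (u0 < u2 ∧ u2 ≠ u1))
    (L3 u0 u1 u2)

/-- guard -/
def L1 (u0 : Fin 8) : Bool :=
  all8 fun u1 => imp (decide (u0 < u1))
    (L2 u0 u1)

/-- guard -/
def L0 : Bool := all8 L1

theorem L0_eq : L0 = true := by decide +kernel

theorem leaf_of_canon (u : Equiv.Perm (Fin 8))
    (h01 : u 0 < u 1) (h23 : u 2 < u 3) (h45 : u 4 < u 5) (h67 : u 6 < u 7)
    (h02 : u 0 < u 2) (h46 : u 4 < u 6) (h04 : u 0 < u 4) :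
    ∃ t ∈ pr, ∀ i, I t.1 (u i) = u (I t.2 i) := by
  have ne : ∀ i j : Fin 8, i ≠ j → u i ≠ u j := fun i j hij h => hij (u.injective h)
  have s1 := all8_spec L0_eq (u 0)
  have s2 := imp_spec (all8_spec s1 (u 1)) (by simpa using h01)
  have s3 := imp_spec (all8_spec s2 (u 2)) (by
    simp only [decide_eq_true_eq]; exact ⟨h02, ne _ _ (by decide)⟩)
  have s4 := imp_spec (all8_spec s3 (u 3)) (by
    simp only [decide_eq_true_eq]; exact ⟨h23, ne _ _ (by decide), ne _ _ (by decide)⟩)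
  have s5 := imp_spec (all8_spec s4 (u 4)) (by
    simp only [decide_eq_true_eq]; exact ⟨h04, ne _ _ (by decide), ne _ _ (by decide), ne _ _ (by decide)⟩)
  have s6 := imp_spec (all8_spec s5 (u 5)) (by
    simp only [decide_eq_true_eq]; exact ⟨h45, ne _ _ (by decide), ne _ _ (by decide), ne _ _ (by decide), ne _ _ (by decide)⟩)
  have s7 := imp_spec (all8_spec s6 (u 6)) (by
    simp only [decide_eq_true_eq]; exact ⟨h46, ne _ _ (by decide), ne _ _ (by decide), ne _ _ (by decide), ne _ _ (by decide), ne _ _ (by decide)⟩)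
  have s8 := imp_spec (all8_spec s7 (u 7)) (by
    simp only [decide_eq_true_eq]; exact ⟨h67, ne _ _ (by decide), ne _ _ (by decide), ne _ _ (by decide), ne _ _ (by decide), ne _ _ (by decide), ne _ _ (by decide)⟩)
  have s9 : leaf u = true := by
    have : (u : Fin 8 → Fin 8) = ![u 0, u 1, u 2, u 3, u 4, u 5, u 6, u 7] := by
      funext i
      fin_cases i <;> rfl
    rw [this]
    exact s8
  obtain ⟨t, ht, ht'⟩ := List.any_eq_true.1 s9
  refine ⟨t, ht, fun i => ?_⟩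
  have := all8_spec ht' i
  simpa using this

/-- The table entries are involutions lying in `H0`. -/
theorem I_spec : ∀ k, (∀ i, I k (I k i) = i) ∧
    (∀ i j, (I k i).val / 2 = (I k j).val / 2 ↔ i.val / 2 = j.val / 2) ∧
    (∀ i j, (I k i).val / 4 = (I k j).val / 4 ↔ i.val / 4 = j.val / 4) := by
  decide +kernel

/-- The left entries of the table are non-trivial. -/
theorem pr_ne : ∀ t ∈ pr, ∃ i, I t.1 i ≠ i := by
  decide +kernel

/-- The permutation of a table entry -/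
def Ip (k : Fin 21) : Equiv.Perm (Fin 8) :=
  Function.Involutive.toPerm (I k) (I_spec k).1

theorem Ip_mem (k) : Ip k ∈ H0 := ⟨(I_spec k).2.1, (I_spec k).2.2⟩

theorem Ip_apply (k i) : Ip k i = I k i := rfl

/-- the score -/
def score (f : Fin 8 → Fin 8) : ℕ :=
  (f 0).val * 8 ^ 7 + (f 1).val * 8 ^ 6 + (f 2).val * 8 ^ 5 + (f 3).val * 8 ^ 4 +
  (f 4).val * 8 ^ 3 + (f 5).val * 8 ^ 2 + (f 6).val * 8 + (f 7).val

/-- the seven generators -/
def gen (k : Fin 7) : Fin 8 → Fin 8 := ![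
  ![1,0,2,3,4,5,6,7],
  ![0,1,3,2,4,5,6,7],
  ![0,1,2,3,5,4,6,7],
  ![0,1,2,3,4,5,7,6],
  ![2,3,0,1,4,5,6,7],
  ![0,1,2,3,6,7,4,5],
  ![4,5,6,7,0,1,2,3]] k

theorem gen_spec : ∀ k, (∀ i, gen k (gen k i) = i) ∧
    (∀ i j, (gen k i).val / 2 = (gen k j).val / 2 ↔ i.val / 2 = j.val / 2) ∧
    (∀ i j, (gen k i).val / 4 = (gen k j).val / 4 ↔ i.val / 4 = j.val / 4) := by
  decide +kernel

/-- generator as a permutation -/
def genp (k : Fin 7) : Equiv.Perm (Fin 8) :=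
  Function.Involutive.toPerm (gen k) (gen_spec k).1

theorem genp_mem (k) : genp k ∈ H0 := ⟨(gen_spec k).2.1, (gen_spec k).2.2⟩

set_option maxRecDepth 100000 in
/-- Every coset of `H0` has a canonical representative. -/
theorem exists_canon (x : Equiv.Perm (Fin 8)) : ∃ k ∈ H0,
    (x * k) 0 < (x * k) 1 ∧ (x * k) 2 < (x * k) 3 ∧ (x * k) 4 < (x * k) 5 ∧ (x * k) 6 < (x * k) 7 ∧
    (x * k) 0 < (x * k) 2 ∧ (x * k) 4 < (x * k) 6 ∧ (x * k) 0 < (x * k) 4 := by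
  classical
  -- a minimiser of the score on the coset
  obtain ⟨k, hk, hmin⟩ : ∃ k ∈ (H0 : Set (Equiv.Perm (Fin 8))), ∀ k' ∈ (H0 : Set (Equiv.Perm (Fin 8))),
      score ⇑(x * k) ≤ score ⇑(x * k') := by
    obtain ⟨k, hk, hmin⟩ := Set.exists_min_image (H0 : Set (Equiv.Perm (Fin 8)))
      (fun k => score ⇑(x * k)) (Set.toFinite _) ⟨1, H0.one_mem⟩
    exact ⟨k, hk, hmin⟩
  set u := x * k with hu
  have key : ∀ g : Fin 7, score ⇑u ≤ score ⇑(u * genp g) := by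
    intro g
    have := hmin (k * genp g) (H0.mul_mem hk (genp_mem g))
    rwa [← mul_assoc] at this
  have ne : ∀ i j : Fin 8, i ≠ j → (u i).val ≠ (u j).val := fun i j hij h =>
    hij (u.injective (Fin.ext h))
  have bd : ∀ i, (u i).val < 8 := fun i => (u i).2
  have k0 := key 0
  have k1 := key 1
  have k2 := key 2
  have k3 := key 3
  have k4 := key 4
  have k5 := key 5
  have k6 := key 6
  have n01 := ne 0 1 (by decide)
  have n23 := ne 2 3 (by decide)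
  have n45 := ne 4 5 (by decide)
  have n67 := ne 6 7 (by decide)
  have n02 := ne 0 2 (by decide)
  have n46 := ne 4 6 (by decide)
  have n04 := ne 0 4 (by decide)
  have b0 := bd 0
  have b1 := bd 1
  have b2 := bd 2
  have b3 := bd 3
  have b4 := bd 4
  have b5 := bd 5
  have b6 := bd 6
  have b7 := bd 7
  change (u 0).val * 8 ^ 7 + (u 1).val * 8 ^ 6 + (u 2).val * 8 ^ 5 + (u 3).val * 8 ^ 4 +
    (u 4).val * 8 ^ 3 + (u 5).val * 8 ^ 2 + (u 6).val * 8 + (u 7).val ≤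
    (u 1).val * 8 ^ 7 + (u 0).val * 8 ^ 6 + (u 2).val * 8 ^ 5 + (u 3).val * 8 ^ 4 +
    (u 4).val * 8 ^ 3 + (u 5).val * 8 ^ 2 + (u 6).val * 8 + (u 7).val at k0
  change (u 0).val * 8 ^ 7 + (u 1).val * 8 ^ 6 + (u 2).val * 8 ^ 5 + (u 3).val * 8 ^ 4 +
    (u 4).val * 8 ^ 3 + (u 5).val * 8 ^ 2 + (u 6).val * 8 + (u 7).val ≤
    (u 0).val * 8 ^ 7 + (u 1).val * 8 ^ 6 + (u 3).val * 8 ^ 5 + (u 2).val * 8 ^ 4 +
    (u 4).val * 8 ^ 3 + (u 5).val * 8 ^ 2 + (u 6).val * 8 + (u 7).val at k1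
  change (u 0).val * 8 ^ 7 + (u 1).val * 8 ^ 6 + (u 2).val * 8 ^ 5 + (u 3).val * 8 ^ 4 +
    (u 4).val * 8 ^ 3 + (u 5).val * 8 ^ 2 + (u 6).val * 8 + (u 7).val ≤
    (u 0).val * 8 ^ 7 + (u 1).val * 8 ^ 6 + (u 2).val * 8 ^ 5 + (u 3).val * 8 ^ 4 +
    (u 5).val * 8 ^ 3 + (u 4).val * 8 ^ 2 + (u 6).val * 8 + (u 7).val at k2
  change (u 0).val * 8 ^ 7 + (u 1).val * 8 ^ 6 + (u 2).val * 8 ^ 5 + (u 3).val * 8 ^ 4 +
    (u 4).val * 8 ^ 3 + (u 5).val * 8 ^ 2 + (u 6).val * 8 + (u 7).val ≤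
    (u 0).val * 8 ^ 7 + (u 1).val * 8 ^ 6 + (u 2).val * 8 ^ 5 + (u 3).val * 8 ^ 4 +
    (u 4).val * 8 ^ 3 + (u 5).val * 8 ^ 2 + (u 7).val * 8 + (u 6).val at k3
  change (u 0).val * 8 ^ 7 + (u 1).val * 8 ^ 6 + (u 2).val * 8 ^ 5 + (u 3).val * 8 ^ 4 +
    (u 4).val * 8 ^ 3 + (u 5).val * 8 ^ 2 + (u 6).val * 8 + (u 7).val ≤
    (u 2).val * 8 ^ 7 + (u 3).val * 8 ^ 6 + (u 0).val * 8 ^ 5 + (u 1).val * 8 ^ 4 +
    (u 4).val * 8 ^ 3 + (u 5).val * 8 ^ 2 + (u 6).val * 8 + (u 7).val at k4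
  change (u 0).val * 8 ^ 7 + (u 1).val * 8 ^ 6 + (u 2).val * 8 ^ 5 + (u 3).val * 8 ^ 4 +
    (u 4).val * 8 ^ 3 + (u 5).val * 8 ^ 2 + (u 6).val * 8 + (u 7).val ≤
    (u 0).val * 8 ^ 7 + (u 1).val * 8 ^ 6 + (u 2).val * 8 ^ 5 + (u 3).val * 8 ^ 4 +
    (u 6).val * 8 ^ 3 + (u 7).val * 8 ^ 2 + (u 4).val * 8 + (u 5).val at k5
  change (u 0).val * 8 ^ 7 + (u 1).val * 8 ^ 6 + (u 2).val * 8 ^ 5 + (u 3).val * 8 ^ 4 +
    (u 4).val * 8 ^ 3 + (u 5).val * 8 ^ 2 + (u 6).val * 8 + (u 7).val ≤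
    (u 4).val * 8 ^ 7 + (u 5).val * 8 ^ 6 + (u 6).val * 8 ^ 5 + (u 7).val * 8 ^ 4 +
    (u 0).val * 8 ^ 3 + (u 1).val * 8 ^ 2 + (u 2).val * 8 + (u 3).val at k6
  refine ⟨k, hk, ?_, ?_, ?_, ?_, ?_, ?_, ?_⟩ <;> (rw [← hu]; apply Fin.lt_def.2; omega)

/-- valid tuples -/
def valid (t : Fin 8 × Fin 8 × Fin 8 × Fin 8) : Bool :=
  decide (t.2.1.val / 4 = t.1.val / 4 ∧ t.2.1.val / 2 ≠ t.1.val / 2 ∧ t.2.2.1.val / 4 ≠ t.1.val / 4 ∧
    t.2.2.2.val / 4 = t.2.2.1.val / 4 ∧ t.2.2.2.val / 2 ≠ t.2.2.1.val / 2)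

/-- partner -/
def partner (a : Fin 8) : Fin 8 := ![1,0,3,2,5,4,7,6] a

/-- rebuild -/
def build (t : Fin 8 × Fin 8 × Fin 8 × Fin 8) : Fin 8 → Fin 8 :=
  ![t.1, partner t.1, t.2.1, partner t.2.1, t.2.2.1, partner t.2.2.1, t.2.2.2, partner t.2.2.2]

/-- the pointwise property of `build` -/
def bspec (t : Fin 8 × Fin 8 × Fin 8 × Fin 8) : Bool :=
  imp (valid t) (decide ((∀ i j, build t i = build t j → i = j) ∧
    (∀ i j, (build t i).val / 2 = (build t j).val / 2 ↔ i.val / 2 = j.val / 2) ∧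
    (∀ i j, (build t i).val / 4 = (build t j).val / 4 ↔ i.val / 4 = j.val / 4)))

theorem bspec_all : (all8 fun a => all8 fun c => all8 fun e => all8 fun g =>
    bspec (a, c, e, g)) = true := by
  decide +kernel

theorem build_spec (t : Fin 8 × Fin 8 × Fin 8 × Fin 8) (ht : valid t = true) :
    Function.Bijective (build t) ∧
    (∀ i j, (build t i).val / 2 = (build t j).val / 2 ↔ i.val / 2 = j.val / 2) ∧
    (∀ i j, (build t i).val / 4 = (build t j).val / 4 ↔ i.val / 4 = j.val / 4) := by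
  obtain ⟨a, c, e, g⟩ := t
  have h := all8_spec (all8_spec (all8_spec (all8_spec bspec_all a) c) e) g
  have h2 := imp_spec h ht
  have h3 := of_decide_eq_true h2
  refine ⟨Function.Injective.bijective_of_finite (fun i j hij => h3.1 i j hij), h3.2⟩

/-- sum over `Fin 8` -/
def sum8 (p : Fin 8 → ℕ) : ℕ := p 0 + p 1 + p 2 + p 3 + p 4 + p 5 + p 6 + p 7

theorem sum8_eq (p : Fin 8 → ℕ) : ∑ i, p i = sum8 p := by
  rw [Fin.sum_univ_eight]; rfl

theorem cnt_eq : (sum8 fun a => sum8 fun c => sum8 fun e => sum8 fun g =>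
    if valid (a, c, e, g) = true then 1 else 0) = 128 := by
  decide +kernel

theorem card_valid : (Finset.univ.filter (fun t => valid t = true)).card = 128 := by
  rw [Finset.card_filter, Fintype.sum_prod_type, sum8_eq]
  simp only [Fintype.sum_prod_type, sum8_eq]
  exact cnt_eq

theorem partner_spec : ∀ a b : Fin 8, a.val / 2 = b.val / 2 → a ≠ b → b = partner a := by
  decide

theorem valid_spec (a c e g : Fin 8) (h1 : a.val / 4 = c.val / 4) (h2 : a.val / 2 ≠ c.val / 2)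
    (h3 : a.val / 4 ≠ e.val / 4) (h4 : e.val / 4 = g.val / 4) (h5 : e.val / 2 ≠ g.val / 2) :
    valid (a, c, e, g) = true := by
  simp only [valid, decide_eq_true_eq]
  exact ⟨h1.symm, h2.symm, fun h => h3 h.symm, h4.symm, h5.symm⟩

theorem card_H0 : Nat.card H0 = 128 := by
  classical
  have e : H0 ≃ {t // valid t = true} := by
    refine ⟨fun g => ⟨(g.1 0, g.1 2, g.1 4, g.1 6), ?_⟩,
      fun t => ⟨Equiv.ofBijective (build t.1) (build_spec t.1 t.2).1,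
        (build_spec t.1 t.2).2.1, (build_spec t.1 t.2).2.2⟩, ?_, ?_⟩
    · obtain ⟨g, hg, hg'⟩ := g
      apply valid_spec
      · exact (hg' _ _).2 (by decide)
      · exact fun h => absurd ((hg _ _).1 h) (by decide)
      · exact fun h => absurd ((hg' _ _).1 h) (by decide)
      · exact (hg' _ _).2 (by decide)
      · exact fun h => absurd ((hg _ _).1 h) (by decide)
    · rintro ⟨g, hg, hg'⟩
      apply Subtype.ext
      ext i
      have hp : ∀ a b : Fin 8, a.val / 2 = b.val / 2 → a ≠ b → g b = partner (g a) := by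
        intro a b hab hne
        refine partner_spec _ _ ((hg _ _).2 hab) (fun h => hne (g.injective h))
      have h1 := hp 0 1 (by decide) (by decide)
      have h3 := hp 2 3 (by decide) (by decide)
      have h5 := hp 4 5 (by decide) (by decide)
      have h7 := hp 6 7 (by decide) (by decide)
      fin_cases i
      · rfl
      · exact congrArg Fin.val h1.symm
      · rfl
      · exact congrArg Fin.val h3.symm
      · rfl
      · exact congrArg Fin.val h5.symm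
      · rfl
      · exact congrArg Fin.val h7.symm
    · rintro ⟨⟨a, c, e, g⟩, h⟩
      rfl
  rw [Nat.card_congr e, Nat.card_eq_fintype_card, Fintype.card_subtype]
  exact card_valid

/-- `H0` is a Sylow `2`-subgroup. -/
theorem exists_conj (H : Sylow 2 (Equiv.Perm (Fin 8))) :
    ∃ g : Equiv.Perm (Fin 8), (H : Subgroup (Equiv.Perm (Fin 8))) = H0.map (MulAut.conj g).toMonoidHom := by
  have hcard : Nat.card H0 = 2 ^ (Nat.card (Equiv.Perm (Fin 8))).factorization 2 := by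
    rw [card_H0]
    have h1 : Nat.card (Equiv.Perm (Fin 8)) = 40320 := by
      rw [Nat.card_eq_fintype_card, Fintype.card_perm, Fintype.card_fin]
      decide
    rw [h1]
    have h2 : (40320 : ℕ) = 2 ^ 7 * 315 := by norm_num
    rw [h2, Nat.factorization_mul (by norm_num) (by norm_num), Nat.Prime.factorization_pow Nat.prime_two]
    have h3 : Nat.factorization 315 2 = 0 := Nat.factorization_eq_zero_of_not_dvd (by norm_num)
    simp [h3]
  haveI : Fact (Nat.Prime 2) := ⟨Nat.prime_two⟩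
  let P : Sylow 2 (Equiv.Perm (Fin 8)) := Sylow.ofCard H0 hcard
  obtain ⟨g, hg⟩ := MulAction.exists_smul_eq (Equiv.Perm (Fin 8)) P H
  refine ⟨g, ?_⟩
  rw [← hg]
  rfl

theorem main (H : Sylow 2 (Equiv.Perm (Fin 8))) (x : Equiv.Perm (Fin 8)) :
    (H : Subgroup (Equiv.Perm (Fin 8))) ⊓ (H : Subgroup (Equiv.Perm (Fin 8))).map (MulAut.conj x).toMonoidHom ≠ ⊥ := by
  obtain ⟨g, hg⟩ := exists_conj H
  obtain ⟨k, hk, h01, h23, h45, h67, h02, h46, h04⟩ := exists_canon (g⁻¹ * x * g)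
  set u := g⁻¹ * x * g * k with hu
  obtain ⟨t, ht, hle⟩ := leaf_of_canon u h01 h23 h45 h67 h02 h46 h04
  have h1 : Ip t.1 * u = u * Ip t.2 := by
    ext i
    exact congrArg Fin.val (hle i)
  rw [Ne, Subgroup.eq_bot_iff_forall]
  intro hall
  have hmem := hall (g * Ip t.1 * g⁻¹) ⟨?_, ?_⟩
  · obtain ⟨i, hi⟩ := pr_ne t ht
    apply hi
    have h2 : Ip t.1 = 1 := by
      have h3 : g⁻¹ * (g * Ip t.1 * g⁻¹) * g = g⁻¹ * 1 * g := by rw [hmem]
      simpa [mul_assoc] using h3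
    rw [← Ip_apply, h2]
    rfl
  · rw [hg]
    exact ⟨Ip t.1, Ip_mem _, rfl⟩
  · -- the conjugate by `x`
    rw [hg, Subgroup.map_map]
    refine ⟨k * Ip t.2 * k⁻¹, H0.mul_mem (H0.mul_mem hk (Ip_mem _)) (H0.inv_mem hk), ?_⟩
    have h4 : Ip t.2 = u⁻¹ * Ip t.1 * u := by rw [mul_assoc, h1]; group
    simp only [MonoidHom.comp_apply, MulEquiv.coe_toMonoidHom, MulAut.conj_apply]
    rw [h4, hu]
    group

end Cfsg.Agent.Lib.Sylow8
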