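import Mathlib
import Cfsg.Prelude.Def_SylowControl
import Cfsg.Agent.Lib.SylowIn
import Cfsg.Agent.Lib.StrongEmb

/-! Families of subgroups controlling Sylow intersections and fusion. -/

namespace Cfsg.Agent.Lib.SylowControl

open Cfsg Cfsg.Agent.Lib.SylowIn

variable {G : Type*} [Group G] {p : ℕ}

theorem mem_conjRight {g x : G} {X : Subgroup G} : x ∈ subgroupConjRight g X ↔ g * x * g⁻¹ ∈ X := by
  constructor
  · rintro ⟨y, hy, rfl⟩
    simpa [mul_assoc] using hy
  · intro h
    exact ⟨_, h, by simp [mul_assoc]⟩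

theorem conjRight_conjRight (a b : G) (X : Subgroup G) :
    subgroupConjRight a (subgroupConjRight b X) = subgroupConjRight (b * a) X := by
  ext x
  simp only [mem_conjRight]
  have : b * (a * x * a⁻¹) * b⁻¹ = b * a * x * (b * a)⁻¹ := by group
  rw [this]

theorem conjRight_one (X : Subgroup G) : subgroupConjRight 1 X = X := by
  ext x
  simp [mem_conjRight]

theorem conjRight_of_mem {x : G} {X : Subgroup G} (hx : x ∈ X) : subgroupConjRight x X = X := by
  ext y
  rw [mem_conjRight]
  constructor
  · intro h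
    have := X.mul_mem (X.mul_mem (X.inv_mem hx) h) hx
    simpa [mul_assoc] using this
  · intro h
    exact X.mul_mem (X.mul_mem hx h) (X.inv_mem hx)

theorem conjRight_inf (g : G) (X Y : Subgroup G) :
    subgroupConjRight g (X ⊓ Y) = subgroupConjRight g X ⊓ subgroupConjRight g Y := by
  ext x
  simp only [mem_conjRight, Subgroup.mem_inf]

theorem sylowMembers_iff {𝓕 : Set (Subgroup G)} {S X : Subgroup G} :
    X ∈ sylowMembers p 𝓕 S ↔ X ∈ 𝓕 ∧ IsSylowIn p (S ⊓ X) X := by
  constructor
  · rintro ⟨hX, P, hP⟩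
    refine ⟨hX, P, ?_⟩
    rw [← hP]
    exact (Subgroup.comap_map_eq_self_of_injective (Subgroup.subtype_injective _) _).symm
  · rintro ⟨hX, R, hR⟩
    refine ⟨hX, R, ?_⟩
    rw [hR, Subgroup.map_subgroupOf_eq_of_le inf_le_right]

variable [Finite G] [Fact p.Prime]

theorem sylowMembers_conj {𝓕 : Set (Subgroup G)} (h𝓕 : IsNormalSet 𝓕) {S X : Subgroup G} (g : G)
    (h : X ∈ sylowMembers p 𝓕 S) : subgroupConjRight g X ∈ sylowMembers p 𝓕 (subgroupConjRight g S) := by
  rw [sylowMembers_iff] at h ⊢
  refine ⟨h𝓕 X h.1 g, ?_⟩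
  have := h.2.conj inf_le_right g⁻¹
  rw [← conjRight_inf]
  exact this

theorem coe_smul_eq (S : Sylow p G) (g : G) :
    ((g • S : Sylow p G) : Subgroup G) = subgroupConjRight g⁻¹ (S : Subgroup G) := by
  rw [Cfsg.Agent.Lib.StrongEmb.coe_smul_sylow', subgroupConjRight, inv_inv]

theorem prefix_succ {n : ℕ} (y : Fin n → G) (i : Fin n) :
    ((List.ofFn y).take (i.val + 1)).prod = ((List.ofFn y).take i.val).prod * y i := by
  rw [List.take_succ]
  simp [List.getElem?_ofFn]

theorem prefix_last {n : ℕ} (y : Fin n → G) : ((List.ofFn y).take n).prod = (List.ofFn y).prod := by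
  rw [List.take_of_length_le (by simp)]

/-- Strong control of fusion gives control of Sylow intersections. -/
theorem controls_of_strong {𝓕 : Set (Subgroup G)} (h𝓕 : IsNormalSet 𝓕)
    (hS : FamilyStronglyControlsFusion p 𝓕) : ControlsSylowIntersections p 𝓕 := by
  intro S T hST hne
  obtain ⟨g, hg⟩ := MulAction.exists_smul_eq G S T
  have hTcoe : (T : Subgroup G) = subgroupConjRight g⁻¹ (S : Subgroup G) := by
    rw [← hg]; exact coe_smul_eq S g
  have hAS : (((S : Subgroup G) ⊓ (T : Subgroup G) : Subgroup G) : Set G) ⊆ (S : Set G) :=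
    fun x hx => hx.1
  obtain ⟨⟨a, ha⟩, ha1⟩ := (Subgroup.ne_bot_iff_exists_ne_one).mp hne
  have hgA : conjRight g (((S : Subgroup G) ⊓ (T : Subgroup G) : Subgroup G) : Set G) ⊆ (S : Set G) := by
    rintro _ ⟨x, hx, rfl⟩
    have : x ∈ subgroupConjRight g⁻¹ (S : Subgroup G) := hTcoe ▸ hx.2
    rw [mem_conjRight] at this
    have h' : g⁻¹ * x * g ∈ (S : Subgroup G) := by simpa using this
    exact h'
  obtain ⟨n, Y, y, y₀, hy₀, hY, hgf, hpre⟩ := hS S _ g hAS ⟨a, ha, fun h => ha1 (Subtype.ext h)⟩ hgA
  let u : ℕ → G := fun i => ((List.ofFn y).take i).prod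
  have hu0 : u 0 = 1 := by simp [u]
  have hus : ∀ i : Fin n, u (i.val + 1) = u i.val * y i := fun i => prefix_succ y i
  have hun : u n = (List.ofFn y).prod := prefix_last y
  have hXeq : ∀ i : Fin n, subgroupConjRight (u i.val)⁻¹ (Y i) = subgroupConjRight (u (i.val + 1))⁻¹ (Y i) := by
    intro i
    have h1 : subgroupConjRight (y i)⁻¹ (Y i) = Y i := conjRight_of_mem (inv_mem (hY i).2)
    rw [hus i, mul_inv_rev, ← conjRight_conjRight, h1]
  refine ⟨n, fun i => u i.val • S, fun i => subgroupConjRight (u i.val)⁻¹ (Y i),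
    fun i => u i.val * y i * (u i.val)⁻¹, ?_, ?_, ?_⟩
  · simp only [Fin.val_zero, hu0, one_smul]
  · simp only [Fin.val_last]
    rw [hun, ← hg, hgf, mul_smul]
    congr 1
    exact ((Sylow.smul_eq_iff_mem_normalizer).mpr hy₀).symm
  · intro i
    have hcast : ((u (i.castSucc).val • S : Sylow p G) : Subgroup G) = subgroupConjRight (u i.val)⁻¹ (S : Subgroup G) :=
      coe_smul_eq S _
    have hsucc : ((u (i.succ).val • S : Sylow p G) : Subgroup G) = subgroupConjRight (u (i.val + 1))⁻¹ (S : Subgroup G) :=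
      coe_smul_eq S _
    refine ⟨?_, ?_, ?_, ?_, ?_⟩
    · rw [hcast]
      exact sylowMembers_conj h𝓕 _ (hY i).1
    · rw [hsucc]
      simp only
      rw [hXeq i]
      exact sylowMembers_conj h𝓕 _ (hY i).1
    · simp only
      rw [mem_conjRight]
      have := (hY i).2
      simpa [mul_assoc] using this
    · rw [hsucc, hcast, conjRight_conjRight, hus i]
      congr 1
      group
    · rw [hsucc]
      simp only
      rw [hXeq i]
      intro z hz
      have h1 := hpre i (⟨z, hz, rfl⟩ : _ ∈ conjRight _ _)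
      rw [← conjRight_inf]
      rw [mem_conjRight]
      simp only [inv_inv]
      exact h1

/-- Control of Sylow intersections gives strong control of fusion. -/
theorem strong_of_controls {𝓕 : Set (Subgroup G)} (h𝓕 : IsNormalSet 𝓕)
    (hC : ControlsSylowIntersections p 𝓕) : FamilyStronglyControlsFusion p 𝓕 := by
  intro S A g hAS ⟨a, ha, ha1⟩ hgA
  set T := g • S with hT
  have hTcoe : (T : Subgroup G) = subgroupConjRight g⁻¹ (S : Subgroup G) := coe_smul_eq S g
  have hAT : ∀ z ∈ A, z ∈ (S : Subgroup G) ⊓ (T : Subgroup G) := by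
    intro z hz
    refine ⟨hAS hz, ?_⟩
    change z ∈ (T : Subgroup G)
    rw [hTcoe, mem_conjRight]
    have h1 : g⁻¹ * z * g ∈ (S : Subgroup G) := hgA ⟨z, hz, rfl⟩
    simpa using h1
  by_cases hST : S = T
  · refine ⟨0, Fin.elim0, Fin.elim0, g, ?_, fun i => i.elim0, by simp, fun i => i.elim0⟩
    exact (Sylow.smul_eq_iff_mem_normalizer).mp hST.symm
  · have hne : (S : Subgroup G) ⊓ (T : Subgroup G) ≠ ⊥ := by
      intro h
      have := hAT a ha
      rw [h, Subgroup.mem_bot] at this
      exact ha1 this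
    obtain ⟨n, c, X, x, hc0, hcn, hall⟩ := hC S T hST hne
    let w : ℕ → G := fun k => Nat.rec 1 (fun k wk => if h : k < n then x ⟨k, h⟩ * wk else wk) k
    have hw0 : w 0 = 1 := rfl
    have hws : ∀ i : Fin n, w (i.val + 1) = x i * w i.val := by
      intro i
      change (if h : i.val < n then x ⟨i.val, h⟩ * w i.val else w i.val) = _
      rw [dif_pos i.2]
    have hcw : ∀ (k : ℕ) (hk : k < n + 1), c ⟨k, hk⟩ = w k • S := by
      intro k
      induction k with
      | zero =>
        intro hk
        rw [hw0, one_smul, ← hc0]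
        rfl
      | succ k ih =>
        intro hk
        have hk' : k < n := Nat.lt_of_succ_lt_succ hk
        have h1 := ih (by omega)
        have h2 := (hall ⟨k, hk'⟩).2.2.2.1
        have h3 : c (Fin.succ ⟨k, hk'⟩) = x ⟨k, hk'⟩ • c (Fin.castSucc ⟨k, hk'⟩) := by
          apply Sylow.ext
          rw [coe_smul_eq, ← h2, conjRight_conjRight]
          simp [conjRight_one]
        have h4 : c (Fin.castSucc ⟨k, hk'⟩) = w k • S := h1
        have h5 : c ⟨k + 1, hk⟩ = c (Fin.succ ⟨k, hk'⟩) := rfl
        rw [h5, h3, h4, hws ⟨k, hk'⟩, mul_smul]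
    let y : Fin n → G := fun i => (w i.val)⁻¹ * x i * w i.val
    have hpre : ∀ k, k ≤ n → ((List.ofFn y).take k).prod = w k := by
      intro k
      induction k with
      | zero => intro _; simp [hw0]
      | succ k ih =>
        intro hk
        have := prefix_succ y ⟨k, hk⟩
        simp only at this
        rw [this, ih (by omega), hws ⟨k, hk⟩]
        simp only [y]
        group
    have hwcast : ∀ i : Fin n, ((c i.castSucc : Sylow p G) : Subgroup G) = subgroupConjRight (w i.val)⁻¹ (S : Subgroup G) := by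
      intro i
      have : c i.castSucc = w i.val • S := hcw i.val (by omega)
      rw [this, coe_smul_eq]
    have hwsucc : ∀ i : Fin n, ((c i.succ : Sylow p G) : Subgroup G) = subgroupConjRight (w (i.val + 1))⁻¹ (S : Subgroup G) := by
      intro i
      have : c i.succ = w (i.val + 1) • S := hcw (i.val + 1) (by omega)
      rw [this, coe_smul_eq]
    have hwn : w n • S = T := by
      have := hcw n (by omega)
      rw [← this, ← hcn]
      rfl
    refine ⟨n, fun i => subgroupConjRight (w i.val) (X i), y, (w n)⁻¹ * g, ?_, ?_, ?_, ?_⟩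
    · apply (Sylow.smul_eq_iff_mem_normalizer).mp
      rw [mul_smul, ← hT, ← hwn, inv_smul_smul]
    · intro i
      refine ⟨?_, ?_⟩
      · have h1 := sylowMembers_conj h𝓕 (w i.val) (hall i).1
        rw [hwcast i, conjRight_conjRight] at h1
        simp only [inv_mul_cancel, conjRight_one] at h1
        exact h1
      · rw [mem_conjRight]
        simp only [y]
        have := (hall i).2.2.1
        simpa [mul_assoc] using this
    · rw [← prefix_last y, hpre n le_rfl]
      group
    · intro i z hz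
      obtain ⟨z₀, hz₀, rfl⟩ := hz
      have hpi := hpre (i.val + 1) i.2
      rw [hpi]
      have h5 := (hall i).2.2.2.2 (hAT z₀ hz₀)
      have h6 : z₀ ∈ subgroupConjRight (w (i.val + 1))⁻¹ (S : Subgroup G) := hwsucc i ▸ h5.1
      rw [mem_conjRight] at h6
      have h6' : (w (i.val + 1))⁻¹ * z₀ * w (i.val + 1) ∈ (S : Subgroup G) := by simpa using h6
      refine ⟨h6', ?_⟩
      simp only [SetLike.mem_coe]
      rw [mem_conjRight, hws i]
      have h7 := h5.2
      have hxi := (hall i).2.2.1
      have h8 := (X i).mul_mem ((X i).mul_mem (inv_mem hxi) h7) hxi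
      have h9 : w i.val * ((x i * w i.val)⁻¹ * z₀ * (x i * w i.val)) * (w i.val)⁻¹ = (x i)⁻¹ * z₀ * x i := by
        group
      rw [h9]
      exact h8

end Cfsg.Agent.Lib.SylowControl
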