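import Cfsg.Agent.Lib.GlaubM
import Cfsg.Agent.Lib.CharKernel
import Cfsg.Agent.Lib.CharIso

/-!
# Irreducible characters nonzero on exactly two conjugacy classes
-/

set_option autoImplicit false
set_option linter.all false

namespace Cfsg.Agent.Lib.TwoClass

open Cfsg Cfsg.Agent.Lib.CharOps Cfsg.Agent.Lib.CharIrr Cfsg.Agent.Lib.CharAb Cfsg.Agent.Lib.CharKernel
open scoped ComplexConjugate

universe u

variable {G : Type u} [Group G] [Fintype G]

theorem apply_mul_of_val {ψ : G → ℂ} (hψ : IsCharacter G ψ) {a : G} (ha : ψ a = ψ 1) (b : G) : ψ (a * b) = ψ b := by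
  obtain ⟨m, ρ, rfl⟩ := hψ
  have h1 := (Cfsg.Agent.Lib.CharCore.character_eq_finrank_iff ρ a).mp (by
    rw [ha]
    exact Representation.char_one ρ)
  rw [Representation.character, map_mul]
  have h2 : ρ a * ρ b = ρ b := by
    rw [h1]
    exact LinearMap.id_comp _
  rw [h2]
  rfl

theorem conj_order {a b : G} (h : IsConj a b) : orderOf a = orderOf b := by
  obtain ⟨c, rfl⟩ := isConj_iff.1 h
  exact (MulEquiv.orderOf_eq (MulAut.conj c) a).symm

/-- The basic data. -/
structure TC (χ : IrrCharacter G) (x : G) : Prop where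
  hx : x ≠ 1
  hsupp : ∀ g, (χ : G → ℂ) g ≠ 0 ↔ g = 1 ∨ IsConj x g
  hnt : ∃ a, (χ : G → ℂ) a ≠ 1

variable {χ : IrrCharacter G} {x : G}

theorem chi_one_ne (χ : IrrCharacter G) : (χ : G → ℂ) 1 ≠ 0 := degree_ne_zero χ.2

theorem conj_eq (χ : IrrCharacter G) {g h : G} (hgh : IsConj g h) : (χ : G → ℂ) g = (χ : G → ℂ) h := by
  have hcl := IsCharacter.isClassFunction' (IsIrrCharacter.isCharacter' χ.2)
  obtain ⟨c, rfl⟩ := isConj_iff.1 hgh
  rw [hcl]

/-- The size of a conjugacy class. -/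
noncomputable def csize (x : G) : ℕ := Nat.card {y : G // IsConj y x}

theorem csize_mul (x : G) : csize x * Nat.card (Subgroup.centralizer ({x} : Set G)) = Nat.card G :=
  card_class_mul_card_centralizer x

theorem csize_pos (x : G) : 0 < csize x := by
  have := csize_mul x
  have h2 : 0 < Nat.card G := Nat.card_pos
  exact Nat.pos_of_ne_zero (fun h => by rw [h, zero_mul] at this; omega)

theorem csize_eq_filter (x : G) [DecidableEq G] [DecidableRel (IsConj (α := G))] :
    csize x = (Finset.univ.filter (fun y : G => IsConj y x)).card := by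
  unfold csize
  rw [Nat.card_eq_fintype_card, Fintype.card_subtype]

theorem exists_tc (hG : 2 < Nat.card G)
    (hχ : Nat.card {C : ConjClasses G // ∃ g ∈ C.carrier, (χ : G → ℂ) g ≠ 0} = 2) : ∃ x, TC χ x := by
  classical
  let C₀ : {C : ConjClasses G // ∃ g ∈ C.carrier, (χ : G → ℂ) g ≠ 0} := ⟨ConjClasses.mk 1, 1, by
    rw [ConjClasses.mem_carrier_iff_mk_eq], chi_one_ne χ⟩
  obtain ⟨⟨C₃v, g₀, hg₀, hg₀2⟩, hC₃', huniq⟩ := (Nat.card_eq_two_iff' C₀).1 hχ
  have hg₀1 : ConjClasses.mk g₀ = C₃v := ConjClasses.mem_carrier_iff_mk_eq.1 hg₀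
  have hx : g₀ ≠ 1 := by
    rintro rfl
    apply hC₃'
    apply Subtype.ext
    exact hg₀1.symm
  have hmem : ∀ g, (χ : G → ℂ) g ≠ 0 → g = 1 ∨ IsConj g₀ g := by
    intro g hg
    by_cases hg1 : g = 1
    · exact Or.inl hg1
    · right
      let Cg : {C : ConjClasses G // ∃ g ∈ C.carrier, (χ : G → ℂ) g ≠ 0} := ⟨ConjClasses.mk g, g, by
        rw [ConjClasses.mem_carrier_iff_mk_eq], hg⟩
      have h1 : Cg ≠ C₀ := by
        intro h2
        have h3 : ConjClasses.mk g = ConjClasses.mk 1 := congrArg Subtype.val h2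
        rw [ConjClasses.mk_eq_mk_iff_isConj, isConj_one_left] at h3
        exact hg1 h3
      have h4 := huniq Cg h1
      have h5 : ConjClasses.mk g = C₃v := congrArg Subtype.val h4
      rw [← hg₀1, ConjClasses.mk_eq_mk_iff_isConj] at h5
      exact h5.symm
  refine ⟨g₀, hx, fun g => ⟨hmem g, ?_⟩, ?_⟩
  · rintro (rfl | h)
    · exact chi_one_ne χ
    · rw [← conj_eq χ h]
      exact hg₀2
  · by_contra hno
    push Not at hno
    have h1 : ∀ y : G, IsConj y g₀ ↔ y ≠ 1 := by
      intro y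
      constructor
      · rintro h rfl
        exact hx (isConj_one_right.1 h)
      · intro hy
        rcases hmem y (by rw [hno]; exact one_ne_zero) with h | h
        · exact absurd h hy
        · exact h.symm
    have h2 : csize g₀ + 1 = Nat.card G := by
      rw [csize_eq_filter, Nat.card_eq_fintype_card]
      have h3 : Finset.univ.filter (fun y : G => IsConj y g₀) = Finset.univ.erase 1 := by
        ext y
        simp only [Finset.mem_filter, Finset.mem_univ, true_and, Finset.mem_erase, h1]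
        tauto
      rw [h3, Finset.card_erase_of_mem (Finset.mem_univ _), Finset.card_univ]
      have : 0 < Fintype.card G := Fintype.card_pos
      omega
    have h4 := csize_mul g₀
    have h5 : csize g₀ ∣ csize g₀ + 1 := by
      rw [h2, ← h4]
      exact dvd_mul_right _ _
    have h6 : csize g₀ ∣ 1 := (Nat.dvd_add_right (dvd_refl _)).1 h5
    have h7 : csize g₀ = 1 := Nat.dvd_one.1 h6
    omega

theorem index_cent (a : G) : (Subgroup.centralizer ({a} : Set G)).index = csize a := by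
  have h1 := Subgroup.card_mul_index (Subgroup.centralizer ({a} : Set G))
  have h2 := csize_mul a
  have h3 : 0 < Nat.card (Subgroup.centralizer ({a} : Set G)) := Nat.card_pos
  apply Nat.eq_of_mul_eq_mul_left h3
  rw [h1, mul_comm, h2]

namespace TC

variable (h : TC χ x)
include h

theorem mem_of_conj {g : G} (hg : IsConj x g) : (χ : G → ℂ) g ≠ 0 := (h.hsupp g).2 (Or.inr hg)

theorem chi_x_ne : (χ : G → ℂ) x ≠ 0 := h.mem_of_conj (IsConj.refl x)

/-- Sums over the group of functions vanishing off the support. -/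
theorem sum_two {F : G → ℂ} (hF : ∀ g₁ g₂, IsConj g₁ g₂ → F g₁ = F g₂) (hv : ∀ g, (χ : G → ℂ) g = 0 → F g = 0) :
    ∑ g, F g = F 1 + (csize x : ℂ) * F x := by
  classical
  have h1 : ∑ g, F g = ∑ g ∈ insert (1 : G) (Finset.univ.filter (fun y : G => IsConj y x)), F g := by
    symm
    apply Finset.sum_subset (Finset.subset_univ _)
    intro g _ hg
    apply hv
    by_contra hne
    rcases (h.hsupp g).1 hne with h2 | h2
    · apply hg
      simp [h2]
    · apply hg
      apply Finset.mem_insert_of_mem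
      simp only [Finset.mem_filter, Finset.mem_univ, true_and]
      exact h2.symm
  have h3 : (1 : G) ∉ Finset.univ.filter (fun y : G => IsConj y x) := by
    simp only [Finset.mem_filter, Finset.mem_univ, true_and]
    intro h4
    exact h.hx (isConj_one_right.1 h4)
  rw [h1, Finset.sum_insert h3]
  congr 1
  rw [csize_eq_filter, Finset.sum_congr rfl (g := fun _ => F x) (fun y hy => hF y x (by simpa using hy)),
    Finset.sum_const, nsmul_eq_mul]

theorem chi_ne_one_irr : χ ≠ ⟨fun _ => 1, Cfsg.Agent.Lib.CharIso.isIrr_one⟩ := by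
  rintro rfl
  obtain ⟨a, ha⟩ := h.hnt
  exact ha rfl

theorem inner_eq (ψ : IrrCharacter G) (hψ : ψ ≠ χ) :
    (χ : G → ℂ) 1 * conj ((ψ : G → ℂ) 1) + (csize x : ℂ) * ((χ : G → ℂ) x * conj ((ψ : G → ℂ) x)) = 0 := by
  classical
  have h1 := classInner_irr χ.2 ψ.2
  rw [if_neg (fun h2 => hψ (Subtype.ext h2.symm))] at h1
  unfold classInner at h1
  have hG : (Nat.card G : ℂ) ≠ 0 := by exact_mod_cast Nat.card_pos.ne'
  have h2 : ∑ g, (χ : G → ℂ) g * conj ((ψ : G → ℂ) g) = 0 := by
    rcases mul_eq_zero.1 h1 with h3 | h3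
    · exact absurd h3 (inv_ne_zero hG)
    · exact h3
  rw [h.sum_two (F := fun g => (χ : G → ℂ) g * conj ((ψ : G → ℂ) g)) (fun g₁ g₂ h12 => by
    rw [conj_eq χ h12, conj_eq ψ h12]) (fun g hg => by simp [hg])] at h2
  exact h2

/-- The value at `x`. -/
theorem csize_mul_chi : (csize x : ℂ) * (χ : G → ℂ) x = -(χ : G → ℂ) 1 := by
  have h1 := h.inner_eq ⟨fun _ => 1, Cfsg.Agent.Lib.CharIso.isIrr_one⟩ (fun h2 => h.chi_ne_one_irr h2.symm)
  change (χ : G → ℂ) 1 * conj 1 + (csize x : ℂ) * ((χ : G → ℂ) x * conj 1) = 0 at h1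
  rw [map_one, mul_one, mul_one] at h1
  linear_combination h1

theorem csize_ne : (csize x : ℂ) ≠ 0 := by
  exact_mod_cast (csize_pos x).ne'

/-- Other irreducible characters have `x` in their kernel. -/
theorem ker_of_ne (ψ : IrrCharacter G) (hψ : ψ ≠ χ) : (ψ : G → ℂ) x = (ψ : G → ℂ) 1 := by
  have h1 := h.inner_eq ψ hψ
  rw [← mul_assoc, h.csize_mul_chi] at h1
  have h2 : (χ : G → ℂ) 1 * (conj ((ψ : G → ℂ) 1) - conj ((ψ : G → ℂ) x)) = 0 := by
    linear_combination h1
  have h3 : conj ((ψ : G → ℂ) 1) = conj ((ψ : G → ℂ) x) := by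
    rcases mul_eq_zero.1 h2 with h4 | h4
    · exact absurd h4 (chi_one_ne χ)
    · exact sub_eq_zero.1 h4
  exact ((starRingEnd ℂ).injective h3).symm

theorem ker_of_conj (ψ : IrrCharacter G) (hψ : ψ ≠ χ) {g : G} (hg : (χ : G → ℂ) g ≠ 0) :
    (ψ : G → ℂ) g = (ψ : G → ℂ) 1 := by
  rcases (h.hsupp g).1 hg with rfl | h2
  · rfl
  · rw [← conj_eq ψ h2, h.ker_of_ne ψ hψ]

theorem sum_erase_ne : ∑ ψ ∈ Finset.univ.erase χ, (ψ : G → ℂ) 1 * conj ((ψ : G → ℂ) 1) ≠ 0 := by
  classical
  have h1 : ∀ ψ : IrrCharacter G, (ψ : G → ℂ) 1 * conj ((ψ : G → ℂ) 1) = ((deg ψ ^ 2 : ℕ) : ℂ) := by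
    intro ψ
    rw [apply_one_eq_deg, Complex.conj_natCast]
    push_cast
    ring
  simp only [h1]
  rw [← Nat.cast_sum]
  have h2 : 0 < ∑ ψ ∈ Finset.univ.erase χ, deg ψ ^ 2 := by
    apply Finset.sum_pos' (fun _ _ => Nat.zero_le _)
    refine ⟨⟨fun _ => 1, Cfsg.Agent.Lib.CharIso.isIrr_one⟩, ?_, ?_⟩
    · exact Finset.mem_erase.2 ⟨fun h2 => h.chi_ne_one_irr h2.symm, Finset.mem_univ _⟩
    · have := deg_pos (G := G) ⟨fun _ => 1, Cfsg.Agent.Lib.CharIso.isIrr_one⟩
      positivity
  exact_mod_cast h2.ne'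

/-- The support of `χ` is closed under products. -/
theorem mul_mem {a b : G} (ha : (χ : G → ℂ) a ≠ 0) (hb : (χ : G → ℂ) b ≠ 0) : (χ : G → ℂ) (a * b) ≠ 0 := by
  classical
  by_cases hab : a * b = 1
  · rw [hab]
    exact chi_one_ne χ
  have h1 := column_orthogonality (a * b) 1
  rw [if_neg (fun h2 => hab (isConj_one_left.1 h2))] at h1
  rw [← Finset.add_sum_erase _ _ (Finset.mem_univ χ)] at h1
  have hker : ∀ ψ ∈ Finset.univ.erase χ, (ψ : G → ℂ) (a * b) * conj ((ψ : G → ℂ) 1) = (ψ : G → ℂ) 1 * conj ((ψ : G → ℂ) 1) := by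
    intro ψ hψ
    have hψ' : ψ ≠ χ := (Finset.mem_erase.1 hψ).1
    rw [apply_mul_of_val (IsIrrCharacter.isCharacter' ψ.2) (h.ker_of_conj ψ hψ' ha) b, h.ker_of_conj ψ hψ' hb]
  rw [Finset.sum_congr rfl hker] at h1
  have h2 := column_orthogonality (1 : G) 1
  rw [if_pos (IsConj.refl _)] at h2
  rw [← Finset.add_sum_erase _ _ (Finset.mem_univ χ)] at h2
  intro h3
  rw [h3, zero_mul, zero_add] at h1
  exact h.sum_erase_ne h1

theorem pow_mem {a : G} (ha : (χ : G → ℂ) a ≠ 0) (n : ℕ) : (χ : G → ℂ) (a ^ n) ≠ 0 := by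
  induction n with
  | zero =>
    rw [pow_zero]
    exact chi_one_ne χ
  | succ n ih =>
    rw [pow_succ]
    exact h.mul_mem ih ha

/-- The support as a subgroup. -/
def supp : Subgroup G where
  carrier := {g | (χ : G → ℂ) g ≠ 0}
  mul_mem' := fun ha hb => h.mul_mem ha hb
  one_mem' := chi_one_ne χ
  inv_mem' := by
    intro a ha
    have h1 : a⁻¹ = a ^ (orderOf a - 1) := by
      apply inv_eq_of_mul_eq_one_right
      rw [← pow_succ']
      rw [Nat.sub_add_cancel (orderOf_pos a), pow_orderOf_eq_one]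
    show (χ : G → ℂ) a⁻¹ ≠ 0
    rw [h1]
    exact h.pow_mem ha _

theorem mem_supp {g : G} : g ∈ h.supp ↔ (χ : G → ℂ) g ≠ 0 := Iff.rfl

theorem supp_normal : h.supp.Normal := ⟨fun n hn g => by
  show (χ : G → ℂ) (g * n * g⁻¹) ≠ 0
  rw [IsCharacter.isClassFunction' (IsIrrCharacter.isCharacter' χ.2)]
  exact hn⟩

theorem x_mem : x ∈ h.supp := h.chi_x_ne

theorem supp_ne_bot : h.supp ≠ ⊥ := by
  intro h1
  have h2 := h.x_mem
  rw [h1] at h2
  exact h.hx h2

/-- Two elements of the support other than the identity are conjugate. -/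
theorem conj_of_mem {a b : G} (ha : a ∈ h.supp) (hb : b ∈ h.supp) (ha1 : a ≠ 1) (hb1 : b ≠ 1) : IsConj a b := by
  rcases (h.hsupp a).1 ha with rfl | h1
  · exact absurd rfl ha1
  rcases (h.hsupp b).1 hb with rfl | h2
  · exact absurd rfl hb1
  exact h1.symm.trans h2

theorem conj_x {a : G} (ha : a ∈ h.supp) (ha1 : a ≠ 1) : IsConj x a := h.conj_of_mem h.x_mem ha h.hx ha1

/-- The Camina property. -/
theorem camina {g n : G} (hg : g ∉ h.supp) (hn : n ∈ h.supp) : IsConj g (g * n) := by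
  classical
  by_contra hno
  have h1 := column_orthogonality g (g * n)
  rw [if_neg hno] at h1
  have h2 := column_orthogonality g g
  rw [if_pos (IsConj.refl g)] at h2
  have h3 : ∀ ψ : IrrCharacter G, (ψ : G → ℂ) (g * n) = (ψ : G → ℂ) g := by
    intro ψ
    have hgn : g * n ∉ h.supp := fun hm => hg (by
      have := h.supp.mul_mem hm (h.supp.inv_mem hn)
      simpa using this)
    by_cases hψ : ψ = χ
    · subst hψ
      have h4 : (ψ : G → ℂ) g = 0 := by
        by_contra hne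
        exact hg hne
      have h5 : (ψ : G → ℂ) (g * n) = 0 := by
        by_contra hne
        exact hgn hne
      rw [h4, h5]
    · have h4 := h.ker_of_conj ψ hψ hn
      have hcl := IsCharacter.isClassFunction' (IsIrrCharacter.isCharacter' ψ.2)
      have h5 : g * n = g * n * g⁻¹ * g := by group
      have h6 : (ψ : G → ℂ) (g * n * g⁻¹) = (ψ : G → ℂ) 1 := by
        rw [hcl, h4]
      rw [h5, apply_mul_of_val (IsIrrCharacter.isCharacter' ψ.2) h6 g]
  simp only [h3] at h1
  rw [h1] at h2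
  have h7 : (Nat.card (Subgroup.centralizer ({g} : Set G)) : ℂ) ≠ 0 := by exact_mod_cast Nat.card_pos.ne'
  exact h7 h2.symm

/-- Uniqueness of the minimal normal subgroup. -/
theorem supp_le {K : Subgroup G} (hK : K.Normal) (hK1 : K ≠ ⊥) : h.supp ≤ K := by
  obtain ⟨a, ha⟩ := (Subgroup.ne_bot_iff_exists_ne_one).1 hK1
  obtain ⟨k, hk⟩ := a
  have hk1 : k ≠ 1 := fun h0 => ha (Subtype.ext h0)
  by_cases hkN : k ∈ h.supp
  · intro n hn
    by_cases hn1 : n = 1
    · rw [hn1]
      exact K.one_mem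
    · obtain ⟨c, rfl⟩ := isConj_iff.1 (h.conj_of_mem hkN hn hk1 hn1)
      exact hK.conj_mem k hk c
  · intro n hn
    obtain ⟨c, hc⟩ := isConj_iff.1 (h.camina hkN hn)
    have h1 : k * n ∈ K := by
      rw [← hc]
      exact hK.conj_mem k hk c
    have h2 := K.mul_mem (K.inv_mem hk) h1
    simpa using h2

/-- Faithfulness. -/
theorem faithful {g : G} (hg : (χ : G → ℂ) g = (χ : G → ℂ) 1) : g = 1 := by
  by_contra hg1
  have h1 : g ∈ h.supp := by
    show (χ : G → ℂ) g ≠ 0
    rw [hg]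
    exact chi_one_ne χ
  have h2 := conj_eq χ (h.conj_x h1 hg1)
  rw [hg] at h2
  have h3 := h.csize_mul_chi
  rw [h2] at h3
  have h4 : ((csize x : ℂ) + 1) * (χ : G → ℂ) 1 = 0 := by linear_combination h3
  rcases mul_eq_zero.1 h4 with h5 | h5
  · have h6 : ((csize x + 1 : ℕ) : ℂ) = 0 := by
      push_cast
      exact h5
    have h7 : csize x + 1 = 0 := by exact_mod_cast h6
    omega
  · exact chi_one_ne χ h5

/-- The order of the elements. -/
theorem exists_prime : ∃ p : ℕ, p.Prime ∧ orderOf x = p := by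
  have h0 : orderOf x ≠ 1 := fun h1 => h.hx (orderOf_eq_one_iff.1 h1)
  obtain ⟨p, hp, hd⟩ := Nat.exists_prime_and_dvd h0
  refine ⟨p, hp, ?_⟩
  have h1 : orderOf (x ^ (orderOf x / p)) = p := orderOf_pow_orderOf_div (orderOf_pos x).ne' hd
  have h2 : x ^ (orderOf x / p) ≠ 1 := by
    intro h3
    rw [h3, orderOf_one] at h1
    exact hp.ne_one h1.symm
  have h3 := h.conj_x (h.pow_mem h.chi_x_ne (orderOf x / p)) h2
  rw [conj_order h3, h1]

theorem elementary {p : ℕ} (hp : p.Prime) (hord : orderOf x = p) : IsElementaryAbelian p h.supp := by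
  have hpow : ∀ a ∈ h.supp, a ^ p = 1 := by
    intro a ha
    by_cases ha1 : a = 1
    · rw [ha1, one_pow]
    · rw [← hord, conj_order (h.conj_x ha ha1), pow_orderOf_eq_one]
  refine ⟨?_, hpow⟩
  haveI : Fact p.Prime := ⟨hp⟩
  have hP : IsPGroup p h.supp := fun a => ⟨1, by
    rw [pow_one]
    exact Subtype.ext (hpow a a.2)⟩
  haveI : Nontrivial h.supp := by
    refine ⟨⟨⟨x, h.x_mem⟩, 1, fun h1 => h.hx (congrArg Subtype.val h1)⟩⟩
  haveI := hP.center_nontrivial
  obtain ⟨z, hz⟩ := exists_ne (1 : Subgroup.center h.supp)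
  have hz1 : (((z : h.supp) : G)) ≠ 1 := fun h0 => hz (Subtype.ext (Subtype.ext h0))
  have hcomm : ∀ a b : G, a ∈ h.supp → b ∈ h.supp → a * b = b * a := by
    intro a b ha hb
    by_cases ha1 : a = 1
    · rw [ha1, one_mul, mul_one]
    obtain ⟨c, rfl⟩ := isConj_iff.1 (h.conj_of_mem (z : h.supp).2 ha hz1 ha1)
    have hn := h.supp_normal
    have hb' : c⁻¹ * b * c ∈ h.supp := by
      have := hn.conj_mem b hb c⁻¹
      simpa using this
    have h5 : ((z : h.supp) : G) * (c⁻¹ * b * c) = (c⁻¹ * b * c) * ((z : h.supp) : G) := by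
      have h6 := Subgroup.mem_center_iff.1 z.2 ⟨_, hb'⟩
      exact (congrArg Subtype.val h6).symm
    calc c * ((z : h.supp) : G) * c⁻¹ * b = c * (((z : h.supp) : G) * (c⁻¹ * b * c)) * c⁻¹ := by group
      _ = c * ((c⁻¹ * b * c) * ((z : h.supp) : G)) * c⁻¹ := by rw [h5]
      _ = _ := by group
  exact ⟨⟨fun a b => Subtype.ext (hcomm a b a.2 b.2)⟩⟩

theorem csize_add_one {a : G} (ha : a ∈ h.supp) (ha1 : a ≠ 1) : csize a + 1 = Nat.card h.supp := by
  classical
  have h1 : Nat.card h.supp = (Finset.univ.filter (fun g : G => g ∈ h.supp)).card :=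
    Nat.subtype_card _ (by simp)
  have h2 : Finset.univ.filter (fun g : G => g ∈ h.supp) =
      insert (1 : G) (Finset.univ.filter (fun y : G => IsConj y a)) := by
    ext g
    simp only [Finset.mem_filter, Finset.mem_univ, true_and, Finset.mem_insert]
    constructor
    · intro hg
      by_cases hg1 : g = 1
      · exact Or.inl hg1
      · exact Or.inr (h.conj_of_mem hg ha hg1 ha1)
    · rintro (rfl | hg)
      · exact h.supp.one_mem
      · obtain ⟨c, rfl⟩ := isConj_iff.1 hg.symm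
        exact h.supp_normal.conj_mem a ha c
  have h3 : (1 : G) ∉ Finset.univ.filter (fun y : G => IsConj y a) := by
    simp only [Finset.mem_filter, Finset.mem_univ, true_and]
    intro h4
    exact ha1 (isConj_one_right.1 h4)
  rw [h1, h2, Finset.card_insert_of_notMem h3, csize_eq_filter]

variable {p : ℕ} [hpf : Fact p.Prime] (hNp : IsPGroup p h.supp)
include hNp

theorem dvd_card_supp : p ∣ Nat.card h.supp := by
  obtain ⟨n, hn⟩ := IsPGroup.iff_card.1 hNp
  rw [hn]
  apply dvd_pow_self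
  rintro rfl
  rw [pow_zero] at hn
  have h1 := (Nat.card_eq_one_iff_unique.1 hn).1.elim (⟨x, h.x_mem⟩ : h.supp) 1
  exact h.hx (congrArg Subtype.val h1)

theorem not_dvd_csize {a : G} (ha : a ∈ h.supp) (ha1 : a ≠ 1) : ¬ p ∣ csize a := by
  intro h1
  have h2 := h.dvd_card_supp hNp
  rw [← h.csize_add_one ha ha1] at h2
  have h3 : p ∣ 1 := (Nat.dvd_add_right h1).1 h2
  exact hpf.out.one_lt.ne' (Nat.dvd_one.1 h3)

theorem order_mem {a : G} (ha : a ∈ h.supp) : ∃ k : ℕ, orderOf a = p ^ k := by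
  have h0 : ∀ g : h.supp, ∃ k : ℕ, orderOf g = p ^ k := IsPGroup.iff_orderOf.1 hNp
  obtain ⟨k, hk⟩ := h0 ⟨a, ha⟩
  exact ⟨k, (Subgroup.orderOf_coe (⟨a, ha⟩ : h.supp)).trans hk⟩

theorem order_x : orderOf x = p := by
  obtain ⟨q, hq, hord⟩ := h.exists_prime
  obtain ⟨k, hk'⟩ := h.order_mem hNp h.x_mem
  rw [hord] at hk' ⊢
  have h1 : k ≠ 0 := by
    rintro rfl
    rw [pow_zero] at hk'
    exact hq.ne_one hk'
  exact (Nat.prime_dvd_prime_iff_eq hpf.out hq).1 (by rw [hk']; exact dvd_pow_self p h1) |>.symm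

theorem cent_pgroup {a : G} (ha : a ∈ h.supp) (ha1 : a ≠ 1) : IsPGroup p (Subgroup.centralizer ({a} : Set G)) := by
  rw [IsPGroup.iff_card]
  refine ⟨_, Nat.eq_prime_pow_of_unique_prime_dvd Nat.card_pos.ne' ?_⟩
  intro q hq hqd
  by_contra hne
  haveI : Fact q.Prime := ⟨hq⟩
  obtain ⟨y, hy⟩ := exists_prime_orderOf_dvd_card' q hqd
  have hy' : orderOf (y : G) = q := by
    rw [Subgroup.orderOf_coe]
    exact hy
  have hyS : (y : G) ∉ h.supp := by
    intro hm
    obtain ⟨k, hk⟩ := h.order_mem hNp hm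
    have hk' : q = p ^ k := by
      rw [← hy', hk]
    have h1 : k ≠ 0 := by
      rintro rfl
      rw [pow_zero] at hk'
      exact hq.ne_one hk'
    exact hne ((Nat.prime_dvd_prime_iff_eq hpf.out hq).1 (by rw [hk']; exact dvd_pow_self p h1)).symm
  have hcomm : Commute (y : G) a := (Subgroup.mem_centralizer_singleton_iff.1 y.2)
  obtain ⟨k, hk'⟩ := h.order_mem hNp ha
  have hcop : (orderOf (y : G)).Coprime (orderOf a) := by
    rw [hy', hk']
    exact Nat.Coprime.pow_right k ((Nat.coprime_primes hq hpf.out).2 hne)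
  have h1 := hcomm.orderOf_mul_eq_mul_orderOf_of_coprime hcop
  have h2 := conj_order (h.camina hyS ha)
  rw [h1, hy'] at h2
  have h3 : orderOf a = 1 := by
    have hq0 : 0 < q := hq.pos
    have : q * 1 = q * orderOf a := by
      rw [mul_one]
      exact h2
    exact (Nat.eq_of_mul_eq_mul_left hq0 this).symm
  exact ha1 (orderOf_eq_one_iff.1 h3)

/-- The centralizers are Sylow subgroups. -/
theorem exists_sylow_cent {a : G} (ha : a ∈ h.supp) (ha1 : a ≠ 1) :
    ∃ P : Sylow p G, Subgroup.centralizer ({a} : Set G) = P :=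
  ⟨(h.cent_pgroup hNp ha ha1).toSylow (by
    rw [index_cent]
    exact h.not_dvd_csize hNp ha ha1), rfl⟩

/-- The inner product of the restriction with a nontrivial character. -/
theorem inner_ne [Fintype h.supp] (μ : IrrCharacter h.supp) (hμ : (μ : h.supp → ℂ) ≠ fun _ => 1) :
    classInner (fun n : h.supp => (χ : G → ℂ) n) (μ : h.supp → ℂ) ≠ 0 := by
  classical
  have hEA := h.elementary hpf.out (h.order_x hNp)
  have hab : ∀ a b : h.supp, a * b = b * a := fun a b => hEA.1.is_comm.comm a b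
  have hdeg : (μ : h.supp → ℂ) 1 = 1 := (commutative_iff_apply_one).mp hab μ
  have hsum : ∑ a : h.supp, conj ((μ : h.supp → ℂ) a) = 0 := by
    have h1 := classInner_irr (Cfsg.Agent.Lib.CharIso.isIrr_one (G := h.supp)) μ.2
    rw [if_neg (fun h2 => hμ h2.symm)] at h1
    unfold classInner at h1
    simp only [one_mul] at h1
    rcases mul_eq_zero.1 h1 with h3 | h3
    · exact absurd h3 (inv_ne_zero (by exact_mod_cast Nat.card_pos.ne'))
    · exact h3
  have hval : ∑ a : h.supp, (χ : G → ℂ) a * conj ((μ : h.supp → ℂ) a) = (χ : G → ℂ) 1 - (χ : G → ℂ) x := by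
    rw [← Finset.add_sum_erase _ _ (Finset.mem_univ (1 : h.supp))] at hsum ⊢
    have h1 : ∀ a ∈ Finset.univ.erase (1 : h.supp), (χ : G → ℂ) a * conj ((μ : h.supp → ℂ) a) =
        (χ : G → ℂ) x * conj ((μ : h.supp → ℂ) a) := by
      intro a ha
      have ha1 : (a : G) ≠ 1 := fun h2 => (Finset.mem_erase.1 ha).1 (Subtype.ext h2)
      rw [← conj_eq χ (h.conj_x a.2 ha1)]
    rw [Finset.sum_congr rfl h1, ← Finset.mul_sum]
    rw [hdeg, map_one] at hsum
    have h2 : ∑ a ∈ Finset.univ.erase (1 : h.supp), conj ((μ : h.supp → ℂ) a) = -1 := by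
      linear_combination hsum
    rw [h2, hdeg, map_one, mul_one]
    show (χ : G → ℂ) 1 + (χ : G → ℂ) x * -1 = _
    ring
  unfold classInner
  rw [hval]
  apply mul_ne_zero (inv_ne_zero (by exact_mod_cast Nat.card_pos.ne'))
  intro h0
  have h3 := h.csize_mul_chi
  have h4 : (χ : G → ℂ) x = (χ : G → ℂ) 1 := (sub_eq_zero.1 h0).symm
  rw [h4] at h3
  have h5 : ((csize x + 1 : ℕ) : ℂ) * (χ : G → ℂ) 1 = 0 := by
    push_cast
    linear_combination h3
  rcases mul_eq_zero.1 h5 with h6 | h6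
  · have h7 : csize x + 1 = 0 := by exact_mod_cast h6
    omega
  · exact chi_one_ne χ h6

/-- The stabilizers of the nontrivial characters are Sylow subgroups. -/
theorem exists_sylow_stab (μ : IrrCharacter h.supp) (hμ : (μ : h.supp → ℂ) ≠ fun _ => 1) :
    ∃ P : Sylow p G, ∀ g : G, g ∈ (P : Subgroup G) ↔
      ∀ n n' : h.supp, (n' : G) = g * n * g⁻¹ → (μ : h.supp → ℂ) n' = (μ : h.supp → ℂ) n := by
  classical
  letI : Fintype h.supp := Fintype.ofFinite _
  have hEA := h.elementary hpf.out (h.order_x hNp)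
  have hab : ∀ a b : h.supp, a * b = b * a := fun a b => hEA.1.is_comm.comm a b
  have hcardIrr : Nat.card (IrrCharacter h.supp) = Nat.card h.supp := by
    rw [card_irr, card_classes_eq_card_iff.mpr hab]
  let ι : h.supp →* G := h.supp.subtype
  have hι : Function.Injective ι := h.supp.subtype_injective
  have hn : ι.range.Normal := by
    rw [Subgroup.range_subtype]
    exact h.supp_normal
  let φ : G →* Equiv.Perm (IrrCharacter h.supp) :=
    Cfsg.Agent.Lib.GlaubL.permIrr.comp (Cfsg.Agent.Lib.GlaubL.conjN ι hι hn)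
  letI : MulAction G (IrrCharacter h.supp) := MulAction.compHom _ φ
  have hsmul : ∀ (g : G) (ν : IrrCharacter h.supp), g • ν = φ g ν := fun g ν => rfl
  let triv : IrrCharacter h.supp := ⟨fun _ => 1, Cfsg.Agent.Lib.CharIso.isIrr_one⟩
  have htriv : ∀ g : G, φ g triv = triv := by
    intro g
    apply Subtype.ext
    funext n
    show ((Cfsg.Agent.Lib.GlaubL.permIrr _ triv : IrrCharacter h.supp) : h.supp → ℂ) n = 1
    rw [Cfsg.Agent.Lib.GlaubL.permIrr_apply]
  have hμ' : μ ≠ triv := fun h0 => hμ (congrArg Subtype.val h0)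
  have horbit : MulAction.orbit G μ = ((Finset.univ.erase triv : Finset (IrrCharacter h.supp)) : Set (IrrCharacter h.supp)) := by
    ext ν
    simp only [Finset.coe_erase, Finset.coe_univ, Set.mem_diff, Set.mem_univ, Set.mem_singleton_iff, true_and]
    constructor
    · rintro ⟨g, rfl⟩ h0
      have h1 : φ g μ = triv := h0
      apply hμ'
      have h2 := congrArg (φ g⁻¹) h1
      rw [htriv] at h2
      rw [← h2, ← Equiv.Perm.mul_apply, ← map_mul, inv_mul_cancel, map_one, Equiv.Perm.one_apply]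
    · intro hν
      have hν' : (ν : h.supp → ℂ) ≠ fun _ => 1 := fun h0 => hν (Subtype.ext h0)
      obtain ⟨g, hg⟩ := Cfsg.Agent.Lib.GlaubL.clifford_trans ι hι hn χ μ ν (h.inner_ne hNp μ hμ) (h.inner_ne hNp ν hν')
      exact ⟨g, hg⟩
  have hidx : (MulAction.stabilizer G μ).index = csize x := by
    rw [MulAction.index_stabilizer, horbit, Set.ncard_coe_finset, Finset.card_erase_of_mem (Finset.mem_univ _),
      Finset.card_univ, ← Nat.card_eq_fintype_card, hcardIrr, ← h.csize_add_one h.x_mem h.hx]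
    rfl
  have hcard : Nat.card (MulAction.stabilizer G μ) = Nat.card (Subgroup.centralizer ({x} : Set G)) := by
    have h1 := Subgroup.card_mul_index (MulAction.stabilizer G μ)
    have h2 := Subgroup.card_mul_index (Subgroup.centralizer ({x} : Set G))
    rw [hidx] at h1
    rw [index_cent] at h2
    exact Nat.eq_of_mul_eq_mul_right (csize_pos x) (h1.trans h2.symm)
  have hT : IsPGroup p (MulAction.stabilizer G μ) := by
    obtain ⟨k, hk⟩ := IsPGroup.iff_card.1 (h.cent_pgroup hNp h.x_mem h.hx)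
    exact IsPGroup.of_card (hcard.trans hk)
  refine ⟨hT.toSylow (by
    rw [hidx]
    exact h.not_dvd_csize hNp h.x_mem h.hx), fun g => ?_⟩
  show g ∈ MulAction.stabilizer G μ ↔ _
  rw [MulAction.mem_stabilizer_iff, hsmul]
  have hval : ∀ n : h.supp, ((φ g μ : IrrCharacter h.supp) : h.supp → ℂ) n =
      (μ : h.supp → ℂ) ((Cfsg.Agent.Lib.GlaubL.conjN ι hι hn g)⁻¹ n) := fun n =>
    Cfsg.Agent.Lib.GlaubL.permIrr_apply _ _ _
  have hspec : ∀ m : h.supp, ((Cfsg.Agent.Lib.GlaubL.conjN ι hι hn g m : h.supp) : G) = g * m * g⁻¹ := fun m =>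
    Cfsg.Agent.Lib.GlaubL.conjN_spec ι hι hn g m
  constructor
  · intro h1 n n' hnn
    have h2 : n' = Cfsg.Agent.Lib.GlaubL.conjN ι hι hn g n := Subtype.ext (by rw [hspec, hnn])
    have h3 := hval n'
    rw [h1, h2] at h3
    rw [h2, h3]
    simp
  · intro h1
    apply Subtype.ext
    funext n
    rw [hval]
    symm
    apply h1
    rw [← hspec]
    simp

end TC

end Cfsg.Agent.Lib.TwoClass
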