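import Cfsg.Agent.Lib.TwoClass

/-!
# Gagola groups: the quotient by the support
-/

set_option autoImplicit false
set_option linter.all false

namespace Cfsg.Agent.Lib.TwoClass2

open Cfsg Cfsg.Agent.Lib.TwoClass
open scoped commutatorElement

universe u

/-- The class of `y` is a union of cosets of `S` under the Camina condition. -/
theorem csize_quot_gen {G : Type u} [Group G] (S : Subgroup G) [S.Normal] [Finite G]
    (hc : ∀ z n : G, z ∉ S → n ∈ S → IsConj z (z * n)) {y : G} (hy : y ∉ S) :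
    csize y = Nat.card S * csize (y : G ⧸ S) := by
  classical
  have hr : ∀ w : {w : G ⧸ S // IsConj w (y : G ⧸ S)}, ∃ z : G, IsConj z y ∧ (z : G ⧸ S) = w.1 := by
    rintro ⟨w, hw⟩
    obtain ⟨c, hc'⟩ := isConj_iff.1 hw.symm
    obtain ⟨g, rfl⟩ := QuotientGroup.mk_surjective c
    refine ⟨g * y * g⁻¹, (isConj_iff.2 ⟨g, rfl⟩).symm, ?_⟩
    simpa using hc'
  choose r hr1 hr2 using hr
  have hnot : ∀ z : G, IsConj z y → z ∉ S := by
    intro z hz hzS
    obtain ⟨c, hc'⟩ := isConj_iff.1 hz
    rw [← hc'] at hy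
    exact hy ((‹S.Normal›).conj_mem z hzS c)
  let f : {w : G ⧸ S // IsConj w (y : G ⧸ S)} × S → {z : G // IsConj z y} := fun q =>
    ⟨r q.1 * q.2, ((hc _ _ (hnot _ (hr1 q.1)) q.2.2).symm).trans (hr1 q.1)⟩
  have hf : Function.Bijective f := by
    constructor
    · rintro ⟨w, n⟩ ⟨w', n'⟩ hq
      have h1 : r w * (n : G) = r w' * (n' : G) := congrArg Subtype.val hq
      have h2 : ((r w * (n : G) : G) : G ⧸ S) = ((r w' * (n' : G) : G) : G ⧸ S) := congrArg _ h1
      have hn : ((n : G) : G ⧸ S) = 1 := (QuotientGroup.eq_one_iff _).2 n.2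
      have hn' : ((n' : G) : G ⧸ S) = 1 := (QuotientGroup.eq_one_iff _).2 n'.2
      rw [QuotientGroup.mk_mul, QuotientGroup.mk_mul, hn, hn', mul_one, mul_one, hr2, hr2] at h2
      have hww : w = w' := Subtype.ext h2
      subst hww
      have : n = n' := Subtype.ext (mul_left_cancel h1)
      rw [this]
    · rintro ⟨z, hz⟩
      have hw : IsConj (z : G ⧸ S) (y : G ⧸ S) := by
        obtain ⟨c, hc'⟩ := isConj_iff.1 hz
        refine isConj_iff.2 ⟨(c : G ⧸ S), ?_⟩
        rw [← hc']
        rfl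
      have hmem : (r ⟨_, hw⟩)⁻¹ * z ∈ S := by
        rw [← QuotientGroup.eq, hr2]
      refine ⟨⟨⟨_, hw⟩, ⟨_, hmem⟩⟩, ?_⟩
      apply Subtype.ext
      show r _ * ((r _)⁻¹ * z) = z
      group
  unfold csize
  rw [← Nat.card_congr (Equiv.ofBijective f hf), Nat.card_prod, mul_comm]

/-- Centralizers have the same order in `G` and in `G / S` under the Camina condition. -/
theorem card_cent_gen {G : Type u} [Group G] (S : Subgroup G) [S.Normal] [Finite G]
    (hc : ∀ z n : G, z ∉ S → n ∈ S → IsConj z (z * n)) {y : G} (hy : y ∉ S) :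
    Nat.card (Subgroup.centralizer ({y} : Set G)) = Nat.card (Subgroup.centralizer ({(y : G ⧸ S)} : Set (G ⧸ S))) := by
  classical
  letI : Fintype G := Fintype.ofFinite G
  letI : Fintype (G ⧸ S) := Fintype.ofFinite _
  have h1 := csize_mul y
  have h2 := csize_mul (y : G ⧸ S)
  have h3 := Subgroup.card_eq_card_quotient_mul_card_subgroup S
  rw [csize_quot_gen S hc hy] at h1
  have h4 : 0 < Nat.card S * csize (y : G ⧸ S) :=
    Nat.mul_pos Nat.card_pos (csize_pos _)
  apply Nat.eq_of_mul_eq_mul_left h4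
  rw [h1, h3, ← h2]
  ring

variable {G : Type u} [Group G] [Fintype G] {χ : IrrCharacter G} {x : G}

theorem csize_dvd (h : TC χ x) {y : G} (hy : y ∉ h.supp) : Nat.card h.supp ∣ csize y := by
  haveI := h.supp_normal
  rw [csize_quot_gen h.supp (fun z n hz hn => h.camina hz hn) hy]
  exact dvd_mul_right _ _

variable {p : ℕ} [hpf : Fact p.Prime]

theorem center_le (h : TC χ x) (hNp : IsPGroup p h.supp) (P : Sylow p G) :
    (Subgroup.center (P : Subgroup G)).map (P : Subgroup G).subtype ≤ h.supp := by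
  rintro _ ⟨z, hz, rfl⟩
  by_contra hzS
  have hle : (P : Subgroup G) ≤ Subgroup.centralizer ({(z : G)} : Set G) := by
    intro q hq
    rw [Subgroup.mem_centralizer_singleton_iff]
    have := Subgroup.mem_center_iff.1 hz ⟨q, hq⟩
    exact congrArg Subtype.val this
  have h1 := Subgroup.index_dvd_of_le hle
  rw [index_cent] at h1
  have h2 := (h.dvd_card_supp hNp).trans ((csize_dvd h hzS).trans h1)
  exact P.not_dvd_index h2

theorem center_normal (P : Sylow p G) (hP : (P : Subgroup G).Normal) :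
    ((Subgroup.center (P : Subgroup G)).map (P : Subgroup G).subtype).Normal := by
  constructor
  rintro _ ⟨z, hz, rfl⟩ g
  have hm : g * (z : G) * g⁻¹ ∈ (P : Subgroup G) := hP.conj_mem _ z.2 g
  refine ⟨⟨_, hm⟩, ?_, rfl⟩
  show _ ∈ Subgroup.center (P : Subgroup G)
  rw [Subgroup.mem_center_iff]
  rintro ⟨q, hq⟩
  apply Subtype.ext
  show q * (g * (z : G) * g⁻¹) = (g * (z : G) * g⁻¹) * q
  have hq' : g⁻¹ * q * g ∈ (P : Subgroup G) := by
    have := hP.conj_mem q hq g⁻¹
    simpa using this
  have := congrArg Subtype.val (Subgroup.mem_center_iff.1 hz ⟨_, hq'⟩)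
  have h2 : g⁻¹ * q * g * (z : G) = (z : G) * (g⁻¹ * q * g) := this
  calc q * (g * (z : G) * g⁻¹) = g * (g⁻¹ * q * g * (z : G)) * g⁻¹ := by group
    _ = g * ((z : G) * (g⁻¹ * q * g)) * g⁻¹ := by rw [h2]
    _ = (g * (z : G) * g⁻¹) * q := by group

theorem supp_le_sylow (h : TC χ x) (hNp : IsPGroup p h.supp) (P : Sylow p G) (hP : (P : Subgroup G).Normal) :
    h.supp ≤ (P : Subgroup G) := by
  haveI := h.supp_normal
  exact hNp.le_sylow_of_normal P

theorem center_eq_of_normal (h : TC χ x) (hNp : IsPGroup p h.supp) (P : Sylow p G)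
    (hP : (P : Subgroup G).Normal) :
    (Subgroup.center (P : Subgroup G)).map (P : Subgroup G).subtype = h.supp := by
  apply le_antisymm (center_le h hNp P)
  apply h.supp_le (center_normal P hP)
  have h1 : h.supp ≤ (P : Subgroup G) := supp_le_sylow h hNp P hP
  haveI : Nontrivial (P : Subgroup G) := by
    refine ⟨⟨⟨x, h1 h.x_mem⟩, 1, fun hh => h.hx (congrArg Subtype.val hh)⟩⟩
  haveI : Nontrivial (Subgroup.center (P : Subgroup G)) := IsPGroup.center_nontrivial P.isPGroup'
  obtain ⟨a, ha⟩ := exists_ne (1 : Subgroup.center (P : Subgroup G))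
  intro hbot
  apply ha
  have h2 : ((a : (P : Subgroup G)) : G) ∈ (Subgroup.center (P : Subgroup G)).map (P : Subgroup G).subtype :=
    ⟨a, a.2, rfl⟩
  rw [hbot, Subgroup.mem_bot] at h2
  apply Subtype.ext
  apply Subtype.ext
  exact h2

theorem normal_of_center_eq (h : TC χ x) (hNp : IsPGroup p h.supp) (P : Sylow p G)
    (hZ : (Subgroup.center (P : Subgroup G)).map (P : Subgroup G).subtype = h.supp) :
    (P : Subgroup G).Normal := by
  haveI := h.supp_normal
  have hcent : ∀ a : G, a ∈ h.supp → a ≠ 1 → Subgroup.centralizer ({a} : Set G) = (P : Subgroup G) := by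
    intro a ha ha1
    have hg := h.cent_pgroup hNp ha ha1
    rw [← hZ] at ha
    obtain ⟨z, hz, rfl⟩ := ha
    apply P.is_maximal' hg
    intro q hq
    rw [Subgroup.mem_centralizer_singleton_iff]
    have := Subgroup.mem_center_iff.1 hz ⟨q, hq⟩
    exact congrArg Subtype.val this
  constructor
  intro q hq g
  have hq2 : q ∈ Subgroup.centralizer ({x} : Set G) := by
    rw [hcent x h.x_mem h.hx]; exact hq
  rw [Subgroup.mem_centralizer_singleton_iff] at hq2
  have hm : g * x * g⁻¹ ∈ h.supp := h.supp_normal.conj_mem x h.x_mem g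
  have hm1 : g * x * g⁻¹ ≠ 1 := by
    intro hh
    apply h.hx
    have : g⁻¹ * (g * x * g⁻¹) * g = g⁻¹ * 1 * g := by rw [hh]
    simpa [mul_assoc] using this
  rw [← hcent _ hm hm1, Subgroup.mem_centralizer_singleton_iff]
  calc g * q * g⁻¹ * (g * x * g⁻¹) = g * (q * x) * g⁻¹ := by group
    _ = g * (x * q) * g⁻¹ := by rw [hq2]
    _ = g * x * g⁻¹ * (g * q * g⁻¹) := by group

theorem exists_ucs (h : TC χ x) (hNp : IsPGroup p h.supp) (P : Sylow p G) :
    ∃ i : ℕ, Subgroup.upperCentralSeries (P : Subgroup G) i = h.supp.subgroupOf (P : Subgroup G) := by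
  classical
  haveI := h.supp_normal
  haveI : Group.IsNilpotent (P : Subgroup G) := P.isPGroup'.isNilpotent
  obtain ⟨m, hm⟩ := (Group.IsNilpotent.nilpotent (P : Subgroup G))
  by_cases hall : ∀ j, Subgroup.upperCentralSeries (P : Subgroup G) j ≤ h.supp.subgroupOf (P : Subgroup G)
  · refine ⟨m, ?_⟩
    apply le_antisymm (hall m)
    rw [hm]
    exact le_top
  · push_neg at hall
    have hj0 : Nat.find hall ≠ 0 := by
      intro h0
      have := Nat.find_spec hall
      rw [h0] at this
      apply this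
      rw [Subgroup.upperCentralSeries_zero]
      exact bot_le
    obtain ⟨i, hi⟩ := Nat.exists_eq_succ_of_ne_zero hj0
    have hi1 : Subgroup.upperCentralSeries (P : Subgroup G) i ≤ h.supp.subgroupOf (P : Subgroup G) := by
      have := Nat.find_min hall (m := i) (by omega)
      simpa using this
    have hi2 := Nat.find_spec hall
    rw [hi] at hi2
    obtain ⟨y, hy1, hy2⟩ := SetLike.not_le_iff_exists.1 hi2
    refine ⟨i, le_antisymm hi1 ?_⟩
    have hyS : (y : G) ∉ h.supp := fun hh => hy2 (Subgroup.mem_subgroupOf.2 hh)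
    have hyinv : y⁻¹ ∈ Subgroup.upperCentralSeries (P : Subgroup G) (Nat.succ i) := inv_mem hy1
    have hcomm : ∀ u : (P : Subgroup G), ⁅y⁻¹, u⁆ ∈ Subgroup.upperCentralSeries (P : Subgroup G) i :=
      fun u => Subgroup.mem_upperCentralSeries_succ_iff.1 hyinv u
    let φ : ↥(P : Subgroup G) → h.supp := fun u =>
      ⟨((⁅y⁻¹, u⁆ : (P : Subgroup G)) : G), Subgroup.mem_subgroupOf.1 (hi1 (hcomm u))⟩
    let A : Subgroup (P : Subgroup G) := (Subgroup.centralizer ({(y : G)} : Set G)).subgroupOf (P : Subgroup G)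
    let F : ((P : Subgroup G) ⧸ A) → h.supp := fun q => φ q.out
    have hFinj : Function.Injective F := by
      intro q q' hq
      have h1 : ((⁅y⁻¹, q.out⁆ : (P : Subgroup G)) : G) = ((⁅y⁻¹, q'.out⁆ : (P : Subgroup G)) : G) :=
        congrArg (Subtype.val : h.supp → G) hq
      have h1' : (y : G)⁻¹ * (q.out : G) * (y : G) * (q.out : G)⁻¹ = (y : G)⁻¹ * (q'.out : G) * (y : G) * (q'.out : G)⁻¹ := by
        simpa only [commutatorElement_def, Subgroup.coe_mul, Subgroup.coe_inv, inv_inv] using h1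
      have h2 : (q.out⁻¹ * q'.out) ∈ A := by
        rw [Subgroup.mem_subgroupOf, Subgroup.mem_centralizer_singleton_iff]
        show (q.out : G)⁻¹ * (q'.out : G) * (y : G) = (y : G) * ((q.out : G)⁻¹ * (q'.out : G))
        have h3 : (q.out : G) * (y : G) * (q.out : G)⁻¹ = (q'.out : G) * (y : G) * (q'.out : G)⁻¹ := by
          have : (y : G) * ((y : G)⁻¹ * (q.out : G) * (y : G) * (q.out : G)⁻¹) = (y : G) * ((y : G)⁻¹ * (q'.out : G) * (y : G) * (q'.out : G)⁻¹) := by
            rw [h1']
          simpa [mul_assoc] using this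
        have h4 : (q'.out : G) * (y : G) = (q.out : G) * (y : G) * (q.out : G)⁻¹ * (q'.out : G) := by
          rw [h3]; group
        calc (q.out : G)⁻¹ * (q'.out : G) * (y : G) = (q.out : G)⁻¹ * ((q'.out : G) * (y : G)) := by group
          _ = (q.out : G)⁻¹ * ((q.out : G) * (y : G) * (q.out : G)⁻¹ * (q'.out : G)) := by rw [h4]
          _ = (y : G) * ((q.out : G)⁻¹ * (q'.out : G)) := by group
      have h3 := (QuotientGroup.eq (s := A)).2 h2
      rwa [QuotientGroup.out_eq', QuotientGroup.out_eq'] at h3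
    have hcard : Nat.card h.supp ≤ Nat.card ((P : Subgroup G) ⧸ A) := by
      have h1 : Nat.card h.supp ∣ csize (y : G) := csize_dvd h hyS
      rw [← index_cent] at h1
      have h2 : (Subgroup.centralizer ({(y : G)} : Set G)).index ∣
          (Subgroup.centralizer ({(y : G)} : Set G) ⊓ (P : Subgroup G)).index :=
        Subgroup.index_dvd_of_le inf_le_left
      have h3 : (Subgroup.centralizer ({(y : G)} : Set G) ⊓ (P : Subgroup G)).index = A.index * (P : Subgroup G).index := by
        rw [← Subgroup.relIndex_mul_index (inf_le_right : Subgroup.centralizer ({(y : G)} : Set G) ⊓ (P : Subgroup G) ≤ (P : Subgroup G))]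
        rw [Subgroup.inf_relIndex_right]
        rfl
      have h4 : Nat.card h.supp ∣ A.index * (P : Subgroup G).index := by
        rw [← h3]; exact h1.trans h2
      obtain ⟨k, hk⟩ := IsPGroup.iff_card.1 hNp
      have h5 : Nat.Coprime (Nat.card h.supp) (P : Subgroup G).index := by
        rw [hk]
        exact Nat.Coprime.pow_left k ((Nat.Prime.coprime_iff_not_dvd hpf.out).2 P.not_dvd_index)
      have h6 := h5.dvd_of_dvd_mul_right h4
      exact Nat.le_of_dvd (Nat.pos_of_ne_zero Subgroup.FiniteIndex.index_ne_zero) h6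
    have hFbij := hFinj.bijective_of_nat_card_le hcard
    intro n hn
    obtain ⟨q, hq⟩ := hFbij.2 ⟨n, Subgroup.mem_subgroupOf.1 hn⟩
    have h2 : ⁅y⁻¹, q.out⁆ = n := Subtype.ext (congrArg (Subtype.val : h.supp → G) hq)
    rw [← h2]
    exact hcomm q.out

end Cfsg.Agent.Lib.TwoClass2
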