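import Cfsg.Agent.Lib.UnitaryHerm

/-! `SU` in dimension at least three over a field with a fixed element other than `0, 1`:
generation by unitary transvections, transitivity on isotropic vectors; transfer to `Cfsg.SU`. -/

set_option autoImplicit false
set_option linter.all false

open scoped MatrixGroups Matrix
open Cfsg Cfsg.Geo
open Cfsg.Agent.Lib.Transvection Cfsg.Agent.Lib.LinAlgAux Cfsg.Agent.Lib.UnitaryBase
  Cfsg.Agent.Lib.UnitaryGen
open Cfsg.Agent.Lib.SymplecticTv (IsIsom Ind)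

namespace Cfsg.Agent.Lib.Unitary3

variable {ι : Type} [Fintype ι] [DecidableEq ι] {F : Type*} [Field F] {σ : F ≃+* F}
  {f : (ι → F) → (ι → F) → F} (hf : IsUnitaryForm σ f)
include hf

/-- Normality of the transvection group in the isometry group. -/
theorem uG_conj {s t : GL ι F} (hs : IsIsom f s) (ht : t ∈ uG hf ⊤) : s * t * s⁻¹ ∈ uG hf ⊤ := by
  induction ht using Subgroup.closure_induction with
  | mem x hx =>
    obtain ⟨a, -, h1, c, hc, rfl⟩ := hx
    rw [conj_tt hf hs c h1]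
    exact full_uG Submodule.mem_top (by rw [hs, h1]) c hc
  | one => simpa using (uG hf ⊤).one_mem
  | mul x y _ _ hx hy =>
    have e : s * (x * y) * s⁻¹ = (s * x * s⁻¹) * (s * y * s⁻¹) := by group
    rw [e]
    exact (uG hf ⊤).mul_mem hx hy
  | inv x _ hx =>
    have e : s * x⁻¹ * s⁻¹ = (s * x * s⁻¹)⁻¹ := by group
    rw [e]
    exact (uG hf ⊤).inv_mem hx

theorem eich_zero_zero (p : ι → F) (hpp : f p p = 0) : eich hf p 0 0 = 1 := by
  apply gl_ext_mulVec
  intro x
  rw [eich_mulVec hf 0 hpp (f_zero_right hf p)]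
  simp [f_zero_right hf]

theorem eich_inv {p z : ι → F} {c : F} (hpp : f p p = 0) (hpz : f p z = 0)
    (hc : c + σ c + f z z = 0) : (eich hf p z c)⁻¹ = eich hf p (-z) (σ c) := by
  apply inv_eq_of_mul_eq_one_right
  rw [eich_mul hf _ _ hpp hpz (by rw [f_neg_right hf, hpz, neg_zero])]
  have e1 : c + σ c - f (-z) z = 0 := by
    rw [f_neg_left hf]
    linear_combination hc
  rw [e1, add_neg_cancel, eich_zero_zero hf p hpp]

theorem eich_smul_fix {μ : F} (hμ : σ μ = μ) {p z : ι → F} (c : F) (hpp : f p p = 0)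
    (hpz : f p z = 0) : eich hf (μ • p) z c = eich hf p (μ • z) (μ ^ 2 * c) := by
  apply gl_ext_mulVec
  intro x
  rw [eich_mulVec hf c (by simp only [hf.smul_left, f_smul_right hf, hpp, mul_zero])
    (by rw [hf.smul_left, hpz, mul_zero]),
    eich_mulVec hf _ hpp (by rw [f_smul_right hf, hpz, mul_zero])]
  simp only [f_smul_right hf, hμ]
  module

theorem eich_smul_self {p : ι → F} (t : F) (hpp : f p p = 0) :
    eich hf p (t • p) 0 = tt hf p (t - σ t) := by
  apply gl_ext_mulVec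
  intro x
  rw [eich_mulVec hf 0 hpp (by rw [f_smul_right hf, hpp, mul_zero]), tt_mulVec hf _ hpp,
    f_smul_right hf]
  module

section Fix

variable {μ : F} (hμ : σ μ = μ) (hμ0 : μ ≠ 0) (hμ1 : μ ≠ 1)
include hμ hμ0 hμ1

/-- The whole unipotent radical at an isotropic vector lies in the transvection group. -/
theorem eich_mem3 {p z : ι → F} (hp0 : p ≠ 0) (hpp : f p p = 0) (hpz : f p z = 0) {c : F}
    (hc : c + σ c + f z z = 0) : eich hf p z c ∈ uG hf ⊤ := by
  classical
  obtain ⟨q, -, hqp, hqq⟩ := (proj_top f).exists_partner hf Submodule.mem_top hp0 hpp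
  have hpq : f p q = 1 := by rw [hf.herm, hqp, map_one]
  obtain ⟨δ, hδ0, hδ⟩ := exists_tr0 hf
  have hFp : Full hf (uG hf ⊤) p := full_uG Submodule.mem_top hpp
  have hFq : Full hf (uG hf ⊤) q := full_uG Submodule.mem_top hqq
  have hc1 : δ * μ + σ (δ * μ) = 0 := tr0_mul_fix hf hδ hμ
  have hc10 : δ * μ ≠ 0 := mul_ne_zero hδ0 hμ0
  have hδn : -δ + σ (-δ) = 0 := tr0_neg hf hδ
  have hδn0 : -δ ≠ 0 := neg_ne_zero.2 hδ0
  have hwE : ∀ c : F, c ≠ 0 → c + σ c = 0 → wE hf p q c ∈ uG hf ⊤ := by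
    intro c hc0 hc
    exact (uG hf ⊤).mul_mem ((uG hf ⊤).mul_mem (hFp _ hc) (hFq _ (tr0_neg hf (tr0_inv hf hc))))
      (hFp _ hc)
  set h := wE hf p q (δ * μ) * wE hf p q (-δ) with hh
  have hmem : h ∈ uG hf ⊤ := (uG hf ⊤).mul_mem (hwE _ hc10 hc1) (hwE _ hδn0 hδn)
  have hhp : (h : Matrix ι ι F) *ᵥ p = μ • p := by
    rw [hh, gl_mul_mulVec, wE_p hf hδn0 hpp hqq hqp, Matrix.mulVec_smul, wE_q hf hc10 hpp hqq hqp,
      smul_smul]
    congr 1
    field_simp
  have hfix : ∀ y, f y p = 0 → f y q = 0 → (h : Matrix ι ι F) *ᵥ y = y := by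
    intro y h1 h2
    simp only [hh, wE, gl_mul_mulVec]
    simp only [tt_mulVec hf _ hpp, tt_mulVec hf _ hqq, hf.add_left, hf.smul_left, h1, h2, hpp, hqp,
      mul_zero, add_zero, zero_smul]
  have hi : IsIsom f h := uG_isIsom hmem
  -- the orthogonal part
  have key : ∀ z₀, f z₀ p = 0 → f z₀ q = 0 → QS hf (uG hf ⊤) p z₀ := by
    intro z₀ h1 h2
    have hμ10 : μ - 1 ≠ 0 := sub_ne_zero.2 hμ1
    set z' := (μ - 1)⁻¹ • z₀ with hz'
    have hz'p : f z' p = 0 := by rw [hz', hf.smul_left, h1, mul_zero]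
    have hz'q : f z' q = 0 := by rw [hz', hf.smul_left, h2, mul_zero]
    have hpz' : f p z' = 0 := f_comm_zero hf hz'p
    obtain ⟨c', hc'⟩ := exists_trace_eq hf (c := - f z' z') (by rw [map_neg, f_self_fix hf])
    have hc'' : c' + σ c' + f z' z' = 0 := by rw [hc']; ring
    set E := eich hf p z' c' with hE
    have hEi : IsIsom f E := eich_isIsom hf hpp hpz' hc''
    have e1 : h * E * h⁻¹ = eich hf p (μ • z') (μ ^ 2 * c') := by
      rw [hE, conj_eich hf hi c' hpp hpz', hhp, hfix z' hz'p hz'q, eich_smul_fix hf hμ c' hpp hpz']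
    have hmem2 : h * E * h⁻¹ * E⁻¹ ∈ uG hf ⊤ := by
      have e2 : h * E * h⁻¹ * E⁻¹ = h * (E * h⁻¹ * E⁻¹) := by group
      rw [e2]
      exact (uG hf ⊤).mul_mem hmem (uG_conj hf hEi ((uG hf ⊤).inv_mem hmem))
    rw [e1, hE, eich_inv hf hpp hpz' hc'', eich_mul hf _ _ hpp
      (by rw [f_smul_right hf, hpz', mul_zero]) (by rw [f_neg_right hf, hpz', neg_zero])] at hmem2
    have hz₀ : μ • z' + -z' = z₀ := by
      have : μ • z' + -z' = (μ - 1) • z' := by module
      rw [this, hz', smul_smul, mul_inv_cancel₀ hμ10, one_smul]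
    rw [hz₀] at hmem2
    refine ⟨_, ?_, hmem2⟩
    rw [← hz₀]
    have hs : σ (f z' z') = f z' z' := f_self_fix hf z'
    simp only [hf.add_left, f_add_right hf, hf.smul_left, f_smul_right hf, f_neg_left hf,
      f_neg_right hf, map_add, map_sub, map_mul, map_neg, map_pow, hμ, hs, hf.involutive]
    linear_combination (μ ^ 2 + 1) * hc''
  set t := f z q with ht
  have h1 : f (z - t • p) p = 0 := by
    rw [f_sub_left hf, hf.smul_left, hpp, f_comm_zero hf hpz]
    ring
  have h2 : f (z - t • p) q = 0 := by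
    rw [f_sub_left hf, hf.smul_left, hpq]
    rw [ht]
    ring
  have h3 : QS hf (uG hf ⊤) p (t • p) := by
    refine ⟨0, by simp [hf.smul_left, f_smul_right hf, hpp], ?_⟩
    rw [eich_smul_self hf t hpp]
    refine hFp _ ?_
    rw [map_sub, hf.involutive]
    ring
  have h4 := (key _ h1 h2).add h3 hpp (f_comm_zero hf h1) (by rw [f_smul_right hf, hpp, mul_zero])
  rw [sub_add_cancel] at h4
  exact h4.mem hFp hpp hpz hc

/-- Two isotropic vectors having the same pairing with `w` are conjugate, fixing `w`. -/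
theorem move_common3 {w e d : ι → F} (hw0 : w ≠ 0) (hww : f w w = 0) (hee : f e e = 0)
    (hdd : f d d = 0) (hew : f e w = 1) (hdw : f d w = 1) :
    ∃ s ∈ uG hf ⊤, (s : Matrix ι ι F) *ᵥ e = d ∧ (s : Matrix ι ι F) *ᵥ w = w := by
  obtain ⟨c, hc⟩ := exists_trace_eq hf (c := - f (d - e) (d - e)) (by rw [map_neg, f_self_fix hf])
  have hc' : c + σ c + f (d - e) (d - e) = 0 := by rw [hc]; ring
  have hz : f w (d - e) = 0 := by
    rw [f_sub_right hf, hf.herm w d, hf.herm w e, hew, hdw, sub_self]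
  obtain ⟨s, hs, -, h1, h2⟩ := exists_move_of_eich hww hee hdd hew hdw
    (full_uG Submodule.mem_top hww) hc' (eich_mem3 hf hμ hμ0 hμ1 hw0 hww hz hc')
  exact ⟨s, hs, h1, h2⟩

end Fix

/-- A non-isotropic vector orthogonal to a hyperbolic line. -/
theorem exists_perp_noniso (hcard : 3 ≤ Fintype.card ι) {e d : ι → F} (hee : f e e = 0)
    (hdd : f d d = 0) (hne : f e d ≠ 0) : ∃ y, f y e = 0 ∧ f y d = 0 ∧ f y y ≠ 0 := by
  classical
  have hne' : f d e ≠ 0 := f_comm_ne hf hne
  have hfinT : Module.finrank F (⊤ : Submodule F (ι → F)) = Fintype.card ι := by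
    rw [finrank_top, Module.finrank_fintype_fun_eq_card]
  have h1 := Cfsg.Agent.Lib.SymplecticTv.finrank_inf_ker_add_one ⊤ (formL hf e)
  have h2 := Cfsg.Agent.Lib.SymplecticTv.finrank_inf_ker_add_one
    (⊤ ⊓ LinearMap.ker (formL hf e)) (formL hf d)
  rw [hfinT] at h1
  have hpos : (⊤ ⊓ LinearMap.ker (formL hf e) ⊓ LinearMap.ker (formL hf d)) ≠ ⊥ := by
    intro h
    rw [h] at h2
    simp only [finrank_bot] at h2
    omega
  obtain ⟨y₀, hy₀, hy₀0⟩ := Submodule.exists_mem_ne_zero_of_ne_bot hpos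
  have hy₀e : f y₀ e = 0 := hy₀.1.2
  have hy₀d : f y₀ d = 0 := hy₀.2
  obtain ⟨x₀, hx₀⟩ := exists_right_ne hf hy₀0
  set x' := x₀ - (f x₀ d / f e d) • e - (f x₀ e / f d e) • d with hx'
  have hx'e : f x' e = 0 := by
    simp only [hx', f_sub_left hf, hf.smul_left, hee, mul_zero, sub_zero]
    field_simp
    ring
  have hx'd : f x' d = 0 := by
    simp only [hx', f_sub_left hf, hf.smul_left, hdd, mul_zero, sub_zero]
    field_simp
    ring
  have hb : f y₀ x' = f y₀ x₀ := by
    simp only [hx', f_sub_right hf, f_smul_right hf, hy₀e, hy₀d, mul_zero, sub_zero]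
  by_cases h3 : f y₀ y₀ = 0
  swap
  · exact ⟨y₀, hy₀e, hy₀d, h3⟩
  by_cases h4 : f x' x' = 0
  swap
  · exact ⟨x', hx'e, hx'd, h4⟩
  obtain ⟨κ, hκ⟩ := exists_trace_ne hf
  set b := f y₀ x' with hbdef
  have hb0 : b ≠ 0 := by rw [hb]; exact hx₀
  have hsb : σ b ≠ 0 := by simpa using hb0
  have hxy : f x' y₀ = σ b := by rw [hbdef, sigma_f hf]
  refine ⟨y₀ + (κ / σ b) • x', ?_, ?_, ?_⟩
  · rw [hf.add_left, hf.smul_left, hy₀e, hx'e]
    ring
  · rw [hf.add_left, hf.smul_left, hy₀d, hx'd]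
    ring
  · simp only [hf.add_left, f_add_right hf, hf.smul_left, f_smul_right hf, h3, h4, ← hbdef, hxy]
    rw [map_div₀, hf.involutive]
    have : κ / σ b * σ b = κ := by field_simp
    have h5 : σ κ / b * b = σ κ := by field_simp
    intro h6
    apply hκ
    rw [mul_zero, mul_zero, zero_add, add_zero, this, h5] at h6
    linear_combination h6

/-- A common isotropic partner for a hyperbolic line. -/
theorem exists_common3 (hN : ∀ c, σ c = c → ∃ l, l * σ l = c) (hcard : 3 ≤ Fintype.card ι)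
    {e d : ι → F} (hee : f e e = 0) (hdd : f d d = 0) (hne : f e d ≠ 0) :
    ∃ w, w ≠ 0 ∧ f w w = 0 ∧ f e w = 1 ∧ f d w = 1 := by
  obtain ⟨y, hye, hyd, hyy⟩ := exists_perp_noniso hf hcard hee hdd hne
  set a := f e d with ha
  have hsa : f d e = σ a := by rw [ha, sigma_f hf]
  have hsa0 : σ a ≠ 0 := by simpa using hne
  set x := a⁻¹ • e + (σ a)⁻¹ • d with hx
  have hxe : f e x = 1 := by
    simp only [hx, f_add_right hf, f_smul_right hf, hee, ← ha, map_inv₀, hf.involutive, mul_zero,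
      zero_add]
    field_simp
  have hxd : f d x = 1 := by
    simp only [hx, f_add_right hf, f_smul_right hf, hdd, hsa, map_inv₀, mul_zero, add_zero]
    field_simp
  have hyx : f y x = 0 := by
    simp only [hx, f_add_right hf, f_smul_right hf, hye, hyd, mul_zero, add_zero]
  have hxy : f x y = 0 := f_comm_zero hf hyx
  have hfix : σ (- f x x / f y y) = - f x x / f y y := by
    rw [map_div₀, map_neg, f_self_fix hf, f_self_fix hf]
  obtain ⟨t, ht⟩ := hN _ hfix
  refine ⟨x + t • y, ?_, ?_, ?_, ?_⟩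
  · intro h0
    have : f e (x + t • y) = 0 := by rw [h0, f_zero_right hf]
    rw [f_add_right hf, f_smul_right hf, hxe, f_comm_zero hf hye] at this
    simp at this
  · simp only [hf.add_left, f_add_right hf, hf.smul_left, f_smul_right hf, hxy, hyx]
    have : t * σ t * f y y = - f x x := by
      rw [ht]
      field_simp
    linear_combination this
  · rw [f_add_right hf, f_smul_right hf, hxe, f_comm_zero hf hye]
    ring
  · rw [f_add_right hf, f_smul_right hf, hxd, f_comm_zero hf hyd]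
    ring

section Fix2

variable {μ : F} (hμ : σ μ = μ) (hμ0 : μ ≠ 0) (hμ1 : μ ≠ 1)
  (hN : ∀ c, σ c = c → ∃ l, l * σ l = c) (hcard : 3 ≤ Fintype.card ι)
include hμ hμ0 hμ1 hN hcard

theorem move_step3 [Finite F] {e d : ι → F} (hee : f e e = 0) (hdd : f d d = 0) (hne : f e d ≠ 0) :
    ∃ s ∈ uG hf ⊤, (s : Matrix ι ι F) *ᵥ e = d := by
  obtain ⟨w, hw0, hww, h1, h2⟩ := exists_common3 hf hN hcard hee hdd hne
  obtain ⟨s, hs, h3, -⟩ := move_common3 hf hμ hμ0 hμ1 hw0 hww hee hdd h1 h2
  exact ⟨s, hs, h3⟩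

/-- Transitivity on non-zero isotropic vectors. -/
theorem move_any3 [Finite F] {e d : ι → F} (he0 : e ≠ 0) (hd0 : d ≠ 0) (hee : f e e = 0)
    (hdd : f d d = 0) : ∃ s ∈ uG hf ⊤, (s : Matrix ι ι F) *ᵥ e = d := by
  classical
  by_cases hne : f e d ≠ 0
  · exact move_step3 hf hμ hμ0 hμ1 hN hcard hee hdd hne
  push Not at hne
  by_cases hind : Ind e d
  · obtain ⟨w, -, hw0, hww, h1, h2⟩ := exists_common hf (proj_top f) Submodule.mem_top
      Submodule.mem_top hee hind hne
    obtain ⟨s, hs, h3, -⟩ := move_common3 hf hμ hμ0 hμ1 hw0 hww hee hdd h1 h2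
    exact ⟨s, hs, h3⟩
  -- proportional vectors
  obtain ⟨l, hl⟩ : ∃ l : F, d = l • e := by
    unfold Ind at hind
    push Not at hind
    obtain ⟨s, t, hst, hne⟩ := hind
    have ht : t ≠ 0 := by
      rintro rfl
      rw [zero_smul, add_zero] at hst
      have : s = 0 := (smul_eq_zero.1 hst).resolve_right he0
      exact hne this rfl
    refine ⟨-(t⁻¹ * s), ?_⟩
    have h3 : t • d = (-s) • e := by
      rw [neg_smul]
      exact eq_neg_of_add_eq_zero_right hst
    have h4 := congrArg (fun z => t⁻¹ • z) h3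
    simp only [smul_smul, inv_mul_cancel₀ ht, one_smul] at h4
    rw [h4]
    congr 1
    ring
  have hl0 : l ≠ 0 := by
    rintro rfl
    apply hd0
    rw [hl, zero_smul]
  obtain ⟨d', -, hd'd, hd'd'⟩ := (proj_top f).exists_partner hf Submodule.mem_top hd0 hdd
  have h1 : f e d' ≠ 0 := by
    intro h
    have h2 : f d d' = 1 := by rw [hf.herm, hd'd, map_one]
    rw [hl, hf.smul_left, h, mul_zero] at h2
    exact zero_ne_one h2
  have h2 : f d' d ≠ 0 := by rw [hd'd]; exact one_ne_zero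
  obtain ⟨s₁, hs₁, h3⟩ := move_step3 hf hμ hμ0 hμ1 hN hcard hee hd'd' h1
  obtain ⟨s₂, hs₂, h4⟩ := move_step3 hf hμ hμ0 hμ1 hN hcard hd'd' hdd h2
  exact ⟨s₂ * s₁, (uG hf ⊤).mul_mem hs₂ hs₁, by rw [gl_mul_mulVec, h3, h4]⟩

/-- Transitivity on hyperbolic pairs. -/
theorem move_pair3 [Finite F] {e e' d d' : ι → F} (hee : f e e = 0) (he'e' : f e' e' = 0)
    (hdd : f d d = 0) (hd'd' : f d' d' = 0) (he'e : f e' e = 1) (hd'd : f d' d = 1) :
    ∃ s ∈ uG hf ⊤, (s : Matrix ι ι F) *ᵥ e = d ∧ (s : Matrix ι ι F) *ᵥ e' = d' := by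
  have he0 : e ≠ 0 := by
    rintro rfl
    rw [f_zero_right hf] at he'e
    exact zero_ne_one he'e
  have hd0 : d ≠ 0 := by
    rintro rfl
    rw [f_zero_right hf] at hd'd
    exact zero_ne_one hd'd
  obtain ⟨s₁, hs₁, h1⟩ := move_any3 hf hμ hμ0 hμ1 hN hcard he0 hd0 hee hdd
  have hi₁ : IsIsom f s₁ := uG_isIsom hs₁
  have h2 : f ((s₁ : Matrix ι ι F) *ᵥ e') d = 1 := by rw [← h1, hi₁, he'e]
  have h3 : f ((s₁ : Matrix ι ι F) *ᵥ e') ((s₁ : Matrix ι ι F) *ᵥ e') = 0 := by rw [hi₁, he'e']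
  obtain ⟨s₂, hs₂, h4, h5⟩ := move_common3 hf hμ hμ0 hμ1 hd0 hdd h3 hd'd' h2 hd'd
  exact ⟨s₂ * s₁, (uG hf ⊤).mul_mem hs₂ hs₁, by rw [gl_mul_mulVec, h1, h5],
    by rw [gl_mul_mulVec, h4]⟩

/-- `SU` is generated by unitary transvections in dimension at least three when the fixed field has
more than two elements. -/
theorem isom_mem_uG3 [Finite F] {g : GL ι F} (hg : IsIsom f g) (hdet : g ∈ specialLinear ι F) :
    g ∈ uG hf ⊤ := by
  classical
  have hfinT : Module.finrank F (⊤ : Submodule F (ι → F)) = Fintype.card ι := by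
    rw [finrank_top, Module.finrank_fintype_fun_eq_card]
  rcases Nat.even_or_odd' (Fintype.card ι) with ⟨d, hd | hd⟩
  · refine mem_uG_of_even hf hN d ⊤ (by rw [hfinT, hd]) (proj_top f) g hg hdet ?_
    intro y hy
    have : y = 0 := by
      by_contra hne
      obtain ⟨x, hx⟩ := exists_right_ne hf hne
      exact hx (hy x Submodule.mem_top)
    rw [this, Matrix.mulVec_zero]
  · -- odd dimension
    obtain ⟨p, -, hp0, hpp⟩ := exists_iso_of_finrank hf hN (Y := ⊤) (by rw [hfinT]; omega)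
    obtain ⟨q, -, hqp, hqq⟩ := (proj_top f).exists_partner hf Submodule.mem_top hp0 hpp
    have hpq : f p q = 1 := by rw [hf.herm, hqp, map_one]
    obtain ⟨κ, hκ⟩ := exists_trace_ne hf
    set w := p + κ • q with hw
    have hww : f w w = κ + σ κ := by
      simp only [hw, hf.add_left, f_add_right hf, hf.smul_left, f_smul_right hf, hpp, hqq, hpq, hqp]
      ring
    have hww0 : f w w ≠ 0 := by rw [hww]; exact hκ
    obtain ⟨s, hs, hs1, hs2⟩ := move_pair3 hf hμ hμ0 hμ1 hN hcard
      (e := (g : Matrix ι ι F) *ᵥ p) (e' := (g : Matrix ι ι F) *ᵥ q) (d := p) (d' := q)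
      (by rw [hg, hpp]) (by rw [hg, hqq]) hpp hqq (by rw [hg, hqp]) hqp
    set h := s * g with hh
    have hi : IsIsom f h := (uG_isIsom hs).mul hg
    have hdet' : h ∈ specialLinear ι F := (specialLinear ι F).mul_mem (uG_det hs) hdet
    have hhw : (h : Matrix ι ι F) *ᵥ w = w := by
      rw [hh, hw, Matrix.mulVec_add, Matrix.mulVec_smul, gl_mul_mulVec, gl_mul_mulVec, hs1, hs2]
    set X := LinearMap.ker (formL hf w) with hX
    have hProj : Proj f X := by
      intro x
      refine ⟨x - (f x w / f w w) • w, ?_, ?_⟩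
      · change f _ w = 0
        rw [f_sub_left hf, hf.smul_left]
        field_simp
        ring
      · intro y hy
        have hyw : f y w = 0 := hy
        rw [f_sub_right hf, f_smul_right hf, hyw]
        ring
    have hfinX : Module.finrank F X = 2 * d := by
      have h1 := Cfsg.Agent.Lib.SymplecticTv.finrank_inf_ker_add_one ⊤ (formL hf w)
      rw [top_inf_eq, hfinT] at h1
      have h2 : Module.finrank F X < Module.finrank F (⊤ : Submodule F (ι → F)) := by
        apply Submodule.finrank_lt_finrank_of_lt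
        refine lt_of_le_of_ne le_top ?_
        intro he
        have : w ∈ X := by rw [he]; exact Submodule.mem_top
        exact hww0 this
      rw [hfinT] at h2
      change _ ≤ Module.finrank F X + 1 at h1
      omega
    have hfix : ∀ y, (∀ a ∈ X, f y a = 0) → (h : Matrix ι ι F) *ᵥ y = y := by
      intro y hy
      have h1 : y - (f y w / f w w) • w = 0 := by
        by_contra hne
        obtain ⟨x, hx⟩ := exists_right_ne hf hne
        apply hx
        have e : x = (x - (f x w / f w w) • w) + (f x w / f w w) • w := by abel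
        have h2 : x - (f x w / f w w) • w ∈ X := by
          change f _ w = 0
          rw [f_sub_left hf, hf.smul_left]
          field_simp
          ring
        rw [e, f_add_right hf, f_smul_right hf, f_sub_left hf, f_sub_left hf, hf.smul_left,
          hf.smul_left, hy _ h2]
        have h3 : f w (x - (f x w / f w w) • w) = 0 := f_comm_zero hf h2
        rw [h3]
        have h4 : f y w / f w w * f w w = f y w := by field_simp
        rw [h4]
        ring
      have e : y = (f y w / f w w) • w := sub_eq_zero.1 h1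
      rw [e, Matrix.mulVec_smul, hhw]
    have hmem := mem_uG_of_even hf hN d X hfinX hProj h hi hdet' hfix
    have h3 : h ∈ uG hf ⊤ := uG_mono le_top hmem
    have h4 : g = s⁻¹ * h := by rw [hh]; group
    rw [h4]
    exact (uG hf ⊤).mul_mem ((uG hf ⊤).inv_mem hs) h3

/-- Every unitary transvection is a commutator in `SU` (fixed-element case). -/
theorem tt_commutator3 [Finite F] {v : ι → F} {c : F} (hv0 : v ≠ 0) (hvv : f v v = 0)
    (hc : c + σ c = 0) : ∃ s t : GL ι F, IsIsom f s ∧ s ∈ specialLinear ι F ∧ IsIsom f t ∧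
      t ∈ specialLinear ι F ∧ s * t * s⁻¹ * t⁻¹ = tt hf v c := by
  obtain ⟨l, hl⟩ := hN μ hμ
  have hl0 : l ≠ 0 := by
    rintro rfl
    apply hμ0
    rw [← hl, zero_mul]
  have hd0 : l • v ≠ 0 := smul_ne_zero hl0 hv0
  have hdd : f (l • v) (l • v) = 0 := by
    simp only [hf.smul_left, f_smul_right hf, hvv, mul_zero]
  obtain ⟨s, hs, hsv⟩ := move_any3 hf hμ hμ0 hμ1 hN hcard hv0 hd0 hvv hdd
  have hμ10 : μ - 1 ≠ 0 := sub_ne_zero.2 hμ1
  set c' := c / (μ - 1) with hc'
  have hc'1 : c' + σ c' = 0 := by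
    rw [hc', map_div₀, map_sub, hμ, map_one]
    field_simp
    simpa using hc
  refine ⟨s, tt hf v c', uG_isIsom hs, uG_det hs, tt_isIsom hf hvv hc'1,
    tt_mem_specialLinear hf _ _, ?_⟩
  rw [conj_tt hf (uG_isIsom hs) c' hvv, hsv, tt_smul hf l c' hvv, hl, tt_inv_eq c' hvv]
  apply gl_ext_mulVec
  intro x
  rw [gl_mul_mulVec, tt_mulVec hf _ hvv, tt_mulVec hf _ hvv, tt_mulVec hf _ hvv]
  simp only [hf.add_left, hf.smul_left, hvv, mul_zero, add_zero]
  have : c' * μ + -c' = c := by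
    rw [hc']
    field_simp
    ring
  rw [← this]
  module

end Fix2

/-- In dimension at least four, every unitary transvection is a commutator in `SU`. -/
theorem tt_commutator4 [Finite F] (hN : ∀ c, σ c = c → ∃ l, l * σ l = c)
    (hcard : 4 ≤ Fintype.card ι) {v : ι → F} {c : F} (hv0 : v ≠ 0) (hvv : f v v = 0)
    (hc : c + σ c = 0) : ∃ s t : GL ι F, IsIsom f s ∧ s ∈ specialLinear ι F ∧ IsIsom f t ∧
      t ∈ specialLinear ι F ∧ s * t * s⁻¹ * t⁻¹ = tt hf v c := by
  classical
  have hfinT : Module.finrank F (⊤ : Submodule F (ι → F)) = Fintype.card ι := by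
    rw [finrank_top, Module.finrank_fintype_fun_eq_card]
  obtain ⟨b, -, hbv, hbb⟩ := (proj_top f).exists_partner hf Submodule.mem_top hv0 hvv
  set Y := (⊤ : Submodule F (ι → F)) ⊓ LinearMap.ker (formL hf v) ⊓ LinearMap.ker (formL hf b) with hY
  have hYP : Proj f Y := (proj_top f).perp_pair hf Submodule.mem_top Submodule.mem_top hvv hbb hbv
  have hYdim : 2 ≤ Module.finrank F Y := by
    have h1 := Cfsg.Agent.Lib.SymplecticTv.finrank_inf_ker_add_one ⊤ (formL hf v)
    have h2 := Cfsg.Agent.Lib.SymplecticTv.finrank_inf_ker_add_one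
      (⊤ ⊓ LinearMap.ker (formL hf v)) (formL hf b)
    rw [hfinT] at h1
    change _ ≤ Module.finrank F Y + 1 at h2
    omega
  obtain ⟨d, hdY, hd0, hdd⟩ := exists_iso_of_finrank hf hN hYdim
  obtain ⟨e, heY, hed, hee⟩ := hYP.exists_partner hf hdY hd0 hdd
  have hdv : f d v = 0 := hdY.1.2
  have hvd : f v d = 0 := f_comm_zero hf hdv
  have hev : f e v = 0 := heY.1.2
  have hve : f v e = 0 := f_comm_zero hf hev
  obtain ⟨δ, hδ0, hδ⟩ := exists_tr0 hf
  have hsδ : σ δ = - δ := by linear_combination hδ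
  have hfixc : σ (c / δ) = c / δ := by
    rw [map_div₀, hsδ, show σ c = - c by linear_combination hc]
    field_simp
  obtain ⟨τ₀, hτ₀⟩ := exists_trace_eq hf hfixc
  set τ := δ * τ₀ with hτ
  have hτc : τ - σ τ = c := by
    rw [hτ, map_mul, hsδ]
    have : δ * (τ₀ + σ τ₀) = c := by
      rw [hτ₀]
      field_simp
    linear_combination this
  have hdz : f d (τ • v) = 0 := by rw [f_smul_right hf, hdv, mul_zero]
  have hzz : (0 : F) + σ 0 + f (τ • v) (τ • v) = 0 := by
    simp only [hf.smul_left, f_smul_right hf, hvv, mul_zero, map_zero, add_zero]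
  have hee' : (0 : F) + σ 0 + f e e = 0 := by simp [hee]
  set E := eich hf d (τ • v) 0 with hE
  set G := eich hf v e 0 with hG
  have hEi : IsIsom f E := eich_isIsom hf hdd hdz hzz
  have hGi : IsIsom f G := eich_isIsom hf hvv hve hee'
  have hEv : (E : Matrix ι ι F) *ᵥ v = v := by
    rw [hE, eich_mulVec hf 0 hdd hdz, hvd, f_smul_right hf, hvv]
    simp
  have hEe : (E : Matrix ι ι F) *ᵥ e = e + τ • v := by
    rw [hE, eich_mulVec hf 0 hdd hdz, hed, f_smul_right hf, hev]
    simp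
  have e1 : E * G * E⁻¹ = G * tt hf v c := by
    have e2 : eich hf v (e + τ • v) 0 = eich hf v e c := by
      apply gl_ext_mulVec
      intro x
      rw [eich_mulVec hf 0 hvv (by rw [f_add_right hf, f_smul_right hf, hve, hvv]; simp),
        eich_mulVec hf c hvv hve, ← hτc, f_add_right hf, f_smul_right hf]
      module
    have e3 := eich_eq_mul_tt hf c 0 hvv hve
    rw [sub_zero] at e3
    rw [hG, conj_eich hf hEi 0 hvv hve, hEv, hEe, e2, e3]
  refine ⟨G⁻¹, E, hGi.inv, (specialLinear ι F).inv_mem (eich_mem_specialLinear hf _ _ _), hEi,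
    eich_mem_specialLinear hf _ _ _, ?_⟩
  have e4 : G⁻¹ * E * G⁻¹⁻¹ * E⁻¹ = G⁻¹ * (E * G * E⁻¹) := by group
  rw [e4, e1]
  group

omit hf

section Transfer

variable {n q : ℕ} {K : Type*} [Field K]

theorem unitaryTransvection_mulVec (v : Fin n → K) (c : K) (x : Fin n → K) :
    (unitaryTransvection n q v c) *ᵥ x = x + (c * hermForm n K q x v) • v := by
  rw [unitaryTransvection, Matrix.add_mulVec, Matrix.one_mulVec, Matrix.smul_mulVec,
    Matrix.vecMulVec_mulVec]
  ext i
  simp only [hermForm, Pi.add_apply, Pi.smul_apply, smul_eq_mul, dotProduct, op_smul_eq_mul]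
  have : ∑ j, v j ^ q * x j = ∑ j, x j * v j ^ q := Finset.sum_congr rfl fun j _ => mul_comm _ _
  rw [this]
  ring

variable (n q K) in
/-- The natural injection of `SU` into the general linear group. -/
def suHom : SU n K q →* GL (Fin n) K :=
  (Matrix.SpecialLinearGroup.toGL).comp (SU n K q).subtype

theorem suHom_coe (A : SU n K q) :
    ((suHom n q K A : GL (Fin n) K) : Matrix (Fin n) (Fin n) K) =
      ((A : Matrix.SpecialLinearGroup (Fin n) K) : Matrix (Fin n) (Fin n) K) := rfl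

theorem suHom_injective : Function.Injective (suHom n q K) := by
  intro A B h
  apply Subtype.ext
  apply Subtype.ext
  have := congrArg (fun g : GL (Fin n) K => (g : Matrix (Fin n) (Fin n) K)) h
  simpa [suHom_coe] using this

theorem suHom_isIsom (A : SU n K q) : IsIsom (hermForm n K q) (suHom n q K A) := fun u v => A.2 u v

theorem suHom_det (A : SU n K q) : suHom n q K A ∈ specialLinear (Fin n) K := by
  rw [mem_specialLinear_iff, suHom_coe]
  exact A.1.2

theorem exists_suHom_eq {g : GL (Fin n) K} (h1 : IsIsom (hermForm n K q) g)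
    (h2 : g ∈ specialLinear (Fin n) K) : ∃ A : SU n K q, suHom n q K A = g := by
  refine ⟨⟨⟨g, (mem_specialLinear_iff g).1 h2⟩, fun u v => h1 u v⟩, ?_⟩
  apply Units.ext
  rfl

theorem tt_coe {σ : K ≃+* K} (hf : IsUnitaryForm σ (hermForm n K q)) {v : Fin n → K} (c : K)
    (hv : hermForm n K q v v = 0) :
    ((tt hf v c : GL (Fin n) K) : Matrix (Fin n) (Fin n) K) = unitaryTransvection n q v c := by
  apply matrix_ext_mulVec
  intro x
  rw [tt_mulVec hf c hv, unitaryTransvection_mulVec]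

/-- An element of the fixed field other than `0, 1`. -/
theorem exists_fix_ne [Fintype K] (hF : Fintype.card K = q ^ 2) (hq : 3 ≤ q) {σ : K ≃+* K}
    (hσ : ∀ x, σ x = x ^ q) : ∃ μ : K, σ μ = μ ∧ μ ≠ 0 ∧ μ ≠ 1 := by
  classical
  obtain ⟨g, hg⟩ := IsCyclic.exists_generator (α := Kˣ)
  have hcardU : Nat.card Kˣ = q ^ 2 - 1 := by
    rw [Nat.card_eq_fintype_card, Fintype.card_units, hF]
  have hord : orderOf g = q ^ 2 - 1 := by
    rw [← hcardU, ← Nat.card_zpowers, (Subgroup.eq_top_iff' _).2 hg,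
      Nat.card_congr Subgroup.topEquiv.toEquiv]
  have hpow : g ^ (q ^ 2 - 1) = 1 := by
    rw [← hord]
    exact pow_orderOf_eq_one g
  refine ⟨((g ^ (q + 1) : Kˣ) : K), ?_, Units.ne_zero _, ?_⟩
  · rw [hσ, ← Units.val_pow_eq_pow_val, ← pow_mul]
    congr 1
    have e : (q + 1) * q = (q ^ 2 - 1) + (q + 1) := by
      have : 1 ≤ q ^ 2 := Nat.one_le_pow _ _ (by omega)
      have e2 : (q + 1) * q = q ^ 2 + q := by ring
      omega
    rw [e, pow_add, hpow, one_mul]
  · intro h
    have h1 : g ^ (q + 1) = 1 := Units.ext (by simpa using h)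
    have h2 : orderOf g ∣ q + 1 := orderOf_dvd_of_pow_eq_one h1
    rw [hord] at h2
    have h3 := Nat.le_of_dvd (by omega) h2
    have h4 : 3 * q ≤ q ^ 2 := by nlinarith
    omega

end Transfer

end Cfsg.Agent.Lib.Unitary3
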