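import Mathlib
import Cfsg.Agent.S0034
import Cfsg.Agent.Lib.FrobThm
import Cfsg.Agent.Lib.GrunFusion
import Cfsg.Agent.Lib.PIrreducible

/-! A weakly closed `p`-element acting trivially on the `p'`-subgroups it normalizes is central. -/

set_option autoImplicit false
set_option linter.unusedVariables false
set_option linter.style.haveILetI false
set_option linter.unusedSectionVars false

namespace Cfsg.Agent.Lib.WeakCentral

open Cfsg Subgroup
open scoped Pointwise

universe u

theorem aux (p : ℕ) [hp : Fact p.Prime] : ∀ (n : ℕ) (G : Type u) [Group G] [Finite G] (x : G),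
    Nat.card G ≤ n → (∃ k : ℕ, x ^ (p ^ k) = 1) →
    (∀ T : Sylow p G, x ∈ (T : Subgroup G) → ∀ g : G, g⁻¹ * x * g ∈ (T : Subgroup G) → g⁻¹ * x * g = x) →
    (∀ H : Subgroup G, (Nat.card H).Coprime p → (∀ h ∈ H, x * h * x⁻¹ ∈ H) → ∀ h ∈ H, x * h = h * x) →
    x ∈ Subgroup.center G := by
  intro n
  induction n with
  | zero =>
    intro G _ _ x hc
    exact absurd hc (by have := Nat.card_pos (α := G); omega)
  | succ n ih =>
    intro G _ _ x hc hxp hW hb
    classical
    have hp' : p.Prime := hp.out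
    -- Step 1
    have step1 : ∀ H : Subgroup G, H ≠ ⊤ → x ∈ H → ∀ h ∈ H, x * h = h * x := by
      intro H hH hxH
      have hcard : Nat.card H ≤ n := by
        have h1 : Nat.card H ≤ Nat.card G := Subgroup.card_le_card_group H
        have h2 : Nat.card H ≠ Nat.card G := fun h => hH (Subgroup.card_eq_iff_eq_top H |>.1 h)
        omega
      have := ih H ⟨x, hxH⟩ hcard ?_ ?_ ?_
      · intro h hh
        have h3 := (Subgroup.mem_center_iff.1 this) ⟨h, hh⟩
        exact (congrArg Subtype.val h3).symm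
      · obtain ⟨k, hk⟩ := hxp
        exact ⟨k, Subtype.ext (by simpa using hk)⟩
      · intro T hxT g hg
        have h1 : IsPGroup p ↥((T : Subgroup H).map H.subtype) := T.isPGroup'.map _
        obtain ⟨T', hT'⟩ := h1.exists_le_sylow
        have h2 := hW T' (hT' ⟨⟨x, hxH⟩, hxT, rfl⟩) g (hT' ⟨_, hg, by simp⟩)
        exact Subtype.ext (by simpa using h2)
      · intro K hK hKn k hk
        let K' := K.map H.subtype
        have hK' : (Nat.card K').Coprime p := by
          rw [Subgroup.card_map_of_injective H.subtype_injective]; exact hK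
        have h1 := hb K' hK' (by
          rintro _ ⟨l, hl, rfl⟩
          exact ⟨_, hKn l hl, by simp⟩) _ ⟨k, hk, rfl⟩
        exact Subtype.ext (by simpa using h1)
    have hzp : ∀ y : G, (∃ k : ℕ, y ^ (p ^ k) = 1) → IsPGroup p (Subgroup.zpowers y) := by
      rintro y ⟨k, hk⟩
      have h1 : orderOf y ∣ p ^ k := orderOf_dvd_of_pow_eq_one hk
      obtain ⟨j, -, hj⟩ := (Nat.dvd_prime_pow hp').1 h1
      exact IsPGroup.of_card (n := j) (by rw [Nat.card_zpowers, hj])
    -- Step 2
    have step2 : ∀ g : G, x * (g⁻¹ * x * g) = (g⁻¹ * x * g) * x → g⁻¹ * x * g = x := by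
      intro g hc
      have hy : ∃ k : ℕ, (g⁻¹ * x * g) ^ (p ^ k) = 1 := by
        obtain ⟨k, hk⟩ := hxp
        refine ⟨k, ?_⟩
        have : g⁻¹ * x * g = g⁻¹ * x * g⁻¹⁻¹ := by group
        rw [this, conj_pow, hk]; group
      have hA : IsPGroup p ↥(Subgroup.zpowers x ⊔ Subgroup.zpowers (g⁻¹ * x * g)) := by
        apply Cfsg.Agent.Lib.GrunFusion.isPGroup_sup_of_commute (hzp x hxp) (hzp _ hy)
        rintro _ ⟨i, rfl⟩ _ ⟨j, rfl⟩
        exact (Commute.zpow_zpow (show Commute x (g⁻¹ * x * g) from hc) i j)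
      obtain ⟨T, hT⟩ := hA.exists_le_sylow
      exact hW T (hT (Subgroup.mem_sup_left (Subgroup.mem_zpowers x))) g
        (hT (Subgroup.mem_sup_right (Subgroup.mem_zpowers _)))
    by_contra hnc
    let Z : Subgroup G := Subgroup.center G
    let M : Subgroup G := Subgroup.centralizer ({x} : Set G)
    have hmemM : ∀ c, c ∈ M ↔ c * x = x * c := fun c => by
      simp only [M, Subgroup.mem_centralizer_singleton_iff]
    have hZM : Z ≤ M := by
      intro z hz
      rw [hmemM]
      exact ((Subgroup.mem_center_iff.1 hz) x).symm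
    have hxM : x ∈ M := by rw [hmemM]
    -- generation
    have hgen : ∀ g : G, g⁻¹ * x * g ≠ x → Subgroup.closure ({x, g⁻¹ * x * g} : Set G) = ⊤ := by
      intro g hne
      by_contra hH
      have h1 := step1 _ hH (Subgroup.subset_closure (Or.inl rfl)) (g⁻¹ * x * g) (Subgroup.subset_closure (Or.inr rfl))
      exact hne (step2 g h1)
    have hcen : ∀ g : G, g ∉ M → ∀ c, c ∈ M → (g⁻¹ * c * g) ∈ M → c ∈ Z := by
      intro g hg c hc1 hc2
      have hne : (g⁻¹)⁻¹ * x * g⁻¹ ≠ x := by
        intro h
        apply hg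
        rw [hmemM]
        have h2 : g * x * g⁻¹ = x := by simpa using h
        calc g * x = g * x * g⁻¹ * g := by group
          _ = x * g := by rw [h2]
      have h1 := hgen g⁻¹ hne
      have h3 : Subgroup.closure ({x, (g⁻¹)⁻¹ * x * g⁻¹} : Set G) ≤ Subgroup.centralizer ({c} : Set G) := by
        rw [Subgroup.closure_le]
        rintro y (rfl | rfl)
        · rw [SetLike.mem_coe, Subgroup.mem_centralizer_singleton_iff]
          exact ((hmemM c).1 hc1).symm
        · rw [SetLike.mem_coe, Subgroup.mem_centralizer_singleton_iff]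
          have h4 := (hmemM _).1 hc2
          -- g⁻¹ c g commutes with x ⟹ c commutes with g x g⁻¹
          calc (g⁻¹)⁻¹ * x * g⁻¹ * c = g * (x * (g⁻¹ * c * g)) * g⁻¹ := by group
            _ = g * ((g⁻¹ * c * g) * x) * g⁻¹ := by rw [h4]
            _ = c * ((g⁻¹)⁻¹ * x * g⁻¹) := by group
      rw [h1] at h3
      refine Subgroup.mem_center_iff.2 fun y => ?_
      have h5 := h3 (Subgroup.mem_top y)
      rw [Subgroup.mem_centralizer_singleton_iff] at h5
      exact h5
    -- the quotient
    let π : G →* G ⧸ Z := QuotientGroup.mk' Z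
    have hπs : Function.Surjective π := QuotientGroup.mk'_surjective Z
    have hπk : ∀ g, π g = 1 ↔ g ∈ Z := fun g => QuotientGroup.eq_one_iff g
    let Mb : Subgroup (G ⧸ Z) := M.map π
    have hMbmem : ∀ g, π g ∈ Mb ↔ g ∈ M := by
      intro g
      constructor
      · rintro ⟨c, hc, he⟩
        have h1 : c⁻¹ * g ∈ Z := by
          rw [← hπk, map_mul, map_inv, he, inv_mul_cancel]
        have := M.mul_mem hc (hZM h1)
        simpa using this
      · intro h
        exact ⟨g, h, rfl⟩
    have hMtop : M ≠ ⊤ := by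
      intro h
      apply hnc
      refine Subgroup.mem_center_iff.2 fun y => ?_
      have : y ∈ M := by rw [h]; trivial
      exact (hmemM y).1 this
    have hF : Cfsg.IsFrobeniusComplement Mb := by
      refine ⟨?_, ?_, ?_⟩
      · intro h
        have h1 : π x ∈ Mb := ⟨x, hxM, rfl⟩
        rw [h, Subgroup.mem_bot, hπk] at h1
        exact hnc h1
      · intro h
        apply hMtop
        rw [eq_top_iff]
        intro g _
        have h1 : π g ∈ Mb := by rw [h]; trivial
        exact (hMbmem g).1 h1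
      · intro gb hgb
        obtain ⟨g, rfl⟩ := hπs gb
        have hg : g ∉ M := fun h => hgb ((hMbmem g).2 h)
        rw [eq_bot_iff]
        rintro w ⟨hw1, hw2⟩
        obtain ⟨c, hc, rfl⟩ := hw1
        have hd : (MulAut.conj (π g))⁻¹ • π c ∈ Mb := Subgroup.mem_pointwise_smul_iff_inv_smul_mem.1 hw2
        rw [Subgroup.mem_bot, hπk]
        apply hcen g hg c hc
        rw [← hMbmem]
        have h3 : π (g⁻¹ * c * g) = (MulAut.conj (π g))⁻¹ • π c := by
          rw [MulAut.smul_def, MulAut.conj_inv_apply, map_mul, map_mul, map_inv]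
        rw [h3]; exact hd
    cases nonempty_fintype (G ⧸ Z)
    obtain ⟨Kb, hKb, hKbn⟩ := Cfsg.Agent.Lib.FrobThm.exists_normal_eq_kernel Mb hF
    have hKbM : ∀ w, w ∈ Kb → w ∈ Mb → w = 1 := by
      intro w hw hw2
      have h1 : w ∈ Cfsg.frobeniusKernel Mb := by rw [← hKb]; exact hw
      rcases h1 with h | h
      · exact h
      · exfalso
        apply h 1
        simpa using hw2
    let K₀ : Subgroup G := Kb.comap π
    have hK₀n : K₀.Normal := hKbn.comap π
    -- a Sylow containing x
    obtain ⟨S₀, hS₀⟩ := (hzp x hxp).exists_le_sylow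
    have hxS₀ : x ∈ (S₀ : Subgroup G) := hS₀ (Subgroup.mem_zpowers x)
    have hS₀M : (S₀ : Subgroup G) ≤ M := by
      intro s hs
      have h1 := hW S₀ hxS₀ s ((S₀ : Subgroup G).mul_mem ((S₀ : Subgroup G).mul_mem ((S₀ : Subgroup G).inv_mem hs) hxS₀) hs)
      rw [hmemM]
      calc s * x = s * (s⁻¹ * x * s) := by rw [h1]
        _ = x * s := by group
    have hPZ : (S₀ : Subgroup G) ⊓ K₀ ≤ Z := by
      rintro u ⟨hu1, hu2⟩
      rw [← hπk]
      exact hKbM _ hu2 ((hMbmem u).2 (hS₀M hu1))
    obtain ⟨Q, hQ⟩ := Cfsg.Agent.Lib.PIrreducible.exists_sylow_inf_normal (p := p) S₀ (N := K₀)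
    have hQZ : ∀ q ∈ (Q : Subgroup K₀), (q : G) ∈ Z := by
      intro q hq
      apply hPZ
      rw [← hQ]
      exact ⟨q, hq, rfl⟩
    haveI hQn : (Q : Subgroup K₀).Normal := by
      refine ⟨fun q hq k => ?_⟩
      have h1 := hQZ q hq
      have h2 : k * q * k⁻¹ = q := by
        apply Subtype.ext
        have := (Subgroup.mem_center_iff.1 h1) (k : G)
        simp only [Subgroup.coe_mul, Subgroup.coe_inv]
        rw [this]; group
      rw [h2]; exact hq
    obtain ⟨R', hR'⟩ := Subgroup.exists_right_complement'_of_coprime (Q.card_coprime_index)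
    have hcR' : Nat.card R' = (Q : Subgroup K₀).index := by
      have h1 := hR'.card_mul_card
      have h2 := (Q : Subgroup K₀).card_mul_index
      have h3 : 0 < Nat.card (Q : Subgroup K₀) := Nat.card_pos
      exact Nat.eq_of_mul_eq_mul_left h3 (h1.trans h2.symm)
    let R : Subgroup G := R'.map K₀.subtype
    have hcR : Nat.card R = (Q : Subgroup K₀).index := by
      rw [Subgroup.card_map_of_injective K₀.subtype_injective]; exact hcR'
    have hRcop : (Nat.card R).Coprime p := by
      rw [hcR]
      exact ((Nat.Prime.coprime_iff_not_dvd hp').2 Q.not_dvd_index).symm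
    -- decomposition
    have hdec : ∀ w : K₀, ∃ a ∈ (Q : Subgroup K₀), ∃ r ∈ R', w = a * r := by
      intro w
      obtain ⟨⟨a, r⟩, hac, -⟩ := hR'.existsUnique w
      exact ⟨a, a.2, r, r.2, hac.symm⟩
    have hmemR : ∀ w : G, w ∈ K₀ → (orderOf w).Coprime p → w ∈ R := by
      intro w hw hwc
      obtain ⟨a, ha, r, hr, he⟩ := hdec ⟨w, hw⟩
      have hwe : w = (a : G) * (r : G) := by
        have := congrArg Subtype.val he
        simpa using this
      have hac : Commute (a : G) (r : G) :=
        (Subgroup.mem_center_iff.1 (hQZ a ha) (r : G)).symm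
      have hm : (r : G) ^ (Nat.card R) = 1 := by
        have hmem : (r : G) ∈ R := ⟨r, hr, rfl⟩
        have hd : orderOf (r : G) ∣ Nat.card R := by
          have := orderOf_dvd_natCard (⟨(r : G), hmem⟩ : R)
          rwa [Subgroup.orderOf_mk] at this
        exact orderOf_dvd_iff_pow_eq_one.1 hd
      have h1 : w ^ (Nat.card R) = (a : G) ^ (Nat.card R) := by
        rw [hwe, hac.mul_pow, hm, mul_one]
      -- a has p-power order
      obtain ⟨j, hj⟩ : ∃ j, (a : G) ^ (p ^ j) = 1 := by
        obtain ⟨j, hj⟩ := Q.isPGroup' ⟨a, ha⟩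
        exact ⟨j, by simpa using congrArg (fun z : (Q : Subgroup K₀) => ((z : K₀) : G)) hj⟩
      have hao : orderOf (a : G) ∣ p ^ j := orderOf_dvd_of_pow_eq_one hj
      have hcop1 : (orderOf (a : G)).Coprime (Nat.card R) :=
        Nat.Coprime.coprime_dvd_left hao (Nat.Coprime.pow_left j hRcop.symm)
      have h2 : orderOf ((a : G) ^ (Nat.card R)) = orderOf (a : G) := by
        exact hcop1.orderOf_pow
      have h3 : orderOf (a : G) ∣ orderOf w := by
        rw [← h2, ← h1]
        exact orderOf_pow_dvd _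
      have h4 : orderOf (a : G) = 1 := by
        apply Nat.Coprime.eq_one_of_dvd _ (dvd_refl _)
        exact Nat.Coprime.coprime_dvd_right h3 (Nat.Coprime.coprime_dvd_left hao (Nat.Coprime.pow_left j hwc.symm))
      have h5 : (a : G) = 1 := orderOf_eq_one_iff.1 h4
      rw [hwe, h5, one_mul]
      exact ⟨r, hr, rfl⟩
    have hRx : ∀ h ∈ R, x * h * x⁻¹ ∈ R := by
      rintro _ ⟨r, hr, rfl⟩
      apply hmemR
      · exact hK₀n.conj_mem _ r.2 x
      · have h1 : orderOf (x * (K₀.subtype r) * x⁻¹) = orderOf (K₀.subtype r) := by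
          simpa [MulAut.conj_apply] using (MulAut.conj x).orderOf_eq (K₀.subtype r)
        rw [h1]
        have h2 : orderOf (K₀.subtype r) ∣ Nat.card R := by
          have hmem : K₀.subtype r ∈ R := ⟨r, hr, rfl⟩
          have := orderOf_dvd_natCard (⟨K₀.subtype r, hmem⟩ : R)
          rwa [Subgroup.orderOf_mk] at this
        exact Nat.Coprime.coprime_dvd_left h2 hRcop
    have hRc := hb R hRcop hRx
    -- K₀ ≤ M
    have hK₀M : K₀ ≤ M := by
      intro w hw
      obtain ⟨a, ha, r, hr, he⟩ := hdec ⟨w, hw⟩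
      have hwe : w = (a : G) * (r : G) := by
        have := congrArg Subtype.val he
        simpa using this
      rw [hwe]
      refine M.mul_mem (hZM (hQZ a ha)) ?_
      rw [hmemM]
      exact (hRc (r : G) ⟨r, hr, rfl⟩).symm
    -- contradiction
    have hKbot : Kb = ⊥ := by
      rw [eq_bot_iff]
      intro w hw
      obtain ⟨g, rfl⟩ := hπs w
      rw [Subgroup.mem_bot]
      exact hKbM _ hw ((hMbmem g).2 (hK₀M hw))
    have hcard := (Cfsg.Agent.S0034.result Mb hF).1
    rw [← hKb, hKbot] at hcard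
    have h6 : Mb.index = 1 := by
      rw [← hcard]
      simp
    exact hF.2.1 (Subgroup.index_eq_one.1 h6)

end Cfsg.Agent.Lib.WeakCentral
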