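import Mathlib
import Cfsg.Agent.Lib.ConjFamily

/-! Chains of conjugations through well-placed subgroups containing the centre of the Sylow
subgroup, up to centralizing factors. -/

set_option autoImplicit false
set_option linter.all false

namespace Cfsg.Agent.Lib.WellChain

open Cfsg Cfsg.Agent.Lib.SylowIn Cfsg.Agent.Lib.ConjFamily

variable {G : Type*} [Group G]

theorem rc_of_centralizer {c : G} {A : Set G} (hc : c ∈ Subgroup.centralizer A) : rc c A = A := by
  ext x
  constructor
  · rintro ⟨a, ha, rfl⟩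
    have h1 : a * c = c * a := Subgroup.mem_centralizer_iff.1 hc a ha
    have h2 : c⁻¹ * a * c = a := by rw [mul_assoc, h1]; group
    simp only [h2]
    exact ha
  · intro hx
    refine ⟨x, hx, ?_⟩
    have h1 : x * c = c * x := Subgroup.mem_centralizer_iff.1 hc x hx
    simp only
    rw [mul_assoc, h1]
    group

/-- Chains with centralizing factors. -/
inductive CChain (𝓕 : Set (Subgroup G)) : Set G → G → Prop
  | nil (A : Set G) : CChain 𝓕 A 1
  | cent {c g : G} {A : Set G} (hc : c ∈ Subgroup.centralizer A) (h : CChain 𝓕 A g) :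
      CChain 𝓕 A (c * g)
  | step {T : Subgroup G} {x g : G} {A : Set G} (hT : T ∈ 𝓕)
      (hx : x ∈ Subgroup.normalizer ((T : Subgroup G) : Set G)) (hA : A ⊆ T)
      (h : CChain 𝓕 (rc x A) g) : CChain 𝓕 A (x * g)

namespace CChain

variable {𝓕 : Set (Subgroup G)}

theorem mono {A : Set G} {g : G} (h : CChain 𝓕 A g) : ∀ {A' : Set G}, A' ⊆ A → CChain 𝓕 A' g := by
  induction h with
  | nil A => intro A' _; exact CChain.nil A'
  | cent hc _ ih =>
    intro A' hA'
    exact CChain.cent (Subgroup.centralizer_le hA' hc) (ih hA')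
  | step hT hx hA _ ih =>
    intro A' hA'
    exact CChain.step hT hx (hA'.trans hA) (ih (rc_mono _ hA'))

theorem append {A : Set G} {g : G} (h : CChain 𝓕 A g) :
    ∀ {g' : G}, CChain 𝓕 (rc g A) g' → CChain 𝓕 A (g * g') := by
  induction h with
  | nil A =>
    intro g' h'
    rw [rc_one] at h'
    simpa using h'
  | @cent c g A hc _ ih =>
    intro g' h'
    rw [rc_mul, rc_of_centralizer hc] at h'
    have := ih h'
    rw [mul_assoc]
    exact CChain.cent hc this
  | @step T x g A hT hx hA _ ih =>
    intro g' h'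
    rw [rc_mul] at h'
    have := ih h'
    rw [mul_assoc]
    exact CChain.step hT hx hA this

theorem single {T : Subgroup G} {x : G} {A : Set G} (hT : T ∈ 𝓕)
    (hx : x ∈ Subgroup.normalizer ((T : Subgroup G) : Set G)) (hA : A ⊆ T) : CChain 𝓕 A x := by
  have := CChain.step hT hx hA (CChain.nil (rc x A))
  simpa using this

theorem inv {A : Set G} {g : G} (h : CChain 𝓕 A g) : CChain 𝓕 (rc g A) g⁻¹ := by
  induction h with
  | nil A =>
    simpa [rc_one] using CChain.nil A
  | @cent c g A hc _ ih =>
    rw [rc_mul, rc_of_centralizer hc, mul_inv_rev]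
    refine ih.append ?_
    rw [← rc_mul, mul_inv_cancel, rc_one]
    have : CChain 𝓕 A (c⁻¹ * 1) := CChain.cent (Subgroup.inv_mem _ hc) (CChain.nil A)
    simpa using this
  | @step T x g A hT hx hA _ ih =>
    rw [rc_mul, mul_inv_rev]
    refine ih.append ?_
    rw [← rc_mul, mul_inv_cancel, rc_one]
    have h2 : rc x A ⊆ (T : Set G) := by
      rw [← cj_eq_of_mem_normalizer (Subgroup.inv_mem _ hx)]
      have h3 := rc_mono x hA
      rw [rc_coe] at h3
      exact h3
    exact single hT (Subgroup.inv_mem _ hx) h2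

end CChain

section Main

variable [Finite G] {p : ℕ} [Fact p.Prime] {W : Subgroup G → Subgroup G}

/-- The family of well-placed subgroups containing the centre of `S`. -/
def wpFamily (p : ℕ) (W : Subgroup G → Subgroup G) (S : Subgroup G) : Set (Subgroup G) :=
  {T | IsWellPlaced p W S T ∧ S ⊓ Subgroup.centralizer (S : Set G) ≤ T}

theorem cchain_of_wellPlaced (hW : IsConjugacyFunctor p W) (S : Sylow p G) :
    ∀ (Q : Subgroup G), Q ≤ (S : Subgroup G) → ∀ g : G, cj g⁻¹ Q ≤ (S : Subgroup G) →
      CChain (wpFamily p W (S : Subgroup G)) (Q : Set G) g := by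
  classical
  suffices H : ∀ n : ℕ, ∀ Q : Subgroup G, Nat.card G - Nat.card Q = n → Q ≤ (S : Subgroup G) →
      ∀ g : G, cj g⁻¹ Q ≤ (S : Subgroup G) →
      CChain (wpFamily p W (S : Subgroup G)) (Q : Set G) g from fun Q => H _ Q rfl
  intro n
  induction n using Nat.strong_induction_on with
  | _ n IH =>
    intro Q hn hQS g hg
    have IH' : ∀ R : Subgroup G, Nat.card Q < Nat.card R → R ≤ (S : Subgroup G) → ∀ g : G,
        cj g⁻¹ R ≤ (S : Subgroup G) → CChain (wpFamily p W (S : Subgroup G)) (R : Set G) g := by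
      intro R hc hRS g hg
      have : Nat.card R ≤ Nat.card G := Subgroup.card_le_card_group R
      exact IH (Nat.card G - Nat.card R) (by omega) R rfl hRS g hg
    have hScard : ∀ R : Subgroup G, R ≤ (S : Subgroup G) → Nat.card (S : Subgroup G) ≤ Nat.card R →
        R = (S : Subgroup G) := fun R hR hc => Subgroup.eq_of_le_of_card_ge hR hc
    have hSF : (S : Subgroup G) ∈ wpFamily p W (S : Subgroup G) := by
      obtain ⟨x, hx⟩ := exists_conj_wellPlaced hW S (S : Subgroup G) le_rfl
      have hUe : cj x (S : Subgroup G) = (S : Subgroup G) := hScard _ hx.1 (by rw [card_cj])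
      rw [hUe] at hx
      exact ⟨hx, inf_le_left⟩
    by_cases hQ : Q = (S : Subgroup G)
    · subst hQ
      have hge : cj g⁻¹ (S : Subgroup G) = (S : Subgroup G) := hScard _ hg (by rw [card_cj])
      have hgn : g ∈ Subgroup.normalizer (((S : Subgroup G) : Subgroup G) : Set G) := by
        have := mem_normalizer_of_cj_eq hge
        simpa using Subgroup.inv_mem _ this
      exact CChain.single hSF hgn le_rfl
    -- the main step
    have stepA : ∀ (Q' : Subgroup G) (h₀ : G) (U : Subgroup G), Q' ≤ (S : Subgroup G) →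
        Q' ≠ (S : Subgroup G) → cj h₀ Q' = U →
        IsSylowIn p ((S : Subgroup G) ⊓ Subgroup.normalizer ((U : Subgroup G) : Set G))
          (Subgroup.normalizer ((U : Subgroup G) : Set G)) →
        Nat.card Q' = Nat.card Q →
        ∃ b : G, CChain (wpFamily p W (S : Subgroup G)) (Q' : Set G) b ∧ cj b⁻¹ Q' = U := by
      intro Q' h₀ U hQ'S hQ'ne hU hD hcard
      obtain ⟨x, hxS, hxQ', hxN⟩ :=
        Cfsg.Agent.Lib.H5Basic.exists_mem_normalizer_of_lt S.isPGroup' hQ'S hQ'ne
      set N₀ : Subgroup G := (S : Subgroup G) ⊓ Subgroup.normalizer ((Q' : Subgroup G) : Set G) with hN₀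
      have hQ'N₀ : Q' ≤ N₀ := le_inf hQ'S Subgroup.le_normalizer
      have hxN₀ : x ∈ N₀ := ⟨hxS, hxN⟩
      have hcardN₀ : Nat.card Q < Nat.card N₀ := by
        rw [← hcard]
        refine lt_of_le_of_ne (Subgroup.card_le_of_le hQ'N₀) ?_
        intro hc
        exact hxQ' ((Subgroup.eq_of_le_of_card_ge hQ'N₀ hc.ge) ▸ hxN₀)
      have hXN : cj h₀ N₀ ≤ Subgroup.normalizer ((U : Subgroup G) : Set G) := by
        rw [← hU, normalizer_cj]
        exact cj_mono _ inf_le_right
      have hXp : IsPGroup p (cj h₀ N₀) := (S.isPGroup'.to_le inf_le_left).map _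
      obtain ⟨y, hyN, hy⟩ := exists_conj_le_of_isSylowIn hD hXN hXp
      refine ⟨(y * h₀)⁻¹, ?_, ?_⟩
      · have hb : cj (y * h₀)⁻¹⁻¹ N₀ ≤ (S : Subgroup G) := by
          rw [inv_inv, ← cj_cj]
          exact hy.trans inf_le_left
        exact (IH' N₀ hcardN₀ inf_le_left _ hb).mono hQ'N₀
      · rw [inv_inv, ← cj_cj, hU]
        exact cj_eq_of_mem_normalizer hyN
    obtain ⟨x, hwp⟩ := exists_conj_wellPlaced hW S Q hQS
    obtain ⟨U, hUdef⟩ : ∃ U, U = cj x Q := ⟨_, rfl⟩
    rw [← hUdef] at hwp
    have hUS : U ≤ (S : Subgroup G) := hwp.1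
    have hUcard : Nat.card U = Nat.card Q := by rw [hUdef, card_cj]
    have hD : IsSylowIn p ((S : Subgroup G) ⊓ Subgroup.normalizer ((U : Subgroup G) : Set G))
        (Subgroup.normalizer ((U : Subgroup G) : Set G)) :=
      isSylowIn_of_relIndex inf_le_right (S.isPGroup'.to_le inf_le_left) (hwp.2 0)
    -- the key: elements of the normalizer
    have hkey : ∀ u ∈ Subgroup.normalizer ((U : Subgroup G) : Set G),
        CChain (wpFamily p W (S : Subgroup G)) (U : Set G) u := by
      intro u hu
      by_cases hc : (S : Subgroup G) ⊓ Subgroup.centralizer (U : Set G) ≤ U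
      · have hUF : U ∈ wpFamily p W (S : Subgroup G) := by
          refine ⟨hwp, ?_⟩
          rintro z ⟨hzS, hzC⟩
          apply hc
          refine ⟨hzS, ?_⟩
          exact Subgroup.centralizer_le hUS hzC
        exact CChain.single hUF hu le_rfl
      · -- Frattini
        have hCN : Subgroup.centralizer (U : Set G) ≤ Subgroup.normalizer ((U : Subgroup G) : Set G) :=
          Subgroup.centralizer_le_normalizer _
        obtain ⟨Cs, hCs⟩ : ∃ Cs : Subgroup G, Cs = (S : Subgroup G) ⊓ Subgroup.centralizer (U : Set G) :=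
          ⟨_, rfl⟩
        rw [← hCs] at hc
        have hCsS : Cs ≤ (S : Subgroup G) := by rw [hCs]; exact inf_le_left
        have hCsC : Cs ≤ Subgroup.centralizer (U : Set G) := by rw [hCs]; exact inf_le_right
        have hCnorm : ∀ x ∈ Subgroup.normalizer ((U : Subgroup G) : Set G),
            ∀ m ∈ Subgroup.centralizer (U : Set G), x * m * x⁻¹ ∈ Subgroup.centralizer (U : Set G) := by
          intro x hx m hm
          rw [Subgroup.mem_centralizer_iff] at hm ⊢
          intro t ht
          have h1 : x⁻¹ * t * x ∈ U := by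
            have := (Subgroup.mem_normalizer_iff.1 (Subgroup.inv_mem _ hx) t).1 ht
            simpa using this
          have h2 := hm _ h1
          calc t * (x * m * x⁻¹) = x * ((x⁻¹ * t * x) * m) * x⁻¹ := by group
            _ = x * (m * (x⁻¹ * t * x)) * x⁻¹ := by rw [h2]
            _ = _ := by group
        have hSyl : IsSylowIn p ((S : Subgroup G) ⊓ Subgroup.normalizer ((U : Subgroup G) : Set G) ⊓
            Subgroup.centralizer (U : Set G)) (Subgroup.centralizer (U : Set G)) :=
          hD.inf_of_normal inf_le_right hCN hCnorm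
        have hCse : (S : Subgroup G) ⊓ Subgroup.normalizer ((U : Subgroup G) : Set G) ⊓
            Subgroup.centralizer (U : Set G) = Cs := by
          rw [hCs]
          apply le_antisymm
          · exact le_inf (inf_le_left.trans inf_le_left) inf_le_right
          · exact le_inf (le_inf inf_le_left (inf_le_right.trans hCN)) inf_le_right
        rw [hCse] at hSyl
        have hXC : cj u Cs ≤ Subgroup.centralizer (U : Set G) := by
          rintro _ ⟨m, hm, rfl⟩
          exact hCnorm u hu m (hCsC hm)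
        have hXp : IsPGroup p (cj u Cs) := (S.isPGroup'.to_le hCsS).map _
        obtain ⟨y, hyC, hy⟩ := exists_conj_le_of_isSylowIn hSyl hXC hXp
        obtain ⟨m, hm⟩ : ∃ m, m = y * u := ⟨_, rfl⟩
        have hmN : m ∈ Subgroup.normalizer ((U : Subgroup G) : Set G) := by
          rw [hm]
          exact Subgroup.mul_mem _ (hCN hyC) hu
        have hmCs : cj m Cs = Cs := by
          have h1 : cj m Cs ≤ Cs := by
            rw [hm, ← cj_cj]
            exact hy
          exact Subgroup.eq_of_le_of_card_ge h1 (by rw [card_cj])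
        have hmU : cj m U = U := cj_eq_of_mem_normalizer hmN
        have hmU₁ : cj m⁻¹ (U ⊔ Cs) = U ⊔ Cs := by
          have h1 : cj m (U ⊔ Cs) = U ⊔ Cs := by
            unfold cj at hmCs hmU ⊢
            rw [Subgroup.map_sup, hmU, hmCs]
          conv_lhs => rw [← h1]
          rw [cj_cj, inv_mul_cancel, cj_one]
        have hU₁S : U ⊔ Cs ≤ (S : Subgroup G) := sup_le hUS hCsS
        have hlt : Nat.card Q < Nat.card ↥(U ⊔ Cs) := by
          rw [← hUcard]
          refine lt_of_le_of_ne (Subgroup.card_le_of_le le_sup_left) ?_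
          intro hcard
          have := Subgroup.eq_of_le_of_card_ge (le_sup_left : U ≤ U ⊔ Cs) hcard.ge
          apply hc
          rw [← sup_eq_left]
          exact this.symm
        have h1 : CChain (wpFamily p W (S : Subgroup G)) ((U ⊔ Cs : Subgroup G) : Set G) m :=
          IH' _ hlt hU₁S m (by rw [hmU₁]; exact hU₁S)
        have h2 : CChain (wpFamily p W (S : Subgroup G)) (U : Set G) m :=
          h1.mono (le_sup_left : U ≤ U ⊔ Cs)
        have h3 : u = y⁻¹ * m := by rw [hm]; group
        rw [h3]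
        exact CChain.cent (Subgroup.inv_mem _ hyC) h2
    set R : Subgroup G := cj g⁻¹ Q with hR
    have hRcard : Nat.card R = Nat.card Q := card_cj _ _
    have hRne : R ≠ (S : Subgroup G) := by
      intro hRS
      apply hQ
      apply hScard Q hQS
      rw [← hRcard, hRS]
    have hRU : cj (x * g) R = U := by
      rw [hR, cj_cj, hUdef]
      simp
    obtain ⟨b₁, hb₁, hb₁U⟩ := stepA Q x U hQS hQ hUdef.symm hD rfl
    obtain ⟨b₂, hb₂, hb₂U⟩ := stepA R (x * g) U hg hRne hRU hD hRcard
    have hu : b₁⁻¹ * g * b₂ ∈ Subgroup.normalizer ((U : Subgroup G) : Set G) := by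
      have h1 : cj (b₁⁻¹ * g * b₂)⁻¹ U = U := by
        conv_lhs => rw [← hb₁U]
        rw [cj_cj]
        have e : (b₁⁻¹ * g * b₂)⁻¹ * b₁⁻¹ = b₂⁻¹ * g⁻¹ := by group
        rw [e, ← cj_cj]
        exact hb₂U
      have := mem_normalizer_of_cj_eq h1
      simpa using Subgroup.inv_mem _ this
    have hrc : ∀ (b : G) (X : Subgroup G), rc b (X : Set G) = ((cj b⁻¹ X : Subgroup G) : Set G) :=
      fun b X => rc_coe b X
    have h1 : CChain (wpFamily p W (S : Subgroup G)) (U : Set G) (b₁⁻¹ * g * b₂) := hkey _ hu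
    have h2 : CChain (wpFamily p W (S : Subgroup G)) (U : Set G) b₂⁻¹ := by
      have := hb₂.inv
      rwa [hrc, hb₂U] at this
    have h3 : CChain (wpFamily p W (S : Subgroup G)) (rc (b₁⁻¹ * g * b₂) (U : Set G)) b₂⁻¹ := by
      rw [hrc, cj_eq_of_mem_normalizer (Subgroup.inv_mem _ hu)]
      exact h2
    have h4 : CChain (wpFamily p W (S : Subgroup G)) (U : Set G) (b₁⁻¹ * g * b₂ * b₂⁻¹) := h1.append h3
    have h5 : CChain (wpFamily p W (S : Subgroup G)) (rc b₁ (Q : Set G)) (b₁⁻¹ * g * b₂ * b₂⁻¹) := by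
      rw [hrc, hb₁U]
      exact h4
    have h6 := hb₁.append h5
    have e : b₁ * (b₁⁻¹ * g * b₂ * b₂⁻¹) = g := by group
    rwa [e] at h6

end Main

end Cfsg.Agent.Lib.WellChain
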