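import Cfsg.Agent.Lib.WreathMax

set_option autoImplicit false

namespace Cfsg.Agent.Lib.WreathA8

open Equiv Equiv.Perm Cfsg.Agent.Lib.WreathMax

abbrev V := (Bool × Bool) × Bool

/-- Addition of `F₂³`. -/
def xr (x y : V) : V := ((xor x.1.1 y.1.1, xor x.1.2 y.1.2), xor x.2 y.2)

/-- The affine group of `F₂³`. -/
def Kg : Subgroup (Equiv.Perm V) where
  carrier := {g | ∀ a b c, g (xr (xr a b) c) = xr (xr (g a) (g b)) (g c)}
  one_mem' := fun _ _ _ => rfl
  mul_mem' := by
    intro g h hg hh a b c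
    simp only [Perm.mul_apply]
    rw [hh a b c, hg]
  inv_mem' := by
    intro g hg a b c
    apply g.injective
    rw [hg]
    simp

set_option maxRecDepth 1000000 in
theorem D1 : ∀ (π : Equiv.Perm (Bool × Bool)) (ρ : (Bool × Bool) → Equiv.Perm Bool),
    Equiv.Perm.sign (Equiv.prodShear π ρ : Equiv.Perm V) = 1 →
    ∀ a b c : V, Equiv.prodShear π ρ (xr (xr a b) c) = xr (xr (Equiv.prodShear π ρ a) (Equiv.prodShear π ρ b)) (Equiv.prodShear π ρ c) := by
  decide +kernel

theorem exists_form {B C : Type*} [Finite B] [Finite C] [Nonempty C] (g : Equiv.Perm (B × C))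
    (hg : ∀ p q : B × C, p.1 = q.1 ↔ (g p).1 = (g q).1) :
    ∃ (π : Equiv.Perm B) (ρ : B → Equiv.Perm C), g = Equiv.prodShear π ρ := by
  obtain ⟨r₀⟩ : Nonempty C := inferInstance
  let π₀ : B → B := fun k => (g (k, r₀)).1
  have hπ₀ : Function.Injective π₀ := by
    intro k k' h
    exact (hg (k, r₀) (k', r₀)).mpr h
  let ρ₀ : B → C → C := fun k r => (g (k, r)).2
  have hρ₀ : ∀ k, Function.Injective (ρ₀ k) := by
    intro k r r' h
    have h2 : (g (k, r)).1 = (g (k, r')).1 := (hg (k, r) (k, r')).mp rfl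
    have h3 : g (k, r) = g (k, r') := Prod.ext h2 h
    exact congrArg Prod.snd (g.injective h3)
  refine ⟨Equiv.ofBijective π₀ (Finite.injective_iff_bijective.mp hπ₀),
    fun k => Equiv.ofBijective (ρ₀ k) (Finite.injective_iff_bijective.mp (hρ₀ k)), ?_⟩
  ext ⟨k, r⟩
  · change (g (k, r)).1 = (g (k, r₀)).1
    exact (hg (k, r) (k, r₀)).mp rfl
  · rfl

def pa : V := ((false, false), true)
def pb : V := ((false, true), false)
def pc : V := ((true, false), true)
def pd : V := ((true, true), false)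

/-- An affine map not preserving the parallel class. -/
def t0 : Equiv.Perm V := swap pa pb * swap pc pd

theorem t0_mem : t0 ∈ Kg := by
  change ∀ a b c, t0 (xr (xr a b) c) = xr (xr (t0 a) (t0 b)) (t0 c)
  decide +kernel

theorem t0_sign : sign t0 = 1 := by decide +kernel

/-- A 3-cycle, not affine. -/
def c0 : Equiv.Perm V := swap pa pb * swap pa pc

theorem c0_not_mem : c0 ∉ Kg := by
  change ¬ ∀ a b c, c0 (xr (xr a b) c) = xr (xr (c0 a) (c0 b)) (c0 c)
  decide +kernel

theorem c0_sign : sign c0 = 1 := by decide +kernel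

variable {Ω : Type*} [Fintype Ω] [DecidableEq Ω]

theorem main5910 (f : Ω → Fin 4) (hf : ∀ i : Fin 4, Nat.card {x : Ω // f x = i} = 2) :
    ¬ IsCoatom ((Wr f ⊓ alternatingGroup Ω).subgroupOf (alternatingGroup Ω)) := by
  classical
  intro hc
  obtain ⟨e, he⟩ := exists_equiv f hf
  obtain ⟨ν⟩ : Nonempty (Fin 4 ≃ Bool × Bool) := Fintype.card_eq.mp (by decide)
  obtain ⟨μ⟩ : Nonempty (Fin 2 ≃ Bool) := Fintype.card_eq.mp (by decide)
  let e' : Ω ≃ V := e.trans (Equiv.prodCongr ν μ)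
  have he' : ∀ x, (e' x).1 = ν (f x) := by
    intro x
    simp [e', he]
  let ι : Equiv.Perm Ω ≃* Equiv.Perm V := e'.permCongrHom
  have hι : ∀ g x, ι g (e' x) = e' (g x) := by
    intro g x
    simp [ι, Equiv.permCongrHom, Equiv.permCongr]
  have hsign : ∀ g, sign (ι g) = sign g := fun g => Equiv.Perm.sign_permCongr e' g
  have hwr : ∀ g : Equiv.Perm Ω, g ∈ Wr f → ∀ p q : V, p.1 = q.1 ↔ (ι g p).1 = (ι g q).1 := by
    intro g hg p q
    obtain ⟨x, rfl⟩ := e'.surjective p
    obtain ⟨y, rfl⟩ := e'.surjective q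
    rw [hι, hι, he', he', he', he', ν.injective.eq_iff, ν.injective.eq_iff]
    exact hg x y
  let K : Subgroup (Equiv.Perm Ω) := Kg.comap ι.toMonoidHom ⊓ alternatingGroup Ω
  let M' : Subgroup (alternatingGroup Ω) := K.subgroupOf (alternatingGroup Ω)
  have hNM : (Wr f ⊓ alternatingGroup Ω).subgroupOf (alternatingGroup Ω) ≤ M' := by
    intro g hg
    have hgW : (g : Equiv.Perm Ω) ∈ Wr f := hg.1
    refine ⟨?_, g.2⟩
    obtain ⟨π, ρ, h⟩ := exists_form (ι g) (hwr g hgW)
    change ι g ∈ Kg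
    rw [h]
    apply D1
    rw [← h, hsign]
    exact g.2
  let t' : Equiv.Perm Ω := ι.symm t0
  have hιt : ι t' = t0 := ι.apply_symm_apply _
  have ht'A : t' ∈ alternatingGroup Ω := by
    change sign t' = 1
    rw [← hsign, hιt, t0_sign]
  have ht'K : (⟨t', ht'A⟩ : alternatingGroup Ω) ∈ M' := by
    refine ⟨?_, ht'A⟩
    change ι t' ∈ Kg
    rw [hιt]
    exact t0_mem
  have ht'N : (⟨t', ht'A⟩ : alternatingGroup Ω) ∉ (Wr f ⊓ alternatingGroup Ω).subgroupOf (alternatingGroup Ω) := by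
    intro h
    have h1 := hwr t' h.1 ((false, false), false) pa
    rw [hιt] at h1
    have h2 := h1.mp rfl
    revert h2
    decide +kernel
  have hlt : (Wr f ⊓ alternatingGroup Ω).subgroupOf (alternatingGroup Ω) < M' :=
    lt_of_le_of_ne hNM (fun h => ht'N (h ▸ ht'K))
  have htop := hc.2 M' hlt
  let c' : Equiv.Perm Ω := ι.symm c0
  have hιc : ι c' = c0 := ι.apply_symm_apply _
  have hc'A : c' ∈ alternatingGroup Ω := by
    change sign c' = 1
    rw [← hsign, hιc, c0_sign]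
  have hc'M : (⟨c', hc'A⟩ : alternatingGroup Ω) ∈ M' := by
    rw [htop]; trivial
  have h3 : ι c' ∈ Kg := hc'M.1
  rw [hιc] at h3
  exact c0_not_mem h3

end Cfsg.Agent.Lib.WreathA8
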