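import Mathlib
import Cfsg.Agent.Lib.SchurZ

/-!
# Coprime action on a group with cyclic Sylow subgroups
-/

set_option autoImplicit false
set_option linter.unusedVariables false
set_option linter.style.haveILetI false
set_option linter.unusedSectionVars false

namespace Cfsg.Agent.Lib.ZCoprime

open Subgroup
open scoped Pointwise commutatorElement

variable {G A : Type*} [Group G] [Group A] [MulDistribMulAction A G]

/-- `[G, A]`. -/
abbrev Dc (A G : Type*) [Group G] [Group A] [MulDistribMulAction A G] : Subgroup G :=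
  closure {y : G | ∃ (a : A) (g : G), y = g⁻¹ * a • g}

theorem gen_mem (a : A) (g : G) : g⁻¹ * a • g ∈ Dc A G :=
  subset_closure ⟨a, g, rfl⟩

theorem inv_D (b : A) {d : G} (hd : d ∈ Dc A G) : b • d ∈ Dc A G := by
  induction hd using closure_induction with
  | mem x hx =>
    obtain ⟨a, g, rfl⟩ := hx
    have e : b • (g⁻¹ * a • g) = (b • g)⁻¹ * (b * a * b⁻¹) • (b • g) := by
      rw [smul_mul', smul_inv', smul_smul, smul_smul]
      simp
    rw [e]
    exact gen_mem _ _
  | one => rw [smul_one]; exact one_mem _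
  | mul x y _ _ hx hy => rw [smul_mul']; exact mul_mem hx hy
  | inv x _ hx => rw [smul_inv']; exact inv_mem hx

theorem normal_D : (Dc A G).Normal := by
  refine ⟨fun d hd h => ?_⟩
  induction hd using closure_induction with
  | mem x hx =>
    obtain ⟨a, g, rfl⟩ := hx
    have e : h * (g⁻¹ * a • g) * h⁻¹ =
        (g * h⁻¹)⁻¹ * a • (g * h⁻¹) * ((h⁻¹)⁻¹ * a • (h⁻¹))⁻¹ := by
      rw [smul_mul', smul_inv']
      group
    rw [e]
    exact mul_mem (gen_mem _ _) (inv_mem (gen_mem _ _))
  | one => simp [one_mem]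
  | mul x y _ _ hx hy =>
    have e : h * (x * y) * h⁻¹ = (h * x * h⁻¹) * (h * y * h⁻¹) := by group
    rw [e]
    exact mul_mem hx hy
  | inv x _ hx =>
    have e : h * x⁻¹ * h⁻¹ = (h * x * h⁻¹)⁻¹ := by group
    rw [e]
    exact inv_mem hx

section Decomp

variable [Finite G] [Finite A]

/-- `G = [G,A] C_G(A)`. -/
theorem exists_decomp (hcop : (Nat.card A).Coprime (Nat.card G)) (hsol : Group.IsSolvable G) (g : G) :
    ∃ d ∈ Dc A G, ∀ a : A, a • (d * g) = d * g := by
  classical
  let φ : A →* MulAut G := MulDistribMulAction.toMulAut A G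
  let S := SemidirectProduct G A φ
  let inl : G →* S := SemidirectProduct.inl
  let inr : A →* S := SemidirectProduct.inr
  have hinl : Function.Injective inl := SemidirectProduct.inl_injective
  have hinr : Function.Injective inr := SemidirectProduct.inr_injective
  let K : Subgroup S := inl.range
  let A' : Subgroup S := inr.range
  haveI : Finite S := Finite.of_equiv _ SemidirectProduct.equivProd.symm
  haveI hKn : K.Normal := by
    have : inl.range = SemidirectProduct.rightHom.ker := SemidirectProduct.range_inl_eq_ker_rightHom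
    show inl.range.Normal
    rw [this]
    infer_instance
  let eK : G ≃* K := MonoidHom.ofInjective hinl
  let eA : A ≃* A' := MonoidHom.ofInjective hinr
  have hcK : Nat.card K = Nat.card G := Nat.card_congr eK.symm.toEquiv
  have hcA : Nat.card A' = Nat.card A := Nat.card_congr eA.symm.toEquiv
  have hAK : A' ≤ Subgroup.normalizer (K : Set S) := by
    rw [Subgroup.normalizer_eq_top K]
    exact le_top
  have hs : Group.IsSolvable K ∨ Group.IsSolvable A' :=
    Or.inl (Group.isSolvable_of_surjective (f := eK.toMonoidHom) eK.surjective)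
  have hconj : ∀ (a : A) (x : G), inr a * inl x * (inr a)⁻¹ = inl (a • x) := by
    intro a x
    rw [← map_inv]
    exact (SemidirectProduct.inl_aut a x).symm
  have hle : ⁅K, A'⁆ ≤ (Dc A G).map inl := by
    rw [commutator_le]
    rintro _ ⟨x, rfl⟩ _ ⟨a, rfl⟩
    refine ⟨(x⁻¹)⁻¹ * a • x⁻¹, gen_mem a x⁻¹, ?_⟩
    rw [map_mul, inv_inv, ← hconj, commutatorElement_def, map_inv]
    simp only [mul_assoc]
  obtain ⟨n, hn, hc⟩ := Cfsg.Agent.Lib.SchurZ.exists_decomp_fixed hAK
    (by rw [hcK, hcA]; exact hcop.symm) hs (show inl g ∈ K from ⟨g, rfl⟩)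
  obtain ⟨d, hd, rfl⟩ := hle hn
  refine ⟨d, hd, fun a => ?_⟩
  apply hinl
  rw [← hconj]
  have h1 := mem_centralizer_iff.1 hc.2 (inr a) ⟨a, rfl⟩
  rw [map_mul, h1, mul_inv_cancel_right]

end Decomp

section Cent

variable [Finite G] [Finite A]

theorem commutes_of_cyclic (hcyc : IsCyclic (commutator G)) (a : A) (g : G) :
    ∀ l ∈ commutator G, g⁻¹ * a • g * l = l * (g⁻¹ * a • g) := by
  classical
  let L : Subgroup G := commutator G
  haveI hLn : L.Normal := inferInstanceAs (commutator G).Normal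
  haveI hLc : IsCyclic L := hcyc
  have hLch : ∀ b : A, ∀ x ∈ L, b • x ∈ L := by
    intro b x hx
    have hc : (commutator G).Characteristic := inferInstance
    have h2 := (Subgroup.characteristic_iff_map_le.1 hc) (MulDistribMulAction.toMulAut A G b)
    exact h2 ⟨x, hx, rfl⟩
  -- power maps
  have hpow : ∀ σ : L →* L, ∃ m : ℤ, ∀ x : L, σ x = x ^ m := fun σ => MonoidHom.map_cyclic σ
  let σ : L →* L := (MulAut.conjNormal g).toMonoidHom
  let τ : L →* L :=
    { toFun := fun x => ⟨a • (x : G), hLch a _ x.2⟩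
      map_one' := by
        apply Subtype.ext
        simp
      map_mul' := fun x y => by
        apply Subtype.ext
        simp [smul_mul'] }
  obtain ⟨m, hm⟩ := hpow σ
  obtain ⟨k, hk⟩ := hpow τ
  have hcomm : ∀ x : L, σ (τ x) = τ (σ x) := by
    intro x
    rw [hm, hk, hm, hk, ← zpow_mul, ← zpow_mul, mul_comm]
  intro l hl
  -- `l = a • l'`
  let l' : L := ⟨a⁻¹ • l, hLch a⁻¹ l hl⟩
  have h1 := hcomm l'
  have h2 : ((σ (τ l') : L) : G) = g * l * g⁻¹ := by
    show g * (a • (a⁻¹ • l)) * g⁻¹ = _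
    rw [smul_inv_smul]
  have h3 : ((τ (σ l') : L) : G) = (a • g) * l * (a • g)⁻¹ := by
    show a • (g * (a⁻¹ • l) * g⁻¹) = _
    rw [smul_mul', smul_mul', smul_inv', smul_inv_smul]
  have h4 : g * l * g⁻¹ = (a • g) * l * (a • g)⁻¹ := by
    rw [← h2, ← h3, h1]
  have e : g⁻¹ * a • g * l = g⁻¹ * ((a • g) * l * (a • g)⁻¹) * (a • g) := by group
  rw [e, ← h4]
  group

theorem D_le_centralizer [hZ : IsZGroup G] : Dc A G ≤ centralizer (commutator G : Set G) := by
  rw [closure_le]
  rintro _ ⟨a, g, rfl⟩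
  refine mem_centralizer_iff.2 (fun l hl => ?_)
  exact (commutes_of_cyclic (IsZGroup.isCyclic_commutator G) a g l hl).symm

theorem D_comm [hZ : IsZGroup G] (x y : Dc A G) : x * y = y * x := by
  let f : Dc A G →* Abelianization G := Abelianization.of.comp (Dc A G).subtype
  refine commutative_of_cyclic_center_quotient f ?_ x y
  intro d hd
  have h1 : ((d : G)) ∈ commutator G := by
    have h2 : (QuotientGroup.mk (d : G) : G ⧸ commutator G) = 1 := hd
    exact (QuotientGroup.eq_one_iff _).1 h2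
  rw [mem_center_iff]
  intro w
  apply Subtype.ext
  have h3 := mem_centralizer_iff.1 (D_le_centralizer (A := A) w.2) _ h1
  exact h3.symm

theorem D_cyclic [hZ : IsZGroup G] : IsCyclic (Dc A G) := by
  letI : CommGroup (Dc A G) := { (inferInstance : Group (Dc A G)) with mul_comm := D_comm }
  haveI : Group.IsNilpotent (Dc A G) := CommGroup.isNilpotent
  infer_instance

theorem fixed_mem_D_eq_one [hZ : IsZGroup G] (hcop : (Nat.card A).Coprime (Nat.card G))
    {x : G} (hx : x ∈ Dc A G) (hf : ∀ a : A, a • x = x) : x = 1 := by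
  classical
  cases nonempty_fintype A
  letI : CommGroup (Dc A G) := { (inferInstance : Group (Dc A G)) with mul_comm := D_comm }
  let N : Dc A G →* Dc A G :=
    { toFun := fun y => ∏ a : A, (⟨a • (y : G), inv_D a y.2⟩ : Dc A G)
      map_one' := by
        apply Finset.prod_eq_one
        intro a _
        apply Subtype.ext
        simp
      map_mul' := fun y z => by
        rw [← Finset.prod_mul_distrib]
        apply Finset.prod_congr rfl
        intro a _
        apply Subtype.ext
        simp [smul_mul'] }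
  have hNdef : ∀ y : Dc A G, N y = ∏ a : A, (⟨a • (y : G), inv_D a y.2⟩ : Dc A G) := fun y => rfl
  have htrans : ∀ (b : A) (u : Dc A G), N ⟨b • (u : G), inv_D b u.2⟩ = N u := by
    intro b u
    rw [hNdef, hNdef]
    refine Fintype.prod_equiv (Equiv.mulRight b) _ _ (fun a => ?_)
    apply Subtype.ext
    simp [mul_smul]
  have hgen : ∀ (b : A) (u : Dc A G), N (u⁻¹ * ⟨b • (u : G), inv_D b u.2⟩) = 1 := by
    intro b u
    rw [map_mul, map_inv, htrans, inv_mul_cancel]
  have hall : Dc A G ≤ (N.ker).map (Dc A G).subtype := by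
    rw [closure_le]
    rintro _ ⟨a, g, rfl⟩
    haveI hDn : (Dc A G).Normal := normal_D
    obtain ⟨d, hd, hfd⟩ := exists_decomp hcop (inferInstance : Group.IsSolvable G) g
    set f := d * g with hfdef
    have hg : g = d⁻¹ * f := by rw [hfdef]; group
    have hu : f⁻¹ * d⁻¹ * f ∈ Dc A G := by
      have := hDn.conj_mem d⁻¹ (inv_mem hd) f⁻¹
      simpa using this
    let u : Dc A G := ⟨f⁻¹ * d⁻¹ * f, hu⟩
    have hs : g⁻¹ * a • g = ((u⁻¹ * ⟨a • (u : G), inv_D a u.2⟩ : Dc A G) : G) := by
      show g⁻¹ * a • g = (f⁻¹ * d⁻¹ * f)⁻¹ * a • (f⁻¹ * d⁻¹ * f)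
      rw [smul_mul', smul_mul', smul_inv', smul_inv', hfd a, hg, smul_mul', smul_inv', hfd a]
      group
    rw [hs]
    exact ⟨u⁻¹ * ⟨a • (u : G), inv_D a u.2⟩, hgen a u, rfl⟩
  obtain ⟨y, hy, hyx⟩ := hall hx
  have hy1 : N y = 1 := hy
  have hyx' : y = ⟨x, hx⟩ := Subtype.ext hyx
  rw [hyx', hNdef] at hy1
  have h1 : ∀ a : A, (⟨a • x, inv_D a hx⟩ : Dc A G) = ⟨x, hx⟩ := fun a => Subtype.ext (hf a)
  simp only [h1, Finset.prod_const, Finset.card_univ] at hy1
  have h2 : x ^ Nat.card A = 1 := by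
    have := congrArg Subtype.val hy1
    simpa [Nat.card_eq_fintype_card] using this
  have h3 : orderOf x ∣ Nat.card A := orderOf_dvd_of_pow_eq_one h2
  have h4 : orderOf x ∣ Nat.card G := orderOf_dvd_natCard x
  exact orderOf_eq_one_iff.1 (Nat.eq_one_of_dvd_coprimes hcop h3 h4)

theorem mem_zpowers_of_pow {C : Type*} [Group C] [Finite C] [IsCyclic C] {y x : C} {p : ℕ} (hp : 0 < p)
    (hy : orderOf y = p) (hx : x ^ p = 1) : x ∈ zpowers y := by
  classical
  cases nonempty_fintype C
  have h1 := IsCyclic.card_pow_eq_one_le (α := C) hp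
  let Z : Finset C := Finset.univ.filter (fun a => a ∈ zpowers y)
  let W : Finset C := Finset.univ.filter (fun a => a ^ p = 1)
  have hZW : Z ⊆ W := by
    intro a ha
    simp only [Z, Finset.mem_filter, Finset.mem_univ, true_and] at ha
    obtain ⟨k, rfl⟩ := ha
    simp only [W, Finset.mem_filter, Finset.mem_univ, true_and]
    show (y ^ k) ^ p = 1
    rw [← zpow_natCast, ← zpow_mul, mul_comm, zpow_mul, zpow_natCast, ← hy, pow_orderOf_eq_one, one_zpow]
  have hZc : Z.card = p := by
    have h2 : Nat.card (zpowers y) = p := by rw [Nat.card_zpowers, hy]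
    rw [← h2, Nat.card_eq_fintype_card]
    rw [Fintype.card_subtype]
  have hEq : Z = W := Finset.eq_of_subset_of_card_le hZW (by rw [hZc]; exact h1)
  have hxW : x ∈ W := by simp [W, hx]
  rw [← hEq] at hxW
  simpa [Z] using hxW

/-- The coprime action statement. -/
theorem main (hcop : (Nat.card A).Coprime (Nat.card G))
    (hcyc : ∀ (p : ℕ) [Fact p.Prime] (P : Sylow p G), IsCyclic (P : Subgroup G)) :
    (Nat.card (MulAction.fixedPoints A G : Set G)).Coprime (Nat.card G / Nat.card (MulAction.fixedPoints A G : Set G)) ∧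
    IsCyclic (Subgroup.closure {y : G | ∃ (a : A) (g : G), y = g⁻¹ * a • g}) ∧
    (Subgroup.closure {y : G | ∃ (a : A) (g : G), y = g⁻¹ * a • g}).Normal ∧
    (Subgroup.closure {y : G | ∃ (a : A) (g : G), y = g⁻¹ * a • g} : Set G) ∩ MulAction.fixedPoints A G = {1} ∧
    Subgroup.closure {y : G | ∃ (a : A) (g : G), y = g⁻¹ * a • g} ⊔ Subgroup.closure (MulAction.fixedPoints A G) = ⊤ := by
  classical
  haveI hZ : IsZGroup G := ⟨fun p hp P => by
    haveI := Fact.mk hp
    exact hcyc p P⟩
  haveI hDn : (Dc A G).Normal := normal_D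
  haveI hDc : IsCyclic (Dc A G) := D_cyclic
  let C : Subgroup G := FixedPoints.subgroup A G
  have hCm : ∀ x, x ∈ C ↔ ∀ a : A, a • x = x := fun x => Iff.rfl
  have hinter : ∀ x, x ∈ Dc A G → x ∈ C → x = 1 := fun x h1 h2 =>
    fixed_mem_D_eq_one hcop h1 h2
  have hdec : ∀ g : G, ∃ d ∈ Dc A G, d * g ∈ C := by
    intro g
    obtain ⟨d, hd, hf⟩ := exists_decomp hcop (inferInstance : Group.IsSolvable G) g
    exact ⟨d, hd, hf⟩
  have hdisj : Disjoint (Dc A G) C := Subgroup.disjoint_def.2 (fun h1 h2 => hinter _ h1 h2)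
  have hmul : ((Dc A G : Subgroup G) : Set G) * (C : Set G) = Set.univ := by
    rw [Set.eq_univ_iff_forall]
    intro g
    obtain ⟨d, hd, hf⟩ := hdec g
    exact Set.mem_mul.2 ⟨d⁻¹, inv_mem hd, d * g, hf, by group⟩
  have hcompl := isComplement'_of_disjoint_and_mul_eq_univ hdisj hmul
  have hcard : Nat.card (Dc A G) * Nat.card C = Nat.card G := hcompl.card_mul
  have hCF : Nat.card (MulAction.fixedPoints A G : Set G) = Nat.card C := rfl
  have hdiv : Nat.card G / Nat.card C = Nat.card (Dc A G) :=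
    Nat.div_eq_of_eq_mul_left Nat.card_pos hcard.symm
  refine ⟨?_, hDc, hDn, ?_, ?_⟩
  · rw [hCF, hdiv]
    by_contra hnc
    obtain ⟨p, hp, hp1, hp2⟩ := Nat.Prime.not_coprime_iff_dvd.1 hnc
    haveI := Fact.mk hp
    obtain ⟨c, hc⟩ := exists_prime_orderOf_dvd_card' p hp1
    obtain ⟨y, hy⟩ := exists_prime_orderOf_dvd_card' p hp2
    have hc' : orderOf (c : G) = p := by rw [Subgroup.orderOf_coe, hc]
    have hy' : orderOf (y : G) = p := by rw [Subgroup.orderOf_coe, hy]
    -- `⟨y⟩` is normal in `G`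
    have hZn : (zpowers (y : G)).Normal := by
      have hconj : ∀ h : G, h * (y : G) * h⁻¹ ∈ zpowers (y : G) := by
        intro h
        let y₂ : Dc A G := ⟨h * (y : G) * h⁻¹, hDn.conj_mem _ y.2 h⟩
        have h1 : y₂ ^ p = 1 := by
          apply Subtype.ext
          show (h * (y : G) * h⁻¹) ^ p = 1
          rw [conj_pow, ← hy', pow_orderOf_eq_one]
          group
        have h2 := mem_zpowers_of_pow hp.pos hy h1
        obtain ⟨k, hk⟩ := h2
        refine ⟨k, ?_⟩
        have := congrArg Subtype.val hk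
        simpa using this
      refine ⟨fun n hn h => ?_⟩
      obtain ⟨k, rfl⟩ := hn
      show h * (y : G) ^ k * h⁻¹ ∈ _
      rw [← conj_zpow]
      exact zpow_mem (hconj h) k
    have hZp : IsPGroup p (zpowers (y : G)) := by
      apply IsPGroup.of_card (n := 1)
      rw [Nat.card_zpowers, hy', pow_one]
    have hZcp : IsPGroup p (zpowers (c : G)) := by
      apply IsPGroup.of_card (n := 1)
      rw [Nat.card_zpowers, hc', pow_one]
    have hsup : IsPGroup p ((zpowers (c : G) ⊔ zpowers (y : G) : Subgroup G)) :=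
      IsPGroup.to_sup_of_normal_right hZcp hZp
    obtain ⟨P, hP⟩ := hsup.exists_le_sylow
    haveI hPc : IsCyclic (P : Subgroup G) := hcyc p P
    have hyP : (y : G) ∈ (P : Subgroup G) := hP ((le_sup_right : zpowers (y : G) ≤ _) (mem_zpowers _))
    have hcP : (c : G) ∈ (P : Subgroup G) := hP ((le_sup_left : zpowers (c : G) ≤ _) (mem_zpowers _))
    let y₀ : (P : Subgroup G) := ⟨y, hyP⟩
    let c₀ : (P : Subgroup G) := ⟨c, hcP⟩
    have h1 : orderOf y₀ = p := by
      rw [← Subgroup.orderOf_coe]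
      exact hy'
    have h2 : c₀ ^ p = 1 := by
      apply Subtype.ext
      show (c : G) ^ p = 1
      rw [← hc', pow_orderOf_eq_one]
    obtain ⟨k, hk⟩ := mem_zpowers_of_pow hp.pos h1 h2
    have h3 : (c : G) = (y : G) ^ k := by
      have := congrArg Subtype.val hk
      simpa [y₀, c₀] using this.symm
    have h4 : (c : G) ∈ Dc A G := by
      rw [h3]
      exact zpow_mem y.2 k
    have h5 := hinter _ h4 c.2
    rw [h5, orderOf_one] at hc'
    exact hp.one_lt.ne hc'
  · ext x
    constructor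
    · rintro ⟨h1, h2⟩
      exact hinter x h1 h2
    · intro hx
      rw [Set.mem_singleton_iff] at hx
      subst hx
      exact ⟨one_mem _, one_mem C⟩
  · rw [eq_top_iff]
    rintro g -
    obtain ⟨d, hd, hf⟩ := hdec g
    have e : g = d⁻¹ * (d * g) := by group
    rw [e]
    exact mul_mem ((le_sup_left : Dc A G ≤ _) (inv_mem hd))
      ((le_sup_right : closure (MulAction.fixedPoints A G) ≤ _) (subset_closure hf))

end Cent

end Cfsg.Agent.Lib.ZCoprime
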