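import Mathlib
import Cfsg.Prelude
import Cfsg.Agent.Lib.ZStar
import Cfsg.Agent.Lib.CoprimeSylow
import Cfsg.Agent.Lib.PNilpC

set_option autoImplicit false
set_option linter.all false

namespace Cfsg.Agent.Lib.ZStarThree

universe u
open Subgroup

variable {G : Type u} [Group G] [Finite G]

theorem conj_odd {s u : G} (hss : s * s = 1) (huu : u * u = 1) (hodd : Odd (orderOf (s * u))) :
    ∃ l : ℕ, (s * u) ^ l * s * ((s * u) ^ l)⁻¹ = u := by
  obtain ⟨l, hl⟩ := hodd
  have hr : (s * u) ^ (2 * l + 1) = 1 := by rw [← hl]; exact pow_orderOf_eq_one _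
  have hsi : s⁻¹ = s := inv_eq_of_mul_eq_one_left hss
  have hui : u⁻¹ = u := inv_eq_of_mul_eq_one_left huu
  have hinv : s * (s * u) * s = (s * u)⁻¹ := by
    rw [mul_inv_rev, hsi, hui]
    calc s * (s * u) * s = (s * s) * u * s := by group
      _ = u * s := by rw [hss, one_mul]
  have h1 := Cfsg.Agent.Lib.ZStar.dih_conj hss hinv hr
  refine ⟨l, ?_⟩
  rw [h1, mul_inv_rev, hsi, hui]
  calc u * s * s = u * (s * s) := by group
    _ = u := by rw [hss, mul_one]

theorem main (d : G) (hd : orderOf d = 2)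
    (hprod : ∀ a ∈ conjugatesOf d, ∀ b ∈ conjugatesOf d, ∃ k : ℕ, orderOf (a * b) = 3 ^ k) :
    ∀ a ∈ conjugatesOf d, ∀ b ∈ conjugatesOf d, a * b ∈ Cfsg.pCore 3 G := by
  classical
  haveI : Fact (Nat.Prime 2) := ⟨Nat.prime_two⟩
  haveI : Fact (Nat.Prime 3) := ⟨Nat.prime_three⟩
  have hdd : d * d = 1 := by
    rw [← pow_two, ← hd]
    exact pow_orderOf_eq_one d
  have hd1 : d ≠ 1 := by
    rintro rfl
    rw [orderOf_one] at hd
    omega
  have hdi : d⁻¹ = d := inv_eq_of_mul_eq_one_left hdd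
  have hmem : ∀ g : G, g * d * g⁻¹ ∈ conjugatesOf d := fun g => isConj_iff.mpr ⟨g, rfl⟩
  have hdm : d ∈ conjugatesOf d := by
    have := hmem 1
    simpa using this
  have hIso : Cfsg.Agent.Lib.ZStar.Iso d := by
    refine ⟨hdd, hd1, fun g => ?_⟩
    obtain ⟨k, hk⟩ := hprod d hdm _ (hmem g)
    rw [hk]
    exact Odd.pow (by decide)
  obtain ⟨N, hN, hNodd, hNc⟩ := Cfsg.Agent.Lib.ZStar.zstar d hIso
  have hN2 : ¬ 2 ∣ Nat.card N := by
    intro h
    obtain ⟨m, hm⟩ := hNodd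
    omega
  have hNoddOrd : ∀ x ∈ N, Odd (orderOf x) := by
    intro x hx
    exact Odd.of_dvd_nat hNodd (Subgroup.orderOf_dvd_natCard N hx)
  have hinv3 : ∀ x ∈ N, d * x * d⁻¹ = x⁻¹ → ∃ k : ℕ, orderOf x = 3 ^ k := by
    intro x hx hxi
    obtain ⟨l, hl⟩ := hNoddOrd x hx
    have hxo : x ^ (2 * l + 1) = 1 := by rw [← hl]; exact pow_orderOf_eq_one x
    set y := x ^ (l + 1) with hy
    have hyy : y * y = x := by
      rw [hy, ← pow_add]
      have : l + 1 + (l + 1) = (2 * l + 1) + 1 := by ring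
      rw [this, pow_succ, hxo, one_mul]
    have hdy : d * y * d⁻¹ = y⁻¹ := by
      rw [hy, ← conj_pow, hxi, inv_pow]
    have h1 : d * (y * d * y⁻¹) = x⁻¹ := by
      have h2 : d * y * d = y⁻¹ := by
        rw [hdi] at hdy
        exact hdy
      calc d * (y * d * y⁻¹) = (d * y * d) * y⁻¹ := by group
        _ = y⁻¹ * y⁻¹ := by rw [h2]
        _ = (y * y)⁻¹ := by group
        _ = x⁻¹ := by rw [hyy]
    obtain ⟨k, hk⟩ := hprod d hdm _ (hmem y)
    rw [h1, orderOf_inv] at hk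
    exact ⟨k, hk⟩
  set C : Subgroup N := (centralizer ({d} : Set G)).subgroupOf N with hC
  have memC : ∀ c : N, c ∈ C ↔ (c : G) * d = d * c := by
    intro c
    rw [hC, mem_subgroupOf]
    exact mem_centralizer_singleton_iff
  have hzp : IsPGroup 2 (zpowers d) := by
    rw [IsPGroup.iff_card, Nat.card_zpowers, hd]
    exact ⟨1, by norm_num⟩
  have hconjN : ∀ a ∈ zpowers d, ∀ l ∈ N, a * l * a⁻¹ ∈ N := fun a _ l hl => hN.conj_mem l hl a
  have hprimes : ∀ r : ℕ, r.Prime → r ∣ C.index → r = 3 := by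
    intro r hr hdvd
    by_contra hr3
    haveI : Fact r.Prime := ⟨hr⟩
    obtain ⟨R, hR⟩ := Cfsg.Agent.Lib.CoprimeSylow.exists_invariant_sylow (p := 2) (r := r)
      (zpowers d) N hzp hN2 hconjN
    have hdz : d ∈ zpowers d := mem_zpowers d
    have hRC : (R : Subgroup N) ≤ C := by
      intro w hw
      rw [memC]
      have hcw : d * (w : G) * d⁻¹ ∈ N := hN.conj_mem _ w.2 d
      have hw' : (⟨d * (w : G) * d⁻¹, hcw⟩ : N) ∈ (R : Subgroup N) := hR d hdz w hw hcw
      set e : N := w⁻¹ * ⟨d * (w : G) * d⁻¹, hcw⟩ with he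
      have heR : e ∈ (R : Subgroup N) := (R : Subgroup N).mul_mem ((R : Subgroup N).inv_mem hw) hw'
      have hee : (e : G) = (w : G)⁻¹ * (d * w * d⁻¹) := rfl
      have hei : d * (e : G) * d⁻¹ = (e : G)⁻¹ := by
        rw [hee]
        calc d * ((w : G)⁻¹ * (d * w * d⁻¹)) * d⁻¹
            = d * (w : G)⁻¹ * d⁻¹ * (d * d) * w * (d⁻¹ * d⁻¹) := by group
          _ = d * (w : G)⁻¹ * d⁻¹ * w := by
            rw [hdd, hdi, hdd]
            group
          _ = ((w : G)⁻¹ * (d * w * d⁻¹))⁻¹ := by group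
      obtain ⟨k, hk⟩ := hinv3 (e : G) e.2 hei
      obtain ⟨m, hm⟩ := IsPGroup.iff_orderOf.mp R.isPGroup' ⟨e, heR⟩
      have hm' : orderOf (e : G) = r ^ m := by
        have h1 : orderOf (⟨e, heR⟩ : (R : Subgroup N)) = orderOf e := Subgroup.orderOf_mk e heR
        have h2 : orderOf e = orderOf (e : G) := (Subgroup.orderOf_coe e).symm
        rw [← h2, ← h1, hm]
      have hk0 : k = 0 := by
        by_contra hk0
        have h3 : 3 ∣ r ^ m := by
          rw [← hm', hk]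
          exact dvd_pow_self 3 hk0
        have h4 := (Nat.prime_three.dvd_of_dvd_pow h3)
        exact hr3 ((Nat.prime_dvd_prime_iff_eq Nat.prime_three hr).mp h4).symm
      rw [hk0, pow_zero, orderOf_eq_one_iff] at hk
      rw [hee] at hk
      have h5 : d * (w : G) * d⁻¹ = w := by
        have := inv_mul_eq_one.mp hk
        exact this.symm
      calc (w : G) * d = (d * (w : G) * d⁻¹) * d := by rw [h5]
        _ = d * w * (d⁻¹ * d) := by group
        _ = d * w := by rw [inv_mul_cancel, mul_one]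
    have h1 := Subgroup.index_dvd_of_le hRC
    exact R.not_dvd_index (hdvd.trans h1)
  have hidx : C.index = 3 ^ C.index.primeFactorsList.length :=
    Nat.eq_prime_pow_of_unique_prime_dvd Subgroup.index_ne_zero_of_finite
      (fun {q} hq hqd => hprimes q hq hqd)
  obtain ⟨P, hP⟩ := Cfsg.Agent.Lib.CoprimeSylow.exists_invariant_sylow (p := 2) (r := 3)
    (zpowers d) N hzp hN2 hconjN
  set P' : Subgroup G := (P : Subgroup N).map N.subtype with hP'
  have hP'p : IsPGroup 3 P' := P.isPGroup'.map N.subtype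
  have hdP : ∀ x ∈ P', d * x * d⁻¹ ∈ P' := by
    rintro _ ⟨x, hx, rfl⟩
    have hcx : d * (x : G) * d⁻¹ ∈ N := hN.conj_mem _ x.2 d
    exact ⟨⟨_, hcx⟩, hP d (mem_zpowers d) x hx hcx, rfl⟩
  have hD : ∀ a ∈ conjugatesOf d, a * d ∈ P' := by
    intro a ha
    obtain ⟨g, rfl⟩ := isConj_iff.mp ha
    set a := g * d * g⁻¹ with hadef
    have haa : a * a = 1 := by
      calc a * a = g * (d * d) * g⁻¹ := by rw [hadef]; group
        _ = 1 := by rw [hdd]; group
    obtain ⟨l, hl⟩ := conj_odd hdd haa (by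
      obtain ⟨k, hk⟩ := hprod d hdm a ha
      rw [hk]
      exact Odd.pow (by decide))
    have hdaN : d * a ∈ N := by
      have h1 := hNc g
      have h2 : d * a = d * g * d⁻¹ * g⁻¹ := by
        rw [hadef, hdi]
        group
      rw [h2]
      exact h1
    set y : N := ⟨(d * a) ^ l, N.pow_mem hdaN l⟩ with hy
    obtain ⟨x, hx, c, hc, hyxc⟩ := Cfsg.Agent.Lib.PNilpC.exists_mul_of_index_ppow (p := 3) C hidx P y
    have hcd := (memC c).mp hc
    have h1 : a = (x : G) * d * (x : G)⁻¹ := by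
      have h2 : ((d * a) ^ l) = (x : G) * c := by
        have := congrArg Subtype.val hyxc
        exact this
      rw [← hl, h2]
      calc (x : G) * c * d * ((x : G) * c)⁻¹ = (x : G) * (c * d) * (c : G)⁻¹ * (x : G)⁻¹ := by group
        _ = (x : G) * (d * c) * (c : G)⁻¹ * (x : G)⁻¹ := by rw [hcd]
        _ = _ := by group
    have h3 : (x : G)⁻¹ ∈ P' := P'.inv_mem ⟨x, hx, rfl⟩
    have h4 := hdP _ h3
    have h5 : a * d = (x : G) * (d * (x : G)⁻¹ * d⁻¹) := by
      rw [h1, hdi]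
      group
    rw [h5]
    exact P'.mul_mem ⟨x, hx, rfl⟩ h4
  have hprodP : ∀ a ∈ conjugatesOf d, ∀ b ∈ conjugatesOf d, a * b ∈ P' := by
    intro a ha b hb
    have h1 := hD a ha
    have h2 := P'.inv_mem (hD b hb)
    obtain ⟨g, rfl⟩ := isConj_iff.mp hb
    have hbi : (g * d * g⁻¹)⁻¹ = g * d * g⁻¹ := by
      rw [mul_inv_rev, mul_inv_rev, hdi, inv_inv, mul_assoc]
    have h3 : a * (g * d * g⁻¹) = a * d * (g * d * g⁻¹ * d)⁻¹ := by
      rw [mul_inv_rev, hdi, hbi]
      calc a * (g * d * g⁻¹) = a * (d * d) * (g * d * g⁻¹) := by rw [hdd, mul_one]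
        _ = _ := by group
    rw [h3]
    exact P'.mul_mem h1 h2
  set S : Set G := {w | ∃ a ∈ conjugatesOf d, ∃ b ∈ conjugatesOf d, w = a * b} with hS
  set Q := normalClosure S with hQ
  have hQle : Q ≤ P' := by
    show closure (Group.conjugatesOfSet S) ≤ P'
    rw [closure_le]
    intro w hw
    obtain ⟨s, hs, hc⟩ := Group.mem_conjugatesOfSet_iff.1 hw
    obtain ⟨a, ha, b, hb, rfl⟩ := hs
    obtain ⟨g, rfl⟩ := isConj_iff.1 hc
    have hg : ∀ t ∈ conjugatesOf d, g * t * g⁻¹ ∈ conjugatesOf d := by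
      intro t ht
      obtain ⟨g', rfl⟩ := isConj_iff.mp ht
      have := hmem (g * g')
      have e : g * (g' * d * g'⁻¹) * g⁻¹ = (g * g') * d * (g * g')⁻¹ := by group
      rw [e]
      exact this
    have e : g * (a * b) * g⁻¹ = (g * a * g⁻¹) * (g * b * g⁻¹) := by group
    rw [SetLike.mem_coe, e]
    exact hprodP _ (hg a ha) _ (hg b hb)
  have hQn : Q.Normal := normalClosure_normal
  have hQp : IsPGroup 3 Q := hP'p.to_le hQle
  have hQcore : Q ≤ Cfsg.pCore 3 G := le_sSup ⟨hQn, hQp⟩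
  intro a ha b hb
  exact hQcore (subset_normalClosure ⟨a, ha, b, hb, rfl⟩)

end Cfsg.Agent.Lib.ZStarThree
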